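import Cfsg.Agent.Lib.BPair.CenBlock
import Cfsg.Agent.Lib.Block.Subsect

/-!
# Subsections of a block with abelian defect group

For a maximal pair `(P, c)` with `P` abelian, the classes of subsections of the block correspond to the orbits
of the stabilizer `T` of `c` on `P`.
-/

set_option autoImplicit false
set_option linter.unusedSectionVars false
set_option linter.unusedSimpArgs false
set_option linter.unusedVariables false
set_option linter.style.haveILetI false

open scoped ComplexConjugate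
open Cfsg MonoidAlgebra
open Cfsg.Agent.Lib.Block Cfsg.Agent.Lib.Char Cfsg.Agent.Lib.CharExtra Cfsg.Agent.Lib.BPair

namespace Cfsg.Agent.Lib.FF

attribute [local instance] Cfsg.Agent.Lib.BPair.subFintype

section Pairs

variable {G : Type*} [Group G] [Fintype G] {M : Ideal AlgInt} [hMp : M.IsPrime] {p : ℕ} [hp : Fact p.Prime]
  {B : Set (IrrCharacter G)} {P : Subgroup G} {c : Set (IrrCharacter (Cen P))}

/-- `(x, b)` is conjugate to the subpair of `(P, c)` at `v`. -/
def RelV (p : ℕ) (M : Ideal AlgInt) (P : Subgroup G) (c : Set (IrrCharacter (Cen P))) (x : G)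
    (b : Set (IrrCharacter (Cen (Subgroup.zpowers x)))) (v : G) : Prop :=
  ∃ g : G, g * x * g⁻¹ = v ∧ SubpairLE p M (cj g (Subgroup.zpowers x)) (conjBlock (Subgroup.zpowers x) g b) P c

theorem mem_cj_zpowers (g x : G) : g * x * g⁻¹ ∈ cj g (Subgroup.zpowers x) :=
  conj_mem_cj.2 (Subgroup.mem_zpowers x)

theorem RelV.mem {x : G} {b : Set (IrrCharacter (Cen (Subgroup.zpowers x)))} {v : G} (h : RelV p M P c x b v) : v ∈ P := by
  obtain ⟨g, rfl, hg⟩ := h
  exact le_of_subpairLE hg (mem_cj_zpowers g x)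

theorem exists_relV (hM : IsPModular p M) (hmax : IsMaximalBrauerPair p M B P c) {x : G}
    {b : Set (IrrCharacter (Cen (Subgroup.zpowers x)))} (hb : IsBrauerPairOf p M B (Subgroup.zpowers x) b) :
    ∃ v, RelV p M P c x b v := by
  obtain ⟨g, hg⟩ := exists_conj_subpair hM hmax hb
  exact ⟨_, g, rfl, hg⟩

/-- Every `v` conjugate to `x` comes from a pair at `x`. -/
theorem exists_pair_of_conj (hM : IsPModular p M) (hmax : IsMaximalBrauerPair p M B P c) {x g : G}
    (hv : g * x * g⁻¹ ∈ P) (hxp : IsPGroup p (Subgroup.zpowers x)) :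
    ∃ b : Set (IrrCharacter (Cen (Subgroup.zpowers x))), IsBrauerPairOf p M B (Subgroup.zpowers x) b ∧ RelV p M P c x b (g * x * g⁻¹) := by
  classical
  have hPe := (isBrauerPairOf_iff.1 hmax.1).1
  have hle : cj g (Subgroup.zpowers x) ≤ P := by
    rintro _ ⟨w, hw, rfl⟩
    obtain ⟨k, rfl⟩ := Subgroup.mem_zpowers_iff.1 hw
    show g * x ^ k * g⁻¹ ∈ P
    rw [← conj_zpow]
    exact P.zpow_mem hv k
  obtain ⟨f, ⟨hf, hfle⟩, -⟩ := existsUnique_subpair hM hPe hle
  refine ⟨mapBlock (cEquiv _ g).symm f, ?_, g, rfl, ?_⟩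
  · have h1 := isBrauerPairOf_of_le hM hmax hfle
    have h2 := isBrauerPairOf_conj (x := g⁻¹) h1
    have h3 : (fun a : BrauerPairIdx G => IsBrauerPairOf p M B a.1 a.2)
        (conjIdx g⁻¹ (conjIdx g ⟨Subgroup.zpowers x, mapBlock (cEquiv _ g).symm f⟩)) := by
      show IsBrauerPairOf p M B (cj g⁻¹ (cj g (Subgroup.zpowers x))) (conjBlock _ g⁻¹ (conjBlock (Subgroup.zpowers x) g (mapBlock (cEquiv _ g).symm f)))
      rw [conjBlock_eq (Subgroup.zpowers x) g, mapBlock_mapBlock_symm]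
      exact h2
    rw [conjIdx_inv] at h3
    exact h3
  · rw [conjBlock_eq, mapBlock_mapBlock_symm]
    exact hfle

theorem idx_eq_of_le (hM : IsPModular p M) (hPe : IsBrauerPair p M P c) {a a' : BrauerPairIdx G}
    (h : Relation.ReflTransGen (NormalSubpairRel p M) a ⟨P, c⟩)
    (h' : Relation.ReflTransGen (NormalSubpairRel p M) a' ⟨P, c⟩) (hfst : a.1 = a'.1) : a = a' := by
  obtain ⟨A, a2⟩ := a
  obtain ⟨A', a2'⟩ := a'
  obtain rfl : A = A' := hfst
  have hle : SubpairLE p M A a2 P c := h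
  have hle' : SubpairLE p M A a2' P c := h'
  have hb := (isBrauerPair_of_subpairLE hPe hle).2
  have hb' := (isBrauerPair_of_subpairLE hPe hle').2
  have := (existsUnique_subpair hM hPe (le_of_subpairLE hle)).unique ⟨hb, hle⟩ ⟨hb', hle'⟩
  rw [this]

theorem cj_zpowers_eq (g x : G) : cj g (Subgroup.zpowers x) = Subgroup.zpowers (g * x * g⁻¹) := by
  show (Subgroup.zpowers x).map (MulAut.conj g).toMonoidHom = _
  rw [MonoidHom.map_zpowers]
  rfl

/-- The block `b` is determined by `v`. -/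
theorem RelV.unique (hM : IsPModular p M) (hPe : IsBrauerPair p M P c) {x v : G}
    {b b' : Set (IrrCharacter (Cen (Subgroup.zpowers x)))} (hb : IsPBlock M b)
    (h : RelV p M P c x b v) (h' : RelV p M P c x b' v) : b = b' := by
  obtain ⟨g, hg, hle⟩ := h
  obtain ⟨g', hg', hle'⟩ := h'
  have hfst : (conjIdx g ⟨Subgroup.zpowers x, b⟩).1 = (conjIdx g' ⟨Subgroup.zpowers x, b'⟩).1 := by
    show cj g (Subgroup.zpowers x) = cj g' (Subgroup.zpowers x)
    rw [cj_zpowers_eq, cj_zpowers_eq, hg, hg']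
  have h1 := idx_eq_of_le hM hPe (a := conjIdx g ⟨Subgroup.zpowers x, b⟩) (a' := conjIdx g' ⟨Subgroup.zpowers x, b'⟩) hle hle' hfst
  have h2 := congrArg (conjIdx g'⁻¹) h1
  rw [conjIdx_inv, conjIdx_mul] at h2
  have hs : g'⁻¹ * g ∈ Cen (Subgroup.zpowers x) := by
    unfold Cen
    rw [centralizer_zpowers_eq, mem_centralizer_singleton]
    have h3 : g * x * g⁻¹ = g' * x * g'⁻¹ := by rw [hg, hg']
    calc g'⁻¹ * g * x = g'⁻¹ * (g * x * g⁻¹) * g := by group
      _ = g'⁻¹ * (g' * x * g'⁻¹) * g := by rw [h3]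
      _ = x * (g'⁻¹ * g) := by group
  have h3 := conjIdx_eq_of_stabilizes hb (cen_le_normalizer _ hs) (stabilizes_of_mem_cen hs)
  rw [h3] at h2
  have h4 := (Sigma.mk.inj_iff.1 h2).2
  exact eq_of_heq h4

/-- Conjugates of subpairs of `(P, c)` inside `(P, c)` come from the stabilizer. -/
theorem exists_stab_of_conj (hM : IsPModular p M) (hmax : IsMaximalBrauerPair p M B P c)
    (hab : ∀ x ∈ P, ∀ y ∈ P, x * y = y * x) {Q Q' : Subgroup G} {f : Set (IrrCharacter (Cen Q))}
    {f' : Set (IrrCharacter (Cen Q'))} (hle : SubpairLE p M Q f P c) (hle' : SubpairLE p M Q' f' P c) {y : G}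
    (hy : conjIdx y ⟨Q, f⟩ = ⟨Q', f'⟩) :
    ∃ c₀ ∈ Cen Q', c₀ * y ∈ Subgroup.normalizer (P : Set G) ∧ StabilizesBlock (Cen P) c (c₀ * y) := by
  classical
  have hPe := (isBrauerPairOf_iff.1 hmax.1).1
  have hf' : IsPBlock M f' := (isBrauerPair_of_subpairLE hPe hle').2
  have hQ'P := le_of_subpairLE hle'
  have hQ'e : Q' = cj y Q := (congrArg Sigma.fst hy).symm
  have hQP := le_of_subpairLE hle
  have hQ'y : Q' ≤ cj y P := by
    rw [hQ'e]
    exact Subgroup.map_mono hQP
  have h1 : Relation.ReflTransGen (NormalSubpairRel p M) (conjIdx y ⟨Q, f⟩) (conjIdx y ⟨P, c⟩) := chain_conj y hle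
  rw [hy] at h1
  have hcen : cj y P ≤ Cen Q' := by
    rintro _ ⟨u, hu, rfl⟩
    rw [Subgroup.mem_centralizer_iff]
    intro w hw
    have hw' : w ∈ cj y P := hQ'y hw
    rw [mem_cj] at hw'
    have h2 := hab _ hw' u hu
    show w * (y * u * y⁻¹) = (y * u * y⁻¹) * w
    calc w * (y * u * y⁻¹) = y * ((y⁻¹ * w * y) * u) * y⁻¹ := by group
      _ = y * (u * (y⁻¹ * w * y)) * y⁻¹ := by rw [h2]
      _ = (y * u * y⁻¹) * w := by group
  have hN : (conjIdx y ⟨P, c⟩).1 ≤ Subgroup.normalizer (((⟨Q', f'⟩ : BrauerPairIdx G)).1 : Set G) :=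
    hcen.trans (cen_le_normalizer Q')
  have hn := normal_of_chain hM h1 (isBrauerPair_of_subpairLE hPe hle') hN
  obtain ⟨T', hT'⟩ := exists_pairT hf'
  obtain ⟨F₀, hF₀, hc₀, hdef⟩ := fnorm_of_abelian hM hmax hab hle' T' hT'
  have hSL : cj y P ≤ (P ⊓ Subgroup.normalizer (Q' : Set G)) ⊔ Cen Q' := hcen.trans le_sup_right
  obtain ⟨c₀, hc₀m, hch⟩ := exists_cen_conj hM hmax hle' hf' hT' hF₀ hc₀ hdef hSL hn
  have hch' : Relation.ReflTransGen (NormalSubpairRel p M) (conjIdx c₀ (conjIdx y ⟨P, c⟩)) ⟨P, c⟩ := hch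
  rw [conjIdx_mul] at hch'
  have hcj : cj (c₀ * y) P = P := eq_of_cj_le (le_of_subpairLE hch')
  have h4 := eq_of_chain_of_fst_eq hM hPe hch' hcj
  obtain ⟨h5, h6⟩ := stabilizes_of_conjIdx_eq hPe.2 h4
  exact ⟨c₀, hc₀m, h5, h6⟩

/-- Two points of `P` over the same pair are conjugate under the stabilizer. -/
theorem RelV.exists_stab (hM : IsPModular p M) (hmax : IsMaximalBrauerPair p M B P c)
    (hab : ∀ x ∈ P, ∀ y ∈ P, x * y = y * x) {x v v' : G} {b : Set (IrrCharacter (Cen (Subgroup.zpowers x)))}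
    (h : RelV p M P c x b v) (h' : RelV p M P c x b v') :
    ∃ t : G, t ∈ Subgroup.normalizer (P : Set G) ∧ StabilizesBlock (Cen P) c t ∧ t * v * t⁻¹ = v' := by
  obtain ⟨g, rfl, hle⟩ := h
  obtain ⟨g', rfl, hle'⟩ := h'
  have hy : conjIdx (g' * g⁻¹) ⟨cj g (Subgroup.zpowers x), conjBlock (Subgroup.zpowers x) g b⟩ =
      ⟨cj g' (Subgroup.zpowers x), conjBlock (Subgroup.zpowers x) g' b⟩ := by
    have h1 : conjIdx (g' * g⁻¹) (conjIdx g ⟨Subgroup.zpowers x, b⟩) = conjIdx g' ⟨Subgroup.zpowers x, b⟩ := by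
      rw [conjIdx_mul]
      congr 1
      group
    exact h1
  obtain ⟨c₀, hc₀, h1, h2⟩ := exists_stab_of_conj hM hmax hab hle hle' hy
  refine ⟨_, h1, h2, ?_⟩
  have h3 : c₀ * (g' * x * g'⁻¹) = (g' * x * g'⁻¹) * c₀ :=
    (Subgroup.mem_centralizer_iff.1 hc₀ _ (mem_cj_zpowers g' x)).symm
  calc c₀ * (g' * g⁻¹) * (g * x * g⁻¹) * (c₀ * (g' * g⁻¹))⁻¹ = c₀ * (g' * x * g'⁻¹) * c₀⁻¹ := by group
    _ = g' * x * g'⁻¹ := by rw [h3]; group

/-- The stabilizer moves a point over a pair to a point over the same pair. -/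
theorem RelV.stab (hPe : IsBrauerPair p M P c) {x v t : G} {b : Set (IrrCharacter (Cen (Subgroup.zpowers x)))}
    (h : RelV p M P c x b v) (ht : t ∈ Subgroup.normalizer (P : Set G)) (hs : StabilizesBlock (Cen P) c t) :
    RelV p M P c x b (t * v * t⁻¹) := by
  obtain ⟨g, rfl, hle⟩ := h
  refine ⟨t * g, by group, ?_⟩
  have h1 : Relation.ReflTransGen (NormalSubpairRel p M) (conjIdx t (conjIdx g ⟨Subgroup.zpowers x, b⟩)) (conjIdx t ⟨P, c⟩) :=
    chain_conj t hle
  rw [conjIdx_mul, conjIdx_eq_of_stabilizes hPe.2 ht hs] at h1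
  exact h1

end Pairs

section Orbit

variable {G : Type*} [Group G] [Finite G]

/-- Orbit-stabilizer for conjugation by a subgroup. -/
theorem card_conj_orbit (T A : Subgroup G) (v₀ : G) (h : ∀ t ∈ T, (t * v₀ * t⁻¹ = v₀ ↔ t ∈ A)) :
    Nat.card {w : G // ∃ t ∈ T, t * v₀ * t⁻¹ = w} = A.relIndex T := by
  classical
  have hmap : ∀ a b : T, (a : G) * v₀ * (a : G)⁻¹ = (b : G) * v₀ * (b : G)⁻¹ ↔ ((a : G)⁻¹ * b ∈ A) := by
    intro a b
    rw [← h _ (T.mul_mem (T.inv_mem a.2) b.2)]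
    constructor
    · intro h1
      calc (a : G)⁻¹ * b * v₀ * ((a : G)⁻¹ * b)⁻¹ = (a : G)⁻¹ * ((b : G) * v₀ * (b : G)⁻¹) * a := by group
        _ = (a : G)⁻¹ * ((a : G) * v₀ * (a : G)⁻¹) * a := by rw [h1]
        _ = v₀ := by group
    · intro h1
      calc (a : G) * v₀ * (a : G)⁻¹ = (a : G) * ((a : G)⁻¹ * b * v₀ * ((a : G)⁻¹ * b)⁻¹) * (a : G)⁻¹ := by rw [h1]
        _ = (b : G) * v₀ * (b : G)⁻¹ := by group
  let q : T ⧸ A.subgroupOf T → {w : G // ∃ t ∈ T, t * v₀ * t⁻¹ = w} :=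
    Quotient.lift (fun t : T => ⟨(t : G) * v₀ * (t : G)⁻¹, t, t.2, rfl⟩) (by
      intro a b hab
      apply Subtype.ext
      have h1 : a⁻¹ * b ∈ A.subgroupOf T := QuotientGroup.leftRel_apply.1 hab
      rw [Subgroup.mem_subgroupOf] at h1
      exact (hmap a b).2 (by simpa using h1))
  have hq : Function.Bijective q := by
    constructor
    · intro a b
      induction a using QuotientGroup.induction_on with
      | H a =>
        induction b using QuotientGroup.induction_on with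
        | H b =>
          intro hab
          have h1 : (a : G) * v₀ * (a : G)⁻¹ = (b : G) * v₀ * (b : G)⁻¹ := congrArg Subtype.val hab
          rw [QuotientGroup.eq, Subgroup.mem_subgroupOf]
          simpa using (hmap a b).1 h1
    · rintro ⟨w, t, ht, rfl⟩
      exact ⟨((⟨t, ht⟩ : T) : T ⧸ A.subgroupOf T), rfl⟩
  rw [← Nat.card_congr (Equiv.ofBijective q hq)]
  rfl

end Orbit

section Rank

variable {H K : Type*} [Group H] [Group K] {p : ℕ}

/-- The `p`-regular rank is invariant under isomorphism. -/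
theorem blockRank_mapBlock (φ : H ≃* K) (A : Set (IrrCharacter H)) :
    blockRank p (mapBlock φ A) = blockRank p A := by
  rw [blockRank_eq_finrank, blockRank_eq_finrank]
  let L : (H → ℂ) ≃ₗ[ℂ] (K → ℂ) := LinearEquiv.funCongrLeft ℂ ℂ φ.symm.toEquiv
  have hL : ∀ (f : H → ℂ) (k : K), L f k = f (φ.symm k) := fun f k => rfl
  have h1 : regSpan p (mapBlock φ A) = (regSpan p A).map (L : (H → ℂ) →ₗ[ℂ] (K → ℂ)) := by
    rw [Submodule.map_span]
    refine congrArg (Submodule.span ℂ) ?_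
    ext f
    constructor
    · rintro ⟨_, ⟨θ, hθ, rfl⟩, rfl⟩
      refine ⟨_, ⟨θ, hθ, rfl⟩, ?_⟩
      funext k
      show L (pRegularPart p (θ : H → ℂ)) k = pRegularPart p (mapIrr φ θ : K → ℂ) k
      rw [hL]
      by_cases hk : p ∣ orderOf k
      · rw [pRegularPart_of_sing hk, pRegularPart_of_sing (by rwa [MulEquiv.orderOf_eq])]
      · rw [pRegularPart_of_reg hk, pRegularPart_of_reg (by rwa [MulEquiv.orderOf_eq])]
        rfl
    · rintro ⟨_, ⟨θ, hθ, rfl⟩, rfl⟩
      refine ⟨_, ⟨θ, hθ, rfl⟩, ?_⟩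
      funext k
      show pRegularPart p (mapIrr φ θ : K → ℂ) k = L (pRegularPart p (θ : H → ℂ)) k
      rw [hL]
      by_cases hk : p ∣ orderOf k
      · rw [pRegularPart_of_sing hk, pRegularPart_of_sing (by rwa [MulEquiv.orderOf_eq])]
      · rw [pRegularPart_of_reg hk, pRegularPart_of_reg (by rwa [MulEquiv.orderOf_eq])]
        rfl
  rw [h1]
  exact LinearEquiv.finrank_map_eq L _

end Rank

section One

variable {G : Type*} [Group G] [Fintype G] {M : Ideal AlgInt} [hMp : M.IsPrime] {p : ℕ} [hp : Fact p.Prime]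
  {B : Set (IrrCharacter G)}

/-- The isomorphism of `G` with a subgroup containing all elements. -/
def equivOfAll (H : Subgroup G) (hH : ∀ g, g ∈ H) : G ≃* H where
  toFun g := ⟨g, hH g⟩
  invFun h := h
  left_inv _ := rfl
  right_inv _ := rfl
  map_mul' _ _ := rfl

theorem inducedCentralChar_of_all (H : Subgroup G) (hH : ∀ g, g ∈ H) (ξ : IrrCharacter H) (g : G) :
    inducedCentralChar H (ξ : H → ℂ) g = centralChar (mapIrr (equivOfAll H hH).symm ξ : G → ℂ) g := by
  classical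
  obtain ⟨ψ, hψ⟩ : ∃ ψ, ψ = mapIrr (equivOfAll H hH).symm ξ := ⟨_, rfl⟩
  rw [← hψ]
  have hv : ∀ h : H, (ξ : H → ℂ) h = (ψ : G → ℂ) h := fun h => by
    rw [hψ]
    rfl
  rw [← om_classSum (IsCharacter.isClassFunction (IsIrrCharacter.isCharacter ψ.2)), inducedCentralChar_eq_sum]
  unfold om tr
  rw [Finset.sum_div]
  have h1 : (1 : G) = ((1 : H) : G) := rfl
  rw [← Equiv.sum_comp (equivOfAll H hH).toEquiv]
  refine Finset.sum_congr rfl fun x _ => ?_
  have e1 : (equivOfAll H hH).toEquiv x = (⟨x, hH x⟩ : H) := rfl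
  rw [e1, coeff_classSum, hv, hv]
  simp only
  split_ifs
  · simp
  · simp

theorem indSet_of_all (hM : IsPModular p M) (hB : IsPBlock M B) (H : Subgroup G) (hH : ∀ g, g ∈ H) :
    indSet M H B = mapBlock (equivOfAll H hH) B := by
  ext ξ
  rw [mem_mapBlock]
  constructor
  · rintro ⟨χ', hχ', hc⟩
    simp only [inducedCentralChar_of_all H hH ξ] at hc
    rw [blockOf_eq_of_mem hB hχ']
    exact sameBlock_symm hc
  · intro h
    refine ⟨_, h, fun g => ?_⟩
    rw [inducedCentralChar_of_all H hH ξ, sub_self]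
    exact memLocalIdeal_zero

theorem mem_centralizer_one' (g : G) : g ∈ Subgroup.centralizer ({1} : Set G) := by
  rw [mem_centralizer_singleton]
  simp

/-- The term of the identity in Brauer's formula. -/
theorem term_one (hM : IsPModular p M) (hB : IsPBlock M B) :
    ∑ᶠ b ∈ {b : Set (IrrCharacter (Subgroup.centralizer ({1} : Set G))) |
      IsInducedBlock M (Subgroup.centralizer ({1} : Set G)) b B}, blockRank p b = blockRank p B := by
  rw [← blockRank_indSet_eq hM _ hB, indSet_of_all hM hB _ mem_centralizer_one', blockRank_mapBlock]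

/-- A term with only blocks of rank one. -/
theorem term_of_rank_one (H : Subgroup G) (h : ∀ b : Set (IrrCharacter H), IsInducedBlock M H b B → blockRank p b = 1) :
    ∑ᶠ b ∈ {b : Set (IrrCharacter H) | IsInducedBlock M H b B}, blockRank p b =
      Nat.card {b : Set (IrrCharacter H) // IsInducedBlock M H b B} := by
  classical
  have h1 : {b : Set (IrrCharacter H) | IsInducedBlock M H b B} =
      ((Finset.univ.filter fun b : Set (IrrCharacter H) => IsInducedBlock M H b B : Finset _) : Set _) := by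
    ext b
    simp
  rw [h1, finsum_mem_coe_finset, Finset.sum_congr rfl (g := fun _ => 1) (fun b hb => h b (by simpa using hb)), Nat.card_eq_fintype_card, Fintype.card_subtype]
  simp

end One

section Count

variable {G : Type*} [Group G] [Fintype G] {M : Ideal AlgInt} [hMp : M.IsPrime] {p : ℕ} [hp : Fact p.Prime]
  {B : Set (IrrCharacter G)} {P : Subgroup G} {c : Set (IrrCharacter (Cen P))}

theorem isPGroup_zpowers_of_order {x : G} (hx : ∃ k, orderOf x = p ^ k) : IsPGroup p (Subgroup.zpowers x) := by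
  obtain ⟨k, hk⟩ := hx
  exact IsPGroup.of_card (n := k) (by rw [Nat.card_zpowers, hk])

theorem order_of_mem_pGroup (hP : IsPGroup p P) {v : G} (hv : v ∈ P) : ∃ k, orderOf v = p ^ k := by
  obtain ⟨k, hk⟩ := hP ⟨v, hv⟩
  have h1 : v ^ p ^ k = 1 := congrArg Subtype.val hk
  obtain ⟨m, -, hm⟩ := (Nat.dvd_prime_pow hp.out).1 (orderOf_dvd_of_pow_eq_one h1)
  exact ⟨m, hm⟩

open Classical in
/-- **The number of classes of subsections, for a free action.** -/
theorem sum_card_pairs (hM : IsPModular p M) (hmax : IsMaximalBrauerPair p M B P c)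
    (hab : ∀ x ∈ P, ∀ y ∈ P, x * y = y * x) {T : Subgroup G}
    (hT : ∀ g : G, g ∈ T ↔ g ∈ Subgroup.normalizer (P : Set G) ∧ StabilizesBlock (Cen P) c g)
    (hfree : ∀ g ∈ T, ∀ x ∈ P, x ≠ 1 → g * x * g⁻¹ = x → g ∈ Cen P)
    (X : Finset G) (hX : ∀ x ∈ X, ∃ k : ℕ, orderOf x = p ^ k)
    (hXrep : ∀ g : G, (∃ k : ℕ, orderOf g = p ^ k) → ∃! x, x ∈ X ∧ IsConj g x) :
    (∑ x ∈ X.erase 1, Nat.card {b : Set (IrrCharacter (Cen (Subgroup.zpowers x))) // IsBrauerPairOf p M B (Subgroup.zpowers x) b}) *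
      (Cen P).relIndex T = Nat.card P - 1 := by
  have hPe := (isBrauerPairOf_iff.1 hmax.1).1
  have hPp : IsPGroup p P := hPe.1
  obtain ⟨W, hW⟩ : ∃ W : Finset G, W = (Finset.univ.filter (· ∈ P)).erase 1 := ⟨_, rfl⟩
  have hmW : ∀ v, v ∈ W ↔ v ∈ P ∧ v ≠ 1 := fun v => by
    rw [hW, Finset.mem_erase, Finset.mem_filter]
    simp [and_comm]
  have hWcard : W.card = Nat.card P - 1 := by
    rw [hW, Finset.card_erase_of_mem (by simp [P.one_mem]), Nat.card_eq_fintype_card, Fintype.card_subtype]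
  obtain ⟨Sx, hSx⟩ : ∃ Sx : (x : G) → Finset (Set (IrrCharacter (Cen (Subgroup.zpowers x)))),
      Sx = fun x => Finset.univ.filter fun b => IsBrauerPairOf p M B (Subgroup.zpowers x) b := ⟨_, rfl⟩
  have hmS : ∀ x b, b ∈ Sx x ↔ IsBrauerPairOf p M B (Subgroup.zpowers x) b := fun x b => by
    rw [hSx]
    simp
  have hcardS : ∀ x, Nat.card {b : Set (IrrCharacter (Cen (Subgroup.zpowers x))) // IsBrauerPairOf p M B (Subgroup.zpowers x) b} = (Sx x).card := by
    intro x
    rw [Nat.card_eq_fintype_card, Fintype.card_subtype, hSx]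
  simp_rw [hcardS]
  rw [← hWcard]
  -- each point is over exactly one pair
  have hone : ∀ v ∈ W, ∑ x ∈ X.erase 1, ∑ b ∈ Sx x, (if RelV p M P c x b v then 1 else 0) = 1 := by
    intro v hv
    obtain ⟨hvP, hv1⟩ := (hmW v).1 hv
    have hvk := order_of_mem_pGroup hPp hvP
    obtain ⟨x₀, ⟨hx₀, hconj⟩, hx₀u⟩ := hXrep v hvk
    have hx₀1 : x₀ ≠ 1 := by
      rintro rfl
      exact hv1 (isConj_one_right.1 hconj.symm)
    obtain ⟨g, hg⟩ := isConj_iff.1 hconj.symm
    have hvP' : g * x₀ * g⁻¹ ∈ P := by rwa [hg]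
    obtain ⟨b₀, hb₀, hrel⟩ := exists_pair_of_conj hM hmax hvP' (isPGroup_zpowers_of_order (hX x₀ hx₀))
    rw [hg] at hrel
    rw [Finset.sum_eq_single x₀, Finset.sum_eq_single b₀]
    · rw [if_pos hrel]
    · intro b hb hne
      rw [if_neg]
      intro hc
      exact hne (RelV.unique hM hPe ((isBrauerPairOf_iff.1 ((hmS _ _).1 hb)).1.2) hc hrel)
    · intro h
      exact absurd ((hmS _ _).2 hb₀) h
    · intro x hx hne
      refine Finset.sum_eq_zero fun b hb => ?_
      rw [if_neg]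
      rintro ⟨g', hg', -⟩
      apply hne
      refine hx₀u x ⟨Finset.mem_of_mem_erase hx, ?_⟩
      rw [← hg']
      exact (isConj_iff.2 ⟨g', rfl⟩).symm
    · intro h
      exact absurd (Finset.mem_erase.2 ⟨hx₀1, hx₀⟩) h
  -- each pair has a full orbit
  have hfib : ∀ x ∈ X.erase 1, ∀ b ∈ Sx x, ∑ v ∈ W, (if RelV p M P c x b v then 1 else 0) = (Cen P).relIndex T := by
    intro x hx b hb
    have hx1 : x ≠ 1 := Finset.ne_of_mem_erase hx
    obtain ⟨v₀, hv₀⟩ := exists_relV hM hmax ((hmS _ _).1 hb)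
    have hne1 : ∀ v, RelV p M P c x b v → v ≠ 1 := by
      rintro v ⟨g, rfl, -⟩ h
      apply hx1
      have : x = g⁻¹ * (g * x * g⁻¹) * g := by group
      rw [this, h]
      group
    have hv₀P := hv₀.mem
    have hv₀1 := hne1 _ hv₀
    have hcen : ∀ t ∈ T, (t * v₀ * t⁻¹ = v₀ ↔ t ∈ Cen P) := by
      intro t ht
      constructor
      · exact hfree t ht v₀ hv₀P hv₀1
      · intro hc
        have := Subgroup.mem_centralizer_iff.1 hc v₀ hv₀P
        rw [← this]
        group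
    rw [← card_conj_orbit T (Cen P) v₀ hcen, Nat.card_eq_fintype_card, Fintype.card_subtype, Finset.card_filter, Finset.sum_congr rfl (g := fun v => if RelV p M P c x b v then 1 else 0) (fun _ _ => rfl)]
    rw [← Finset.sum_subset (Finset.subset_univ W)]
    · refine Finset.sum_congr rfl fun v hv => ?_
      by_cases hc : RelV p M P c x b v
      · rw [if_pos hc, if_pos]
        obtain ⟨t, h1, h2, h3⟩ := RelV.exists_stab hM hmax hab hv₀ hc
        exact ⟨t, (hT t).2 ⟨h1, h2⟩, h3⟩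
      · rw [if_neg hc, if_neg]
        rintro ⟨t, ht, rfl⟩
        obtain ⟨h1, h2⟩ := (hT t).1 ht
        exact hc (RelV.stab hPe hv₀ h1 h2)
    · intro v _ hv
      rw [if_neg]
      rintro ⟨t, ht, rfl⟩
      obtain ⟨h1, h2⟩ := (hT t).1 ht
      have h3 := RelV.stab hPe hv₀ h1 h2
      exact hv ((hmW _).2 ⟨h3.mem, hne1 _ h3⟩)
  have hdouble : W.card = ∑ x ∈ X.erase 1, (Sx x).card * (Cen P).relIndex T := by
    calc W.card = ∑ v ∈ W, 1 := by simp
      _ = ∑ v ∈ W, ∑ x ∈ X.erase 1, ∑ b ∈ Sx x, (if RelV p M P c x b v then 1 else 0) :=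
        Finset.sum_congr rfl fun v hv => (hone v hv).symm
      _ = ∑ x ∈ X.erase 1, ∑ v ∈ W, ∑ b ∈ Sx x, (if RelV p M P c x b v then 1 else 0) := Finset.sum_comm
      _ = ∑ x ∈ X.erase 1, ∑ b ∈ Sx x, ∑ v ∈ W, (if RelV p M P c x b v then 1 else 0) :=
        Finset.sum_congr rfl fun x _ => Finset.sum_comm
      _ = ∑ x ∈ X.erase 1, (Sx x).card * (Cen P).relIndex T := by
        refine Finset.sum_congr rfl fun x hx => ?_
        rw [Finset.sum_congr rfl (hfib x hx)]
        simp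
  rw [hdouble, Finset.sum_mul]

/-- A system of representatives for the classes of `p`-elements. -/
theorem exists_reps (p : ℕ) (G : Type*) [Group G] [Fintype G] : ∃ X : Finset G, (∀ x ∈ X, ∃ k : ℕ, orderOf x = p ^ k) ∧
    ∀ g : G, (∃ k : ℕ, orderOf g = p ^ k) → ∃! x, x ∈ X ∧ IsConj g x := by
  classical
  refine ⟨(Finset.univ.filter fun g : G => ∃ k : ℕ, orderOf g = p ^ k).image fun g => Quotient.out (ConjClasses.mk g), ?_, ?_⟩
  · intro x hx
    obtain ⟨g, hg, rfl⟩ := Finset.mem_image.1 hx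
    obtain ⟨k, hk⟩ := (Finset.mem_filter.1 hg).2
    have h1 : IsConj g (Quotient.out (ConjClasses.mk g)) := by
      rw [← ConjClasses.mk_eq_mk_iff_isConj]
      exact (Quotient.out_eq _).symm
    refine ⟨k, ?_⟩
    rw [← hk]
    exact (orderOf_eq_of_isConj h1).symm
  · intro g hg
    have h1 : IsConj g (Quotient.out (ConjClasses.mk g)) := by
      rw [← ConjClasses.mk_eq_mk_iff_isConj]
      exact (Quotient.out_eq _).symm
    refine ⟨_, ⟨Finset.mem_image.2 ⟨g, Finset.mem_filter.2 ⟨Finset.mem_univ _, hg⟩, rfl⟩, h1⟩, ?_⟩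
    rintro y ⟨hy, hgy⟩
    obtain ⟨g', hg', rfl⟩ := Finset.mem_image.1 hy
    have h2 : IsConj g' (Quotient.out (ConjClasses.mk g')) := by
      rw [← ConjClasses.mk_eq_mk_iff_isConj]
      exact (Quotient.out_eq _).symm
    have h3 : ConjClasses.mk g' = ConjClasses.mk g := by
      rw [ConjClasses.mk_eq_mk_iff_isConj]
      exact h2.trans hgy.symm
    rw [h3]

/-- **The number of characters of a block with abelian defect group and free inertial action.** -/
theorem card_block_eq_add_pairs (hM : IsPModular p M) (hB : IsPBlock M B) (hmax : IsMaximalBrauerPair p M B P c)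
    (hab : ∀ x ∈ P, ∀ y ∈ P, x * y = y * x) {T : Subgroup G}
    (hT : ∀ g : G, g ∈ T ↔ g ∈ Subgroup.normalizer (P : Set G) ∧ StabilizesBlock (Cen P) c g)
    (hfree : ∀ g ∈ T, ∀ x ∈ P, x ≠ 1 → g * x * g⁻¹ = x → g ∈ Cen P)
    (hrank : ∀ x : G, (∃ k : ℕ, orderOf x = p ^ k) → x ≠ 1 → ∀ b : Set (IrrCharacter (Subgroup.centralizer ({x} : Set G))),
      IsInducedBlock M (Subgroup.centralizer ({x} : Set G)) b B → blockRank p b = 1) :
    ∃ t : ℕ, Nat.card B = blockRank p B + t ∧ t * (Cen P).relIndex T = Nat.card P - 1 := by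
  classical
  obtain ⟨X, hX, hXrep⟩ := exists_reps p G
  have h1X : (1 : G) ∈ X := by
    obtain ⟨x, ⟨hx, hc⟩, -⟩ := hXrep 1 ⟨0, by simp⟩
    have : x = 1 := isConj_one_right.1 hc
    rwa [this] at hx
  have hsum := sum_card_pairs hM hmax hab hT hfree X hX hXrep
  refine ⟨_, ?_, hsum⟩
  rw [card_block_eq_sum hM hB X hX hXrep, ← Finset.add_sum_erase X _ h1X, term_one hM hB]
  congr 1
  refine Finset.sum_congr rfl fun x hx => ?_
  have hx1 : x ≠ 1 := Finset.ne_of_mem_erase hx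
  have hxk := hX x (Finset.mem_of_mem_erase hx)
  rw [term_of_rank_one (M := M) (p := p) (B := B) _ (fun b hb => hrank x hxk hx1 b hb)]
  have e1 : ∀ H : Subgroup G, H = Cen (Subgroup.zpowers x) →
      Nat.card {b : Set (IrrCharacter H) // IsInducedBlock M H b B} =
        Nat.card {b : Set (IrrCharacter (Cen (Subgroup.zpowers x))) // IsBrauerPairOf p M B (Subgroup.zpowers x) b} := by
    rintro H rfl
    refine Nat.card_congr (Equiv.subtypeEquivRight fun b => ?_)
    exact ⟨fun h => isBrauerPairOf_of_induced (isPGroup_zpowers_of_order hxk) h, fun h => isInducedBlock_of_pair hM h⟩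
  exact e1 _ (centralizer_zpowers_eq x).symm

end Count

end Cfsg.Agent.Lib.FF
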