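import Cfsg.Agent.Lib.FF.Chains
import Cfsg.Agent.Lib.Hall.Generation
import Cfsg.Agent.Lib.PSolv.Basic
import Cfsg.Agent.Lib.Core.Basic
import Cfsg.Agent.Lib.Coprime.Elem
import Cfsg.Prelude.Def_Local
import Mathlib

/-!
# Connectedness of the graph of Sylow subgroups.  Owner: helper18.
-/

set_option autoImplicit false
set_option linter.unusedSectionVars false

namespace Cfsg.Agent.Lib.FF

open Subgroup Cfsg

variable {G : Type*} [Group G] [Finite G] {p : ℕ} [hp : Fact p.Prime]

/-- Adjacency in the graph of Sylow subgroups. -/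
def SAdj (A B : Sylow p G) : Prop := A ≠ B ∧ (A : Subgroup G) ⊓ (B : Subgroup G) ≠ ⊥

theorem connected_of_adj (h : ∀ S T : Sylow p G, Relation.ReflTransGen SAdj S T) :
    IsSylowChainConnected p G := by
  intro S T
  by_cases hb : (S : Subgroup G) ⊓ (T : Subgroup G) = ⊥
  · obtain ⟨n, c, h0, hl, hi⟩ := exists_fin_chain (h S T)
    exact ⟨n, c, h0, hl, fun i => by rw [hb]; exact bot_le, hi⟩
  · by_cases hST : S = T
    · subst hST
      exact ⟨0, fun _ => S, rfl, rfl, fun _ => inf_le_left, fun i => i.elim0⟩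
    · refine ⟨1, ![S, T], rfl, rfl, ?_, ?_⟩
      · intro i
        fin_cases i
        · exact inf_le_left
        · exact inf_le_right
      · intro i
        fin_cases i
        exact ⟨hST, hb⟩

theorem adj_of_connected (h : IsSylowChainConnected p G) (S T : Sylow p G) :
    Relation.ReflTransGen SAdj S T := by
  obtain ⟨n, c, h0, hl, _, hi⟩ := h S T
  have := reflTransGen_of_fin_chain (R := SAdj) c hi
  rwa [h0, hl] at this

theorem SAdj.symm {A B : Sylow p G} (h : SAdj A B) : SAdj B A :=
  ⟨h.1.symm, by rw [inf_comm]; exact h.2⟩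

theorem reach_symm {A B : Sylow p G} (h : Relation.ReflTransGen SAdj A B) :
    Relation.ReflTransGen SAdj B A := by
  induction h with
  | refl => exact Relation.ReflTransGen.refl
  | tail _ hbc ih => exact Relation.ReflTransGen.head (SAdj.symm hbc) ih

theorem SAdj.smul {A B : Sylow p G} (g : G) (h : SAdj A B) : SAdj (g • A) (g • B) := by
  refine ⟨fun e => h.1 (smul_left_cancel g e), ?_⟩
  intro e
  apply h.2
  rw [coe_smul_sylow, coe_smul_sylow, ← Subgroup.map_inf _ _ _ (MulEquiv.injective _)] at e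
  exact (Subgroup.map_eq_bot_iff_of_injective _ (MulEquiv.injective _)).mp e

theorem reach_smul {A B : Sylow p G} (g : G) (h : Relation.ReflTransGen SAdj A B) :
    Relation.ReflTransGen SAdj (g • A) (g • B) := by
  induction h with
  | refl => exact Relation.ReflTransGen.refl
  | tail _ hbc ih => exact ih.tail (hbc.smul g)

/-- The stabilizer of the connected component of `P`. -/
def compStab (P : Sylow p G) : Subgroup G where
  carrier := {g | Relation.ReflTransGen SAdj P (g • P)}
  mul_mem' := by
    intro a b ha hb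
    have := reach_smul a hb
    rw [← mul_smul] at this
    exact Relation.ReflTransGen.trans ha this
  one_mem' := by
    change Relation.ReflTransGen SAdj P ((1 : G) • P)
    rw [one_smul]
  inv_mem' := by
    intro a ha
    have := reach_smul a⁻¹ ha
    rw [inv_smul_smul] at this
    exact reach_symm this

theorem normalizer_le_compStab (P : Sylow p G) {Q : Subgroup G} (hQ : Q ≤ (P : Subgroup G)) (hQne : Q ≠ ⊥) :
    normalizer (Q : Set G) ≤ compStab P := by
  intro g hg
  change Relation.ReflTransGen SAdj P (g • P)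
  by_cases h : P = g • P
  · rw [← h]
  refine Relation.ReflTransGen.single ⟨h, ?_⟩
  intro e
  apply hQne
  rw [eq_bot_iff, ← e]
  refine le_inf hQ ?_
  rw [coe_smul_sylow, ← mem_normalizer_iff_conj.mp hg]
  exact conj_mono g hQ

theorem connected_of_compStab (P : Sylow p G) (h : compStab P = ⊤) : IsSylowChainConnected p G := by
  have h1 : ∀ T : Sylow p G, Relation.ReflTransGen SAdj P T := by
    intro T
    obtain ⟨g, rfl⟩ := MulAction.exists_smul_eq G P T
    have : g ∈ compStab P := by rw [h]; trivial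
    exact this
  exact connected_of_adj fun S T => (reach_symm (h1 S)).trans (h1 T)

theorem connected_of_pCore_ne_bot (h : pCore p G ≠ ⊥) : IsSylowChainConnected p G := by
  refine connected_of_adj fun S T => ?_
  by_cases hST : S = T
  · rw [hST]
  refine Relation.ReflTransGen.single ⟨hST, ?_⟩
  intro e
  apply h
  rw [eq_bot_iff, ← e]
  exact le_inf (Cfsg.Agent.Lib.Core.pCore_le_sylow S) (Cfsg.Agent.Lib.Core.pCore_le_sylow T)

/-- Two subgroups of order `p` of a Sylow subgroup coincide. -/
def UniqueIn (p : ℕ) (A : Subgroup G) : Prop :=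
  ∀ H K : Subgroup G, H ≤ A → K ≤ A → Nat.card H = p → Nat.card K = p → H = K

theorem uniqueIn_conj {A : Subgroup G} (h : UniqueIn p A) (g : G) :
    UniqueIn p (A.map (MulAut.conj g).toMonoidHom) := by
  intro H K hH hK hcH hcK
  have hb : ∀ H : Subgroup G, H ≤ A.map (MulAut.conj g).toMonoidHom →
      H.map (MulAut.conj g⁻¹).toMonoidHom ≤ A := by
    intro H hH x hx
    obtain ⟨y, hy, rfl⟩ := hx
    have := hH hy
    rw [mem_conj_iff] at this
    simpa using this
  have := h _ _ (hb H hH) (hb K hK) (by rw [card_conj]; exact hcH) (by rw [card_conj]; exact hcK)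
  have h2 := congrArg (fun X : Subgroup G => X.map (MulAut.conj g).toMonoidHom) this
  simp only [conj_mul_conj, mul_inv_cancel, conj_one'] at h2
  exact h2

theorem exists_subgroup_prime_of_ne_bot {A : Subgroup G} (hA : IsPGroup p A) (hne : A ≠ ⊥) :
    ∃ H : Subgroup G, H ≤ A ∧ Nat.card H = p := by
  have hd : p ∣ Nat.card A := dvd_card_of_isPGroup_of_ne_bot hA hne
  obtain ⟨x, hx⟩ := exists_prime_orderOf_dvd_card' p hd
  refine ⟨zpowers (x : G), ?_, ?_⟩
  · rw [zpowers_le]; exact x.2
  · rw [Nat.card_zpowers, Subgroup.orderOf_coe, hx]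

theorem not_connected_of_unique (hO : pCore p G = ⊥) (hdiv : p ∣ Nat.card G) (P : Sylow p G)
    (hP : UniqueIn p (P : Subgroup G)) : ¬ IsSylowChainConnected p G := by
  intro hc
  have hPne : (P : Subgroup G) ≠ ⊥ := by
    intro h
    have h1 := P.dvd_card_of_dvd_card hdiv
    rw [h] at h1
    simp at h1
    exact (Fact.out : p.Prime).one_lt.ne' h1
  obtain ⟨U, hUP, hUc⟩ := exists_subgroup_prime_of_ne_bot P.2 hPne
  have huq : ∀ A : Sylow p G, UniqueIn p (A : Subgroup G) := by
    intro A
    obtain ⟨g, rfl⟩ := MulAction.exists_smul_eq G P A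
    rw [coe_smul_sylow]
    exact uniqueIn_conj hP g
  have hall : ∀ T : Sylow p G, Relation.ReflTransGen SAdj P T → U ≤ (T : Subgroup G) := by
    intro T hT
    induction hT with
    | refl => exact hUP
    | @tail A B _ hAB ih =>
      obtain ⟨H, hH, hHc⟩ := exists_subgroup_prime_of_ne_bot
        (IsPGroup.to_le A.2 inf_le_left) hAB.2
      have := huq A U H ih (hH.trans inf_le_left) hUc hHc
      rw [this]
      exact hH.trans inf_le_right
  have hUO : U ≤ pCore p G := by
    intro x hx
    rw [Cfsg.Agent.Lib.Core.mem_pCore_iff_forall_sylow]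
    intro T
    exact hall T (adj_of_connected hc P T) hx
  rw [hO, le_bot_iff] at hUO
  rw [hUO] at hUc
  simp at hUc
  exact (Fact.out : p.Prime).one_lt.ne hUc

/-- Two different subgroups of order `p` in a `p`-group yield an elementary abelian subgroup of order `p²`. -/
theorem exists_elementary_of_not_unique {A : Subgroup G} (hA : IsPGroup p A) (h : ¬ UniqueIn p A) :
    ∃ E : Subgroup G, E ≤ A ∧ Nat.card E = p ^ 2 ∧ ∀ x ∈ E, x ^ p = 1 := by
  classical
  have hpr : p.Prime := Fact.out
  unfold UniqueIn at h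
  push Not at h
  obtain ⟨H, K, hH, hK, hHc, hKc, hne⟩ := h
  haveI : Finite A := inferInstance
  have hAne : (A : Subgroup G) ≠ ⊥ := by
    rintro rfl
    rw [le_bot_iff] at hH
    rw [hH] at hHc
    simp at hHc
    exact hpr.one_lt.ne hHc
  haveI : Nontrivial A := by
    rw [Subgroup.nontrivial_iff_ne_bot]
    exact hAne
  haveI hcn : Nontrivial (Subgroup.center A) := hA.center_nontrivial
  have hzd : p ∣ Nat.card (Subgroup.center A) := by
    refine dvd_card_of_isPGroup_of_ne_bot (hA.to_subgroup _) ?_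
    rw [← Subgroup.nontrivial_iff_ne_bot]
    exact hcn
  obtain ⟨z₀, hz₀⟩ := exists_prime_orderOf_dvd_card' p hzd
  set z : G := ((z₀ : A) : G) with hz
  have hzA : z ∈ A := (z₀ : A).2
  have hzo : orderOf z = p := by
    rw [hz, Subgroup.orderOf_coe, Subgroup.orderOf_coe, hz₀]
  have hzc : ∀ a ∈ A, a * z = z * a := by
    intro a ha
    have := Subgroup.mem_center_iff.mp z₀.2 ⟨a, ha⟩
    exact congrArg Subtype.val this
  set Z := zpowers z with hZ
  have hZc : Nat.card Z = p := by rw [hZ, Nat.card_zpowers, hzo]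
  have hZA : Z ≤ A := by rw [hZ, zpowers_le]; exact hzA
  -- pick one different from `Z`
  obtain ⟨B, hBA, hBc, hBZ⟩ : ∃ B : Subgroup G, B ≤ A ∧ Nat.card B = p ∧ B ≠ Z := by
    by_cases hHZ : H = Z
    · exact ⟨K, hK, hKc, fun e => hne (hHZ.trans e.symm)⟩
    · exact ⟨H, hH, hHc, hHZ⟩
  have hdisj : Nat.card ↥(B ⊓ Z) = 1 := by
    have hd : Nat.card ↥(B ⊓ Z) ∣ Nat.card B :=
      Subgroup.card_dvd_of_le inf_le_left
    rw [hBc] at hd
    rcases (Nat.dvd_prime hpr).mp hd with h1 | h1
    · exact h1
    · exfalso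
      apply hBZ
      have e1 : B ⊓ Z = B := Subgroup.eq_of_le_of_card_ge inf_le_left (by rw [h1, hBc])
      have e2 : B ⊓ Z = Z := Subgroup.eq_of_le_of_card_ge inf_le_right (by rw [h1, hZc])
      rw [← e1, e2]
  -- inside `A`
  have hcomm : ∀ a ∈ A, ∀ y ∈ Z, a * y = y * a := by
    intro a ha y hy
    obtain ⟨k, rfl⟩ := Subgroup.mem_zpowers_iff.mp hy
    have : Commute a z := hzc a ha
    exact (this.zpow_right k)
  have hZn : (Z.subgroupOf A).Normal := by
    constructor
    intro n hn g
    rw [Subgroup.mem_subgroupOf] at hn ⊢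
    have : (g : G) * n * (g : G)⁻¹ = n := by
      rw [hcomm _ g.2 _ hn]; group
    have e : ((g * n * g⁻¹ : A) : G) = (g : G) * n * (g : G)⁻¹ := by simp
    rw [e, this]
    exact hn
  have h3 := Cfsg.Agent.Lib.PSolv.card_sup_mul_card_inf (B.subgroupOf A) (Z.subgroupOf A)
  have hc1 : Nat.card (B.subgroupOf A) = p := by
    rw [← hBc]; exact Nat.card_congr (Subgroup.subgroupOfEquivOfLe hBA).toEquiv
  have hc2 : Nat.card (Z.subgroupOf A) = p := by
    rw [← hZc]; exact Nat.card_congr (Subgroup.subgroupOfEquivOfLe hZA).toEquiv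
  have hc3 : Nat.card ↥(B.subgroupOf A ⊓ Z.subgroupOf A) = 1 := by
    rw [← hdisj]
    have e : B.subgroupOf A ⊓ Z.subgroupOf A = (B ⊓ Z).subgroupOf A := rfl
    rw [e]
    exact Nat.card_congr (Subgroup.subgroupOfEquivOfLe (inf_le_left.trans hBA)).toEquiv
  rw [hc1, hc2, hc3, mul_one] at h3
  refine ⟨(B.subgroupOf A ⊔ Z.subgroupOf A).map A.subtype, Subgroup.map_subtype_le _, ?_, ?_⟩
  · rw [Subgroup.card_map_of_injective A.subtype_injective, h3, pow_two]
  · rintro _ ⟨x, hx, rfl⟩
    rw [Subgroup.mul_normal] at hx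
    obtain ⟨b, hb, y, hy, rfl⟩ := hx
    have hb' : (b : G) ∈ B := hb
    have hy' : (y : G) ∈ Z := hy
    have hb1 : (b : G) ^ p = 1 := by
      have := pow_card_eq_one' (G := B) (x := ⟨b, hb'⟩)
      rw [hBc] at this
      simpa using congrArg Subtype.val this
    have hy1 : (y : G) ^ p = 1 := by
      have := pow_card_eq_one' (G := Z) (x := ⟨y, hy'⟩)
      rw [hZc] at this
      simpa using congrArg Subtype.val this
    have hc : Commute (b : G) (y : G) := hcomm _ b.2 _ hy'
    change ((b : G) * (y : G)) ^ p = 1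
    rw [hc.mul_pow, hb1, hy1, mul_one]

theorem exists_eq_zpowers_of_card_prime {H : Subgroup G} (hc : Nat.card H = p) :
    ∃ a : G, H = zpowers a ∧ orderOf a = p := by
  have hpr : p.Prime := Fact.out
  haveI : Fact (Nat.card H).Prime := ⟨by rw [hc]; exact hpr⟩
  haveI : IsCyclic H := isCyclic_of_prime_card rfl
  obtain ⟨g, hg⟩ := IsCyclic.exists_generator (α := H)
  have e : H = zpowers (g : G) := by
    ext x
    constructor
    · intro hx
      obtain ⟨k, hk⟩ := Subgroup.mem_zpowers_iff.mp (hg ⟨x, hx⟩)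
      exact Subgroup.mem_zpowers_iff.mpr ⟨k, by simpa using congrArg Subtype.val hk⟩
    · intro hx
      obtain ⟨k, rfl⟩ := Subgroup.mem_zpowers_iff.mp hx
      exact H.zpow_mem g.2 k
  refine ⟨g, e, ?_⟩
  rw [← Nat.card_zpowers, ← e, hc]

/-- Two subgroups of order `p` of a cyclic group coincide. -/
theorem uniqueIn_of_isCyclic {A : Subgroup G} (hA : IsCyclic A) : UniqueIn p A := by
  intro H K hH hK hHc hKc
  obtain ⟨a, rfl, hao⟩ := exists_eq_zpowers_of_card_prime hHc
  obtain ⟨b, rfl, hbo⟩ := exists_eq_zpowers_of_card_prime hKc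
  have haA : a ∈ A := hH (Subgroup.mem_zpowers a)
  have hbA : b ∈ A := hK (Subgroup.mem_zpowers b)
  have h1 : orderOf (⟨a, haA⟩ : A) ∣ orderOf (⟨b, hbA⟩ : A) := by
    rw [Subgroup.orderOf_mk, Subgroup.orderOf_mk, hao, hbo]
  have h2 := Cfsg.Agent.Lib.Coprime.mem_zpowers_of_orderOf_dvd h1
  obtain ⟨k, hk⟩ := Subgroup.mem_zpowers_iff.mp h2
  have h3 : a ∈ zpowers b := Subgroup.mem_zpowers_iff.mpr ⟨k, by simpa using congrArg Subtype.val hk⟩
  have h4 : zpowers a ≤ zpowers b := by rw [zpowers_le]; exact h3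
  exact Subgroup.eq_of_le_of_card_ge h4 (by rw [hKc, hHc])

theorem quat_unique {n : ℕ} (hn : 0 < n) (x y : QuaternionGroup n) (hx : orderOf x = 2) (hy : orderOf y = 2) :
    x = y := by
  haveI hN : NeZero (2 * n) := ⟨by omega⟩
  haveI hN2 : NeZero n := ⟨by omega⟩
  have key : ∀ x : QuaternionGroup n, orderOf x = 2 → x = QuaternionGroup.a ((n : ℕ) : ZMod (2 * n)) := by
    intro x h
    rcases x with i | i
    · have h1 : (QuaternionGroup.a i : QuaternionGroup n) ^ 2 = 1 := by
        have := pow_orderOf_eq_one (QuaternionGroup.a i : QuaternionGroup n)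
        rwa [h] at this
      rw [pow_two, QuaternionGroup.a_mul_a, QuaternionGroup.one_def] at h1
      have h2 : i + i = 0 := QuaternionGroup.a.inj h1
      have hne : i ≠ 0 := by
        rintro rfl
        rw [← QuaternionGroup.one_def, orderOf_one] at h
        omega
      have hval : i.val < 2 * n := ZMod.val_lt i
      have h3 : (2 * n : ℕ) ∣ i.val + i.val := by
        have : ((i.val + i.val : ℕ) : ZMod (2 * n)) = 0 := by
          push_cast; rw [ZMod.natCast_zmod_val]; exact h2
        exact (ZMod.natCast_eq_zero_iff _ _).1 this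
      have h4 : i.val ≠ 0 := by
        intro h0; exact hne ((ZMod.val_eq_zero i).1 h0)
      have h5 : i.val = n := by
        obtain ⟨c, hc⟩ := h3
        have hc1 : c = 1 := by
          have : c < 2 := by
            by_contra hh
            push Not at hh
            have : 2 * n * 2 ≤ 2 * n * c := Nat.mul_le_mul_left _ hh
            omega
          have hc0 : c ≠ 0 := by
            rintro rfl
            simp at hc
            exact hne hc
          omega
        subst hc1
        omega
      congr 1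
      have h6 := ZMod.natCast_zmod_val i
      rw [h5] at h6
      exact h6.symm
    · rw [QuaternionGroup.orderOf_xa] at h
      omega
  rw [key x hx, key y hy]

theorem uniqueIn_of_quat [Fact (Nat.Prime 2)] {A : Subgroup G} {n : ℕ} (φ : A ≃* QuaternionGroup (2 ^ n)) :
    UniqueIn 2 A := by
  intro H K hH hK hHc hKc
  obtain ⟨a, rfl, hao⟩ := exists_eq_zpowers_of_card_prime hHc
  obtain ⟨b, rfl, hbo⟩ := exists_eq_zpowers_of_card_prime hKc
  have haA : a ∈ A := hH (Subgroup.mem_zpowers a)
  have hbA : b ∈ A := hK (Subgroup.mem_zpowers b)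
  have h1 : orderOf (φ ⟨a, haA⟩) = 2 := by
    rw [MulEquiv.orderOf_eq, Subgroup.orderOf_mk, hao]
  have h2 : orderOf (φ ⟨b, hbA⟩) = 2 := by
    rw [MulEquiv.orderOf_eq, Subgroup.orderOf_mk, hbo]
  have h3 := quat_unique (by positivity) _ _ h1 h2
  have h4 := φ.injective h3
  have h5 : a = b := congrArg Subtype.val h4
  rw [h5]

theorem connected_of_not_unique (hs : IsPSolvable p G) (hdiv : p ∣ Nat.card G) (P : Sylow p G)
    (hU : ¬ UniqueIn p (P : Subgroup G)) : IsSylowChainConnected p G := by
  classical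
  have hpr : p.Prime := Fact.out
  obtain ⟨E, hEP, hEc, hEe⟩ := exists_elementary_of_not_unique P.2 hU
  refine connected_of_compStab P ?_
  set K := pPrimeCore p G with hK
  haveI hKn : K.Normal := Cfsg.Agent.Lib.Core.pPrimeCore_normal p G
  have hKcop : (Nat.card K).Coprime p := Cfsg.Agent.Lib.Core.pPrimeCore_coprime p G
  have hKH : K ≤ compStab P := by
    have hgen := Cfsg.Agent.Lib.Hall.generation_elementary hpr hEc hEe (Nat.card K) K le_rfl
      (by rw [Subgroup.normalizer_eq_top_iff.mpr hKn]; exact le_top) hKcop.symm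
    rw [← hgen]
    refine iSup₂_le ?_
    rintro a ⟨haE, ha1⟩
    refine inf_le_right.trans ?_
    have hQ : zpowers a ≤ (P : Subgroup G) := by
      rw [zpowers_le]; exact hEP haE
    have hQne : zpowers a ≠ ⊥ := by
      rw [Ne, Subgroup.zpowers_eq_bot]
      exact ha1
    refine le_trans ?_ (normalizer_le_compStab P hQ hQne)
    intro c hc
    have hca : c * a = a * c := (Subgroup.mem_centralizer_singleton_iff.mp hc)
    rw [mem_normalizer_iff_conj, MonoidHom.map_zpowers]
    have : (MulAut.conj c).toMonoidHom a = a := by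
      change c * a * c⁻¹ = a
      rw [hca]; group
    rw [this]
  have hKlt : K < ⊤ := by
    rw [lt_top_iff_ne_top]
    intro h
    rw [h] at hKcop
    simp only [Subgroup.card_top] at hKcop
    exact hpr.one_lt.ne' (Nat.Coprime.eq_one_of_dvd hKcop.symm hdiv)
  obtain ⟨D, hDn, hKD, -, hD⟩ := Cfsg.Agent.Lib.PSolv.pStep_of_isPSolvable hpr hs K ⊤ hKn inferInstance hKlt
  -- `D/K` is a `p`-group
  have hcardD : Nat.card K * K.relIndex D = Nat.card D := by
    have := Cfsg.Agent.Lib.PSolv.card_inf_mul_relIndex K D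
    rwa [inf_eq_left.2 hKD.le] at this
  have hnot : ¬ (Nat.card D).Coprime p := by
    intro hc
    exact hKD.not_ge (Cfsg.Agent.Lib.Core.le_pPrimeCore hDn hc)
  obtain ⟨m, hm⟩ : ∃ m : ℕ, K.relIndex D = p ^ m := by
    rcases hD with h | h
    · exact h
    · exfalso
      apply hnot
      rw [← hcardD]
      exact Nat.Coprime.mul_left hKcop h
  have hRS : IsSylowIn p ((P : Subgroup G) ⊓ D) D := inf_normal_isSylowIn P D
  set R := (P : Subgroup G) ⊓ D with hR
  have hRne : R ≠ ⊥ := by
    intro h
    apply hnot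
    have := hRS.not_dvd
    rw [h, Subgroup.relIndex_bot_left] at this
    exact ((Nat.Prime.coprime_iff_not_dvd hpr).mpr this).symm
  have hDle : D ≤ K ⊔ R := by
    have h1 : (K ⊔ R).relIndex D ∣ K.relIndex D := Subgroup.relIndex_dvd_of_le_left _ le_sup_left
    have h2 : (K ⊔ R).relIndex D ∣ R.relIndex D := Subgroup.relIndex_dvd_of_le_left _ le_sup_right
    rw [hm] at h1
    obtain ⟨j, -, hj⟩ := (Nat.dvd_prime_pow hpr).mp h1
    have h3 : (K ⊔ R).relIndex D = 1 := by
      rcases j with _ | j
      · simpa using hj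
      · exfalso
        apply hRS.not_dvd
        refine dvd_trans ?_ h2
        rw [hj]
        exact dvd_pow_self p (by omega)
    exact Subgroup.relIndex_eq_one.mp h3
  have hNR : normalizer (R : Set G) ≤ compStab P := normalizer_le_compStab P inf_le_left hRne
  have hfr := Sylow.normalizer_sup_eq_top hRS.toSylow
  rw [IsSylowIn.coe_toSylow, Subgroup.map_subgroupOf_eq_of_le hRS.le] at hfr
  rw [eq_top_iff, ← hfr]
  refine sup_le hNR (hDle.trans (sup_le hKH ?_))
  exact le_trans Subgroup.le_normalizer hNR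

end Cfsg.Agent.Lib.FF

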