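import Cfsg.Agent.Lib.FF.CycLemT

/-!
# A symmetric algebra whose centre is generated by a nilpotent element
-/

set_option autoImplicit false
set_option linter.unusedSectionVars false
set_option linter.unusedVariables false

namespace Cfsg.Agent.Lib.FF

open Module Polynomial

section CenD

universe u

variable {k : Type*} {R : Type u} [Field k] [Ring R] [Algebra k R]

/-- The data of a symmetric algebra with a central idempotent and a central nilpotent generating the centre of the block. -/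
structure CenData (lam : R →ₗ[k] k) (e y : R) (N : ℕ) : Prop where
  hsym : ∀ a b, lam (a * b) = lam (b * a)
  hnd : ∀ a, (∀ b, lam (a * b) = 0) → a = 0
  hee : e * e = e
  hec : ∀ r, e * r = r * e
  hyc : ∀ r, y * r = r * y
  hey : e * y = y
  hyN : y ^ N = 0
  hN : 0 < N
  hyN1 : y ^ (N - 1) * e ≠ 0
  hcen : ∀ c, (∀ r, c * r = r * c) → ∃ q : k[X], e * c = aeval y q * e

variable {lam : R →ₗ[k] k} {e y : R} {N : ℕ}

namespace CenData

variable (D : CenData lam e y N)
include D

/-- **Symmetric functionals** killing `1 - e` and `y` are multiples of one functional. -/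
theorem sym_unique [Module.Finite k R] (μ : R →ₗ[k] k) (hμs : ∀ a b, μ (a * b) = μ (b * a))
    (hμe : ∀ r, μ ((1 - e) * r) = 0) (hμy : ∀ r, μ (y * r) = 0) :
    ∃ c : k, ∀ r, μ r = c * lam (y ^ (N - 1) * e * r) := by
  let Λ : R →ₗ[k] Dual k R := (LinearMap.mul k R).compr₂ lam
  have hΛ : ∀ a b, Λ a b = lam (a * b) := fun a b => rfl
  have hinj : Function.Injective Λ := by
    rw [← LinearMap.ker_eq_bot, LinearMap.ker_eq_bot']
    intro a ha
    apply D.hnd
    intro b
    have := congrArg (fun f : Dual k R => f b) ha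
    exact this
  have hsurj : Function.Surjective Λ :=
    (LinearMap.injective_iff_surjective_of_finrank_eq_finrank (Subspace.dual_finrank_eq.symm)).mp hinj
  obtain ⟨w, hw⟩ := hsurj μ
  have hwr : ∀ r, μ r = lam (w * r) := fun r => by
    rw [← hw]
    rfl
  have hcentral : ∀ a, w * a = a * w := by
    intro a
    rw [← sub_eq_zero]
    apply D.hnd
    intro b
    rw [sub_mul, map_sub, sub_eq_zero, mul_assoc, ← hwr, hμs, hwr, mul_assoc a, D.hsym a, mul_assoc]
  have hwe : e * w = w := by
    have h1 : w * (1 - e) = 0 := by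
      apply D.hnd
      intro b
      rw [mul_assoc, ← hwr, hμe]
    have h2 : w = w * e := by
      rw [mul_sub, mul_one, sub_eq_zero] at h1
      exact h1
    rw [D.hec, ← h2]
  have hwy : y * w = 0 := by
    rw [← hcentral]
    apply D.hnd
    intro b
    rw [mul_assoc, ← hwr, hμy]
  obtain ⟨q, hq⟩ := D.hcen w hcentral
  let Y : Module.End k R := Algebra.lmul k R y
  have hYp : ∀ (m : ℕ) (a : R), (Y ^ m) a = y ^ m * a := by
    intro m a
    have : Y ^ m = Algebra.lmul k R (y ^ m) := by
      simp only [Y, map_pow]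
    rw [this]
    rfl
  have hYq : ∀ (q : k[X]) (a : R), (aeval Y q) a = aeval y q * a := by
    intro q a
    have : aeval Y q = Algebra.lmul k R (aeval y q) := by
      simp only [Y]
      exact (Polynomial.aeval_algHom_apply (Algebra.lmul k R) y q)
    rw [this]
    rfl
  have hN1 : N - 1 + 1 = N := by
    have := D.hN
    omega
  obtain ⟨c, hc⟩ := kernel_cyclic (y := Y) (m := N - 1) (v := e) (by
      rw [hYp]
      exact D.hyN1) (by
      rw [hYp, hN1, D.hyN, zero_mul]) q (by
      rw [hYq]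
      show y * (aeval y q * e) = 0
      rw [← hq, hwe, hwy])
  rw [hYq, hYp] at hc
  refine ⟨c, fun r => ?_⟩
  rw [hwr]
  have h5 : w = c • (y ^ (N - 1) * e) := by
    rw [← hc, ← hq, hwe]
  rw [h5, smul_mul_assoc, map_smul, smul_eq_mul]

theorem e_ne_zero : e ≠ 0 := by
  intro h
  apply D.hyN1
  rw [h, mul_zero]

end CenData

section Wedd

variable [Finite k] [Module.Finite k R]

theorem isNil_of_mem_jacobson {x : R} [IsArtinianRing R] (hx : x ∈ Ring.jacobson R) : IsNilpotent x := by
  obtain ⟨m, hm⟩ := IsSemiprimaryRing.isNilpotent (R := R)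
  refine ⟨m, ?_⟩
  have h1 : ∀ t : ℕ, x ^ (t + 1) ∈ (Ring.jacobson R) ^ (t + 1) := by
    intro t
    induction t with
    | zero =>
      rw [zero_add, pow_one, Submodule.pow_one]
      exact hx
    | succ t ih =>
      rw [pow_succ x, Submodule.pow_succ (Ring.jacobson R)]
      exact Ideal.mul_mem_mul ih hx
  rcases m with - | m
  · rw [Submodule.pow_zero] at hm
    rw [pow_zero]
    have h2 : (1 : R) ∈ (1 : Ideal R) := Submodule.one_le.mp le_rfl
    rw [hm] at h2
    simpa using h2
  · have := h1 m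
    rw [hm] at this
    simpa using this

theorem exists_dual_sep {K V : Type*} [Field K] [AddCommGroup V] [Module K V] (W : Submodule K V) (x : V)
    (hx : x ∉ W) : ∃ ℓ : Dual K V, ℓ x ≠ 0 ∧ ∀ w ∈ W, ℓ w = 0 := by
  obtain ⟨ℓ, h1, h2⟩ := Submodule.exists_dual_map_eq_bot_of_notMem hx (inferInstance)
  refine ⟨ℓ, h1, fun w hw => ?_⟩
  have h3 : ℓ w ∈ Submodule.map ℓ W := ⟨w, hw, rfl⟩
  rw [h2] at h3
  simpa using h3

namespace CenData

variable (D : CenData lam e y N)
include D

/-- **The unique simple quotient.** -/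
theorem exists_phi : ∃ (n : ℕ) (_ : NeZero n) (φ : R →ₐ[k] Matrix (Fin n) (Fin n) k) (c : k),
    c ≠ 0 ∧ Function.Surjective φ ∧ φ e = 1 ∧ φ y = 0 ∧ (∀ r, φ r = 0 → e * r ∈ Ring.jacobson R) ∧
      ∀ r, Matrix.trace (φ r) = c * lam (y ^ (N - 1) * e * r) := by
  classical
  have hArt : IsArtinianRing R := IsArtinianRing.of_finite k R
  let πJ : R →ₐ[k] R ⧸ Ring.jacobson R := Ideal.Quotient.mkₐ k (Ring.jacobson R)
  have hπJ : Function.Surjective πJ := Ideal.Quotient.mk_surjective
  obtain ⟨n, Dv, d, hDv, hAl, hFin, hd, ⟨f⟩⟩ :=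
    IsSemisimpleRing.exists_algEquiv_pi_matrix_divisionRing_finite k (R := R ⧸ Ring.jacobson R)
  let Φ : (i : Fin n) → R →ₐ[k] Matrix (Fin (d i)) (Fin (d i)) (Dv i) := fun i =>
    (Pi.evalAlgHom k (fun i => Matrix (Fin (d i)) (Fin (d i)) (Dv i)) i).comp (f.toAlgHom.comp πJ)
  have hΦ : ∀ i r, Φ i r = f (πJ r) i := fun i r => rfl
  have hsurjPi : ∀ A : Π i, Matrix (Fin (d i)) (Fin (d i)) (Dv i), ∃ r, ∀ i, Φ i r = A i := by
    intro A
    obtain ⟨r, hr⟩ := hπJ (f.symm A)
    refine ⟨r, fun i => ?_⟩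
    rw [hΦ, hr, f.apply_symm_apply]
  have hker : ∀ r, (∀ i, Φ i r = 0) → r ∈ Ring.jacobson R := by
    intro r hr
    have h1 : f (πJ r) = 0 := funext hr
    have h2 : πJ r = 0 := by simpa using h1
    exact Ideal.Quotient.eq_zero_iff_mem.mp h2
  have hsurj : ∀ i (A : Matrix (Fin (d i)) (Fin (d i)) (Dv i)), ∃ r, Φ i r = A := by
    intro i A
    obtain ⟨r, hr⟩ := hsurjPi (Pi.single i A)
    exact ⟨r, by rw [hr, Pi.single_eq_same]⟩
  have hcomm : ∀ i (a b : Dv i), a * b = b * a := by
    intro i a b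
    have : Finite (Dv i) := Module.finite_of_finite k
    letI := littleWedderburn (Dv i)
    exact mul_comm a b
  -- central elements are scalars
  have hscal : ∀ i (c : R), (∀ r, c * r = r * c) → ∃ a : Dv i, Φ i c = Matrix.scalar _ a := by
    intro i c hc
    have h1 : Φ i c ∈ Set.range (Matrix.scalar (Fin (d i)) : Dv i →+* Matrix (Fin (d i)) (Fin (d i)) (Dv i)) := by
      apply Matrix.mem_range_scalar_of_commute_single
      intro a b _
      obtain ⟨r, hr⟩ := hsurj i (Matrix.single a b 1)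
      show Matrix.single a b 1 * Φ i c = Φ i c * Matrix.single a b 1
      rw [← hr, ← map_mul, ← map_mul, hc]
    obtain ⟨a, ha⟩ := h1
    exact ⟨a, ha.symm⟩
  have hd' : ∀ i, Nontrivial (Fin (d i)) ∨ Subsingleton (Fin (d i)) := fun i => (subsingleton_or_nontrivial _).symm
  have hnonzero : ∀ i, (1 : Matrix (Fin (d i)) (Fin (d i)) (Dv i)) ≠ 0 := by
    intro i
    have := hd i
    exact one_ne_zero
  have hscal_inj : ∀ i (a : Dv i), (Matrix.scalar (Fin (d i)) a : Matrix (Fin (d i)) (Fin (d i)) (Dv i)) = 0 → a = 0 := by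
    intro i a ha
    have := hd i
    have h1 := congrFun (congrFun ha 0) 0
    simpa using h1
  -- the image of `e`
  have he01 : ∀ i, Φ i e = 0 ∨ Φ i e = 1 := by
    intro i
    obtain ⟨a, ha⟩ := hscal i e D.hec
    have h1 : a * a = a := by
      have h2 : Φ i (e * e) = Φ i e := by rw [D.hee]
      rw [map_mul, ha, ← map_mul] at h2
      have h3 := sub_eq_zero.mpr h2
      rw [← map_sub] at h3
      exact sub_eq_zero.mp (hscal_inj i _ h3)
    rcases (IsIdempotentElem.iff_eq_zero_or_one.mp h1) with h | h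
    · left
      rw [ha, h, map_zero]
    · right
      rw [ha, h, map_one]
  have hy0 : ∀ i, Φ i y = 0 := by
    intro i
    obtain ⟨a, ha⟩ := hscal i y D.hyc
    have h1 : a ^ N = 0 := by
      apply hscal_inj i
      rw [map_pow, ← ha, ← map_pow, D.hyN, map_zero]
    rw [ha, pow_eq_zero_iff D.hN.ne' |>.mp h1, map_zero]
  -- the trace
  let tr : (i : Fin n) → Matrix (Fin (d i)) (Fin (d i)) (Dv i) →ₗ[k] Dv i := fun i => Matrix.traceLinearMap _ k _
  have htrc : ∀ i (A B : Matrix (Fin (d i)) (Fin (d i)) (Dv i)), Matrix.trace (A * B) = Matrix.trace (B * A) := by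
    intro i A B
    simp only [Matrix.trace, Matrix.diag, Matrix.mul_apply]
    rw [Finset.sum_comm]
    refine Finset.sum_congr rfl fun a _ => Finset.sum_congr rfl fun b _ => hcomm i _ _
  have htr1 : ∀ i (a : Fin (d i)), Matrix.trace (Matrix.single a a (1 : Dv i)) = 1 := by
    intro i a
    simp
  -- a functional on each factor with `e ↦ 1`
  let μ : (i : Fin n) → Dual k (Dv i) → (R →ₗ[k] k) := fun i ℓ => ℓ ∘ₗ (Matrix.traceLinearMap _ k _) ∘ₗ (Φ i).toLinearMap
  have hμ : ∀ i (ℓ : Dual k (Dv i)) r, μ i ℓ r = ℓ (Matrix.trace (Φ i r)) := fun i ℓ r => rfl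
  have hμprop : ∀ i (ℓ : Dual k (Dv i)), Φ i e = 1 → ∃ c : k, ∀ r, μ i ℓ r = c * lam (y ^ (N - 1) * e * r) := by
    intro i ℓ hi
    apply D.sym_unique (μ i ℓ)
    · intro a b
      rw [hμ, hμ, map_mul, map_mul, htrc]
    · intro r
      rw [hμ, map_mul, map_sub, hi, map_one, sub_self, zero_mul, Matrix.trace_zero, map_zero]
    · intro r
      rw [hμ, map_mul, hy0, zero_mul, Matrix.trace_zero, map_zero]
  have hex1 : ∀ i, ∃ ℓ : Dual k (Dv i), ℓ 1 = 1 := by
    intro i
    exact Module.Projective.exists_dual_eq_one k (one_ne_zero)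
  -- `e` is not in the radical
  have hene : ∃ i, Φ i e = 1 := by
    by_contra hcon
    push Not at hcon
    have h1 : e ∈ Ring.jacobson R := hker e fun i => (he01 i).resolve_right (hcon i)
    obtain ⟨m, hm⟩ := isNil_of_mem_jacobson h1
    have h2 : ∀ t : ℕ, e ^ (t + 1) = e := by
      intro t
      induction t with
      | zero => simp
      | succ t ih => rw [pow_succ, ih, D.hee]
    rcases m with - | m
    · simp only [pow_zero] at hm
      apply D.e_ne_zero
      rw [← mul_one e, hm, mul_zero]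
    · rw [h2] at hm
      exact D.e_ne_zero hm
  obtain ⟨i₀, hi₀⟩ := hene
  have hd0 := hd i₀
  -- the point mass
  have hmass : ∀ i, ∃ r, Φ i r = Matrix.single (0 : Fin (d i)) 0 1 ∧ ∀ j, j ≠ i → Φ j r = 0 := by
    intro i
    have := hd i
    haveI : NeZero (d i) := hd i
    obtain ⟨r, hr⟩ := hsurjPi (Pi.single i (Matrix.single 0 0 1))
    refine ⟨r, by rw [hr, Pi.single_eq_same], fun j hj => by rw [hr, Pi.single_eq_of_ne hj]⟩
  obtain ⟨ℓ₀, hℓ₀⟩ := hex1 i₀
  obtain ⟨c₀, hc₀⟩ := hμprop i₀ ℓ₀ hi₀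
  obtain ⟨r₀, hr₀, hr₀'⟩ := hmass i₀
  have hc₀0 : c₀ ≠ 0 := by
    rintro rfl
    have h1 := hc₀ r₀
    rw [hμ, hr₀, htr1, hℓ₀, zero_mul] at h1
    exact one_ne_zero h1
  -- uniqueness of the factor
  have huniq : ∀ i, Φ i e = 1 → i = i₀ := by
    intro i hi
    by_contra hne
    obtain ⟨ℓ, hℓ⟩ := hex1 i
    obtain ⟨c, hc⟩ := hμprop i ℓ hi
    obtain ⟨r, hr, hr'⟩ := hmass i
    have h1 := hc r
    rw [hμ, hr, htr1, hℓ] at h1
    have h2 := hc₀ r
    rw [hμ, hr' i₀ (Ne.symm hne), Matrix.trace_zero, map_zero] at h2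
    have h3 : lam (y ^ (N - 1) * e * r) = 0 := by
      rcases mul_eq_zero.mp h2.symm with h | h
      · exact absurd h hc₀0
      · exact h
    rw [h3, mul_zero] at h1
    exact one_ne_zero h1
  -- the division ring is the field
  have hsurjD : Function.Surjective (algebraMap k (Dv i₀)) := by
    intro x
    by_contra hx
    have hxne : x ∉ (LinearMap.range (Algebra.linearMap k (Dv i₀))) := by
      rintro ⟨a, ha⟩
      exact hx ⟨a, ha⟩
    obtain ⟨ℓ, hℓ1, hℓ2⟩ := exists_dual_sep _ _ hxne
    have hℓ3 : ℓ 1 = 0 := hℓ2 1 ⟨1, by simp⟩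
    obtain ⟨c, hc⟩ := hμprop i₀ ℓ hi₀
    -- `μ ℓ` vanishes at `r₀` so is zero
    have h1 := hc r₀
    rw [hμ, hr₀, htr1, hℓ3] at h1
    have h2 := hc₀ r₀
    rw [hμ, hr₀, htr1, hℓ₀] at h2
    have h3 : lam (y ^ (N - 1) * e * r₀) ≠ 0 := by
      intro h
      rw [h, mul_zero] at h2
      exact one_ne_zero h2
    have h4 : c = 0 := by
      rcases mul_eq_zero.mp h1.symm with h | h
      · exact h
      · exact absurd h h3
    -- but it does not vanish at a lift of `x E₀₀`
    obtain ⟨r, hr⟩ := hsurj i₀ (Matrix.single 0 0 x)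
    have h5 := hc r
    rw [hμ, hr, h4, zero_mul] at h5
    apply hℓ1
    simpa using h5
  have hinjD : Function.Injective (algebraMap k (Dv i₀)) := (algebraMap k (Dv i₀)).injective
  let j : k ≃ₐ[k] Dv i₀ := AlgEquiv.ofBijective (Algebra.ofId k (Dv i₀)) ⟨hinjD, hsurjD⟩
  let φ : R →ₐ[k] Matrix (Fin (d i₀)) (Fin (d i₀)) k := (AlgEquiv.mapMatrix j.symm).toAlgHom.comp (Φ i₀)
  have hφ : ∀ r, φ r = AlgEquiv.mapMatrix j.symm (Φ i₀ r) := fun r => rfl
  have hφtr : ∀ r, Matrix.trace (φ r) = j.symm (Matrix.trace (Φ i₀ r)) := by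
    intro r
    rw [hφ]
    simp [Matrix.trace, AlgEquiv.mapMatrix_apply]
  obtain ⟨c₁, hc₁⟩ := hμprop i₀ j.symm.toLinearMap hi₀
  have hc₁' : ∀ r, Matrix.trace (φ r) = c₁ * lam (y ^ (N - 1) * e * r) := by
    intro r
    rw [hφtr, ← hc₁ r, hμ]
    rfl
  have hc₁0 : c₁ ≠ 0 := by
    rintro rfl
    have h1 := hc₁' r₀
    rw [hφtr, hr₀, htr1, zero_mul, map_one] at h1
    exact one_ne_zero h1
  refine ⟨d i₀, hd0, φ, c₁, hc₁0, ?_, ?_, ?_, ?_, hc₁'⟩
  · intro A
    obtain ⟨r, hr⟩ := hsurj i₀ (AlgEquiv.mapMatrix j A)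
    refine ⟨r, ?_⟩
    rw [hφ, hr]
    ext a b
    simp [AlgEquiv.mapMatrix_apply]
  · rw [hφ, hi₀, map_one]
  · rw [hφ, hy0, map_zero]
  · intro r hr
    have h1 : Φ i₀ r = 0 := by
      rw [hφ] at hr
      exact (AlgEquiv.mapMatrix j.symm).injective (by rw [hr, map_zero])
    apply hker
    intro i
    rw [map_mul]
    by_cases hi : i = i₀
    · subst hi
      rw [h1, mul_zero]
    · rw [(he01 i).resolve_right (fun h => hi (huniq i h)), zero_mul]

end CenData


section Morita

theorem exists_cd [IsArtinianRing R] (D : CenData lam e y N) {n : ℕ} (φ : R →ₐ[k] Matrix (Fin n) (Fin n) k)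
    (hs : Function.Surjective φ) (he : φ e = 1) (hJ : ∀ r, φ r = 0 → e * r ∈ Ring.jacobson R)
    {i : R} (hii : i * i = i) (hei : e * i = i) (v f : Fin n → k) (hφi : φ i = Matrix.vecMulVec v f)
    (hfv : f ⬝ᵥ v = 1) :
    ∃ c d : Fin n → R, (∀ j, e * c j = c j) ∧ (∀ j, c j * i = c j) ∧ (∀ j, i * d j = d j) ∧ (∀ j, d j * e = d j) ∧
      ∑ j, c j * d j = e ∧ ∀ j l, d j * c l = if j = l then i else 0 := by
  classical
  let s : Fin n → Fin n → k := fun j => Pi.single j 1
  have hss : ∀ j l, s j ⬝ᵥ s l = if j = l then 1 else 0 := by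
    intro j l
    simp only [s, dotProduct_single, Pi.single_apply, mul_one]
    simp only [eq_comm]
  have hsum1 : ∑ j, Matrix.vecMulVec (s j) (s j) = (1 : Matrix (Fin n) (Fin n) k) := by
    ext a b
    simp only [Matrix.sum_apply, Matrix.vecMulVec_apply, s, Pi.single_apply, Matrix.one_apply]
    by_cases hab : a = b
    · subst hab
      simp
    · rw [if_neg hab]
      apply Finset.sum_eq_zero
      intro j _
      by_cases h1 : a = j
      · subst h1
        simp [Ne.symm hab]
      · simp [h1]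
  choose a ha using fun j => hs (Matrix.vecMulVec (s j) f)
  choose b hb using fun j => hs (Matrix.vecMulVec v (s j))
  let c0 : Fin n → R := fun j => e * a j * i
  let d : Fin n → R := fun j => i * b j * e
  have hφc0 : ∀ j, φ (c0 j) = Matrix.vecMulVec (s j) f := by
    intro j
    simp only [c0, map_mul, he, one_mul, ha, hφi, Matrix.vecMulVec_mul_vecMulVec, hfv, one_smul]
  have hφd : ∀ j, φ (d j) = Matrix.vecMulVec v (s j) := by
    intro j
    simp only [d, map_mul, he, mul_one, hb, hφi, Matrix.vecMulVec_mul_vecMulVec, hfv, one_smul]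
  let u1 : R := ∑ j, c0 j * d j
  have hφu1 : φ u1 = 1 := by
    simp only [u1, map_sum, map_mul, hφc0, hφd, Matrix.vecMulVec_mul_vecMulVec, hfv, one_smul]
    exact hsum1
  have heu1 : e * u1 = u1 := by
    simp only [u1, Finset.mul_sum]
    refine Finset.sum_congr rfl fun j _ => ?_
    simp only [c0, ← mul_assoc, D.hee]
  let n1 : R := e - u1
  have hen1 : e * n1 = n1 := by
    simp only [n1, mul_sub, D.hee, heu1]
  have hn1J : n1 ∈ Ring.jacobson R := by
    rw [← hen1]
    apply hJ
    simp only [n1, map_sub, he, hφu1, sub_self]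
  obtain ⟨M, hM⟩ := isNil_of_mem_jacobson hn1J
  have hu1e : u1 = e * (1 - n1) := by
    rw [mul_sub, mul_one, hen1]
    simp only [n1, sub_sub_cancel]
  let v1 : R := e * ∑ t ∈ Finset.range M, n1 ^ t
  have hev1 : e * v1 = v1 := by
    simp only [v1, ← mul_assoc, D.hee]
  have hv1u1 : v1 * u1 = e := by
    rw [hu1e]
    simp only [v1]
    rw [mul_assoc, ← mul_assoc _ e, ← D.hec, mul_assoc e, geom_sum_mul_neg, hM, sub_zero, mul_one]
    exact D.hee
  have hφv1 : φ v1 = 1 := by
    have h1 := congrArg φ hv1u1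
    rwa [map_mul, hφu1, mul_one, he] at h1
  let c : Fin n → R := fun j => v1 * c0 j
  have hec : ∀ j, e * c j = c j := fun j => by
    simp only [c, ← mul_assoc, hev1]
  have hci : ∀ j, c j * i = c j := fun j => by
    simp only [c, c0, mul_assoc, hii]
  have hid : ∀ j, i * d j = d j := fun j => by
    simp only [d, ← mul_assoc, hii]
  have hde : ∀ j, d j * e = d j := fun j => by
    simp only [d, mul_assoc, D.hee]
  have hsumc : ∑ j, c j * d j = e := by
    rw [← hv1u1]
    simp only [c, u1, Finset.mul_sum, mul_assoc]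
  refine ⟨c, d, hec, hci, hid, hde, hsumc, ?_⟩
  let δ : Fin n → Fin n → R := fun j l => if j = l then i else 0
  let x : Fin n → Fin n → R := fun j l => δ j l - d j * c l
  have hφx : ∀ j l, φ (x j l) = 0 := by
    intro j l
    have h1 : φ (d j * c l) = φ (δ j l) := by
      simp only [c, map_mul, hφd, hφv1, one_mul, hφc0, Matrix.vecMulVec_mul_vecMulVec, hss, δ]
      by_cases hjl : j = l
      · simp [hjl, hφi]
      · simp [hjl]
    simp only [x, map_sub, h1, sub_self]
  have hex : ∀ j l, e * x j l = x j l := by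
    intro j l
    simp only [x, mul_sub]
    congr 1
    · by_cases hjl : j = l <;> simp [δ, hjl, hei]
    · rw [← mul_assoc, D.hec, mul_assoc, hec]
  have hxJ : ∀ j l, x j l ∈ Ring.jacobson R := by
    intro j l
    rw [← hex]
    exact hJ _ (hφx j l)
  have hxx : ∀ j l, ∑ m, x j m * x m l = x j l := by
    intro j l
    have h1 : ∑ m, δ j m * δ m l = δ j l := by
      rw [Finset.sum_eq_single j]
      · simp only [δ, if_true]
        by_cases hjl : j = l <;> simp [hjl, hii]
      · intro m _ hm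
        simp [δ, Ne.symm hm]
      · simp
    have h2 : ∑ m, δ j m * (d m * c l) = d j * c l := by
      rw [Finset.sum_eq_single j]
      · simp only [δ, if_true, ← mul_assoc, hid]
      · intro m _ hm
        simp [δ, Ne.symm hm]
      · simp
    have h3 : ∑ m, (d j * c m) * δ m l = d j * c l := by
      rw [Finset.sum_eq_single l]
      · simp only [δ, if_true, mul_assoc, hci]
      · intro m _ hm
        simp [δ, hm]
      · simp
    have h4 : ∑ m, (d j * c m) * (d m * c l) = d j * c l := by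
      have : ∀ m, (d j * c m) * (d m * c l) = d j * (c m * d m) * c l := fun m => by
        simp only [mul_assoc]
      simp only [this]
      rw [← Finset.sum_mul, ← Finset.mul_sum, hsumc, hde]
    simp only [x, mul_sub, sub_mul, Finset.sum_sub_distrib, h1, h2, h3, h4]
    abel
  have hpow : ∀ t : ℕ, ∀ j l, x j l ∈ (Ring.jacobson R) ^ (t + 1) := by
    intro t
    induction t with
    | zero =>
      intro j l
      rw [zero_add, Submodule.pow_one]
      exact hxJ j l
    | succ t ih =>
      intro j l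
      rw [← hxx, Submodule.pow_succ]
      refine Submodule.sum_mem _ fun m _ => Ideal.mul_mem_mul (ih j m) (hxJ m l)
  obtain ⟨m, hm⟩ := IsSemiprimaryRing.isNilpotent (R := R)
  have hm' : (Ring.jacobson R) ^ (m + 1) = 0 := by
    rw [Submodule.pow_succ, hm]
    simp
  intro j l
  have h5 := hpow m j l
  rw [hm'] at h5
  have h6 : x j l = 0 := by simpa using h5
  simp only [x, sub_eq_zero] at h6
  exact h6.symm

end Morita


section Corner

theorem corner_eq_poly [IsArtinianRing R] (D : CenData lam e y N) {n : ℕ}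
    (φ : R →ₐ[k] Matrix (Fin n) (Fin n) k)
    (hy : φ y = 0) (hJ : ∀ r, φ r = 0 → e * r ∈ Ring.jacobson R)
    {c₀ : k} (hc₀ : c₀ ≠ 0) (htr : ∀ r, Matrix.trace (φ r) = c₀ * lam (y ^ (N - 1) * e * r))
    {i : R} (hii : i * i = i) (hei : e * i = i) (v f : Fin n → k) (hφi : φ i = Matrix.vecMulVec v f)
    (hfv : f ⬝ᵥ v = 1) {c d : Fin n → R} (hec : ∀ j, e * c j = c j) (hci : ∀ j, c j * i = c j)
    (hid : ∀ j, i * d j = d j) (hde : ∀ j, d j * e = d j) (hsum : ∑ j, c j * d j = e) :
    ∀ r, ∃ q : k[X], i * r * i = aeval y q * i := by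
  classical
  have hie : i * e = i := by rw [← D.hec, hei]
  let E : Submodule k R :=
    { carrier := {x | i * x = x ∧ x * i = x}
      add_mem' := by
        rintro a b ⟨h1, h2⟩ ⟨h3, h4⟩
        exact ⟨by rw [mul_add, h1, h3], by rw [add_mul, h2, h4]⟩
      zero_mem' := ⟨by simp, by simp⟩
      smul_mem' := by
        rintro a b ⟨h1, h2⟩
        exact ⟨by rw [mul_smul_comm, h1], by rw [smul_mul_assoc, h2]⟩ }
  have hmemE : ∀ x, x ∈ E ↔ (i * x = x ∧ x * i = x) := fun x => Iff.rfl
  have hEmul : ∀ a b, a ∈ E → b ∈ E → a * b ∈ E := by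
    rintro a b ⟨h1, h2⟩ ⟨h3, h4⟩
    exact ⟨by rw [← mul_assoc, h1], by rw [mul_assoc, h4]⟩
  have hiE : i ∈ E := ⟨hii, hii⟩
  have hsand : ∀ r, i * r * i ∈ E := fun r =>
    ⟨by rw [← mul_assoc, ← mul_assoc, hii], by rw [mul_assoc, hii]⟩
  have hdcE : ∀ (r : R) j l, d j * (r * c l) ∈ E := by
    intro r j l
    refine ⟨by rw [← mul_assoc, hid], ?_⟩
    rw [mul_assoc, mul_assoc, hci]
  let Cm : Submodule k R := Submodule.span k {z | ∃ a ∈ E, ∃ b ∈ E, z = a * b - b * a}
  let Y : Submodule k R := E.map (LinearMap.mulLeft k y)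
  have hYmem : ∀ z, z ∈ E → y * z ∈ Y := fun z hz => ⟨z, hz, rfl⟩
  have hCmem : ∀ a b, a ∈ E → b ∈ E → a * b - b * a ∈ Cm := fun a b ha hb =>
    Submodule.subset_span ⟨a, ha, b, hb, rfl⟩
  -- the radical of the corner lies in `[E, E] + y E`
  have hkey : ∀ x, x ∈ E → φ x = 0 → x ∈ Cm ⊔ Y := by
    intro x hxE hφx
    by_contra hx
    obtain ⟨ℓ, hℓ1, hℓ2⟩ := exists_dual_sep (Cm ⊔ Y) x hx
    have hℓC : ∀ a b, a ∈ E → b ∈ E → ℓ (a * b) = ℓ (b * a) := by
      intro a b ha hb
      have := hℓ2 _ (Submodule.mem_sup_left (hCmem a b ha hb))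
      rwa [map_sub, sub_eq_zero] at this
    have hℓY : ∀ z, z ∈ E → ℓ (y * z) = 0 := fun z hz => hℓ2 _ (Submodule.mem_sup_right (hYmem z hz))
    let μ : R →ₗ[k] k := ∑ j, ℓ ∘ₗ LinearMap.mulLeft k (d j) ∘ₗ LinearMap.mulRight k (c j)
    have hμ : ∀ r, μ r = ∑ j, ℓ (d j * (r * c j)) := by
      intro r
      simp only [μ, LinearMap.sum_apply, LinearMap.comp_apply, LinearMap.mulLeft_apply, LinearMap.mulRight_apply]
    have hexp : ∀ a b j, d j * (a * b * c j) = ∑ m, (d j * (a * c m)) * (d m * (b * c j)) := by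
      intro a b j
      have h1 : ∀ m, (d j * (a * c m)) * (d m * (b * c j)) = d j * a * (c m * d m) * (b * c j) := fun m => by
        simp only [mul_assoc]
      simp only [h1]
      have h2 : d j * a * e = d j * a := by rw [mul_assoc, ← D.hec, ← mul_assoc, hde]
      rw [← Finset.sum_mul, ← Finset.mul_sum, hsum, h2]
      simp only [mul_assoc]
    have hμs : ∀ a b, μ (a * b) = μ (b * a) := by
      intro a b
      rw [hμ, hμ]
      simp only [hexp, map_sum]
      rw [Finset.sum_comm]
      refine Finset.sum_congr rfl fun j _ => Finset.sum_congr rfl fun m _ => ?_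
      exact hℓC _ _ (hdcE b j m) (hdcE a m j) |>.symm ▸ rfl
    have hμe : ∀ r, μ ((1 - e) * r) = 0 := by
      intro r
      rw [hμ]
      refine Finset.sum_eq_zero fun j _ => ?_
      have h1 : d j * ((1 - e) * r * c j) = (d j * (1 - e)) * (r * c j) := by
        simp only [mul_assoc]
      rw [h1, mul_sub, mul_one, hde, sub_self, zero_mul, map_zero]
    have hμy : ∀ r, μ (y * r) = 0 := by
      intro r
      rw [hμ]
      refine Finset.sum_eq_zero fun j _ => ?_
      have h1 : d j * (y * r * c j) = y * (d j * (r * c j)) := by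
        have h2 : d j * (y * r * c j) = (d j * y) * (r * c j) := by simp only [mul_assoc]
        rw [h2, ← D.hyc (d j), mul_assoc]
      rw [h1]
      exact hℓY _ (hdcE r j j)
    obtain ⟨c', hc'⟩ := D.sym_unique μ hμs hμe hμy
    have h1 : μ x = 0 := by
      have h2 : lam (y ^ (N - 1) * e * x) = 0 := by
        have h3 := htr x
        rw [hφx, Matrix.trace_zero] at h3
        rcases mul_eq_zero.mp h3.symm with h | h
        · exact absurd h hc₀
        · exact h
      rw [hc', h2, mul_zero]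
    have h2 : μ x = ℓ x := by
      rw [hμ]
      have h3 : ∀ j, ℓ (d j * (x * c j)) = ℓ ((i * c j) * (d j * x)) := by
        intro j
        have h4 : d j * (x * c j) = (d j * x) * (i * c j) := by
          rw [← mul_assoc (d j * x), mul_assoc (d j), hxE.2]
          simp only [mul_assoc]
        rw [h4]
        refine hℓC _ _ ⟨by rw [← mul_assoc, hid], ?_⟩ ⟨by rw [← mul_assoc, hii], ?_⟩
        · rw [mul_assoc, hxE.2]
        · rw [mul_assoc, hci]
      simp only [h3]
      rw [← map_sum]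
      congr 1
      have h4 : ∀ j, (i * c j) * (d j * x) = i * (c j * d j) * x := fun j => by
        simp only [mul_assoc]
      simp only [h4]
      rw [← Finset.sum_mul, ← Finset.mul_sum, hsum, hie, hxE.1]
    exact hℓ1 (by rw [← h2, h1])
  -- decomposition in the corner
  have hdec : ∀ x, x ∈ E → ∃ a : k, x - a • i ∈ E ∧ φ (x - a • i) = 0 := by
    intro x hx
    refine ⟨(Matrix.vecMul f (φ x)) ⬝ᵥ v, sub_mem hx (E.smul_mem _ hiE), ?_⟩
    have h1 : φ x = φ i * φ x * φ i := by
      rw [← map_mul, ← map_mul, hx.1, hx.2]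
    rw [map_sub, map_smul, sub_eq_zero]
    conv_lhs => rw [h1, hφi]
    rw [Matrix.vecMulVec_mul, Matrix.vecMulVec_mul_vecMulVec, Matrix.vecMulVec_smul, hφi]
  let 𝔑 : Submodule k R := (Ring.jacobson R).restrictScalars k
  have h𝔑mem : ∀ x, x ∈ E → φ x = 0 → x ∈ 𝔑 := by
    intro x hx h0
    have h1 : e * x = x := by
      rw [← hx.1, ← mul_assoc, hei]
    have := hJ x h0
    rw [h1] at this
    exact this
  have hpowJ : ∀ t : ℕ, ∀ z, z ∈ 𝔑 ^ (t + 1) → z ∈ (Ring.jacobson R) ^ (t + 1) := by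
    intro t
    induction t with
    | zero =>
      intro z hz
      rw [zero_add, pow_one] at hz
      rw [zero_add, Submodule.pow_one]
      exact hz
    | succ t ih =>
      intro z hz
      rw [pow_succ] at hz
      rw [Submodule.pow_succ]
      refine Submodule.mul_induction_on hz (fun a ha b hb => Ideal.mul_mem_mul (ih a ha) hb) (fun a b ha hb => add_mem ha hb)
  obtain ⟨m, hm⟩ := IsSemiprimaryRing.isNilpotent (R := R)
  have hm' : (Ring.jacobson R) ^ (m + 1) = 0 := by
    rw [Submodule.pow_succ, hm]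
    simp
  let P : ℕ → Submodule k R := fun t => E ⊓ 𝔑 ^ (t + 1)
  have hchain : ∀ t : ℕ, ∀ x, x ∈ E → φ x = 0 → x ∈ P t ⊔ Y := by
    intro t
    induction t with
    | zero =>
      intro x hx h0
      refine Submodule.mem_sup_left ⟨hx, ?_⟩
      rw [zero_add, pow_one]
      exact h𝔑mem x hx h0
    | succ t ih =>
      intro x hx h0
      have hCle : Cm ≤ P (t + 1) ⊔ Y := by
        rw [Submodule.span_le]
        rintro _ ⟨a, ha, b, hb, rfl⟩
        obtain ⟨α, hα1, hα2⟩ := hdec a ha
        obtain ⟨β, hβ1, hβ2⟩ := hdec b hb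
        generalize hr : a - α • i = r at hα1 hα2
        generalize hr' : b - β • i = r' at hβ1 hβ2
        have ha' : a = α • i + r := by rw [← hr]; abel
        have hb' : b = β • i + r' := by rw [← hr']; abel
        have h1 : a * b - b * a = r * r' - r' * r := by
          rw [ha', hb']
          simp only [add_mul, mul_add, smul_mul_assoc, mul_smul_comm, hii, hα1.1, hα1.2, hβ1.1, hβ1.2, smul_add]
          rw [smul_comm α β]
          abel
        show a * b - b * a ∈ P (t + 1) ⊔ Y
        rw [h1]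
        obtain ⟨p, hp, q, hq, hpq⟩ := Submodule.mem_sup.mp (ih r hα1 hα2)
        obtain ⟨z, hz, rfl⟩ := hq
        have hr'𝔑 : r' ∈ 𝔑 := h𝔑mem r' hβ1 hβ2
        have e1 : r * r' = p * r' + y * (z * r') := by
          rw [← hpq, add_mul]
          simp only [LinearMap.mulLeft_apply, mul_assoc]
        have e2 : r' * r = r' * p + y * (r' * z) := by
          rw [← hpq, mul_add]
          simp only [LinearMap.mulLeft_apply]
          rw [← mul_assoc r', ← D.hyc, mul_assoc]
        rw [e1, e2]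
        have e3 : p * r' + y * (z * r') - (r' * p + y * (r' * z)) = (p * r' - r' * p) + y * (z * r' - r' * z) := by
          rw [mul_sub]
          abel
        rw [e3]
        refine add_mem (Submodule.mem_sup_left ⟨sub_mem (hEmul _ _ hp.1 hβ1) (hEmul _ _ hβ1 hp.1), ?_⟩)
          (Submodule.mem_sup_right (hYmem _ (sub_mem (hEmul _ _ hz hβ1) (hEmul _ _ hβ1 hz))))
        refine sub_mem ?_ ?_
        · rw [pow_succ]
          exact Submodule.mul_mem_mul hp.2 hr'𝔑
        · rw [pow_succ']
          exact Submodule.mul_mem_mul hr'𝔑 hp.2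
      exact (sup_le hCle le_sup_right) (hkey x hx h0)
  have hYfin : ∀ x, x ∈ E → φ x = 0 → x ∈ Y := by
    intro x hx h0
    obtain ⟨p, hp, q, hq, hpq⟩ := Submodule.mem_sup.mp (hchain m x hx h0)
    have h1 : p = 0 := by
      have h2 := hpowJ _ p hp.2
      rw [hm'] at h2
      simpa using h2
    rw [← hpq, h1, zero_add]
    exact hq
  have hstep : ∀ x, x ∈ E → ∃ (a : k) (z : R), z ∈ E ∧ x = a • i + y * z := by
    intro x hx
    obtain ⟨a, h1, h2⟩ := hdec x hx
    obtain ⟨z, hz, hz'⟩ := hYfin _ h1 h2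
    refine ⟨a, z, hz, ?_⟩
    rw [LinearMap.mulLeft_apply] at hz'
    rw [hz']
    abel
  have hiter : ∀ T : ℕ, ∀ x, x ∈ E → ∃ (q : k[X]) (z : R), z ∈ E ∧ x = aeval y q * i + y ^ T * z := by
    intro T
    induction T with
    | zero =>
      intro x hx
      exact ⟨0, x, hx, by simp⟩
    | succ T ih =>
      intro x hx
      obtain ⟨q, z, hz, hxz⟩ := ih x hx
      obtain ⟨a, z', hz', hzz'⟩ := hstep z hz
      refine ⟨q + C a * X ^ T, z', hz', ?_⟩
      rw [hxz, hzz', map_add, add_mul, mul_add, add_assoc]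
      congr 1
      have h1 : aeval y (C a * X ^ T) * i = y ^ T * (a • i) := by
        rw [map_mul, aeval_C, map_pow, aeval_X, Algebra.algebraMap_eq_smul_one, smul_mul_assoc, one_mul, smul_mul_assoc,
          mul_smul_comm]
      have h2 : y ^ (T + 1) * z' = y ^ T * (y * z') := by rw [pow_succ, mul_assoc]
      rw [h1, h2]
  intro r
  obtain ⟨q, z, hz, hxz⟩ := hiter N _ (hsand r)
  refine ⟨q, ?_⟩
  rw [hxz, D.hyN, zero_mul, add_zero]

end Corner


section Lift

/-- The corner data: a primitive idempotent with its matrix units. -/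
structure Corner (e y i : R) {n : ℕ} (c d : Fin n → R) : Prop where
  hii : i * i = i
  hei : e * i = i
  hec : ∀ j, e * c j = c j
  hci : ∀ j, c j * i = c j
  hid : ∀ j, i * d j = d j
  hde : ∀ j, d j * e = d j
  hsum : ∑ j, c j * d j = e
  hdc : ∀ j l, d j * c l = if j = l then i else 0
  hcorner : ∀ r, ∃ q : k[X], i * r * i = aeval y q * i

variable {i : R} {n : ℕ} {c d : Fin n → R}

theorem pow_mul_corner_ne (D : CenData lam e y N) (hC : Corner (k := k) e y i c d) : y ^ (N - 1) * i ≠ 0 := by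
  classical
  intro h
  apply D.hyN1
  rw [← hC.hsum, Finset.mul_sum]
  refine Finset.sum_eq_zero fun j _ => ?_
  have hcomm : Commute (y ^ (N - 1)) (c j) := (show Commute y (c j) from D.hyc (c j)).pow_left _
  have hcomm2 : Commute (y ^ (N - 1)) i := (show Commute y i from D.hyc i).pow_left _
  calc y ^ (N - 1) * (c j * d j) = (c j * y ^ (N - 1)) * d j := by rw [← mul_assoc, hcomm.eq]
    _ = (c j * i * y ^ (N - 1)) * d j := by rw [hC.hci]
    _ = c j * (y ^ (N - 1) * i) * d j := by rw [mul_assoc (c j), hcomm2.eq]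
    _ = 0 := by rw [h]; simp

theorem card_mul_le (D : CenData lam e y N) (hC : Corner (k := k) e y i c d) :
    n * n * N ≤ finrank k (LinearMap.range (LinearMap.mulLeft k e)) := by
  classical
  let Ψ : ((Fin n × Fin n) × Fin N → k) →ₗ[k] R :=
    ∑ p : (Fin n × Fin n) × Fin N, (LinearMap.toSpanSingleton k R (c p.1.1 * y ^ (p.2 : ℕ) * d p.1.2)) ∘ₗ LinearMap.proj p
  have hΨ : ∀ a, Ψ a = ∑ p : (Fin n × Fin n) × Fin N, a p • (c p.1.1 * y ^ (p.2 : ℕ) * d p.1.2) := by
    intro a
    simp only [Ψ, LinearMap.sum_apply, LinearMap.comp_apply, LinearMap.proj_apply, LinearMap.toSpanSingleton_apply]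
  have hrange : ∀ a, Ψ a ∈ LinearMap.range (LinearMap.mulLeft k e) := by
    intro a
    refine ⟨Ψ a, ?_⟩
    rw [LinearMap.mulLeft_apply, hΨ, Finset.mul_sum]
    refine Finset.sum_congr rfl fun p _ => ?_
    rw [mul_smul_comm, ← mul_assoc, ← mul_assoc, hC.hec]
  have hinj : Function.Injective Ψ := by
    rw [← LinearMap.ker_eq_bot, LinearMap.ker_eq_bot']
    intro a ha
    -- apply the matrix units
    have hunit : ∀ j l, ∑ m : Fin N, a ((j, l), m) • (y ^ (m : ℕ) * i) = 0 := by
      intro j l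
      have h1 : d j * Ψ a * c l = ∑ m : Fin N, a ((j, l), m) • (y ^ (m : ℕ) * i) := by
        rw [hΨ, Finset.mul_sum, Finset.sum_mul, Fintype.sum_prod_type]
        rw [Finset.sum_eq_single (j, l)]
        · refine Finset.sum_congr rfl fun m _ => ?_
          simp only [mul_smul_comm, smul_mul_assoc]
          congr 1
          have hcomm : Commute (y ^ (m : ℕ)) (c j) := (show Commute y (c j) from D.hyc (c j)).pow_left _
          have e1 : d j * (c j * y ^ (m : ℕ) * d l) * c l = (d j * c j) * y ^ (m : ℕ) * (d l * c l) := by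
            simp only [mul_assoc]
          rw [e1, hC.hdc, hC.hdc, if_pos rfl, if_pos rfl, ← (show Commute (y ^ (m : ℕ)) i from (show Commute y i from D.hyc i).pow_left _).eq,
            mul_assoc, hC.hii]
        · rintro ⟨j', l'⟩ _ hne
          refine Finset.sum_eq_zero fun m _ => ?_
          simp only [mul_smul_comm, smul_mul_assoc]
          have e1 : d j * (c j' * y ^ (m : ℕ) * d l') * c l = (d j * c j') * y ^ (m : ℕ) * (d l' * c l) := by
            simp only [mul_assoc]
          rw [e1, hC.hdc, hC.hdc]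
          by_cases h1 : j = j'
          · by_cases h2 : l' = l
            · exact absurd (by rw [h1, h2]) hne
            · simp [h2]
          · simp [h1]
        · simp
      rw [← h1, ha]
      simp
    have hy0 : y ^ (N - 1) * i ≠ 0 := pow_mul_corner_ne D hC
    have hzero : ∀ t : ℕ, ∀ j l (m : Fin N), (m : ℕ) = t → a ((j, l), m) = 0 := by
      intro t
      induction t using Nat.strong_induction_on with
      | _ t ih =>
        intro j l m hm
        have h1 := congrArg (fun z => y ^ (N - 1 - t) * z) (hunit j l)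
        simp only [mul_zero, Finset.mul_sum, mul_smul_comm] at h1
        rw [Finset.sum_eq_single m] at h1
        · have h2 : y ^ (N - 1 - t) * (y ^ (m : ℕ) * i) = y ^ (N - 1) * i := by
            rw [← mul_assoc, ← pow_add, hm]
            congr 2
            have := m.2
            omega
          rw [h2] at h1
          exact (smul_eq_zero.mp h1).resolve_right hy0
        · intro m' _ hne
          by_cases hlt : (m' : ℕ) < t
          · rw [ih m' hlt j l m' rfl, zero_smul]
          · have h3 : N ≤ N - 1 - t + m' := by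
              have h4 := m.2
              have h5 : (m : ℕ) ≠ m' := fun h => hne (Fin.ext h.symm)
              omega
            rw [← mul_assoc, ← pow_add, ← Nat.sub_add_cancel h3, pow_add, D.hyN]
            simp
        · simp
    funext p
    obtain ⟨⟨j, l⟩, m⟩ := p
    exact hzero m j l m rfl
  let Ψ' : ((Fin n × Fin n) × Fin N → k) →ₗ[k] LinearMap.range (LinearMap.mulLeft k e) :=
    Ψ.codRestrict _ hrange
  have hinj' : Function.Injective Ψ' := by
    intro a b hab
    apply hinj
    exact congrArg Subtype.val hab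
  have := LinearMap.finrank_le_finrank_of_injective hinj'
  rw [Module.finrank_fintype_fun_eq_card] at this
  simpa [Fintype.card_prod] using this

variable {V : Type*} [AddCommGroup V] [Module k V] [FiniteDimensional k V] (Θ : R →ₐ[k] Module.End k V)

/-- The lift of an endomorphism of the corner. -/
noncomputable def liftC (c d : Fin n → R) (π₁ : Module.End k V) : Module.End k V := ∑ j, Θ (c j) * π₁ * Θ (d j)

variable {Θ} {π₁ : Module.End k V}

theorem comm_corner (hC : Corner (k := k) e y i c d) (hy : Commute π₁ (Θ y)) (hl : Θ i * π₁ = π₁) (hr : π₁ * Θ i = π₁)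
    (r : R) : π₁ * Θ (i * r * i) = Θ (i * r * i) * π₁ := by
  obtain ⟨q, hq⟩ := hC.hcorner r
  rw [hq, map_mul, ← aeval_algHom_apply]
  have h1 := (commute_aeval_of_commute' hy q).eq
  rw [← mul_assoc, h1, mul_assoc, mul_assoc, hr, hl]

theorem comm_dc (hC : Corner (k := k) e y i c d) (hy : Commute π₁ (Θ y)) (hl : Θ i * π₁ = π₁) (hr : π₁ * Θ i = π₁)
    (l j : Fin n) (r : R) : π₁ * Θ (d l * r * c j) = Θ (d l * r * c j) * π₁ := by
  have h1 : d l * r * c j = i * (d l * r * c j) * i := by
    rw [mul_assoc _ _ i, mul_assoc _ _ i, hC.hci, ← mul_assoc i, ← mul_assoc i, hC.hid]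
  rw [h1]
  exact comm_corner hC hy hl hr _

theorem liftC_comm (D : CenData lam e y N) (hC : Corner (k := k) e y i c d) (hy : Commute π₁ (Θ y))
    (hl : Θ i * π₁ = π₁) (hr : π₁ * Θ i = π₁) (r : R) : Θ r * liftC Θ c d π₁ = liftC Θ c d π₁ * Θ r := by
  classical
  have h1 : ∀ l, Θ (c l) * π₁ * Θ (d l) * Θ r = ∑ j, Θ (c l * (d l * r * c j)) * π₁ * Θ (d j) := by
    intro l
    have h2 : d l * r = ∑ j, (d l * r * c j) * d j := by
      have h3 : ∀ j, (d l * r * c j) * d j = d l * r * (c j * d j) := fun j => by simp only [mul_assoc]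
      simp only [h3]
      rw [← Finset.mul_sum, hC.hsum, mul_assoc, ← D.hec, ← mul_assoc, hC.hde]
    calc Θ (c l) * π₁ * Θ (d l) * Θ r = Θ (c l) * π₁ * Θ (d l * r) := by
          rw [map_mul]
          simp only [mul_assoc]
      _ = Θ (c l) * π₁ * Θ (∑ j, (d l * r * c j) * d j) := by rw [← h2]
      _ = _ := by
        rw [map_sum, Finset.mul_sum]
        refine Finset.sum_congr rfl fun j _ => ?_
        have h4 : Θ (d l * r * c j * d j) = Θ (d l * r * c j) * Θ (d j) := map_mul _ _ _
        rw [h4, ← mul_assoc, mul_assoc (Θ (c l)), comm_dc hC hy hl hr l j r, ← mul_assoc (Θ (c l)), ← map_mul]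
  have h5 : ∀ j, ∑ l, Θ (c l * (d l * r * c j)) * π₁ * Θ (d j) = Θ r * (Θ (c j) * π₁ * Θ (d j)) := by
    intro j
    have h6 : ∑ l, c l * (d l * r * c j) = r * c j := by
      have h7 : ∀ l, c l * (d l * r * c j) = (c l * d l) * (r * c j) := fun l => by simp only [mul_assoc]
      simp only [h7]
      rw [← Finset.sum_mul, hC.hsum, ← mul_assoc, D.hec, mul_assoc, hC.hec]
    rw [← Finset.sum_mul, ← Finset.sum_mul, ← map_sum, h6, map_mul]
    simp only [mul_assoc]
  simp only [liftC, Finset.sum_mul, Finset.mul_sum, h1]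
  rw [Finset.sum_comm]
  exact (Finset.sum_congr rfl fun j _ => h5 j).symm

theorem liftC_idem (hC : Corner (k := k) e y i c d) (hidem : π₁ * π₁ = π₁) (hr : π₁ * Θ i = π₁) :
    liftC Θ c d π₁ * liftC Θ c d π₁ = liftC Θ c d π₁ := by
  classical
  simp only [liftC, Finset.sum_mul, Finset.mul_sum]
  refine Finset.sum_congr rfl fun j _ => ?_
  have h1 : ∀ l, Θ (c l) * π₁ * Θ (d l) * (Θ (c j) * π₁ * Θ (d j)) =
      Θ (c l) * (π₁ * Θ (d l * c j) * π₁) * Θ (d j) := by
    intro l
    rw [map_mul]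
    simp only [mul_assoc]
  simp only [h1, hC.hdc]
  rw [Finset.sum_eq_single j]
  · rw [if_pos rfl, hr, hidem]
  · intro l _ hl
    rw [if_neg hl]
    simp
  · simp

theorem liftC_indep (D : CenData lam e y N) (hC : Corner (k := k) e y i c d) (hy : Commute π₁ (Θ y))
    (hl : Θ i * π₁ = π₁) (hr : π₁ * Θ i = π₁) {c' d' : Fin n → R} (hec' : ∀ j, e * c' j = c' j)
    (hci' : ∀ j, c' j * i = c' j) (hsum' : ∑ j, c' j * d' j = e) :
    liftC Θ c' d' π₁ = liftC Θ c d π₁ := by
  classical
  have h1 : ∀ j, Θ (c' j) * π₁ * Θ (d' j) = ∑ l, Θ (c l) * π₁ * Θ (d l * c' j * d' j) := by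
    intro j
    have h2 : c' j = ∑ l, c l * (d l * c' j) := by
      have h3 : ∀ l, c l * (d l * c' j) = (c l * d l) * c' j := fun l => by simp only [mul_assoc]
      simp only [h3]
      rw [← Finset.sum_mul, hC.hsum, hec']
    have h5 : ∀ l, Θ (c l * (d l * c' j)) * π₁ * Θ (d' j) = Θ (c l) * π₁ * Θ (d l * c' j * d' j) := by
      intro l
      have h6 : d l * c' j = d l * 1 * c' j := by rw [mul_one]
      have h7 : π₁ * Θ (d l * c' j) = Θ (d l * c' j) * π₁ := by
        have h8 : d l * c' j = i * (d l * c' j) * i := by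
          rw [mul_assoc _ _ i, mul_assoc _ _ i, hci', ← mul_assoc i, hC.hid]
        rw [h8]
        exact comm_corner hC hy hl hr _
      rw [map_mul (Θ), map_mul Θ (d l * c' j)]
      calc Θ (c l) * Θ (d l * c' j) * π₁ * Θ (d' j) = Θ (c l) * (Θ (d l * c' j) * π₁) * Θ (d' j) := by
            simp only [mul_assoc]
        _ = Θ (c l) * (π₁ * Θ (d l * c' j)) * Θ (d' j) := by rw [h7]
        _ = _ := by simp only [mul_assoc]
    conv_lhs => rw [h2, map_sum, Finset.sum_mul, Finset.sum_mul]
    exact Finset.sum_congr rfl fun l _ => h5 l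
  simp only [liftC, h1]
  rw [Finset.sum_comm]
  refine Finset.sum_congr rfl fun l _ => ?_
  have h2 : ∑ j, Θ (c l) * π₁ * Θ (d l * c' j * d' j) = Θ (c l) * π₁ * Θ (d l * ∑ j, c' j * d' j) := by
    rw [Finset.mul_sum, map_sum, Finset.mul_sum]
    refine Finset.sum_congr rfl fun j _ => ?_
    rw [mul_assoc (d l)]
  rw [h2, hsum', hC.hde]

theorem liftC_left (D : CenData lam e y N) (hC : Corner (k := k) e y i c d) (hy : Commute π₁ (Θ y))
    (hl : Θ i * π₁ = π₁) (hr : π₁ * Θ i = π₁) : Θ i * liftC Θ c d π₁ = π₁ := by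
  classical
  have hie : i * e = i := by rw [← D.hec, hC.hei]
  have hΘi : Θ i * Θ i = Θ i := by rw [← map_mul, hC.hii]
  have h0 := liftC_comm D hC hy hl hr i
  have h1 : Θ i * liftC Θ c d π₁ = Θ i * liftC Θ c d π₁ * Θ i := by
    rw [h0, mul_assoc, hΘi]
  rw [h1]
  simp only [liftC, Finset.mul_sum, Finset.sum_mul]
  have h2 : ∀ j, Θ i * (Θ (c j) * π₁ * Θ (d j)) * Θ i = π₁ * Θ (i * c j) * Θ (d j * i) := by
    intro j
    have h3 : π₁ * Θ (i * c j) = Θ (i * c j) * π₁ := by
      have h4 : i * c j = i * (i * c j) * i := by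
        rw [mul_assoc _ _ i, mul_assoc i (c j) i, hC.hci, ← mul_assoc i, hC.hii]
      rw [h4]
      exact comm_corner hC hy hl hr _
    rw [h3, map_mul, map_mul]
    simp only [mul_assoc]
  simp only [h2]
  have h5 : ∀ j, π₁ * Θ (i * c j) * Θ (d j * i) = π₁ * Θ (i * (c j * d j) * i) := by
    intro j
    rw [mul_assoc π₁, ← map_mul]
    simp only [mul_assoc]
  simp only [h5]
  rw [← Finset.mul_sum, ← map_sum, ← Finset.sum_mul, ← Finset.mul_sum, hC.hsum, hie, hC.hii, hr]

theorem liftC_e (D : CenData lam e y N) (hC : Corner (k := k) e y i c d) : Θ e * liftC Θ c d π₁ = liftC Θ c d π₁ := by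
  classical
  simp only [liftC, Finset.mul_sum]
  refine Finset.sum_congr rfl fun j _ => ?_
  have h1 : Θ e * (Θ (c j) * π₁ * Θ (d j)) = Θ (e * c j) * π₁ * Θ (d j) := by
    rw [map_mul]
    simp only [mul_assoc]
  rw [h1, hC.hec]

theorem liftC_eq_sum_of_idem (hC : Corner (k := k) e y i c d) {F : Module.End k V} (hF : ∀ r, Commute F (Θ r)) :
    liftC Θ c d (Θ i * F) = Θ e * F := by
  classical
  simp only [liftC]
  have h1 : ∀ j, Θ (c j) * (Θ i * F) * Θ (d j) = Θ (c j * d j) * F := by
    intro j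
    rw [← mul_assoc, ← map_mul, hC.hci, mul_assoc, (hF (d j)).eq, ← mul_assoc, ← map_mul]
  simp only [h1]
  rw [← Finset.sum_mul, ← map_sum, hC.hsum]

theorem rk_liftC (D : CenData lam e y N) (hC : Corner (k := k) e y i c d) (hy : Commute π₁ (Θ y))
    (hl : Θ i * π₁ = π₁) (hr : π₁ * Θ i = π₁) (S : Submodule k V) (hS : ∀ r, S.map (Θ r) ≤ S) :
    rk (liftC Θ c d π₁) S = n * rk π₁ S := by
  classical
  set F := liftC Θ c d π₁ with hF
  have hcomm := liftC_comm D hC hy hl hr
  have hleft : Θ i * F = π₁ := liftC_left D hC hy hl hr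
  have hright : F * Θ i = π₁ := by rw [← hleft, ← hcomm]
  have hSmem : ∀ r s, s ∈ S → Θ r s ∈ S := fun r s hs => hS r ⟨s, hs, rfl⟩
  let A : Submodule k V := S.map F
  let B : Submodule k V := S.map π₁
  have hπd : ∀ j, π₁ * Θ (d j) = Θ (d j) * F := by
    intro j
    calc π₁ * Θ (d j) = F * Θ i * Θ (d j) := by rw [hright]
      _ = F * Θ (d j) := by rw [mul_assoc, ← map_mul, hC.hid]
      _ = Θ (d j) * F := (hcomm (d j)).symm
  have hcπ : ∀ j, Θ (c j) * π₁ = F * (Θ (c j) * Θ i) := by
    intro j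
    calc Θ (c j) * π₁ = Θ (c j) * (F * Θ i) := by rw [hright]
      _ = (Θ (c j) * F) * Θ i := by rw [mul_assoc]
      _ = F * (Θ (c j) * Θ i) := by rw [hcomm, mul_assoc]
  have hdmem : ∀ j, ∀ w : A, Θ (d j) (w : V) ∈ B := by
    rintro j ⟨_, s, hs, rfl⟩
    refine ⟨Θ (d j) s, hSmem _ _ hs, ?_⟩
    have := congrArg (fun f : Module.End k V => f s) (hπd j)
    exact this
  have hcmem : ∀ u : Fin n → B, (∑ j, Θ (c j) (u j : V)) ∈ A := by
    intro u
    refine Submodule.sum_mem _ fun j _ => ?_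
    obtain ⟨s, hs, hus⟩ := (u j).2
    rw [← hus]
    refine ⟨Θ (c j) (Θ i s), hSmem _ _ (hSmem _ _ hs), ?_⟩
    have := congrArg (fun f : Module.End k V => f s) (hcπ j)
    exact this.symm
  let α : A →ₗ[k] (Fin n → B) := LinearMap.pi fun j =>
    LinearMap.codRestrict B ((Θ (d j)).comp A.subtype) (fun w => hdmem j w)
  let β : (Fin n → B) →ₗ[k] A := LinearMap.codRestrict A
    (∑ j, (Θ (c j)).comp (B.subtype.comp (LinearMap.proj j))) (fun u => by
      simp only [LinearMap.sum_apply, LinearMap.comp_apply, LinearMap.proj_apply, Submodule.subtype_apply]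
      exact hcmem u)
  have hβ : ∀ u, ((β u : A) : V) = ∑ j, Θ (c j) (u j : V) := by
    intro u
    simp only [β, LinearMap.codRestrict_apply, LinearMap.sum_apply, LinearMap.comp_apply, LinearMap.proj_apply,
      Submodule.subtype_apply]
  have hα : ∀ w j, ((α w j : B) : V) = Θ (d j) (w : V) := fun w j => rfl
  have hαβ : α ∘ₗ β = LinearMap.id := by
    refine LinearMap.ext fun u => funext fun l => Subtype.ext ?_
    show ((α (β u) l : B) : V) = _
    rw [hα, hβ, map_sum]
    have h1 : ∀ j, Θ (d l) (Θ (c j) (u j : V)) = Θ (d l * c j) (u j : V) := by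
      intro j
      rw [map_mul]
      rfl
    simp only [h1, hC.hdc]
    rw [Finset.sum_eq_single l]
    · rw [if_pos rfl]
      obtain ⟨s, hs, hus⟩ := (u l).2
      rw [← hus]
      have := congrArg (fun f : Module.End k V => f s) hl
      simp only [LinearMap.id_apply, LinearMap.comp_apply]
      rw [← hus]
      exact this
    · intro j _ hj
      rw [if_neg (Ne.symm hj)]
      simp
    · simp
  have hβα : β ∘ₗ α = LinearMap.id := by
    refine LinearMap.ext fun w => Subtype.ext ?_
    show ((β (α w) : A) : V) = _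
    rw [hβ]
    simp only [hα]
    have h1 : ∀ j, Θ (c j) (Θ (d j) (w : V)) = Θ (c j * d j) (w : V) := by
      intro j
      rw [map_mul]
      rfl
    simp only [h1]
    rw [← LinearMap.sum_apply, ← map_sum, hC.hsum]
    obtain ⟨s, hs, hw⟩ := w.2
    simp only [LinearMap.id_apply]
    rw [← hw]
    have := congrArg (fun f : Module.End k V => f s) (liftC_e (Θ := Θ) (π₁ := π₁) D hC)
    exact this
  have h3 : finrank k A = finrank k (Fin n → B) := (LinearEquiv.ofLinearMap α β hαβ hβα).finrank_eq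
  have h4 : finrank k (Fin n → B) = n * finrank k B := by
    rw [Module.finrank_pi_fintype]
    simp
  show finrank k A = n * finrank k B
  rw [h3, h4]

theorem secRk_liftC (D : CenData lam e y N) (hC : Corner (k := k) e y i c d) (hy : Commute π₁ (Θ y))
    (hl : Θ i * π₁ = π₁) (hr : π₁ * Θ i = π₁) (K Q : Submodule k V) (hK : ∀ r, K.map (Θ r) ≤ K) (hQ : ∀ r, Q.map (Θ r) ≤ Q) :
    secRk (liftC Θ c d π₁) K Q = n * secRk π₁ K Q := by
  simp only [secRk]
  rw [rk_liftC D hC hy hl hr K hK, rk_liftC D hC hy hl hr Q hQ]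
  push_cast
  ring

end Lift

end Wedd

end CenD

end Cfsg.Agent.Lib.FF
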