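import Cfsg.Agent.Lib.FF.CycAlg

/-!
# A primitive idempotent fixed by an automorphism
-/

set_option autoImplicit false
set_option linter.unusedSectionVars false
set_option linter.unusedVariables false

namespace Cfsg.Agent.Lib.FF

open Module Polynomial

section Fixed

universe u

variable {k : Type*} {R : Type u} [Field k] [Ring R] [Algebra k R]
variable {lam : R →ₗ[k] k} {e y : R} {N : ℕ}

theorem trace_single_mul' {n : ℕ} (a b : Fin n) (B : Matrix (Fin n) (Fin n) k) :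
    Matrix.trace (Matrix.single b a (1 : k) * B) = B a b := by
  classical
  rw [Matrix.trace, Finset.sum_eq_single b]
  · simp [Matrix.single_mul_apply_same]
  · intro i _ hi
    simp [Matrix.single_mul_apply_of_ne, hi]
  · simp

theorem phi_jacobson [IsArtinianRing R] {n : ℕ} (φ : R →ₐ[k] Matrix (Fin n) (Fin n) k) (hs : Function.Surjective φ)
    {j : R} (hj : j ∈ Ring.jacobson R) : φ j = 0 := by
  classical
  ext a b
  obtain ⟨r, hr⟩ := hs (Matrix.single b a (1 : k))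
  have h1 : r * j ∈ Ring.jacobson R := Ideal.mul_mem_left _ _ hj
  have h2 : IsNilpotent (φ (r * j)) := (isNil_of_mem_jacobson h1).map φ
  have h3 : Matrix.trace (φ (r * j)) = 0 := (Matrix.isNilpotent_trace_of_isNilpotent h2).eq_zero
  rw [map_mul, hr, trace_single_mul'] at h3
  exact h3

theorem exists_fixed_idem [IsArtinianRing R] (D : CenData lam e y N) {n : ℕ} (φ : R →ₐ[k] Matrix (Fin n) (Fin n) k)
    (hs : Function.Surjective φ) (he : φ e = 1) (hJ : ∀ r, φ r = 0 → e * r ∈ Ring.jacobson R)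
    (σ : R →ₐ[k] R) {o : ℕ} (ho : 0 < o) (ho0 : (o : k) ≠ 0) (hσo : ∀ r, σ^[o] r = r) (hσe : σ e = e)
    (ε : Matrix (Fin n) (Fin n) k) (hεε : ε * ε = ε) (hσε : ∀ r, φ r = ε → φ (σ r) = ε) :
    ∃ i : R, i * i = i ∧ e * i = i ∧ σ i = i ∧ φ i = ε := by
  classical
  obtain ⟨x₀, hx₀⟩ := hs ε
  have hit : ∀ j : ℕ, φ (σ^[j] x₀) = ε := by
    intro j
    induction j with
    | zero => exact hx₀
    | succ j ih =>
      rw [Function.iterate_succ_apply']
      exact hσε _ ih
  let S : R := ∑ j ∈ Finset.range o, σ^[j] x₀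
  have hσS : σ S = S := by
    simp only [S, map_sum]
    have h1 : ∀ j, σ (σ^[j] x₀) = σ^[j + 1] x₀ := fun j => (Function.iterate_succ_apply' σ j x₀).symm
    simp only [h1]
    have h2 := Finset.sum_range_succ' (fun j => σ^[j] x₀) o
    have h3 := Finset.sum_range_succ (fun j => σ^[j] x₀) o
    simp only [hσo, Function.iterate_zero, id] at h2 h3
    rw [h3] at h2
    exact (add_right_cancel h2).symm
  have hφS : φ S = (o : k) • ε := by
    simp only [S, map_sum, hit, Finset.sum_const, Finset.card_range]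
    rw [Nat.cast_smul_eq_nsmul]
  let x₁ : R := (o : k)⁻¹ • (e * S)
  have hφx₁ : φ x₁ = ε := by
    simp only [x₁, map_smul, map_mul, he, one_mul, hφS, smul_smul]
    rw [inv_mul_cancel₀ ho0, one_smul]
  have hσx₁ : σ x₁ = x₁ := by
    simp only [x₁, map_smul, map_mul, hσe, hσS]
  have hex₁ : e * x₁ = x₁ := by
    simp only [x₁, mul_smul_comm, ← mul_assoc, D.hee]
  have hφt : φ (x₁ - x₁ ^ 2) = 0 := by
    rw [map_sub, map_pow, hφx₁, pow_two, hεε, sub_self]
  have het : e * (x₁ - x₁ ^ 2) = x₁ - x₁ ^ 2 := by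
    rw [mul_sub, hex₁, pow_two, ← mul_assoc, hex₁]
  have htJ : x₁ - x₁ ^ 2 ∈ Ring.jacobson R := by
    rw [← het]
    exact hJ _ hφt
  obtain ⟨m₀, hm₀⟩ := isNil_of_mem_jacobson htJ
  let m := m₀ + 1
  have hm : (x₁ - x₁ ^ 2) ^ m = 0 := by
    show (x₁ - x₁ ^ 2) ^ (m₀ + 1) = 0
    rw [pow_succ, hm₀, zero_mul]
  have hidem := isIdempotentElem_one_sub_one_sub_pow_pow x₁ m hm
  refine ⟨1 - (1 - x₁ ^ m) ^ m, hidem, ?_, ?_, ?_⟩
  · have h1 : 1 - (1 - x₁ ^ m) ^ m = x₁ ^ m * ∑ j ∈ Finset.range m, (1 - x₁ ^ m) ^ j := by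
      have h2 := mul_neg_geom_sum (1 - x₁ ^ m) m
      rw [sub_sub_cancel] at h2
      exact h2.symm
    have hepow : e * x₁ ^ m = x₁ ^ m := by
      simp only [m, pow_succ']
      rw [← mul_assoc, hex₁]
    rw [h1, ← mul_assoc, hepow]
  · simp only [map_sub, map_pow, map_one, hσx₁]
  · have h1 : IsIdempotentElem ε := hεε
    have h2 : IsIdempotentElem (1 - ε) := h1.one_sub
    have h3 : ε ^ m = ε := h1.pow_succ_eq m₀
    have h4 : (1 - ε) ^ m = 1 - ε := h2.pow_succ_eq m₀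
    simp only [map_sub, map_pow, map_one, hφx₁, h3, h4, sub_sub_cancel]

theorem exists_skolem {n : ℕ} [NeZero n] (φ φ' : R →ₐ[k] Matrix (Fin n) (Fin n) k) (hs : Function.Surjective φ)
    (hker : ∀ r, φ r = 0 → φ' r = 0) : ∃ w : Matrix (Fin n) (Fin n) k, IsUnit w ∧ ∀ r, w * φ r = φ' r * w := by
  classical
  have hkerE : ∀ r r', φ r = φ r' → φ' r = φ' r' := by
    intro r r' h
    have := hker (r - r') (by rw [map_sub, h, sub_self])
    rwa [map_sub, sub_eq_zero] at this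
  choose a ha using fun (p : Fin n × Fin n) => hs (Matrix.single p.1 p.2 (1 : k))
  have ha' : ∀ j l, φ (a (j, l)) = Matrix.single j l 1 := fun j l => ha (j, l)
  let i₀ : Fin n := 0
  have hne : φ' (a (i₀, i₀)) ≠ 0 := by
    intro h0
    have h1 : ∀ j, φ' (a (j, j)) = 0 := by
      intro j
      have h2 : φ (a (j, j)) = φ (a (j, i₀) * a (i₀, i₀) * a (i₀, j)) := by
        simp only [map_mul, ha']
        simp
      rw [hkerE _ _ h2, map_mul, map_mul, h0]
      simp
    have h3 : φ (∑ j, a (j, j)) = φ 1 := by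
      rw [map_sum, map_one]
      simp only [ha']
      ext b c
      simp only [Matrix.sum_apply, Matrix.one_apply, Matrix.single_apply]
      by_cases hbc : b = c
      · subst hbc
        simp
      · rw [if_neg hbc]
        refine Finset.sum_eq_zero fun j _ => ?_
        rw [if_neg]
        rintro ⟨rfl, rfl⟩
        exact hbc rfl
    have h4 := hkerE _ _ h3
    rw [map_sum, map_one] at h4
    simp only [h1, Finset.sum_const_zero] at h4
    exact zero_ne_one h4
  obtain ⟨v₀, hv₀⟩ : ∃ v₀ : Fin n → k, (φ' (a (i₀, i₀))).mulVec v₀ ≠ 0 := by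
    by_contra hcon
    push Not at hcon
    apply hne
    ext b c
    have := congrFun (hcon (Pi.single c 1)) b
    simpa using this
  let u : Fin n → Fin n → k := fun j => (φ' (a (j, i₀))).mulVec v₀
  let w : Matrix (Fin n) (Fin n) k := Matrix.of fun α j => u j α
  have hwv : ∀ x, w.mulVec x = ∑ j, x j • u j := by
    intro x
    ext α
    simp [w, Matrix.mulVec, dotProduct, Finset.sum_apply, mul_comm]
  have hmul : ∀ r j, φ' (r * a (j, i₀)) = ∑ l, (φ r) l j • φ' (a (l, i₀)) := by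
    intro r j
    have h1 : φ (r * a (j, i₀)) = φ (∑ l, (φ r) l j • a (l, i₀)) := by
      rw [map_mul, ha', map_sum]
      ext b c
      simp only [Matrix.mul_apply, Matrix.sum_apply, map_smul, ha', Matrix.smul_apply, Matrix.single_apply, smul_eq_mul]
      by_cases hc : i₀ = c
      · simp [hc]
      · simp [hc]
    rw [hkerE _ _ h1, map_sum]
    simp only [map_smul]
  have hcomm : ∀ r, w * φ r = φ' r * w := by
    intro r
    ext α j
    have h1 : (w * φ r) α j = (w.mulVec (fun l => (φ r) l j)) α := by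
      simp [Matrix.mul_apply, Matrix.mulVec, dotProduct]
    have h2 : (φ' r * w) α j = ((φ' r).mulVec (u j)) α := by
      simp [Matrix.mul_apply, Matrix.mulVec, dotProduct, w]
    rw [h1, h2, hwv]
    have h3 : (φ' r).mulVec (u j) = ∑ l, (φ r) l j • u l := by
      simp only [u]
      rw [Matrix.mulVec_mulVec, ← map_mul, hmul, Matrix.sum_mulVec]
      simp only [Matrix.smul_mulVec]
    rw [h3]
  refine ⟨w, ?_, hcomm⟩
  rw [← Matrix.mulVec_injective_iff_isUnit]
  intro x x' hxx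
  by_contra hxne
  obtain ⟨b, hb⟩ : ∃ b, (x - x') b ≠ 0 := by
    by_contra hcon
    push Not at hcon
    apply hxne
    exact sub_eq_zero.mp (funext hcon)
  have hw0 : w.mulVec (x - x') = 0 := by
    rw [Matrix.mulVec_sub, hxx, sub_self]
  have hall : ∀ α, u α = 0 := by
    intro α
    have h1 : (φ (a (α, b))).mulVec (x - x') = (x - x') b • Pi.single α (1 : k) := by
      rw [ha']
      ext c
      simp only [Matrix.mulVec, dotProduct, Matrix.single_apply, Pi.smul_apply, Pi.single_apply, smul_eq_mul]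
      by_cases hc : α = c
      · subst hc
        simp
      · simp [hc, Ne.symm hc]
    have h2 : w.mulVec ((φ (a (α, b))).mulVec (x - x')) = 0 := by
      rw [Matrix.mulVec_mulVec, hcomm, ← Matrix.mulVec_mulVec, hw0, Matrix.mulVec_zero]
    rw [h1, Matrix.mulVec_smul, hwv] at h2
    have h3 : ∑ j, (Pi.single α (1 : k) : Fin n → k) j • u j = u α := by
      rw [Finset.sum_eq_single α]
      · simp
      · intro j _ hj
        simp [hj]
      · simp
    rw [h3] at h2
    exact (smul_eq_zero.mp h2).resolve_left hb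
  exact hv₀ (hall i₀)

end Fixed


section Good

universe u

variable {k : Type*} {R : Type u} [Field k] [Fintype k] [Ring R] [Algebra k R]
variable {lam : R →ₗ[k] k} {e y : R} {N : ℕ}

theorem exists_gen_units : ∃ g₀ : kˣ, orderOf g₀ = Fintype.card k - 1 ∧ ∀ c : kˣ, ∃ a : ℕ, c = g₀ ^ a := by
  classical
  obtain ⟨g₀, hg₀⟩ := IsCyclic.exists_generator (α := kˣ)
  refine ⟨g₀, ?_, fun c => ?_⟩
  · rw [orderOf_eq_card_of_forall_mem_zpowers hg₀, Nat.card_eq_fintype_card, Fintype.card_units]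
  · have h1 := hg₀ c
    rw [mem_powers_iff_mem_zpowers.symm] at h1
    obtain ⟨a, ha⟩ := h1
    exact ⟨a, ha.symm⟩

theorem exists_root_of_pow_eq_one {o m : ℕ} (hom : o * m = Fintype.card k - 1) (hm : 0 < m) {c : k} (hc : c ^ m = 1) :
    ∃ γ : k, γ ≠ 0 ∧ γ ^ o = c := by
  classical
  obtain ⟨g₀, hg₀, hgen⟩ := exists_gen_units (k := k)
  have hc0 : c ≠ 0 := by
    rintro rfl
    rw [zero_pow hm.ne'] at hc
    exact zero_ne_one hc
  obtain ⟨a, ha⟩ := hgen (Units.mk0 c hc0)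
  have h1 : (g₀ ^ a) ^ m = 1 := by
    rw [← ha]
    ext
    simpa using hc
  have h2 : orderOf g₀ ∣ a * m := by
    rw [← pow_mul] at h1
    exact orderOf_dvd_of_pow_eq_one h1
  rw [hg₀, ← hom] at h2
  have h3 : o ∣ a := Nat.dvd_of_mul_dvd_mul_right hm h2
  obtain ⟨b, rfl⟩ := h3
  refine ⟨((g₀ ^ b : kˣ) : k), Units.ne_zero _, ?_⟩
  have h4 : ((Units.mk0 c hc0 : kˣ) : k) = c := rfl
  rw [← h4, ha, pow_mul']
  simp

theorem exists_root_of_trace {n : ℕ} {B : Matrix (Fin n) (Fin n) k} (hB : Matrix.trace B ≠ 0) {o : ℕ} (ho : 0 < o)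
    {c : k} (hc : B ^ o = c • (1 : Matrix (Fin n) (Fin n) k)) (hdvd : o ∣ Fintype.card k - 1) :
    ∃ γ : k, γ ≠ 0 ∧ γ ^ o = c := by
  classical
  obtain ⟨m, hm⟩ := hdvd
  have hq : 1 < Fintype.card k := Fintype.one_lt_card
  have hm0 : 0 < m := by
    rcases Nat.eq_zero_or_pos m with h | h
    · rw [h, mul_zero] at hm
      omega
    · exact h
  refine exists_root_of_pow_eq_one hm.symm hm0 ?_
  have h1 : B ^ Fintype.card k = c ^ m • B := by
    have h2 : Fintype.card k = o * m + 1 := by omega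
    rw [h2, pow_succ, pow_mul, hc, _root_.smul_pow, one_pow, smul_mul_assoc, one_mul]
  have h3 := FiniteField.trace_pow_card B
  rw [h1, Matrix.trace_smul, smul_eq_mul, FiniteField.pow_card] at h3
  have h4 : (c ^ m - 1) * Matrix.trace B = 0 := by
    rw [sub_mul, one_mul, h3, sub_self]
  rw [mul_eq_zero] at h4
  rcases h4 with h4 | h4
  · exact sub_eq_zero.mp h4
  · exact absurd h4 hB

variable {Γ A : Type*} [Group Γ] [Group A] [Finite A]

/-- **A good element**: an element of the coset of a given element whose conjugation fixes a rank one idempotent. -/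
theorem exists_good {n : ℕ} [NeZero n] (φ : R →ₐ[k] Matrix (Fin n) (Fin n) k) (hs : Function.Surjective φ)
    (Sg : A →* (R ≃ₐ[k] R)) (inc : Γ →* A) (ι : Γ →* R) (hSginc : ∀ l r, Sg (inc l) r = ι l * r * ι l⁻¹)
    (hspan : ∀ r, r ∈ Submodule.span k (Set.range ι)) (t : A) (hker : ∀ r, φ r = 0 → φ (Sg t r) = 0)
    (p : ℕ) [hp : Fact p.Prime] [CharP k p] (horder : ∀ g : A, ¬ p ∣ orderOf g → orderOf g ∣ Fintype.card k - 1) :
    ∃ (l : Γ) (r' : ℕ), ¬ p ∣ orderOf ((t * inc l) ^ r') ∧ r' % (Fintype.card k - 1) = 1 % (Fintype.card k - 1) ∧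
      ∃ v f : Fin n → k, f ⬝ᵥ v = 1 ∧ ∀ r, φ r = Matrix.vecMulVec v f →
        φ (Sg ((t * inc l) ^ r') r) = Matrix.vecMulVec v f := by
  classical
  obtain ⟨w, hwu, hw⟩ := exists_skolem φ (φ.comp (Sg t).toAlgHom) hs hker
  have hw' : ∀ r, w * φ r = φ (Sg t r) * w := hw
  have hnontriv : Nontrivial (Matrix (Fin n) (Fin n) k) := inferInstance
  have hw0 : w ≠ 0 := hwu.ne_zero
  obtain ⟨a, b, hab⟩ : ∃ a b, w a b ≠ 0 := by
    by_contra hcon
    push Not at hcon
    exact hw0 (by ext a b; simpa using hcon a b)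
  obtain ⟨r₁, hr₁⟩ := hs (Matrix.single b a (1 : k))
  have htr1 : Matrix.trace (w * φ r₁) ≠ 0 := by
    rw [Matrix.trace_mul_comm, hr₁, trace_single_mul']
    exact hab
  obtain ⟨l₀, hl₀⟩ : ∃ l₀ : Γ, Matrix.trace (w * φ (ι l₀)) ≠ 0 := by
    by_contra hcon
    push Not at hcon
    have hzero : ∀ r, r ∈ Submodule.span k (Set.range ι) → Matrix.trace (w * φ r) = 0 := by
      intro r h1
      induction h1 using Submodule.span_induction with
      | mem x hx =>
        obtain ⟨l, rfl⟩ := hx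
        exact hcon l
      | zero => simp
      | add x y _ _ hx hy => rw [map_add, mul_add, Matrix.trace_add, hx, hy, add_zero]
      | smul c x _ hx => rw [map_smul, mul_smul_comm, Matrix.trace_smul, hx, smul_zero]
    exact htr1 (hzero _ (hspan r₁))
  set g := t * inc l₀ with hg
  set B := w * φ (ι l₀) with hB
  have hBconj : ∀ r, B * φ r = φ (Sg g r) * B := by
    intro r
    have h1 : Sg g r = Sg t (ι l₀ * r * ι l₀⁻¹) := by
      rw [hg, map_mul, AlgEquiv.mul_apply, hSginc]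
    have h2 : ι l₀⁻¹ * ι l₀ = 1 := by rw [← map_mul, inv_mul_cancel, map_one]
    rw [h1, hB, ← mul_assoc, ← hw', mul_assoc]
    simp only [map_mul, mul_assoc]
    rw [← map_mul φ (ι l₀⁻¹), h2, map_one, mul_one]
  have hBpow : ∀ (j : ℕ) r, B ^ j * φ r = φ (Sg (g ^ j) r) * B ^ j := by
    intro j
    induction j with
    | zero =>
      intro r
      simp
    | succ j ih =>
      intro r
      have h : Sg (g * g ^ j) r = Sg g (Sg (g ^ j) r) := by rw [map_mul Sg g, AlgEquiv.mul_apply]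
      rw [pow_succ' B, mul_assoc, ih, ← mul_assoc, hBconj, pow_succ' g, h, mul_assoc]
  -- the power
  obtain ⟨f₁, hpp, hq⟩ := FiniteField.card k p
  set q := Fintype.card k with hqdef
  have hq1 : 1 < q := Fintype.one_lt_card
  have hgo : orderOf g ≠ 0 := (orderOf_pos g).ne'
  obtain ⟨b', m', hm', hord⟩ := Nat.exists_eq_pow_mul_and_not_dvd hgo p hpp.ne_one
  set r' := q ^ b' with hr'
  set t₂ := g ^ r' with ht₂
  have hpq : p ^ b' ∣ r' := by
    rw [hr', hq, ← pow_mul, mul_comm]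
    exact pow_dvd_pow _ (Nat.le_mul_of_pos_right _ f₁.pos)
  have hnp : ¬ p ∣ orderOf t₂ := by
    intro h
    apply hm'
    refine h.trans (orderOf_dvd_of_pow_eq_one ?_)
    obtain ⟨c', hc'⟩ := hpq
    rw [ht₂, ← pow_mul, hc']
    have h2 : p ^ b' * c' * m' = orderOf g * c' := by rw [hord]; ring
    rw [h2, pow_mul, pow_orderOf_eq_one, one_pow]
  have hmod : r' % (q - 1) = 1 % (q - 1) := by
    have h1 : q ≡ 1 [MOD (q - 1)] := by
      have h2 : q = (q - 1) + 1 := by omega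
      conv_lhs => rw [h2]
      simp [Nat.ModEq]
    have h3 := h1.pow b'
    rw [one_pow] at h3
    exact h3
  have htrpow : ∀ j, Matrix.trace (B ^ (q ^ j)) = Matrix.trace B ^ (q ^ j) := by
    intro j
    induction j with
    | zero => simp
    | succ j ih =>
      rw [pow_succ q, pow_mul, FiniteField.trace_pow_card, ih, pow_mul]
  set B₂ := B ^ r' with hB₂
  have hB₂tr : Matrix.trace B₂ ≠ 0 := by
    rw [hB₂, hr', htrpow]
    exact pow_ne_zero _ hl₀
  have hB₂pow : ∀ (j : ℕ) r, B₂ ^ j * φ r = φ (Sg (t₂ ^ j) r) * B₂ ^ j := by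
    intro j r
    rw [hB₂, ht₂, ← pow_mul, ← pow_mul]
    exact hBpow _ r
  set o := orderOf t₂ with ho
  have hopos : 0 < o := orderOf_pos t₂
  have hcomm : ∀ r, B₂ ^ o * φ r = φ r * B₂ ^ o := by
    intro r
    rw [hB₂pow, ho, pow_orderOf_eq_one, map_one, AlgEquiv.aut_one]
    rfl
  have hscal : B₂ ^ o ∈ Set.range (Matrix.scalar (Fin n) : k →+* Matrix (Fin n) (Fin n) k) := by
    apply Matrix.mem_range_scalar_of_commute_single
    intro a b _
    obtain ⟨r, hr⟩ := hs (Matrix.single a b 1)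
    show Matrix.single a b 1 * B₂ ^ o = B₂ ^ o * Matrix.single a b 1
    rw [← hr, hcomm]
  obtain ⟨c₀, hc₀⟩ := hscal
  have hc₀' : B₂ ^ o = c₀ • (1 : Matrix (Fin n) (Fin n) k) := by
    rw [← hc₀]
    ext a b
    simp [Matrix.scalar_apply, Matrix.diagonal_apply, Matrix.one_apply]
  have hdvd : o ∣ q - 1 := horder t₂ hnp
  obtain ⟨γ, hγ0, hγ⟩ := exists_root_of_trace hB₂tr hopos hc₀' hdvd
  set B₃ := γ⁻¹ • B₂ with hB₃
  have hB₃o : B₃ ^ o = 1 := by
    rw [hB₃, _root_.smul_pow, hc₀', inv_pow, hγ, smul_smul, inv_mul_cancel₀, one_smul]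
    rw [← hγ]
    exact pow_ne_zero _ hγ0
  have hB₃conj : ∀ r, B₃ * φ r = φ (Sg t₂ r) * B₃ := by
    intro r
    have h1 := hB₂pow 1 r
    rw [pow_one, pow_one] at h1
    rw [hB₃, smul_mul_assoc, mul_smul_comm, h1]
  -- eigenvector
  let T : Module.End k (Fin n → k) := Matrix.toLinAlgEquiv' B₃
  have hTo : T ^ o = 1 := by
    simp only [T]
    rw [← map_pow, hB₃o, map_one]
  have hTapply : ∀ v, T v = B₃.mulVec v := fun v => Matrix.toLinAlgEquiv'_apply _ _
  have hop0 : (o : k) ≠ 0 := by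
    intro h
    exact hnp ((CharP.cast_eq_zero_iff k p o).mp h)
  obtain ⟨g₀, hg₀, -⟩ := exists_gen_units (k := k)
  obtain ⟨m₀, hm₀⟩ := hdvd
  have hm₀0 : m₀ ≠ 0 := by
    rintro rfl
    rw [mul_zero] at hm₀
    omega
  have hζ : IsPrimitiveRoot (((g₀ ^ m₀ : kˣ)) : k) o := by
    rw [IsPrimitiveRoot.coe_units_iff]
    have h1 : orderOf (g₀ ^ m₀) = o := by
      rw [orderOf_pow_of_dvd hm₀0 (by rw [hg₀, ← hqdef, hm₀]; exact dvd_mul_left _ _), hg₀, ← hqdef, hm₀]
      exact Nat.mul_div_cancel _ (Nat.pos_of_ne_zero hm₀0)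
    rw [← h1]
    exact IsPrimitiveRoot.orderOf _
  obtain ⟨i₀⟩ : Nonempty (Fin n) := ⟨0⟩
  have hv00 : (LinearMap.id : (Fin n → k) →ₗ[k] (Fin n → k)) (Pi.single i₀ 1) ≠ 0 := by
    intro h
    have := congrFun h i₀
    simp at this
  obtain ⟨q₁, l, hne, heig⟩ := exists_eigen_comp hopos hTo hζ hop0 LinearMap.id hv00
  set v₁ := aeval T q₁ (Pi.single i₀ 1) with hv₁
  have hv₁0 : v₁ ≠ 0 := hne
  have hB₃v : B₃.mulVec v₁ = l • v₁ := by rw [← hTapply]; exact heig
  have hB₃vp : ∀ j, (B₃ ^ j).mulVec v₁ = l ^ j • v₁ := by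
    intro j
    induction j with
    | zero => simp
    | succ j ih => rw [pow_succ', ← Matrix.mulVec_mulVec, ih, Matrix.mulVec_smul, hB₃v, smul_smul, pow_succ]
  have hlo : l ^ o = 1 := by
    have h1 := hB₃vp o
    rw [hB₃o, Matrix.one_mulVec] at h1
    have h2 : (l ^ o - 1) • v₁ = 0 := by rw [sub_smul, ← h1, one_smul, sub_self]
    exact sub_eq_zero.mp ((smul_eq_zero.mp h2).resolve_right hv₁0)
  have hl0 : l ≠ 0 := by
    rintro rfl
    rw [zero_pow hopos.ne'] at hlo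
    exact zero_ne_one hlo
  obtain ⟨j₀, hj₀⟩ : ∃ j₀, v₁ j₀ ≠ 0 := by
    by_contra hcon
    push Not at hcon
    exact hv₁0 (funext hcon)
  let f₀ : Fin n → k := Pi.single j₀ (v₁ j₀)⁻¹
  have hf₀ : f₀ ⬝ᵥ v₁ = 1 := by
    simp only [f₀, single_dotProduct]
    exact inv_mul_cancel₀ hj₀
  let fj : ℕ → (Fin n → k) := fun j => Matrix.vecMul f₀ (B₃ ^ j)
  have hfjv : ∀ j, fj j ⬝ᵥ v₁ = l ^ j := by
    intro j
    simp only [fj]
    rw [← Matrix.dotProduct_mulVec, hB₃vp, dotProduct_smul, hf₀, smul_eq_mul, mul_one]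
  have hfjB : ∀ j, Matrix.vecMul (fj j) B₃ = fj (j + 1) := by
    intro j
    simp only [fj]
    rw [Matrix.vecMul_vecMul, pow_succ]
  have hfjo : fj o = fj 0 := by
    simp only [fj]
    rw [hB₃o, pow_zero]
  obtain ⟨f, hf⟩ : ∃ f : Fin n → k, f = (o : k)⁻¹ • ∑ j ∈ Finset.range o, (l⁻¹) ^ j • fj j := ⟨_, rfl⟩
  have hfv : f ⬝ᵥ v₁ = 1 := by
    rw [hf, smul_dotProduct, sum_dotProduct]
    simp only [smul_dotProduct, hfjv, smul_eq_mul]
    have h1 : ∀ j, (l⁻¹) ^ j * l ^ j = 1 := fun j => by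
      rw [← mul_pow, inv_mul_cancel₀ hl0, one_pow]
    simp only [h1, Finset.sum_const, Finset.card_range, nsmul_eq_mul, mul_one]
    exact inv_mul_cancel₀ hop0
  have hfB : Matrix.vecMul f B₃ = l • f := by
    rw [hf, Matrix.smul_vecMul, smul_comm]
    congr 1
    rw [Matrix.sum_vecMul]
    simp only [Matrix.smul_vecMul, hfjB]
    have h1 : ∀ j, l • ((l⁻¹) ^ (j + 1) • fj (j + 1)) = (l⁻¹) ^ j • fj (j + 1) := by
      intro j
      rw [smul_smul, pow_succ, mul_comm ((l⁻¹) ^ j), ← mul_assoc, mul_inv_cancel₀ hl0, one_mul]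
    have h2 := Finset.sum_range_succ' (fun j => (l⁻¹) ^ j • fj j) o
    have h3 := Finset.sum_range_succ (fun j => (l⁻¹) ^ j • fj j) o
    have h4 : (l⁻¹) ^ o = 1 := by rw [inv_pow, hlo, inv_one]
    simp only [h4, hfjo, one_smul, pow_zero] at h2 h3
    rw [h3] at h2
    have h5 := add_right_cancel h2
    rw [h5, Finset.smul_sum]
    refine Finset.sum_congr rfl fun j _ => ?_
    rw [h1]
  refine ⟨l₀, r', hnp, hmod, v₁, f, hfv, fun r hr => ?_⟩
  have h1 : φ (Sg t₂ r) * B₃ = Matrix.vecMulVec v₁ f * B₃ := by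
    rw [← hB₃conj, hr, Matrix.mul_vecMulVec, Matrix.vecMulVec_mul, hB₃v, hfB, Matrix.smul_vecMulVec, Matrix.vecMulVec_smul]
  have h2 : B₃ * B₃ ^ (o - 1) = 1 := by
    rw [← pow_succ', Nat.sub_add_cancel hopos, hB₃o]
  calc φ (Sg t₂ r) = φ (Sg t₂ r) * (B₃ * B₃ ^ (o - 1)) := by rw [h2, mul_one]
    _ = (φ (Sg t₂ r) * B₃) * B₃ ^ (o - 1) := by rw [mul_assoc]
    _ = (Matrix.vecMulVec v₁ f * B₃) * B₃ ^ (o - 1) := by rw [h1]
    _ = Matrix.vecMulVec v₁ f * (B₃ * B₃ ^ (o - 1)) := by rw [mul_assoc]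
    _ = _ := by rw [h2, mul_one]

theorem exists_corner_data [Module.Finite k R] (D : CenData lam e y N)
    (Sg : A →* (R ≃ₐ[k] R)) (inc : Γ →* A) (ι : Γ →* R) (hSginc : ∀ l r, Sg (inc l) r = ι l * r * ι l⁻¹)
    (hspan : ∀ r, r ∈ Submodule.span k (Set.range ι)) (t : A) (hte : Sg t e = e)
    (p : ℕ) [hp : Fact p.Prime] [CharP k p] (horder : ∀ g : A, ¬ p ∣ orderOf g → orderOf g ∣ Fintype.card k - 1) :
    ∃ (n : ℕ) (i : R) (c d : Fin n → R) (l : Γ) (r' : ℕ), Corner (k := k) e y i c d ∧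
      Sg ((t * inc l) ^ r') i = i ∧ ¬ p ∣ orderOf ((t * inc l) ^ r') ∧
      r' % (Fintype.card k - 1) = 1 % (Fintype.card k - 1) ∧
      n * n * N ≤ finrank k (LinearMap.range (LinearMap.mulLeft k e)) := by
  classical
  haveI hArt : IsArtinianRing R := IsArtinianRing.of_finite k R
  obtain ⟨n, hn, φ, c₀, hc₀, hs, he, hy, hJ, htr⟩ := D.exists_phi
  have hker : ∀ r, φ r = 0 → φ (Sg t r) = 0 := by
    intro r hr
    have h1 := hJ r hr
    have h2 : φ (Sg t (e * r)) = 0 := by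
      have h3 : Function.Surjective (φ.comp (Sg t).toAlgHom) := by
        intro A'
        obtain ⟨a, ha⟩ := hs A'
        refine ⟨(Sg t).symm a, ?_⟩
        show φ (Sg t ((Sg t).symm a)) = A'
        rw [AlgEquiv.apply_symm_apply, ha]
      exact phi_jacobson (φ.comp (Sg t).toAlgHom) h3 h1
    rw [map_mul, hte, map_mul, he, one_mul] at h2
    exact h2
  obtain ⟨l, r', hnp, hmod, v, f, hfv, hfix⟩ := exists_good φ hs Sg inc ι hSginc hspan t hker p horder
  set t₂ := (t * inc l) ^ r' with ht₂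
  have hincl : Sg (inc l) e = e := by
    rw [hSginc, ← D.hec, mul_assoc, ← map_mul, mul_inv_cancel, map_one, mul_one]
  have hpowe : ∀ j, Sg ((t * inc l) ^ j) e = e := by
    intro j
    induction j with
    | zero => simp
    | succ j ih =>
      rw [pow_succ, map_mul, AlgEquiv.mul_apply, map_mul, AlgEquiv.mul_apply, hincl, hte, ih]
  have ho : 0 < orderOf t₂ := orderOf_pos t₂
  have ho0 : ((orderOf t₂ : ℕ) : k) ≠ 0 := by
    intro h
    exact hnp ((CharP.cast_eq_zero_iff k p _).mp h)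
  have hiter : ∀ (j : ℕ) r, (Sg t₂).toAlgHom^[j] r = Sg (t₂ ^ j) r := by
    intro j r
    induction j with
    | zero => simp
    | succ j ih =>
      rw [Function.iterate_succ_apply', ih, pow_succ', map_mul, AlgEquiv.mul_apply]
      rfl
  have hεε : Matrix.vecMulVec v f * Matrix.vecMulVec v f = Matrix.vecMulVec v f := by
    rw [Matrix.vecMulVec_mul_vecMulVec, hfv, one_smul]
  obtain ⟨i, hii, hei, hσi, hφi⟩ := exists_fixed_idem D φ hs he hJ (Sg t₂).toAlgHom ho ho0
    (fun r => by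
      rw [hiter, pow_orderOf_eq_one, map_one, AlgEquiv.aut_one]
      rfl) (hpowe r') (Matrix.vecMulVec v f) hεε hfix
  obtain ⟨c, d, h1, h2, h3, h4, h5, h6⟩ := exists_cd D φ hs he hJ hii hei v f hφi hfv
  have hcorner := corner_eq_poly D φ hy hJ hc₀ htr hii hei v f hφi hfv h1 h2 h3 h4 h5
  have hC : Corner (k := k) e y i c d := ⟨hii, hei, h1, h2, h3, h4, h5, h6, hcorner⟩
  exact ⟨n, i, c, d, l, r', hC, hσi, hnp, hmod, card_mul_le D hC⟩

end Good

end Cfsg.Agent.Lib.FF
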