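import Mathlib

/-!
# Automorphisms of the complex numbers with prescribed action on roots of unity
-/

set_option autoImplicit false

namespace Cfsg.Agent.Lib.FF

open MvPolynomial

/-- An automorphism of a subfield of `ℂ` extends to `ℂ`. -/
theorem exists_ringEquiv_extend (L : Subfield ℂ) (σ₀ : L ≃+* L) :
    ∃ σ : ℂ ≃+* ℂ, ∀ l : L, σ (l : ℂ) = (σ₀ l : ℂ) := by
  classical
  obtain ⟨s, hs⟩ := exists_isTranscendenceBasis L ℂ
  let := IsAlgClosed.isAlgClosure_of_transcendence_basis _ hs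
  let S := Algebra.adjoin L (Set.range ((↑) : s → ℂ))
  let e : MvPolynomial s L ≃ₐ[L] S := hs.1.aevalEquiv
  let hSR : S ≃+* S := e.symm.toRingEquiv.trans ((MvPolynomial.mapEquiv s σ₀).trans e.toRingEquiv)
  refine ⟨IsAlgClosure.equivOfEquiv ℂ ℂ hSR, fun l => ?_⟩
  have h1 := IsAlgClosure.equivOfEquiv_algebraMap ℂ ℂ hSR (algebraMap L S l)
  have h2 : hSR (algebraMap L S l) = algebraMap L S (σ₀ l) := by
    have h3 : e.symm (algebraMap L S l) = MvPolynomial.C l := by
      rw [AlgEquiv.commutes]; rfl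
    have h4 : e (MvPolynomial.C (σ₀ l)) = algebraMap L S (σ₀ l) := by
      have := e.commutes (σ₀ l)
      exact this
    change e (MvPolynomial.mapEquiv s σ₀ (e.symm (algebraMap L S l))) = _
    rw [h3, ← h4]
    congr 1
    simp
  rw [h2] at h1
  exact h1

/-- For `s` coprime to `N` there is a field automorphism of `ℂ` raising `N`-th roots of unity to
the `s`-th power. -/
theorem exists_aut_pow (N s : ℕ) (hN : 0 < N) (hs : Nat.Coprime s N) :
    ∃ σ : ℂ ≃+* ℂ, ∀ z : ℂ, z ^ N = 1 → σ z = z ^ s := by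
  classical
  have : NeZero N := ⟨hN.ne'⟩
  have hζ : IsPrimitiveRoot (Complex.exp (2 * Real.pi * Complex.I / N)) N :=
    Complex.isPrimitiveRoot_exp N hN.ne'
  let L : IntermediateField ℚ ℂ :=
    IntermediateField.adjoin ℚ {b : ℂ | ∃ n ∈ ({N} : Set ℕ), n ≠ 0 ∧ b ^ n = 1}
  have : IsCyclotomicExtension {N} ℚ L :=
    IntermediateField.isCyclotomicExtension_adjoin_of_exists_isPrimitiveRoot {N} ℚ ℂ
      (fun n hn _ => ⟨_, (Set.mem_singleton_iff.1 hn) ▸ hζ⟩)
  have hz := IsCyclotomicExtension.zeta_spec N ℚ L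
  have hμ := hz.pow_of_coprime s hs
  have hirr : Irreducible (Polynomial.cyclotomic N ℚ) := Polynomial.cyclotomic.irreducible_rat hN
  let τ : Gal(L/ℚ) := IsCyclotomicExtension.fromZetaAut hμ hirr
  have hτ : τ (IsCyclotomicExtension.zeta N ℚ L) = (IsCyclotomicExtension.zeta N ℚ L) ^ s :=
    IsCyclotomicExtension.fromZetaAut_spec hμ hirr
  obtain ⟨σ, hσ⟩ := exists_ringEquiv_extend L.toSubfield τ.toRingEquiv
  refine ⟨σ, fun z hzN => ?_⟩
  have hzc : IsPrimitiveRoot ((IsCyclotomicExtension.zeta N ℚ L : L) : ℂ) N :=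
    hz.map_of_injective (f := L.val) L.val.injective
  obtain ⟨k, -, rfl⟩ := hzc.eq_pow_of_pow_eq_one hzN
  have h := hσ (IsCyclotomicExtension.zeta N ℚ L)
  have h' : σ ((IsCyclotomicExtension.zeta N ℚ L : L) : ℂ)
      = ((IsCyclotomicExtension.zeta N ℚ L : L) : ℂ) ^ s := by
    refine h.trans ?_
    change ((τ (IsCyclotomicExtension.zeta N ℚ L) : L) : ℂ) = _
    rw [hτ]; rfl
  rw [map_pow, h', ← pow_mul, ← pow_mul, mul_comm]

end Cfsg.Agent.Lib.FF
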