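import Cfsg.Agent.Lib.FF.GenMain
import Cfsg.Agent.Lib.FF.GalAut
import Cfsg.Agent.Lib.Degree.GaloisChar

/-!
# Blocks of defect one: the action of Galois automorphisms
-/

set_option autoImplicit false
set_option linter.unusedSectionVars false
set_option linter.style.haveILetI false
set_option linter.unusedSimpArgs false
set_option linter.unnecessarySimpa false
set_option linter.unusedVariables false
set_option maxSynthPendingDepth 3

open scoped ComplexConjugate
open Subgroup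

namespace Cfsg.Agent.Lib.FF

open Cfsg (classInner IsCharacter IsIrrCharacter IrrCharacter IsClassFunction indFun
  extendByZero IsGeneralizedCharacter IsPModular IsPPart charDegree IsPBlock blockOf blockCoeff SameBlock MemLocalIdeal
  IsInducedBlock IsDefectGroup inducedCentralChar centralChar)
open Cfsg.Agent.Lib.Char
open Cfsg.Agent.Lib.Block hiding tr
open Cfsg.Agent.Lib.SmallSimple.Star
open Cfsg.Agent.Lib.SmallSimple.BL
open Cfsg.Agent.Lib.SmallSimple.BB

universe u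

section Value

variable {G : Type u} [Group G] [Finite G]

/-- A field automorphism of `ℂ` which is a power map on the roots of unity acts on characters by
the power map on the group. -/
theorem aut_char_value (σ : ℂ ≃+* ℂ) (s : ℕ) (hσ : ∀ z : ℂ, z ^ Nat.card G = 1 → σ z = z ^ s)
    (χ : IrrCharacter G) (g : G) : σ ((χ : G → ℂ) g) = (χ : G → ℂ) (g ^ s) := by
  obtain ⟨_, n, ρ, hρ, rfl⟩ := χ
  obtain ⟨ζ, hζ, hk⟩ := character_eq_sum_roots ρ g (isOfFinOrder_of_finite g)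
  have h1 := hk 1
  have h2 := hk s
  rw [zpow_one] at h1
  rw [zpow_natCast] at h2
  show σ (ρ.character g) = ρ.character (g ^ s)
  rw [h1, h2, map_sum]
  refine Finset.sum_congr rfl fun i _ => ?_
  have h3 : ζ i ^ Nat.card G = 1 := by
    obtain ⟨c, hc⟩ := orderOf_dvd_natCard g
    rw [hc, pow_mul, hζ i, one_pow]
  rw [zpow_one, hσ _ h3, zpow_natCast]

/-- An automorphism fixing the primitive `m`-th root of unity `ω` acts on `N`-th roots of unity as
a power `s`, with `s` prime to `N` and `≡ 1 mod m`. -/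
theorem exists_pow_of_fix {N m : ℕ} (hN : 1 < N) (hmN : m ∣ N) (hm : 0 < m) (σ : ℂ ≃+* ℂ)
    (hσ : σ (Complex.exp (2 * Real.pi * Complex.I / (m : ℕ))) = Complex.exp (2 * Real.pi * Complex.I / (m : ℕ))) :
    ∃ s : ℕ, s.Coprime N ∧ s ≡ 1 [MOD m] ∧ ∀ z : ℂ, z ^ N = 1 → σ z = z ^ s := by
  have hN0 : N ≠ 0 := by omega
  haveI : NeZero N := ⟨hN0⟩
  have hζ : IsPrimitiveRoot (Complex.exp (2 * Real.pi * Complex.I / N)) N :=
    Complex.isPrimitiveRoot_exp N hN0
  have hω : IsPrimitiveRoot (Complex.exp (2 * Real.pi * Complex.I / m)) m :=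
    Complex.isPrimitiveRoot_exp m hm.ne'
  have hζ' := hζ.map_of_injective (f := (σ : ℂ →+* ℂ)) σ.injective
  obtain ⟨s, -, hs⟩ := hζ.eq_pow_of_pow_eq_one hζ'.pow_eq_one
  have hcop : s.Coprime N := by
    have h1 := hζ'
    rw [← hs] at h1
    exact (hζ.pow_iff_coprime (by omega) s).mp h1
  have hval : ∀ z : ℂ, z ^ N = 1 → σ z = z ^ s := by
    intro z hz
    obtain ⟨k, -, rfl⟩ := hζ.eq_pow_of_pow_eq_one hz
    have h2 : σ (Complex.exp (2 * Real.pi * Complex.I / N)) = (Complex.exp (2 * Real.pi * Complex.I / N)) ^ s := hs.symm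
    rw [map_pow, h2, ← pow_mul, ← pow_mul, mul_comm s k]
  refine ⟨s, hcop, ?_, hval⟩
  have h3 : (Complex.exp (2 * Real.pi * Complex.I / m)) ^ s = Complex.exp (2 * Real.pi * Complex.I / m) := by
    rw [← hval _ (by obtain ⟨c, hc⟩ := hmN; rw [hc, pow_mul, hω.pow_eq_one, one_pow]), hσ]
  have hs0 : 1 ≤ s := by
    rcases Nat.eq_zero_or_pos s with h | h
    · subst h
      rw [Nat.coprime_zero_left] at hcop
      omega
    · exact h
  have h4 : (Complex.exp (2 * Real.pi * Complex.I / m)) ^ (s - 1) = 1 := by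
    have h5 := Complex.exp_ne_zero (2 * Real.pi * Complex.I / m)
    apply mul_left_cancel₀ h5
    rw [← pow_succ', Nat.sub_add_cancel hs0, h3, mul_one]
  have h6 := hω.dvd_of_pow_eq_one _ h4
  exact ((Nat.modEq_iff_dvd' hs0).mpr h6).symm

/-- If `s ≡ 1` mod `m` then `m`-th roots of unity are fixed by the `s`-th power. -/
theorem pow_eq_self_of_modEq {H : Type*} [Group H] {m s : ℕ} (hs : s ≡ 1 [MOD m]) {g : H} (hg : g ^ m = 1) :
    g ^ s = g := by
  have h1 := pow_eq_pow_iff_modEq.mpr (hs.of_dvd (orderOf_dvd_of_pow_eq_one hg))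
  rwa [pow_one] at h1

end Value

section Block

variable {G : Type u} [Group G] [Fintype G] {p : ℕ} {x : G} {K : Subgroup G} [Fintype K]
  {M : Ideal Cfsg.AlgInt} [hp : Fact p.Prime] {C : Subgroup G} [Fintype C]
  [Fintype (zpowers x)] {T : Subgroup G} [Fintype T] {B : Set (IrrCharacter G)} {θ₀ : IrrCharacter K}

/-- The power map of an irreducible character. -/
noncomputable def powIrr {s : ℕ} (hs : s.Coprime (Nat.card G)) (χ : IrrCharacter G) : IrrCharacter G :=
  ⟨fun g => (χ : G → ℂ) (g ^ s), Cfsg.Agent.Lib.Degree.galois_isIrr χ.2 hs⟩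

theorem powIrr_apply {s : ℕ} (hs : s.Coprime (Nat.card G)) (χ : IrrCharacter G) (g : G) :
    (powIrr hs χ : G → ℂ) g = (χ : G → ℂ) (g ^ s) := rfl

theorem card_zp (hx : orderOf x = p) : Nat.card (zpowers x) = p := by
  rw [Nat.card_zpowers, hx]

/-- The `s`-th power is a bijection on `⟨x⟩`. -/
noncomputable def powZ (hx : orderOf x = p) {s : ℕ} (hs : s.Coprime p) : zpowers x ≃ zpowers x :=
  powCoprime (by rw [card_zp hx]; exact hs.symm)

theorem powZ_apply (hx : orderOf x = p) {s : ℕ} (hs : s.Coprime p) (v : zpowers x) :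
    powZ hx hs v = v ^ s := rfl

theorem powZ_ne_one (hx : orderOf x = p) {s : ℕ} (hs : s.Coprime p) {v : zpowers x} (hv : v ≠ 1) : v ^ s ≠ 1 := by
  intro h
  apply hv
  apply (powZ hx hs).injective
  rw [powZ_apply, powZ_apply, h, one_pow]

/-- The power map on the non-trivial characters of `⟨x⟩`. -/
noncomputable def powNt (hx : orderOf x = p) {s : ℕ} (hs : s.Coprime p) (a : Nt x) : Nt x :=
  ⟨⟨fun v => (a.1 : zpowers x → ℂ) (v ^ s),
    Cfsg.Agent.Lib.Degree.galois_isIrr a.1.2 (by rw [card_zp hx]; exact hs)⟩, by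
    intro h
    apply a.2
    apply Subtype.ext
    funext v
    have h1 : (fun v : zpowers x => (a.1 : zpowers x → ℂ) (v ^ s)) = (triv : IrrCharacter (zpowers x)).1 :=
      congrArg Subtype.val h
    obtain ⟨w, rfl⟩ := (powZ hx hs).surjective v
    have h2 := congrFun h1 w
    rw [powZ_apply]
    exact h2⟩

theorem powNt_apply (hx : orderOf x = p) {s : ℕ} (hs : s.Coprime p) (a : Nt x) (v : zpowers x) :
    ((powNt hx hs a).1 : zpowers x → ℂ) v = (a.1 : zpowers x → ℂ) (v ^ s) := rfl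

/-- The section function of a power of a character. -/
theorem Dc_pow (hK : CompK x p K) {χ χ' : G → ℂ} {s : ℕ} (hval : ∀ g, χ' g = χ (g ^ s))
    (hs1 : ∀ k ∈ K, k ^ s = k) (μ : K → ℂ) (u : zpowers x) :
    Dc χ' μ u = Dc χ μ ((u : G) ^ s) := by
  rw [Dc_def, Dc_def]
  congr 1
  refine Finset.sum_congr rfl fun k _ => ?_
  rw [hval]
  obtain ⟨m, hm⟩ := Subgroup.mem_zpowers_iff.mp u.2
  have h1 : Commute (u : G) (k : G) := by
    rw [← hm]
    exact ((hK.comm k k.2).zpow_right m).symm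
  rw [h1.mul_pow, hs1 k k.2]

/-- The coefficients of a power of a character. -/
theorem c_pow (hx : orderOf x = p) (hK : CompK x p K)
    {c : Nt x → IrrCharacter G → IrrCharacter K → ℤ}
    (h3 : ∀ (χ : IrrCharacter G) (μ : IrrCharacter K) (a : Nt x), (c a χ μ : ℂ) =
      (p : ℂ)⁻¹ * ∑ u : zpowers x, ((a.1 : zpowers x → ℂ) u - 1) * conj (Dc (χ : G → ℂ) (μ : K → ℂ) u))
    {s : ℕ} (hs : s.Coprime (Nat.card G)) (hsp : s.Coprime p) (hs1 : ∀ k ∈ K, k ^ s = k)
    (χ : IrrCharacter G) (μ : IrrCharacter K) (a : Nt x) :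
    c (powNt hx hsp a) (powIrr hs χ) μ = c a χ μ := by
  have h1 : (c (powNt hx hsp a) (powIrr hs χ) μ : ℂ) = (c a χ μ : ℂ) := by
    rw [h3, h3]
    congr 1
    refine Eq.trans ?_ (Equiv.sum_comp (powZ hx hsp) (fun v : zpowers x =>
      ((a.1 : zpowers x → ℂ) v - 1) * conj (Dc (χ : G → ℂ) (μ : K → ℂ) v)))
    refine Finset.sum_congr rfl fun u _ => ?_
    have h2 : Dc ((powIrr hs χ : IrrCharacter G) : G → ℂ) (μ : K → ℂ) u = Dc (χ : G → ℂ) (μ : K → ℂ) ((u : G) ^ s) :=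
      Dc_pow hK (χ := (χ : G → ℂ)) (fun g => rfl) hs1 _ u
    rw [h2, powNt_apply, powZ_apply]
    rfl
  exact_mod_cast h1

section Const

variable {c : Nt x → IrrCharacter G → IrrCharacter K → ℤ}

variable (hM : IsPModular p M) (hx : orderOf x = p) (hsyl : ¬ p ^ 2 ∣ Nat.card G) (hK : CompK x p K)
  (hC : ∀ g, g ∈ C ↔ Commute g x) (hB : IsPBlock M B)
  (hD : IsDefectGroup p M B (zpowers x)) (hind : IsInducedBlock M C (Amu (le_C_of_compK hK hC) θ₀) B)
  (h1 : ∀ (χ : IrrCharacter G) (μ : IrrCharacter K), ∀ u : zpowers x, u ≠ 1 →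
    Dc (χ : G → ℂ) (μ : K → ℂ) u = ∑ a : Nt x, (c a χ μ : ℂ) * (a.1 : zpowers x → ℂ) u)

include hM hx hK hC hB hD hind h1 in
/-- If the coefficients are constant, the values on a section do not depend on the `p`-part. -/
theorem chi_section_const {χ : IrrCharacter G} (hχ : χ ∈ B) {w : ℤ} (hw : ∀ a : Nt x, c a χ θ₀ = w)
    (u : zpowers x) (hu : u ≠ 1) (k : K) :
    (χ : G → ℂ) ((u : G) * k) = - ((w : ℂ) * ∑ μ ∈ orbK hK θ₀, (μ : K → ℂ) k) := by
  classical
  rw [chi_expand hK, ← Finset.sum_add_sum_compl (orbK hK θ₀)]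
  have hout : ∀ μ ∈ (orbK hK θ₀)ᶜ, Dc (χ : G → ℂ) (μ : K → ℂ) u * (μ : K → ℂ) k = 0 := by
    intro μ hμ
    have hμ' : μ ∉ orbK hK θ₀ := by simpa using hμ
    rw [Dc_zero_off_orbit hM hx hK hC hB hD hind hχ hμ' u hu, zero_mul]
  have hin : ∀ μ ∈ orbK hK θ₀, Dc (χ : G → ℂ) (μ : K → ℂ) u * (μ : K → ℂ) k = -((w : ℂ) * (μ : K → ℂ) k) := by
    intro μ hμ
    obtain ⟨n₀, hn₀, rfl⟩ := (mem_orbK hK θ₀ μ).mp hμ
    have hvm : n₀ * u * n₀⁻¹ ∈ zpowers x := (Subgroup.mem_normalizer_iff.mp hn₀ _).mp u.2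
    let v : zpowers x := ⟨n₀ * u * n₀⁻¹, hvm⟩
    have hv : v ≠ 1 := by
      intro h0
      apply hu
      have h4 : n₀ * (u : G) * n₀⁻¹ = 1 := congrArg Subtype.val h0
      have h5 : (u : G) = 1 := by
        have : (u : G) = n₀⁻¹ * (n₀ * u * n₀⁻¹) * n₀ := by group
        rw [this, h4]
        group
      exact Subtype.ext h5
    rw [Dc_thConj hK χ θ₀ hn₀]
    have h6 := h1 χ θ₀ v hv
    have h7 : Dc (χ : G → ℂ) (θ₀ : K → ℂ) (n₀ * u * n₀⁻¹) = Dc (χ : G → ℂ) (θ₀ : K → ℂ) v := rfl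
    rw [h7, h6]
    simp only [hw]
    rw [← Finset.mul_sum, sum_nt_col v hv]
    ring
  rw [Finset.sum_congr rfl hin, Finset.sum_congr rfl hout, Finset.sum_const_zero, add_zero, Finset.sum_neg_distrib, Finset.mul_sum]

include hM hx hsyl hK hC hB hD hind h1 in
/-- If the coefficients are constant, the character is fixed by the relevant power maps. -/
theorem fix_of_const {χ : IrrCharacter G} (hχ : χ ∈ B) {w : ℤ} (hw : ∀ a : Nt x, c a χ θ₀ = w)
    {s : ℕ} (hsp : s.Coprime p) (hs1 : ∀ g : G, ¬ p ∣ orderOf g → g ^ s = g) (g : G) :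
    (χ : G → ℂ) (g ^ s) = (χ : G → ℂ) g := by
  by_cases hg : p ∣ orderOf g
  · obtain ⟨d, u, k, hu, hdg⟩ := exists_conj_section hx hsyl hK g hg
    have hχc := IsIrrCharacter.isCharacter χ.2
    have h2 : (χ : G → ℂ) g = (χ : G → ℂ) ((u : G) * k) := by
      rw [← hdg]
      exact (IsCharacter.conj_apply hχc g d).symm
    have h3 : (χ : G → ℂ) (g ^ s) = (χ : G → ℂ) (((u ^ s : zpowers x) : G) * k) := by
      obtain ⟨m, hm⟩ := Subgroup.mem_zpowers_iff.mp u.2
      have h4 : Commute (u : G) (k : G) := by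
        rw [← hm]
        exact ((hK.comm k k.2).zpow_right m).symm
      have h5 : d * g ^ s * d⁻¹ = ((u ^ s : zpowers x) : G) * k := by
        rw [← conj_pow, hdg, h4.mul_pow, hs1 _ (orderOf_not_dvd_of_mem K hK.ndvd k.2)]
        rfl
      rw [← h5]
      exact (IsCharacter.conj_apply hχc _ d).symm
    rw [h2, h3, chi_section_const hM hx hK hC hB hD hind h1 hχ hw u hu k,
      chi_section_const hM hx hK hC hB hD hind h1 hχ hw _ (powZ_ne_one hx hsp hu) k]
  · rw [hs1 g hg]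

end Const

/-- Two non-trivial characters of `⟨x⟩` are related by a power `≡ 1 mod m`. -/
theorem exists_pow_nt (hx : orderOf x = p) {m : ℕ} (hm : Nat.card G = p * m) (hpm : ¬ p ∣ m) (a b : Nt x) :
    ∃ (s : ℕ) (hs : s.Coprime (Nat.card G)) (hsp : s.Coprime p), s ≡ 1 [MOD m] ∧ powNt hx hsp a = b := by
  classical
  have hpr := hp.out
  let x' : zpowers x := ⟨x, mem_zpowers x⟩
  have hgen : ∀ v : zpowers x, ∃ j : ℕ, v = x' ^ j := by
    intro v
    obtain ⟨j, hj⟩ := (mem_powers_iff_mem_zpowers).mpr v.2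
    refine ⟨j, Subtype.ext ?_⟩
    simpa [x'] using hj.symm
  have hx' : orderOf x' = p := by
    rw [← hx]
    exact Subgroup.orderOf_mk _ _
  let φa := Cfsg.Agent.Lib.Degree.linearHom a.1 (deg_one a.1)
  let φb := Cfsg.Agent.Lib.Degree.linearHom b.1 (deg_one b.1)
  have hpow : ∀ (φ : zpowers x →* ℂ), φ x' ^ p = 1 := by
    intro φ
    rw [← map_pow, ← hx', pow_orderOf_eq_one, map_one]
  have hne : ∀ (c : Nt x) (φ : zpowers x →* ℂ), (∀ v, φ v = (c.1 : zpowers x → ℂ) v) → φ x' ≠ 1 := by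
    intro c φ hφ h
    apply c.2
    apply Subtype.ext
    funext v
    obtain ⟨j, rfl⟩ := hgen v
    rw [← hφ, map_pow, h, one_pow]
    rfl
  have hprim : IsPrimitiveRoot (φa x') p := by
    have h1 : orderOf (φa x') = p := orderOf_eq_prime (hpow φa) (hne a φa (fun v => rfl))
    rw [← h1]
    exact IsPrimitiveRoot.orderOf _
  obtain ⟨s₀, hs₀p, hs₀⟩ := hprim.eq_pow_of_pow_eq_one (hpow φb)
  have hs₀0 : 0 < s₀ := by
    rcases Nat.eq_zero_or_pos s₀ with h | h
    · subst h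
      exact absurd hs₀.symm (by simpa using hne b φb (fun v => rfl))
    · exact h
  have hco : s₀.Coprime p := ((Nat.Prime.coprime_iff_not_dvd hpr).mpr (Nat.not_dvd_of_pos_of_lt hs₀0 hs₀p)).symm
  have hpmc : p.Coprime m := (Nat.Prime.coprime_iff_not_dvd hpr).mpr hpm
  obtain ⟨s, hs1, hs2⟩ := Nat.chineseRemainder hpmc s₀ 1
  have hsp : s.Coprime p := by
    have := hs1.gcd_eq
    exact this.trans hco
  have hsm : s.Coprime m := by
    have := hs2.gcd_eq
    rw [Nat.gcd_one_left] at this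
    exact this
  have hsG : s.Coprime (Nat.card G) := by
    rw [hm]
    exact Nat.Coprime.mul_right hsp hsm
  refine ⟨s, hsG, hsp, hs2, ?_⟩
  apply Subtype.ext
  apply Subtype.ext
  funext v
  obtain ⟨j, rfl⟩ := hgen v
  rw [powNt_apply]
  have h1 : x' ^ s = x' ^ s₀ := pow_eq_pow_iff_modEq.mpr (by rw [hx']; exact hs1)
  have h2 : (x' ^ j) ^ s = (x' ^ s₀) ^ j := by
    rw [← h1, ← pow_mul, ← pow_mul, mul_comm]
  rw [h2]
  show φa ((x' ^ s₀) ^ j) = φb (x' ^ j)
  rw [map_pow, map_pow, map_pow, hs₀]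

/-- The stabilizer of a character of `K` in the normalizer of `⟨x⟩`. -/
theorem exists_stabT (hK : CompK x p K) (θ₀ : IrrCharacter K) : ∃ T : Subgroup G, IsStabT x θ₀ T := by
  refine ⟨{ carrier := {g | g ∈ normalizer ((zpowers x : Subgroup G) : Set G) ∧
              ∀ k k' : K, (k' : G) = g * k * g⁻¹ → (θ₀ : K → ℂ) k' = (θ₀ : K → ℂ) k}
            mul_mem' := ?_
            one_mem' := ?_
            inv_mem' := ?_ }, fun g => Iff.rfl⟩
  · rintro g h ⟨hg, hg'⟩ ⟨hh, hh'⟩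
    refine ⟨mul_mem hg hh, fun k k' hk => ?_⟩
    have h1 : h * (k : G) * h⁻¹ ∈ K := hK.conj_mem hh k.2
    have h2 := hh' k ⟨_, h1⟩ rfl
    have h3 := hg' ⟨_, h1⟩ k' (by rw [hk]; show _ = g * (h * k * h⁻¹) * g⁻¹; group)
    rw [h3, h2]
  · refine ⟨one_mem _, fun k k' hk => ?_⟩
    have : k' = k := Subtype.ext (by rw [hk]; group)
    rw [this]
  · rintro g ⟨hg, hg'⟩
    refine ⟨inv_mem hg, fun k k' hk => ?_⟩
    have := hg' k' k (by rw [hk]; group)
    exact this.symm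

/-- The data of a block of positive defect, when `p` divides the order exactly once. -/
theorem exists_block_data (hM : IsPModular p M) (hdiv : p ∣ Nat.card G) (hsyl : ¬ p ^ 2 ∣ Nat.card G)
    (hB : IsPBlock M B) (hd : 0 < Cfsg.blockDefect p B) :
    ∃ x : G, orderOf x = p ∧ IsDefectGroup p M B (zpowers x) := by
  classical
  have hpr := hp.out
  obtain ⟨D, hD⟩ := Cfsg.Agent.Lib.Block.exists_isDefectGroup hM hB
  have hc := card_defect_group hM hB hD
  have hd1 : Cfsg.blockDefect p B = 1 := by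
    by_contra hne
    have h2 : 2 ≤ Cfsg.blockDefect p B := by omega
    apply hsyl
    have h3 : p ^ Cfsg.blockDefect p B ∣ Nat.card G := by
      rw [← hc]
      exact Subgroup.card_subgroup_dvd_card D
    exact (pow_dvd_pow p h2).trans h3
  rw [hd1, pow_one] at hc
  have hcyc : IsCyclic D := isCyclic_of_prime_card hc
  obtain ⟨g, hg⟩ := IsCyclic.exists_generator (α := D)
  have hordg : orderOf g = p := (orderOf_eq_card_of_forall_mem_zpowers hg).trans hc
  refine ⟨(g : G), by rw [Subgroup.orderOf_coe, hordg], ?_⟩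
  have hDx : D = zpowers (g : G) := by
    apply le_antisymm
    · intro y hy
      obtain ⟨k, hk⟩ := Subgroup.mem_zpowers_iff.mp (hg ⟨y, hy⟩)
      refine Subgroup.mem_zpowers_iff.mpr ⟨k, ?_⟩
      have := congrArg Subtype.val hk
      simpa using this
    · rw [Subgroup.zpowers_le]
      exact g.2
  rw [← hDx]
  exact hD

open Classical in
/-- **Blocks of defect one: the Galois action**. -/
theorem block_galois_main (hM : IsPModular p M) (hx : orderOf x = p) (hsyl : ¬ p ^ 2 ∣ Nat.card G) (hK : CompK x p K)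
    (hC : ∀ g, g ∈ C ↔ Commute g x) (hT : IsStabT x θ₀ T) (hB : IsPBlock M B)
    (hD : IsDefectGroup p M B (zpowers x)) (hind : IsInducedBlock M C (Amu (le_C_of_compK hK hC) θ₀) B)
    (e : ℕ) (hcardT : Nat.card T = e * Nat.card (centralizer ({x} : Set G)))
    {m : ℕ} (hm : Nat.card G = p * m) (hpm : ¬ p ∣ m) :
    ∃ (X Y : Finset (IrrCharacter G)) (δ : IrrCharacter G → ℤ),
      B = ↑X ∪ ↑Y ∧ Disjoint X Y ∧ X.card = e ∧ Y.card * e = p - 1 ∧ Y.Nonempty ∧
      (∀ χ ∈ B, δ χ = 1 ∨ δ χ = -1) ∧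
      (∀ θ ∈ Y, ∀ g : G, ¬ p ∣ orderOf g → ∑ χ ∈ X, (δ χ : ℂ) * (χ : G → ℂ) g + (δ θ : ℂ) * (θ : G → ℂ) g = 0) ∧
      (∀ χ ∈ X, ∀ s : ℕ, s.Coprime (Nat.card G) → s ≡ 1 [MOD m] → ∀ g : G, (χ : G → ℂ) (g ^ s) = (χ : G → ℂ) g) ∧
      (∀ θ ∈ Y, ∀ (s : ℕ) (hs : s.Coprime (Nat.card G)), s ≡ 1 [MOD m] → powIrr hs θ ∈ Y) ∧
      (∀ θ ∈ Y, ∀ θ' ∈ Y, ∃ (s : ℕ) (hs : s.Coprime (Nat.card G)), s ≡ 1 [MOD m] ∧ powIrr hs θ = θ') := by
  have hpr := hp.out
  have := isPModular_isPrime hM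
  have hTN : T ≤ normalizer ((zpowers x : Subgroup G) : Set G) := fun t ht => ((hT t).mp ht).1
  have hCT : centralizer ({x} : Set G) ≤ T := by
    intro g hg
    rw [hT g]
    have hgc : Commute g x := Subgroup.mem_centralizer_singleton_iff.mp hg
    have hgC := (hC g).mpr hgc
    refine ⟨C_le_N hC hgC, fun k k' hk => ?_⟩
    have h1 := thConj_C hK hC θ₀ g hgC
    have h2 := congrArg (fun ξ : IrrCharacter K => (ξ : K → ℂ) k) h1
    simp only [thConj_apply] at h2
    rw [← h2]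
    exact congrArg _ (Subtype.ext hk)
  obtain ⟨c₀, n₀, h1, h2, h3⟩ := exists_cmu (G := G) (K := K) hx hK
  have hAD := ad_block (c := c₀) (n := n₀) hM hx hsyl hK hC hT hB hD hind h1 h3 hTN hCT e hcardT
  have hnt : Fintype.card (Nt x) = p - 1 := by
    have := card_nt' hpr hx
    rw [Nat.card_eq_fintype_card] at this
    omega
  obtain ⟨a₀⟩ : Nonempty (Nt x) := by
    rw [← Fintype.card_pos_iff, hnt]
    have := hpr.two_le
    omega
  have hepos : 0 < e := by
    rw [← hAD.hcls a₀, Finset.card_pos]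
    exact ⟨a₀, by simp [hAD.hrefl a₀]⟩
  set c : Nt x → IrrCharacter G → ℤ := fun a χ => c₀ a χ θ₀ with hc
  set deg : IrrCharacter G → ℕ := fun χ => charDegree (χ : G → ℂ) with hdeg
  obtain ⟨u, ε, ψ, hε, F, hu0⟩ := A_final_form hAD a₀ hepos
  have hte := A_t_e hAD F
  have hYB := A_YB0 hAD F hu0
  have hXB : ∀ χ, u χ ≠ 0 → χ ∈ B := fun χ hu => A_XB hAD F hu0 a₀ hu
  have hXY : ∀ χ, u χ ≠ 0 → χ ∉ imgA ψ := fun χ hu => A_XY F hu0 hu
  have hunit : ∀ χ, u χ ≠ 0 → u χ = 1 ∨ u χ = -1 := fun χ hu => A_unit hAD F hu0 a₀ hu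
  have hcardX := A_card_X hAD F hu0 hε a₀
  have hd := fun (χ : IrrCharacter G) (hχ : χ ∈ B) => deg_formula hM hx hK hC hB hD hind h2 h3 hχ
  have hBeq : B = {χ | u χ ≠ 0} ∪ ↑(imgA ψ) := by
    ext χ
    constructor
    · intro hχ
      by_cases hy : χ ∈ imgA ψ
      · exact Or.inr hy
      · left
        intro h0
        obtain ⟨n', hn'⟩ := hd χ hχ
        have hsum : ∑ a : Nt x, c₀ a χ θ₀ = 0 := by
          have := A_sum_not F hy
          rw [h0, mul_zero] at this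
          exact this
        rw [hsum, mul_zero, add_zero] at hn'
        have hdvdχ : p ∣ charDegree (χ : G → ℂ) := by
          have : (p : ℤ) ∣ (charDegree (χ : G → ℂ) : ℤ) := ⟨n', hn'⟩
          exact_mod_cast this
        have hnd : ¬ p ∣ Nat.card G / charDegree (χ : G → ℂ) := by
          obtain ⟨k, hk⟩ := charDegree_dvd_card χ.2
          have hpos := charDegree_pos_of_irr χ.2
          intro h2'
          apply hsyl
          rw [hk, Nat.mul_div_cancel_left _ hpos] at h2'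
          rw [hk, pow_two]
          exact Nat.mul_dvd_mul hdvdχ h2'
        have hblock := blockOf_eq_singleton_of_not_dvd hM χ hnd
        have h4 : ψ a₀ ∈ blockOf M (χ : G → ℂ) := by
          rw [← blockOf_eq_of_mem hB hχ]
          exact hYB _ (Finset.mem_image.mpr ⟨a₀, Finset.mem_univ _, rfl⟩)
        rw [hblock, Set.mem_singleton_iff] at h4
        apply hy
        rw [← h4]
        exact Finset.mem_image.mpr ⟨a₀, Finset.mem_univ _, rfl⟩
    · rintro (h | h)
      · exact hXB χ h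
      · exact hYB χ h
  have hsuit : ∀ s : ℕ, s.Coprime (Nat.card G) → s ≡ 1 [MOD m] →
      s.Coprime p ∧ (∀ g : G, ¬ p ∣ orderOf g → g ^ s = g) ∧ ∀ k ∈ K, k ^ s = k := by
    intro s hs hs1
    have h4 : s.Coprime p := by
      rw [hm] at hs
      exact Nat.Coprime.coprime_mul_right_right hs
    have h5 : ∀ g : G, ¬ p ∣ orderOf g → g ^ s = g := fun g hg =>
      pow_eq_self_of_modEq hs1 (pow_n_eq_one hm g hg)
    exact ⟨h4, h5, fun k hk => h5 k (orderOf_not_dvd_of_mem K hK.ndvd hk)⟩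
  have hY : ∀ θ ∈ imgA ψ, ∀ (s : ℕ) (hs : s.Coprime (Nat.card G)), s ≡ 1 [MOD m] → powIrr hs θ ∈ imgA ψ := by
    intro θ hθ s hs hs1
    obtain ⟨hsp, hreg, hsK⟩ := hsuit s hs hs1
    by_contra hnot
    have h4 : ∀ a : Nt x, c₀ a θ θ₀ = u (powIrr hs θ) := by
      intro a
      rw [← c_pow hx hK h3 hs hsp hsK θ θ₀ a]
      exact A_not F hnot _
    have h5 := fix_of_const hM hx hsyl hK hC hB hD hind h1 (hYB θ hθ) h4 hsp hreg
    have h6 : powIrr hs θ = θ := Subtype.ext (funext h5)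
    rw [h6] at hnot
    exact hnot hθ
  refine ⟨Finset.univ.filter fun χ => u χ ≠ 0, imgA ψ, fun χ => if χ ∈ imgA ψ then ε else u χ, ?_, ?_, hcardX, hte.trans hnt, ?_, ?_, ?_, ?_, hY, ?_⟩
  · rw [hBeq]
    simp
  · rw [Finset.disjoint_left]
    intro χ hχ hy
    exact hXY χ (Finset.mem_filter.mp hχ).2 hy
  · exact ⟨ψ a₀, Finset.mem_image.mpr ⟨a₀, Finset.mem_univ _, rfl⟩⟩
  · intro χ hχ
    by_cases hy : χ ∈ imgA ψ
    · simp only [if_pos hy]
      exact hε
    · simp only [if_neg hy]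
      rw [hBeq] at hχ
      rcases hχ with h | h
      · exact hunit χ h
      · exact absurd h hy
  · intro θ hθ g hg
    obtain ⟨a, -, rfl⟩ := Finset.mem_image.mp hθ
    have h10 := c_regular hx hK θ₀ c (fun a χ => h3 χ θ₀ a) a g hg
    have h11 : ∀ χ : IrrCharacter G, (c a χ : ℂ) * (χ : G → ℂ) g =
        (u χ : ℂ) * (χ : G → ℂ) g + if χ = ψ a then (ε : ℂ) * (χ : G → ℂ) g else 0 := by
      intro χ
      rw [F.val]
      by_cases h : χ = ψ a
      · rw [if_pos h, if_pos h]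
        push_cast
        ring
      · rw [if_neg h, if_neg h]
        push_cast
        ring
    rw [Finset.sum_congr rfl (fun χ _ => h11 χ), Finset.sum_add_distrib, Finset.sum_ite_eq',
      if_pos (Finset.mem_univ _)] at h10
    have h12 : ∑ χ ∈ Finset.univ.filter (fun χ => u χ ≠ 0), (((if χ ∈ imgA ψ then ε else u χ : ℤ)) : ℂ) * (χ : G → ℂ) g =
        ∑ χ, (u χ : ℂ) * (χ : G → ℂ) g := by
      rw [Finset.sum_filter]
      refine Finset.sum_congr rfl fun χ _ => ?_
      by_cases hu : u χ = 0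
      · simp [hu]
      · rw [if_pos hu, if_neg (hXY χ hu)]
    rw [h12]
    simp only [if_pos hθ]
    exact h10
  · intro χ hχ s hs hs1 g
    obtain ⟨hsp, hreg, hsK⟩ := hsuit s hs hs1
    have hu := (Finset.mem_filter.mp hχ).2
    have h4 : ∀ a : Nt x, c₀ a χ θ₀ = u χ := fun a => A_not F (hXY χ hu) a
    exact fix_of_const hM hx hsyl hK hC hB hD hind h1 (hXB χ hu) h4 hsp hreg g
  · intro θ hθ θ' hθ'
    obtain ⟨a, -, rfl⟩ := Finset.mem_image.mp hθ
    obtain ⟨b, -, rfl⟩ := Finset.mem_image.mp hθ'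
    obtain ⟨s, hs, hsp, hs1, hab⟩ := exists_pow_nt hx hm hpm a b
    refine ⟨s, hs, hs1, ?_⟩
    obtain ⟨-, hreg, hsK⟩ := hsuit s hs hs1
    have h4 := hY _ hθ s hs hs1
    have h5 : c₀ b (powIrr hs (ψ a)) θ₀ = ε := by
      rw [← hab, c_pow hx hK h3 hs hsp hsK]
      have h6 : c a (ψ a) = u (ψ a) + ε * 1 := by
        rw [F.val, if_pos rfl]
      rw [hu0 a, zero_add, mul_one] at h6
      exact h6
    obtain ⟨d, -, hd'⟩ := Finset.mem_image.mp h4
    have h6 : c b (powIrr hs (ψ a)) = u (powIrr hs (ψ a)) + ε * if powIrr hs (ψ a) = ψ b then 1 else 0 := F.val b _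
    have h7 : u (powIrr hs (ψ a)) = 0 := by
      rw [← hd']
      exact hu0 d
    rw [h7, zero_add] at h6
    by_contra hne
    rw [if_neg hne, mul_zero] at h6
    have h8 : c₀ b (powIrr hs (ψ a)) θ₀ = 0 := h6
    rw [h5] at h8
    exact F.hε h8

end Block

end Cfsg.Agent.Lib.FF
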