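import Cfsg.Agent.Lib.FF.AbelPairs
import Cfsg.Agent.Lib.BPair.Sambale3
import Cfsg.Agent.Lib.CharExtra.CentralDefect

/-!
# Nilpotent blocks with commutative defect group
-/

set_option autoImplicit false
set_option linter.unusedSectionVars false
set_option linter.unusedSimpArgs false
set_option linter.unusedVariables false
set_option linter.style.haveILetI false

open scoped ComplexConjugate
open Cfsg MonoidAlgebra
open Cfsg.Agent.Lib.Block Cfsg.Agent.Lib.Char Cfsg.Agent.Lib.CharExtra Cfsg.Agent.Lib.BPair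

namespace Cfsg.Agent.Lib.FF

attribute [local instance] Cfsg.Agent.Lib.BPair.subFintype

universe u

section Basic

variable {G : Type u} [Group G] [Fintype G] {M : Ideal AlgInt} {p : ℕ} [hp : Fact p.Prime]
  {B : Set (IrrCharacter G)} {P : Subgroup G} {c : Set (IrrCharacter (Cen P))}

/-- A block has positive rank. -/
theorem one_le_blockRank [M.IsPrime] (hB : IsPBlock M B) : 1 ≤ blockRank p B := by
  classical
  obtain ⟨χ, rfl⟩ := hB
  unfold blockRank
  rw [Submodule.one_le_finrank_iff]
  intro h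
  have h1 : pRegularPart p (χ : G → ℂ) ∈ Submodule.span ℂ ((fun χ : IrrCharacter G => pRegularPart p (χ : G → ℂ)) '' blockOf M (χ : G → ℂ)) :=
    Submodule.subset_span ⟨χ, mem_blockOf_self χ, rfl⟩
  rw [h] at h1
  have h2 := congrFun ((Submodule.mem_bot ℂ).1 h1) 1
  have h3 : IsPRegular p (1 : G) := by
    simp [IsPRegular, (Fact.out : p.Prime).one_lt.ne', Nat.Prime.one_lt]
  simp only [pRegularPart, h3, if_true, Pi.zero_apply] at h2
  exact map_one_ne_zero_of_irr χ.2 h2

/-- A block of rank one has at most `p ^ defect` characters. -/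
theorem card_le_of_rank_one (hM : IsPModular p M) (hB : IsPBlock M B) (hl : blockRank p B = 1) :
    Nat.card B ≤ p ^ blockDefect p B := by
  classical
  obtain ⟨φ, d, -, h1, h2⟩ := exists_of_rank_one hM hB hl
  rw [← h2]
  have := isPModular_isPrime hM
  haveI : Fintype (IrrCharacter G) := Fintype.ofFinite _
  have h3 : B = ((Finset.univ.filter fun χ : IrrCharacter G => χ ∈ B : Finset _) : Set _) := by
    ext b
    simp
  have h4 : Nat.card B = (Finset.univ.filter fun χ : IrrCharacter G => χ ∈ B).card := by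
    rw [Nat.card_eq_fintype_card, Fintype.card_subtype]
  rw [h4]
  have h5 : (∑ᶠ χ ∈ B, d χ ^ 2) = ∑ χ ∈ (Finset.univ.filter fun χ : IrrCharacter G => χ ∈ B), d χ ^ 2 := by
    conv_lhs => rw [h3]
    rw [finsum_mem_coe_finset]
  rw [h5, Finset.card_eq_sum_ones]
  refine Finset.sum_le_sum fun χ hχ => ?_
  have h6 := h1 χ (Finset.mem_filter.1 hχ).2 1 (by simp [IsPRegular, (Fact.out : p.Prime).ne_one])
  have h7 : d χ ≠ 0 := by
    intro h
    rw [h] at h6
    simp at h6
    exact map_one_ne_zero_of_irr χ.2 h6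
  exact Nat.one_le_pow _ _ (Nat.pos_of_ne_zero h7)

/-- Brauer's formula gives a lower bound on the number of characters. -/
theorem card_block_ge_add_pairs (hM : IsPModular p M) (hB : IsPBlock M B) (hmax : IsMaximalBrauerPair p M B P c)
    (hab : ∀ x ∈ P, ∀ y ∈ P, x * y = y * x) {T : Subgroup G}
    (hT : ∀ g : G, g ∈ T ↔ g ∈ Subgroup.normalizer (P : Set G) ∧ StabilizesBlock (Cen P) c g)
    (hfree : ∀ g ∈ T, ∀ x ∈ P, x ≠ 1 → g * x * g⁻¹ = x → g ∈ Cen P) :
    ∃ t : ℕ, blockRank p B + t ≤ Nat.card B ∧ t * (Cen P).relIndex T = Nat.card P - 1 := by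
  classical
  have := isPModular_isPrime hM
  obtain ⟨X, hX, hXrep⟩ := exists_reps p G
  have h1X : (1 : G) ∈ X := by
    obtain ⟨x, ⟨hx, hc⟩, -⟩ := hXrep 1 ⟨0, by simp⟩
    have : x = 1 := isConj_one_right.1 hc
    rwa [this] at hx
  have hsum := sum_card_pairs hM hmax hab hT hfree X hX hXrep
  refine ⟨_, ?_, hsum⟩
  rw [card_block_eq_sum hM hB X hX hXrep, ← Finset.add_sum_erase X _ h1X, term_one hM hB]
  refine Nat.add_le_add_left (Finset.sum_le_sum fun x hx => ?_) _
  have hx1 : x ≠ 1 := Finset.ne_of_mem_erase hx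
  have hxk := hX x (Finset.mem_of_mem_erase hx)
  have e1 : ∀ H : Subgroup G, H = Cen (Subgroup.zpowers x) →
      Nat.card {b : Set (IrrCharacter (Cen (Subgroup.zpowers x))) // IsBrauerPairOf p M B (Subgroup.zpowers x) b} ≤
      ∑ᶠ b ∈ {b : Set (IrrCharacter H) | IsInducedBlock M H b B}, blockRank p b := by
    rintro H rfl
    have e2 : Nat.card {b : Set (IrrCharacter (Cen (Subgroup.zpowers x))) // IsBrauerPairOf p M B (Subgroup.zpowers x) b} =
        Nat.card {b : Set (IrrCharacter (Cen (Subgroup.zpowers x))) // IsInducedBlock M (Cen (Subgroup.zpowers x)) b B} := by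
      refine Nat.card_congr (Equiv.subtypeEquivRight fun b => ?_)
      exact ⟨fun h => isInducedBlock_of_pair hM h, fun h => isBrauerPairOf_of_induced (isPGroup_zpowers_of_order hxk) h⟩
    rw [e2]
    have h1 : {b : Set (IrrCharacter (Cen (Subgroup.zpowers x))) | IsInducedBlock M (Cen (Subgroup.zpowers x)) b B} =
        ((Finset.univ.filter fun b : Set (IrrCharacter (Cen (Subgroup.zpowers x))) => IsInducedBlock M (Cen (Subgroup.zpowers x)) b B : Finset _) : Set _) := by
      ext b
      simp
    rw [h1, finsum_mem_coe_finset, Nat.card_eq_fintype_card, Fintype.card_subtype]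
    refine Finset.card_eq_sum_ones _ ▸ Finset.sum_le_sum fun b hb => ?_
    exact one_le_blockRank (Finset.mem_filter.1 hb).2.1
  exact e1 _ (centralizer_zpowers_eq x).symm

end Basic

/-- A nilpotent block with commutative defect group has rank one and `|P|` characters. -/
theorem nil_ab_aux : ∀ (n : ℕ) (G : Type u) [Group G] [Fintype G] {M : Ideal AlgInt} {p : ℕ} [hp : Fact p.Prime]
    (hM : IsPModular p M) {B : Set (IrrCharacter G)} {P : Subgroup G}
    (hD : IsDefectGroup p M B P) (hab : ∀ x ∈ P, ∀ y ∈ P, x * y = y * x)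
    (hnil : IsNilpotentBlock p M B), Nat.card G = n → blockRank p B = 1 ∧ Nat.card B = Nat.card P := by
  intro n
  induction n using Nat.strong_induction_on with
  | _ n IH =>
  intro G _ _ M p _ hM B P hD hab hnil hn
  classical
  have hB := hnil.1
  have := isPModular_isPrime hM
  obtain ⟨c, hc⟩ := exists_pair_on_defect hM hD hB
  have hmax := isMaximal_of_defect hM hD hc
  have hPe := (isBrauerPairOf_iff.1 hmax.1).1
  have hstab := (nilpotent_iff_of_abelian hM hmax hab).1 hnil
  have hT : ∀ g : G, g ∈ Cen P ↔ g ∈ Subgroup.normalizer (P : Set G) ∧ StabilizesBlock (Cen P) c g :=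
    fun g => ⟨fun h => ⟨cen_le_normalizer P h, stabilizes_of_mem_cen h⟩, fun h => hstab g h.1 h.2⟩
  obtain ⟨t, ht1, ht2⟩ := card_block_ge_add_pairs hM hB hmax hab hT (fun g hg _ _ _ _ => hg)
  rw [Subgroup.relIndex_self, mul_one] at ht2
  have hcard := card_defect_group hM hB hD
  have hPpos : 0 < Nat.card P := Nat.card_pos
  have hl1 := one_le_blockRank (p := p) hB
  have hle : Nat.card B ≤ p ^ blockDefect p B := by
    by_cases hPZ : P ≤ Subgroup.center G
    · exact card_le_of_rank_one hM hB (blockRank_eq_one_of_central hM hB hD hPZ)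
    · obtain ⟨x, hxP, hxZ⟩ := SetLike.not_le_iff_exists.1 hPZ
      have hxc : ∀ d ∈ P, d * x = x * d := fun d hd => hab d hd x hxP
      have hx1 : x ≠ 1 := by
        rintro rfl
        exact hxZ (Subgroup.one_mem _)
      have hQP : Subgroup.zpowers x ≤ P := Subgroup.zpowers_le.2 hxP
      have key : ∀ H : Subgroup G, H = Cen (Subgroup.zpowers x) → ∃ f : Set (IrrCharacter H),
          IsInducedBlock M H f B ∧ IsDefectGroup p M f (P.subgroupOf H) ∧ blockRank p f = 1 := by
        rintro H rfl
        obtain ⟨f, ⟨hf, hle⟩, -⟩ := existsUnique_subpair hM hPe hQP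
        have hPle : P ≤ Cen (Subgroup.zpowers x) := by
          intro d hd
          rw [Subgroup.mem_centralizer_iff]
          intro y hy
          exact hab _ (hQP hy) _ hd
        have hnilf : IsNilpotentBlock p M f :=
          nilpotent_of_free hM hmax hab (fun g hg1 hg2 _ _ _ _ => hstab g hg1 hg2) hle (by
            intro h
            rw [Subgroup.zpowers_eq_bot] at h
            exact hx1 h)
        have hDf := isDefectGroup_cen_of_nilpotent hM hmax hnil hle
        rw [inf_eq_left.2 hPle] at hDf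
        have hsub : Nat.card (Cen (Subgroup.zpowers x)) < n := by
          rw [← hn]
          refine lt_of_le_of_ne (Subgroup.card_le_card_group _) fun h => ?_
          have h8 := Subgroup.eq_top_of_card_eq _ h
          apply hxZ
          rw [Subgroup.mem_center_iff]
          intro g
          have h9 : g ∈ Cen (Subgroup.zpowers x) := h8 ▸ Subgroup.mem_top g
          exact (Subgroup.mem_centralizer_iff.1 h9 x (Subgroup.mem_zpowers x)).symm
        have habf : ∀ u ∈ P.subgroupOf (Cen (Subgroup.zpowers x)), ∀ v ∈ P.subgroupOf (Cen (Subgroup.zpowers x)), u * v = v * u := by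
          intro u hu v hv
          exact Subtype.ext (hab _ (Subgroup.mem_subgroupOf.1 hu) _ (Subgroup.mem_subgroupOf.1 hv))
        obtain ⟨h1, -⟩ := IH _ hsub _ hM hDf habf hnilf rfl
        exact ⟨f, isInducedBlock_of_pair hM (isBrauerPairOf_of_le hM hmax hle), hDf, h1⟩
      obtain ⟨f, hf1, hf2, hf3⟩ := key _ (centralizer_zpowers_eq x).symm
      exact sambale_S4539 hM hB hD hxP hxc hf1 hf2 (by omega)
  rw [← hcard] at hle
  omega

/-- A nilpotent block with commutative defect group has rank one and `|P|` characters. -/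
theorem nil_ab {G : Type u} [Group G] [Fintype G] {M : Ideal AlgInt} {p : ℕ} [hp : Fact p.Prime]
    (hM : IsPModular p M) {B : Set (IrrCharacter G)} {P : Subgroup G}
    (hD : IsDefectGroup p M B P) (hab : ∀ x ∈ P, ∀ y ∈ P, x * y = y * x)
    (hnil : IsNilpotentBlock p M B) : blockRank p B = 1 ∧ Nat.card B = Nat.card P :=
  nil_ab_aux _ G hM hD hab hnil rfl

/-- The defect group of the block of a nontrivial subpair of a commutative maximal pair. -/
theorem defect_of_sub {G : Type u} [Group G] [Fintype G] {M : Ideal AlgInt} {p : ℕ} [hp : Fact p.Prime]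
    (hM : IsPModular p M) {B : Set (IrrCharacter G)} {P Q : Subgroup G} {c : Set (IrrCharacter (Cen P))}
    {f : Set (IrrCharacter (Cen Q))} (hmax : IsMaximalBrauerPair p M B P c) (hPC : P ≤ Cen Q)
    (hle : SubpairLE p M Q f P c) : IsDefectGroup p M f (P.subgroupOf (Cen Q)) := by
  classical
  have := isPModular_isPrime hM
  have hPe := (isBrauerPairOf_iff.1 hmax.1).1
  have hf : IsPBlock M f := (isBrauerPair_of_subpairLE hPe hle).2
  obtain ⟨D', hD', hle'⟩ := cen_defect_ge hM hmax hle hf
  rw [inf_eq_left.2 hPC] at hle'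
  have hD := isDefectGroup_of_max hM hmax
  have hB : IsPBlock M B := (isBrauerPairOf_iff.1 hmax.1).2.1
  have h1 := card_defect_group hM hf hD'
  have h2 := card_defect_group hM hB hD
  have h3 := blockDefect_le_of_induced hM (isInducedBlock_of_pair hM (isBrauerPairOf_of_le hM hmax hle))
  have h4 : Nat.card (P.subgroupOf (Cen Q)) = Nat.card P := card_subgroupOf_of_le hPC
  have h5 : P.subgroupOf (Cen Q) = D' := by
    refine Subgroup.eq_of_le_of_card_ge hle' ?_
    rw [h1, h4, h2]
    exact Nat.pow_le_pow_right (Fact.out : p.Prime).pos h3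
  rw [h5]
  exact hD'

/-- The block of a nontrivial subpair of a commutative maximal pair with free inertial quotient. -/
theorem nil_ab_sub {G : Type u} [Group G] [Fintype G] {M : Ideal AlgInt} {p : ℕ} [hp : Fact p.Prime]
    (hM : IsPModular p M) {B : Set (IrrCharacter G)} {P Q : Subgroup G} {c : Set (IrrCharacter (Cen P))}
    {f : Set (IrrCharacter (Cen Q))} (hmax : IsMaximalBrauerPair p M B P c)
    (hab : ∀ x ∈ P, ∀ y ∈ P, x * y = y * x)
    (hfree : ∀ g : G, g ∈ Subgroup.normalizer (P : Set G) → StabilizesBlock (Cen P) c g → ∀ x ∈ P, x ≠ 1 →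
      g * x * g⁻¹ = x → g ∈ Cen P)
    (hle : SubpairLE p M Q f P c) (hQ1 : Q ≠ ⊥) :
    IsNilpotentBlock p M f ∧ IsDefectGroup p M f (P.subgroupOf (Cen Q)) ∧ blockRank p f = 1 ∧ Nat.card f = Nat.card P := by
  classical
  have := isPModular_isPrime hM
  have hQP := le_of_subpairLE hle
  have hPC : P ≤ Cen Q := by
    intro d hd
    rw [Subgroup.mem_centralizer_iff]
    intro y hy
    exact hab _ (hQP hy) _ hd
  have hnil := nilpotent_of_free hM hmax hab hfree hle hQ1
  have hD := defect_of_sub hM hmax hPC hle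
  have habf : ∀ u ∈ P.subgroupOf (Cen Q), ∀ v ∈ P.subgroupOf (Cen Q), u * v = v * u := by
    intro u hu v hv
    exact Subtype.ext (hab _ (Subgroup.mem_subgroupOf.1 hu) _ (Subgroup.mem_subgroupOf.1 hv))
  obtain ⟨h1, h2⟩ := nil_ab hM hD habf hnil
  refine ⟨hnil, hD, h1, ?_⟩
  rw [h2, card_subgroupOf_of_le hPC]

/-- A cyclic subgroup is normal in the normalizer of a cyclic overgroup. -/
theorem conj_mem_of_cyclic {G : Type u} [Group G] {P Q : Subgroup G} (hc : IsCyclic P) (hQP : Q ≤ P) {t : G}
    (ht : t ∈ Subgroup.normalizer (P : Set G)) {v : G} (hv : v ∈ Q) : t * v * t⁻¹ ∈ Q := by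
  obtain ⟨g, hg⟩ := hc
  have ht1 : t * (g : G) * t⁻¹ ∈ P := (Subgroup.mem_normalizer_iff.1 ht _).1 g.2
  obtain ⟨m, hm⟩ := Subgroup.mem_zpowers_iff.1 (hg ⟨_, ht1⟩)
  obtain ⟨i, hi⟩ := Subgroup.mem_zpowers_iff.1 (hg ⟨v, hQP hv⟩)
  have hm' : (g : G) ^ m = t * (g : G) * t⁻¹ := congrArg Subtype.val hm
  have hi' : (g : G) ^ i = v := congrArg Subtype.val hi
  have h1 : t * v * t⁻¹ = v ^ m := by
    rw [← hi', ← zpow_mul, mul_comm, zpow_mul, hm', conj_zpow]
  rw [h1]
  exact Q.zpow_mem hv m

theorem normalizer_le_of_cyclic {G : Type u} [Group G] [Finite G] {P Q : Subgroup G} (hc : IsCyclic P) (hQP : Q ≤ P) :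
    Subgroup.normalizer (P : Set G) ≤ Subgroup.normalizer (Q : Set G) := by
  intro t ht
  rw [Subgroup.mem_normalizer_iff]
  intro v
  refine ⟨fun hv => conj_mem_of_cyclic hc hQP ht hv, fun hv => ?_⟩
  have := conj_mem_of_cyclic hc hQP ((Subgroup.normalizer (P : Set G)).inv_mem ht) hv
  have e : t⁻¹ * (t * v * t⁻¹) * t⁻¹⁻¹ = v := by group
  rwa [e] at this

end Cfsg.Agent.Lib.FF
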