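import Cfsg.Agent.Lib.FF.CycKey
import Cfsg.Agent.Lib.FF.NilAb
import Cfsg.Agent.Lib.BPair.SecAvg
import Cfsg.Agent.Lib.FF.KleinCount
import Cfsg.Agent.Lib.FF.GenGal
import Cfsg.Agent.Lib.FF.GalAut

/-!
# Nilpotent blocks with cyclic defect group: the section numbers
-/

set_option autoImplicit false
set_option linter.unusedSectionVars false
set_option linter.unusedVariables false
set_option maxSynthPendingDepth 3
set_option linter.style.haveILetI false
set_option linter.unusedSimpArgs false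
set_option linter.unnecessarySimpa false

open scoped ComplexConjugate NumberField
open Module Cfsg Cfsg.Agent.Lib.Block Cfsg.Agent.Lib.Char Cfsg.Agent.Lib.CharExtra Cfsg.Agent.Lib.BPair

namespace Cfsg.Agent.Lib.FF

attribute [local instance] Cfsg.Agent.Lib.BPair.subFintype

theorem pow_torsionOrder_eq_one (K : Type) [Field K] [NumberField K] {a : K} {m : ℕ} (hm : 0 < m) (ha : a ^ m = 1) :
    a ^ NumberField.Units.torsionOrder K = 1 := by
  have hi : IsIntegral ℤ a := IsIntegral.of_pow hm (by rw [ha]; exact isIntegral_one)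
  let b : 𝓞 K := ⟨a, hi⟩
  have hbc : algebraMap (𝓞 K) K b = a := rfl
  have hb : b ^ m = 1 := by
    apply NumberField.RingOfIntegers.ext
    show algebraMap (𝓞 K) K (b ^ m) = algebraMap (𝓞 K) K 1
    rw [map_pow, hbc, ha, map_one]
  let u : (𝓞 K)ˣ := Units.ofPowEqOne b m hb hm.ne'
  have huv : (u : 𝓞 K) = b := rfl
  have hu : u ∈ NumberField.Units.torsion K := by
    rw [NumberField.Units.torsion, CommGroup.mem_torsion]
    refine isOfFinOrder_iff_pow_eq_one.2 ⟨m, hm, ?_⟩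
    apply Units.ext
    rw [Units.val_pow_eq_pow_val, huv, hb, Units.val_one]
  have h1 : (⟨u, hu⟩ : NumberField.Units.torsion K) ^ Nat.card (NumberField.Units.torsion K) = 1 := pow_card_eq_one'
  have h2 : u ^ NumberField.Units.torsionOrder K = 1 := by
    have := congrArg (fun y : NumberField.Units.torsion K => (y : (𝓞 K)ˣ)) h1
    exact this
  have h3 : b ^ NumberField.Units.torsionOrder K = 1 := by
    have := congrArg Units.val h2
    simpa [huv] using this
  have h4 := congrArg (algebraMap (𝓞 K) K) h3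
  rw [map_pow, map_one, hbc] at h4
  exact h4

section Abstract

variable (n : ℕ) [NeZero n] {K : Type} [Field K] [NumberField K] [IsCyclotomicExtension {n} ℚ K]

include n in
/-- The equality case of the arithmetic-geometric mean inequality. -/
theorem normSq_eq_one_of_sum_eq {a : K} (ha0 : a ≠ 0) (hi : IsIntegral ℤ a)
    (hs : ∑ τ : K →ₐ[ℚ] ℂ, Complex.normSq (τ a) = (Fintype.card (K →ₐ[ℚ] ℂ) : ℝ)) (τ₀ : K →ₐ[ℚ] ℂ) :
    Complex.normSq (τ₀ a) = 1 := by
  have h1 := one_le_norm_emb_prod n ha0 hi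
  have hpos : ∀ τ : K →ₐ[ℚ] ℂ, 0 < Complex.normSq (τ a) := fun τ =>
    Complex.normSq_pos.2 ((map_ne_zero τ).2 ha0)
  have h2 : 0 ≤ ∑ τ : K →ₐ[ℚ] ℂ, Real.log (Complex.normSq (τ a)) := by
    rw [← Real.log_prod (fun τ _ => (hpos τ).ne')]
    exact Real.log_nonneg h1
  by_contra hne
  have h3 : ∑ τ : K →ₐ[ℚ] ℂ, Real.log (Complex.normSq (τ a)) <
      ∑ τ : K →ₐ[ℚ] ℂ, (Complex.normSq (τ a) - 1) := by
    refine Finset.sum_lt_sum (fun τ _ => Real.log_le_sub_one_of_pos (hpos τ)) ⟨τ₀, Finset.mem_univ _, ?_⟩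
    exact Real.log_lt_sub_one_of_pos (hpos τ₀) hne
  rw [Finset.sum_sub_distrib] at h3
  simp only [Finset.sum_const, Finset.card_univ, nsmul_eq_mul, mul_one] at h3
  linarith

/-- If the sum of the squares of nonzero cyclotomic integers equals their number, they are roots of unity. -/
theorem eq_root_of_sum_eq_abstract (ι : K →ₐ[ℚ] ℂ) {I : Type*} (s : Finset I) (a : I → K)
    (h0 : ∀ i ∈ s, a i ≠ 0) (hi : ∀ i ∈ s, IsIntegral ℤ (a i))
    (hQ : ∑ i ∈ s, ι (a i) * conj (ι (a i)) = (s.card : ℂ)) :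
    ∀ i ∈ s, (a i) ^ (if Even n then n else 2 * n) = 1 := by
  classical
  have hu : (n - 1).Coprime n := by
    have hn := NeZero.pos n
    have : (n - 1 + 1).Coprime (n - 1) := by
      exact (Nat.coprime_self_add_left.2 (Nat.coprime_one_left _))
    rw [Nat.sub_add_cancel hn] at this
    exact this.symm
  obtain ⟨c, hc⟩ := Cfsg.Agent.Lib.Char.exists_aut_pow n K (n - 1) hu
  have hq : ∑ i ∈ s, a i * c (a i) = algebraMap ℚ K (s.card : ℚ) := by
    apply ι.toRingHom.injective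
    have h1 : ι (algebraMap ℚ K (s.card : ℚ)) = (s.card : ℂ) := by
      rw [AlgHom.commutes]
      simp
    show ι _ = ι _
    rw [h1, ← hQ, map_sum]
    refine Finset.sum_congr rfl fun i _ => ?_
    rw [map_mul, conj_emb_eq n ι c hc]
  have hτ : ∀ τ : K →ₐ[ℚ] ℂ, ∑ i ∈ s, Complex.normSq (τ (a i)) = (s.card : ℝ) := by
    intro τ
    have h1 : ∑ i ∈ s, τ (a i) * conj (τ (a i)) = (s.card : ℂ) := by
      have h2 : τ (algebraMap ℚ K (s.card : ℚ)) = (s.card : ℂ) := by
        rw [AlgHom.commutes]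
        simp
      rw [← h2, ← hq, map_sum]
      refine Finset.sum_congr rfl fun i _ => ?_
      rw [map_mul, conj_emb_eq n τ c hc]
    have h3 : ((∑ i ∈ s, Complex.normSq (τ (a i)) : ℝ) : ℂ) = ((s.card : ℝ) : ℂ) := by
      push_cast
      rw [← h1]
      refine Finset.sum_congr rfl fun i _ => ?_
      rw [Complex.mul_conj]
    exact_mod_cast h3
  have hle : ∀ i ∈ s, (Fintype.card (K →ₐ[ℚ] ℂ) : ℝ) ≤ ∑ τ : K →ₐ[ℚ] ℂ, Complex.normSq (τ (a i)) :=
    fun i hi' => card_le_sum_normSq_emb n (h0 i hi') (hi i hi')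
  have htot : ∑ i ∈ s, (Fintype.card (K →ₐ[ℚ] ℂ) : ℝ) = ∑ i ∈ s, ∑ τ : K →ₐ[ℚ] ℂ, Complex.normSq (τ (a i)) := by
    rw [Finset.sum_comm]
    simp only [hτ]
    rw [Finset.sum_const, Finset.sum_const, Finset.card_univ]
    simp [mul_comm]
  have heq := (Finset.sum_eq_sum_iff_of_le hle).1 htot
  intro i his
  have hone : ∀ τ : K →ₐ[ℚ] ℂ, Complex.normSq (τ (a i)) = 1 :=
    fun τ => normSq_eq_one_of_sum_eq n (h0 i his) (hi i his) (heq i his).symm τ
  have hroot : ∃ (m : ℕ) (_ : 0 < m), (a i) ^ m = 1 := by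
    refine NumberField.Embeddings.pow_eq_one_of_norm_eq_one K ℂ (hi i his) fun φ => ?_
    have h5 := hone (φ.toRatAlgHom)
    have h6 : Complex.normSq (φ (a i)) = 1 := h5
    rw [Complex.normSq_eq_norm_sq] at h6
    have h7 : ‖φ (a i)‖ ≥ 0 := norm_nonneg _
    nlinarith
  obtain ⟨m, hm, hma⟩ := hroot
  have h8 := pow_torsionOrder_eq_one K hm hma
  rwa [IsCyclotomicExtension.Rat.torsionOrder_eq (n := n)] at h8

end Abstract

/-- If the sum of the squares of nonzero cyclotomic integers equals their number, they are roots of unity. -/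
theorem eq_root_of_sum_eq (n : ℕ) [NeZero n] {I : Type*} (s : Finset I) (a : I → ℂ)
    (hc : ∀ i ∈ s, IsCyc n (a i)) (h0 : ∀ i ∈ s, a i ≠ 0) (hi : ∀ i ∈ s, IsIntegral ℤ (a i))
    (hQ : ∑ i ∈ s, a i * conj (a i) = (s.card : ℂ)) :
    ∀ i ∈ s, (a i) ^ (if Even n then n else 2 * n) = 1 := by
  classical
  have hex : ∀ i : I, ∃ b : CyclotomicField n ℚ, i ∈ s → cycEmb n b = a i := by
    intro i
    by_cases h : i ∈ s
    · obtain ⟨b, hb⟩ := hc i h
      exact ⟨b, fun _ => hb⟩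
    · exact ⟨0, fun h' => absurd h' h⟩
  choose b hb using hex
  have hinj : Function.Injective (cycEmb n) := (cycEmb n).toRingHom.injective
  intro i his
  have h1 := eq_root_of_sum_eq_abstract n (cycEmb n) s b
    (fun j hj h => h0 j hj (by rw [← hb j hj, h, map_zero]))
    (fun j hj => by
      have h2 := hi j hj
      rw [← hb j hj] at h2
      exact (isIntegral_algHom_iff ((cycEmb n).restrictScalars ℤ) hinj).1 h2)
    (by
      rw [← hQ]
      refine Finset.sum_congr rfl fun j hj => ?_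
      rw [hb j hj]) i his
  rw [← hb i his, ← map_pow, h1, map_one]

section RankOne

variable {X : Type*} [Group X] [Fintype X] {p : ℕ} [hp : Fact p.Prime] {M : Ideal AlgInt}

open Classical in
/-- A block of rank one with the maximal number of characters. -/
theorem rank_one_all (hM : IsPModular p M) {B : Set (IrrCharacter X)} (hB : IsPBlock M B)
    (hl : blockRank p B = 1) (hc : Nat.card B = p ^ blockDefect p B) :
    ∃ φ : X → ℂ, (∀ χ ∈ B, pRegularPart p (χ : X → ℂ) = φ) ∧ regSpan p B = Submodule.span ℂ {φ} ∧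
      (∀ g, p ∣ orderOf g → ∑ χ : IrrCharacter X, (if χ ∈ B then (χ : X → ℂ) g else 0) = 0) ∧
      (Nat.card B : ℂ) * classInner φ φ = 1 := by
  have := isPModular_isPrime hM
  obtain ⟨φ', d, -, h1, h2⟩ := exists_of_rank_one hM hB hl
  obtain ⟨S, hS⟩ : ∃ S : Finset (IrrCharacter X), S = Finset.univ.filter (· ∈ B) := ⟨_, rfl⟩
  have hSm : ∀ χ, χ ∈ S ↔ χ ∈ B := fun χ => by simp [hS]
  have hcard : Nat.card B = S.card := by
    rw [Nat.card_eq_fintype_card, Fintype.card_subtype, hS]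
  have hs : ∑ χ ∈ S, d χ ^ 2 = S.card := by
    have h3 : B = (S : Set (IrrCharacter X)) := by
      ext b
      simp [hSm]
    rw [← hcard, hc, ← h2]
    conv_rhs => rw [h3]
    rw [finsum_mem_coe_finset]
  have hreg1 : IsPRegular p (1 : X) := by
    simp [IsPRegular, (Fact.out : p.Prime).ne_one]
  have hd0 : ∀ χ ∈ S, 1 ≤ d χ ^ 2 := by
    intro χ hχ
    have h6 := h1 χ ((hSm χ).1 hχ) 1 hreg1
    have h7 : d χ ≠ 0 := by
      intro h
      rw [h] at h6
      simp at h6
      exact map_one_ne_zero_of_irr χ.2 h6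
    exact Nat.one_le_pow _ _ (Nat.pos_of_ne_zero h7)
  have hd1 : ∀ χ ∈ S, d χ ^ 2 = 1 := by
    have h3 : ∑ χ ∈ S, d χ ^ 2 = ∑ χ ∈ S, 1 := by
      rw [hs, Finset.card_eq_sum_ones]
    exact fun χ hχ => (Finset.sum_eq_sum_iff_of_le (fun i hi => hd0 i hi)).1 h3.symm χ hχ |>.symm
  have hd2 : ∀ χ ∈ S, d χ = 1 := fun χ hχ => by
    have := hd1 χ hχ
    exact (Nat.pow_eq_one.1 this).resolve_right (by norm_num)
  have hreg : ∀ χ ∈ B, ∀ g, ¬ p ∣ orderOf g → (χ : X → ℂ) g = φ' g := by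
    intro χ hχ g hg
    have := h1 χ hχ g hg
    rw [this, hd2 χ ((hSm χ).2 hχ)]
    simp
  have hpr : ∀ χ ∈ B, pRegularPart p (χ : X → ℂ) = pRegularPart p φ' := by
    intro χ hχ
    funext g
    by_cases hg : p ∣ orderOf g
    · rw [pRegularPart_eq_zero_of_dvd _ hg, pRegularPart_eq_zero_of_dvd _ hg]
    · rw [pRegularPart_eq_of_regular _ hg, pRegularPart_eq_of_regular _ hg, hreg χ hχ g hg]
  have hne := IsPBlock_nonempty hB
  obtain ⟨χ₀, h₀⟩ := hne
  have hsing : ∀ g, p ∣ orderOf g → ∑ χ : IrrCharacter X, (if χ ∈ B then (χ : X → ℂ) g else 0) = 0 := by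
    intro g hg
    obtain ⟨u, s, hus, hcomm, hup, hsr, -, -⟩ := exists_jordan (p := p) g
    have hu1 : u ≠ 1 := by
      rintro rfl
      apply hsr
      rw [one_mul] at hus
      rwa [← hus] at hg
    have hpp : IsPPart p g u := ⟨s, hus, hcomm, hup, hsr⟩
    have h1p : IsPPart p (1 : X) 1 := ⟨1, by simp, Commute.one_left _, ⟨0, by simp⟩, by simp [(Fact.out : p.Prime).ne_one]⟩
    have h3 := block_orthogonality hM hpp h1p (fun h => hu1 (isConj_one_right.1 h.symm)) (isBlockUnion_of_isPBlock hB)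
    rw [finsum_mem_irr] at h3
    have h4 : ∀ χ : IrrCharacter X, (if χ ∈ B then (χ : X → ℂ) g * (χ : X → ℂ) 1⁻¹ else 0) =
        (χ₀ : X → ℂ) 1 * (if χ ∈ B then (χ : X → ℂ) g else 0) := by
      intro χ
      split_ifs with hχ
      · rw [inv_one, hreg χ hχ 1 (by simp [(Fact.out : p.Prime).ne_one]), ← hreg χ₀ h₀ 1 (by simp [(Fact.out : p.Prime).ne_one])]
        ring
      · simp
    simp only [h4] at h3
    rw [← Finset.mul_sum] at h3
    exact (mul_eq_zero.1 h3).resolve_left (map_one_ne_zero_of_irr χ₀.2)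
  refine ⟨pRegularPart p φ', hpr, ?_, hsing, ?_⟩
  · show Submodule.span ℂ _ = _
    congr 1
    ext f
    simp only [Set.mem_image, Set.mem_singleton_iff]
    constructor
    · rintro ⟨χ, hχ, rfl⟩
      exact hpr χ hχ
    · rintro rfl
      exact ⟨χ₀, h₀, hpr χ₀ h₀⟩
  · -- the sum of the members of the block
    have hΦ : (fun g => ∑ χ : IrrCharacter X, (if χ ∈ B then (χ : X → ℂ) g else 0)) = (Nat.card B : ℂ) • pRegularPart p φ' := by
      funext g
      by_cases hg : p ∣ orderOf g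
      · rw [hsing g hg, Pi.smul_apply, pRegularPart_eq_zero_of_dvd _ hg, smul_zero]
      · rw [Pi.smul_apply, pRegularPart_eq_of_regular _ hg, hcard, hS, Finset.card_filter]
        push_cast
        rw [smul_eq_mul, Finset.sum_mul]
        refine Finset.sum_congr rfl fun χ _ => ?_
        split_ifs with hχ
        · rw [hreg χ hχ g hg, one_mul]
        · simp
    have hΦ2 : classInner (fun g => ∑ χ : IrrCharacter X, (if χ ∈ B then (χ : X → ℂ) g else 0))
        (fun g => ∑ χ : IrrCharacter X, (if χ ∈ B then (χ : X → ℂ) g else 0)) = (Nat.card B : ℂ) := by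
      have e1 : (fun g => ∑ χ : IrrCharacter X, (if χ ∈ B then (χ : X → ℂ) g else 0)) =
          ∑ χ : IrrCharacter X, (if χ ∈ B then (χ : X → ℂ) else 0) := by
        funext g
        rw [Finset.sum_apply]
        refine Finset.sum_congr rfl fun χ _ => ?_
        split_ifs <;> rfl
      rw [e1, classInner_sum_left]
      simp only [classInner_sum_right]
      rw [hcard, hS, Finset.card_filter]
      push_cast
      refine Finset.sum_congr rfl fun χ _ => ?_
      rw [Finset.sum_eq_single χ]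
      · split_ifs with hχ
        · exact classInner_irr_self χ.2
        · simp [classInner_def]
      · intro ψ _ hne
        split_ifs with h1 h2
        · exact classInner_irr_of_ne χ.2 ψ.2 (fun h => hne (Subtype.ext h.symm))
        all_goals simp [classInner_def]
      · simp
    rw [hΦ, classInner_smul_left, classInner_smul_right, Complex.conj_natCast] at hΦ2
    have hne0 : (Nat.card B : ℂ) ≠ 0 := by
      have : 0 < Nat.card B := by
        haveI : Nonempty B := ⟨⟨χ₀, h₀⟩⟩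
        exact Nat.card_pos
      exact_mod_cast this.ne'
    apply mul_left_cancel₀ hne0
    rw [mul_one]
    conv_rhs => rw [← hΦ2]

end RankOne

section Local

variable {H : Type*} [Group H] [Fintype H] {p : ℕ} [hp : Fact p.Prime] {M : Ideal AlgInt}
  {f : Set (IrrCharacter H)} {x : H}

/-- The block of the centralizer of the generator of a cyclic defect group of a nilpotent block. -/
theorem exists_cen_block (hM : IsPModular p M) (hD : IsDefectGroup p M f (Subgroup.zpowers x))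
    (hnil : IsNilpotentBlock p M f) (hx1 : x ≠ 1) :
    ∃ e : Set (IrrCharacter (Subgroup.centralizer ({x} : Set H))),
      IsInducedBlock M _ e f ∧ IsPBlock M e ∧ blockRank p e = 1 ∧ Nat.card e = orderOf x ∧
      blockDefect p e = blockDefect p f ∧
      ∀ h : H, h ∈ Subgroup.normalizer (Subgroup.zpowers x : Set H) →
        StabilizesBlock (Subgroup.centralizer ({x} : Set H)) e h → h ∈ Subgroup.centralizer ({x} : Set H) := by
  classical
  have := isPModular_isPrime hM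
  obtain ⟨c, hc⟩ := exists_pair_on_defect hM hD hnil.1
  have hmax := isMaximal_of_defect hM hD hc
  have hab : ∀ u ∈ Subgroup.zpowers x, ∀ v ∈ Subgroup.zpowers x, u * v = v * u := by
    intro u hu v hv
    obtain ⟨i, rfl⟩ := Subgroup.mem_zpowers_iff.1 hu
    obtain ⟨j, rfl⟩ := Subgroup.mem_zpowers_iff.1 hv
    exact (Commute.refl x).zpow_zpow i j
  have hstab := (nilpotent_iff_of_abelian hM hmax hab).1 hnil
  have hQ1 : Subgroup.zpowers x ≠ ⊥ := by
    intro h
    rw [Subgroup.zpowers_eq_bot] at h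
    exact hx1 h
  obtain ⟨-, hDc, h1c, h2c⟩ := nil_ab_sub hM hmax hab (fun g hg1 hg2 _ _ _ _ => hstab g hg1 hg2)
    (Relation.ReflTransGen.refl) hQ1
  have hPC : Subgroup.zpowers x ≤ Cen (Subgroup.zpowers x) := zpowers_le_cen x
  have hcd1 := card_defect_group hM (isInducedBlock_of_pair hM hc).1 hDc
  have hcd2 := card_defect_group hM hnil.1 hD
  rw [card_subgroupOf_of_le hPC] at hcd1
  have hdef : blockDefect p c = blockDefect p f := by
    have h3 : p ^ blockDefect p c = p ^ blockDefect p f := by rw [← hcd1, hcd2]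
    exact Nat.pow_right_injective (Fact.out : p.Prime).two_le h3
  have key : ∀ K : Subgroup H, K = Cen (Subgroup.zpowers x) → ∃ e : Set (IrrCharacter K),
      IsInducedBlock M K e f ∧ IsPBlock M e ∧ blockRank p e = 1 ∧ Nat.card e = orderOf x ∧
      blockDefect p e = blockDefect p f ∧ ∀ h : H, h ∈ Subgroup.normalizer (Subgroup.zpowers x : Set H) →
        StabilizesBlock K e h → h ∈ K := by
    rintro K rfl
    refine ⟨c, isInducedBlock_of_pair hM hc, (isInducedBlock_of_pair hM hc).1, h1c, ?_, hdef, hstab⟩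
    rw [h2c, Nat.card_zpowers]
  exact key _ (centralizer_zpowers_eq x).symm

end Local

section Dd

variable {H : Type*} [Group H] [Fintype H] {p : ℕ} [hp : Fact p.Prime] {M : Ideal AlgInt}
  {f : Set (IrrCharacter H)} {x : H}

/-- The section number. -/
noncomputable def dd (N : ℕ) (x : H) (φ : Subgroup.centralizer ({x} : Set H) → ℂ) (s : ℕ) (ξ : IrrCharacter H) : ℂ :=
  (N : ℂ) * classInner (fun c : Subgroup.centralizer ({x} : Set H) => (ξ : H → ℂ) (x ^ s * c)) φ

open Classical in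
theorem sum_irr_mul_conj_eq (g g' : H) :
    ∑ ξ : IrrCharacter H, (ξ : H → ℂ) g * conj ((ξ : H → ℂ) g') =
      ∑ h : H, if h * g' * h⁻¹ = g then (1 : ℂ) else 0 := by
  rw [second_orthogonality']
  split_ifs with hc
  · obtain ⟨h₀, hh₀⟩ := isConj_iff.1 hc.symm
    rw [← Equiv.sum_comp (Equiv.mulLeft h₀)]
    have e : ∀ h : H, ((Equiv.mulLeft h₀) h * g' * ((Equiv.mulLeft h₀) h)⁻¹ = g) ↔ h ∈ Subgroup.centralizer ({g'} : Set H) := by
      intro h
      simp only [Equiv.coe_mulLeft, mul_inv_rev, Subgroup.mem_centralizer_singleton_iff]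
      rw [← hh₀]
      constructor
      · intro h1
        have h2 : h * g' * h⁻¹ = g' := by
          have h3 : h₀ * (h * g' * h⁻¹) * h₀⁻¹ = h₀ * g' * h₀⁻¹ := by
            rw [← h1]
            group
          exact mul_left_cancel (mul_right_cancel h3)
        calc h * g' = h * g' * h⁻¹ * h := by group
          _ = g' * h := by rw [h2]
      · intro h1
        calc h₀ * h * g' * (h⁻¹ * h₀⁻¹) = h₀ * (h * g') * h⁻¹ * h₀⁻¹ := by group
          _ = h₀ * (g' * h) * h⁻¹ * h₀⁻¹ := by rw [h1]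
          _ = h₀ * g' * h₀⁻¹ := by group
    simp only [e]
    rw [Finset.sum_boole, Nat.card_eq_fintype_card, Fintype.card_subtype]
  · symm
    refine Finset.sum_eq_zero fun h _ => ?_
    rw [if_neg]
    intro h1
    exact hc (isConj_iff.2 ⟨h, h1⟩).symm

theorem exists_pow_pow_eq {k s : ℕ} (hxp : orderOf x = p ^ k) (hsp : ¬ p ∣ s) : ∃ t : ℕ, (x ^ s) ^ t = x := by
  rcases k with _ | k
  · refine ⟨0, ?_⟩
    have : x = 1 := by
      rw [← orderOf_eq_one_iff, hxp, pow_zero]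
    simp [this]
  · have hc : Nat.Coprime s (p ^ (k + 1)) :=
      Nat.Coprime.pow_right _ ((Nat.Prime.coprime_iff_not_dvd hp.out).2 hsp).symm
    obtain ⟨t, -, ht⟩ := Nat.exists_mul_mod_eq_one_of_coprime hc (Nat.one_lt_pow (by omega) (Fact.out : p.Prime).one_lt)
    refine ⟨t, ?_⟩
    rw [← pow_mul]
    have h1 := Nat.div_add_mod (s * t) (p ^ (k + 1))
    rw [ht] at h1
    calc x ^ (s * t) = x ^ (p ^ (k + 1) * (s * t / p ^ (k + 1)) + 1) := by rw [h1]
      _ = x := by
        rw [pow_succ, pow_mul, ← hxp, pow_orderOf_eq_one, one_pow, one_mul]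

theorem mem_normalizer_cen_of_conj {k s : ℕ} (hxp : orderOf x = p ^ k) (hsp : ¬ p ∣ s) {h : H} (hh : h * x ^ s * h⁻¹ = x) :
    h ∈ Subgroup.normalizer ((Subgroup.centralizer ({x} : Set H) : Subgroup H) : Set H) := by
  obtain ⟨t, ht⟩ := exists_pow_pow_eq (x := x) hxp hsp
  rw [Subgroup.mem_normalizer_iff]
  intro c
  simp only [Subgroup.mem_centralizer_singleton_iff]
  have hcx : ∀ {c : H}, c * x = x * c → c * x ^ s = x ^ s * c := fun {c} hc =>
    ((show Commute c x from hc).pow_right s).eq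
  have hcx' : ∀ {c : H}, c * x ^ s = x ^ s * c → c * x = x * c := fun {c} hc => by
    have := ((show Commute c (x ^ s) from hc).pow_right t).eq
    rwa [ht] at this
  constructor
  · intro hc
    have h1 := hcx hc
    conv_lhs => rw [← hh]
    conv_rhs => rw [← hh]
    calc h * c * h⁻¹ * (h * x ^ s * h⁻¹) = h * (c * x ^ s) * h⁻¹ := by group
      _ = h * (x ^ s * c) * h⁻¹ := by rw [h1]
      _ = _ := by group
  · intro hc
    apply hcx'
    have h3 : h * c * h⁻¹ * (h * x ^ s * h⁻¹) = (h * x ^ s * h⁻¹) * (h * c * h⁻¹) := by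
      rw [hh]
      exact hc
    have h4 : h * (c * x ^ s) * h⁻¹ = h * (x ^ s * c) * h⁻¹ := by
      calc h * (c * x ^ s) * h⁻¹ = h * c * h⁻¹ * (h * x ^ s * h⁻¹) := by group
        _ = (h * x ^ s * h⁻¹) * (h * c * h⁻¹) := h3
        _ = _ := by group
    exact mul_left_cancel (mul_right_cancel h4)

/-- The orthogonality relation. -/
theorem sum_dd_mul_conj_eq_zero {N k s : ℕ} {φ : Subgroup.centralizer ({x} : Set H) → ℂ} (hxp : orderOf x = p ^ k)
    (hφ0 : ∀ c, p ∣ orderOf c → φ c = 0) (hsp : ¬ p ∣ s)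
    (hvan : ∀ (h : H) (hN : h ∈ Subgroup.normalizer ((Subgroup.centralizer ({x} : Set H) : Subgroup H) : Set H)),
      h * x ^ s * h⁻¹ = x → ∑ c : Subgroup.centralizer ({x} : Set H), φ c * conj (φ (nConj hN c)) = 0) :
    ∑ ξ : IrrCharacter H, dd N x φ 1 ξ * conj (dd N x φ s ξ) = 0 := by
  classical
  obtain ⟨A, hA⟩ : ∃ A : ℂ, A = ((N : ℂ) * (Nat.card (Subgroup.centralizer ({x} : Set H)) : ℂ)⁻¹) *
      conj ((N : ℂ) * (Nat.card (Subgroup.centralizer ({x} : Set H)) : ℂ)⁻¹) := ⟨_, rfl⟩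
  have e1 : ∀ ξ : IrrCharacter H, dd N x φ 1 ξ * conj (dd N x φ s ξ) =
      A * ∑ c : Subgroup.centralizer ({x} : Set H), ∑ c' : Subgroup.centralizer ({x} : Set H),
        ((ξ : H → ℂ) (x * c) * conj ((ξ : H → ℂ) (x ^ s * c'))) * (conj (φ c) * φ c') := by
    intro ξ
    obtain ⟨κ, hκ⟩ : ∃ κ : ℂ, κ = (N : ℂ) * (Nat.card (Subgroup.centralizer ({x} : Set H)) : ℂ)⁻¹ := ⟨_, rfl⟩
    have e0 : ∀ r : ℕ, dd N x φ r ξ = κ * ∑ c : Subgroup.centralizer ({x} : Set H), (ξ : H → ℂ) (x ^ r * c) * conj (φ c) := by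
      intro r
      unfold dd
      rw [classInner_def, hκ, mul_assoc]
    rw [e0, e0, hA, ← hκ, map_mul, map_sum, pow_one]
    rw [show κ * (∑ c : Subgroup.centralizer ({x} : Set H), (ξ : H → ℂ) (x * c) * conj (φ c)) *
      (conj κ * ∑ c : Subgroup.centralizer ({x} : Set H), conj ((ξ : H → ℂ) (x ^ s * c) * conj (φ c))) =
      κ * conj κ * ((∑ c : Subgroup.centralizer ({x} : Set H), (ξ : H → ℂ) (x * c) * conj (φ c)) *
        ∑ c : Subgroup.centralizer ({x} : Set H), conj ((ξ : H → ℂ) (x ^ s * c) * conj (φ c))) by ring]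
    congr 1
    rw [Finset.sum_mul_sum]
    refine Finset.sum_congr rfl fun c _ => Finset.sum_congr rfl fun c' _ => ?_
    rw [map_mul, Complex.conj_conj]
    ring
  simp only [e1]
  rw [← Finset.mul_sum]
  rw [Finset.sum_comm]
  have e3 : ∀ c : Subgroup.centralizer ({x} : Set H), ∑ ξ : IrrCharacter H, ∑ c' : Subgroup.centralizer ({x} : Set H),
      ((ξ : H → ℂ) (x * c) * conj ((ξ : H → ℂ) (x ^ s * c'))) * (conj (φ c) * φ c') =
      ∑ c' : Subgroup.centralizer ({x} : Set H), (∑ h : H, if h * (x ^ s * c') * h⁻¹ = x * c then (1 : ℂ) else 0) * (conj (φ c) * φ c') := by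
    intro c
    rw [Finset.sum_comm]
    refine Finset.sum_congr rfl fun c' _ => ?_
    rw [← Finset.sum_mul, sum_irr_mul_conj_eq]
  simp only [e3]
  have e4 : ∑ c : Subgroup.centralizer ({x} : Set H), ∑ c' : Subgroup.centralizer ({x} : Set H),
      (∑ h : H, if h * (x ^ s * c') * h⁻¹ = x * c then (1 : ℂ) else 0) * (conj (φ c) * φ c') =
      ∑ h : H, ∑ c' : Subgroup.centralizer ({x} : Set H), ∑ c : Subgroup.centralizer ({x} : Set H),
        (if h * (x ^ s * c') * h⁻¹ = x * c then (1 : ℂ) else 0) * (conj (φ c) * φ c') := by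
    simp only [Finset.sum_mul]
    have e6 : ∀ c : Subgroup.centralizer ({x} : Set H), ∑ c' : Subgroup.centralizer ({x} : Set H), ∑ h : H,
        (if h * (x ^ s * c') * h⁻¹ = x * c then (1 : ℂ) else 0) * (conj (φ c) * φ c') =
        ∑ h : H, ∑ c' : Subgroup.centralizer ({x} : Set H),
        (if h * (x ^ s * c') * h⁻¹ = x * c then (1 : ℂ) else 0) * (conj (φ c) * φ c') := fun c => Finset.sum_comm
    simp only [e6]
    rw [Finset.sum_comm]
    exact Finset.sum_congr rfl fun h _ => Finset.sum_comm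
  rw [e4]
  have e5 : ∀ h : H, ∑ c' : Subgroup.centralizer ({x} : Set H), ∑ c : Subgroup.centralizer ({x} : Set H),
        (if h * (x ^ s * c') * h⁻¹ = x * c then (1 : ℂ) else 0) * (conj (φ c) * φ c') = 0 := by
    intro h
    by_cases hh : h * x ^ s * h⁻¹ = x
    · have hN := mem_normalizer_cen_of_conj hxp hsp hh
      refine Eq.trans ?_ (hvan h hN hh)
      refine Finset.sum_congr rfl fun c' _ => ?_
      have e7 : h * (x ^ s * (c' : H)) * h⁻¹ = x * (nConj hN c' : H) := by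
        have e8 : (nConj hN c' : H) = h * c' * h⁻¹ := rfl
        rw [e8]
        calc h * (x ^ s * (c' : H)) * h⁻¹ = (h * x ^ s * h⁻¹) * (h * c' * h⁻¹) := by group
          _ = _ := by rw [hh]
      rw [Finset.sum_eq_single (nConj hN c')]
      · rw [if_pos e7, one_mul, mul_comm]
      · intro b _ hb
        rw [if_neg, zero_mul]
        intro h8
        rw [e7] at h8
        exact hb (Subtype.ext (mul_left_cancel h8)).symm
      · simp
    · refine Finset.sum_eq_zero fun c' _ => Finset.sum_eq_zero fun c _ => ?_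
      by_cases hc : p ∣ orderOf c
      · rw [hφ0 c hc]
        simp
      by_cases hc' : p ∣ orderOf c'
      · rw [hφ0 c' hc']
        simp
      rw [if_neg, zero_mul]
      intro heq
      apply hh
      have hx1 : IsPPart p ((x : H) * c) x := Cfsg.Agent.Lib.Block.isPPart_mul ⟨k, hxp⟩ c hc
      have hx2 : IsPPart p (x ^ s * c') (x ^ s) := by
        refine ⟨c', rfl, ?_, ?_, ?_⟩
        · exact (show Commute x c' from commute_of_mem_centralizer c').pow_left s
        · have h9 : orderOf (x ^ s) ∣ p ^ k := by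
            apply orderOf_dvd_of_pow_eq_one
            rw [← pow_mul, mul_comm, pow_mul, ← hxp, pow_orderOf_eq_one, one_pow]
          obtain ⟨j, -, hj⟩ := (Nat.dvd_prime_pow hp.out).1 h9
          exact ⟨j, hj⟩
        · rwa [Subgroup.orderOf_coe]
      have hx3 := isPPart_conj hx2 h
      rw [heq] at hx3
      exact IsPPart_eq hx3 hx1
  simp only [e5]
  simp

/-- An automorphism of `ℂ` acting on the `p`-part as the `k`-th power and trivially on the `p'`-part. -/
theorem exists_sigma {k : ℕ} (hk : ¬ p ∣ k) (n : ℕ) (hn : 0 < n) : ∃ (σ : ℂ ≃+* ℂ) (t : ℕ), (∀ z : ℂ, z ^ n = 1 → σ z = z ^ t) ∧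
    (t ≡ k [MOD p ^ n.factorization p]) ∧ (t ≡ 1 [MOD n / p ^ n.factorization p]) := by
  obtain ⟨A, hA⟩ : ∃ A, A = n.factorization p := ⟨_, rfl⟩
  obtain ⟨m, hm⟩ : ∃ m, m = n / p ^ A := ⟨_, rfl⟩
  rw [← hA, ← hm]
  have hnm : n = p ^ A * m := by
    rw [hm, hA]
    exact (Nat.ordProj_mul_ordCompl_eq_self n p).symm
  have hcop : Nat.Coprime (p ^ A) m := by
    rw [hm, hA]
    exact Nat.coprime_ordCompl hp.out hn.ne' |>.pow_left _
  obtain ⟨t, ht1, ht2⟩ := Nat.chineseRemainder hcop k 1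
  have htc : Nat.Coprime t n := by
    rw [hnm]
    apply Nat.Coprime.mul_right
    · rcases A with _ | A
      · simp
      · apply Nat.Coprime.pow_right
        have h1 : t ≡ k [MOD p] := ht1.of_dvd (dvd_pow_self p (by omega))
        rw [Nat.coprime_comm, Nat.Prime.coprime_iff_not_dvd hp.out]
        intro h2
        exact hk ((h1.dvd_iff (dvd_refl p)).1 h2)
    · have h3 : Nat.gcd t m = Nat.gcd 1 m := ht2.gcd_eq
      simpa [Nat.Coprime] using h3
  obtain ⟨σ, hσ⟩ := Cfsg.Agent.Lib.FF.exists_aut_pow n t hn htc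
  exact ⟨σ, t, hσ, ht1, ht2⟩

theorem sigma_pow_of_pPower {k t n : ℕ} (ht : t ≡ k [MOD p ^ n.factorization p]) {Y : Type*} [Monoid Y] {g : Y} {j : ℕ}
    (hj : j ≤ n.factorization p) (hg : g ^ p ^ j = 1) : g ^ t = g ^ k := by
  have h1 : orderOf g ∣ p ^ n.factorization p := (orderOf_dvd_of_pow_eq_one hg).trans (pow_dvd_pow p hj)
  have h2 : t ≡ k [MOD orderOf g] := ht.of_dvd h1
  rw [← pow_mod_orderOf g t, ← pow_mod_orderOf g k, h2]

theorem sigma_pow_of_reg {t n : ℕ} (hn : 0 < n) (ht : t ≡ 1 [MOD n / p ^ n.factorization p]) {Y : Type*} [Group Y] {g : Y}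
    (hg : ¬ p ∣ orderOf g) (hgn : g ^ n = 1) : g ^ t = g := by
  have h1 : orderOf g ∣ p ^ n.factorization p * (n / p ^ n.factorization p) := by
    rw [Nat.ordProj_mul_ordCompl_eq_self]
    exact orderOf_dvd_of_pow_eq_one hgn
  have hc : Nat.Coprime (orderOf g) (p ^ n.factorization p) :=
    Nat.Coprime.pow_right _ ((Nat.Prime.coprime_iff_not_dvd hp.out).2 hg).symm
  have h2 : orderOf g ∣ n / p ^ n.factorization p := hc.dvd_of_dvd_mul_left h1
  have h3 : t ≡ 1 [MOD orderOf g] := ht.of_dvd h2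
  rw [← pow_mod_orderOf g t, h3, pow_mod_orderOf, pow_one]

/-- The Galois action on the section numbers. -/
theorem map_dd {N s t : ℕ} {φ : Subgroup.centralizer ({x} : Set H) → ℂ} (σ : ℂ ≃+* ℂ)
    (hσ : ∀ z : ℂ, z ^ Nat.card H = 1 → σ z = z ^ t) (hx : x ^ t = x ^ s)
    (hreg : ∀ g : H, ¬ p ∣ orderOf g → g ^ t = g)
    (θ : IrrCharacter (Subgroup.centralizer ({x} : Set H))) (hφ : φ = pRegularPart p (θ : _ → ℂ)) (ξ : IrrCharacter H) :
    σ (dd N x φ 1 ξ) = dd N x φ s ξ := by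
  have hσ' : ∀ z : ℂ, z ^ Nat.card (Subgroup.centralizer ({x} : Set H)) = 1 → σ z = z ^ t := by
    intro z hz
    apply hσ
    obtain ⟨m, hm⟩ := Subgroup.card_subgroup_dvd_card (Subgroup.centralizer ({x} : Set H))
    rw [hm, pow_mul, hz, one_pow]
  unfold dd
  rw [classInner_def, classInner_def, map_mul, map_mul, map_natCast, map_inv₀, map_natCast, map_sum]
  congr 2
  refine Finset.sum_congr rfl fun c _ => ?_
  rw [map_mul]
  by_cases hc : p ∣ orderOf c
  · have h0 : φ c = 0 := by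
      rw [hφ]
      exact pRegularPart_eq_zero_of_dvd _ hc
    rw [h0]
    simp
  · have hcr : ¬ p ∣ orderOf (c : H) := by rwa [Subgroup.orderOf_coe]
    have h0 : φ c = (θ : _ → ℂ) c := by
      rw [hφ]
      exact pRegularPart_eq_of_regular _ hc
    congr 1
    · rw [pow_one, aut_char_value σ t hσ ξ]
      have hcomm : Commute x (c : H) := commute_of_mem_centralizer c
      rw [hcomm.mul_pow, hx, hreg _ hcr]
    · rw [h0, ← IsCharacter.map_inv' (IsIrrCharacter.isCharacter θ.2), aut_char_value σ t hσ' θ]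
      have h5 : c⁻¹ ^ t = c⁻¹ := by
        apply Subtype.ext
        push_cast
        rw [inv_pow, hreg _ hcr]
      rw [h5]

end Dd

section NS

variable {H : Type*} [Group H] [Fintype H] {p : ℕ} [hp : Fact p.Prime] {M : Ideal AlgInt}

/-- The data attached to a nilpotent block with cyclic defect group. -/
structure NilSec (p : ℕ) [Fact p.Prime] (M : Ideal AlgInt) (f : Set (IrrCharacter H)) (x : H)
    (e : Set (IrrCharacter (Subgroup.centralizer ({x} : Set H)))) (φ : Subgroup.centralizer ({x} : Set H) → ℂ) (N b : ℕ) : Prop where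
  hM : IsPModular p M
  hf : IsPBlock M f
  hord : orderOf x = N
  hN : N = p ^ (b + 1)
  hind : IsInducedBlock M _ e f
  hreg : ∀ θ ∈ e, pRegularPart p (θ : _ → ℂ) = φ
  hspan : regSpan p e = Submodule.span ℂ {φ}
  hφφ : (N : ℂ) * classInner φ φ = 1
  hdefe : p ^ blockDefect p e = N
  hdeff : p ^ blockDefect p f = N
  hrke : blockRank p e = 1
  hrkf : blockRank p f = 1
  hcardf : Nat.card f = N
  hstab : ∀ h : H, h ∈ Subgroup.normalizer (Subgroup.zpowers x : Set H) →
    StabilizesBlock (Subgroup.centralizer ({x} : Set H)) e h → h ∈ Subgroup.centralizer ({x} : Set H)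

theorem exists_nilSec {f : Set (IrrCharacter H)} {x : H} {b : ℕ} (hM : IsPModular p M) (hD : IsDefectGroup p M f (Subgroup.zpowers x))
    (hnil : IsNilpotentBlock p M f) (hx : orderOf x = p ^ (b + 1)) :
    ∃ e φ, NilSec p M f x e φ (p ^ (b + 1)) b := by
  classical
  have := isPModular_isPrime hM
  have hx1 : x ≠ 1 := by
    rintro rfl
    rw [orderOf_one] at hx
    exact (Nat.one_lt_pow (by omega) (Fact.out : p.Prime).one_lt).ne hx
  obtain ⟨e, h1, h2, h3, h4, h5, h6⟩ := exists_cen_block hM hD hnil hx1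
  have hcf := card_defect_group hM hnil.1 hD
  rw [Nat.card_zpowers, hx] at hcf
  have hde : p ^ blockDefect p e = p ^ (b + 1) := by rw [h5, hcf]
  obtain ⟨φ, a1, a2, a3, a4⟩ := rank_one_all hM h2 h3 (by rw [h4, hx, hde])
  have hab : ∀ u ∈ Subgroup.zpowers x, ∀ v ∈ Subgroup.zpowers x, u * v = v * u := by
    intro u hu v hv
    obtain ⟨i, rfl⟩ := Subgroup.mem_zpowers_iff.1 hu
    obtain ⟨j, rfl⟩ := Subgroup.mem_zpowers_iff.1 hv
    exact (Commute.refl x).zpow_zpow i j
  obtain ⟨c1, c2⟩ := nil_ab hM hD hab hnil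
  rw [Nat.card_zpowers, hx] at c2
  refine ⟨e, φ, hM, hnil.1, hx, rfl, h1, a1, a2, ?_, hde, hcf.symm, h3, c1, c2, h6⟩
  rw [h4, hx] at a4
  exact a4

namespace NilSec

variable {f : Set (IrrCharacter H)} {x : H} {e : Set (IrrCharacter (Subgroup.centralizer ({x} : Set H)))}
  {φ : Subgroup.centralizer ({x} : Set H) → ℂ} {N b : ℕ}

theorem he (S : NilSec p M f x e φ N b) : IsPBlock M e := S.hind.1

theorem isPrime (S : NilSec p M f x e φ N b) : M.IsPrime := isPModular_isPrime S.hM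

theorem hN0 (S : NilSec p M f x e φ N b) : 0 < N := by
  rw [S.hN]
  exact pow_pos (Fact.out : p.Prime).pos _

theorem hNc (S : NilSec p M f x e φ N b) : (N : ℂ) ≠ 0 := by
  exact_mod_cast S.hN0.ne'

theorem hxp (S : NilSec p M f x e φ N b) : orderOf x = p ^ (b + 1) := S.hord.trans S.hN

theorem hx1 (S : NilSec p M f x e φ N b) : x ≠ 1 := by
  rintro rfl
  have := S.hxp
  rw [orderOf_one] at this
  exact (Nat.one_lt_pow (by omega) (Fact.out : p.Prime).one_lt).ne this

theorem exists_theta (S : NilSec p M f x e φ N b) : ∃ θ, θ ∈ e ∧ pRegularPart p (θ : _ → ℂ) = φ := by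
  have := S.isPrime
  obtain ⟨θ, hθ⟩ := IsPBlock_nonempty S.he
  exact ⟨θ, hθ, S.hreg θ hθ⟩

theorem hφ_mem (S : NilSec p M f x e φ N b) : φ ∈ regSpan p e := by
  rw [S.hspan]
  exact Submodule.mem_span_singleton_self φ

theorem hφ0 (S : NilSec p M f x e φ N b) (c : Subgroup.centralizer ({x} : Set H)) (hc : p ∣ orderOf c) : φ c = 0 :=
  regSpan_vanish S.hφ_mem hc

theorem hφ_ne (S : NilSec p M f x e φ N b) : φ ≠ 0 := by
  intro h
  have := S.hφφ
  rw [h] at this
  simp [classInner_def] at this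

theorem hφ_int (S : NilSec p M f x e φ N b) (c : Subgroup.centralizer ({x} : Set H)) : IsIntegral ℤ (φ c) := by
  obtain ⟨θ, -, rfl⟩ := S.exists_theta
  by_cases hc : p ∣ orderOf c
  · rw [pRegularPart_eq_zero_of_dvd _ hc]
    exact isIntegral_zero
  · rw [pRegularPart_eq_of_regular _ hc]
    exact IsCharacter.isIntegral' (IsIrrCharacter.isCharacter θ.2) c

/-- The subsection function is a multiple of `φ`. -/
theorem secF_eq (S : NilSec p M f x e φ N b) (ξ : IrrCharacter H) :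
    secF p x e (ξ : H → ℂ) = dd N x φ 1 ξ • φ := by
  have h1 := secF_mem S.hM S.he (ξ : H → ℂ)
  rw [S.hspan, Submodule.mem_span_singleton] at h1
  obtain ⟨a, ha⟩ := h1
  have hcf := IsCharacter.isClassFunction (IsIrrCharacter.isCharacter ξ.2)
  have h2 := classInner_blockProj S.hM S.he S.hφ_mem (isClassFunction_section (x := x) _ hcf)
  have h3 : classInner (secF p x e (ξ : H → ℂ)) φ = classInner (fun c : Subgroup.centralizer ({x} : Set H) => (ξ : H → ℂ) (x * c)) φ := by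
    rw [← conj_classInner φ (secF p x e (ξ : H → ℂ)), ← conj_classInner φ (fun c : Subgroup.centralizer ({x} : Set H) => (ξ : H → ℂ) (x * c))]
    unfold secF
    rw [h2]
  rw [← ha, classInner_smul_left] at h3
  have h4 : a = dd N x φ 1 ξ := by
    unfold dd
    rw [pow_one, ← h3]
    have h5 := S.hφφ
    calc a = a * ((N : ℂ) * classInner φ φ) := by rw [h5, mul_one]
      _ = _ := by ring
  rw [← ha, h4]

theorem dd_notMem (S : NilSec p M f x e φ N b) {ξ : IrrCharacter H} (hξ : ξ ∉ f) : dd N x φ 1 ξ = 0 := by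
  have h1 := S.secF_eq ξ
  rw [secF_eq_zero_of_notMem S.hM ⟨_, S.hxp⟩ S.hind hξ] at h1
  exact (smul_eq_zero.1 h1.symm).resolve_right S.hφ_ne

open Classical in
theorem dd_eq_sum (S : NilSec p M f x e φ N b) (ξ : IrrCharacter H) :
    dd N x φ 1 ξ = ∑ θ : IrrCharacter (Subgroup.centralizer ({x} : Set H)), if θ ∈ e then aa x ξ θ else 0 := by
  have h1 := S.secF_eq ξ
  rw [secF_eq_sum] at h1
  have h2 : (∑ θ : IrrCharacter (Subgroup.centralizer ({x} : Set H)), if θ ∈ e then aa x ξ θ • pRegularPart p (θ : _ → ℂ) else 0) =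
      (∑ θ : IrrCharacter (Subgroup.centralizer ({x} : Set H)), if θ ∈ e then aa x ξ θ else 0) • φ := by
    rw [Finset.sum_smul]
    refine Finset.sum_congr rfl fun θ _ => ?_
    split_ifs with hθ
    · rw [S.hreg θ hθ]
    · simp
  rw [h2] at h1
  exact (smul_left_injective ℂ S.hφ_ne h1).symm

theorem dd_int (S : NilSec p M f x e φ N b) (ξ : IrrCharacter H) : IsIntegral ℤ (dd N x φ 1 ξ) := by
  classical
  rw [S.dd_eq_sum]
  refine IsIntegral.sum _ fun θ _ => ?_
  split_ifs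
  · exact isIntegral_aa ξ θ
  · exact isIntegral_zero

theorem dd_cyc (S : NilSec p M f x e φ N b) (ξ : IrrCharacter H) : IsCyc N (dd N x φ 1 ξ) := by
  classical
  haveI : NeZero N := ⟨S.hN0.ne'⟩
  rw [S.dd_eq_sum]
  refine isCyc_sum _ _ fun θ _ => ?_
  split_ifs
  · exact isCyc_aa_of_pow (by rw [← S.hord, pow_orderOf_eq_one]) ξ θ
  · exact isCyc_zero

theorem sum_dd (S : NilSec p M f x e φ N b) :
    ∑ ξ : IrrCharacter H, dd N x φ 1 ξ * conj (dd N x φ 1 ξ) = N := by
  have h1 := sum_classInner_secF S.hM ⟨_, S.hxp⟩ S.he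
  rw [S.hrke] at h1
  have h2 : ∀ ξ : IrrCharacter H, classInner (secF p x e (ξ : H → ℂ)) (secF p x e (ξ : H → ℂ)) =
      dd N x φ 1 ξ * conj (dd N x φ 1 ξ) * classInner φ φ := by
    intro ξ
    rw [S.secF_eq, classInner_smul_left, classInner_smul_right]
    ring
  simp only [h2] at h1
  rw [← Finset.sum_mul] at h1
  have h3 := S.hφφ
  have h4 : classInner φ φ ≠ 0 := fun h => by
    rw [h, mul_zero] at h3
    exact zero_ne_one h3
  apply mul_right_cancel₀ h4
  rw [h1, h3]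
  push_cast
  rfl

open Classical in
theorem exists_f_data (S : NilSec p M f x e φ N b) : ∃ φf : H → ℂ, (∀ ξ ∈ f, pRegularPart p (ξ : H → ℂ) = φf) ∧
    (∀ g, p ∣ orderOf g → ∑ ξ : IrrCharacter H, (if ξ ∈ f then (ξ : H → ℂ) g else 0) = 0) ∧
    (N : ℂ) * classInner φf φf = 1 := by
  obtain ⟨φf, h1, -, h2, h3⟩ := rank_one_all S.hM S.hf S.hrkf (by rw [S.hcardf, S.hdeff])
  rw [S.hcardf] at h3
  exact ⟨φf, h1, h2, h3⟩

theorem exists_deg (S : NilSec p M f x e φ N b) : ∃ D : ℕ, ∀ ξ ∈ f, charDegree (ξ : H → ℂ) = D := by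
  classical
  have := S.isPrime
  obtain ⟨φf, h1, -, -⟩ := S.exists_f_data
  obtain ⟨ξ₀, h₀⟩ := IsPBlock_nonempty S.hf
  refine ⟨charDegree (ξ₀ : H → ℂ), fun ξ hξ => ?_⟩
  have hr : ¬ p ∣ orderOf (1 : H) := by simp [(Fact.out : p.Prime).ne_one]
  have h2 := congrFun ((h1 ξ hξ).trans (h1 ξ₀ h₀).symm) 1
  rw [pRegularPart_eq_of_regular _ hr, pRegularPart_eq_of_regular _ hr,
    map_one_eq_charDegree (IsIrrCharacter.isCharacter ξ.2), map_one_eq_charDegree (IsIrrCharacter.isCharacter ξ₀.2)] at h2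
  exact_mod_cast h2

theorem height_zero (S : NilSec p M f x e φ N b) {ξ : IrrCharacter H} (hξ : ξ ∈ f) : blockHeight p f (ξ : H → ℂ) = 0 := by
  classical
  have := S.isPrime
  obtain ⟨D, hD⟩ := S.exists_deg
  obtain ⟨ξ₀, h₀, h₁, -⟩ := exists_min_height S.hf S.hM
  unfold blockHeight
  rw [← h₁, hD ξ hξ, hD ξ₀ h₀, Nat.sub_self]

theorem alpha_eq (S : NilSec p M f x e φ N b) (ξ : IrrCharacter H) :
    alpha p x e ξ ξ = dd N x φ 1 ξ * conj (dd N x φ 1 ξ) := by
  unfold alpha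
  rw [S.secF_eq, classInner_smul_left, classInner_smul_right]
  have h1 := S.hφφ
  have h2 : (p : ℂ) ^ blockDefect p e = N := by
    rw [← S.hdefe]
    push_cast
    rfl
  rw [h2]
  calc (N : ℂ) * (dd N x φ 1 ξ * (conj (dd N x φ 1 ξ) * classInner φ φ)) =
      dd N x φ 1 ξ * conj (dd N x φ 1 ξ) * ((N : ℂ) * classInner φ φ) := by ring
    _ = _ := by rw [h1, mul_one]

theorem dd_ne (S : NilSec p M f x e φ N b) {ξ : IrrCharacter H} (hξ : ξ ∈ f) : dd N x φ 1 ξ ≠ 0 := by
  have := S.isPrime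
  have h0 := S.height_zero hξ
  have h1 := not_memLocalIdeal_alpha S.hM ⟨_, S.hxp⟩ S.hind hξ h0 hξ h0
  rw [S.alpha_eq] at h1
  intro h
  rw [h, zero_mul] at h1
  exact h1 memLocalIdeal_zero

open Classical in
theorem dd_root (S : NilSec p M f x e φ N b) {ξ : IrrCharacter H} (hξ : ξ ∈ f) :
    (dd N x φ 1 ξ) ^ (if Even N then N else 2 * N) = 1 := by
  haveI : NeZero N := ⟨S.hN0.ne'⟩
  obtain ⟨T, hT⟩ : ∃ T : Finset (IrrCharacter H), T = Finset.univ.filter (· ∈ f) := ⟨_, rfl⟩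
  have hTm : ∀ χ, χ ∈ T ↔ χ ∈ f := fun χ => by simp [hT]
  have hcard : T.card = N := by
    rw [← S.hcardf, Nat.card_eq_fintype_card, Fintype.card_subtype, hT]
  refine eq_root_of_sum_eq N T (dd N x φ 1) (fun i _ => S.dd_cyc i) (fun i hi => S.dd_ne ((hTm i).1 hi))
    (fun i _ => S.dd_int i) ?_ ξ ((hTm ξ).2 hξ)
  rw [hcard, ← S.sum_dd, hT, Finset.sum_filter]
  refine Finset.sum_congr rfl fun ξ _ => ?_
  split_ifs with h
  · rfl
  · rw [S.dd_notMem h, zero_mul]

/-- The element `W`. -/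
noncomputable def wW (x : H) (φ : Subgroup.centralizer ({x} : Set H) → ℂ) : MonoidAlgebra ℂ H := by
  classical
  exact wCen x φ

theorem wW_central (S : NilSec p M f x e φ N b) : IsCentralElt (wW x φ) := by
  classical
  exact isCentralElt_wCen (regSpan_isClassFunction S.hφ_mem)

theorem wW_local (S : NilSec p M f x e φ N b) : LocalCoeff M (wW x φ) := by
  classical
  have := S.isPrime
  exact localCoeff_wCen S.hφ_int

theorem om_wW (S : NilSec p M f x e φ N b) (ξ : IrrCharacter H) :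
    om (ξ : H → ℂ) (wW x φ) * ((N : ℂ) * (ξ : H → ℂ) 1) = (Nat.card H : ℂ) * dd N x φ 1 ξ := by
  classical
  have h1 : om (ξ : H → ℂ) (wW x φ) = (Nat.card H : ℂ) * conj (classInner φ (secF p x e (ξ : H → ℂ))) / (ξ : H → ℂ) 1 :=
    om_wCen_eq_secF S.hM S.he S.hφ_mem ξ
  have h2 : conj (classInner φ (secF p x e (ξ : H → ℂ))) * (N : ℂ) = dd N x φ 1 ξ := by
    rw [conj_classInner, S.secF_eq, classInner_smul_left]
    have h3 := S.hφφ
    calc dd N x φ 1 ξ * classInner φ φ * (N : ℂ) = dd N x φ 1 ξ * ((N : ℂ) * classInner φ φ) := by ring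
      _ = _ := by rw [h3, mul_one]
  have h3 := map_one_ne_zero_of_irr ξ.2
  rw [h1, ← h2]
  field_simp

/-- The `p`-adic unit relating the order of the group, `N` and the degree. -/
theorem exists_unit (S : NilSec p M f x e φ N b) {D : ℕ} (hD : ∀ ξ ∈ f, charDegree (ξ : H → ℂ) = D) :
    ∃ A B : ℕ, ¬ p ∣ A ∧ ¬ p ∣ B ∧ Nat.card H * B = N * D * A := by
  classical
  have := S.isPrime
  obtain ⟨ξ₀, h₀, h₁, -⟩ := exists_min_height S.hf S.hM
  have hDne : D ≠ 0 := by
    rw [← hD ξ₀ h₀]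
    exact charDegree_ne_zero
  have hd : blockDefect p f = (Nat.card H).factorization p - D.factorization p := by
    unfold blockDefect
    rw [← h₁, hD ξ₀ h₀]
  have hle : D.factorization p ≤ (Nat.card H).factorization p := by
    have h2 := minExp_le_factorization_card (p := p) (B := f) ⟨ξ₀, h₀⟩
    unfold minExp at h2
    rwa [← h₁, hD ξ₀ h₀] at h2
  refine ⟨Nat.card H / p ^ (Nat.card H).factorization p, D / p ^ D.factorization p,
    Nat.not_dvd_ordCompl hp.out Nat.card_pos.ne', Nat.not_dvd_ordCompl hp.out hDne, ?_⟩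
  rw [← S.hdeff, hd]
  have e1 := Nat.ordProj_mul_ordCompl_eq_self D p
  have e2 := Nat.ordProj_mul_ordCompl_eq_self (Nat.card H) p
  generalize D / p ^ D.factorization p = B at *
  generalize Nat.card H / p ^ (Nat.card H).factorization p = A at *
  generalize hv : D.factorization p = v at *
  generalize hw : (Nat.card H).factorization p = w at *
  conv_lhs => rw [← e2]
  conv_rhs => rw [← e1]
  obtain ⟨c, rfl⟩ : ∃ c, w = v + c := ⟨w - v, by omega⟩
  have e3 : v + c - v = c := by omega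
  rw [e3, pow_add]
  ring

theorem dd_congr (S : NilSec p M f x e φ N b) {ξ ξ' : IrrCharacter H} (hξ : ξ ∈ f) (hξ' : ξ' ∈ f) :
    MemLocalIdeal M (dd N x φ 1 ξ - dd N x φ 1 ξ') := by
  have := S.isPrime
  obtain ⟨D, hD⟩ := S.exists_deg
  obtain ⟨A, B, hA, hB, hAB⟩ := S.exists_unit hD
  have h1 := memLocalIdeal_om_sub ξ.2 ξ'.2 (sameBlock_of_mem S.hf hξ hξ') S.wW_central S.wW_local
  have hD1 : ∀ ψ ∈ f, (ψ : H → ℂ) 1 = D := fun ψ hψ => by
    rw [map_one_eq_charDegree (IsIrrCharacter.isCharacter ψ.2), hD ψ hψ]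
  have h2 := S.om_wW ξ
  have h3 := S.om_wW ξ'
  rw [hD1 ξ hξ] at h2
  rw [hD1 ξ' hξ'] at h3
  have hABc : (Nat.card H : ℂ) * B = (N : ℂ) * D * A := by exact_mod_cast hAB
  have hH : (Nat.card H : ℂ) ≠ 0 := by exact_mod_cast Nat.card_pos.ne'
  have hND : (N : ℂ) * D ≠ 0 := by
    refine mul_ne_zero S.hNc ?_
    obtain ⟨ξ₀, h₀⟩ := IsPBlock_nonempty S.hf
    rw [← hD1 ξ₀ h₀]
    exact map_one_ne_zero_of_irr ξ₀.2
  have h4 : (dd N x φ 1 ξ - dd N x φ 1 ξ') * (A : ℂ) =
      (B : ℂ) * (om (ξ : H → ℂ) (wW x φ) - om (ξ' : H → ℂ) (wW x φ)) := by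
    apply mul_left_cancel₀ hND
    calc (N : ℂ) * D * ((dd N x φ 1 ξ - dd N x φ 1 ξ') * (A : ℂ)) =
        ((N : ℂ) * D * A) * (dd N x φ 1 ξ - dd N x φ 1 ξ') := by ring
      _ = (B : ℂ) * ((Nat.card H : ℂ) * dd N x φ 1 ξ - (Nat.card H : ℂ) * dd N x φ 1 ξ') := by
        rw [← hABc]
        ring
      _ = _ := by
        rw [← h2, ← h3]
        ring
  refine memLocalIdeal_of_mul_unit (memLocalRing_natCast A) (not_memLocalIdeal_natCast S.hM hA) ?_
  rw [h4]
  exact memLocalIdeal_mul_left (memLocalRing_natCast B) h1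

open Classical in
/-- The common sign. -/
theorem exists_sign (S : NilSec p M f x e φ N b) :
    ∃ ε : ℂ, (ε = 1 ∨ ε = -1) ∧ (p = 2 → ε = 1) ∧ ∀ ξ ∈ f, (ε * dd N x φ 1 ξ) ^ N = 1 := by
  have := S.isPrime
  by_cases h2 : p = 2
  · refine ⟨1, Or.inl rfl, fun _ => rfl, fun ξ hξ => ?_⟩
    have h3 := S.dd_root hξ
    have h4 : Even N := by
      rw [S.hN, h2]
      exact (Nat.even_pow.2 ⟨even_two, by omega⟩)
    rw [if_pos h4] at h3
    rw [one_mul, h3]
  · have hodd : ¬ Even N := by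
      rw [S.hN]
      intro h
      have h3 := (Nat.even_pow.1 h).1
      have h4 : 2 ∣ p := h3.two_dvd
      exact h2 ((Nat.prime_dvd_prime_iff_eq Nat.prime_two hp.out).1 h4).symm
    have hroot : ∀ ξ ∈ f, (dd N x φ 1 ξ) ^ N = 1 ∨ (dd N x φ 1 ξ) ^ N = -1 := by
      intro ξ hξ
      have h3 := S.dd_root hξ
      rw [if_neg hodd, mul_comm, pow_mul] at h3
      rw [sq] at h3
      exact mul_self_eq_one_iff.1 h3
    have hoddN : Odd N := Nat.not_even_iff_odd.1 hodd
    have hself : ∀ ξ ∈ f, ((dd N x φ 1 ξ) ^ N * dd N x φ 1 ξ) ^ N = 1 := by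
      intro ξ hξ
      rw [mul_pow]
      rcases hroot ξ hξ with h | h
      · rw [h, one_pow, one_mul]
      · rw [h, hoddN.neg_one_pow]
        norm_num
    have hlocal : ∀ ξ ∈ f, MemLocalIdeal M (dd N x φ 1 ξ - (dd N x φ 1 ξ) ^ N) := by
      intro ξ hξ
      have h3 : MemLocalRing M ((dd N x φ 1 ξ) ^ N * dd N x φ 1 ξ) :=
        memLocalRing_of_isIntegral (((S.dd_int ξ).pow N).mul (S.dd_int ξ))
      have h5 := memLocalIdeal_sub_one_of_pow S.hM (b + 1) h3 (by rw [← S.hN]; exact hself ξ hξ)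
      have h6 : (dd N x φ 1 ξ) ^ N * (dd N x φ 1 ξ) ^ N = 1 := by
        rcases hroot ξ hξ with h | h <;> rw [h] <;> norm_num
      have h7 : dd N x φ 1 ξ - (dd N x φ 1 ξ) ^ N =
          (dd N x φ 1 ξ) ^ N * ((dd N x φ 1 ξ) ^ N * dd N x φ 1 ξ - 1) := by
        calc dd N x φ 1 ξ - (dd N x φ 1 ξ) ^ N = ((dd N x φ 1 ξ) ^ N * (dd N x φ 1 ξ) ^ N) * dd N x φ 1 ξ - (dd N x φ 1 ξ) ^ N := by rw [h6, one_mul]
          _ = _ := by ring
      rw [h7]
      exact memLocalIdeal_mul_left (memLocalRing_of_isIntegral ((S.dd_int ξ).pow N)) h5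
    obtain ⟨ξ₁, h₁⟩ := IsPBlock_nonempty S.hf
    refine ⟨(dd N x φ 1 ξ₁) ^ N, hroot ξ₁ h₁, fun h => absurd h h2, fun ξ hξ => ?_⟩
    have hcommon : (dd N x φ 1 ξ) ^ N = (dd N x φ 1 ξ₁) ^ N := by
      by_contra hne
      have h8 : MemLocalIdeal M ((dd N x φ 1 ξ) ^ N - (dd N x φ 1 ξ₁) ^ N) := by
        have h9 := memLocalIdeal_sub (memLocalIdeal_sub (S.dd_congr hξ h₁) (hlocal ξ hξ)) (memLocalIdeal_neg (hlocal ξ₁ h₁))
        have e : dd N x φ 1 ξ - dd N x φ 1 ξ₁ - (dd N x φ 1 ξ - (dd N x φ 1 ξ) ^ N) - -(dd N x φ 1 ξ₁ - (dd N x φ 1 ξ₁) ^ N) =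
            (dd N x φ 1 ξ) ^ N - (dd N x φ 1 ξ₁) ^ N := by ring
        rwa [e] at h9
      have h10 : MemLocalIdeal M ((2 : ℕ) : ℂ) := by
        rcases hroot ξ hξ with h | h <;> rcases hroot ξ₁ h₁ with h' | h'
        · exact absurd (h.trans h'.symm) hne
        · rw [h, h'] at h8
          norm_num at h8
          exact_mod_cast h8
        · rw [h, h'] at h8
          norm_num at h8
          have h11 := memLocalIdeal_neg h8
          norm_num at h11
          exact_mod_cast h11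
        · exact absurd (h.trans h'.symm) hne
      have h12 := (memLocalIdeal_natCast_iff S.hM 2).1 h10
      exact h2 ((Nat.prime_dvd_prime_iff_eq hp.out Nat.prime_two).1 h12)
    rw [← hcommon]
    exact hself ξ hξ

theorem pow_fact_le (S : NilSec p M f x e φ N b) : b + 1 ≤ (Nat.card H).factorization p := by
  have h1 : p ^ (b + 1) ∣ Nat.card H := by
    rw [← S.hxp]
    exact orderOf_dvd_natCard x
  exact (hp.out.pow_dvd_iff_le_factorization Nat.card_pos.ne').1 h1

/-- The Galois action on the section numbers, at the `k`-th power. -/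
theorem exists_sigma_dd (S : NilSec p M f x e φ N b) {k : ℕ} (hk : ¬ p ∣ k) :
    ∃ σ : ℂ ≃+* ℂ, (∀ z : ℂ, z ^ N = 1 → σ z = z ^ k) ∧ ∀ ξ, σ (dd N x φ 1 ξ) = dd N x φ k ξ := by
  obtain ⟨σ, t, h1, h2, h3⟩ := exists_sigma (p := p) hk (Nat.card H) Nat.card_pos
  obtain ⟨θ, -, hθ⟩ := S.exists_theta
  have hpow : ∀ {Y : Type} [Monoid Y] (g : Y), g ^ p ^ (b + 1) = 1 → g ^ t = g ^ k :=
    fun g hg => sigma_pow_of_pPower h2 S.pow_fact_le hg
  refine ⟨σ, fun z hz => ?_, fun ξ => ?_⟩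
  · have hNdvd : N ∣ Nat.card H := by
      rw [← S.hord]
      exact orderOf_dvd_natCard x
    obtain ⟨m, hm⟩ := hNdvd
    rw [h1 z (by rw [hm, pow_mul, hz, one_pow])]
    exact sigma_pow_of_pPower h2 S.pow_fact_le (by rw [← S.hN]; exact hz)
  · refine map_dd σ h1 ?_ (fun g hg => sigma_pow_of_reg Nat.card_pos h3 hg (by rw [← orderOf_dvd_iff_pow_eq_one]; exact orderOf_dvd_natCard g)) θ hθ.symm ξ
    exact sigma_pow_of_pPower h2 S.pow_fact_le (by rw [← S.hxp, pow_orderOf_eq_one])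

theorem dd_of_sign (S : NilSec p M f x e φ N b) {ε : ℂ} (hε : ε = 1 ∨ ε = -1) {ξ : IrrCharacter H}
    (hη : (ε * dd N x φ 1 ξ) ^ N = 1) {k : ℕ} (hk : ¬ p ∣ k) :
    dd N x φ k ξ = ε * (ε * dd N x φ 1 ξ) ^ k := by
  obtain ⟨σ, h1, h2⟩ := S.exists_sigma_dd hk
  have h3 := h1 _ hη
  have h4 : σ ε = ε := by
    rcases hε with rfl | rfl <;> simp
  rw [map_mul, h4, h2] at h3
  rw [← h3, ← mul_assoc]
  have h5 : ε * ε = 1 := by
    rcases hε with rfl | rfl <;> norm_num
  rw [h5, one_mul]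

theorem dd_notMem' (S : NilSec p M f x e φ N b) {ξ : IrrCharacter H} (hξ : ξ ∉ f) {k : ℕ} (hk : ¬ p ∣ k) :
    dd N x φ k ξ = 0 := by
  obtain ⟨σ, h1, h2⟩ := S.exists_sigma_dd hk
  rw [← h2, S.dd_notMem hξ, map_zero]

theorem mem_normalizer_zpowers {s : ℕ} (S : NilSec p M f x e φ N b) (hs : ¬ p ∣ s) {h : H} (hh : h * x ^ s * h⁻¹ = x) :
    h ∈ Subgroup.normalizer (Subgroup.zpowers x : Set H) := by
  obtain ⟨t, ht⟩ := exists_pow_pow_eq (x := x) S.hxp hs
  have h1 : h * x * h⁻¹ = x ^ t := by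
    conv_lhs => rw [← ht]
    rw [← conj_pow, hh]
  have h2 : h⁻¹ * x * h = x ^ s := by
    conv_lhs => rw [← hh]
    group
  rw [Subgroup.mem_normalizer_iff]
  intro v
  constructor
  · intro hv
    obtain ⟨i, rfl⟩ := Subgroup.mem_zpowers_iff.1 hv
    rw [← conj_zpow, h1]
    exact Subgroup.zpow_mem _ (Subgroup.pow_mem _ (Subgroup.mem_zpowers x) _) _
  · intro hv
    obtain ⟨i, hi⟩ := Subgroup.mem_zpowers_iff.1 hv
    have h3 : v = h⁻¹ * (h * v * h⁻¹) * h := by group
    rw [h3, ← hi]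
    have h4 : h⁻¹ * x ^ i * h = (h⁻¹ * x * h) ^ i := by
      have := conj_zpow (a := h⁻¹) (b := x) (i := i)
      simpa using this.symm
    rw [h4, h2]
    exact Subgroup.zpow_mem _ (Subgroup.pow_mem _ (Subgroup.mem_zpowers x) _) _

theorem hvan (S : NilSec p M f x e φ N b) {s : ℕ} (hs : ¬ p ∣ s) (hne : x ^ s ≠ x) (h : H)
    (hN : h ∈ Subgroup.normalizer ((Subgroup.centralizer ({x} : Set H) : Subgroup H) : Set H))
    (hh : h * x ^ s * h⁻¹ = x) :
    ∑ c : Subgroup.centralizer ({x} : Set H), φ c * conj (φ (nConj hN c)) = 0 := by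
  have := S.isPrime
  obtain ⟨θ, hθe, hθ⟩ := S.exists_theta
  obtain ⟨θ', hθ'⟩ : ∃ θ', θ' = mapIrr (nConj hN).symm θ := ⟨_, rfl⟩
  have hout : θ' ∉ e := by
    intro hin
    have h1 : θ ∈ mapBlock (nConj hN) e := by
      rw [mem_mapBlock, ← hθ']
      exact hin
    have h2 := blockOf_eq_of_mem (isPBlock_mapBlock (nConj hN) S.he) h1
    have h3 := blockOf_eq_of_mem S.he hθe
    have h4 : StabilizesBlock (Subgroup.centralizer ({x} : Set H)) e h :=
      (stabilizes_iff S.he).2 ⟨hN, h2.trans h3.symm⟩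
    have h5 := S.hstab h (S.mem_normalizer_zpowers hs hh) h4
    apply hne
    have h6 : h * x = x * h := Subgroup.mem_centralizer_singleton_iff.1 h5
    have h7 : h * x ^ s = x ^ s * h := ((show Commute h x from h6).pow_right s).eq
    rw [h7, mul_inv_cancel_right] at hh
    exact hh
  have h8 : (fun c => φ (nConj hN c)) = pRegularPart p (θ' : _ → ℂ) := by
    funext c
    have e1 : (θ' : _ → ℂ) c = (θ : _ → ℂ) (nConj hN c) := by
      rw [hθ', mapIrr_apply']
      rfl
    have e2 : orderOf (nConj hN c) = orderOf c := MulEquiv.orderOf_eq _ c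
    by_cases hc : p ∣ orderOf c
    · rw [pRegularPart_eq_zero_of_dvd _ hc, S.hφ0 _ (by rwa [e2])]
    · rw [pRegularPart_eq_of_regular _ hc, e1, ← hθ, pRegularPart_eq_of_regular _ (by rwa [e2])]
  have h9 := classInner_regSpan_of_notMem S.hM S.he S.hφ_mem hout
  rw [← classInner_reg_left (p := p) (fun y hy => S.hφ0 y hy), ← h8, classInner_def] at h9
  have hc : (Nat.card (Subgroup.centralizer ({x} : Set H)) : ℂ)⁻¹ ≠ 0 :=
    inv_ne_zero (by exact_mod_cast Nat.card_pos.ne')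
  exact (mul_eq_zero.1 h9).resolve_left hc

open Classical in
theorem sum_dd_block (S : NilSec p M f x e φ N b) :
    ∑ ξ : IrrCharacter H, dd N x φ 1 ξ = 0 := by
  obtain ⟨φf, -, h1, -⟩ := S.exists_f_data
  have e1 : ∀ ξ : IrrCharacter H, dd N x φ 1 ξ = if ξ ∈ f then dd N x φ 1 ξ else 0 := by
    intro ξ
    split_ifs with hξ
    · rfl
    · exact S.dd_notMem hξ
  rw [Finset.sum_congr rfl fun ξ _ => e1 ξ]
  have e2 : ∀ ξ : IrrCharacter H, (if ξ ∈ f then dd N x φ 1 ξ else 0) =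
      (N : ℂ) * ((Nat.card (Subgroup.centralizer ({x} : Set H)) : ℂ)⁻¹ *
        ∑ c : Subgroup.centralizer ({x} : Set H), (if ξ ∈ f then (ξ : H → ℂ) (x * c) else 0) * conj (φ c)) := by
    intro ξ
    split_ifs with hξ
    · unfold dd
      rw [classInner_def]
      simp only [pow_one]
    · simp
  simp only [e2]
  rw [← Finset.mul_sum, ← Finset.mul_sum, Finset.sum_comm]
  simp only [← Finset.sum_mul]
  have e3 : ∀ c : Subgroup.centralizer ({x} : Set H),
      (∑ ξ : IrrCharacter H, if ξ ∈ f then (ξ : H → ℂ) (x * c) else 0) * conj (φ c) = 0 := by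
    intro c
    by_cases hc : p ∣ orderOf c
    · rw [S.hφ0 c hc]
      simp
    · rw [h1, zero_mul]
      have hcomm : Commute x (c : H) := commute_of_mem_centralizer c
      have hcop : Nat.Coprime (orderOf x) (orderOf (c : H)) := by
        rw [S.hxp]
        apply Nat.Coprime.pow_left
        rw [Nat.Prime.coprime_iff_not_dvd hp.out, Subgroup.orderOf_coe]
        exact hc
      rw [hcomm.orderOf_mul_eq_mul_orderOf_of_coprime hcop, S.hxp]
      exact dvd_mul_of_dvd_left (dvd_pow_self p (by omega)) _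
  simp only [e3]
  simp

open Classical in
/-- The Fourier coefficients of the distribution of the numbers `ε dd`. -/
theorem sum_pow_eq_zero (S : NilSec p M f x e φ N b) {ε : ℂ} (hε : ε = 1 ∨ ε = -1) (hη : ∀ ξ ∈ f, (ε * dd N x φ 1 ξ) ^ N = 1)
    {k : ℕ} (hk0 : 0 < k) (hkN : k < N) :
    ∑ ξ : IrrCharacter H, (if ξ ∈ f then (ε * dd N x φ 1 ξ) ^ k else 0) = 0 := by
  by_cases hk : p ∣ k
  · -- use the orthogonality for `1 + k`
    have hs : ¬ p ∣ 1 + k := by
      intro h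
      have h1 : p ∣ 1 := (Nat.dvd_add_left hk).1 h
      exact (Fact.out : p.Prime).one_lt.ne' (Nat.dvd_one.1 h1)
    have hne : x ^ (1 + k) ≠ x := by
      intro h
      rw [pow_add, pow_one, mul_eq_left] at h
      have h2 := orderOf_dvd_of_pow_eq_one h
      rw [S.hord] at h2
      exact absurd (Nat.le_of_dvd hk0 h2) (by omega)
    have h1 := sum_dd_mul_conj_eq_zero (N := N) S.hxp (fun c hc => S.hφ0 c hc) hs
      (fun h hN hh => S.hvan hs hne h hN hh)
    have h2 := congrArg (starRingEnd ℂ) h1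
    rw [map_sum, map_zero] at h2
    refine Eq.trans ?_ h2
    refine Finset.sum_congr rfl fun ξ _ => ?_
    split_ifs with hξ
    · have h3 := S.dd_of_sign hε (hη ξ hξ) hs
      rw [map_mul, Complex.conj_conj, h3]
      obtain ⟨η, hηd⟩ : ∃ η, η = ε * dd N x φ 1 ξ := ⟨_, rfl⟩
      rw [← hηd]
      have h4 : η ^ N = 1 := by rw [hηd]; exact hη ξ hξ
      have h5 : η * conj η = 1 := by
        have h6 : ‖η‖ = 1 := Complex.norm_eq_one_of_pow_eq_one h4 S.hN0.ne'
        rw [Complex.mul_conj, Complex.normSq_eq_norm_sq, h6]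
        norm_num
      have h6 : ε * ε = 1 := by
        rcases hε with rfl | rfl <;> norm_num
      have h7 : conj ε = ε := by
        rcases hε with rfl | rfl <;> simp
      have h8 : dd N x φ 1 ξ = ε * η := by
        rw [hηd, ← mul_assoc, h6, one_mul]
      rw [h8, map_mul, h7]
      calc η ^ k = (ε * ε) * (η * conj η) * η ^ k := by rw [h5, h6, one_mul, one_mul]
        _ = ε * conj η * (ε * η ^ (1 + k)) := by ring
    · rw [S.dd_notMem' hξ hs]
      simp
  · obtain ⟨σ, h1, h2⟩ := S.exists_sigma_dd hk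
    have h3 : σ ε = ε := by
      rcases hε with rfl | rfl <;> simp
    have h4 := S.sum_dd_block
    have h5 : σ (ε * ∑ ξ : IrrCharacter H, dd N x φ 1 ξ) = 0 := by
      rw [h4, mul_zero, map_zero]
    rw [Finset.mul_sum, map_sum] at h5
    refine Eq.trans ?_ h5
    refine Finset.sum_congr rfl fun ξ _ => ?_
    split_ifs with hξ
    · rw [h1 _ (hη ξ hξ)]
    · rw [S.dd_notMem hξ, mul_zero, map_zero]

open Classical in
/-- There is a unique member of the block with `ε dd = 1`. -/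
theorem existsUnique_one (S : NilSec p M f x e φ N b) {ε : ℂ} (hε : ε = 1 ∨ ε = -1) (hη : ∀ ξ ∈ f, (ε * dd N x φ 1 ξ) ^ N = 1) :
    ∃ ξ₀ ∈ f, ε * dd N x φ 1 ξ₀ = 1 ∧ ∀ ξ ∈ f, ε * dd N x φ 1 ξ = 1 → ξ = ξ₀ := by
  obtain ⟨T, hT⟩ : ∃ T : Finset (IrrCharacter H), T = Finset.univ.filter (· ∈ f) := ⟨_, rfl⟩
  have hTm : ∀ χ, χ ∈ T ↔ χ ∈ f := fun χ => by simp [hT]
  have hcard : T.card = N := by
    rw [← S.hcardf, Nat.card_eq_fintype_card, Fintype.card_subtype, hT]
  have hgeom : ∀ ξ ∈ T, ∑ k ∈ Finset.range N, (ε * dd N x φ 1 ξ) ^ k = if ε * dd N x φ 1 ξ = 1 then (N : ℂ) else 0 := by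
    intro ξ hξ
    split_ifs with h
    · rw [h]
      simp
    · have h1 := geom_sum_mul (ε * dd N x φ 1 ξ) N
      rw [hη ξ ((hTm ξ).1 hξ), sub_self] at h1
      exact (mul_eq_zero.1 h1).resolve_right (sub_ne_zero.2 h)
  have hsum : ∑ k ∈ Finset.range N, ∑ ξ ∈ T, (ε * dd N x φ 1 ξ) ^ k = (N : ℂ) := by
    obtain ⟨n, hn⟩ : ∃ n, N = n + 1 := ⟨N - 1, by have := S.hN0; omega⟩
    have h0 : (Finset.range N).sum (fun k => ∑ ξ ∈ T, (ε * dd N x φ 1 ξ) ^ k) =
        ∑ ξ ∈ T, (ε * dd N x φ 1 ξ) ^ 0 := by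
      apply Finset.sum_eq_single_of_mem 0 (Finset.mem_range.2 S.hN0)
      intro k hk hk0
      rw [hT, Finset.sum_filter]
      exact S.sum_pow_eq_zero hε hη (Nat.pos_of_ne_zero hk0) (Finset.mem_range.1 hk)
    rw [h0]
    simp [hcard]
  rw [Finset.sum_comm, Finset.sum_congr rfl hgeom, Finset.sum_ite, Finset.sum_const_zero, add_zero, Finset.sum_const,
    nsmul_eq_mul] at hsum
  have hc1 : (T.filter fun ξ => ε * dd N x φ 1 ξ = 1).card = 1 := by
    have h1 : ((T.filter fun ξ => ε * dd N x φ 1 ξ = 1).card : ℂ) = 1 := by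
      apply mul_right_cancel₀ S.hNc
      rw [hsum, one_mul]
    exact_mod_cast h1
  obtain ⟨ξ₀, hξ₀⟩ := Finset.card_eq_one.1 hc1
  have hmem : ξ₀ ∈ T.filter fun ξ => ε * dd N x φ 1 ξ = 1 := by
    rw [hξ₀]
    exact Finset.mem_singleton_self _
  refine ⟨ξ₀, (hTm _).1 (Finset.mem_filter.1 hmem).1, (Finset.mem_filter.1 hmem).2, fun ξ hξ h1 => ?_⟩
  have h2 : ξ ∈ T.filter fun ξ => ε * dd N x φ 1 ξ = 1 := Finset.mem_filter.2 ⟨(hTm _).2 hξ, h1⟩
  rw [hξ₀] at h2
  exact Finset.mem_singleton.1 h2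

end NilSec

end NS

end Cfsg.Agent.Lib.FF
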