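import Cfsg.Agent.Lib.FF.CycBlock1

/-!
# Nilpotent blocks with cyclic defect group: the central unit
-/

set_option autoImplicit false
set_option linter.unusedSectionVars false
set_option linter.unusedVariables false
set_option maxSynthPendingDepth 3
set_option linter.style.haveILetI false
set_option linter.unusedSimpArgs false
set_option linter.unnecessarySimpa false

open scoped ComplexConjugate
open Module Cfsg Cfsg.Agent.Lib.Block Cfsg.Agent.Lib.Char Cfsg.Agent.Lib.CharExtra Cfsg.Agent.Lib.BPair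

namespace Cfsg.Agent.Lib.FF

attribute [local instance] Cfsg.Agent.Lib.BPair.subFintype

section NU

variable {H : Type*} [Group H] [Fintype H] {p : ℕ} [hp : Fact p.Prime] {M : Ideal AlgInt}
  {f : Set (IrrCharacter H)} {x : H} {e : Set (IrrCharacter (Subgroup.centralizer ({x} : Set H)))}
  {φ : Subgroup.centralizer ({x} : Set H) → ℂ} {N b : ℕ}

/-- The central unit attached to a nilpotent block with cyclic defect group. -/
structure NilU (p : ℕ) [Fact p.Prime] (M : Ideal AlgInt) (f : Set (IrrCharacter H)) (x : H)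
    (φ : Subgroup.centralizer ({x} : Set H) → ℂ) (N : ℕ)
    (ε : ℂ) (u : MonoidAlgebra ℂ H) (ξ₀ : IrrCharacter H) (D A B : ℕ) : Prop where
  hε : ε = 1 ∨ ε = -1
  hε2 : p = 2 → ε = 1
  h₀ : ξ₀ ∈ f
  hA : ¬ p ∣ A
  hB : ¬ p ∣ B
  hAB : Nat.card H * B = N * D * A
  hD : ∀ ξ ∈ f, charDegree (ξ : H → ℂ) = D
  hu : u = (ε * (B : ℂ) * (A : ℂ)⁻¹) • NilSec.wW x φ
  hη : ∀ ξ ∈ f, (ε * dd N x φ 1 ξ) ^ N = 1
  hone : ε * dd N x φ 1 ξ₀ = 1
  huniq : ∀ ξ ∈ f, ε * dd N x φ 1 ξ = 1 → ξ = ξ₀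

theorem NilSec.exists_nilU (S : NilSec p M f x e φ N b) : ∃ ε u ξ₀ D A B, NilU p M f x φ N ε u ξ₀ D A B := by
  obtain ⟨ε, h1, h2, h3⟩ := S.exists_sign
  obtain ⟨ξ₀, h4, h5, h6⟩ := S.existsUnique_one h1 h3
  obtain ⟨D, hD⟩ := S.exists_deg
  obtain ⟨A, B, hA, hB, hAB⟩ := S.exists_unit hD
  exact ⟨ε, _, ξ₀, D, A, B, h1, h2, h4, hA, hB, hAB, hD, rfl, h3, h5, h6⟩

namespace NilU

variable {ε : ℂ} {u : MonoidAlgebra ℂ H} {ξ₀ : IrrCharacter H} {D A B : ℕ}

theorem hDne (U : NilU p M f x φ N ε u ξ₀ D A B) : (D : ℂ) ≠ 0 := by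
  have h := U.hD ξ₀ U.h₀
  rw [← h]
  exact_mod_cast charDegree_ne_zero

theorem hD1 (U : NilU p M f x φ N ε u ξ₀ D A B) {ξ : IrrCharacter H} (hξ : ξ ∈ f) : (ξ : H → ℂ) 1 = D := by
  rw [map_one_eq_charDegree (IsIrrCharacter.isCharacter ξ.2), U.hD ξ hξ]

theorem hAc (U : NilU p M f x φ N ε u ξ₀ D A B) : (A : ℂ) ≠ 0 := by
  have : A ≠ 0 := fun h => U.hA (by rw [h]; exact dvd_zero p)
  exact_mod_cast this

theorem hBc (U : NilU p M f x φ N ε u ξ₀ D A B) : (B : ℂ) ≠ 0 := by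
  have : B ≠ 0 := fun h => U.hB (by rw [h]; exact dvd_zero p)
  exact_mod_cast this

theorem hABc (U : NilU p M f x φ N ε u ξ₀ D A B) : (Nat.card H : ℂ) * B = (N : ℂ) * D * A := by
  exact_mod_cast U.hAB

theorem hε1 (U : NilU p M f x φ N ε u ξ₀ D A B) : ε * ε = 1 := by
  rcases U.hε with rfl | rfl <;> norm_num

theorem huc (U : NilU p M f x φ N ε u ξ₀ D A B) (S : NilSec p M f x e φ N b) : IsCentralElt u := by
  rw [U.hu]
  exact isCentralElt_smul _ S.wW_central

/-- The central characters of `u`. -/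
theorem om_u (U : NilU p M f x φ N ε u ξ₀ D A B) (S : NilSec p M f x e φ N b) {ξ : IrrCharacter H} (hξ : ξ ∈ f) :
    om (ξ : H → ℂ) u = ε * dd N x φ 1 ξ := by
  have h1 := S.om_wW ξ
  rw [U.hD1 hξ] at h1
  rw [U.hu, om_smul]
  have hN := S.hNc
  have hD := U.hDne
  have hA := U.hAc
  have hB := U.hBc
  have hH : (Nat.card H : ℂ) ≠ 0 := by exact_mod_cast Nat.card_pos.ne'
  have h2 : om (ξ : H → ℂ) (NilSec.wW x φ) * (B : ℂ) = (A : ℂ) * dd N x φ 1 ξ := by
    apply mul_left_cancel₀ (mul_ne_zero hN hD)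
    calc (N : ℂ) * D * (om (ξ : H → ℂ) (NilSec.wW x φ) * (B : ℂ)) =
        (om (ξ : H → ℂ) (NilSec.wW x φ) * ((N : ℂ) * D)) * (B : ℂ) := by ring
      _ = ((N : ℂ) * D * A) * dd N x φ 1 ξ := by
        rw [h1, ← U.hABc]
        ring
      _ = _ := by ring
  calc ε * (B : ℂ) * (A : ℂ)⁻¹ * om (ξ : H → ℂ) (NilSec.wW x φ) =
      ε * (A : ℂ)⁻¹ * (om (ξ : H → ℂ) (NilSec.wW x φ) * (B : ℂ)) := by ring
    _ = _ := by
      rw [h2]
      field_simp

theorem om_u_notMem (U : NilU p M f x φ N ε u ξ₀ D A B) (S : NilSec p M f x e φ N b) {ξ : IrrCharacter H} (hξ : ξ ∉ f) :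
    om (ξ : H → ℂ) u = 0 := by
  have h1 := S.om_wW ξ
  rw [S.dd_notMem hξ, mul_zero] at h1
  have h2 : om (ξ : H → ℂ) (NilSec.wW x φ) = 0 :=
    (mul_eq_zero.1 h1).resolve_right (mul_ne_zero S.hNc (map_one_ne_zero_of_irr ξ.2))
  rw [U.hu, om_smul, h2, mul_zero]

theorem hue (U : NilU p M f x φ N ε u ξ₀ D A B) (S : NilSec p M f x e φ N b) : u * blockElt f = u := by
  have huc := U.huc S
  apply central_ext_om (isCentralElt_mul huc (isCentralElt_blockElt f)) huc
  intro ξ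
  rw [om_mul ξ.2 huc]
  by_cases hξ : ξ ∈ f
  · rw [om_blockElt_of_mem hξ, mul_one]
  · rw [U.om_u_notMem S hξ, zero_mul]

theorem huN (U : NilU p M f x φ N ε u ξ₀ D A B) (S : NilSec p M f x e φ N b) : u ^ N = blockElt f := by
  have huc := U.huc S
  apply central_ext_om (isCentralElt_pow huc N) (isCentralElt_blockElt f)
  intro ξ
  rw [om_pow ξ.2 huc]
  by_cases hξ : ξ ∈ f
  · rw [om_blockElt_of_mem hξ, U.om_u S hξ, U.hη ξ hξ]
  · rw [om_blockElt_of_notMem hξ, U.om_u_notMem S hξ, zero_pow S.hN0.ne']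

/-- The multiples of the idempotent of `ξ₀`. -/
theorem sum_pow_u (U : NilU p M f x φ N ε u ξ₀ D A B) (S : NilSec p M f x e φ N b) :
    ∑ j ∈ Finset.range N, u ^ (j + 1) = (N : ℂ) • blockElt ({ξ₀} : Set (IrrCharacter H)) := by
  classical
  have huc := U.huc S
  refine central_ext_om (isCentralElt_sum _ _ fun j _ => isCentralElt_pow huc _) (isCentralElt_smul _ (isCentralElt_blockElt _)) ?_
  intro ξ
  rw [om_sum, om_smul]
  simp only [om_pow ξ.2 huc]
  by_cases hξ : ξ ∈ f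
  · rw [U.om_u S hξ]
    obtain ⟨η, hηd⟩ : ∃ η, η = ε * dd N x φ 1 ξ := ⟨_, rfl⟩
    rw [← hηd]
    have h4 : η ^ N = 1 := by rw [hηd]; exact U.hη ξ hξ
    by_cases h1 : η = 1
    · have h2 : ξ = ξ₀ := U.huniq ξ hξ (by rw [← hηd, h1])
      rw [om_blockElt_of_mem (by rw [h2]; exact Set.mem_singleton _), h1]
      simp
    · have h2 : ξ ≠ ξ₀ := by
        rintro rfl
        apply h1
        rw [hηd, U.hone]
      rw [om_blockElt_of_notMem (by simpa using h2), mul_zero]
      have h3 := geom_sum_mul η N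
      rw [h4, sub_self] at h3
      have h5 := (mul_eq_zero.1 h3).resolve_right (sub_ne_zero.2 h1)
      simp only [pow_succ]
      rw [← Finset.sum_mul, h5, zero_mul]
  · have h2 : ξ ≠ ξ₀ := by
      rintro rfl
      exact hξ U.h₀
    rw [om_blockElt_of_notMem (by simpa using h2), mul_zero, U.om_u_notMem S hξ]
    simp

theorem reg_eq (S : NilSec p M f x e φ N b) {ξ ξ' : IrrCharacter H} (hξ : ξ ∈ f) (hξ' : ξ' ∈ f) {g : H} (hg : ¬ p ∣ orderOf g) :
    (ξ : H → ℂ) g = (ξ' : H → ℂ) g := by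
  obtain ⟨φf, h1, -, -⟩ := S.exists_f_data
  have h2 := congrFun ((h1 ξ hξ).trans (h1 ξ' hξ').symm) g
  rwa [pRegularPart_eq_of_regular _ hg, pRegularPart_eq_of_regular _ hg] at h2

theorem hBA (U : NilU p M f x φ N ε u ξ₀ D A B) : (Nat.card H : ℂ)⁻¹ * ((N : ℂ) * D) = (B : ℂ) * (A : ℂ)⁻¹ := by
  have hA := U.hAc
  have hH : (Nat.card H : ℂ) ≠ 0 := by exact_mod_cast Nat.card_pos.ne'
  field_simp
  have := U.hABc
  linear_combination -this

/-- The coefficients of the block idempotent. -/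
theorem coeff_ef_reg (U : NilU p M f x φ N ε u ξ₀ D A B) (S : NilSec p M f x e φ N b) {g : H} (hg : ¬ p ∣ orderOf g) :
    (blockElt f).coeff g = (B : ℂ) * (A : ℂ)⁻¹ * conj ((ξ₀ : H → ℂ) g) := by
  classical
  rw [coeff_blockElt, blockCoeff_eq_sum, ← U.hBA]
  have h1 : ∀ ξ : IrrCharacter H, (if ξ ∈ f then (ξ : H → ℂ) 1 * conj ((ξ : H → ℂ) g) else 0) =
      if ξ ∈ f then (D : ℂ) * conj ((ξ₀ : H → ℂ) g) else 0 := by
    intro ξ
    split_ifs with hξ
    · rw [U.hD1 hξ, reg_eq S hξ U.h₀ hg]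
    · rfl
  simp only [h1]
  rw [Finset.sum_ite, Finset.sum_const_zero, add_zero, Finset.sum_const, nsmul_eq_mul]
  have hc : (Finset.univ.filter (· ∈ f)).card = N := by
    rw [← S.hcardf, Nat.card_eq_fintype_card, Fintype.card_subtype]
  rw [hc]
  ring

theorem coeff_ef_sing (S : NilSec p M f x e φ N b) {g : H} (hg : p ∣ orderOf g) : (blockElt f).coeff g = 0 := by
  have := S.isPrime
  exact coeff_blockElt_of_singular S.hM (isBlockUnion_of_isPBlock S.hf) g hg

theorem coeff_piU_reg (U : NilU p M f x φ N ε u ξ₀ D A B) {g : H} :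
    ((N : ℂ) • blockElt ({ξ₀} : Set (IrrCharacter H))).coeff g = (B : ℂ) * (A : ℂ)⁻¹ * conj ((ξ₀ : H → ℂ) g) := by
  rw [MonoidAlgebra.coeff_smul, Finsupp.smul_apply, coeff_blockElt, blockCoeff_singleton, U.hD1 U.h₀, ← U.hBA, smul_eq_mul]
  ring

theorem exists_ne (U : NilU p M f x φ N ε u ξ₀ D A B) (S : NilSec p M f x e φ N b) :
    ∃ g, ¬ MemLocalIdeal M (((∑ j ∈ Finset.range N, u ^ j) * blockElt f).coeff g) := by
  have := S.isPrime
  obtain ⟨y, hy⟩ := exists_blockCoeff_not_mem S.hf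
  refine ⟨y, ?_⟩
  rw [geom_mul_e (U.hue S) (U.huN S) S.hN0, U.sum_pow_u S, U.coeff_piU_reg]
  rw [← coeff_blockElt] at hy
  by_cases hr : p ∣ orderOf y
  · rw [coeff_ef_sing S hr] at hy
    exact absurd memLocalIdeal_zero hy
  · rwa [U.coeff_ef_reg S hr] at hy

section O

variable {O : Subring ℂ} {n : ℕ}

theorem conj_val_mem {X : Type*} [Group X] [Fintype X] (hroots : ∀ z : ℂ, z ^ n = 1 → z ∈ O) (χ : IrrCharacter X) {g : X}
    (hg : g ^ n = 1) : conj ((χ : X → ℂ) g) ∈ O := by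
  rw [← IsCharacter.map_inv' (IsIrrCharacter.isCharacter χ.2)]
  exact irr_val_mem χ g⁻¹ (by rw [inv_pow, hg, inv_one]) hroots

theorem hunit_mem (U : NilU p M f x φ N ε u ξ₀ D A B) (hM : IsPModular p M) (hO : UnramRing M p O) : (B : ℂ) * (A : ℂ)⁻¹ ∈ O := by
  have := isPModular_isPrime hM
  exact O.mul_mem (natCast_mem O B) (hO.inv_mem _ (natCast_mem O A) (not_memLocalIdeal_natCast hM U.hA))

theorem coefIn_ef (U : NilU p M f x φ N ε u ξ₀ D A B) (S : NilSec p M f x e φ N b) (hO : UnramRing M p O)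
    (hroots : ∀ z : ℂ, z ^ n = 1 → z ∈ O) (hn : ∀ g : H, ¬ p ∣ orderOf g → g ^ n = 1) : CoefIn O (blockElt f) := by
  intro g
  by_cases hg : p ∣ orderOf g
  · rw [coeff_ef_sing S hg]
    exact O.zero_mem
  · rw [U.coeff_ef_reg S hg]
    exact O.mul_mem (U.hunit_mem S.hM hO) (conj_val_mem hroots ξ₀ (hn g hg))

theorem coefIn_wW (S : NilSec p M f x e φ N b) (hroots : ∀ z : ℂ, z ^ n = 1 → z ∈ O) (hn : ∀ g : H, ¬ p ∣ orderOf g → g ^ n = 1) :
    CoefIn O (NilSec.wW x φ) := by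
  classical
  have hφO : ∀ c, conj (φ c) ∈ O := by
    intro c
    obtain ⟨θ, -, rfl⟩ := S.exists_theta
    by_cases hc : p ∣ orderOf c
    · rw [pRegularPart_eq_zero_of_dvd _ hc, map_zero]
      exact O.zero_mem
    · rw [pRegularPart_eq_of_regular _ hc]
      refine conj_val_mem hroots θ ?_
      apply Subtype.ext
      push_cast
      exact hn _ (by rwa [Subgroup.orderOf_coe])
  intro g
  show (wCen x φ).coeff g ∈ O
  unfold wCen
  rw [coeff_relTr]
  refine O.sum_mem fun q _ => ?_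
  unfold wElt
  rw [MonoidAlgebra.coeff_sum, Finset.sum_apply']
  refine O.sum_mem fun s _ => ?_
  rw [MonoidAlgebra.coeff_single, Finsupp.single_apply]
  split_ifs
  · exact hφO s
  · exact O.zero_mem

theorem coefIn_u (U : NilU p M f x φ N ε u ξ₀ D A B) (S : NilSec p M f x e φ N b) (hO : UnramRing M p O)
    (hroots : ∀ z : ℂ, z ^ n = 1 → z ∈ O) (hn : ∀ g : H, ¬ p ∣ orderOf g → g ^ n = 1) : CoefIn O u := by
  intro g
  rw [U.hu, MonoidAlgebra.coeff_smul, Finsupp.smul_apply, smul_eq_mul,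
    show ε * (B : ℂ) * (A : ℂ)⁻¹ * (NilSec.wW x φ).coeff g = ε * ((B : ℂ) * (A : ℂ)⁻¹ * (NilSec.wW x φ).coeff g) by ring]
  have hε : ε ∈ O := by
    rcases U.hε with rfl | rfl
    · exact O.one_mem
    · exact O.neg_mem O.one_mem
  exact O.mul_mem hε (O.mul_mem (U.hunit_mem S.hM hO) (coefIn_wW S hroots hn g))

/-- The data for the key theorem. -/
theorem cycData (U : NilU p M f x φ N ε u ξ₀ D A B) (S : NilSec p M f x e φ N b) (hO : UnramRing M p O)
    (hroots : ∀ z : ℂ, z ^ n = 1 → z ∈ O) (hn : ∀ g : H, ¬ p ∣ orderOf g → g ^ n = 1) : CycData O (blockElt f) u N :=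
  ⟨U.coefIn_ef S hO hroots hn, U.coefIn_u S hO hroots hn, isCentralElt_blockElt f, U.huc S, blockElt_mul_self f, U.hue S, U.huN S⟩

end O

theorem finrank_cenW_le (S : NilSec p M f x e φ N b) : finrank ℂ (cenW (blockElt f)) ≤ N := by
  classical
  let T : Type _ := { ξ // ξ ∈ f }
  haveI : Fintype T := Fintype.ofFinite _
  let Φ : cenW (blockElt f) →ₗ[ℂ] (T → ℂ) :=
    { toFun := fun w ξ => om ((ξ.1 : IrrCharacter H) : H → ℂ) w.1
      map_add' := fun a b => by
        funext ξ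
        exact om_add _ _ _
      map_smul' := fun c a => by
        funext ξ
        exact om_smul _ _ _ }
  have hinj : Function.Injective Φ := by
    rw [← LinearMap.ker_eq_bot, LinearMap.ker_eq_bot']
    rintro ⟨w, hw1, hw2⟩ h
    apply Subtype.ext
    show w = 0
    apply central_ext_om hw1 isCentralElt_zero
    intro ξ
    rw [om_zero]
    by_cases hξ : ξ ∈ f
    · exact congrFun h ⟨ξ, hξ⟩
    · rw [← hw2, om_mul ξ.2 (isCentralElt_blockElt f), om_blockElt_of_notMem hξ, zero_mul]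
  have h1 := LinearMap.finrank_le_finrank_of_injective hinj
  rw [Module.finrank_fintype_fun_eq_card] at h1
  rw [← S.hcardf, Nat.card_eq_fintype_card]
  exact h1

theorem h1ef (U : NilU p M f x φ N ε u ξ₀ D A B) (S : NilSec p M f x e φ N b) :
    (Fintype.card H : ℂ) * (blockElt f).coeff 1 = ((N * (D * D) : ℕ) : ℂ) := by
  have hr : ¬ p ∣ orderOf (1 : H) := by simp [(Fact.out : p.Prime).ne_one]
  rw [U.coeff_ef_reg S hr, U.hD1 U.h₀, Complex.conj_natCast, ← U.hBA, ← Nat.card_eq_fintype_card]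
  have hH : (Nat.card H : ℂ) ≠ 0 := by exact_mod_cast Nat.card_pos.ne'
  push_cast
  field_simp

theorem om_single_central (ξ : IrrCharacter H) {z : H} :
    om (ξ : H → ℂ) (MonoidAlgebra.single z (1 : ℂ)) = (ξ : H → ℂ) z / (ξ : H → ℂ) 1 := by
  unfold om
  rw [tr_single, one_mul]

theorem isCentralElt_single_of_center {z : H} (hz : z ∈ Subgroup.center H) : IsCentralElt (MonoidAlgebra.single z (1 : ℂ)) := by
  rw [isCentralElt_iff_commute_single]
  intro y
  rw [MonoidAlgebra.single_mul_single, MonoidAlgebra.single_mul_single, (Subgroup.mem_center_iff.1 hz y)]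

/-- The central generator is a power of `u`. -/
theorem hz (U : NilU p M f x φ N ε u ξ₀ D A B) (S : NilSec p M f x e φ N b) (hzc : x ^ p ^ b ∈ Subgroup.center H) :
    MonoidAlgebra.single (x ^ p ^ b) (1 : ℂ) * blockElt f = u ^ p ^ b := by
  classical
  have huc := U.huc S
  have hsc := isCentralElt_single_of_center hzc
  have hbp : 0 < p ^ b := pow_pos (Fact.out : p.Prime).pos _
  apply central_ext_om (isCentralElt_mul hsc (isCentralElt_blockElt f)) (isCentralElt_pow huc _)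
  intro ξ
  rw [om_mul ξ.2 hsc, om_pow ξ.2 huc]
  by_cases hξ : ξ ∈ f
  · rw [om_blockElt_of_mem hξ, mul_one, U.om_u S hξ, om_single_central]
    obtain ⟨η, hηd⟩ : ∃ η, η = ε * dd N x φ 1 ξ := ⟨_, rfl⟩
    have hd : dd N x φ 1 ξ = ε * η := by
      rw [hηd, ← mul_assoc, U.hε1, one_mul]
    rw [← hηd]
    have h4 : η ^ N = 1 := by rw [hηd]; exact U.hη ξ hξ
    rcases b with _ | b'
    · -- the central case
      simp only [pow_zero, pow_one] at hzc ⊢
      have hNp : N = p := by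
        rw [S.hN]
        simp
      have hcx : ∀ c : H, c * x = x * c := fun c => Subgroup.mem_center_iff.1 hzc c
      let ι : Subgroup.centralizer ({x} : Set H) ≃* H :=
        { toFun := Subtype.val
          invFun := fun g => ⟨g, Subgroup.mem_centralizer_singleton_iff.2 (hcx g)⟩
          left_inv := fun c => rfl
          right_inv := fun g => rfl
          map_mul' := fun a b => rfl }
      obtain ⟨ξC, hξC⟩ : ∃ ξC, ξC = mapIrr ι.symm ξ := ⟨_, rfl⟩
      have hval : ∀ c : Subgroup.centralizer ({x} : Set H), (ξC : _ → ℂ) c = (ξ : H → ℂ) c := fun c => by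
        rw [hξC, mapIrr_apply']
        rfl
      have hsec : ∀ c : Subgroup.centralizer ({x} : Set H), (ξ : H → ℂ) (x * c) = ((ξ : H → ℂ) x / (ξ : H → ℂ) 1) * (ξC : _ → ℂ) c := by
        intro c
        rw [hval, ← hcx c, irr_mul_central ξ hzc]
        ring
      have haa : ∀ θ : IrrCharacter (Subgroup.centralizer ({x} : Set H)),
          aa x ξ θ = ((ξ : H → ℂ) x / (ξ : H → ℂ) 1) * (if ξC = θ then 1 else 0) := by
        intro θ
        unfold aa
        have e0 : (fun c : Subgroup.centralizer ({x} : Set H) => (ξ : H → ℂ) (x * c)) =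
            ((ξ : H → ℂ) x / (ξ : H → ℂ) 1) • (ξC : _ → ℂ) := by
          funext c
          rw [hsec]
          rfl
        rw [e0, classInner_smul_left]
        congr 1
        by_cases h : ξC = θ
        · rw [if_pos h, h]
          exact classInner_irr_self θ.2
        · rw [if_neg h]
          exact classInner_irr_of_ne ξC.2 θ.2 (fun h' => h (Subtype.ext h'))
      have hdd := S.dd_eq_sum ξ
      simp only [haa] at hdd
      have hdd2 : dd N x φ 1 ξ = (ξ : H → ℂ) x / (ξ : H → ℂ) 1 := by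
        have h7 := S.dd_ne hξ
        rw [hdd] at h7 ⊢
        by_cases hm : ξC ∈ e
        · rw [Finset.sum_eq_single ξC]
          · rw [if_pos hm, if_pos rfl, mul_one]
          · intro θ _ hθ
            split_ifs with h1 h2
            · exact absurd h2.symm hθ
            · simp
            · rfl
          · simp
        · exfalso
          apply h7
          refine Finset.sum_eq_zero fun θ _ => ?_
          split_ifs with h1 h2
          · exact absurd (h2 ▸ h1) hm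
          · simp
          · rfl
      rw [← hdd2]
      have h8 : (dd N x φ 1 ξ) ^ p = 1 := by
        rw [hdd2]
        refine eps_pow ξ hzc ?_
        have := S.hord
        rw [hNp] at this
        rw [← this, pow_orderOf_eq_one]
      rw [hNp, hηd, mul_pow, h8, mul_one] at h4
      have h9 : ε = 1 := by
        rcases U.hε with h | h
        · exact h
        · by_cases hp2 : p = 2
          · exact U.hε2 hp2
          · exfalso
            rw [h, (hp.out.odd_of_ne_two hp2).neg_one_pow] at h4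
            norm_num at h4
      rw [hd, h9, one_mul]
    · -- the general case
      obtain ⟨s, hs⟩ : ∃ s, s = 1 + p ^ (b' + 1) := ⟨_, rfl⟩
      have hsp : ¬ p ∣ s := by
        intro h
        rw [hs] at h
        have h1 : p ∣ 1 := (Nat.dvd_add_left (dvd_pow_self p (by omega))).1 h
        exact (Fact.out : p.Prime).one_lt.ne' (Nat.dvd_one.1 h1)
      have h5 := S.dd_of_sign U.hε (U.hη ξ hξ) hsp
      rw [← hηd] at h5
      have h6 : dd N x φ s ξ = ((ξ : H → ℂ) (x ^ p ^ (b' + 1)) / (ξ : H → ℂ) 1) * dd N x φ 1 ξ := by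
        have e : ∀ c : Subgroup.centralizer ({x} : Set H), (ξ : H → ℂ) (x ^ s * c) =
            ((ξ : H → ℂ) (x ^ p ^ (b' + 1)) / (ξ : H → ℂ) 1) * (ξ : H → ℂ) (x * c) := by
          intro c
          have e2 : x ^ s * (c : H) = (x * c) * x ^ p ^ (b' + 1) := by
            rw [hs, pow_add, pow_one, mul_assoc, mul_assoc, Subgroup.mem_center_iff.1 hzc c]
          rw [e2, irr_mul_central ξ hzc]
          ring
        unfold dd
        rw [classInner_def, classInner_def, pow_one]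
        simp only [e]
        rw [show ∑ c : Subgroup.centralizer ({x} : Set H), ((ξ : H → ℂ) (x ^ p ^ (b' + 1)) / (ξ : H → ℂ) 1) * (ξ : H → ℂ) (x * c) * conj (φ c) =
            ((ξ : H → ℂ) (x ^ p ^ (b' + 1)) / (ξ : H → ℂ) 1) * ∑ c : Subgroup.centralizer ({x} : Set H), (ξ : H → ℂ) (x * c) * conj (φ c) from by
          rw [Finset.mul_sum]
          exact Finset.sum_congr rfl fun c _ => by ring]
        ring
      have h7 := S.dd_ne hξ
      apply mul_right_cancel₀ h7
      rw [← h6, h5, hs, hd, pow_add, pow_one]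
      ring
  · rw [om_blockElt_of_notMem hξ, mul_zero, U.om_u_notMem S hξ, zero_pow hbp.ne']

/-- The class sum in the complex group algebra. -/
theorem classSumR_eq (g₀ : H) : classSumR ℂ g₀ = classSum g₀ := by
  classical
  apply ext_coeff
  intro g
  rw [coeff_classSumR, coeff_classSum]

theorem hK_of_defect (U : NilU p M f x φ N ε u ξ₀ D A B) (S : NilSec p M f x e φ N b) {O : Subring ℂ} (hO : UnramRing M p O)
    {g₀ : H} (hg₀ : IsDefectClass M f g₀) (m : ℕ) (hm : 0 < m) (w : MonoidAlgebra ℂ H) (hw : CoefIn O w) :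
    (blockElt f * classSumR ℂ g₀) ^ m ≠ (p : ℂ) • w := by
  classical
  have := S.isPrime
  intro h
  rw [classSumR_eq] at h
  have hpc : (p : ℂ) ≠ 0 := by exact_mod_cast (Fact.out : p.Prime).ne_zero
  have hcL := isCentralElt_pow (isCentralElt_mul (isCentralElt_blockElt f) (isCentralElt_classSum g₀)) m
  have hwc : IsCentralElt w := by
    have h1 : w = (p : ℂ)⁻¹ • ((blockElt f * classSum g₀) ^ m) := by
      rw [h, smul_smul, inv_mul_cancel₀ hpc, one_smul]
    rw [h1]
    exact isCentralElt_smul _ hcL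
  have hwl : LocalCoeff M w := fun g => hO.le_local _ (hw g)
  have h2 := congrArg (om (ξ₀ : H → ℂ)) h
  rw [om_pow ξ₀.2 (isCentralElt_mul (isCentralElt_blockElt f) (isCentralElt_classSum g₀)), om_mul ξ₀.2 (isCentralElt_blockElt f),
    om_blockElt_of_mem U.h₀, one_mul, om_classSum (IsCharacter.isClassFunction (IsIrrCharacter.isCharacter ξ₀.2)), om_smul] at h2
  have h3 : MemLocalIdeal M ((p : ℂ) * om (ξ₀ : H → ℂ) w) :=
    memLocalIdeal_mul_right ((memLocalIdeal_natCast_iff S.hM p).2 (dvd_refl p)) (memLocalRing_om ξ₀.2 hwc hwl)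
  rw [← h2] at h3
  have hloc : MemLocalRing M (centralChar (ξ₀ : H → ℂ) g₀) := memLocalRing_of_isIntegral (isIntegral_centralChar ξ₀.2 g₀)
  have hnot := hg₀.2.2 ξ₀ U.h₀
  have hpow : ∀ k : ℕ, ¬ MemLocalIdeal M ((centralChar (ξ₀ : H → ℂ) g₀) ^ k) := by
    intro k
    induction k with
    | zero =>
      rw [pow_zero]
      exact not_memLocalIdeal_one
    | succ k ih =>
      rw [pow_succ]
      exact not_memLocalIdeal_mul (memLocalRing_pow hloc k) hloc ih hnot
  exact hpow m h3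

theorem mem_zpowers_of_pow_p {k : ℕ} {y : H} (hx : orderOf x = p ^ (k + 1)) (hy : y ∈ Subgroup.zpowers x) (hyp : y ^ p = 1) :
    y ∈ Subgroup.zpowers (x ^ p ^ k) := by
  obtain ⟨i, rfl⟩ := (mem_powers_iff_mem_zpowers.2 hy)
  simp only at hyp ⊢
  have h1 : p ^ (k + 1) ∣ i * p := by
    rw [← hx]
    apply orderOf_dvd_of_pow_eq_one
    rw [pow_mul]
    exact hyp
  rw [pow_succ] at h1
  have h2 : p ^ k ∣ i := Nat.dvd_of_mul_dvd_mul_right (Fact.out : p.Prime).pos h1
  obtain ⟨j, rfl⟩ := h2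
  rw [pow_mul]
  exact Subgroup.pow_mem _ (Subgroup.mem_zpowers _) _

/-- Elements of order `p` commuting with a conjugate of a defect class. -/
theorem free_of_defect {b : ℕ} (hx : orderOf x = p ^ (b + 1)) (hzc : x ^ p ^ b ∈ Subgroup.center H) {g₀ : H}
    {P₀ : Sylow p (Subgroup.centralizer ({g₀} : Set H))}
    (hP₀ : Subgroup.zpowers x = (P₀ : Subgroup (Subgroup.centralizer ({g₀} : Set H))).map (Subgroup.centralizer ({g₀} : Set H)).subtype)
    (z' : H) (hz' : orderOf z' = p) (hnot : z' ∉ Subgroup.zpowers (x ^ p ^ b)) (κ : H) (hκ : IsConj g₀ κ) (hcomm : Commute z' κ) : False := by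
  classical
  obtain ⟨h, rfl⟩ := isConj_iff.1 hκ
  apply hnot
  obtain ⟨y, hy⟩ : ∃ y, y = h⁻¹ * z' * h := ⟨_, rfl⟩
  have hzy : z' = h * y * h⁻¹ := by rw [hy]; group
  have hzp : z' ^ p = 1 := by
    conv_lhs => rw [← hz']
    exact pow_orderOf_eq_one z'
  have hyo : y ^ p = 1 := by
    rw [hy, show h⁻¹ * z' * h = h⁻¹ * z' * h⁻¹⁻¹ by simp, conj_pow, hzp]
    group
  have hyc : y ∈ Subgroup.centralizer ({g₀} : Set H) := by
    rw [Subgroup.mem_centralizer_singleton_iff]
    have h1 : z' * (h * g₀ * h⁻¹) = (h * g₀ * h⁻¹) * z' := hcomm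
    rw [hy]
    have h2 : h * (h⁻¹ * z' * h * g₀) * h⁻¹ = h * (g₀ * (h⁻¹ * z' * h)) * h⁻¹ := by
      calc h * (h⁻¹ * z' * h * g₀) * h⁻¹ = z' * (h * g₀ * h⁻¹) := by group
        _ = (h * g₀ * h⁻¹) * z' := h1
        _ = _ := by group
    exact mul_left_cancel (mul_right_cancel h2)
  obtain ⟨yc, hyc'⟩ : ∃ yc : Subgroup.centralizer ({g₀} : Set H), yc = ⟨y, hyc⟩ := ⟨_, rfl⟩
  have hpg : IsPGroup p (Subgroup.zpowers yc) := by
    rintro ⟨g, hg⟩
    obtain ⟨i, rfl⟩ := Subgroup.mem_zpowers_iff.1 hg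
    refine ⟨1, ?_⟩
    apply Subtype.ext
    apply Subtype.ext
    rw [pow_one]
    simp only [SubmonoidClass.coe_pow, InvMemClass.coe_inv, OneMemClass.coe_one, Subgroup.coe_zpow, hyc']
    rw [← zpow_natCast, ← zpow_mul, mul_comm, zpow_mul, zpow_natCast, hyo, one_zpow]
  obtain ⟨Q, hQ⟩ := hpg.exists_le_sylow
  obtain ⟨k, hk⟩ := MulAction.exists_smul_eq (Subgroup.centralizer ({g₀} : Set H)) P₀ Q
  have hyQ : yc ∈ (Q : Subgroup _) := hQ (Subgroup.mem_zpowers yc)
  rw [← hk, Sylow.coe_subgroup_smul, Subgroup.mem_smul_pointwise_iff_exists] at hyQ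
  obtain ⟨y', hy'Q, hy'eq⟩ := hyQ
  have hy'x : (y' : H) ∈ Subgroup.zpowers x := by
    rw [hP₀]
    exact ⟨y', hy'Q, rfl⟩
  have hyy' : y = (k : H) * y' * (k : H)⁻¹ := by
    have h1 := congrArg Subtype.val hy'eq
    rw [hyc'] at h1
    exact h1.symm
  have hy'p : (y' : H) ^ p = 1 := by
    have h2 : (y' : H) = (k : H)⁻¹ * y * (k : H)⁻¹⁻¹ := by
      rw [hyy']
      group
    rw [h2, conj_pow, hyo]
    group
  have hy'z := mem_zpowers_of_pow_p hx hy'x hy'p
  have hcen : ∀ {c g : H}, c ∈ Subgroup.zpowers (x ^ p ^ b) → g * c * g⁻¹ = c := by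
    intro c g hc
    obtain ⟨i, rfl⟩ := Subgroup.mem_zpowers_iff.1 hc
    have h3 : (x ^ p ^ b) ^ i ∈ Subgroup.center H := Subgroup.zpow_mem _ hzc i
    rw [Subgroup.mem_center_iff.1 h3 g, mul_inv_cancel_right]
  have e1 : y = (y' : H) := by
    rw [hyy']
    exact hcen hy'z
  rw [hzy, e1, hcen hy'z]
  exact hy'z

end NilU

end NU

end Cfsg.Agent.Lib.FF
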