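import Cfsg.Agent.Lib.FF.GenForm

/-!
# The lattice argument for a block with cyclic defect group, abstractly

Vectors `c a` in `ℤ^I` with Gram matrix `e + [a ~ b]`, orthogonal to a positive vector, supported on a subset,
together with the bound coming from the key theorem, have the form `ε δ_{ψ a} + u`
with `u (ψ a) = 0` and `u = 0, ±1`.
-/

set_option autoImplicit false
set_option linter.unusedSectionVars false
set_option linter.unusedVariables false

namespace Cfsg.Agent.Lib.FF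

open Cfsg.Agent.Lib.SmallSimple.Star

section Abs

variable {A I : Type*} [Fintype A] [Fintype I] [DecidableEq I]

/-- The data of the lattice argument. -/
structure AE (c : A → I → ℤ) (deg : I → ℕ) (r : A → A → Prop) [DecidableRel r] (e : ℕ) (Bl : Set I) (P₁ : Prop) : Prop where
  hdpos : ∀ i, 0 < deg i
  hc0 : ∀ a i, i ∉ Bl → c a i = 0
  hgram : ∀ a b, ip (c a) (c b) = (e : ℤ) + if r a b then 1 else 0
  hdd : ∀ a, ip (c a) (fun i => (deg i : ℤ)) = 0
  hrefl : ∀ a, r a a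
  hsymm : ∀ a b, r a b → r b a
  htrans : ∀ a b d, r a b → r b d → r a d
  hcls : ∀ a, (Finset.univ.filter fun b => r a b).card = e
  hkey : ∀ (Ω : Finset I) (D : ℕ) (w : ℤ), (↑Ω : Set I) ⊆ Bl → (∀ i ∈ Ω, deg i = D) →
    (∀ a, ∑ y ∈ Ω, c a y = w) → w ≠ 0 →
    ∃ ρ : I → ℕ, (∀ i, i ∉ Ω → ρ i = 0) ∧ (∃ i, ρ i ≠ 0) ∧
      |∑ i, (ρ i : ℤ) * ∑ a, c a i| ≤ (Fintype.card A : ℤ) ∧
      (P₁ → ∑ i, (ρ i : ℤ) * ∑ a, c a i = 0 ∨ |∑ i, (ρ i : ℤ) * ∑ a, c a i| = (Fintype.card A : ℤ))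
  hbig : ¬ P₁ → (e + 2) * e ≤ Fintype.card A

variable {c : A → I → ℤ} {deg : I → ℕ} {r : A → A → Prop} [DecidableRel r] {e : ℕ} {Bl : Set I} {P₁ : Prop}

namespace AE

variable (B : AE c deg r e Bl P₁)
include B

theorem hnorm : ∀ a, ip (c a) (c a) = (e : ℤ) + 1 := by
  intro a
  rw [B.hgram, if_pos (B.hrefl a)]

theorem same {a b : A} (h : r a b) : c a = c b := by
  have : ip (c a - c b) (c a - c b) = 0 := by
    rw [ip_sub_left, ip_sub_right, ip_sub_right, B.hnorm, B.hnorm, ip_comm (c b) (c a), B.hgram a b, if_pos h]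
    ring
  exact sub_eq_zero.mp (eq_zero_of_ip_self _ this)

/-- The initial form of the vectors. -/
theorem exists_form (hne : Nonempty A) (he : 0 < e) :
    ∃ (u : I → ℤ) (ε : ℤ) (ψ : A → I),
      Form c r u ε ψ ∧
      (((∀ a b, r a b) ∧ ∀ a, u (ψ a) = 0) ∨
        ((ε = 1 ∨ ε = -1) ∧ ∃ a b, ¬ r a b)) := by
  by_cases hall : ∀ a b, r a b
  · obtain ⟨a₀⟩ := hne
    obtain ⟨i, hi⟩ : ∃ i, c a₀ i ≠ 0 := by
      by_contra hcon
      push Not at hcon
      have h1 : c a₀ = 0 := funext hcon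
      have h2 := B.hnorm a₀
      rw [h1] at h2
      simp [ip] at h2
      omega
    refine ⟨c a₀ - c a₀ i • dl i, c a₀ i, fun _ => i, ⟨hi, ?_, ?_⟩, Or.inl ⟨hall, ?_⟩⟩
    · intro a
      rw [B.same (hall a a₀)]
      funext j
      simp
    · intro a b
      simp only [true_iff]
      exact hall a b
    · intro a
      simp [dl]
  · push Not at hall
    obtain ⟨a₀, a₁, h01⟩ := hall
    obtain ⟨u, ε, ψ, hε, hform, hψ⟩ := star_gen c (fun χ => (deg χ : ℤ)) r (e : ℤ)
      (fun i => by exact_mod_cast B.hdpos i) B.hdd B.hgram B.hrefl B.hsymm B.htrans a₀ a₁ h01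
    exact ⟨u, ε, ψ, ⟨by rcases hε with rfl | rfl <;> norm_num, hform, hψ⟩, Or.inr ⟨hε, a₀, a₁, h01⟩⟩

end AE

variable {u : I → ℤ} {ε : ℤ} {ψ : A → I} {v w : ℤ}

theorem E_t_e (B : AE c deg r e Bl P₁) (F : Form c r u ε ψ) : (imgA ψ).card * e = Fintype.card A :=
  F.card_image B.hcls

theorem E_sum_y (B : AE c deg r e Bl P₁) (F : Form c r u ε ψ)
    (hv : ∀ a, u (ψ a) = v) (hw : w = ((imgA ψ).card : ℤ) * v + ε) :
    ∀ y ∈ imgA ψ, ∑ a, c a y = (e : ℤ) * w := by
  intro y hy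
  obtain ⟨a, -, rfl⟩ := Finset.mem_image.mp hy
  have hp1 : (Fintype.card A : ℤ) = ((imgA ψ).card : ℤ) * e := by
    rw [← E_t_e B F]
    push_cast
    rfl
  rw [F.sum_c, F.card_fib B.hcls a, hv a, hp1, hw]
  ring

theorem E_deg (B : AE c deg r e Bl P₁) (F : Form c r u ε ψ) (a₀ : A) :
    ∀ y ∈ imgA ψ, deg y = deg (ψ a₀) := by
  intro y hy
  obtain ⟨a, -, rfl⟩ := Finset.mem_image.mp hy
  have h1 : (deg (ψ a) : ℤ) = deg (ψ a₀) := F.deg_const B.hdd a a₀
  exact_mod_cast h1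

/-- The key theorem on the image of `ψ`. -/
theorem E_key (B : AE c deg r e Bl P₁) (F : Form c r u ε ψ)
    (hv : ∀ a, u (ψ a) = v) (hw : w = ((imgA ψ).card : ℤ) * v + ε)
    (hYB : ∀ y ∈ imgA ψ, y ∈ Bl) (a₀ : A) (hepos : 0 < e) (hw0 : w ≠ 0) (hP : P₁) :
    w ∣ ((imgA ψ).card : ℤ) := by
  obtain ⟨ρ, hρ0, hρne, -, hρ⟩ := B.hkey (imgA ψ) (deg (ψ a₀)) w (fun y hy => hYB y (Finset.mem_coe.mp hy))
    (E_deg B F a₀) (A_ysum F hv hw) hw0
  have hρsum : (∑ i, (ρ i : ℤ) * ∑ a, c a i) = ((∑ y ∈ imgA ψ, ρ y : ℕ) : ℤ) * ((e : ℤ) * w) := by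
    have h1 : (∑ i, (ρ i : ℤ) * ∑ a, c a i) = ∑ y ∈ imgA ψ, (ρ y : ℤ) * ∑ a, c a y := by
      symm
      apply Finset.sum_subset (Finset.subset_univ _)
      intro χ _ hχ
      rw [hρ0 χ hχ]
      simp
    rw [h1]
    push_cast
    rw [Finset.sum_mul]
    refine Finset.sum_congr rfl fun y hy => ?_
    rw [E_sum_y B F hv hw y hy]
  have he0 : (e : ℤ) ≠ 0 := by exact_mod_cast hepos.ne'
  have hR : ((∑ y ∈ imgA ψ, ρ y : ℕ) : ℤ) ≠ 0 := by
    obtain ⟨i, hi⟩ := hρne
    have hi' : i ∈ imgA ψ := by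
      by_contra hnot
      exact hi (hρ0 i hnot)
    have : 0 < ∑ y ∈ imgA ψ, ρ y := Finset.sum_pos' (fun _ _ => Nat.zero_le _) ⟨i, hi', Nat.pos_of_ne_zero hi⟩
    exact_mod_cast this.ne'
  have hρ' := hρ hP
  rw [hρsum] at hρ'
  have hpm1 : (Fintype.card A : ℤ) = ((imgA ψ).card : ℤ) * e := by
    rw [← E_t_e B F]
    push_cast
    rfl
  rw [hpm1] at hρ'
  rcases hρ' with h | h
  · exfalso
    rcases mul_eq_zero.mp h with h | h
    · exact hR h
    · rcases mul_eq_zero.mp h with h | h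
      · exact he0 h
      · exact hw0 h
  · rcases abs_choice (((∑ y ∈ imgA ψ, ρ y : ℕ) : ℤ) * ((e : ℤ) * w)) with h2 | h2
    · rw [h2] at h
      refine ⟨((∑ y ∈ imgA ψ, ρ y : ℕ) : ℤ), ?_⟩
      apply mul_right_cancel₀ he0
      linear_combination -h
    · rw [h2] at h
      refine ⟨-((∑ y ∈ imgA ψ, ρ y : ℕ) : ℤ), ?_⟩
      apply mul_right_cancel₀ he0
      linear_combination -h

theorem E_YB (B : AE c deg r e Bl P₁) (F : Form c r u ε ψ)
    (hv : ∀ a, u (ψ a) = v)
    (hcase : ((∀ a b, r a b) ∧ ∀ a, u (ψ a) = 0) ∨ ((ε = 1 ∨ ε = -1) ∧ ∃ a b, ¬ r a b)) :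
    ∀ y ∈ imgA ψ, y ∈ Bl := by
  intro y hy
  obtain ⟨a, -, rfl⟩ := Finset.mem_image.mp hy
  by_contra hnot
  have h1 := B.hc0 a (ψ a) hnot
  rw [F.val, hv a, if_pos rfl, mul_one] at h1
  rcases hcase with ⟨h2, h3⟩ | ⟨h2, a', b', h3⟩
  · rw [← hv a, h3 a, zero_add] at h1
    exact F.hε h1
  · obtain ⟨b, hb⟩ : ∃ b, ¬ r a b := by
      by_contra hcon
      push Not at hcon
      exact h3 (B.htrans _ _ _ (B.hsymm _ _ (hcon a')) (hcon b'))
    have h4 := B.hc0 b (ψ a) hnot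
    rw [F.val, if_neg (fun h => hb ((F.hψ a b).mp h)), mul_zero, add_zero, hv a] at h4
    rw [h4, zero_add] at h1
    exact F.hε h1

/-- The case of all elements related. -/
theorem E_all_unit (B : AE c deg r e Bl P₁) (F : Form c r u ε ψ) (h2 : ∀ a b, r a b) (hu0 : ∀ a, u (ψ a) = 0) (a₀ : A) :
    ε = 1 ∨ ε = -1 := by
  classical
  have hcard : (0 : ℤ) < Fintype.card A := by
    have : 0 < Fintype.card A := Fintype.card_pos_iff.mpr ⟨a₀⟩
    exact_mod_cast this
  have hc : ∀ a, c a (ψ a₀) = ε := by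
    intro a
    have h3 : ψ a₀ = ψ a := (F.hψ a₀ a).2 (h2 _ _)
    rw [F.val, if_pos h3, h3, hu0 a]
    ring
  have hBl : ψ a₀ ∈ Bl := by
    by_contra hnot
    have := B.hc0 a₀ _ hnot
    rw [hc a₀] at this
    exact F.hε this
  obtain ⟨ρ, hρ0, ⟨i, hi⟩, hρ, -⟩ := B.hkey {ψ a₀} (deg (ψ a₀)) ε (by
      intro y hy
      rw [Finset.mem_coe, Finset.mem_singleton] at hy
      rw [hy]
      exact hBl) (by
      intro y hy
      rw [Finset.mem_singleton.mp hy]) (by
      intro a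
      rw [Finset.sum_singleton, hc a]) F.hε
  have hi' : i = ψ a₀ := by
    by_contra hne
    exact hi (hρ0 i (by simpa using hne))
  subst hi'
  have hρs : (∑ i, (ρ i : ℤ) * ∑ a, c a i) = (ρ (ψ a₀) : ℤ) * ((Fintype.card A : ℤ) * ε) := by
    rw [Finset.sum_eq_single (ψ a₀)]
    · congr 1
      simp only [hc]
      rw [Finset.sum_const, Finset.card_univ, nsmul_eq_mul]
    · intro b _ hb
      rw [hρ0 b (by simpa using hb)]
      simp
    · intro h
      exact absurd (Finset.mem_univ _) h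
  rw [hρs, abs_mul, abs_mul, Nat.abs_cast, abs_of_pos hcard] at hρ
  have hρ1 : (1 : ℤ) ≤ ρ (ψ a₀) := by exact_mod_cast Nat.pos_of_ne_zero hi
  have hε1 : 1 ≤ |ε| := Int.one_le_abs F.hε
  have hle : |ε| ≤ 1 := by
    by_contra hlt
    push Not at hlt
    have h1 : (Fintype.card A : ℤ) * 1 < (Fintype.card A : ℤ) * |ε| := mul_lt_mul_of_pos_left hlt hcard
    have h2 : 1 * ((Fintype.card A : ℤ) * |ε|) ≤ (ρ (ψ a₀) : ℤ) * ((Fintype.card A : ℤ) * |ε|) :=
      mul_le_mul_of_nonneg_right hρ1 (by positivity)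
    linarith
  have h3 : |ε| = 1 := le_antisymm hle hε1
  exact (abs_eq (by norm_num)).mp h3

/-- The numerical argument in the case `t ≥ e + 2`. -/
theorem E_big (B : AE c deg r e Bl P₁) (F : Form c r u ε ψ) (hε : ε = 1 ∨ ε = -1) (hv : ∀ a, u (ψ a) = v) (a₀ : A)
    (hepos : 0 < e) (hP : ¬ P₁) : v = 0 := by
  classical
  have hεε : ε * ε = 1 := by rcases hε with rfl | rfl <;> norm_num
  have hn := F.norm_eq a₀
  rw [B.hnorm a₀, hv a₀, hεε] at hn
  have hip : ip u u = (e : ℤ) - 2 * ε * v := by linarith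
  set t := (imgA ψ).card with ht
  have hte : t * e = Fintype.card A := E_t_e B F
  have htb : e + 2 ≤ t := by
    have h1 := B.hbig hP
    rw [← hte] at h1
    exact Nat.le_of_mul_le_mul_right h1 hepos
  have htz : ((e : ℤ) + 2) ≤ (t : ℤ) := by exact_mod_cast htb
  have hY : ∀ y ∈ imgA ψ, u y = v := by
    intro y hy
    obtain ⟨a, -, rfl⟩ := Finset.mem_image.mp hy
    exact hv a
  have hsplit : ip u u = (t : ℤ) * (v * v) + ∑ i ∈ (imgA ψ)ᶜ, u i * u i := by
    unfold ip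
    rw [← Finset.sum_add_sum_compl (imgA ψ), Finset.sum_congr rfl (fun y hy => by rw [hY y hy]), Finset.sum_const,
      nsmul_eq_mul]
  have hnn : 0 ≤ ∑ i ∈ (imgA ψ)ᶜ, u i * u i := Finset.sum_nonneg fun i _ => mul_self_nonneg _
  by_contra hv0
  have he1 : (1 : ℤ) ≤ e := by exact_mod_cast hepos
  have hvv : (1 : ℤ) ≤ v * v := by
    have : 0 < v * v := mul_self_pos.mpr hv0
    omega
  have hεv : ε * v = v ∨ ε * v = -v := by
    rcases hε with rfl | rfl <;> simp
  -- the numerical inequality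
  have h1 : (t : ℤ) * (v * v) ≤ (e : ℤ) - 2 * ε * v := by
    rw [← hip, hsplit]
    linarith
  have h3 : ε * v = -1 ∧ (t : ℤ) = e + 2 ∧ ∑ i ∈ (imgA ψ)ᶜ, u i * u i = 0 := by
    have h4 : ((e : ℤ) + 2) * (v * v) ≤ (t : ℤ) * (v * v) := mul_le_mul_of_nonneg_right htz (by linarith)
    have h5 : (e : ℤ) * (v * v - 1) + 2 * (v * v + ε * v) ≤ 0 := by linarith
    have h6 : 0 ≤ (e : ℤ) * (v * v - 1) := mul_nonneg (by linarith) (by linarith)
    have h7 : 0 ≤ v * v + ε * v := by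
      rcases hεv with h | h <;> rw [h] <;> nlinarith [mul_self_nonneg (v - 1), mul_self_nonneg (v + 1)]
    have h8 : (e : ℤ) * (v * v - 1) = 0 := by linarith
    have h9 : v * v + ε * v = 0 := by linarith
    have h10 : v * v = 1 := by
      rcases mul_eq_zero.mp h8 with h | h
      · exact absurd h (by omega)
      · linarith
    have h11 : ε * v = -1 := by linarith
    have h12 : (t : ℤ) * 1 ≤ (e : ℤ) + 2 := by
      have := h1
      rw [h10] at this
      linarith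
    have h13 : (t : ℤ) = e + 2 := by linarith
    refine ⟨h11, h13, ?_⟩
    have h14 := hsplit
    rw [hip, h10, h13] at h14
    linarith
  obtain ⟨h11, h13, h14⟩ := h3
  have h15 : ∀ i, i ∉ imgA ψ → u i = 0 := by
    intro i hi
    have h16 := (Finset.sum_eq_zero_iff_of_nonneg (fun i _ => mul_self_nonneg (u i))).1 h14 i (by simpa using hi)
    exact mul_self_eq_zero.mp h16
  -- the degree
  have hdd := B.hdd a₀
  rw [F.hform a₀, ip_add_left, ip_smul_left', ip_dl_left] at hdd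
  have hip2 : ip u (fun i => (deg i : ℤ)) = (t : ℤ) * v * (deg (ψ a₀) : ℤ) := by
    unfold ip
    rw [← Finset.sum_add_sum_compl (imgA ψ)]
    have e1 : ∑ i ∈ (imgA ψ)ᶜ, u i * (deg i : ℤ) = 0 :=
      Finset.sum_eq_zero fun i hi => by rw [h15 i (by simpa using hi), zero_mul]
    have e2 : ∑ i ∈ imgA ψ, u i * (deg i : ℤ) = ∑ i ∈ imgA ψ, v * (deg (ψ a₀) : ℤ) :=
      Finset.sum_congr rfl fun i hi => by rw [hY i hi, E_deg B F a₀ i hi]
    rw [e1, e2, Finset.sum_const, nsmul_eq_mul, add_zero, mul_assoc]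
  rw [hip2] at hdd
  have hD : (deg (ψ a₀) : ℤ) ≠ 0 := by exact_mod_cast (B.hdpos _).ne'
  have h17 : (t : ℤ) * v + ε = 0 := by
    apply mul_right_cancel₀ hD
    linarith
  have h18 : (t : ℤ) * (ε * v) + ε * ε = 0 := by linear_combination ε * h17
  rw [h11, hεε] at h18
  omega

/-- **The final form**. -/
theorem E_final_form (B : AE c deg r e Bl P₁) (a₀ : A) (hepos : 0 < e) :
    ∃ (u : I → ℤ) (ε : ℤ) (ψ : A → I), (ε = 1 ∨ ε = -1) ∧ Form c r u ε ψ ∧ ∀ a, u (ψ a) = 0 := by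
  obtain ⟨u, ε, ψ, F, hcase⟩ := B.exists_form ⟨a₀⟩ hepos
  have hv : ∀ a, u (ψ a) = u (ψ a₀) := fun a => F.v_const B.hnorm a a₀
  have hw : ((imgA ψ).card : ℤ) * u (ψ a₀) + ε = ((imgA ψ).card : ℤ) * u (ψ a₀) + ε := rfl
  have hYB := E_YB B F hv hcase
  rcases hcase with ⟨h2, h3⟩ | ⟨h2, a', b', h3⟩
  · exact ⟨u, ε, ψ, E_all_unit B F h2 h3 a₀, F, h3⟩
  · by_cases hP : P₁
    · have ht2 := A_two_le F h3
      have hε : ε ≠ 0 := F.hε
      have hw0 : ((imgA ψ).card : ℤ) * u (ψ a₀) + ε ≠ 0 := by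
        intro h0
        have h4 : ((imgA ψ).card : ℤ) ∣ 1 := by
          rcases h2 with rfl | rfl
          · exact ⟨-u (ψ a₀), by linarith⟩
          · exact ⟨u (ψ a₀), by linarith⟩
        have h9 := Int.le_of_dvd one_pos h4
        omega
      have hdvd := E_key B F hv hw hYB a₀ hepos hw0 hP
      have hdvd2 : ((imgA ψ).card : ℤ) * u (ψ a₀) + ε ∣ 1 := by
        have h4 : ((imgA ψ).card : ℤ) * u (ψ a₀) + ε ∣ ε := by
          have h5 := dvd_sub (dvd_refl (((imgA ψ).card : ℤ) * u (ψ a₀) + ε)) (hdvd.mul_right (u (ψ a₀)))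
          simpa using h5
        rcases h2 with rfl | rfl
        · exact h4
        · simpa using h4
      have hw1 : ((imgA ψ).card : ℤ) * u (ψ a₀) + ε = 1 ∨ ((imgA ψ).card : ℤ) * u (ψ a₀) + ε = -1 :=
        Int.isUnit_iff.mp (isUnit_of_dvd_one hdvd2)
      by_cases hv0 : u (ψ a₀) = 0
      · exact ⟨u, ε, ψ, h2, F, fun a => by rw [hv a, hv0]⟩
      · have hpos : (2 : ℤ) ≤ (imgA ψ).card := by exact_mod_cast ht2
        have hcases : (imgA ψ).card = 2 ∧ u (ψ a₀) = -ε := by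
          rcases h2 with rfl | rfl <;> rcases hw1 with h | h
          · exfalso
            apply hv0
            have : ((imgA ψ).card : ℤ) * u (ψ a₀) = 0 := by linarith
            rcases mul_eq_zero.mp this with h5 | h5
            · omega
            · exact h5
          · have h5 : ((imgA ψ).card : ℤ) * u (ψ a₀) = -2 := by linarith
            have h6 : u (ψ a₀) < 0 := by
              by_contra h7
              push Not at h7
              nlinarith
            have h7 : ((imgA ψ).card : ℤ) ≤ 2 := by nlinarith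
            have h8 : (imgA ψ).card = 2 := by omega
            refine ⟨h8, ?_⟩
            rw [h8] at h5
            push_cast at h5
            linarith
          · have h5 : ((imgA ψ).card : ℤ) * u (ψ a₀) = 2 := by linarith
            have h6 : 0 < u (ψ a₀) := by
              by_contra h7
              push Not at h7
              nlinarith
            have h7 : ((imgA ψ).card : ℤ) ≤ 2 := by nlinarith
            have h8 : (imgA ψ).card = 2 := by omega
            refine ⟨h8, ?_⟩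
            rw [h8] at h5
            push_cast at h5
            linarith
          · exfalso
            apply hv0
            have : ((imgA ψ).card : ℤ) * u (ψ a₀) = 0 := by linarith
            rcases mul_eq_zero.mp this with h5 | h5
            · omega
            · exact h5
        exact A_swap F h2 (fun a => by rw [hv a, hcases.2]) hcases.1 h3
    · exact ⟨u, ε, ψ, h2, F, fun a => by rw [hv a, E_big B F h2 hv a₀ hepos hP]⟩

section Main

variable {u : I → ℤ} {ε : ℤ} {ψ : A → I}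

theorem E_YB0 (B : AE c deg r e Bl P₁) (F : Form c r u ε ψ) (hu0 : ∀ a, u (ψ a) = 0) :
    ∀ y ∈ imgA ψ, y ∈ Bl := by
  intro y hy
  obtain ⟨a, -, rfl⟩ := Finset.mem_image.mp hy
  by_contra hnot
  have h1 := B.hc0 a (ψ a) hnot
  rw [F.val, hu0 a, if_pos rfl, mul_one, zero_add] at h1
  exact F.hε h1

theorem E_XB (B : AE c deg r e Bl P₁) (F : Form c r u ε ψ) (hu0 : ∀ a, u (ψ a) = 0) (a₀ : A) {χ : I} (hu : u χ ≠ 0) :
    χ ∈ Bl := by
  by_contra hnot
  have hχY : χ ∉ imgA ψ := fun hy => hnot (E_YB0 B F hu0 χ hy)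
  have := B.hc0 a₀ χ hnot
  rw [A_not F hχY] at this
  exact hu this

/-- The key theorem on one character. -/
theorem E_unit (B : AE c deg r e Bl P₁) (F : Form c r u ε ψ) (hu0 : ∀ a, u (ψ a) = 0) (a₀ : A) {χ : I} (hu : u χ ≠ 0) :
    u χ = 1 ∨ u χ = -1 := by
  classical
  have hχB := E_XB B F hu0 a₀ hu
  have hχ := A_XY F hu0 hu
  have hcard : (0 : ℤ) < Fintype.card A := by
    have : 0 < Fintype.card A := Fintype.card_pos_iff.mpr ⟨a₀⟩
    exact_mod_cast this
  obtain ⟨ρ, hρ0, ⟨i, hi⟩, hρ, -⟩ := B.hkey {χ} (deg χ) (u χ) (by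
      intro y hy
      rw [Finset.mem_coe, Finset.mem_singleton] at hy
      rw [hy]
      exact hχB) (by
      intro y hy
      rw [Finset.mem_singleton.mp hy]) (by
      intro a
      rw [Finset.sum_singleton, A_not F hχ]) hu
  have hi' : i = χ := by
    by_contra hne
    exact hi (hρ0 i (by simpa using hne))
  subst hi'
  have hρs : (∑ i, (ρ i : ℤ) * ∑ a, c a i) = (ρ i : ℤ) * ((Fintype.card A : ℤ) * u i) := by
    rw [Finset.sum_eq_single i]
    · rw [A_sum_not F hχ]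
    · intro b _ hb
      rw [hρ0 b (by simpa using hb)]
      simp
    · intro h
      exact absurd (Finset.mem_univ _) h
  rw [hρs, abs_mul, abs_mul, Nat.abs_cast, abs_of_pos hcard] at hρ
  have hρ1 : (1 : ℤ) ≤ ρ i := by exact_mod_cast Nat.pos_of_ne_zero hi
  have hε1 : 1 ≤ |u i| := Int.one_le_abs hu
  have hle : |u i| ≤ 1 := by
    by_contra hlt
    push Not at hlt
    have h1 : (Fintype.card A : ℤ) * 1 < (Fintype.card A : ℤ) * |u i| := mul_lt_mul_of_pos_left hlt hcard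
    have h2 : 1 * ((Fintype.card A : ℤ) * |u i|) ≤ (ρ i : ℤ) * ((Fintype.card A : ℤ) * |u i|) :=
      mul_le_mul_of_nonneg_right hρ1 (by positivity)
    linarith
  have h3 : |u i| = 1 := le_antisymm hle hε1
  exact (abs_eq (by norm_num)).mp h3

/-- The count of the set where `u` does not vanish. -/
theorem E_card_X (B : AE c deg r e Bl P₁) (F : Form c r u ε ψ) (hu0 : ∀ a, u (ψ a) = 0) (hε : ε = 1 ∨ ε = -1) (a₀ : A) :
    (Finset.univ.filter fun χ => u χ ≠ 0).card = e := by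
  have hnorm := F.norm_eq a₀
  rw [B.hnorm a₀, hu0 a₀] at hnorm
  have hεε : ε * ε = 1 := by rcases hε with rfl | rfl <;> norm_num
  have hip : ip u u = (e : ℤ) := by linarith
  have hcount : ip u u = ((Finset.univ.filter fun χ => u χ ≠ 0).card : ℤ) := by
    rw [Finset.card_filter]
    push_cast
    simp only [ip]
    refine Finset.sum_congr rfl fun χ _ => ?_
    by_cases h : u χ = 0
    · simp [h]
    · rcases E_unit B F hu0 a₀ h with h' | h' <;> simp [h']
  rw [hcount] at hip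
  exact_mod_cast hip

end Main

end Abs

end Cfsg.Agent.Lib.FF
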