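import Cfsg.Agent.Lib.FF.CycLoc1
import Cfsg.Agent.Lib.BPair.Cyclic
import Cfsg.Agent.Lib.BPair.FongHeight
import Cfsg.Agent.Lib.BPair.Rel
import Cfsg.Agent.Lib.BPair.Abel
import Cfsg.Agent.Lib.BPair.CenPair
import Cfsg.Agent.Lib.BPair.Induced

/-!
# Blocks with cyclic defect group: the local data in the group
-/

set_option autoImplicit false
set_option linter.unusedSectionVars false
set_option linter.unusedVariables false
set_option maxSynthPendingDepth 3
set_option linter.style.haveILetI false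
set_option linter.unusedSimpArgs false
set_option linter.unnecessarySimpa false

open scoped ComplexConjugate
open Module Cfsg Cfsg.Agent.Lib.Block Cfsg.Agent.Lib.Char Cfsg.Agent.Lib.CharExtra Cfsg.Agent.Lib.BPair

namespace Cfsg.Agent.Lib.FF

attribute [local instance] Cfsg.Agent.Lib.BPair.subFintype

section Cyc

variable {X : Type*} [Group X] [Finite X] {p : ℕ} [hp : Fact p.Prime]

/-- In a cyclic `p`-group every nontrivial subgroup contains the subgroup of order `p`. -/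
theorem pow_mem_zpowers_of_ne {x y : X} {k : ℕ} (hx : orderOf x = p ^ (k + 1)) (hy : y ∈ Subgroup.zpowers x) (hy1 : y ≠ 1) :
    x ^ p ^ k ∈ Subgroup.zpowers y := by
  classical
  have hy' : y ^ p ^ (k + 1) = 1 := by
    obtain ⟨i, rfl⟩ := Subgroup.mem_zpowers_iff.1 hy
    rw [← zpow_natCast, ← zpow_mul, mul_comm, zpow_mul, zpow_natCast, ← hx, pow_orderOf_eq_one, one_zpow]
  obtain ⟨i, hi⟩ := exists_pow_orderOf_eq_prime (p := p) hy1 ⟨k + 1, hy'⟩
  obtain ⟨w, hw⟩ : ∃ w, w = y ^ p ^ i := ⟨_, rfl⟩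
  rw [← hw] at hi
  have hwx : w ∈ Subgroup.zpowers x := by
    rw [hw]
    exact Subgroup.pow_mem _ hy _
  have hzo : orderOf (x ^ p ^ k) = p := by
    have h1 := orderOf_pow_orderOf_div (x := x) (n := p) (by rw [hx]; exact (pow_pos hp.out.pos _).ne') (by rw [hx]; exact dvd_pow_self _ (by omega))
    have h2 : orderOf x / p = p ^ k := by
      rw [hx, pow_succ, Nat.mul_div_cancel _ hp.out.pos]
    rwa [h2] at h1
  have hzx : x ^ p ^ k ∈ Subgroup.zpowers x := Subgroup.pow_mem _ (Subgroup.mem_zpowers x) _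
  have h3 := mem_zpowers_of_orderOf_eq_prime (C := Subgroup.zpowers x) (a := ⟨w, hwx⟩) (b := ⟨x ^ p ^ k, hzx⟩) (p := p)
    (by rw [Subgroup.orderOf_mk]; exact hi) (by rw [Subgroup.orderOf_mk]; exact hzo)
  obtain ⟨j, hj⟩ := Subgroup.mem_zpowers_iff.1 h3
  have h4 : w ^ j = x ^ p ^ k := congrArg Subtype.val hj
  rw [← h4, hw]
  exact Subgroup.zpow_mem _ (Subgroup.pow_mem _ (Subgroup.mem_zpowers y) _) _

end Cyc

section G

variable {G : Type*} [Group G] [Fintype G] {p : ℕ} [hp : Fact p.Prime] {M : Ideal AlgInt}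

/-- The local data attached to a block with cyclic defect group. -/
structure CycG (p : ℕ) [Fact p.Prime] (M : Ideal AlgInt) (B : Set (IrrCharacter G)) (L : Subgroup G) (xh : L)
    (f : Set (IrrCharacter L)) (e' : Set (IrrCharacter (Subgroup.centralizer ({xh} : Set L))))
    (φ : Subgroup.centralizer ({xh} : Set L) → ℂ) (N n : ℕ) (ε : ℂ) (u : MonoidAlgebra ℂ L) (ξ₀ : IrrCharacter L)
    (D A B' : ℕ) (Tp : Subgroup G) (e : ℕ) : Prop where
  hM : IsPModular p M
  hB : IsPBlock M B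
  S : NilSec p M f xh e' φ N n
  U : NilU p M f xh φ N ε u ξ₀ D A B'
  hL : ∀ g : G, g ∈ L ↔ Commute g ((xh : G) ^ p ^ n)
  hind : IsInducedBlock M L f B
  hdefB : IsDefectGroup p M B (Subgroup.zpowers (xh : G))
  hdeff : IsDefectGroup p M f (Subgroup.zpowers xh)
  hconj : ∀ f' : Set (IrrCharacter L), IsInducedBlock M L f' B →
    ∃ (m : G) (hm : m ∈ Subgroup.normalizer (L : Set G)), f' = mapBlock (nConj hm) f
  hTp : ∀ g, g ∈ Tp ↔ g ∈ Subgroup.normalizer ((Subgroup.zpowers ((xh : G) ^ p ^ n) : Subgroup G) : Set G) ∧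
    StabilizesBlock L f g
  hidx : L.relIndex Tp = e
  hfix : ∀ h (hh : h ∈ Subgroup.normalizer (L : Set G)), h ∈ Tp → mapIrr (nConj hh) ξ₀ = ξ₀
  hfree : ∀ h (hh : h ∈ Subgroup.normalizer (L : Set G)), h ∈ Tp → ∀ ξ ∈ f, mapIrr (nConj hh) ξ = ξ → ξ = ξ₀ ∨ h ∈ L
  he : e ∣ p - 1
  ht : ∃ t : Tp, ∀ x : Tp, ∃ (j : ℕ) (l : L), (x : G) = (t : G) ^ j * l

variable {B : Set (IrrCharacter G)} {L : Subgroup G} {xh : L} {f : Set (IrrCharacter L)}
  {e' : Set (IrrCharacter (Subgroup.centralizer ({xh} : Set L)))} {φ : Subgroup.centralizer ({xh} : Set L) → ℂ}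
  {N n : ℕ} {ε : ℂ} {u : MonoidAlgebra ℂ L} {ξ₀ : IrrCharacter L} {D A B' : ℕ} {Tp : Subgroup G} {e : ℕ}

namespace CycG

variable (C : CycG p M B L xh f e' φ N n ε u ξ₀ D A B' Tp e)
include C

theorem isPrime : M.IsPrime := isPModular_isPrime C.hM

theorem orderOf_xh : orderOf xh = p ^ (n + 1) := C.S.hxp

theorem orderOf_xhG : orderOf (xh : G) = p ^ (n + 1) := by
  rw [Subgroup.orderOf_coe]
  exact C.orderOf_xh

theorem zc (c : L) : Commute c (xh ^ p ^ n) := by
  have h1 := (C.hL c).1 c.2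
  apply Subtype.ext
  push_cast
  exact h1

/-- The members of `f` vanish off the elements with `p`-part containing the subgroup of order `p`. -/
theorem z_mem {ξ : IrrCharacter L} (hξ : ξ ∈ f) {l v : L} (hv : IsPPart p l v) (hv1 : v ≠ 1) (hl : (ξ : L → ℂ) l ≠ 0) :
    xh ^ p ^ n ∈ Subgroup.zpowers v := by
  classical
  have := C.isPrime
  by_contra hcon
  apply hl
  apply eq_zero_of_pPart_notMem_defect C.hM ξ hv
  intro D' hD' hvD'
  rw [← blockOf_eq_of_mem C.S.hf hξ] at hD'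
  obtain ⟨c, rfl⟩ := exists_conj_of_defect C.hM C.S.hf C.hdeff hD'
  have hy := mem_cj.1 hvD'
  have hy1 : c⁻¹ * v * c ≠ 1 := by
    intro h
    apply hv1
    have : v = c * (c⁻¹ * v * c) * c⁻¹ := by group
    rw [this, h]
    group
  have h2 := pow_mem_zpowers_of_ne C.orderOf_xh hy hy1
  obtain ⟨j, hj⟩ := Subgroup.mem_zpowers_iff.1 h2
  apply hcon
  refine Subgroup.mem_zpowers_iff.2 ⟨j, ?_⟩
  have h3 : xh ^ p ^ n = c * xh ^ p ^ n * c⁻¹ := by
    rw [(C.zc c).eq]
    group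
  rw [h3, ← hj]
  have h4 : c⁻¹ * v * c = c⁻¹ * v * (c⁻¹)⁻¹ := by simp
  rw [h4, conj_zpow]
  group

theorem cen_le_L {v : G} (hv : (xh : G) ^ p ^ n ∈ Subgroup.zpowers v) : Subgroup.centralizer ({v} : Set G) ≤ L := by
  intro g hg
  rw [C.hL]
  have h1 : Commute g v := Subgroup.mem_centralizer_singleton_iff.1 hg
  obtain ⟨j, hj⟩ := Subgroup.mem_zpowers_iff.1 hv
  rw [← hj]
  exact h1.zpow_right j

omit C in
theorem isPPart_coe {l v : L} (h : IsPPart p l v) : IsPPart p (l : G) (v : G) := by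
  obtain ⟨y, h1, h2, ⟨k, hk⟩, h4⟩ := h
  refine ⟨y, ?_, ?_, ⟨k, ?_⟩, ?_⟩
  · rw [← h1]
    rfl
  · exact congrArg Subtype.val h2
  · rw [Subgroup.orderOf_coe]
    exact hk
  · rw [Subgroup.orderOf_coe]
    exact h4

theorem hC_of_mem {l v : L} (hv : IsPPart p l v) (hz : xh ^ p ^ n ∈ Subgroup.zpowers v) :
    ∀ z' : G, IsPPart p (l : G) z' → Subgroup.centralizer ({z'} : Set G) ≤ L := by
  intro z' hz'
  rw [IsPPart_eq hz' (isPPart_coe hv)]
  apply C.cen_le_L
  obtain ⟨j, hj⟩ := Subgroup.mem_zpowers_iff.1 hz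
  refine Subgroup.mem_zpowers_iff.2 ⟨j, ?_⟩
  have := congrArg Subtype.val hj
  simpa using this

open Classical in
/-- The sum of the members of `f` vanishes on `p`-singular elements. -/
theorem psi_sing {l : L} (hl : p ∣ orderOf l) : ∑ ξ : IrrCharacter L, (if ξ ∈ f then (ξ : L → ℂ) l else 0) = 0 := by
  classical
  have h1 := NilU.coeff_ef_sing C.S hl
  rw [coeff_blockElt, blockCoeff_eq_sum] at h1
  have hL0 : (Nat.card L : ℂ)⁻¹ ≠ 0 := inv_ne_zero (by exact_mod_cast Nat.card_pos.ne')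
  have h2 := (mul_eq_zero.1 h1).resolve_left hL0
  have h3 : ∀ ξ : IrrCharacter L, (if ξ ∈ f then (ξ : L → ℂ) 1 * conj ((ξ : L → ℂ) l) else 0) =
      (D : ℂ) * conj (if ξ ∈ f then (ξ : L → ℂ) l else 0) := by
    intro ξ
    by_cases hξ : ξ ∈ f
    · rw [if_pos hξ, if_pos hξ, C.U.hD1 hξ]
    · simp [hξ]
  simp only [h3] at h2
  rw [← Finset.mul_sum] at h2
  have h4 := (mul_eq_zero.1 h2).resolve_left C.U.hDne
  have h5 : conj (∑ ξ : IrrCharacter L, (if ξ ∈ f then (ξ : L → ℂ) l else 0)) = 0 := by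
    rw [map_sum]
    exact h4
  exact (map_eq_zero _).1 h5

omit C in
open Classical in
/-- The block part at a point. -/
theorem sec_eq {X : Type*} [Group X] [Fintype X] (ϑ : X → ℂ) (hϑ : IsClassFunction X ϑ) (b : Set (IrrCharacter X)) (h : X) :
    ∑ k : X, blockCoeff b k * ϑ (k * h) = ∑ ξ : IrrCharacter X, if ξ ∈ b then classInner ϑ (ξ : X → ℂ) * (ξ : X → ℂ) h else 0 := by
  classical
  have h1 := tr_blockElt_mul ϑ hϑ b (MonoidAlgebra.single h 1)
  rw [tr_mul_single] at h1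
  unfold tr at h1
  simp only [coeff_blockElt] at h1
  rw [h1]
  refine Finset.sum_congr rfl fun ξ _ => ?_
  by_cases hξ : ξ ∈ b
  · rw [if_pos hξ, if_pos hξ]
    congr 1
    have := tr_single (ξ : X → ℂ) h (1 : ℂ)
    unfold tr at this
    rw [this, one_mul]
  · rw [if_neg hξ, if_neg hξ]

open Classical in
/-- A combination of members of `f` vanishing on singular elements has constant coefficients. -/
theorem const_of_vanish (κ : IrrCharacter L → ℂ)
    (hvan : ∀ l : L, p ∣ orderOf l → ∑ ξ : IrrCharacter L, (if ξ ∈ f then κ ξ * (ξ : L → ℂ) l else 0) = 0)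
    {ξ : IrrCharacter L} (hξ : ξ ∈ f) : κ ξ = κ ξ₀ := by
  classical
  let γ : L → ℂ := fun l => ∑ ξ : IrrCharacter L, (if ξ ∈ f then κ ξ * (ξ : L → ℂ) l else 0)
  have hγ : ∀ η : IrrCharacter L, η ∈ f → classInner γ (η : L → ℂ) = κ η := by
    intro η hη
    have e1 : γ = ∑ ξ : IrrCharacter L, (if ξ ∈ f then κ ξ else 0) • (ξ : L → ℂ) := by
      funext l
      simp only [γ, Finset.sum_apply, Pi.smul_apply, smul_eq_mul]
      refine Finset.sum_congr rfl fun ξ _ => ?_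
      by_cases h : ξ ∈ f <;> simp [h]
    rw [e1, classInner_sum_left]
    simp only [classInner_smul_left]
    rw [Finset.sum_eq_single η]
    · rw [if_pos hη, classInner_irr_self η.2, mul_one]
    · intro ν _ hν
      rw [classInner_irr_of_ne ν.2 η.2 (fun h => hν (Subtype.ext h)), mul_zero]
    · intro h
      exact absurd (Finset.mem_univ _) h
  rw [← hγ ξ hξ, ← hγ ξ₀ C.U.h₀, classInner_def, classInner_def]
  congr 1
  refine Finset.sum_congr rfl fun l _ => ?_
  by_cases hl : p ∣ orderOf l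
  · have : γ l = 0 := hvan l hl
    rw [this, zero_mul, zero_mul]
  · rw [NilU.reg_eq C.S hξ C.U.h₀ hl]

open Classical in
theorem vanish_of_const (κ : IrrCharacter L → ℂ) {κ₀ : ℂ} (hκ : ∀ ξ ∈ f, κ ξ = κ₀) {l : L} (hl : p ∣ orderOf l) :
    ∑ ξ : IrrCharacter L, (if ξ ∈ f then κ ξ * (ξ : L → ℂ) l else 0) = 0 := by
  classical
  have h1 : ∀ ξ : IrrCharacter L, (if ξ ∈ f then κ ξ * (ξ : L → ℂ) l else 0) = κ₀ * (if ξ ∈ f then (ξ : L → ℂ) l else 0) := by
    intro ξ
    by_cases h : ξ ∈ f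
    · rw [if_pos h, if_pos h, hκ ξ h]
    · simp [h]
  simp only [h1]
  rw [← Finset.mul_sum, C.psi_sing hl, mul_zero]

end CycG

section Mu

variable (L)

/-- The multiplicity of an irreducible character of `L` in the restriction of an irreducible character of `G`. -/
noncomputable def mu (χ : IrrCharacter G) (ξ : IrrCharacter L) : ℕ :=
  Classical.choose (classInner_isCharacter_nat (IsCharacter.restrict L (IsIrrCharacter.isCharacter χ.2))
    (IsIrrCharacter.isCharacter ξ.2))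

theorem mu_spec (χ : IrrCharacter G) (ξ : IrrCharacter L) :
    classInner (fun l : L => (χ : G → ℂ) l) (ξ : L → ℂ) = (mu L χ ξ : ℂ) :=
  Classical.choose_spec (classInner_isCharacter_nat (IsCharacter.restrict L (IsIrrCharacter.isCharacter χ.2))
    (IsIrrCharacter.isCharacter ξ.2))

variable {L}

/-- The members of `f` other than `ξ₀`. -/
abbrev AT (f : Set (IrrCharacter L)) (ξ₀ : IrrCharacter L) := {ξ : IrrCharacter L // ξ ∈ f ∧ ξ ≠ ξ₀}

noncomputable instance : Fintype (AT f ξ₀) := Fintype.ofFinite _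

/-- The coefficient vector. -/
noncomputable def cc (ξ₀ : IrrCharacter L) (a : AT f ξ₀) (χ : IrrCharacter G) : ℤ :=
  (mu L χ a.1 : ℤ) - (mu L χ ξ₀ : ℤ)

/-- The class function on `L`. -/
noncomputable def al (ξ₀ : IrrCharacter L) (a : AT f ξ₀) : L → ℂ := (a.1 : L → ℂ) - (ξ₀ : L → ℂ)

/-- The induced class function on `G`. -/
noncomputable def WW (ξ₀ : IrrCharacter L) (a : AT f ξ₀) : G → ℂ := indFun L (al ξ₀ a)

theorem classInner_WW (a : AT f ξ₀) (χ : IrrCharacter G) : classInner (WW ξ₀ a) (χ : G → ℂ) = (cc ξ₀ a χ : ℂ) := by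
  unfold WW
  have e : ∀ ξ : IrrCharacter L, classInner (ξ : L → ℂ) (fun h : L => (χ : G → ℂ) h) = (mu L χ ξ : ℂ) := fun ξ => by
    rw [← conj_classInner, mu_spec]
    simp
  rw [frobenius_reciprocity L _ _ (IsCharacter.isClassFunction (IsIrrCharacter.isCharacter χ.2)), al, classInner_sub_left, e, e]
  simp [cc]

theorem classInner_res_WW (a : AT f ξ₀) (χ : IrrCharacter G) : classInner (χ : G → ℂ) (WW ξ₀ a) = (cc ξ₀ a χ : ℂ) := by
  rw [← conj_classInner, classInner_WW]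
  simp

theorem WW_eq (a : AT f ξ₀) (g : G) : WW ξ₀ a g = ∑ χ : IrrCharacter G, (cc ξ₀ a χ : ℂ) * (χ : G → ℂ) g := by
  have h1 := congrFun (classFunction_eq_sum (WW ξ₀ a) (indFun_isClassFunction L _)) g
  rw [h1, Finset.sum_apply]
  refine Finset.sum_congr rfl fun χ _ => ?_
  rw [Pi.smul_apply, smul_eq_mul, classInner_WW]

end Mu

namespace CycG

variable (C : CycG p M B L xh f e' φ N n ε u ξ₀ D A B' Tp e)
include C

theorem al_reg (a : AT f ξ₀) {l : L} (hl : ¬ p ∣ orderOf l) : al ξ₀ a l = 0 := by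
  unfold al
  rw [Pi.sub_apply, NilU.reg_eq C.S a.2.1 C.U.h₀ hl, sub_self]

theorem al_one (a : AT f ξ₀) : al ξ₀ a 1 = 0 := by
  unfold al
  rw [Pi.sub_apply, C.U.hD1 a.2.1, C.U.hD1 C.U.h₀, sub_self]

theorem WW_one (a : AT f ξ₀) : WW ξ₀ a 1 = 0 := by
  unfold WW
  rw [indFun_one, C.al_one, mul_zero]

theorem WW_reg (a : AT f ξ₀) {g : G} (hg : ¬ p ∣ orderOf g) : WW ξ₀ a g = 0 := by
  classical
  unfold WW
  rw [indFun_apply, Finset.sum_eq_zero, mul_zero]
  intro x _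
  by_cases hx : x⁻¹ * g * x ∈ L
  · rw [extendByZero_of_mem L _ hx]
    apply C.al_reg
    rw [Subgroup.orderOf_mk]
    have e1 : x⁻¹ * g * x = x⁻¹ * g * x⁻¹⁻¹ := by simp
    rw [e1, orderOf_conj]
    exact hg
  · exact extendByZero_of_not_mem L _ hx

theorem hdd (a : AT f ξ₀) : Cfsg.Agent.Lib.SmallSimple.Star.ip (cc ξ₀ a) (fun χ : IrrCharacter G => (charDegree (χ : G → ℂ) : ℤ)) = 0 := by
  classical
  have h1 := C.WW_one a
  rw [WW_eq] at h1
  have h2 : ((Cfsg.Agent.Lib.SmallSimple.Star.ip (cc ξ₀ a) (fun χ : IrrCharacter G => (charDegree (χ : G → ℂ) : ℤ)) : ℤ) : ℂ) = 0 := by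
    unfold Cfsg.Agent.Lib.SmallSimple.Star.ip
    push_cast
    rw [← h1]
    refine Finset.sum_congr rfl fun χ _ => ?_
    rw [map_one_eq_charDegree (IsIrrCharacter.isCharacter χ.2)]
  exact_mod_cast h2

/-- Vectors vanish off the block. -/
theorem hc0 (a : AT f ξ₀) {χ : IrrCharacter G} (hχ : χ ∉ B) : cc ξ₀ a χ = 0 := by
  classical
  have := C.isPrime
  have hcf : IsClassFunction L (fun l : L => (χ : G → ℂ) l) := IsCharacter.isClassFunction (IsCharacter.restrict L (IsIrrCharacter.isCharacter χ.2))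
  obtain ⟨κ, hκ⟩ : ∃ κ : IrrCharacter L → ℂ, κ = fun ξ : IrrCharacter L => classInner (fun l : L => (χ : G → ℂ) l) (ξ : L → ℂ) := ⟨_, rfl⟩
  have hvan : ∀ l : L, p ∣ orderOf l → ∑ ξ : IrrCharacter L, (if ξ ∈ f then
      κ ξ * (ξ : L → ℂ) l else 0) = 0 := by
    subst hκ
    intro l hl
    obtain ⟨v, y, hvy, hcomm, ⟨k, hk⟩, hy, -, -⟩ := exists_jordan (p := p) l
    have hv : IsPPart p l v := ⟨y, hvy, hcomm, ⟨k, hk⟩, hy⟩
    have hv1 : v ≠ 1 := by
      rintro rfl
      apply hy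
      rw [one_mul] at hvy
      rwa [hvy]
    by_cases hz : xh ^ p ^ n ∈ Subgroup.zpowers v
    · rw [← sec_eq _ hcf f l]
      exact second_main C.hM L f B C.hind l (C.hC_of_mem hv hz) χ hχ
    · refine Finset.sum_eq_zero fun ξ _ => ?_
      by_cases hξ : ξ ∈ f
      · rw [if_pos hξ]
        by_cases h0 : (ξ : L → ℂ) l = 0
        · rw [h0, mul_zero]
        · exact absurd (C.z_mem hξ hv hv1 h0) hz
      · rw [if_neg hξ]
  have h1 := C.const_of_vanish κ hvan a.2.1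
  subst hκ
  simp only [mu_spec] at h1
  have h2 : ((cc ξ₀ a χ : ℤ) : ℂ) = 0 := by
    unfold cc
    push_cast
    rw [h1, sub_self]
  exact_mod_cast h2

end CycG

end G

end Cfsg.Agent.Lib.FF
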