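import Cfsg.Agent.Lib.FF.CycG1

/-!
# Blocks with cyclic defect group: vanishing on singular elements
-/

set_option autoImplicit false
set_option linter.unusedSectionVars false
set_option linter.unusedVariables false
set_option maxSynthPendingDepth 3
set_option linter.style.haveILetI false
set_option linter.unusedSimpArgs false
set_option linter.unnecessarySimpa false

open scoped ComplexConjugate
open Module Cfsg Cfsg.Agent.Lib.Block Cfsg.Agent.Lib.Char Cfsg.Agent.Lib.CharExtra Cfsg.Agent.Lib.BPair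

namespace Cfsg.Agent.Lib.FF

attribute [local instance] Cfsg.Agent.Lib.BPair.subFintype

section Partition

variable {X : Type*} [Group X] [Fintype X] {M : Ideal AlgInt} [M.IsPrime]

open Classical in
/-- Sums over a block union reduce to sums over blocks. -/
theorem sum_union_blocks {A : Set (IrrCharacter X)} (hA : IsBlockUnion M A) (F : IrrCharacter X → ℂ)
    (h : ∀ ξ ∈ A, ∑ ξ' : IrrCharacter X, (if ξ' ∈ blockOf M (ξ : X → ℂ) then F ξ' else 0) = 0) :
    ∑ ξ : IrrCharacter X, (if ξ ∈ A then F ξ else 0) = 0 := by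
  rw [← Finset.sum_filter]
  obtain ⟨s, hs⟩ : ∃ s, s = Finset.univ.filter (· ∈ A) := ⟨_, rfl⟩
  rw [← hs]
  have hm : ∀ ξ, ξ ∈ s ↔ ξ ∈ A := fun ξ => by rw [hs]; simp
  rw [← Finset.sum_fiberwise_of_maps_to (s := s) (t := s.image fun ξ : IrrCharacter X => blockOf M (ξ : X → ℂ))
    (g := fun ξ : IrrCharacter X => blockOf M (ξ : X → ℂ)) (fun ξ hξ => Finset.mem_image_of_mem _ hξ)]
  refine Finset.sum_eq_zero fun b hb => ?_
  obtain ⟨ξ₁, hξ₁, rfl⟩ := Finset.mem_image.1 hb
  rw [← h ξ₁ ((hm _).1 hξ₁), ← Finset.sum_filter]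
  apply Finset.sum_congr _ fun _ _ => rfl
  ext ξ
  simp only [Finset.mem_filter, Finset.mem_univ, true_and]
  constructor
  · rintro ⟨-, h2⟩
    rw [← h2]
    exact mem_blockOf_self ξ
  · intro h2
    refine ⟨?_, (blockOf_eq_of_mem (isPBlock_blockOf ξ₁) h2).symm⟩
    by_contra hnot
    exact hA ξ₁ ((hm _).1 hξ₁) ξ (fun h3 => hnot ((hm _).2 h3)) h2

theorem isInduced_of_mem_indSet {G : Type*} [Group G] [Fintype G] {L : Subgroup G} {B : Set (IrrCharacter G)}
    (hB : IsPBlock M B) {ξ : IrrCharacter L} (hξ : ξ ∈ indSet M L B) :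
    IsInducedBlock M L (blockOf M (ξ : L → ℂ)) B := by
  obtain ⟨χ', hχ', hc⟩ := hξ
  refine ⟨isPBlock_blockOf ξ, hB, fun ξ' hξ' χ hχ g => ?_⟩
  have h1 := memLocalIdeal_induced_sub_of_sameBlock ξ'.2 ξ.2 (sameBlock_symm hξ') g
  have h2 := sameBlock_of_mem hB hχ' hχ g
  exact memLocalIdeal_sub_trans (memLocalIdeal_sub_trans h1 (hc g)) h2

theorem classInner_res_mapIrr {G : Type*} [Group G] [Fintype G] {L : Subgroup G} {ϑ : G → ℂ} (hϑ : IsClassFunction G ϑ)
    {m : G} (hm : m ∈ Subgroup.normalizer (L : Set G)) (η : IrrCharacter L) :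
    classInner (fun l : L => ϑ l) (mapIrr (nConj hm) η : L → ℂ) = classInner (fun l : L => ϑ l) (η : L → ℂ) := by
  rw [classInner_def, classInner_def]
  congr 1
  rw [← Equiv.sum_comp (nConj hm).toEquiv]
  refine Finset.sum_congr rfl fun l _ => ?_
  have e1 : (((nConj hm).toEquiv l : L) : G) = m * l * m⁻¹ := rfl
  rw [e1, hϑ]
  congr 2
  rw [mapIrr_apply']
  simp

end Partition

section G

variable {G : Type*} [Group G] [Fintype G] {p : ℕ} [hp : Fact p.Prime] {M : Ideal AlgInt}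
  {B : Set (IrrCharacter G)} {L : Subgroup G} {xh : L} {f : Set (IrrCharacter L)}
  {e' : Set (IrrCharacter (Subgroup.centralizer ({xh} : Set L)))} {φ : Subgroup.centralizer ({xh} : Set L) → ℂ}
  {N n : ℕ} {ε : ℂ} {u : MonoidAlgebra ℂ L} {ξ₀ : IrrCharacter L} {D A B' : ℕ} {Tp : Subgroup G} {e : ℕ}

namespace CycG

variable (C : CycG p M B L xh f e' φ N n ε u ξ₀ D A B' Tp e)
include C

theorem zG_eq : (xh : G) ^ p ^ n = ((xh ^ p ^ n : L) : G) := by simp

theorem orderOf_z : orderOf (xh ^ p ^ n) = p := by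
  have h1 := orderOf_pow_orderOf_div (x := xh) (n := p) (by rw [C.orderOf_xh]; exact (pow_pos hp.out.pos _).ne')
    (by rw [C.orderOf_xh]; exact dvd_pow_self _ (by omega))
  have h2 : orderOf xh / p = p ^ n := by
    rw [C.orderOf_xh, pow_succ, Nat.mul_div_cancel _ hp.out.pos]
  rwa [h2] at h1

theorem orderOf_zG : orderOf ((xh : G) ^ p ^ n) = p := by
  rw [C.zG_eq, Subgroup.orderOf_coe]
  exact C.orderOf_z

theorem isPGroup_Z : IsPGroup p (Subgroup.zpowers ((xh : G) ^ p ^ n)) := by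
  apply IsPGroup.of_card (n := 1)
  rw [Nat.card_zpowers, C.orderOf_zG, pow_one]

theorem z_le_L : Subgroup.zpowers ((xh : G) ^ p ^ n) ≤ L := by
  rw [Subgroup.zpowers_le, C.hL]

theorem cen_Z_le : Subgroup.centralizer ((Subgroup.zpowers ((xh : G) ^ p ^ n) : Subgroup G) : Set G) ≤ L := by
  intro g hg
  rw [C.hL]
  exact (Subgroup.mem_centralizer_iff.1 hg _ (Subgroup.mem_zpowers _)).symm

theorem L_le_N : L ≤ Subgroup.normalizer ((Subgroup.zpowers ((xh : G) ^ p ^ n) : Subgroup G) : Set G) := by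
  intro g hg
  have h1 : Commute g ((xh : G) ^ p ^ n) := (C.hL g).1 hg
  rw [Subgroup.mem_normalizer_iff]
  intro v
  have h2 : ∀ v ∈ Subgroup.zpowers ((xh : G) ^ p ^ n), g * v * g⁻¹ = v := by
    intro v hv
    obtain ⟨j, rfl⟩ := Subgroup.mem_zpowers_iff.1 hv
    rw [(h1.zpow_right j).eq]
    group
  constructor
  · intro hv
    rw [h2 v hv]
    exact hv
  · intro hv
    have h3 := h2 _ hv
    have h4 : g * v * g⁻¹ = v := by
      have h5 : g⁻¹ * (g * (g * v * g⁻¹) * g⁻¹) * g = g⁻¹ * (g * v * g⁻¹) * g := by rw [h3]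
      have h6 : g⁻¹ * (g * (g * v * g⁻¹) * g⁻¹) * g = g * v * g⁻¹ := by group
      have h7 : g⁻¹ * (g * v * g⁻¹) * g = v := by group
      rw [h6, h7] at h5
      exact h5
    rw [← h4]
    exact hv

open Classical in
/-- The decomposition at an element with the centralizer of its `p`-part in `L`. -/
theorem sec_block {l : L} (hC : ∀ z' : G, IsPPart p (l : G) z' → Subgroup.centralizer ({z'} : Set G) ≤ L)
    {χ : IrrCharacter G} (hχ : χ ∈ B) :
    (χ : G → ℂ) l = ∑ ξ : IrrCharacter L, (if ξ ∈ indSet M L B then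
      classInner (fun l : L => (χ : G → ℂ) l) (ξ : L → ℂ) * (ξ : L → ℂ) l else 0) := by
  have := C.isPrime
  have hA' : IsBlockUnion M (indSet M L B) := isBlockUnion_indSet L B
  have hcf : IsClassFunction L (fun l : L => (χ : G → ℂ) l) :=
    IsCharacter.isClassFunction (IsCharacter.restrict L (IsIrrCharacter.isCharacter χ.2))
  have h1 := second_main_union C.hM L (isBlockUnion_compl hA') (isBlockUnion_compl (isBlockUnion_of_isPBlock C.hB))
    (indInto_indSet_compl C.hM C.isPGroup_Z C.z_le_L C.cen_Z_le C.L_le_N B) l hC χ (by simpa using hχ)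
  have h2 := sec_eq (fun l : L => (χ : G → ℂ) l) hcf (indSet M L B)ᶜ l
  simp only [Subgroup.coe_mul] at h2
  rw [h1] at h2
  have h3 := congrFun (classFunction_eq_sum (fun l : L => (χ : G → ℂ) l) hcf) l
  rw [Finset.sum_apply] at h3
  simp only [Pi.smul_apply, smul_eq_mul] at h3
  rw [h3]
  have h2' : ∑ ξ : IrrCharacter L, (if ξ ∈ indSet M L B then 0 else
      classInner (fun l : L => (χ : G → ℂ) l) (ξ : L → ℂ) * (ξ : L → ℂ) l) = 0 := by
    refine Eq.trans (Finset.sum_congr rfl fun ξ _ => ?_) h2.symm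
    by_cases h : ξ ∈ indSet M L B
    · rw [if_pos h, if_neg (show ¬ ξ ∈ (indSet M L B)ᶜ from fun h' => h' h)]
    · rw [if_neg h, if_pos (show ξ ∈ (indSet M L B)ᶜ from h)]
  have h4 : ∀ ξ : IrrCharacter L, classInner (fun l : L => (χ : G → ℂ) l) (ξ : L → ℂ) * (ξ : L → ℂ) l =
      (if ξ ∈ indSet M L B then classInner (fun l : L => (χ : G → ℂ) l) (ξ : L → ℂ) * (ξ : L → ℂ) l else 0) +
      (if ξ ∈ indSet M L B then 0 else classInner (fun l : L => (χ : G → ℂ) l) (ξ : L → ℂ) * (ξ : L → ℂ) l) := by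
    intro ξ
    by_cases h : ξ ∈ indSet M L B
    · rw [if_pos h, if_pos h, add_zero]
    · rw [if_neg h, if_neg h, zero_add]
  rw [Finset.sum_congr rfl fun ξ _ => h4 ξ, Finset.sum_add_distrib, h2', add_zero]

open Classical in
/-- **Lemma S**: a combination of members of `B` orthogonal to the induced class functions vanishes on singular elements. -/
theorem sing_vanish (a₁ : IrrCharacter G → ℂ) (ha : ∀ χ, χ ∉ B → a₁ χ = 0)
    (hW : ∀ a : AT f ξ₀, ∑ χ : IrrCharacter G, a₁ χ * (cc ξ₀ a χ : ℂ) = 0) {g : G} (hg : p ∣ orderOf g) :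
    ∑ χ : IrrCharacter G, a₁ χ * (χ : G → ℂ) g = 0 := by
  have := C.isPrime
  obtain ⟨x₁, y₁, hxy, hcomm, ⟨k, hk⟩, hy, -, -⟩ := exists_jordan (p := p) g
  have hx : IsPPart p g x₁ := ⟨y₁, hxy, hcomm, ⟨k, hk⟩, hy⟩
  have hx1 : x₁ ≠ 1 := by
    rintro rfl
    apply hy
    rw [one_mul] at hxy
    rwa [hxy]
  by_cases hmem : ∃ D', IsDefectGroup p M B D' ∧ x₁ ∈ D'
  · obtain ⟨D', hD', hx₁⟩ := hmem
    obtain ⟨c, rfl⟩ := exists_conj_of_defect C.hM C.hB C.hdefB hD'
    have hvm := mem_cj.1 hx₁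
    have hv1 : c⁻¹ * x₁ * c ≠ 1 := by
      intro h
      apply hx1
      have : x₁ = c * (c⁻¹ * x₁ * c) * c⁻¹ := by group
      rw [this, h]
      group
    have hzv := pow_mem_zpowers_of_ne C.orderOf_xhG hvm hv1
    have hg' : ∀ χ : IrrCharacter G, (χ : G → ℂ) g = (χ : G → ℂ) (c⁻¹ * g * c) := by
      intro χ
      have := IsCharacter.conj_apply (IsIrrCharacter.isCharacter χ.2) g c⁻¹
      simpa using this.symm
    simp only [hg']
    have hxp : IsPPart p (c⁻¹ * g * c) (c⁻¹ * x₁ * c) := by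
      have h0 := isPPart_conj (c := c⁻¹) hx
      simpa using h0
    have hgL : c⁻¹ * g * c ∈ L := by
      apply C.cen_le_L hzv
      obtain ⟨y', h1, h2, -, -⟩ := hxp
      rw [Subgroup.mem_centralizer_singleton_iff, ← h1]
      have h3 : Commute (c⁻¹ * x₁ * c) y' := h2
      have h4 : (c⁻¹ * x₁ * c) * y' * (c⁻¹ * x₁ * c) = (c⁻¹ * x₁ * c) * ((c⁻¹ * x₁ * c) * y') := by
        rw [mul_assoc, h3.symm.eq, mul_assoc]
      exact h4
    obtain ⟨l, hl⟩ : ∃ l : L, (l : G) = c⁻¹ * g * c := ⟨⟨_, hgL⟩, rfl⟩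
    rw [← hl] at hxp ⊢
    have hlo : p ∣ orderOf l := by
      have e1 : orderOf l = orderOf (l : G) := (Subgroup.orderOf_coe l).symm
      rw [e1, hl]
      have e2 : c⁻¹ * g * c = c⁻¹ * g * c⁻¹⁻¹ := by simp
      rw [e2, orderOf_conj]
      exact hg
    obtain ⟨v, y, hvy, hcomm', ⟨k', hk'⟩, hy', -, -⟩ := exists_jordan (p := p) l
    have hv : IsPPart p l v := ⟨y, hvy, hcomm', ⟨k', hk'⟩, hy'⟩
    have hvG : (v : G) = c⁻¹ * x₁ * c := IsPPart_eq (isPPart_coe hv) hxp
    have hz : xh ^ p ^ n ∈ Subgroup.zpowers v := by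
      rw [← hvG] at hzv
      obtain ⟨j, hj⟩ := Subgroup.mem_zpowers_iff.1 hzv
      refine Subgroup.mem_zpowers_iff.2 ⟨j, Subtype.ext ?_⟩
      simpa using hj
    have hC := C.hC_of_mem hv hz
    -- the expansion
    obtain ⟨K, hK⟩ : ∃ K : IrrCharacter L → ℂ, K = fun ξ : IrrCharacter L => ∑ χ : IrrCharacter G, a₁ χ *
        classInner (fun l : L => (χ : G → ℂ) l) (ξ : L → ℂ) := ⟨_, rfl⟩
    have e1 : ∀ χ : IrrCharacter G, a₁ χ * (χ : G → ℂ) l = a₁ χ * ∑ ξ : IrrCharacter L, (if ξ ∈ indSet M L B then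
        classInner (fun l : L => (χ : G → ℂ) l) (ξ : L → ℂ) * (ξ : L → ℂ) l else 0) := by
      intro χ
      by_cases hχ : χ ∈ B
      · rw [← C.sec_block hC hχ]
      · rw [ha χ hχ, zero_mul, zero_mul]
    rw [Finset.sum_congr rfl fun χ _ => e1 χ]
    simp only [Finset.mul_sum]
    rw [Finset.sum_comm]
    have e2 : ∀ ξ : IrrCharacter L, ∑ χ : IrrCharacter G, a₁ χ * (if ξ ∈ indSet M L B then
        classInner (fun l : L => (χ : G → ℂ) l) (ξ : L → ℂ) * (ξ : L → ℂ) l else 0) =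
        if ξ ∈ indSet M L B then K ξ * (ξ : L → ℂ) l else 0 := by
      intro ξ
      by_cases h : ξ ∈ indSet M L B
      · rw [if_pos h, hK, Finset.sum_mul]
        refine Finset.sum_congr rfl fun χ _ => ?_
        rw [if_pos h, mul_assoc]
      · rw [if_neg h]
        refine Finset.sum_eq_zero fun χ _ => ?_
        rw [if_neg h, mul_zero]
    rw [Finset.sum_congr rfl fun ξ _ => e2 ξ]
    -- constants on `f`
    have hK0 : ∀ η ∈ f, K η = K ξ₀ := by
      intro η hη
      by_cases h0 : η = ξ₀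
      · rw [h0]
      · have h1 := hW ⟨η, hη, h0⟩
        have h2 : K η - K ξ₀ = 0 := by
          rw [hK, ← h1, ← Finset.sum_sub_distrib]
          refine Finset.sum_congr rfl fun χ _ => ?_
          rw [mu_spec, mu_spec, cc]
          push_cast
          ring
        exact sub_eq_zero.1 h2
    have hKinv : ∀ (m : G) (hm : m ∈ Subgroup.normalizer (L : Set G)) (η : IrrCharacter L),
        K (mapIrr (nConj hm) η) = K η := by
      intro m hm η
      rw [hK]
      refine Finset.sum_congr rfl fun χ _ => ?_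
      rw [classInner_res_mapIrr (IsCharacter.isClassFunction (IsIrrCharacter.isCharacter χ.2))]
    apply sum_union_blocks (M := M) (isBlockUnion_indSet L B)
    intro ξ hξ
    obtain ⟨m, hm, hb⟩ := C.hconj _ (isInduced_of_mem_indSet C.hB hξ)
    rw [hb, ← Equiv.sum_comp (⟨mapIrr (nConj hm), mapIrr (nConj hm).symm, mapIrr_symm_mapIrr _, mapIrr_mapIrr_symm _⟩ :
      IrrCharacter L ≃ IrrCharacter L)]
    have e3 : ∀ η : IrrCharacter L, (if (⟨mapIrr (nConj hm), mapIrr (nConj hm).symm, mapIrr_symm_mapIrr _, mapIrr_mapIrr_symm _⟩ :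
        IrrCharacter L ≃ IrrCharacter L) η ∈ mapBlock (nConj hm) f then
        K ((⟨mapIrr (nConj hm), mapIrr (nConj hm).symm, mapIrr_symm_mapIrr _, mapIrr_mapIrr_symm _⟩ :
        IrrCharacter L ≃ IrrCharacter L) η) * (((⟨mapIrr (nConj hm), mapIrr (nConj hm).symm, mapIrr_symm_mapIrr _, mapIrr_mapIrr_symm _⟩ :
        IrrCharacter L ≃ IrrCharacter L) η : IrrCharacter L) : L → ℂ) l else 0) =
        if η ∈ f then K η * (η : L → ℂ) ((nConj hm).symm l) else 0 := by
      intro η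
      show (if mapIrr (nConj hm) η ∈ mapBlock (nConj hm) f then
        K (mapIrr (nConj hm) η) * (mapIrr (nConj hm) η : L → ℂ) l else 0) = _
      by_cases hη : η ∈ f
      · rw [if_pos (mapIrr_mem_mapBlock.2 hη), if_pos hη, hKinv, mapIrr_apply']
      · rw [if_neg (fun h => hη (mapIrr_mem_mapBlock.1 h)), if_neg hη]
    rw [Finset.sum_congr rfl fun η _ => e3 η]
    apply C.vanish_of_const K hK0
    have e4 : orderOf ((nConj hm).symm l) = orderOf l := MulEquiv.orderOf_eq _ _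
    rw [e4]
    exact hlo
  · push Not at hmem
    refine Finset.sum_eq_zero fun χ _ => ?_
    by_cases hχ : χ ∈ B
    · rw [eq_zero_of_pPart_notMem_defect C.hM χ hx ?_, mul_zero]
      intro D' hD'
      rw [← blockOf_eq_of_mem C.hB hχ] at hD'
      exact hmem D' hD'
    · rw [ha χ hχ, zero_mul]

end CycG

end G

end Cfsg.Agent.Lib.FF
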