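import Cfsg.Agent.Lib.FF.CycG2

/-!
# Blocks with cyclic defect group: the action and the Gram matrix
-/

set_option autoImplicit false
set_option linter.unusedSectionVars false
set_option linter.unusedVariables false
set_option maxSynthPendingDepth 3
set_option linter.style.haveILetI false
set_option linter.unusedSimpArgs false
set_option linter.unnecessarySimpa false

open scoped ComplexConjugate
open Module Cfsg Cfsg.Agent.Lib.Block Cfsg.Agent.Lib.Char Cfsg.Agent.Lib.CharExtra Cfsg.Agent.Lib.BPair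
open Cfsg.Agent.Lib.SmallSimple.Star

namespace Cfsg.Agent.Lib.FF

attribute [local instance] Cfsg.Agent.Lib.BPair.subFintype

section Act

variable {G : Type*} [Group G] [Fintype G] {L : Subgroup G}

open Classical in
/-- The action of the normalizer on the characters of `L`. -/
noncomputable def actI (L : Subgroup G) (g : G) (ξ : IrrCharacter L) : IrrCharacter L :=
  if h : g ∈ Subgroup.normalizer (L : Set G) then mapIrr (nConj h) ξ else ξ

theorem actI_of_mem {g : G} (h : g ∈ Subgroup.normalizer (L : Set G)) (ξ : IrrCharacter L) :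
    actI L g ξ = mapIrr (nConj h) ξ := dif_pos h

theorem actI_apply {g : G} (h : g ∈ Subgroup.normalizer (L : Set G)) (ξ : IrrCharacter L) (l : L) :
    (actI L g ξ : L → ℂ) l = (ξ : L → ℂ) ((nConj h).symm l) := by
  rw [actI_of_mem h, mapIrr_apply']

theorem actI_one (ξ : IrrCharacter L) : actI L 1 ξ = ξ := by
  apply Subtype.ext
  funext l
  rw [actI_apply (Subgroup.one_mem _)]
  refine congrArg _ (Subtype.ext ?_)
  simp

theorem actI_mul {g h : G} (hg : g ∈ Subgroup.normalizer (L : Set G)) (hh : h ∈ Subgroup.normalizer (L : Set G))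
    (ξ : IrrCharacter L) : actI L (g * h) ξ = actI L g (actI L h ξ) := by
  apply Subtype.ext
  funext l
  rw [actI_apply (Subgroup.mul_mem _ hg hh), actI_apply hg, actI_apply hh]
  refine congrArg _ (Subtype.ext ?_)
  simp only [nConj_symm_coe, mul_inv_rev]
  group

theorem actI_of_mem_L {g : G} (hg : g ∈ L) (ξ : IrrCharacter L) : actI L g ξ = ξ := by
  apply Subtype.ext
  funext l
  rw [actI_apply (Subgroup.le_normalizer hg)]
  have h1 := IsCharacter.conj_apply (IsIrrCharacter.isCharacter ξ.2) l (⟨g, hg⟩ : L)⁻¹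
  rw [← h1]
  refine congrArg _ (Subtype.ext ?_)
  simp

theorem mem_norm_zpowers_of_conj {z x : G} (h : x * z * x⁻¹ ∈ Subgroup.zpowers z) :
    x ∈ Subgroup.normalizer ((Subgroup.zpowers z : Subgroup G) : Set G) := by
  have h1 : Subgroup.zpowers (x * z * x⁻¹) ≤ Subgroup.zpowers z := Subgroup.zpowers_le.2 h
  have h2 : Nat.card (Subgroup.zpowers z) ≤ Nat.card (Subgroup.zpowers (x * z * x⁻¹)) := by
    rw [Nat.card_zpowers, Nat.card_zpowers, orderOf_conj]
  have h3 : Subgroup.zpowers (x * z * x⁻¹) = Subgroup.zpowers z := Subgroup.eq_of_le_of_card_ge h1 h2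
  rw [Subgroup.mem_normalizer_iff]
  intro v
  constructor
  · intro hv
    obtain ⟨i, rfl⟩ := Subgroup.mem_zpowers_iff.1 hv
    rw [← conj_zpow]
    exact Subgroup.zpow_mem _ h _
  · intro hv
    rw [← h3] at hv
    obtain ⟨i, hi⟩ := Subgroup.mem_zpowers_iff.1 hv
    rw [conj_zpow] at hi
    have h4 : z ^ i = v := by
      have := mul_left_cancel (mul_right_cancel hi)
      exact this
    rw [← h4]
    exact Subgroup.zpow_mem _ (Subgroup.mem_zpowers z) _

end Act

section G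

variable {G : Type*} [Group G] [Fintype G] {p : ℕ} [hp : Fact p.Prime] {M : Ideal AlgInt}
  {B : Set (IrrCharacter G)} {L : Subgroup G} {xh : L} {f : Set (IrrCharacter L)}
  {e' : Set (IrrCharacter (Subgroup.centralizer ({xh} : Set L)))} {φ : Subgroup.centralizer ({xh} : Set L) → ℂ}
  {N n : ℕ} {ε : ℂ} {u : MonoidAlgebra ℂ L} {ξ₀ : IrrCharacter L} {D A B' : ℕ} {Tp : Subgroup G} {e : ℕ}

namespace CycG

variable (C : CycG p M B L xh f e' φ N n ε u ξ₀ D A B' Tp e)
include C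

theorem Z_N_le_L_N {x : G} (hx : x ∈ Subgroup.normalizer ((Subgroup.zpowers ((xh : G) ^ p ^ n) : Subgroup G) : Set G)) :
    x ∈ Subgroup.normalizer (L : Set G) := by
  have key : ∀ y ∈ Subgroup.normalizer ((Subgroup.zpowers ((xh : G) ^ p ^ n) : Subgroup G) : Set G), ∀ g ∈ L, y * g * y⁻¹ ∈ L := by
    intro y hy g hg
    rw [C.hL]
    have h1 : y⁻¹ * (xh : G) ^ p ^ n * y ∈ Subgroup.zpowers ((xh : G) ^ p ^ n) := by
      have h2 := (Subgroup.mem_normalizer_iff.1 (Subgroup.inv_mem _ hy) _).1 (Subgroup.mem_zpowers ((xh : G) ^ p ^ n))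
      simpa using h2
    obtain ⟨j, hj⟩ := Subgroup.mem_zpowers_iff.1 h1
    have h3 : Commute g (y⁻¹ * (xh : G) ^ p ^ n * y) := by
      rw [← hj]
      exact ((C.hL g).1 hg).zpow_right j
    have h4 : g * (y⁻¹ * (xh : G) ^ p ^ n * y) = (y⁻¹ * (xh : G) ^ p ^ n * y) * g := h3
    show y * g * y⁻¹ * ((xh : G) ^ p ^ n) = ((xh : G) ^ p ^ n) * (y * g * y⁻¹)
    calc y * g * y⁻¹ * ((xh : G) ^ p ^ n) = y * (g * (y⁻¹ * (xh : G) ^ p ^ n * y)) * y⁻¹ := by group
      _ = y * ((y⁻¹ * (xh : G) ^ p ^ n * y) * g) * y⁻¹ := by rw [h4]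
      _ = _ := by group
  rw [Subgroup.mem_normalizer_iff]
  intro g
  constructor
  · exact key x hx g
  · intro hg
    have := key x⁻¹ (Subgroup.inv_mem _ hx) _ hg
    simpa [mul_assoc] using this

theorem hLTp : L ≤ Tp := by
  intro g hg
  rw [C.hTp]
  refine ⟨C.L_le_N hg, ?_⟩
  have := C.isPrime
  refine (stabilizes_iff C.S.hf).2 ⟨Subgroup.le_normalizer hg, ?_⟩
  ext ξ
  rw [mem_mapBlock]
  have e1 : mapIrr (nConj (Subgroup.le_normalizer hg)).symm ξ = ξ := by
    apply Subtype.ext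
    funext l
    rw [mapIrr_apply', MulEquiv.symm_symm]
    exact IsCharacter.conj_apply (IsIrrCharacter.isCharacter ξ.2) l (⟨g, hg⟩ : L)
  rw [e1]

theorem hTpN {x : G} (hx : x ∈ Tp) : x ∈ Subgroup.normalizer (L : Set G) :=
  C.Z_N_le_L_N ((C.hTp x).1 hx).1

theorem actI_mem {x : G} (hx : x ∈ Tp) {ξ : IrrCharacter L} (hξ : ξ ∈ f) : actI L x ξ ∈ f := by
  have := C.isPrime
  obtain ⟨hx', h1⟩ := (stabilizes_iff C.S.hf).1 ((C.hTp x).1 hx).2
  rw [actI_of_mem hx', ← h1]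
  exact mapIrr_mem_mapBlock.2 hξ

theorem actI_fix {x : G} (hx : x ∈ Tp) : actI L x ξ₀ = ξ₀ := by
  rw [actI_of_mem (C.hTpN hx)]
  exact C.hfix x _ hx

theorem actI_inv {x : G} (hx : x ∈ Subgroup.normalizer (L : Set G)) (ξ : IrrCharacter L) :
    actI L x⁻¹ (actI L x ξ) = ξ := by
  rw [← actI_mul (Subgroup.inv_mem _ hx) hx, inv_mul_cancel, actI_one]

theorem actI_ne {x : G} (hx : x ∈ Tp) {ξ : IrrCharacter L} (hξ : ξ ≠ ξ₀) : actI L x ξ ≠ ξ₀ := by
  intro h
  apply hξ
  rw [← C.actI_inv (C.hTpN hx) ξ, h]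
  exact C.actI_fix (Subgroup.inv_mem _ hx)

/-- The action on `A`. -/
theorem actI_free {x : G} (hx : x ∈ Tp) {ξ : IrrCharacter L} (hξ : ξ ∈ f) (hξ0 : ξ ≠ ξ₀) (h : actI L x ξ = ξ) : x ∈ L := by
  rw [actI_of_mem (C.hTpN hx)] at h
  exact (C.hfree x _ hx ξ hξ h).resolve_left hξ0

theorem actI_notMem {x : G} (hx : x ∈ Subgroup.normalizer (L : Set G))
    (hx' : x ∈ Subgroup.normalizer ((Subgroup.zpowers ((xh : G) ^ p ^ n) : Subgroup G) : Set G)) (hT : x ∉ Tp)
    {ξ : IrrCharacter L} (hξ : ξ ∈ f) : actI L x ξ ∉ f := by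
  have := C.isPrime
  intro h
  apply hT
  rw [C.hTp]
  refine ⟨hx', (stabilizes_iff C.S.hf).2 ⟨hx, ?_⟩⟩
  rw [actI_of_mem hx] at h
  have h1 := blockOf_eq_of_mem C.S.hf h
  have h2 := blockOf_eq_of_mem (isPBlock_mapBlock (nConj hx) C.S.hf) (mapIrr_mem_mapBlock.2 hξ)
  rw [h2, h1]

theorem card_Tp : Nat.card Tp = e * Nat.card L := by
  rw [← C.hidx, ← Subgroup.relIndex_bot_left, ← Subgroup.relIndex_bot_left, mul_comm,
    Subgroup.relIndex_mul_relIndex _ _ _ bot_le C.hLTp]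

end CycG

/-- The relation on the members of `f`. -/
def rT (Tp : Subgroup G) (L : Subgroup G) (f : Set (IrrCharacter L)) (ξ₀ : IrrCharacter L) (a b : AT f ξ₀) : Prop :=
  ∃ g ∈ Tp, actI L g a.1 = b.1

namespace CycG

variable (C : CycG p M B L xh f e' φ N n ε u ξ₀ D A B' Tp e)
include C

theorem rT_refl (a : AT f ξ₀) : rT Tp L f ξ₀ a a := ⟨1, Subgroup.one_mem _, actI_one _⟩

theorem rT_symm {a b : AT f ξ₀} (h : rT Tp L f ξ₀ a b) : rT Tp L f ξ₀ b a := by
  obtain ⟨g, hg, h1⟩ := h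
  refine ⟨g⁻¹, Subgroup.inv_mem _ hg, ?_⟩
  rw [← h1]
  exact C.actI_inv (C.hTpN hg) _

theorem rT_trans {a b d : AT f ξ₀} (h : rT Tp L f ξ₀ a b) (h' : rT Tp L f ξ₀ b d) : rT Tp L f ξ₀ a d := by
  obtain ⟨g, hg, h1⟩ := h
  obtain ⟨g', hg', h2⟩ := h'
  refine ⟨g' * g, Subgroup.mul_mem _ hg' hg, ?_⟩
  rw [actI_mul (C.hTpN hg') (C.hTpN hg), h1, h2]

open Classical in
/-- The size of the fibres of the action. -/
theorem card_fib (a b : AT f ξ₀) : (Finset.univ.filter fun g : G => g ∈ Tp ∧ actI L g a.1 = b.1).card =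
    if rT Tp L f ξ₀ a b then Nat.card L else 0 := by
  by_cases h : rT Tp L f ξ₀ a b
  · rw [if_pos h]
    obtain ⟨g₀, hg₀, h1⟩ := h
    rw [Nat.card_eq_fintype_card, ← Finset.card_univ]
    symm
    apply Finset.card_bij (fun (l : L) _ => g₀ * (l : G))
    · intro l _
      rw [Finset.mem_filter]
      refine ⟨Finset.mem_univ _, Subgroup.mul_mem _ hg₀ (C.hLTp l.2), ?_⟩
      rw [actI_mul (C.hTpN hg₀) (C.hTpN (C.hLTp l.2)), actI_of_mem_L l.2, h1]
    · intro l _ l' _ h2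
      exact Subtype.ext (mul_left_cancel h2)
    · intro g hg
      obtain ⟨-, hgT, h2⟩ := Finset.mem_filter.1 hg
      have hm : g₀⁻¹ * g ∈ Tp := Subgroup.mul_mem _ (Subgroup.inv_mem _ hg₀) hgT
      have h3 : actI L (g₀⁻¹ * g) a.1 = a.1 := by
        rw [actI_mul (Subgroup.inv_mem _ (C.hTpN hg₀)) (C.hTpN hgT), h2, ← h1]
        exact C.actI_inv (C.hTpN hg₀) _
      have h4 := C.actI_free hm a.2.1 a.2.2 h3
      exact ⟨⟨_, h4⟩, Finset.mem_univ _, by simp⟩
  · rw [if_neg h, Finset.card_eq_zero, Finset.filter_eq_empty_iff]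
    rintro g - ⟨h1, h2⟩
    exact h ⟨g, h1, h2⟩

/-- The number of elements of a class of the relation. -/
theorem card_cls [DecidableRel (rT Tp L f ξ₀)] (a : AT f ξ₀) : (Finset.univ.filter fun b => rT Tp L f ξ₀ a b).card = e := by
  classical
  have h1 : ∑ b : AT f ξ₀, (Finset.univ.filter fun g : G => g ∈ Tp ∧ actI L g a.1 = b.1).card =
      (Finset.univ.filter fun g : G => g ∈ Tp).card := by
    rw [← Finset.card_biUnion]
    · congr 1
      ext g
      simp only [Finset.mem_biUnion, Finset.mem_univ, Finset.mem_filter, true_and]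
      constructor
      · rintro ⟨b, h, -⟩
        exact h
      · intro h
        exact ⟨⟨actI L g a.1, C.actI_mem h a.2.1, C.actI_ne h a.2.2⟩, h, rfl⟩
    · intro b _ b' _ hne
      rw [Function.onFun, Finset.disjoint_left]
      intro g hg hg'
      obtain ⟨-, -, h2⟩ := Finset.mem_filter.1 hg
      obtain ⟨-, -, h3⟩ := Finset.mem_filter.1 hg'
      exact hne (Subtype.ext (h2.symm.trans h3))
  have h2 : (Finset.univ.filter fun g : G => g ∈ Tp).card = Nat.card Tp := by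
    rw [Nat.card_eq_fintype_card, Fintype.card_subtype]
  simp only [C.card_fib] at h1
  rw [h2, C.card_Tp] at h1
  have h3 : (Finset.univ.filter fun b => rT Tp L f ξ₀ a b).card * Nat.card L = e * Nat.card L := by
    rw [Finset.card_filter, Finset.sum_mul, ← h1]
    refine Finset.sum_congr rfl fun b _ => ?_
    by_cases h : rT Tp L f ξ₀ a b <;> simp [h]
  exact Nat.eq_of_mul_eq_mul_right Nat.card_pos h3

theorem al_ne {a : AT f ξ₀} {l : L} (h : al ξ₀ a l ≠ 0) : ∃ v : L, IsPPart p l v ∧ v ≠ 1 ∧ xh ^ p ^ n ∈ Subgroup.zpowers v := by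
  have hl : p ∣ orderOf l := by
    by_contra hl
    exact h (C.al_reg a hl)
  obtain ⟨v, y, hvy, hcomm, ⟨k, hk⟩, hy, -, -⟩ := exists_jordan (p := p) l
  have hv : IsPPart p l v := ⟨y, hvy, hcomm, ⟨k, hk⟩, hy⟩
  have hv1 : v ≠ 1 := by
    rintro rfl
    apply hy
    rw [one_mul] at hvy
    rwa [hvy]
  refine ⟨v, hv, hv1, ?_⟩
  by_cases h0 : (a.1 : L → ℂ) l = 0
  · have h1 : (ξ₀ : L → ℂ) l ≠ 0 := by
      intro h1
      apply h
      unfold al
      rw [Pi.sub_apply, h0, h1, sub_zero]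
    exact C.z_mem C.U.h₀ hv hv1 h1
  · exact C.z_mem a.2.1 hv hv1 h0

/-- The terms vanish off the normalizer of the subgroup of order `p`. -/
theorem term_zero {x : G} (hx : x ∉ Subgroup.normalizer ((Subgroup.zpowers ((xh : G) ^ p ^ n) : Subgroup G) : Set G))
    (a b : AT f ξ₀) (l : L) : extendByZero L (al ξ₀ b) (x⁻¹ * l * x) * conj (al ξ₀ a l) = 0 := by
  by_contra hne
  have h1 : al ξ₀ a l ≠ 0 := by
    intro h
    apply hne
    rw [h]
    simp
  have h2 : extendByZero L (al ξ₀ b) (x⁻¹ * l * x) ≠ 0 := fun h => hne (by rw [h, zero_mul])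
  have hmem : x⁻¹ * l * x ∈ L := by
    by_contra hm
    exact h2 (extendByZero_of_not_mem L _ hm)
  rw [extendByZero_of_mem L _ hmem] at h2
  obtain ⟨v, hv, -, hz⟩ := C.al_ne h1
  obtain ⟨v', hv', -, hz'⟩ := C.al_ne h2
  have e1 : IsPPart p (x⁻¹ * l * x) (x⁻¹ * v * x) := by
    have h0 := isPPart_conj (isPPart_coe hv) x⁻¹
    simpa using h0
  have e2 : (v' : G) = x⁻¹ * v * x := IsPPart_eq (isPPart_coe hv') e1
  obtain ⟨i, hi⟩ := Subgroup.mem_zpowers_iff.1 hz
  obtain ⟨j, hj⟩ := Subgroup.mem_zpowers_iff.1 hz'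
  have hi' : (v : G) ^ i = (xh : G) ^ p ^ n := by
    have := congrArg Subtype.val hi
    simpa using this
  have hj' : (x⁻¹ * (v : G) * x) ^ j = (xh : G) ^ p ^ n := by
    have := congrArg Subtype.val hj
    rw [← e2]
    simpa using this
  have hj2 : x * ((xh : G) ^ p ^ n) * x⁻¹ = (v : G) ^ j := by
    rw [← hj']
    have e3 : x⁻¹ * (v : G) * x = x⁻¹ * (v : G) * x⁻¹⁻¹ := by simp
    rw [e3, conj_zpow]
    group
  apply hx
  apply mem_norm_zpowers_of_conj
  have hz1 : (xh : G) ^ p ^ n ∈ Subgroup.zpowers (v : G) := Subgroup.mem_zpowers_iff.2 ⟨i, hi'⟩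
  have hz2 : x * ((xh : G) ^ p ^ n) * x⁻¹ ∈ Subgroup.zpowers (v : G) := Subgroup.mem_zpowers_iff.2 ⟨j, hj2.symm⟩
  have h3 := mem_zpowers_of_orderOf_eq_prime (C := Subgroup.zpowers (v : G)) (a := ⟨_, hz1⟩) (b := ⟨_, hz2⟩) (p := p)
    (by rw [Subgroup.orderOf_mk]; exact C.orderOf_zG) (by rw [Subgroup.orderOf_mk, orderOf_conj]; exact C.orderOf_zG)
  obtain ⟨t, ht⟩ := Subgroup.mem_zpowers_iff.1 h3
  have h4 := congrArg Subtype.val ht
  exact Subgroup.mem_zpowers_iff.2 ⟨t, by simpa using h4⟩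

omit C in
theorem term_sum {x : G} (hx : x ∈ Subgroup.normalizer (L : Set G)) (a b : AT f ξ₀) :
    ∑ l : L, extendByZero L (al ξ₀ b) (x⁻¹ * l * x) * conj (al ξ₀ a l) =
      (Nat.card L : ℂ) * classInner ((actI L x b.1 : L → ℂ) - (actI L x ξ₀ : L → ℂ)) ((a.1 : L → ℂ) - (ξ₀ : L → ℂ)) := by
  have hL : (Nat.card L : ℂ) ≠ 0 := by exact_mod_cast Nat.card_pos.ne'
  rw [classInner_def, ← mul_assoc, mul_inv_cancel₀ hL, one_mul]
  refine Finset.sum_congr rfl fun l _ => ?_
  have hmem : x⁻¹ * l * x ∈ L := ((nConj hx).symm l).2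
  rw [extendByZero_of_mem L _ hmem]
  congr 1
  rw [Pi.sub_apply, actI_apply hx, actI_apply hx]
  rfl

open Classical in
theorem term_val (a b : AT f ξ₀) (x : G) :
    ∑ l : L, extendByZero L (al ξ₀ b) (x⁻¹ * l * x) * conj (al ξ₀ a l) =
      if x ∈ Tp then (Nat.card L : ℂ) * ((if actI L x b.1 = a.1 then 1 else 0) + 1) else 0 := by
  by_cases hT : x ∈ Tp
  · rw [if_pos hT, term_sum (C.hTpN hT), C.actI_fix hT]
    congr 1
    have hb : actI L x b.1 ≠ ξ₀ := C.actI_ne hT b.2.2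
    rw [classInner_sub_left, classInner_sub_right, classInner_sub_right,
      classInner_irr_self ξ₀.2, classInner_irr_of_ne (actI L x b.1).2 ξ₀.2 (fun h => hb (Subtype.ext h)),
      classInner_irr_of_ne ξ₀.2 a.1.2 (fun h => a.2.2 (Subtype.ext h.symm))]
    by_cases h : actI L x b.1 = a.1
    · rw [if_pos h, h, classInner_irr_self a.1.2]
      ring
    · rw [if_neg h, classInner_irr_of_ne (actI L x b.1).2 a.1.2 (fun h' => h (Subtype.ext h'))]
      ring
  · rw [if_neg hT]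
    by_cases hN : x ∈ Subgroup.normalizer ((Subgroup.zpowers ((xh : G) ^ p ^ n) : Subgroup G) : Set G)
    · have hL := C.Z_N_le_L_N hN
      rw [term_sum hL]
      have h1 := C.actI_notMem hL hN hT b.2.1
      have h2 := C.actI_notMem hL hN hT C.U.h₀
      have ne1 : ∀ {η ζ : IrrCharacter L}, η ∉ f → ζ ∈ f → classInner (η : L → ℂ) (ζ : L → ℂ) = 0 := by
        intro η ζ hη hζ
        refine classInner_irr_of_ne η.2 ζ.2 fun h => hη ?_
        rw [Subtype.ext h]
        exact hζ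
      rw [classInner_sub_left, classInner_sub_right, classInner_sub_right, ne1 h1 a.2.1, ne1 h1 C.U.h₀, ne1 h2 a.2.1,
        ne1 h2 C.U.h₀]
      simp
    · exact Finset.sum_eq_zero fun l _ => C.term_zero hN a b l

open Classical in
/-- **The Gram matrix.** -/
theorem gram (a b : AT f ξ₀) : ip (cc ξ₀ a) (cc ξ₀ b) = (e : ℤ) + if rT Tp L f ξ₀ a b then 1 else 0 := by
  have hL : (Nat.card L : ℂ) ≠ 0 := by exact_mod_cast Nat.card_pos.ne'
  have h1 : classInner (WW ξ₀ b) (WW ξ₀ a) = ((ip (cc ξ₀ a) (cc ξ₀ b) : ℤ) : ℂ) := by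
    have e1 : WW ξ₀ b = ∑ χ : IrrCharacter G, (cc ξ₀ b χ : ℂ) • (χ : G → ℂ) := by
      funext g
      rw [WW_eq, Finset.sum_apply]
      simp only [Pi.smul_apply, smul_eq_mul]
    rw [e1, classInner_sum_left]
    simp only [classInner_smul_left, classInner_res_WW]
    unfold ip
    push_cast
    refine Finset.sum_congr rfl fun χ _ => ?_
    ring
  have h2 : classInner (WW ξ₀ b) (WW ξ₀ a) = (Nat.card L : ℂ)⁻¹ * (Nat.card L : ℂ)⁻¹ *
      ∑ x : G, ∑ l : L, extendByZero L (al ξ₀ b) (x⁻¹ * l * x) * conj (al ξ₀ a l) := by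
    conv_lhs => rw [WW, WW, ]
    rw [frobenius_reciprocity' L _ _ (indFun_isClassFunction L _), classInner_def, mul_assoc]
    congr 1
    rw [Finset.sum_comm, Finset.mul_sum]
    refine Finset.sum_congr rfl fun l _ => ?_
    rw [indFun_apply, mul_assoc, Finset.sum_mul]
  have h3 : ∑ x : G, ∑ l : L, extendByZero L (al ξ₀ b) (x⁻¹ * l * x) * conj (al ξ₀ a l) =
      (Nat.card L : ℂ) * (Nat.card L : ℂ) * (((if rT Tp L f ξ₀ a b then 1 else 0) : ℂ) + e) := by
    simp only [C.term_val]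
    have e2 : ∀ x : G, (if x ∈ Tp then (Nat.card L : ℂ) * ((if actI L x b.1 = a.1 then 1 else 0) + 1) else 0) =
        (Nat.card L : ℂ) * ((if x ∈ Tp ∧ actI L x b.1 = a.1 then 1 else 0) + (if x ∈ Tp then 1 else 0)) := by
      intro x
      by_cases hT : x ∈ Tp
      · simp [hT]
      · simp [hT]
    rw [Finset.sum_congr rfl fun x _ => e2 x, ← Finset.mul_sum, Finset.sum_add_distrib, mul_assoc]
    congr 1
    have e3 : ∑ x : G, (if x ∈ Tp ∧ actI L x b.1 = a.1 then (1 : ℂ) else 0) =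
        ((Finset.univ.filter fun g : G => g ∈ Tp ∧ actI L g b.1 = a.1).card : ℂ) := by
      rw [Finset.card_filter]
      push_cast
      rfl
    have e4 : ∑ x : G, (if x ∈ Tp then (1 : ℂ) else 0) = ((Finset.univ.filter fun g : G => g ∈ Tp).card : ℂ) := by
      rw [Finset.card_filter]
      push_cast
      rfl
    have e5 : (Finset.univ.filter fun g : G => g ∈ Tp).card = Nat.card Tp := by
      rw [Nat.card_eq_fintype_card, Fintype.card_subtype]
    rw [e3, e4, e5, C.card_Tp, C.card_fib]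
    have hsym : rT Tp L f ξ₀ b a ↔ rT Tp L f ξ₀ a b := ⟨C.rT_symm, C.rT_symm⟩
    by_cases h : rT Tp L f ξ₀ a b
    · rw [if_pos (hsym.2 h), if_pos h]
      push_cast
      ring
    · rw [if_neg (fun h' => h (hsym.1 h')), if_neg h]
      push_cast
      ring
  rw [h3] at h2
  have h4 : ((ip (cc ξ₀ a) (cc ξ₀ b) : ℤ) : ℂ) = (((e : ℤ) + if rT Tp L f ξ₀ a b then 1 else 0 : ℤ) : ℂ) := by
    rw [← h1, h2]
    field_simp
    by_cases h : rT Tp L f ξ₀ a b
    · simp only [if_pos h]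
      push_cast
      ring
    · simp only [if_neg h]
      push_cast
      ring
  exact_mod_cast h4

end CycG

end G

end Cfsg.Agent.Lib.FF
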