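import Cfsg.Agent.Lib.FF.CycG3

/-!
# Blocks with cyclic defect group: the key theorem applied
-/

set_option autoImplicit false
set_option linter.unusedSectionVars false
set_option linter.unusedVariables false
set_option maxSynthPendingDepth 3
set_option linter.style.haveILetI false
set_option linter.unusedSimpArgs false
set_option linter.unnecessarySimpa false

open scoped ComplexConjugate
open Module Cfsg Cfsg.Agent.Lib.Block Cfsg.Agent.Lib.Char Cfsg.Agent.Lib.CharExtra Cfsg.Agent.Lib.BPair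
open Cfsg.Agent.Lib.SmallSimple.Star

namespace Cfsg.Agent.Lib.FF

attribute [local instance] Cfsg.Agent.Lib.BPair.subFintype

section Residue

variable {O : Subring ℂ} [IsLocalRing O] {M : Ideal AlgInt} {p : ℕ} [hp : Fact p.Prime]

/-- The residue field contains the `n`-th roots of unity for `n` prime to `p`. -/
theorem dvd_card_residue (hM : IsPModular p M) (hO : UnramRing M p O) {n : ℕ} (hn : 0 < n) (hpn : ¬ p ∣ n)
    (hroots : ∀ z : ℂ, z ^ n = 1 → z ∈ O) : n ∣ Nat.card (IsLocalRing.ResidueField O) - 1 := by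
  classical
  have hkfin : Finite (IsLocalRing.ResidueField O) := residue_finite hM hO
  haveI := Fintype.ofFinite (IsLocalRing.ResidueField O)
  haveI hchar : CharP (IsLocalRing.ResidueField O) p := charP_res hM hO
  have hζ : IsPrimitiveRoot (Complex.exp (2 * Real.pi * Complex.I / n)) n := Complex.isPrimitiveRoot_exp n hn.ne'
  obtain ⟨ζ, hζ'⟩ : ∃ ζ : ℂ, ζ = Complex.exp (2 * Real.pi * Complex.I / n) := ⟨_, rfl⟩
  rw [← hζ'] at hζ
  have hmem : ζ ∈ O := hroots ζ hζ.pow_eq_one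
  let z : O := ⟨ζ, hmem⟩
  have hz : IsPrimitiveRoot z n := by
    apply IsPrimitiveRoot.of_map_of_injective (f := O.subtype) hζ Subtype.val_injective
  let r := IsLocalRing.residue O
  have hr1 : r z ^ n = 1 := by
    rw [← map_pow, hz.pow_eq_one, map_one]
  have hr0 : r z ≠ 0 := by
    intro h
    rw [h, zero_pow hn.ne'] at hr1
    exact zero_ne_one hr1
  have hord : orderOf (r z) = n := by
    apply (orderOf_eq_iff hn).2
    refine ⟨hr1, fun d hd hd0 h => ?_⟩
    obtain ⟨m, rfl⟩ : ∃ m, n = m + 1 := ⟨n - 1, by omega⟩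
    have h1 := hz.prod_one_sub_pow_eq_order
    have h2 := congrArg r h1
    rw [map_prod] at h2
    have h3 : ∏ k ∈ Finset.range m, r (1 - z ^ (k + 1)) = 0 := by
      apply Finset.prod_eq_zero (Finset.mem_range.2 (show d - 1 < m by omega))
      rw [Nat.sub_add_cancel hd0, map_sub, map_one, map_pow, h, sub_self]
    rw [h3] at h2
    have h4 : ((m + 1 : ℕ) : IsLocalRing.ResidueField O) = 0 := by
      rw [show r ((m : O) + 1) = ((m + 1 : ℕ) : IsLocalRing.ResidueField O) by simp] at h2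
      exact h2.symm
    exact hpn ((CharP.cast_eq_zero_iff _ p _).1 h4)
  rw [← hord, Nat.card_eq_fintype_card]
  apply orderOf_dvd_of_pow_eq_one
  exact FiniteField.pow_card_sub_one_eq_one _ hr0

end Residue

section Incl

variable {G : Type*} [Group G] [Fintype G]

theorem incl_blockElt_mapBlock {K : Subgroup G} {x : G} (hx : x ∈ Subgroup.normalizer (K : Set G))
    (f : Set (IrrCharacter K)) : incl K (blockElt (mapBlock (nConj hx) f)) = conjElt x (incl K (blockElt f)) := by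
  apply ext_coeff
  intro g
  rw [coeff_conjElt]
  by_cases hg : g ∈ K
  · have hg' : x⁻¹ * g * x ∈ K := by
      have := (Subgroup.mem_normalizer_iff.1 ((Subgroup.normalizer (K : Set G)).inv_mem hx) g).1 hg
      simpa using this
    have e1 := coeff_incl_coe K (blockElt (mapBlock (nConj hx) f)) ⟨g, hg⟩
    have e2 := coeff_incl_coe K (blockElt f) ⟨x⁻¹ * g * x, hg'⟩
    simp only at e1 e2
    rw [e1, e2, coeff_blockElt, coeff_blockElt]
    have e3 : (⟨g, hg⟩ : K) = nConj hx ⟨x⁻¹ * g * x, hg'⟩ := by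
      apply Subtype.ext
      simp [mul_assoc]
    rw [e3]
    exact blockCoeff_mapBlock (nConj hx) f _
  · have hg' : x⁻¹ * g * x ∉ K := fun h => hg (by
      have := (Subgroup.mem_normalizer_iff.1 hx (x⁻¹ * g * x)).1 h
      simpa [mul_assoc] using this)
    rw [coeff_incl_of_notMem _ _ hg, coeff_incl_of_notMem _ _ hg']

theorem single_mul_conjElt_aux (x : G) (z : MonoidAlgebra ℂ G) :
    conjElt x z * MonoidAlgebra.single x (1 : ℂ) = MonoidAlgebra.single x (1 : ℂ) * z := by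
  unfold conjElt
  rw [mul_assoc, MonoidAlgebra.single_mul_single, inv_mul_cancel, one_mul]
  show _ * (1 : MonoidAlgebra ℂ G) = _
  rw [mul_one]

theorem blockElt_mul_eq_zero {X : Type*} [Group X] [Fintype X] {A A' : Set (IrrCharacter X)} (h : Disjoint A A') :
    blockElt A * blockElt A' = 0 := by
  classical
  apply central_ext_om (isCentralElt_mul (isCentralElt_blockElt A) (isCentralElt_blockElt A')) isCentralElt_zero
  intro ξ
  rw [om_mul ξ.2 (isCentralElt_blockElt A), om_zero]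
  by_cases h1 : ξ ∈ A
  · rw [om_blockElt_of_notMem (Set.disjoint_left.1 h h1), mul_zero]
  · rw [om_blockElt_of_notMem h1, zero_mul]

end Incl

section Reg

variable {G : Type*} [Group G] [Fintype G] {p : ℕ} [hp : Fact p.Prime]

/-- The part of the order prime to `p`. -/
noncomputable def mG (p : ℕ) (G : Type*) [Group G] [Fintype G] : ℕ := Nat.card G / p ^ (Nat.card G).factorization p

theorem mG_pos : 0 < mG p G := by
  unfold mG
  exact Nat.ordCompl_pos p Nat.card_pos.ne'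

theorem mG_not_dvd : ¬ p ∣ mG p G := Nat.not_dvd_ordCompl hp.out Nat.card_pos.ne'

theorem pow_mG {g : G} (hg : ¬ p ∣ orderOf g) : g ^ mG p G = 1 := by
  rw [← orderOf_dvd_iff_pow_eq_one]
  have h1 : orderOf g ∣ p ^ (Nat.card G).factorization p * mG p G := by
    unfold mG
    rw [Nat.ordProj_mul_ordCompl_eq_self]
    exact orderOf_dvd_natCard g
  have h2 : Nat.Coprime (orderOf g) (p ^ (Nat.card G).factorization p) :=
    Nat.Coprime.pow_right _ ((Nat.Prime.coprime_iff_not_dvd hp.out).2 hg).symm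
  exact h2.dvd_of_dvd_mul_left h1

theorem pow_mG_sub {L : Subgroup G} {g : L} (hg : ¬ p ∣ orderOf g) : g ^ mG p G = 1 := by
  apply Subtype.ext
  push_cast
  apply pow_mG
  rwa [Subgroup.orderOf_coe]

end Reg

section G

variable {G : Type*} [Group G] [Fintype G] {p : ℕ} [hp : Fact p.Prime] {M : Ideal AlgInt}
  {B : Set (IrrCharacter G)} {L : Subgroup G} {xh : L} {f : Set (IrrCharacter L)}
  {e' : Set (IrrCharacter (Subgroup.centralizer ({xh} : Set L)))} {φ : Subgroup.centralizer ({xh} : Set L) → ℂ}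
  {N n : ℕ} {ε : ℂ} {u : MonoidAlgebra ℂ L} {ξ₀ : IrrCharacter L} {D A B' : ℕ} {Tp : Subgroup G} {e : ℕ}

namespace CycG

variable (C : CycG p M B L xh f e' φ N n ε u ξ₀ D A B' Tp e)
include C

theorem hN : N = p ^ (n + 1) := C.S.hN

theorem hN2 : 2 ≤ N := by
  rw [C.hN]
  calc 2 ≤ p := hp.out.two_le
    _ = p ^ 1 := (pow_one p).symm
    _ ≤ p ^ (n + 1) := Nat.pow_le_pow_right hp.out.pos (by omega)

open Classical in
theorem sum_AT (F : IrrCharacter L → ℂ) :
    ∑ a : AT f ξ₀, F a.1 + F ξ₀ = ∑ ξ : IrrCharacter L, if ξ ∈ f then F ξ else 0 := by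
  have h1 : ∑ a : AT f ξ₀, F a.1 = ∑ ξ ∈ Finset.univ.filter (fun ξ : IrrCharacter L => ξ ∈ f ∧ ξ ≠ ξ₀), F ξ := by
    symm
    apply Finset.sum_subtype
    intro ξ
    simp
  rw [h1, ← Finset.sum_filter]
  have h2 : Finset.univ.filter (fun ξ : IrrCharacter L => ξ ∈ f) =
      insert ξ₀ (Finset.univ.filter fun ξ : IrrCharacter L => ξ ∈ f ∧ ξ ≠ ξ₀) := by
    ext ξ
    simp only [Finset.mem_filter, Finset.mem_univ, true_and, Finset.mem_insert]
    constructor
    · intro h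
      by_cases h0 : ξ = ξ₀
      · exact Or.inl h0
      · exact Or.inr ⟨h, h0⟩
    · rintro (rfl | h)
      · exact C.U.h₀
      · exact h.1
  rw [h2, Finset.sum_insert (by simp), add_comm]

theorem card_AT : Fintype.card (AT f ξ₀) + 1 = N := by
  classical
  have h1 := C.sum_AT (fun _ => (1 : ℂ))
  simp only [Finset.sum_const, Finset.card_univ, nsmul_eq_mul, mul_one] at h1
  have h2 : ∑ ξ : IrrCharacter L, (if ξ ∈ f then (1 : ℂ) else 0) = (N : ℂ) := by
    rw [← C.S.hcardf, Nat.card_eq_fintype_card, Fintype.card_subtype]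
    rw [Finset.card_filter]
    push_cast
    rfl
  rw [h2] at h1
  exact_mod_cast h1

theorem nonempty_AT : Nonempty (AT f ξ₀) := by
  rw [← Fintype.card_pos_iff]
  have := C.card_AT
  have := C.hN2
  omega

theorem e_pos : 0 < e := by
  rw [← C.hidx]
  exact Nat.pos_of_ne_zero Subgroup.index_ne_zero_of_finite

/-- The values of `ξ₀` lie in the ring. -/
theorem conj_xi0_mem {O : Subring ℂ} [IsLocalRing O] (hO : UnramRing M p O) (hroots : ∀ z : ℂ, z ^ mG p G = 1 → z ∈ O) (l : L) :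
    conj ((ξ₀ : L → ℂ) l) ∈ O := by
  have := C.isPrime
  have D := C.U.cycData C.S hO hroots (fun g hg => pow_mG_sub hg)
  have h1 : CoefIn O (trU L u N) := coefIn_trU D
  have h2 : trU L u N = incl L (∑ j ∈ Finset.range N, u ^ (j + 1)) := by
    unfold trU
    rw [map_sum]
    exact Finset.sum_congr rfl fun j _ => (map_pow (incl L) u (j + 1)).symm
  rw [h2, C.U.sum_pow_u C.S] at h1
  have h3 := h1 (l : G)
  have e1 := coeff_incl_coe L ((N : ℂ) • blockElt ({ξ₀} : Set (IrrCharacter L))) l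
  rw [e1, C.U.coeff_piU_reg] at h3
  have h4 : (A : ℂ) * (B' : ℂ)⁻¹ ∈ O :=
    O.mul_mem (natCast_mem O A) (hO.inv_mem _ (natCast_mem O B') (not_memLocalIdeal_natCast C.hM C.U.hB))
  have h5 : conj ((ξ₀ : L → ℂ) l) = (A : ℂ) * (B' : ℂ)⁻¹ * ((B' : ℂ) * (A : ℂ)⁻¹ * conj ((ξ₀ : L → ℂ) l)) := by
    have hA := C.U.hAc
    have hB := C.U.hBc
    field_simp
  rw [h5]
  exact O.mul_mem h4 h3

/-- The sum of the induced class functions on singular elements. -/
theorem sum_WW_sing {g : G} (hg : p ∣ orderOf g) : ∑ a : AT f ξ₀, WW ξ₀ a g = -(N : ℂ) * indFun L (ξ₀ : L → ℂ) g := by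
  classical
  unfold WW
  simp only [indFun_apply]
  rw [← Finset.mul_sum, mul_left_comm]
  congr 1
  rw [Finset.sum_comm, Finset.mul_sum]
  refine Finset.sum_congr rfl fun x _ => ?_
  by_cases hx : x⁻¹ * g * x ∈ L
  · simp only [extendByZero_of_mem L _ hx]
    have hl : p ∣ orderOf (⟨_, hx⟩ : L) := by
      rw [Subgroup.orderOf_mk]
      have e1 : x⁻¹ * g * x = x⁻¹ * g * x⁻¹⁻¹ := by simp
      rw [e1, orderOf_conj]
      exact hg
    have h1 := C.sum_AT (fun ξ : IrrCharacter L => (ξ : L → ℂ) ⟨_, hx⟩)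
    rw [C.psi_sing hl] at h1
    have h2 : ∑ a : AT f ξ₀, al ξ₀ a ⟨_, hx⟩ = ∑ a : AT f ξ₀, (a.1 : L → ℂ) ⟨_, hx⟩ - (Fintype.card (AT f ξ₀) : ℂ) * (ξ₀ : L → ℂ) ⟨_, hx⟩ := by
      simp only [al, Pi.sub_apply]
      rw [Finset.sum_sub_distrib, Finset.sum_const, Finset.card_univ, nsmul_eq_mul]
    rw [h2]
    have h3 : (N : ℂ) = (Fintype.card (AT f ξ₀) : ℂ) + 1 := by
      rw [← C.card_AT]
      push_cast
      rfl
    rw [h3]
    linear_combination h1
  · simp only [extendByZero_of_not_mem L _ hx]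
    simp

open Classical in
/-- The values of a sum over `Ω` on singular elements. -/
theorem beta_sing (Ω : Finset (IrrCharacter G)) (hΩ : (↑Ω : Set (IrrCharacter G)) ⊆ B) (w : ℤ)
    (hw : ∀ a : AT f ξ₀, ∑ y ∈ Ω, cc ξ₀ a y = w) {g : G} (hg : p ∣ orderOf g) :
    (e : ℂ) * ∑ y ∈ Ω, (y : G → ℂ) g = -(w : ℂ) * indFun L (ξ₀ : L → ℂ) g := by
  have hNc : (N : ℂ) ≠ 0 := C.S.hNc
  have hec : (e : ℂ) ≠ 0 := by exact_mod_cast C.e_pos.ne'
  obtain ⟨κ, hκ⟩ : ∃ κ : ℂ, κ * ((N : ℂ) * e) = w := ⟨(w : ℂ) / ((N : ℂ) * e), by field_simp⟩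
  have hgram : ∀ a b : AT f ξ₀, ∑ χ : IrrCharacter G, (cc ξ₀ a χ : ℂ) * (cc ξ₀ b χ : ℂ) =
      (e : ℂ) + if rT Tp L f ξ₀ a b then 1 else 0 := by
    intro a b
    have h1 := C.gram a b
    have h2 := congrArg (Int.cast : ℤ → ℂ) h1
    unfold ip at h2
    push_cast at h2
    exact h2
  have hsum : ∀ b : AT f ξ₀, ∑ a : AT f ξ₀, ∑ χ : IrrCharacter G, (cc ξ₀ a χ : ℂ) * (cc ξ₀ b χ : ℂ) = (N : ℂ) * e := by
    intro b
    simp only [hgram]
    rw [Finset.sum_add_distrib, Finset.sum_const, Finset.card_univ, nsmul_eq_mul]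
    have e1 : ∑ a : AT f ξ₀, (if rT Tp L f ξ₀ a b then (1 : ℂ) else 0) = (e : ℂ) := by
      have e2 := C.card_cls b
      have e3 : ∑ a : AT f ξ₀, (if rT Tp L f ξ₀ a b then (1 : ℂ) else 0) =
          ((Finset.univ.filter fun a => rT Tp L f ξ₀ b a).card : ℂ) := by
        rw [Finset.card_filter]
        push_cast
        refine Finset.sum_congr rfl fun a _ => ?_
        have hsym : rT Tp L f ξ₀ b a ↔ rT Tp L f ξ₀ a b := ⟨C.rT_symm, C.rT_symm⟩
        simp only [hsym]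
      rw [e3, e2]
    rw [e1]
    have h3 : (N : ℂ) = (Fintype.card (AT f ξ₀) : ℂ) + 1 := by
      rw [← C.card_AT]
      push_cast
      rfl
    rw [h3]
    ring
  have hvan := C.sing_vanish (fun χ => (if χ ∈ Ω then 1 else 0) - κ * ∑ a : AT f ξ₀, (cc ξ₀ a χ : ℂ)) ?_ ?_ hg
  · have e1 : ∑ χ : IrrCharacter G, ((if χ ∈ Ω then 1 else 0) - κ * ∑ a : AT f ξ₀, (cc ξ₀ a χ : ℂ)) * (χ : G → ℂ) g =
        ∑ y ∈ Ω, (y : G → ℂ) g - κ * ∑ a : AT f ξ₀, WW ξ₀ a g := by
      simp only [sub_mul, WW_eq]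
      rw [Finset.sum_sub_distrib]
      congr 1
      · simp only [ite_mul, one_mul, zero_mul]
        rw [Finset.sum_ite_mem, Finset.univ_inter]
      · rw [Finset.mul_sum]
        simp only [Finset.mul_sum, Finset.sum_mul]
        rw [Finset.sum_comm]
        refine Finset.sum_congr rfl fun a _ => ?_
        refine Finset.sum_congr rfl fun χ _ => ?_
        ring
    rw [e1, C.sum_WW_sing hg] at hvan
    have e2 : ∑ y ∈ Ω, (y : G → ℂ) g = κ * (-(N : ℂ) * indFun L (ξ₀ : L → ℂ) g) := sub_eq_zero.1 hvan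
    rw [e2, ← hκ]
    ring
  · intro χ hχ
    have h1 : χ ∉ Ω := fun h => hχ (hΩ (Finset.mem_coe.2 h))
    rw [if_neg h1, Finset.sum_eq_zero, mul_zero, sub_zero]
    intro a _
    rw [C.hc0 a hχ]
    simp
  · intro b
    have e1 : ∑ χ : IrrCharacter G, ((if χ ∈ Ω then 1 else 0) - κ * ∑ a : AT f ξ₀, (cc ξ₀ a χ : ℂ)) * (cc ξ₀ b χ : ℂ) =
        ∑ y ∈ Ω, (cc ξ₀ b y : ℂ) - κ * ∑ a : AT f ξ₀, ∑ χ : IrrCharacter G, (cc ξ₀ a χ : ℂ) * (cc ξ₀ b χ : ℂ) := by
      simp only [sub_mul]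
      rw [Finset.sum_sub_distrib]
      congr 1
      · simp only [ite_mul, one_mul, zero_mul]
        rw [Finset.sum_ite_mem, Finset.univ_inter]
      · simp only [Finset.mul_sum, Finset.sum_mul]
        rw [Finset.sum_comm]
        refine Finset.sum_congr rfl fun a _ => Finset.sum_congr rfl fun χ _ => ?_
        ring
    rw [e1, hsum, hκ]
    have e2 := congrArg (Int.cast : ℤ → ℂ) (hw b)
    push_cast at e2
    rw [e2, sub_self]

theorem hAe {x : G} (hx : x ∈ Tp) :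
    MonoidAlgebra.single x (1 : ℂ) * incl L (blockElt f) = incl L (blockElt f) * MonoidAlgebra.single x (1 : ℂ) := by
  have := C.isPrime
  obtain ⟨hx', h1⟩ := (stabilizes_iff C.S.hf).1 ((C.hTp x).1 hx).2
  have h2 := incl_blockElt_mapBlock hx' f
  rw [h1] at h2
  rw [← single_mul_conjElt_aux, ← h2]

theorem horth {c : G} (hc : c ∉ Tp)
    (hN : c ∈ Subgroup.normalizer ((Subgroup.zpowers ((xh : G) ^ p ^ n) : Subgroup G) : Set G)) :
    incl L (blockElt f) * MonoidAlgebra.single c (1 : ℂ) * incl L (blockElt f) = 0 := by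
  have hL := C.Z_N_le_L_N hN
  have h1 := incl_blockElt_mapBlock hL f
  have h2 : Disjoint f (mapBlock (nConj hL) f) := by
    rw [Set.disjoint_left]
    rintro ξ hξ ⟨η, hη, rfl⟩
    have := C.actI_notMem hL hN hc hη
    rw [actI_of_mem hL] at this
    exact this hξ
  have h3 := blockElt_mul_eq_zero h2
  calc incl L (blockElt f) * MonoidAlgebra.single c (1 : ℂ) * incl L (blockElt f) =
      incl L (blockElt f) * (MonoidAlgebra.single c (1 : ℂ) * incl L (blockElt f)) := by rw [mul_assoc]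
    _ = incl L (blockElt f) * (incl L (blockElt (mapBlock (nConj hL) f)) * MonoidAlgebra.single c (1 : ℂ)) := by
      rw [h1, single_mul_conjElt_aux]
    _ = incl L (blockElt f * blockElt (mapBlock (nConj hL) f)) * MonoidAlgebra.single c (1 : ℂ) := by
      rw [map_mul, mul_assoc]
    _ = 0 := by
      rw [h3, map_zero, zero_mul]

theorem pow_e_mem (x : Tp) : (x : G) ^ e ∈ L := by
  haveI : (L.subgroupOf Tp).Normal := (Subgroup.normal_subgroupOf_iff_le_normalizer C.hLTp).2 fun y hy => C.hTpN hy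
  have h1 := Subgroup.pow_index_mem (L.subgroupOf Tp) x
  have h2 : (L.subgroupOf Tp).index = e := C.hidx
  rw [h2, Subgroup.mem_subgroupOf] at h1
  simpa using h1

theorem hAp {x : G} (hx : x ∈ Tp) (ho : orderOf x = p) : x ∈ L := by
  have h1 := C.pow_e_mem ⟨x, hx⟩
  have hcop : Nat.Coprime e p := by
    have h2 : Nat.Coprime (p - 1) p :=
      ((Nat.Prime.coprime_iff_not_dvd hp.out).2 (Nat.not_dvd_of_pos_of_lt (by have := hp.out.two_le; omega)
        (by have := hp.out.two_le; omega))).symm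
    exact Nat.Coprime.coprime_dvd_left C.he h2
  obtain ⟨t, -, ht⟩ := Nat.exists_mul_mod_eq_one_of_coprime hcop hp.out.one_lt
  have h3 : x = ((x : G) ^ e) ^ t := by
    rw [← pow_mul, ← pow_mod_orderOf, ho, ht, pow_one]
  rw [h3]
  exact Subgroup.pow_mem _ h1 _

section O

variable {O : Subring ℂ} [IsLocalRing O]

theorem hAq (hO : UnramRing M p O) (x : Tp) : (x : G) ^ (Nat.card (IsLocalRing.ResidueField O) - 1) ∈ L := by
  classical
  have hkfin : Finite (IsLocalRing.ResidueField O) := residue_finite C.hM hO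
  haveI := Fintype.ofFinite (IsLocalRing.ResidueField O)
  haveI : CharP (IsLocalRing.ResidueField O) p := charP_res C.hM hO
  obtain ⟨f', -, hf'⟩ := FiniteField.card (IsLocalRing.ResidueField O) p
  have h1 : e ∣ Nat.card (IsLocalRing.ResidueField O) - 1 := by
    refine C.he.trans ?_
    rw [Nat.card_eq_fintype_card, hf']
    have := Nat.sub_dvd_pow_sub_pow p 1 (f' : ℕ)
    simpa using this
  obtain ⟨k, hk⟩ := h1
  rw [hk, pow_mul]
  exact Subgroup.pow_mem _ (C.pow_e_mem x) _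

theorem horder (hO : UnramRing M p O) (hroots : ∀ z : ℂ, z ^ mG p G = 1 → z ∈ O) (g : Tp) (hg : ¬ p ∣ orderOf g) :
    orderOf g ∣ Nat.card (IsLocalRing.ResidueField O) - 1 :=
  (orderOf_dvd_of_pow_eq_one (pow_mG_sub hg)).trans (dvd_card_residue C.hM hO mG_pos mG_not_dvd hroots)

open Classical in
/-- The rationality of the idempotent of `Ω`. -/
theorem rat_Omega (hO : UnramRing M p O) (hroots : ∀ z : ℂ, z ^ mG p G = 1 → z ∈ O) (Ω : Finset (IrrCharacter G))
    (hΩ : (↑Ω : Set (IrrCharacter G)) ⊆ B) (Dg : ℕ) (hdeg : ∀ i ∈ Ω, charDegree (i : G → ℂ) = Dg) (w : ℤ)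
    (hw : ∀ a : AT f ξ₀, ∑ y ∈ Ω, cc ξ₀ a y = w) (g : G) :
    ((e : ℂ) * (Nat.card L : ℂ) * (Nat.card G : ℂ)) * (blockElt (↑Ω : Set (IrrCharacter G))).coeff g ∈ O := by
  have hG : (Nat.card G : ℂ) ≠ 0 := by exact_mod_cast Nat.card_pos.ne'
  have hLc : (Nat.card L : ℂ) ≠ 0 := by exact_mod_cast Nat.card_pos.ne'
  have e1 : (blockElt (↑Ω : Set (IrrCharacter G))).coeff g = (Nat.card G : ℂ)⁻¹ * ((Dg : ℂ) * conj (∑ y ∈ Ω, (y : G → ℂ) g)) := by
    rw [coeff_blockElt, blockCoeff_eq_sum]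
    congr 1
    rw [map_sum, Finset.mul_sum, ← Finset.sum_subset (Finset.subset_univ Ω)]
    · refine Finset.sum_congr rfl fun y hy => ?_
      rw [if_pos (Finset.mem_coe.2 hy), map_one_eq_charDegree (IsIrrCharacter.isCharacter y.2), hdeg y hy]
    · intro χ _ h
      rw [if_neg (fun h' => h (Finset.mem_coe.1 h'))]
  rw [e1]
  have e3 : ((e : ℂ) * (Nat.card L : ℂ) * (Nat.card G : ℂ)) * ((Nat.card G : ℂ)⁻¹ * ((Dg : ℂ) * conj (∑ y ∈ Ω, (y : G → ℂ) g))) =
      (Nat.card L : ℂ) * (Dg : ℂ) * ((e : ℂ) * conj (∑ y ∈ Ω, (y : G → ℂ) g)) := by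
    field_simp
  rw [e3]
  by_cases hg : p ∣ orderOf g
  · have h1 := C.beta_sing Ω hΩ w hw hg
    have h2 := congrArg conj h1
    rw [map_mul, Complex.conj_natCast] at h2
    rw [h2, indFun_apply]
    simp only [map_mul, map_neg, map_intCast, map_inv₀, Complex.conj_natCast, map_sum]
    have e4 : (Nat.card L : ℂ) * (Dg : ℂ) * (-(w : ℂ) * ((Nat.card L : ℂ)⁻¹ * ∑ x : G, conj (extendByZero L (ξ₀ : L → ℂ) (x⁻¹ * g * x)))) =
        (Dg : ℂ) * (-(w : ℂ) * ∑ x : G, conj (extendByZero L (ξ₀ : L → ℂ) (x⁻¹ * g * x))) := by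
      field_simp
    rw [e4]
    refine O.mul_mem (natCast_mem O _) (O.mul_mem (O.neg_mem (intCast_mem O _)) (O.sum_mem fun x _ => ?_))
    by_cases hx : x⁻¹ * g * x ∈ L
    · rw [extendByZero_of_mem L _ hx]
      exact C.conj_xi0_mem hO hroots _
    · rw [extendByZero_of_not_mem L _ hx, map_zero]
      exact O.zero_mem
  · refine O.mul_mem (O.mul_mem (natCast_mem O _) (natCast_mem O _)) (O.mul_mem (natCast_mem O _) ?_)
    rw [map_sum]
    exact O.sum_mem fun y _ => NilU.conj_val_mem hroots y (pow_mG hg)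

end O

open Classical in
/-- The traces of the central idempotents in the key theorem. -/
theorem tr_diff (χ : IrrCharacter G) :
    tr (χ : G → ℂ) (incl L (blockElt f)) - N * tr (χ : G → ℂ) (piU L u N) = (D : ℂ) * ∑ a : AT f ξ₀, (cc ξ₀ a χ : ℂ) := by
  have hcf : IsClassFunction L (fun l : L => (χ : G → ℂ) l) :=
    IsCharacter.isClassFunction (IsCharacter.restrict L (IsIrrCharacter.isCharacter χ.2))
  have hNc : (N : ℂ) ≠ 0 := C.S.hNc
  have e1 : tr (χ : G → ℂ) (incl L (blockElt f)) = (D : ℂ) * ∑ ξ : IrrCharacter L, if ξ ∈ f then (mu L χ ξ : ℂ) else 0 := by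
    rw [tr_incl]
    have h1 := tr_blockElt_mul _ hcf f 1
    rw [mul_one] at h1
    rw [h1, Finset.mul_sum]
    refine Finset.sum_congr rfl fun ξ _ => ?_
    by_cases h : ξ ∈ f
    · rw [if_pos h, if_pos h, tr_one, C.U.hD1 h, mu_spec]
      ring
    · rw [if_neg h, if_neg h, mul_zero]
  have e2 : (N : ℂ) * tr (χ : G → ℂ) (piU L u N) = (N : ℂ) * ((D : ℂ) * (mu L χ ξ₀ : ℂ)) := by
    have h2 : trU L u N = incl L ((N : ℂ) • blockElt ({ξ₀} : Set (IrrCharacter L))) := by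
      rw [← C.U.sum_pow_u C.S]
      unfold trU
      rw [map_sum]
      exact Finset.sum_congr rfl fun j _ => (map_pow (incl L) u (j + 1)).symm
    unfold piU
    rw [tr_smul, h2, tr_incl, tr_smul, ← mul_assoc, ← mul_assoc, mul_inv_cancel₀ hNc, one_mul]
    have h1 := tr_blockElt_mul _ hcf ({ξ₀} : Set (IrrCharacter L)) 1
    rw [mul_one] at h1
    rw [h1, Finset.sum_eq_single ξ₀]
    · rw [if_pos (Set.mem_singleton ξ₀), tr_one, C.U.hD1 C.U.h₀, mu_spec]
      ring
    · intro ξ _ hξ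
      rw [if_neg (fun h => hξ (Set.mem_singleton_iff.1 h))]
    · intro h
      exact absurd (Finset.mem_univ _) h
  rw [e1, e2]
  have e3 := C.sum_AT (fun ξ => (mu L χ ξ : ℂ))
  rw [← e3]
  have e4 : ∑ a : AT f ξ₀, (cc ξ₀ a χ : ℂ) = ∑ a : AT f ξ₀, (mu L χ a.1 : ℂ) - (Fintype.card (AT f ξ₀) : ℂ) * (mu L χ ξ₀ : ℂ) := by
    simp only [cc]
    push_cast
    rw [Finset.sum_sub_distrib, Finset.sum_const, Finset.card_univ, nsmul_eq_mul]
  rw [e4]
  have h3 : (N : ℂ) = (Fintype.card (AT f ξ₀) : ℂ) + 1 := by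
    rw [← C.card_AT]
    push_cast
    rfl
  rw [h3]
  ring

open Classical in
/-- **The application of the key theorem.** -/
theorem exists_rho (Ω : Finset (IrrCharacter G)) (hΩ : (↑Ω : Set (IrrCharacter G)) ⊆ B) (Dg : ℕ)
    (hdeg : ∀ i ∈ Ω, charDegree (i : G → ℂ) = Dg) (w : ℤ) (hw : ∀ a : AT f ξ₀, ∑ y ∈ Ω, cc ξ₀ a y = w) (hw0 : w ≠ 0) :
    ∃ ρ : IrrCharacter G → ℕ, (∀ i, i ∉ Ω → ρ i = 0) ∧ (∃ i, ρ i ≠ 0) ∧
      |∑ i, (ρ i : ℤ) * ∑ a : AT f ξ₀, cc ξ₀ a i| ≤ (Fintype.card (AT f ξ₀) : ℤ) ∧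
      (n = 0 → ∑ i, (ρ i : ℤ) * ∑ a : AT f ξ₀, cc ξ₀ a i = 0 ∨
        |∑ i, (ρ i : ℤ) * ∑ a : AT f ξ₀, cc ξ₀ a i| = (Fintype.card (AT f ξ₀) : ℤ)) := by
  have := C.isPrime
  obtain ⟨O, hO, hroots⟩ := exists_unram C.hM (mG_pos (p := p) (G := G)) mG_not_dvd
  haveI := hO.isDVR C.hM
  have hD := C.U.cycData C.S hO hroots (fun g hg => pow_mG_sub hg)
  obtain ⟨g₀, hg₀, P₀, hP₀⟩ := C.hdeff
  have hzc : xh ^ p ^ n ∈ Subgroup.center L := by
    rw [Subgroup.mem_center_iff]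
    intro c
    exact (C.zc c).eq
  obtain ⟨t, ht⟩ := C.ht
  have hΩne : (↑Ω : Set (IrrCharacter G)).Nonempty := by
    rw [Finset.coe_nonempty]
    by_contra hcon
    rw [Finset.not_nonempty_iff_eq_empty] at hcon
    obtain ⟨a₀⟩ := C.nonempty_AT
    have := hw a₀
    rw [hcon, Finset.sum_empty] at this
    exact hw0 this.symm
  have hd₀ : ((e : ℂ) * (Nat.card L : ℂ) * (Nat.card G : ℂ)) ≠ 0 := by
    have h1 : (e : ℂ) ≠ 0 := by exact_mod_cast C.e_pos.ne'
    have h2 : (Nat.card G : ℂ) ≠ 0 := by exact_mod_cast Nat.card_pos.ne'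
    have h3 : (Nat.card L : ℂ) ≠ 0 := by exact_mod_cast Nat.card_pos.ne'
    exact mul_ne_zero (mul_ne_zero h1 h3) h2
  have hzN : ∀ c, c ∈ Subgroup.normalizer ((Subgroup.zpowers (((xh ^ p ^ n : L)) : G) : Subgroup G) : Set G) →
      c ∈ Subgroup.normalizer ((Subgroup.zpowers ((xh : G) ^ p ^ n) : Subgroup G) : Set G) := by
    intro c hc
    rwa [C.zG_eq]
  obtain ⟨r, hr0, hr1, m, hm, hm1, hm2⟩ := key_cyc C.hM hO hD C.hN D (NilU.finrank_cenW_le C.S) (C.U.h1ef C.S) (C.U.exists_ne C.S)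
    C.orderOf_z (C.U.hz C.S hzc) C.hLTp (fun y hy => C.hTpN hy) (fun x hx => C.hAe hx)
    (fun c hc hcN => C.horth hc (hzN c hcN)) (fun x hx ho => C.hAp hx ho) g₀
    (fun m hm w hw => C.U.hK_of_defect C.S hO hg₀ m hm w hw)
    (fun z' hz' hnot κ hκ hcomm => NilU.free_of_defect C.orderOf_xh hzc hP₀ z' hz' hnot κ hκ hcomm)
    t (fun x => by
      obtain ⟨j, l, h⟩ := ht x
      exact ⟨j, l, Subtype.ext h⟩) (C.hAq hO) (C.horder hO hroots) (↑Ω : Set (IrrCharacter G)) hΩne _ hd₀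
    (C.rat_Omega hO hroots Ω hΩ Dg hdeg w hw)
  have hDne : (D : ℤ) ≠ 0 := by
    have := C.U.hDne
    exact_mod_cast this
  have hDpos : (0 : ℤ) < D := lt_of_le_of_ne (Int.natCast_nonneg _) hDne.symm
  have hS : (D : ℤ) * ∑ i, (r i : ℤ) * ∑ a : AT f ξ₀, cc ξ₀ a i = m := by
    have h1 : (((D : ℤ) * ∑ i, (r i : ℤ) * ∑ a : AT f ξ₀, cc ξ₀ a i : ℤ) : ℂ) = (m : ℂ) := by
      rw [← hm]
      push_cast
      rw [Finset.mul_sum]
      refine Finset.sum_congr rfl fun χ _ => ?_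
      rw [C.tr_diff]
      ring
    exact_mod_cast h1
  have hA1 : ((N : ℤ) - 1) = (Fintype.card (AT f ξ₀) : ℤ) := by
    rw [← C.card_AT]
    push_cast
    ring
  refine ⟨r, fun i hi => hr0 i (fun h => hi (Finset.mem_coe.1 h)), hr1, ?_, ?_⟩
  · rw [← hS, abs_mul, abs_of_pos hDpos, hA1, mul_comm] at hm1
    exact le_of_mul_le_mul_right hm1 hDpos
  · intro hn0
    rcases hm2 hn0 with h | h
    · left
      rw [← hS] at h
      exact (mul_eq_zero.1 h).resolve_left hDne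
    · right
      rw [← hS, abs_mul, abs_of_pos hDpos, hA1, mul_comm] at h
      exact mul_right_cancel₀ hDne h

end CycG

end G

end Cfsg.Agent.Lib.FF
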