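import Cfsg.Agent.Lib.FF.CycG4
import Cfsg.Agent.Lib.Block.VanishOrderP

/-!
# Blocks with cyclic defect group: the lattice and the main structure
-/

set_option autoImplicit false
set_option linter.unusedSectionVars false
set_option linter.unusedVariables false
set_option maxSynthPendingDepth 3
set_option linter.style.haveILetI false
set_option linter.unusedSimpArgs false
set_option linter.unnecessarySimpa false

open scoped ComplexConjugate
open Module Cfsg Cfsg.Agent.Lib.Block Cfsg.Agent.Lib.Char Cfsg.Agent.Lib.CharExtra Cfsg.Agent.Lib.BPair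
open Cfsg.Agent.Lib.SmallSimple.Star

namespace Cfsg.Agent.Lib.FF

attribute [local instance] Cfsg.Agent.Lib.BPair.subFintype

section Arith

variable {p : ℕ} [hp : Fact p.Prime]

theorem fact_eq_1 {a b α : ℕ} {c : ℤ} (hc : ¬ (p : ℤ) ∣ c) (ha : a ≠ 0) (hb : b ≠ 0) (hlt : a.factorization p < α)
    (hd : ((p : ℤ) ^ α) ∣ (a : ℤ) - c * b) : b.factorization p = a.factorization p := by
  have hpz : Prime (p : ℤ) := Nat.prime_iff_prime_int.1 hp.out
  obtain ⟨s, hs⟩ : ∃ s, s = a.factorization p := ⟨_, rfl⟩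
  rw [← hs] at hlt ⊢
  have h1 : (p : ℤ) ^ s ∣ (a : ℤ) := by
    have : p ^ s ∣ a := (hp.out.pow_dvd_iff_le_factorization ha).2 hs.le
    exact_mod_cast this
  have h2 : (p : ℤ) ^ s ∣ c * b := by
    have h3 : (p : ℤ) ^ s ∣ (a : ℤ) - c * b := (pow_dvd_pow _ hlt.le).trans hd
    have h4 := dvd_sub h1 h3
    simpa using h4
  have h3 : (p : ℤ) ^ s ∣ (b : ℤ) := hpz.pow_dvd_of_dvd_mul_left s hc h2
  have h4 : s ≤ b.factorization p := by
    have : p ^ s ∣ b := by exact_mod_cast h3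
    exact (hp.out.pow_dvd_iff_le_factorization hb).1 this
  refine le_antisymm ?_ h4
  by_contra hcon
  push Not at hcon
  have h5 : p ^ (s + 1) ∣ b := (hp.out.pow_dvd_iff_le_factorization hb).2 hcon
  have h6 : (p : ℤ) ^ (s + 1) ∣ (b : ℤ) := by exact_mod_cast h5
  have h7 : (p : ℤ) ^ (s + 1) ∣ (a : ℤ) - c * b := (pow_dvd_pow _ hlt).trans hd
  have h8 : (p : ℤ) ^ (s + 1) ∣ (a : ℤ) := by
    have h9 := dvd_add h7 (h6.mul_left c)
    simpa using h9
  have h9 : p ^ (s + 1) ∣ a := by exact_mod_cast h8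
  have h10 := (hp.out.pow_dvd_iff_le_factorization ha).1 h9
  omega

theorem fact_eq_2 {a b α : ℕ} {c : ℤ} (hc : ¬ (p : ℤ) ∣ c) (ha : a ≠ 0) (hb : b ≠ 0) (hlt : a.factorization p < α)
    (hd : ((p : ℤ) ^ α) ∣ (b : ℤ) - c * a) : b.factorization p = a.factorization p := by
  have hpz : Prime (p : ℤ) := Nat.prime_iff_prime_int.1 hp.out
  obtain ⟨s, hs⟩ : ∃ s, s = a.factorization p := ⟨_, rfl⟩
  rw [← hs] at hlt ⊢
  have h1 : (p : ℤ) ^ s ∣ (a : ℤ) := by
    have : p ^ s ∣ a := (hp.out.pow_dvd_iff_le_factorization ha).2 hs.le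
    exact_mod_cast this
  have h3 : (p : ℤ) ^ s ∣ (b : ℤ) := by
    have h4 : (p : ℤ) ^ s ∣ (b : ℤ) - c * a := (pow_dvd_pow _ hlt.le).trans hd
    have h5 := dvd_add h4 (h1.mul_left c)
    simpa using h5
  have h4 : s ≤ b.factorization p := by
    have : p ^ s ∣ b := by exact_mod_cast h3
    exact (hp.out.pow_dvd_iff_le_factorization hb).1 this
  refine le_antisymm ?_ h4
  by_contra hcon
  push Not at hcon
  have h5 : p ^ (s + 1) ∣ b := (hp.out.pow_dvd_iff_le_factorization hb).2 hcon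
  have h6 : (p : ℤ) ^ (s + 1) ∣ (b : ℤ) := by exact_mod_cast h5
  have h7 : (p : ℤ) ^ (s + 1) ∣ (b : ℤ) - c * a := (pow_dvd_pow _ hlt).trans hd
  have h8 : (p : ℤ) ^ (s + 1) ∣ c * (a : ℤ) := by
    have h9 := dvd_sub h6 h7
    simpa using h9
  have h8' : (p : ℤ) ^ (s + 1) ∣ (a : ℤ) := hpz.pow_dvd_of_dvd_mul_left _ hc h8
  have h9 : p ^ (s + 1) ∣ a := by exact_mod_cast h8'
  have h10 := (hp.out.pow_dvd_iff_le_factorization ha).1 h9
  omega

/-- A generalized character vanishing on singular elements has degree divisible by the `p`-part of the order. -/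
theorem dvd_of_vanish {G : Type*} [Group G] [Fintype G] (a₁ : IrrCharacter G → ℤ)
    (hvan : ∀ g : G, p ∣ orderOf g → ∑ χ : IrrCharacter G, (a₁ χ : ℂ) * (χ : G → ℂ) g = 0) :
    ((p : ℤ) ^ (Nat.card G).factorization p) ∣ ∑ χ : IrrCharacter G, a₁ χ * (charDegree (χ : G → ℂ) : ℤ) := by
  classical
  obtain ⟨P⟩ : Nonempty (Sylow p G) := inferInstance
  have hcardP : Nat.card P = p ^ (Nat.card G).factorization p := Sylow.card_eq_multiplicity P
  choose m hm using fun χ : IrrCharacter G => classInner_isCharacter_nat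
    (IsCharacter.restrict (P : Subgroup G) (IsIrrCharacter.isCharacter χ.2)) (IsCharacter.one (G := (P : Subgroup G)))
  have hPc : (Nat.card P : ℂ) ≠ 0 := by exact_mod_cast Nat.card_pos.ne'
  have h1 : ∀ χ : IrrCharacter G, ∑ g : (P : Subgroup G), (χ : G → ℂ) g = (Nat.card P : ℂ) * (m χ : ℂ) := by
    intro χ
    rw [← hm χ, classInner_def]
    have hc : (Nat.card (P : Subgroup G) : ℂ) = (Nat.card P : ℂ) := rfl
    rw [hc, ← mul_assoc, mul_inv_cancel₀ hPc, one_mul]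
    refine Finset.sum_congr rfl fun g _ => ?_
    simp
  have h2 : ∑ g : (P : Subgroup G), ∑ χ : IrrCharacter G, (a₁ χ : ℂ) * (χ : G → ℂ) g =
      ∑ χ : IrrCharacter G, (a₁ χ : ℂ) * (χ : G → ℂ) 1 := by
    rw [Finset.sum_eq_single (1 : (P : Subgroup G))]
    · simp
    · intro g _ hg
      apply hvan
      have hg1 : (g : G) ≠ 1 := fun h => hg (Subtype.ext h)
      obtain ⟨k, hk⟩ := P.isPGroup' g
      have hk' : (g : G) ^ p ^ k = 1 := congrArg Subtype.val hk
      have h3 : orderOf (g : G) ∣ p ^ k := orderOf_dvd_of_pow_eq_one hk'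
      obtain ⟨j, -, hj⟩ := (Nat.dvd_prime_pow hp.out).1 h3
      rw [hj]
      rcases j with _ | j
      · exfalso
        apply hg1
        rw [pow_zero] at hj
        exact orderOf_eq_one_iff.1 hj
      · exact dvd_pow_self _ (by omega)
    · intro h
      exact absurd (Finset.mem_univ _) h
  rw [Finset.sum_comm] at h2
  simp only [← Finset.mul_sum, h1] at h2
  refine ⟨∑ χ : IrrCharacter G, a₁ χ * (m χ : ℤ), ?_⟩
  have h3 : ((∑ χ : IrrCharacter G, a₁ χ * (charDegree (χ : G → ℂ) : ℤ) : ℤ) : ℂ) =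
      (((p : ℤ) ^ (Nat.card G).factorization p * ∑ χ : IrrCharacter G, a₁ χ * (m χ : ℤ) : ℤ) : ℂ) := by
    push_cast
    rw [Finset.mul_sum]
    have e1 : ((p : ℂ) ^ (Nat.card G).factorization p) = (Nat.card P : ℂ) := by
      rw [hcardP]
      push_cast
      rfl
    rw [e1]
    have e2 : ∀ χ : IrrCharacter G, (a₁ χ : ℂ) * (charDegree (χ : G → ℂ) : ℂ) = (a₁ χ : ℂ) * (χ : G → ℂ) 1 := by
      intro χ
      rw [map_one_eq_charDegree (IsIrrCharacter.isCharacter χ.2)]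
    simp only [e2]
    rw [← h2]
    refine Finset.sum_congr rfl fun χ _ => ?_
    ring
  exact_mod_cast h3

end Arith

section G

variable {G : Type*} [Group G] [Fintype G] {p : ℕ} [hp : Fact p.Prime] {M : Ideal AlgInt}
  {B : Set (IrrCharacter G)} {L : Subgroup G} {xh : L} {f : Set (IrrCharacter L)}
  {e' : Set (IrrCharacter (Subgroup.centralizer ({xh} : Set L)))} {φ : Subgroup.centralizer ({xh} : Set L) → ℂ}
  {N n : ℕ} {ε : ℂ} {u : MonoidAlgebra ℂ L} {ξ₀ : IrrCharacter L} {D A B' : ℕ} {Tp : Subgroup G} {e : ℕ}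

namespace CycG

variable (C : CycG p M B L xh f e' φ N n ε u ξ₀ D A B' Tp e)
include C

theorem e_le : e ≤ p - 1 := Nat.le_of_dvd (by have := hp.out.two_le; omega) C.he

theorem hbig (hn : ¬ n = 0) : (e + 2) * e ≤ Fintype.card (AT f ξ₀) := by
  have h1 := C.card_AT
  have h2 := C.hN
  have h3 := C.e_le
  have h4 : 2 ≤ p := hp.out.two_le
  have h5 : p ^ 2 ≤ N := by
    rw [h2]
    exact Nat.pow_le_pow_right hp.out.pos (by omega)
  have h6 : (e + 2) * e ≤ (p + 1) * (p - 1) := Nat.mul_le_mul (by omega) h3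
  have h7 : (p + 1) * (p - 1) + 1 = p ^ 2 := by
    obtain ⟨q, rfl⟩ : ∃ q, p = q + 1 := ⟨p - 1, by omega⟩
    simp only [Nat.add_sub_cancel]
    ring
  omega

open Classical in
/-- The abstract data. -/
theorem ae : AE (cc ξ₀ : AT f ξ₀ → IrrCharacter G → ℤ) (fun χ => charDegree (χ : G → ℂ)) (rT Tp L f ξ₀) e B (n = 0) where
  hdpos := fun i => charDegree_pos_of_irr i.2
  hc0 := fun a i hi => C.hc0 a hi
  hgram := C.gram
  hdd := C.hdd
  hrefl := C.rT_refl
  hsymm := fun _ _ h => C.rT_symm h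
  htrans := fun _ _ _ h h' => C.rT_trans h h'
  hcls := C.card_cls
  hkey := fun Ω Dg w hΩ hdeg hw hw0 => C.exists_rho Ω hΩ Dg hdeg w hw hw0
  hbig := C.hbig

open Classical in
theorem exists_form : ∃ (u₀ : IrrCharacter G → ℤ) (ε₀ : ℤ) (ψ : AT f ξ₀ → IrrCharacter G), (ε₀ = 1 ∨ ε₀ = -1) ∧
    Form (cc ξ₀ : AT f ξ₀ → IrrCharacter G → ℤ) (rT Tp L f ξ₀) u₀ ε₀ ψ ∧ ∀ a, u₀ (ψ a) = 0 := by
  obtain ⟨a₀⟩ := C.nonempty_AT
  exact E_final_form C.ae a₀ C.e_pos

end CycG

section Fm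

open Classical

variable (C : CycG p M B L xh f e' φ N n ε u ξ₀ D A B' Tp e) {u₀ : IrrCharacter G → ℤ} {ε₀ : ℤ} {ψ : AT f ξ₀ → IrrCharacter G}
  (hε : ε₀ = 1 ∨ ε₀ = -1) (F : Form (cc ξ₀ : AT f ξ₀ → IrrCharacter G → ℤ) (rT Tp L f ξ₀) u₀ ε₀ ψ) (hu0 : ∀ a, u₀ (ψ a) = 0)

namespace CycG

include C F hu0

theorem X_mem {χ : IrrCharacter G} (hu : u₀ χ ≠ 0) : χ ∈ B := by
  obtain ⟨a₀⟩ := C.nonempty_AT
  exact E_XB C.ae F hu0 a₀ hu

theorem Y_mem (a : AT f ξ₀) : ψ a ∈ B :=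
  E_YB0 C.ae F hu0 _ (Finset.mem_image.2 ⟨a, Finset.mem_univ _, rfl⟩)

theorem unit {χ : IrrCharacter G} (hu : u₀ χ ≠ 0) : u₀ χ = 1 ∨ u₀ χ = -1 := by
  obtain ⟨a₀⟩ := C.nonempty_AT
  exact E_unit C.ae F hu0 a₀ hu

theorem u_sq {χ : IrrCharacter G} (hu : u₀ χ ≠ 0) : u₀ χ * u₀ χ = 1 := by
  rcases C.unit F hu0 hu with h | h <;> rw [h] <;> norm_num

omit C hu0 in
theorem cc_not {χ : IrrCharacter G} (hχ : ∀ a, χ ≠ ψ a) (a : AT f ξ₀) : cc ξ₀ a χ = u₀ χ := by
  rw [F.val, if_neg (hχ a), mul_zero, add_zero]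

theorem cc_X {χ : IrrCharacter G} (hu : u₀ χ ≠ 0) (a : AT f ξ₀) : cc ξ₀ a χ = u₀ χ := by
  refine cc_not F (fun b h => hu ?_) a
  rw [h, hu0]

/-- A combination of members of `B` orthogonal to the `W` has degree divisible by the `p`-part of the order. -/
theorem int_van (a₁ : IrrCharacter G → ℤ) (ha : ∀ χ, χ ∉ B → a₁ χ = 0)
    (hW : ∀ a : AT f ξ₀, ∑ χ : IrrCharacter G, a₁ χ * cc ξ₀ a χ = 0) :
    ((p : ℤ) ^ (Nat.card G).factorization p) ∣ ∑ χ : IrrCharacter G, a₁ χ * (charDegree (χ : G → ℂ) : ℤ) := by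
  apply dvd_of_vanish
  intro g hg
  apply C.sing_vanish (fun χ => (a₁ χ : ℂ)) _ _ hg
  · intro χ hχ
    rw [ha χ hχ]
    simp
  · intro a
    have := congrArg (Int.cast : ℤ → ℂ) (hW a)
    push_cast at this
    exact this

/-- A member of `B` outside `Y` has `u ≠ 0`. -/
theorem mem_cases {χ : IrrCharacter G} (hχ : χ ∈ B) : u₀ χ ≠ 0 ∨ χ ∈ imgA ψ := by
  by_contra hcon
  push Not at hcon
  obtain ⟨h0, hY⟩ := hcon
  have hne : ∀ a, χ ≠ ψ a := fun a h => hY (h ▸ Finset.mem_image.2 ⟨a, Finset.mem_univ _, rfl⟩)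
  have hc : ∀ a, cc ξ₀ a χ = 0 := fun a => by rw [cc_not F hne a, h0]
  have hvan : ∀ g : G, orderOf g = p → (χ : G → ℂ) g = 0 := by
    intro g hg
    have h1 := C.sing_vanish (fun χ' => if χ' = χ then 1 else 0) (fun χ' hχ' => by
      rw [if_neg]
      rintro rfl
      exact hχ' hχ) (fun a => by
      rw [Finset.sum_eq_single χ]
      · rw [if_pos rfl, hc a]
        simp
      · intro b _ hb
        rw [if_neg hb, zero_mul]
      · intro h
        exact absurd (Finset.mem_univ _) h) (g := g) (by rw [hg])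
    rw [Finset.sum_eq_single χ] at h1
    · rwa [if_pos rfl, one_mul] at h1
    · intro b _ hb
      rw [if_neg hb, zero_mul]
    · intro h
      exact absurd (Finset.mem_univ _) h
  have h2 := defect_zero_of_vanish p χ hvan
  have h3 : ¬ p ∣ Nat.card G / charDegree (χ : G → ℂ) := by
    obtain ⟨k, hk⟩ := charDegree_dvd_card χ.2
    have hpos := charDegree_pos_of_irr χ.2
    rw [hk, Nat.mul_div_cancel_left _ hpos]
    intro h4
    have hk0 : k ≠ 0 := by
      rintro rfl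
      rw [mul_zero] at hk
      exact Nat.card_pos.ne' hk
    have h5 := (hp.out.dvd_iff_one_le_factorization hk0).1 h4
    rw [hk, Nat.factorization_mul hpos.ne' hk0] at h2
    simp only [Finsupp.add_apply] at h2
    omega
  have h4 := blockOf_eq_singleton_of_not_dvd C.hM χ h3
  have := C.isPrime
  rw [← blockOf_eq_of_mem C.hB hχ] at h4
  obtain ⟨a₀⟩ := C.nonempty_AT
  have h5 := C.Y_mem F hu0 a₀
  rw [h4, Set.mem_singleton_iff] at h5
  exact hne a₀ h5.symm

/-- The relation on `p`-regular elements. -/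
theorem reg_rel (a : AT f ξ₀) {g : G} (hg : ¬ p ∣ orderOf g) :
    (ε₀ : ℂ) * (ψ a : G → ℂ) g + ∑ χ : IrrCharacter G, (u₀ χ : ℂ) * (χ : G → ℂ) g = 0 := by
  have h1 := C.WW_reg a hg
  rw [WW_eq] at h1
  have h2 : ∀ χ : IrrCharacter G, (cc ξ₀ a χ : ℂ) * (χ : G → ℂ) g =
      (u₀ χ : ℂ) * (χ : G → ℂ) g + if χ = ψ a then (ε₀ : ℂ) * (χ : G → ℂ) g else 0 := by
    intro χ
    rw [F.val]
    by_cases h : χ = ψ a
    · rw [if_pos h, if_pos h]
      push_cast
      ring
    · rw [if_neg h, if_neg h]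
      push_cast
      ring
  rw [Finset.sum_congr rfl (fun χ _ => h2 χ), Finset.sum_add_distrib, Finset.sum_ite_eq',
    if_pos (Finset.mem_univ _)] at h1
  linear_combination h1

/-- The congruence between two members of `X`. -/
theorem cong_XX {χ χ' : IrrCharacter G} (hu : u₀ χ ≠ 0) (hu' : u₀ χ' ≠ 0) :
    ((p : ℤ) ^ (Nat.card G).factorization p) ∣ u₀ χ * (charDegree (χ : G → ℂ) : ℤ) - u₀ χ' * (charDegree (χ' : G → ℂ) : ℤ) := by
  have h1 := C.int_van F hu0 (fun χ'' => (if χ'' = χ then u₀ χ else 0) - (if χ'' = χ' then u₀ χ' else 0)) ?_ ?_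
  · simp only [sub_mul, ite_mul, zero_mul] at h1
    rw [Finset.sum_sub_distrib, Finset.sum_ite_eq', Finset.sum_ite_eq', if_pos (Finset.mem_univ _), if_pos (Finset.mem_univ _)] at h1
    exact h1
  · intro χ'' hχ''
    have h2 : χ'' ≠ χ := fun h => hχ'' (h ▸ C.X_mem F hu0 hu)
    have h3 : χ'' ≠ χ' := fun h => hχ'' (h ▸ C.X_mem F hu0 hu')
    rw [if_neg h2, if_neg h3, sub_zero]
  · intro a
    simp only [sub_mul, ite_mul, zero_mul]
    rw [Finset.sum_sub_distrib, Finset.sum_ite_eq', Finset.sum_ite_eq', if_pos (Finset.mem_univ _), if_pos (Finset.mem_univ _),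
      C.cc_X F hu0 hu, C.cc_X F hu0 hu', C.u_sq F hu0 hu, C.u_sq F hu0 hu', sub_self]

/-- The congruence between a member of `Y` and a member of `X`. -/
theorem cong_YX (a : AT f ξ₀) {χ : IrrCharacter G} (hu : u₀ χ ≠ 0) (hε : ε₀ = 1 ∨ ε₀ = -1) :
    ((p : ℤ) ^ (Nat.card G).factorization p) ∣ (charDegree (ψ a : G → ℂ) : ℤ) +
      (e : ℤ) * ε₀ * u₀ χ * (charDegree (χ : G → ℂ) : ℤ) := by
  have h1 := C.int_van F hu0 (fun χ'' => (if χ'' = ψ a then 1 else 0) - ε₀ * cc ξ₀ a χ'' +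
    (if χ'' = χ then (e : ℤ) * ε₀ * u₀ χ else 0)) ?_ ?_
  · simp only [add_mul, sub_mul, ite_mul, zero_mul, one_mul] at h1
    rw [Finset.sum_add_distrib, Finset.sum_sub_distrib, Finset.sum_ite_eq', Finset.sum_ite_eq', if_pos (Finset.mem_univ _),
      if_pos (Finset.mem_univ _)] at h1
    have h2 := C.hdd a
    unfold ip at h2
    have h3 : ∑ χ'' : IrrCharacter G, ε₀ * cc ξ₀ a χ'' * (charDegree (χ'' : G → ℂ) : ℤ) = 0 := by
      simp only [mul_assoc]
      rw [← Finset.mul_sum, h2, mul_zero]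
    rw [h3, sub_zero] at h1
    exact h1
  · intro χ'' hχ''
    have h2 : χ'' ≠ ψ a := fun h => hχ'' (h ▸ C.Y_mem F hu0 a)
    have h3 : χ'' ≠ χ := fun h => hχ'' (h ▸ C.X_mem F hu0 hu)
    rw [if_neg h2, if_neg h3, C.hc0 a hχ'']
    simp
  · intro b
    simp only [add_mul, sub_mul, ite_mul, zero_mul, one_mul]
    rw [Finset.sum_add_distrib, Finset.sum_sub_distrib, Finset.sum_ite_eq', Finset.sum_ite_eq', if_pos (Finset.mem_univ _),
      if_pos (Finset.mem_univ _), C.cc_X F hu0 hu, mul_assoc, C.u_sq F hu0 hu]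
    have h2 := C.gram a b
    unfold ip at h2
    have h3 : ∑ χ'' : IrrCharacter G, ε₀ * cc ξ₀ a χ'' * cc ξ₀ b χ'' = ε₀ * ((e : ℤ) + if rT Tp L f ξ₀ a b then 1 else 0) := by
      rw [← h2, Finset.mul_sum]
      refine Finset.sum_congr rfl fun χ'' _ => ?_
      ring
    rw [h3, F.val, hu0 a]
    by_cases h : rT Tp L f ξ₀ a b
    · rw [if_pos ((F.hψ a b).2 h), if_pos h]
      ring
    · rw [if_neg (fun h' => h ((F.hψ a b).1 h')), if_neg h]
      ring

theorem not_dvd_e : ¬ p ∣ e := by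
  intro h
  have h1 := h.trans C.he
  have h2 := hp.out.two_le
  exact Nat.not_dvd_of_pos_of_lt (by omega) (by omega) h1

omit C F hu0 in
theorem not_dvd_unit {c : ℤ} (hc : c = 1 ∨ c = -1) : ¬ (p : ℤ) ∣ c := by
  intro h
  have h1 : (p : ℤ) ∣ 1 := by
    rcases hc with rfl | rfl
    · exact h
    · simpa using h
  have h2 := Int.eq_one_of_dvd_one (by positivity) h1
  have h3 : p = 1 := by exact_mod_cast h2
  exact hp.out.one_lt.ne' h3

theorem not_dvd_e_unit {c d : ℤ} (hc : c = 1 ∨ c = -1) (hd : d = 1 ∨ d = -1) : ¬ (p : ℤ) ∣ -((e : ℤ) * c * d) := by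
  intro h
  have hpz : Prime (p : ℤ) := Nat.prime_iff_prime_int.1 hp.out
  have h1 : (p : ℤ) ∣ (e : ℤ) * c * d := by simpa using h
  rcases hpz.dvd_or_dvd h1 with h2 | h2
  · rcases hpz.dvd_or_dvd h2 with h3 | h3
    · have : p ∣ e := by exact_mod_cast h3
      exact C.not_dvd_e F hu0 this
    · exact not_dvd_unit hc h3
  · exact not_dvd_unit hd h2

theorem exists_X (hε : ε₀ = 1 ∨ ε₀ = -1) : ∃ χ, u₀ χ ≠ 0 := by
  obtain ⟨a₀⟩ := C.nonempty_AT
  have h1 := E_card_X C.ae F hu0 hε a₀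
  have h2 : (Finset.univ.filter fun χ => u₀ χ ≠ 0).Nonempty := by
    rw [← Finset.card_pos, h1]
    exact C.e_pos
  obtain ⟨χ, hχ⟩ := h2
  exact ⟨χ, (Finset.mem_filter.1 hχ).2⟩

/-- All members of `B` have the same `p`-part of the degree as soon as one of them has a small one. -/
theorem fact_eq_all (hε : ε₀ = 1 ∨ ε₀ = -1) {χ χ' : IrrCharacter G} (hχ : χ ∈ B) (hχ' : χ' ∈ B)
    (hlt : (charDegree (χ : G → ℂ)).factorization p < (Nat.card G).factorization p) :
    (charDegree (χ' : G → ℂ)).factorization p = (charDegree (χ : G → ℂ)).factorization p := by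
  have hd : ∀ η : IrrCharacter G, charDegree (η : G → ℂ) ≠ 0 := fun η => (charDegree_pos_of_irr η.2).ne'
  have XY : ∀ {η : IrrCharacter G} (hu : u₀ η ≠ 0) (a : AT f ξ₀),
      (charDegree (η : G → ℂ)).factorization p < (Nat.card G).factorization p →
      (charDegree (ψ a : G → ℂ)).factorization p = (charDegree (η : G → ℂ)).factorization p := by
    intro η hu a hlt
    refine fact_eq_2 (c := -((e : ℤ) * ε₀ * u₀ η)) (C.not_dvd_e_unit F hu0 hε (C.unit F hu0 hu)) (hd _) (hd _) hlt ?_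
    have := C.cong_YX F hu0 a hu hε
    convert this using 1
    ring
  have YX : ∀ {η : IrrCharacter G} (hu : u₀ η ≠ 0) (a : AT f ξ₀),
      (charDegree (ψ a : G → ℂ)).factorization p < (Nat.card G).factorization p →
      (charDegree (η : G → ℂ)).factorization p = (charDegree (ψ a : G → ℂ)).factorization p := by
    intro η hu a hlt
    refine fact_eq_1 (c := -((e : ℤ) * ε₀ * u₀ η)) (C.not_dvd_e_unit F hu0 hε (C.unit F hu0 hu)) (hd _) (hd _) hlt ?_
    have := C.cong_YX F hu0 a hu hε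
    convert this using 1
    ring
  rcases C.mem_cases F hu0 hχ with h1 | h1
  · rcases C.mem_cases F hu0 hχ' with h2 | h2
    · refine fact_eq_1 (c := u₀ χ * u₀ χ') ?_ (hd _) (hd _) hlt ?_
      · apply not_dvd_unit
        rcases C.unit F hu0 h1 with h3 | h3 <;> rcases C.unit F hu0 h2 with h4 | h4 <;> rw [h3, h4] <;> norm_num
      · have h3 := (C.cong_XX F hu0 h1 h2).mul_left (u₀ χ)
        have e : (charDegree (χ : G → ℂ) : ℤ) - (u₀ χ * u₀ χ') * (charDegree (χ' : G → ℂ) : ℤ) =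
            u₀ χ * (u₀ χ * (charDegree (χ : G → ℂ) : ℤ) - u₀ χ' * (charDegree (χ' : G → ℂ) : ℤ)) := by
          rw [mul_sub, ← mul_assoc, ← mul_assoc, C.u_sq F hu0 h1, one_mul]
        rw [e]
        exact h3
    · obtain ⟨a, -, rfl⟩ := Finset.mem_image.1 h2
      exact XY h1 a hlt
  · obtain ⟨a, -, rfl⟩ := Finset.mem_image.1 h1
    rcases C.mem_cases F hu0 hχ' with h2 | h2
    · exact YX h2 a hlt
    · obtain ⟨b, -, rfl⟩ := Finset.mem_image.1 h2
      obtain ⟨η, hη⟩ := C.exists_X F hu0 hε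
      have h3 := YX hη a hlt
      rw [XY hη b (h3 ▸ hlt), h3]

theorem height_zero (hε : ε₀ = 1 ∨ ε₀ = -1) {χ : IrrCharacter G} (hχ : χ ∈ B) : blockHeight p B (χ : G → ℂ) = 0 := by
  have := C.isPrime
  have h1 := card_defect_group C.hM C.hB C.hdefB
  rw [Nat.card_zpowers, C.orderOf_xhG] at h1
  have h2 : blockDefect p B = n + 1 := (Nat.pow_right_injective hp.out.two_le h1).symm
  obtain ⟨χ₁, hχ₁⟩ := IsPBlock_nonempty C.hB
  have hne : ((fun ψ : IrrCharacter G => (charDegree (ψ : G → ℂ)).factorization p) '' B).Nonempty := ⟨_, χ₁, hχ₁, rfl⟩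
  obtain ⟨χ₀, hχ₀, h3⟩ := Nat.sInf_mem hne
  unfold blockDefect at h2
  unfold blockHeight
  have h4 : (charDegree (χ₀ : G → ℂ)).factorization p < (Nat.card G).factorization p := by
    simp only at h3
    rw [h3]
    omega
  rw [← h3, C.fact_eq_all F hu0 hε hχ₀ hχ h4, Nat.sub_self]

/-- The rank. -/
theorem rank_eq (hε : ε₀ = 1 ∨ ε₀ = -1) : blockRank p B = e := by
  have := C.isPrime
  obtain ⟨a₀⟩ := C.nonempty_AT
  let XS : Finset (IrrCharacter G) := Finset.univ.filter fun χ => u₀ χ ≠ 0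
  have hXS : ∀ χ, χ ∈ XS ↔ u₀ χ ≠ 0 := fun χ => by simp [XS]
  have hcard : XS.card = e := E_card_X C.ae F hu0 hε a₀
  let v : XS → G → ℂ := fun i => pRegularPart p ((i.1 : IrrCharacter G) : G → ℂ)
  have hsumX : ∀ (c : IrrCharacter G → ℂ) (g : G) , ∑ χ : IrrCharacter G, (u₀ χ : ℂ) * (c χ) = ∑ i : XS, (u₀ i.1 : ℂ) * c i.1 := by
    intro c g
    have e := Finset.sum_coe_sort XS (fun χ => (u₀ χ : ℂ) * c χ)
    refine Eq.trans ?_ e.symm
    symm
    apply Finset.sum_subset (Finset.subset_univ XS)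
    intro χ _ hχ
    have : u₀ χ = 0 := by
      by_contra h
      exact hχ ((hXS χ).2 h)
    rw [this]
    simp
  have hind : LinearIndependent ℂ v := by
    rw [Fintype.linearIndependent_iff]
    intro a₁ ha₁
    have hreg : ∀ g : G, ¬ p ∣ orderOf g → ∑ i : XS, a₁ i * ((i.1 : IrrCharacter G) : G → ℂ) g = 0 := by
      intro g hg
      have h1 := congrFun ha₁ g
      rw [Finset.sum_apply] at h1
      simp only [Pi.smul_apply, smul_eq_mul, v, pRegularPart_eq_of_regular _ hg, Pi.zero_apply] at h1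
      exact h1
    have hconst : ∀ i j : XS, (u₀ i.1 : ℂ) * a₁ i = (u₀ j.1 : ℂ) * a₁ j := by
      intro i j
      have hi := (hXS i.1).1 i.2
      have hj := (hXS j.1).1 j.2
      -- the difference vanishes on singular elements
      have hΔ : ∀ g : G, p ∣ orderOf g → (u₀ i.1 : ℂ) * ((i.1 : IrrCharacter G) : G → ℂ) g - (u₀ j.1 : ℂ) * ((j.1 : IrrCharacter G) : G → ℂ) g = 0 := by
        intro g hg
        have h1 := C.sing_vanish (fun χ'' => ((if χ'' = i.1 then u₀ i.1 else 0) - (if χ'' = j.1 then u₀ j.1 else 0) : ℤ)) ?_ ?_ hg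
        · simp only [Int.cast_sub, sub_mul] at h1
          rw [Finset.sum_sub_distrib] at h1
          rw [Finset.sum_eq_single i.1, Finset.sum_eq_single j.1] at h1
          · simpa using h1
          · intro b _ hb
            simp [hb]
          · intro h
            exact absurd (Finset.mem_univ _) h
          · intro b _ hb
            simp [hb]
          · intro h
            exact absurd (Finset.mem_univ _) h
        · intro χ'' hχ''
          have h2 : χ'' ≠ i.1 := fun h => hχ'' (h ▸ C.X_mem F hu0 hi)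
          have h3 : χ'' ≠ j.1 := fun h => hχ'' (h ▸ C.X_mem F hu0 hj)
          simp [h2, h3]
        · intro a
          simp only [Int.cast_sub, sub_mul]
          rw [Finset.sum_sub_distrib]
          rw [Finset.sum_eq_single i.1, Finset.sum_eq_single j.1]
          · have e1 : (u₀ i.1 : ℂ) * (u₀ i.1 : ℂ) = 1 := by exact_mod_cast C.u_sq F hu0 hi
            have e2 : (u₀ j.1 : ℂ) * (u₀ j.1 : ℂ) = 1 := by exact_mod_cast C.u_sq F hu0 hj
            simp only [if_true, C.cc_X F hu0 hi, C.cc_X F hu0 hj]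
            push_cast
            simp [e1, e2]
          · intro b _ hb
            simp [hb]
          · intro h
            exact absurd (Finset.mem_univ _) h
          · intro b _ hb
            simp [hb]
          · intro h
            exact absurd (Finset.mem_univ _) h
      -- orthogonality
      have h0 : classInner (fun g => (u₀ i.1 : ℂ) * ((i.1 : IrrCharacter G) : G → ℂ) g - (u₀ j.1 : ℂ) * ((j.1 : IrrCharacter G) : G → ℂ) g)
          (∑ k : XS, a₁ k • ((k.1 : IrrCharacter G) : G → ℂ)) = 0 := by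
        rw [classInner_def, Finset.sum_eq_zero, mul_zero]
        intro g _
        by_cases hg : p ∣ orderOf g
        · rw [hΔ g hg, zero_mul]
        · have h1 := hreg g hg
          have h2 : (∑ k : XS, a₁ k • ((k.1 : IrrCharacter G) : G → ℂ)) g = 0 := by
            rw [Finset.sum_apply]
            simpa using h1
          rw [h2, map_zero, mul_zero]
      have h1 : (fun g => (u₀ i.1 : ℂ) * ((i.1 : IrrCharacter G) : G → ℂ) g - (u₀ j.1 : ℂ) * ((j.1 : IrrCharacter G) : G → ℂ) g) =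
          (u₀ i.1 : ℂ) • ((i.1 : IrrCharacter G) : G → ℂ) - (u₀ j.1 : ℂ) • ((j.1 : IrrCharacter G) : G → ℂ) := by
        funext g
        simp
      have h2 : ∀ l : XS, classInner ((l.1 : IrrCharacter G) : G → ℂ) (∑ k : XS, a₁ k • ((k.1 : IrrCharacter G) : G → ℂ)) = conj (a₁ l) := by
        intro l
        rw [classInner_sum_right]
        simp only [classInner_smul_right]
        rw [Finset.sum_eq_single l]
        · rw [classInner_irr_self l.1.2, mul_one]
        · intro k _ hk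
          rw [classInner_irr_of_ne l.1.2 k.1.2 (fun h => hk (Subtype.ext (Subtype.ext h)).symm), mul_zero]
        · intro h
          exact absurd (Finset.mem_univ _) h
      rw [h1, classInner_sub_left, classInner_smul_left, classInner_smul_left, h2, h2] at h0
      have h3 := congrArg conj h0
      simp only [map_sub, map_mul, Complex.conj_conj, map_intCast, map_zero] at h3
      exact sub_eq_zero.1 h3
    intro i
    have hi := (hXS i.1).1 i.2
    have hui : (u₀ i.1 : ℂ) * (u₀ i.1 : ℂ) = 1 := by exact_mod_cast C.u_sq F hu0 hi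
    -- the value at one
    have h1 := hreg 1 (by rw [orderOf_one]; exact hp.out.one_lt.ne' ∘ Nat.dvd_one.1)
    have h2 : ∀ k : XS, a₁ k = (u₀ k.1 : ℂ) * ((u₀ i.1 : ℂ) * a₁ i) := by
      intro k
      have hk := (hXS k.1).1 k.2
      have huk : (u₀ k.1 : ℂ) * (u₀ k.1 : ℂ) = 1 := by exact_mod_cast C.u_sq F hu0 hk
      rw [hconst i k, ← mul_assoc, huk, one_mul]
    have h3 := C.reg_rel F hu0 a₀ (g := 1) (by rw [orderOf_one]; exact hp.out.one_lt.ne' ∘ Nat.dvd_one.1)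
    rw [hsumX (fun χ => (χ : G → ℂ) 1) 1] at h3
    have h4 : ∑ k : XS, a₁ k * ((k.1 : IrrCharacter G) : G → ℂ) 1 = ((u₀ i.1 : ℂ) * a₁ i) * ∑ k : XS, (u₀ k.1 : ℂ) * ((k.1 : IrrCharacter G) : G → ℂ) 1 := by
      rw [Finset.mul_sum]
      refine Finset.sum_congr rfl fun k _ => ?_
      rw [h2 k]
      ring
    rw [h4] at h1
    have h5 : ∑ k : XS, (u₀ k.1 : ℂ) * ((k.1 : IrrCharacter G) : G → ℂ) 1 = -((ε₀ : ℂ) * (ψ a₀ : G → ℂ) 1) := by
      linear_combination h3
    rw [h5] at h1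
    have hε0 : (ε₀ : ℂ) ≠ 0 := by exact_mod_cast F.hε
    have hψ1 : (ψ a₀ : G → ℂ) 1 ≠ 0 := map_one_ne_zero_of_irr (ψ a₀).2
    have h6 : (u₀ i.1 : ℂ) * a₁ i = 0 := by
      rcases mul_eq_zero.1 h1 with h | h
      · exact h
      · exact absurd (neg_eq_zero.1 h) (mul_ne_zero hε0 hψ1)
    have h7 : (u₀ i.1 : ℂ) ≠ 0 := by exact_mod_cast hi
    exact (mul_eq_zero.1 h6).resolve_left h7
  -- the span
  have hspan : Submodule.span ℂ ((fun χ : IrrCharacter G => pRegularPart p (χ : G → ℂ)) '' B) = Submodule.span ℂ (Set.range v) := by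
    apply le_antisymm
    · rw [Submodule.span_le]
      rintro _ ⟨χ, hχ, rfl⟩
      rcases C.mem_cases F hu0 hχ with h1 | h1
      · exact Submodule.subset_span ⟨⟨χ, (hXS χ).2 h1⟩, rfl⟩
      · obtain ⟨a, -, rfl⟩ := Finset.mem_image.1 h1
        have hεε : (ε₀ : ℂ) * (ε₀ : ℂ) = 1 := by
          rcases hε with h | h <;> rw [h] <;> norm_num
        have e1 : pRegularPart p (ψ a : G → ℂ) = ∑ k : XS, (-(ε₀ : ℂ) * (u₀ k.1 : ℂ)) • v k := by
          funext g
          rw [Finset.sum_apply]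
          by_cases hg : p ∣ orderOf g
          · rw [pRegularPart_eq_zero_of_dvd _ hg]
            symm
            apply Finset.sum_eq_zero
            intro k _
            simp only [Pi.smul_apply, smul_eq_mul, v]
            rw [pRegularPart_eq_zero_of_dvd _ hg, mul_zero]
          · rw [pRegularPart_eq_of_regular _ hg]
            simp only [Pi.smul_apply, smul_eq_mul, v, pRegularPart_eq_of_regular _ hg]
            have h3 := C.reg_rel F hu0 a hg
            rw [hsumX (fun χ => (χ : G → ℂ) g) g] at h3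
            have e2 : ∑ k : XS, -(ε₀ : ℂ) * (u₀ k.1 : ℂ) * ((k.1 : IrrCharacter G) : G → ℂ) g =
                -(ε₀ : ℂ) * ∑ k : XS, (u₀ k.1 : ℂ) * ((k.1 : IrrCharacter G) : G → ℂ) g := by
              rw [Finset.mul_sum]
              refine Finset.sum_congr rfl fun k _ => ?_
              ring
            rw [e2]
            linear_combination (ε₀ : ℂ) * h3 - (ψ a : G → ℂ) g * hεε
        simp only
        rw [e1]
        exact Submodule.sum_mem _ fun k _ => Submodule.smul_mem _ _ (Submodule.subset_span ⟨k, rfl⟩)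
    · rw [Submodule.span_le]
      rintro _ ⟨i, rfl⟩
      exact Submodule.subset_span ⟨i.1, C.X_mem F hu0 ((hXS i.1).1 i.2), rfl⟩
  unfold blockRank
  rw [hspan, finrank_span_eq_card hind, Fintype.card_coe, hcard]

end CycG

end Fm

namespace CycG

variable (C : CycG p M B L xh f e' φ N n ε u ξ₀ D A B' Tp e)
include C

/-- **The main theorem on blocks with cyclic defect groups.** -/
theorem main : e ∣ p - 1 ∧ (∀ χ ∈ B, blockHeight p B (χ : G → ℂ) = 0) ∧ blockRank p B = e ∧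
    ∃ X Y : Set (IrrCharacter G), B = X ∪ Y ∧ Disjoint X Y ∧ Nat.card X = e ∧ Nat.card Y = (N - 1) / e ∧
      (∀ ψ ∈ Y, ∀ ψ' ∈ Y, ∀ g : G, ¬ p ∣ orderOf g → (ψ : G → ℂ) g = (ψ' : G → ℂ) g) ∧
      ∃ (δ : IrrCharacter G → ℤ) (δ₀ : ℤ), (∀ χ ∈ X, δ χ = 1 ∨ δ χ = -1) ∧ (δ₀ = 1 ∨ δ₀ = -1) ∧
        (∀ ψ ∈ Y, ∀ g : G, ¬ p ∣ orderOf g → (δ₀ : ℂ) * (ψ : G → ℂ) g + ∑ᶠ χ ∈ X, (δ χ : ℂ) * (χ : G → ℂ) g = 0) ∧
        (∀ χ ∈ X, ∀ χ' ∈ X, δ χ * (charDegree (χ : G → ℂ) : ℤ) ≡ δ χ' * (charDegree (χ' : G → ℂ) : ℤ) [ZMOD (p : ℤ) ^ (n + 1)]) ∧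
        (∀ ψ ∈ Y, ∀ χ ∈ X, (charDegree (ψ : G → ℂ) : ℤ) ≡ -((e : ℤ) * δ₀ * δ χ * (charDegree (χ : G → ℂ) : ℤ)) [ZMOD (p : ℤ) ^ (n + 1)]) := by
  classical
  obtain ⟨u₀, ε₀, ψ, hε, F, hu0⟩ := C.exists_form
  obtain ⟨a₀⟩ := C.nonempty_AT
  have hte := E_t_e C.ae F
  have hα : ((p : ℤ) ^ (n + 1)) ∣ ((p : ℤ) ^ (Nat.card G).factorization p) := by
    apply pow_dvd_pow
    have h1 : p ^ (n + 1) ∣ Nat.card G := by
      rw [← C.orderOf_xhG]
      exact orderOf_dvd_natCard _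
    exact (hp.out.pow_dvd_iff_le_factorization Nat.card_pos.ne').1 h1
  refine ⟨C.he, fun χ hχ => C.height_zero F hu0 hε hχ, C.rank_eq F hu0 hε, {χ | u₀ χ ≠ 0}, ↑(imgA ψ), ?_, ?_, ?_, ?_, ?_, u₀, ε₀,
    fun χ hχ => C.unit F hu0 hχ, hε, ?_, ?_, ?_⟩
  · ext χ
    constructor
    · intro hχ
      exact C.mem_cases F hu0 hχ
    · rintro (h | h)
      · exact C.X_mem F hu0 h
      · obtain ⟨a, -, rfl⟩ := Finset.mem_image.1 h
        exact C.Y_mem F hu0 a
  · rw [Set.disjoint_left]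
    rintro χ hχ h
    exact A_XY F hu0 hχ h
  · rw [← E_card_X C.ae F hu0 hε a₀]
    exact Nat.subtype_card _ (by simp)
  · have h1 : Nat.card (↑(imgA ψ) : Set (IrrCharacter G)) = (imgA ψ).card := by
      rw [Nat.card_coe_set_eq, Set.ncard_coe_finset]
    have h2 : N - 1 = Fintype.card (AT f ξ₀) := by
      have := C.card_AT
      omega
    rw [h1, h2, ← hte, Nat.mul_div_cancel _ C.e_pos]
  · have hrel : ∀ (a : AT f ξ₀) (g : G), ¬ p ∣ orderOf g → (ε₀ : ℂ) * (ψ a : G → ℂ) g =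
        - ∑ χ : IrrCharacter G, (u₀ χ : ℂ) * (χ : G → ℂ) g := by
      intro a g hg
      linear_combination C.reg_rel F hu0 a hg
    have hε0 : (ε₀ : ℂ) ≠ 0 := by exact_mod_cast F.hε
    intro y hy y' hy' g hg
    obtain ⟨a, -, rfl⟩ := Finset.mem_image.mp (show y ∈ imgA ψ from hy)
    obtain ⟨b, -, rfl⟩ := Finset.mem_image.mp (show y' ∈ imgA ψ from hy')
    apply mul_left_cancel₀ hε0
    rw [hrel a g hg, hrel b g hg]
  · intro y hy g hg
    obtain ⟨a, -, rfl⟩ := Finset.mem_image.mp (show y ∈ imgA ψ from hy)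
    have h1 := C.reg_rel F hu0 a hg
    rw [finsum_mem_irr]
    convert h1 using 2
    refine Finset.sum_congr rfl fun χ _ => ?_
    by_cases h : χ ∈ {χ | u₀ χ ≠ 0}
    · rw [if_pos h]
    · rw [if_neg h]
      have : u₀ χ = 0 := by
        by_contra h'
        exact h h'
      rw [this]
      simp
  · intro χ hχ χ' hχ'
    apply Int.ModEq.symm
    rw [Int.modEq_iff_dvd]
    exact hα.trans (C.cong_XX F hu0 hχ hχ')
  · intro y hy χ hχ
    obtain ⟨a, -, rfl⟩ := Finset.mem_image.mp (show y ∈ imgA ψ from hy)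
    apply Int.ModEq.symm
    rw [Int.modEq_iff_dvd]
    have h1 := hα.trans (C.cong_YX F hu0 a hχ hε)
    have e1 : (charDegree (ψ a : G → ℂ) : ℤ) - -((e : ℤ) * ε₀ * u₀ χ * (charDegree (χ : G → ℂ) : ℤ)) =
        (charDegree (ψ a : G → ℂ) : ℤ) + (e : ℤ) * ε₀ * u₀ χ * (charDegree (χ : G → ℂ) : ℤ) := by ring
    rw [e1]
    exact h1

end CycG

end G

end Cfsg.Agent.Lib.FF
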