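import Cfsg.Agent.Lib.FF.CycG5

/-!
# Blocks with cyclic defect group: the local data exists
-/

set_option autoImplicit false
set_option linter.unusedSectionVars false
set_option linter.unusedVariables false
set_option maxSynthPendingDepth 3
set_option linter.style.haveILetI false
set_option linter.unusedSimpArgs false
set_option linter.unnecessarySimpa false

open scoped ComplexConjugate
open Module Cfsg Cfsg.Agent.Lib.Block Cfsg.Agent.Lib.Char Cfsg.Agent.Lib.CharExtra Cfsg.Agent.Lib.BPair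

namespace Cfsg.Agent.Lib.FF

attribute [local instance] Cfsg.Agent.Lib.BPair.subFintype

section G6

variable {G : Type*} [Group G] [Fintype G] {p : ℕ} [hp : Fact p.Prime] {M : Ideal AlgInt}

theorem exists_conj_pow {n : ℕ} {x t : G} (hxo : orderOf x = p ^ (n + 1)) (h : t⁻¹ * x * t ∈ Subgroup.zpowers x) :
    ∃ s : ℕ, ¬ p ∣ s ∧ t⁻¹ * x * t = x ^ s := by
  obtain ⟨s, hs⟩ := mem_powers_iff_mem_zpowers.2 h
  have hs' : x ^ s = t⁻¹ * x * t := hs
  refine ⟨s, ?_, hs'.symm⟩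
  rintro ⟨r, rfl⟩
  have h1 : orderOf (t⁻¹ * x * t) = orderOf x := by
    have e : t⁻¹ * x * t = t⁻¹ * x * t⁻¹⁻¹ := by simp
    rw [e, orderOf_conj]
  have h2 : (x ^ (p * r)) ^ p ^ n = 1 := by
    rw [← pow_mul, show p * r * p ^ n = p ^ (n + 1) * r by ring, pow_mul, ← hxo, pow_orderOf_eq_one, one_pow]
  have h3 := orderOf_dvd_of_pow_eq_one h2
  rw [hs', h1, hxo] at h3
  have h4 := (Nat.pow_dvd_pow_iff_le_right (Fact.out : p.Prime).one_lt).1 h3
  omega

/-- An element stabilizing `b` fixes the function `φ` under conjugation. -/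
theorem phi_conj {L : Subgroup G} {xh : L} {f : Set (IrrCharacter L)}
    {e' : Set (IrrCharacter (Subgroup.centralizer ({xh} : Set L)))} {φ : Subgroup.centralizer ({xh} : Set L) → ℂ}
    {N n : ℕ} (S : NilSec p M f xh e' φ N n) {D : Subgroup G} {b : Set (IrrCharacter (Cen D))}
    (κ : Subgroup.centralizer ({xh} : Set L) ≃* Cen D) (hκ : ∀ k, ((κ k : Cen D) : G) = ((k : L) : G))
    (he' : e' = mapBlock κ.symm b) {t : G} (htc : t ∈ Subgroup.normalizer ((Cen D : Subgroup G) : Set G))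
    (hts : mapBlock (nConj htc) b = b) (htL : t ∈ Subgroup.normalizer (L : Set G))
    (c c' : Subgroup.centralizer ({xh} : Set L)) (h : (c' : L) = (nConj htL).symm c) : φ c' = φ c := by
  classical
  have := S.isPrime
  obtain ⟨θ, hθ, hθφ⟩ := S.exists_theta
  have h1 : mapIrr κ θ ∈ b := by
    rw [he', mem_mapBlock, MulEquiv.symm_symm] at hθ
    exact hθ
  have h2 : mapIrr (nConj htc) (mapIrr κ θ) ∈ b := by
    rw [← hts]
    exact mapIrr_mem_mapBlock.2 h1
  have h3 : mapIrr κ.symm (mapIrr (nConj htc) (mapIrr κ θ)) ∈ e' := by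
    rw [he']
    exact mapIrr_mem_mapBlock.2 h2
  have h4 := S.hreg _ h3
  have hc1 : ((c' : L) : G) = t⁻¹ * ((c : L) : G) * t := by
    rw [h]
    rfl
  have hord : orderOf ((c' : L) : G) = orderOf ((c : L) : G) := by
    have e : t⁻¹ * ((c : L) : G) * t = t⁻¹ * ((c : L) : G) * t⁻¹⁻¹ := by simp
    rw [hc1, e, orderOf_conj]
  have ho : orderOf c' = orderOf c := by
    have h1 := Subgroup.orderOf_coe c'
    have h2 := Subgroup.orderOf_coe (c' : L)
    have h3 := Subgroup.orderOf_coe c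
    have h4 := Subgroup.orderOf_coe (c : L)
    omega
  have hreg : IsPRegular p c' ↔ IsPRegular p c := by
    unfold IsPRegular
    rw [ho]
  have h5 : κ.symm ((nConj htc).symm (κ c)) = c' := by
    apply κ.injective
    rw [MulEquiv.apply_symm_apply]
    apply Subtype.ext
    rw [nConj_symm_coe, hκ, hκ, hc1]
  have e1 : φ c' = pRegularPart p (θ : _ → ℂ) c' := (congrFun hθφ c').symm
  have e2 := (congrFun h4 c).symm
  rw [e1, e2]
  unfold pRegularPart
  simp only [hreg]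
  split_ifs with hr
  · rw [mapIrr_apply', mapIrr_apply', mapIrr_apply', MulEquiv.symm_symm, h5]
  · rfl

/-- All the blocks of `C_G(Q)` inducing `B` are conjugate to `f`. -/
theorem hconj_aux (hM : IsPModular p M) {B : Set (IrrCharacter G)} {D : Subgroup G} {c : Set (IrrCharacter (Cen D))}
    (hmax : IsMaximalBrauerPair p M B D c) {z : G} (hz : orderOf z = p) (hzD : z ∈ D) (hcyc : IsCyclic D)
    {Q : Subgroup G} (hQ : Q = Subgroup.zpowers z) {f : Set (IrrCharacter (Cen Q))} (hf : IsPBlock M f)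
    (hle : SubpairLE p M Q f D c) (f' : Set (IrrCharacter (Cen Q))) (hind : IsInducedBlock M (Cen Q) f' B) :
    ∃ (m : G) (hm : m ∈ Subgroup.normalizer ((Cen Q : Subgroup G) : Set G)), f' = mapBlock (nConj hm) f := by
  classical
  have := isPModular_isPrime hM
  have hPe := (isBrauerPairOf_iff.1 hmax.1).1
  have hQp : IsPGroup p Q := hPe.1.to_le (le_of_subpairLE hle)
  have hpair := isBrauerPairOf_of_induced hQp hind
  obtain ⟨y, hy⟩ := exists_conj_subpair hM hmax hpair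
  have h1 := le_of_subpairLE hy
  have hzQ : z ∈ Q := by
    rw [hQ]
    exact Subgroup.mem_zpowers z
  have h2 : y * z * y⁻¹ ∈ D := by
    apply h1
    rw [mem_cj]
    have e : y⁻¹ * (y * z * y⁻¹) * y = z := by group
    rwa [e]
  have h3 : y * z * y⁻¹ ∈ Subgroup.zpowers z := by
    haveI := hcyc
    have h4 := mem_zpowers_of_orderOf_eq_prime (C := D) (a := ⟨z, hzD⟩) (b := ⟨_, h2⟩) (p := p)
      (by rw [Subgroup.orderOf_mk]; exact hz) (by rw [Subgroup.orderOf_mk, orderOf_conj]; exact hz)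
    obtain ⟨j, hj⟩ := Subgroup.mem_zpowers_iff.1 h4
    exact Subgroup.mem_zpowers_iff.2 ⟨j, congrArg Subtype.val hj⟩
  have hyN : y ∈ Subgroup.normalizer (Q : Set G) := by
    rw [hQ]
    exact mem_norm_zpowers_of_conj h3
  have hyc := normalizer_le_normalizer_cen hyN
  have hcjQ : cj y Q = Q := cj_eq_of_mem_normalizer hyN
  have transport : ∀ Q' : Subgroup G, Q' = Q → ∀ E : Cen Q ≃* Cen Q', (∀ c, ((E c : Cen Q') : G) = y * c * y⁻¹) →
      SubpairLE p M Q' (mapBlock E f') D c → SubpairLE p M Q (mapBlock (nConj hyc) f') D c := by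
    rintro Q' rfl E hE h
    have : E = nConj hyc := by
      ext k
      exact hE k
    rwa [this] at h
  rw [conjBlock_eq] at hy
  have h4 := transport _ hcjQ (cEquiv Q y) (fun c => rfl) hy
  have h5 : f = mapBlock (nConj hyc) f' :=
    (existsUnique_subpair hM hPe (le_of_subpairLE hle)).unique ⟨hf, hle⟩ ⟨isPBlock_mapBlock _ hind.1, h4⟩
  refine ⟨y⁻¹, Subgroup.inv_mem _ hyc, ?_⟩
  have e1 : nConj (Subgroup.inv_mem _ hyc) = (nConj hyc).symm := by
    ext k
    show y⁻¹ * (k : G) * y⁻¹⁻¹ = y⁻¹ * k * y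
    simp
  rw [e1, h5, mapBlock_symm_mapBlock]

theorem exists_sec_core (hM : IsPModular p M) {Q D : Subgroup G} {xh : Cen Q} {n : ℕ} (hxo : orderOf xh = p ^ (n + 1))
    (hDup : D = up (Subgroup.zpowers xh)) {f : Set (IrrCharacter (Cen Q))} (hf : IsPBlock M f)
    (hfD : IsDefectGroup p M f (Subgroup.zpowers xh)) (hnil : IsNilpotentBlock p M f)
    {b : Set (IrrCharacter (Cen D))} (hn : IsNormalSubpair p M Q f D b) :
    ∃ (κ : Subgroup.centralizer ({xh} : Set (Cen Q)) ≃* Cen D) (φ : Subgroup.centralizer ({xh} : Set (Cen Q)) → ℂ),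
      (∀ k, ((κ k : Cen D) : G) = ((k : Cen Q) : G)) ∧ NilSec p M f xh (mapBlock κ.symm b) φ (p ^ (n + 1)) n := by
  classical
  have := isPModular_isPrime hM
  subst hDup
  have hQD : Q ≤ up (Subgroup.zpowers xh) := (isNormalSubpair_iff.1 hn).2.2.1
  have hDL : Cen (up (Subgroup.zpowers xh)) ≤ Cen Q := cen_le_cen hQD
  have hmaxd := isMaximal_down hM hf rfl hfD hDL hn
  have hc := hmaxd.1
  let ι₀ : Subgroup.centralizer ({xh} : Set (Cen Q)) ≃* Cen (Subgroup.zpowers xh) :=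
    MulEquiv.subgroupCongr (centralizer_zpowers_eq xh).symm
  obtain ⟨φ, S⟩ := exists_nilSec_of hM hfD hnil hxo hc ι₀ (fun k => rfl)
  refine ⟨ι₀.trans (cenIso _ hDL), φ, fun k => rfl, ?_⟩
  have e1 : mapBlock (ι₀.trans (cenIso _ hDL)).symm b = mapBlock ι₀.symm (mapBlock (cenIso _ hDL).symm b) := by
    rw [← mapBlock_trans]
    rfl
  rw [e1]
  exact S

theorem mem_cen_of_dvd {x t : G} {n s : ℕ} (hxo : orderOf x = p ^ (n + 1)) (hsx : t⁻¹ * x * t = x ^ s) (hs1 : p ∣ s - 1)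
    (hs : ¬ p ∣ s) : Commute t (x ^ p ^ n) := by
  have hs0 : 0 < s := Nat.pos_of_ne_zero fun h => hs (by rw [h]; exact dvd_zero p)
  obtain ⟨k, hk⟩ := hs1
  have hs2 : s = p * k + 1 := by omega
  have h1 : t⁻¹ * x ^ p ^ n * t = (x ^ s) ^ p ^ n := by
    rw [← hsx]
    have e : t⁻¹ * x * t = t⁻¹ * x * t⁻¹⁻¹ := by simp
    rw [e, conj_pow]
    simp
  have h2 : (x ^ s) ^ p ^ n = x ^ p ^ n := by
    rw [← pow_mul, hs2, show (p * k + 1) * p ^ n = p ^ (n + 1) * k + p ^ n by ring, pow_add, pow_mul, ← hxo,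
      pow_orderOf_eq_one, one_pow, one_mul]
  rw [h2] at h1
  show t * x ^ p ^ n = x ^ p ^ n * t
  have h3 : t * (t⁻¹ * x ^ p ^ n * t) = x ^ p ^ n * t := by group
  rw [h1] at h3
  exact h3

theorem exists_cycG_core (hM : IsPModular p M) {B : Set (IrrCharacter G)} (hB : IsPBlock M B) {x : G} {n : ℕ}
    (hxo : orderOf x = p ^ (n + 1)) {Q : Subgroup G} (hQ : Q = Subgroup.zpowers (x ^ p ^ n))
    (xh : Cen Q) (hxh : (xh : G) = x) {D : Subgroup G} (hDup : D = up (Subgroup.zpowers xh))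
    (hcyc : IsCyclic D) (hBD : IsDefectGroup p M B D) {b : Set (IrrCharacter (Cen D))}
    (hind : IsInducedBlock M (Cen D) b B) {T : Subgroup G}
    (hT : ∀ g, g ∈ T ↔ g ∈ Subgroup.normalizer (D : Set G) ∧ StabilizesBlock (Cen D) b g) {e : ℕ}
    (he : (Cen D).relIndex T = e) :
    ∃ f e' φ ε u ξ₀ D' A B' Tp, CycG p M B (Cen Q) xh f e' φ (p ^ (n + 1)) n ε u ξ₀ D' A B' Tp e ∧
      ∀ g ∈ Tp, ∃ s : ℕ, s ^ e ≡ 1 [MOD p ^ (n + 1)] ∧ ∀ ξ ∈ f,
        ε * dd (p ^ (n + 1)) xh φ 1 (actI (Cen Q) g ξ) = (ε * dd (p ^ (n + 1)) xh φ 1 ξ) ^ s := by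
  classical
  have := isPModular_isPrime hM
  have hPp := isPGroup_of_isDefectGroup hBD
  have hab := comm_of_cyclic hcyc
  have hpair : IsBrauerPairOf p M B D b := isBrauerPairOf_of_induced hPp hind
  have hmax := isMaximal_of_defect hM hBD hpair
  have hPe := (isBrauerPairOf_iff.1 hmax.1).1
  have hxD : x ∈ D := by
    rw [hDup, ← hxh]
    exact coe_mem_up.2 (Subgroup.mem_zpowers xh)
  have hDx : D = Subgroup.zpowers x := by
    rw [hDup, ← hxh]
    show Subgroup.map (Cen Q).subtype (Subgroup.zpowers xh) = _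
    rw [MonoidHom.map_zpowers]
    rfl
  have hzo : orderOf (x ^ p ^ n) = p := by
    have h1 := orderOf_pow_orderOf_div (x := x) (n := p) (by rw [hxo]; exact (pow_pos hp.out.pos _).ne')
      (by rw [hxo]; exact dvd_pow_self _ (by omega))
    have h2 : orderOf x / p = p ^ n := by
      rw [hxo, pow_succ, Nat.mul_div_cancel _ hp.out.pos]
    rwa [h2] at h1
  have hzD : x ^ p ^ n ∈ D := Subgroup.pow_mem _ hxD _
  have hQD : Q ≤ D := by
    rw [hQ]
    exact Subgroup.zpowers_le.2 hzD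
  have hQ1 : Q ≠ ⊥ := by
    rw [hQ]
    intro h
    rw [Subgroup.zpowers_eq_bot] at h
    rw [h, orderOf_one] at hzo
    exact hp.out.one_lt.ne hzo
  have hP1 : D ≠ ⊥ := by
    rintro rfl
    exact hQ1 (le_bot_iff.1 hQD)
  have hDP : D ≤ Cen Q := le_cen_of_abelian hab hQD
  obtain ⟨f, ⟨hf, hle⟩, -⟩ := existsUnique_subpair hM hPe hQD
  have hfree' : ∀ g ∈ T, ∀ x ∈ D, x ≠ 1 → g * x * g⁻¹ = x → g ∈ Cen D := fun g hg x hx hx1 hgx => by
    obtain ⟨h3, h4⟩ := (hT g).1 hg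
    exact free_of_cyclic hM hmax hcyc h3 h4 hx hx1 hgx
  obtain ⟨hnil, hfD0, hrank, hcardf⟩ := nil_ab_sub hM hmax hab
    (fun g hg1 hg2 x hx hx1 hgx => free_of_cyclic hM hmax hcyc hg1 hg2 hx hx1 hgx) hle hQ1
  have hfD : IsDefectGroup p M f (Subgroup.zpowers xh) := by
    have e1 : D.subgroupOf (Cen Q) = Subgroup.zpowers xh := by
      ext u
      rw [Subgroup.mem_subgroupOf, hDup]
      exact coe_mem_up
    rwa [e1] at hfD0
  have hn : IsNormalSubpair p M Q f D b :=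
    isNormalSubpair_of_le hM hPe hle Relation.ReflTransGen.refl hQD (hDP.trans (cen_le_normalizer Q))
  have hxho : orderOf xh = p ^ (n + 1) := by
    rw [← Subgroup.orderOf_coe, hxh, hxo]
  obtain ⟨κ, φ, hκ, S⟩ := exists_sec_core hM hxho hDup hf hfD hnil hn
  obtain ⟨ε, u, ξ₀, D', A, B', U⟩ := S.exists_nilU
  obtain ⟨Tp, hTp0⟩ := exists_pairT hf
  have hQ' : Q = Subgroup.zpowers ((xh : G) ^ p ^ n) := by
    rw [hxh]
    exact hQ
  have hL : ∀ g : G, g ∈ Cen Q ↔ Commute g ((xh : G) ^ p ^ n) := by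
    intro g
    have key : ∀ z : G, Q = Subgroup.zpowers z → (g ∈ Cen Q ↔ Commute g z) := by
      intro z hz
      rw [hz]
      show g ∈ Subgroup.centralizer ((Subgroup.zpowers z : Subgroup G) : Set G) ↔ _
      rw [centralizer_zpowers_eq, Subgroup.mem_centralizer_singleton_iff]
      rfl
    exact key _ hQ'
  obtain ⟨h1, h2⟩ := abelian_stab hM hmax hab hle hTp0 hT
  have hTN : T ≤ Subgroup.normalizer (Q : Set G) := fun t ht => normalizer_le_of_cyclic hcyc hQD ((hT t).1 ht).1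
  have hCP : Cen D ≤ T := fun g hg => (hT g).2 ⟨cen_le_normalizer D hg, stabilizes_of_mem_cen hg⟩
  have hinf1 : T ⊓ Subgroup.normalizer (Q : Set G) = T := inf_eq_left.2 hTN
  have hinf2 : T ⊓ Cen Q = Cen D := by
    ext g
    constructor
    · rintro ⟨hg1, hg2⟩
      refine hfree' g hg1 (x ^ p ^ n) hzD ?_ ?_
      · intro h
        rw [h, orderOf_one] at hzo
        exact hp.out.one_lt.ne hzo
      · have h3 := (hL g).1 hg2
        rw [hxh] at h3
        rw [h3.eq]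
        simp
    · intro hg
      exact ⟨hCP hg, cen_le_cen hQD hg⟩
  have hidx : (Cen Q).relIndex Tp = e := by
    rw [← he]
    show ((Cen Q).subgroupOf Tp).index = ((Cen D).subgroupOf T).index
    rw [h2, hinf1, hinf2]
  have hTTp : T ≤ Tp := fun t ht => by
    obtain ⟨h3, h4⟩ := (hT t).1 ht
    exact (hTp0 t).2 ⟨hTN ht, inf_le_stab hM hmax hle h3 h4 (hTN ht)⟩
  have hact : ∀ t ∈ T, ∃ (htL : t ∈ Subgroup.normalizer ((Cen Q : Subgroup G) : Set G)) (s : ℕ), ¬ p ∣ s ∧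
      (nConj htL).symm xh = xh ^ s ∧ t⁻¹ * x * t = x ^ s ∧ mapBlock (nConj htL) f = f ∧
      ∀ c c' : Subgroup.centralizer ({xh} : Set (Cen Q)), (c' : Cen Q) = (nConj htL).symm c → φ c' = φ c := by
    intro t ht
    obtain ⟨h3, h4⟩ := (hT t).1 ht
    have htQ : t ∈ Subgroup.normalizer (Q : Set G) := hTN ht
    have htL := normalizer_le_normalizer_cen htQ
    have htf : StabilizesBlock (Cen Q) f t := inf_le_stab hM hmax hle h3 h4 htQ
    obtain ⟨_, h5⟩ := (stabilizes_iff hf).1 htf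
    obtain ⟨htc, h6⟩ := (stabilizes_iff hPe.2).1 h4
    have h7 : t⁻¹ * x * t ∈ Subgroup.zpowers x := by
      rw [← hDx]
      have := (Subgroup.mem_normalizer_iff.1 (Subgroup.inv_mem _ h3) x).1 hxD
      simpa using this
    obtain ⟨s, hs, hsx⟩ := exists_conj_pow hxo h7
    refine ⟨htL, s, hs, ?_, hsx, h5, fun c c' h => phi_conj S κ hκ rfl htc h6 htL c c' h⟩
    apply Subtype.ext
    rw [nConj_symm_coe]
    push_cast
    rw [hxh]
    exact hsx
  have hac : ∀ (h t c : G) (hh : h ∈ Subgroup.normalizer ((Cen Q : Subgroup G) : Set G))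
      (htL : t ∈ Subgroup.normalizer ((Cen Q : Subgroup G) : Set G)), c ∈ Cen Q → h = t * c → ∀ ξ,
      mapIrr (nConj hh) ξ = mapIrr (nConj htL) ξ := by
    rintro h t c hh htL hc rfl ξ
    rw [← actI_of_mem hh, actI_mul htL (Subgroup.le_normalizer hc), actI_of_mem_L hc, actI_of_mem htL]
  have hfix : ∀ h (hh : h ∈ Subgroup.normalizer ((Cen Q : Subgroup G) : Set G)), h ∈ Tp → mapIrr (nConj hh) ξ₀ = ξ₀ := by
    intro h hh hhT
    obtain ⟨t, ht, c, hc, hcc⟩ := h1 h hhT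
    obtain ⟨htL, s, hs, hτ, hsx, h5, hφ⟩ := hact t ht
    rw [hac h t c hh htL hc hcc]
    have h8 : mapIrr (nConj htL) ξ₀ ∈ f := by
      rw [← h5]
      exact mapIrr_mem_mapBlock.2 U.h₀
    have h9 := U.fix_xi S (nConj htL).symm hτ hs hφ (by rwa [MulEquiv.symm_symm])
    rwa [MulEquiv.symm_symm] at h9
  have hfree : ∀ h (hh : h ∈ Subgroup.normalizer ((Cen Q : Subgroup G) : Set G)), h ∈ Tp → ∀ ξ ∈ f,
      mapIrr (nConj hh) ξ = ξ → ξ = ξ₀ ∨ h ∈ Cen Q := by
    intro h hh hhT ξ hξ hfixξ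
    obtain ⟨t, ht, c, hc, hcc⟩ := h1 h hhT
    obtain ⟨htL, s, hs, hτ, hsx, h5, hφ⟩ := hact t ht
    rw [hac h t c hh htL hc hcc] at hfixξ
    by_cases hs1 : p ∣ s - 1
    · right
      rw [hcc]
      refine Subgroup.mul_mem _ ?_ hc
      rw [hL, hxh]
      exact mem_cen_of_dvd hxo hsx hs1 hs
    · left
      exact U.free_xi S (nConj htL).symm hτ hs hφ hs1 hξ (by rwa [MulEquiv.symm_symm])
  haveI hnor : ((Cen D).subgroupOf T).Normal :=
    (Subgroup.normal_subgroupOf_iff_le_normalizer hCP).2 (fun y hy => normalizer_le_normalizer_cen ((hT y).1 hy).1)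
  obtain ⟨hqc, hdvd⟩ := inertial_cyclic_aux hP1 hcyc hPp (fun y hy => ((hT y).1 hy).1) hfree'
  have hdvd' : e ∣ p - 1 := by
    rw [← he]
    exact hdvd
  obtain ⟨g₀, hg₀⟩ := IsCyclic.exists_monoid_generator (α := T ⧸ (Cen D).subgroupOf T)
  obtain ⟨t₀, rfl⟩ := QuotientGroup.mk_surjective g₀
  have hdec : ∀ y : T, ∃ j : ℕ, ∃ c : G, c ∈ Cen D ∧ (y : G) = (t₀ : G) ^ j * c := by
    intro y
    obtain ⟨j, hj⟩ := Submonoid.mem_powers_iff _ _ |>.1 (hg₀ (QuotientGroup.mk y))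
    have h3 : (QuotientGroup.mk (t₀ ^ j) : T ⧸ (Cen D).subgroupOf T) = QuotientGroup.mk y := hj
    have h4 := QuotientGroup.eq.1 h3
    rw [Subgroup.mem_subgroupOf] at h4
    refine ⟨j, _, h4, ?_⟩
    push_cast
    group
  have ht : ∃ t : Tp, ∀ x : Tp, ∃ (j : ℕ) (l : Cen Q), (x : G) = (t : G) ^ j * l := by
    refine ⟨⟨t₀, hTTp t₀.2⟩, fun x' => ?_⟩
    obtain ⟨y, hy, c, hc, hcc⟩ := h1 x' x'.2
    obtain ⟨j, c₀, hc₀, hj⟩ := hdec ⟨y, hy⟩
    refine ⟨j, ⟨c₀ * c, Subgroup.mul_mem _ (cen_le_cen hQD hc₀) hc⟩, ?_⟩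
    rw [hcc]
    have hj' : y = (t₀ : G) ^ j * c₀ := hj
    rw [hj', mul_assoc]
  refine ⟨f, _, φ, ε, u, ξ₀, D', A, B', Tp, ⟨hM, hB, S, U, hL, isInducedBlock_of_pair hM (isBrauerPairOf_of_le hM hmax hle), ?_, hfD,
    hconj_aux hM hmax hzo hzD hcyc hQ hf hle, ?_, hidx, hfix, hfree, hdvd', ht⟩, ?_⟩
  · rw [hxh, ← hDx]
    exact hBD
  · rw [← hQ']
    exact hTp0
  · intro g hg
    obtain ⟨t, ht', c, hc, hcc⟩ := h1 g hg
    obtain ⟨htL, s, hs, hτ, hsx, h5, hφ⟩ := hact t ht'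
    refine ⟨s, ?_, fun ξ hξ => ?_⟩
    · have h3 := Subgroup.pow_index_mem ((Cen D).subgroupOf T) (⟨t, ht'⟩ : T)
      have h4 : ((Cen D).subgroupOf T).index = e := he
      rw [h4, Subgroup.mem_subgroupOf] at h3
      have h5 : t ^ e ∈ Cen D := by simpa using h3
      have h6 : ∀ k : ℕ, (t ^ k)⁻¹ * x * t ^ k = x ^ s ^ k := by
        intro k
        induction k with
        | zero => simp
        | succ k ih =>
          have e1 : (t ^ (k + 1))⁻¹ * x * t ^ (k + 1) = t⁻¹ * ((t ^ k)⁻¹ * x * t ^ k) * t := by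
            rw [pow_succ]
            group
          rw [e1, ih]
          have e2 : t⁻¹ * x ^ s ^ k * t = (t⁻¹ * x * t) ^ s ^ k := by
            have e3 : t⁻¹ * x * t = t⁻¹ * x * t⁻¹⁻¹ := by simp
            rw [e3, conj_pow]
            simp
          rw [e2, hsx, ← pow_mul, pow_succ, mul_comm]
      have h7 := h6 e
      have h8 : x * t ^ e = t ^ e * x := (Subgroup.mem_centralizer_iff.1 h5 x hxD)
      have h9 : x = x ^ s ^ e := by
        rw [← h7, mul_assoc, h8]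
        group
      have h10 : x ^ s ^ e = x ^ 1 := by
        rw [← h9, pow_one]
      have h11 := pow_eq_pow_iff_modEq.1 h10
      rwa [hxo] at h11
    · have hgN : g ∈ Subgroup.normalizer ((Cen Q : Subgroup G) : Set G) := by
        rw [hcc]
        exact Subgroup.mul_mem _ htL (Subgroup.le_normalizer hc)
      rw [actI_of_mem hgN, hac g t c hgN htL hc hcc]
      exact U.eta_aut S (nConj htL).symm hτ hs hφ hξ

/-- The local data exist, with the action of the stabilizer on the section numbers. -/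
theorem exists_cycG' (hM : IsPModular p M) {B : Set (IrrCharacter G)} (hB : IsPBlock M B) {D : Subgroup G} (hcyc : IsCyclic D)
    {n : ℕ} (hDa : Nat.card D = p ^ (n + 1)) (hBD : IsDefectGroup p M B D) {b : Set (IrrCharacter (Cen D))}
    (hind : IsInducedBlock M (Cen D) b B) {T : Subgroup G}
    (hT : ∀ g, g ∈ T ↔ g ∈ Subgroup.normalizer (D : Set G) ∧ StabilizesBlock (Cen D) b g) {e : ℕ}
    (he : (Cen D).relIndex T = e) :
    ∃ (L : Subgroup G) (xh : L) (f : _) (e' : _) (φ : _) (ε : _) (u : _) (ξ₀ : _) (D' A B' : _) (Tp : _),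
      CycG p M B L xh f e' φ (p ^ (n + 1)) n ε u ξ₀ D' A B' Tp e ∧
      ∀ g ∈ Tp, ∃ s : ℕ, s ^ e ≡ 1 [MOD p ^ (n + 1)] ∧ ∀ ξ ∈ f,
        ε * dd (p ^ (n + 1)) xh φ 1 (actI L g ξ) = (ε * dd (p ^ (n + 1)) xh φ 1 ξ) ^ s := by
  classical
  obtain ⟨g, hg⟩ := hcyc.exists_generator
  obtain ⟨x, hx⟩ : ∃ x : G, x = g := ⟨_, rfl⟩
  have hDx : D = Subgroup.zpowers x := by
    apply le_antisymm
    · intro u hu
      obtain ⟨i, hi⟩ := Subgroup.mem_zpowers_iff.1 (hg ⟨u, hu⟩)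
      exact Subgroup.mem_zpowers_iff.2 ⟨i, by rw [hx]; exact congrArg Subtype.val hi⟩
    · rw [hx]
      exact Subgroup.zpowers_le.2 g.2
  have hxo : orderOf x = p ^ (n + 1) := by
    rw [← Nat.card_zpowers, ← hDx, hDa]
  have hxc : x ∈ Cen (Subgroup.zpowers (x ^ p ^ n)) := by
    show x ∈ Subgroup.centralizer ((Subgroup.zpowers (x ^ p ^ n) : Subgroup G) : Set G)
    rw [centralizer_zpowers_eq, Subgroup.mem_centralizer_singleton_iff]
    exact ((Commute.refl x).pow_right _)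
  have hup : D = up (Subgroup.zpowers (⟨x, hxc⟩ : Cen (Subgroup.zpowers (x ^ p ^ n)))) := by
    rw [hDx]
    show _ = Subgroup.map (Cen (Subgroup.zpowers (x ^ p ^ n))).subtype _
    rw [MonoidHom.map_zpowers]
    rfl
  obtain ⟨f, e', φ, ε, u, ξ₀, D', A, B', Tp, C⟩ :=
    exists_cycG_core hM hB hxo rfl ⟨x, hxc⟩ rfl hup hcyc hBD hind hT he
  exact ⟨_, _, f, e', φ, ε, u, ξ₀, D', A, B', Tp, C⟩

/-- The local data exist. -/
theorem exists_cycG (hM : IsPModular p M) {B : Set (IrrCharacter G)} (hB : IsPBlock M B) {D : Subgroup G} (hcyc : IsCyclic D)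
    {n : ℕ} (hDa : Nat.card D = p ^ (n + 1)) (hBD : IsDefectGroup p M B D) {b : Set (IrrCharacter (Cen D))}
    (hind : IsInducedBlock M (Cen D) b B) {T : Subgroup G}
    (hT : ∀ g, g ∈ T ↔ g ∈ Subgroup.normalizer (D : Set G) ∧ StabilizesBlock (Cen D) b g) {e : ℕ}
    (he : (Cen D).relIndex T = e) :
    ∃ (L : Subgroup G) (xh : L) (f : _) (e' : _) (φ : _) (ε : _) (u : _) (ξ₀ : _) (D' A B' : _) (Tp : _),
      CycG p M B L xh f e' φ (p ^ (n + 1)) n ε u ξ₀ D' A B' Tp e := by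
  obtain ⟨L, xh, f, e', φ, ε, u, ξ₀, D', A, B', Tp, C, -⟩ := exists_cycG' hM hB hcyc hDa hBD hind hT he
  exact ⟨L, xh, f, e', φ, ε, u, ξ₀, D', A, B', Tp, C⟩

end G6

end Cfsg.Agent.Lib.FF
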