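import Cfsg.Agent.Lib.FF.CycLat

/-!
# The key theorem for a block with a central nilpotent generator
-/

set_option autoImplicit false
set_option linter.unusedSectionVars false
set_option linter.unusedVariables false
set_option maxSynthPendingDepth 3
set_option linter.style.haveILetI false
set_option linter.unusedSimpArgs false
set_option linter.unnecessarySimpa false

namespace Cfsg.Agent.Lib.FF

open Module Polynomial Cfsg Cfsg.Agent.Lib.Block

section Geom

variable {A : Type*} [Ring A] {e u : A} {N : ℕ}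

theorem geom_mul_e (hue : u * e = u) (huN : u ^ N = e) (hN : 0 < N) :
    (∑ j ∈ Finset.range N, u ^ j) * e = ∑ j ∈ Finset.range N, u ^ (j + 1) := by
  obtain ⟨n, rfl⟩ : ∃ n, N = n + 1 := ⟨N - 1, by omega⟩
  rw [Finset.sum_mul, Finset.sum_range_succ', Finset.sum_range_succ]
  have h1 : ∀ j, u ^ (j + 1) * e = u ^ (j + 1) := by
    intro j
    rw [pow_succ, mul_assoc, hue]
  simp only [h1, pow_zero, one_mul]
  rw [huN]

theorem u_mul_geom (hue : u * e = u) (huN : u ^ N = e) (hN : 0 < N) :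
    u * ∑ j ∈ Finset.range N, u ^ (j + 1) = ∑ j ∈ Finset.range N, u ^ (j + 1) := by
  obtain ⟨n, rfl⟩ : ∃ n, N = n + 1 := ⟨N - 1, by omega⟩
  rw [Finset.mul_sum]
  simp only [← pow_succ']
  rw [Finset.sum_range_succ, Finset.sum_range_succ' (fun j => u ^ (j + 1))]
  simp only [zero_add, pow_one]
  congr 1
  rw [pow_succ', huN, hue]

theorem pow_mul_geom (hue : u * e = u) (huN : u ^ N = e) (hN : 0 < N) (m : ℕ) :
    u ^ m * ∑ j ∈ Finset.range N, u ^ (j + 1) = ∑ j ∈ Finset.range N, u ^ (j + 1) := by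
  induction m with
  | zero => simp
  | succ m ih => rw [pow_succ, mul_assoc, u_mul_geom hue huN hN, ih]

theorem geom_mul_geom (hue : u * e = u) (huN : u ^ N = e) (hN : 0 < N) :
    (∑ j ∈ Finset.range N, u ^ (j + 1)) * (∑ j ∈ Finset.range N, u ^ (j + 1)) =
      (N : ℕ) • ∑ j ∈ Finset.range N, u ^ (j + 1) := by
  rw [Finset.sum_mul]
  simp only [pow_mul_geom hue huN hN]
  rw [Finset.sum_const, Finset.card_range]

end Geom

section UData

variable {G : Type*} [Group G] [Fintype G] {O : Subring ℂ} {a : MonoidAlgebra ℂ G}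

/-- The kernel of a left multiplication minus one. -/
noncomputable def kerX (a X : MonoidAlgebra ℂ G) (hX : CoefIn O X) : Submodule O (latL O a) :=
  LinearMap.ker (lmulL a X hX - 1)

theorem mem_kerX {X : MonoidAlgebra ℂ G} {hX : CoefIn O X} {w : latL O a} :
    w ∈ kerX a X hX ↔ X * (w : MonoidAlgebra ℂ G) = w := by
  unfold kerX
  rw [LinearMap.mem_ker, LinearMap.sub_apply, sub_eq_zero]
  constructor
  · intro h
    exact congrArg Subtype.val h
  · intro h
    exact Subtype.ext h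

theorem kerX_pure {p : ℕ} {X : MonoidAlgebra ℂ G} {hX : CoefIn O X} (hpc : (p : ℂ) ≠ 0) (w : latL O a) (h : (p : O) • w ∈ kerX a X hX) :
    w ∈ kerX a X hX := by
  rw [mem_kerX] at h ⊢
  have h1 : (((p : O) • w : latL O a) : MonoidAlgebra ℂ G) = (p : ℂ) • (w : MonoidAlgebra ℂ G) := by
    show ((p : O) : ℂ) • (w : MonoidAlgebra ℂ G) = _
    push_cast
    rfl
  rw [h1, mul_smul_comm] at h
  exact smul_right_injective _ hpc h

theorem kerX_rmul (hac : IsCentralElt a) (haa : a * a = a) (v : latL O a) {X : MonoidAlgebra ℂ G} {hX : CoefIn O X}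
    {w : latL O a} (hw : w ∈ kerX a X hX) : rmulL hac haa v w ∈ kerX a X hX := by
  rw [mem_kerX] at hw ⊢
  rw [rmulL_coe, ← mul_assoc, hw]

end UData

section Key

variable {G : Type*} [Group G] [Fintype G] {O : Subring ℂ} [IsLocalRing O] {M : Ideal AlgInt} {p : ℕ}
  [hp : Fact p.Prime] {L : Subgroup G} [Fintype L] {ef u : MonoidAlgebra ℂ L} {N : ℕ}

/-- The sum of the powers of `u`. -/
noncomputable def trU (L : Subgroup G) (u : MonoidAlgebra ℂ L) (N : ℕ) : MonoidAlgebra ℂ G :=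
  ∑ j ∈ Finset.range N, incl L u ^ (j + 1)

/-- The element over `O` -/
noncomputable def trUO (D : CycData (Γ := L) O ef u N) : MonoidAlgebra O L :=
  ∑ j ∈ Finset.range N, liftO u D.huO ^ (j + 1)

theorem incl_iota_trUO (D : CycData (Γ := L) O ef u N) : incl L (iotaR L O (trUO D)) = trU L u N := by
  unfold trUO trU
  rw [map_sum, map_sum]
  refine Finset.sum_congr rfl fun j _ => ?_
  rw [map_pow, map_pow, D.iota_u]

theorem coefIn_trU (D : CycData (Γ := L) O ef u N) : CoefIn O (trU L u N) := by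
  rw [← incl_iota_trUO D]
  exact coefIn_incl L (coefIn_iotaR L _)

/-- The idempotent attached to the fixed points of `u`. -/
noncomputable def piU (L : Subgroup G) (u : MonoidAlgebra ℂ L) (N : ℕ) : MonoidAlgebra ℂ G :=
  (N : ℂ)⁻¹ • trU L u N

set_option maxHeartbeats 2000000 in
/-- **The key theorem.** -/
theorem key_cyc (hM : IsPModular p M) (hO : UnramRing M p O) (D : CycData (Γ := L) O ef u N) {b : ℕ} (hN : N = p ^ (b + 1))
    (Dg : ℕ) (h5 : finrank ℂ (cenW ef) ≤ N) (h1ef : (Fintype.card L : ℂ) * ef.coeff 1 = ((N * (Dg * Dg) : ℕ) : ℂ))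
    (hne : ∃ g, ¬ MemLocalIdeal M (((∑ j ∈ Finset.range N, u ^ j) * ef).coeff g))
    {z : L} (hzo : orderOf z = p) (hz : MonoidAlgebra.single z (1 : ℂ) * ef = u ^ (p ^ b))
    {Af : Subgroup G} (hLAf : L ≤ Af) (hAfN : Af ≤ Subgroup.normalizer (L : Set G))
    (hAe : ∀ x ∈ Af, MonoidAlgebra.single x (1 : ℂ) * incl L ef = incl L ef * MonoidAlgebra.single x (1 : ℂ))
    (horth : ∀ c, c ∉ Af → c ∈ Subgroup.normalizer ((Subgroup.zpowers (z : G) : Subgroup G) : Set G) →
      incl L ef * MonoidAlgebra.single c (1 : ℂ) * incl L ef = 0)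
    (hAp : ∀ x ∈ Af, orderOf x = p → x ∈ L) (g₀ : L)
    (hK : ∀ m, 0 < m → ∀ w : MonoidAlgebra ℂ L, CoefIn O w → (ef * classSumR ℂ g₀) ^ m ≠ (p : ℂ) • w)
    (hfree : ∀ z' : L, orderOf z' = p → z' ∉ Subgroup.zpowers z → ∀ κ : L, IsConj g₀ κ → Commute z' κ → False)
    (t : Af) (ht : ∀ x : Af, ∃ (j : ℕ) (l : L), x = t ^ j * Subgroup.inclusion hLAf l)
    (hAq : ∀ x : Af, (x : G) ^ (Nat.card (IsLocalRing.ResidueField O) - 1) ∈ L)
    (horder : ∀ g : Af, ¬ p ∣ orderOf g → orderOf g ∣ Nat.card (IsLocalRing.ResidueField O) - 1)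
    (Ω : Set (IrrCharacter G)) (hΩ : Ω.Nonempty) (d₀ : ℂ) (hd : d₀ ≠ 0) (hrat : ∀ g, d₀ * (blockElt Ω).coeff g ∈ O) :
    ∃ r : IrrCharacter G → ℕ, (∀ χ, χ ∉ Ω → r χ = 0) ∧ (∃ χ, r χ ≠ 0) ∧ ∃ m : ℤ,
      ∑ χ : IrrCharacter G, (tr (χ : G → ℂ) (incl L ef) - N * tr (χ : G → ℂ) (piU L u N)) * (r χ : ℂ) = m ∧
      |m| ≤ ((N : ℤ) - 1) * Dg ∧ (b = 0 → m = 0 ∨ |m| = ((N : ℤ) - 1) * Dg) := by
  classical
  have := isPModular_isPrime hM
  have hDVR := hO.isDVR hM
  let k := IsLocalRing.ResidueField O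
  have hkfin : Finite k := residue_finite hM hO
  haveI hchar : CharP k p := charP_res hM hO
  have hFink : Module.Finite k (MonoidAlgebra k L) := Module.Finite.of_basis (MonoidAlgebra.basis L k)
  have hac : IsCentralElt (blockElt Ω) := isCentralElt_blockElt Ω
  have haa : blockElt Ω * blockElt Ω = blockElt Ω := blockElt_mul_self Ω
  have hfin : Module.Finite O (latL O (blockElt Ω)) := inferInstance
  have hfree' : Module.Free O (latL O (blockElt Ω)) := Module.free_of_finite_type_torsion_free'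
  let bb := Module.Free.chooseBasis O (latL O (blockElt Ω))
  let nn := Module.Free.ChooseBasisIndex O (latL O (blockElt Ω))
  haveI : Fintype nn := Module.Free.ChooseBasisIndex.fintype O (latL O (blockElt Ω))
  let d : RedData p O k (latL O (blockElt Ω)) (nn → k) := redOfBasis (IsLocalRing.residue O)
    IsLocalRing.residue_surjective (residue_zero_iff hM hO) bb
  have hdσ : d.σ = IsLocalRing.residue O := rfl
  have hpc : (p : ℂ) ≠ 0 := by exact_mod_cast hp.out.ne_zero
  have hNpos : 0 < N := by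
    rw [hN]
    exact pow_pos hp.out.pos _
  have hNc : (N : ℂ) ≠ 0 := by exact_mod_cast hNpos.ne'
  -- the lattice is not trivial
  have hnt : Nontrivial (nn → k) := by
    have hne₀ : Nonempty nn := by
      by_contra hemp
      rw [not_nonempty_iff] at hemp
      have hs : Subsingleton (latL O (blockElt Ω)) := bb.repr.toEquiv.subsingleton
      have h0 : (⟨blockElt Ω, a_mem⟩ : latL O (blockElt Ω)) = 0 := Subsingleton.elim _ _
      have h1 : blockElt Ω = 0 := congrArg Subtype.val h0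
      obtain ⟨χ, hχ⟩ := hΩ
      have h2 := om_blockElt_of_mem hχ
      rw [h1] at h2
      simp [om, tr_zero] at h2
    infer_instance
  have hDc := D.cenData hM hO hN (by omega) h5 hne
  have hKbar : ∀ m, 0 < m → (eBar D * classSumR k g₀) ^ m ≠ 0 := by
    intro m hm h0
    have h1 : classSumR k g₀ = piR L O (classSumR O g₀) := by
      apply ext_coeff
      intro g
      rw [piR_coeff, coeff_classSumR, coeff_classSumR]
      split_ifs <;> simp
    have h2 : iotaR L O (classSumR O g₀) = classSumR ℂ g₀ := by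
      apply ext_coeff
      intro g
      rw [iotaR_coeff, coeff_classSumR, coeff_classSumR]
      split_ifs <;> simp
    rw [h1, eBar, ← map_mul, ← map_pow] at h0
    obtain ⟨w, hw⟩ := ((redGroup (Γ := L) hM hO).red_ker _).mp h0
    refine hK m hm (iotaR L O w) (coefIn_iotaR L w) ?_
    have h3 := congrArg (iotaR L O) hw
    rw [map_pow, map_mul, D.iota_e, h2] at h3
    rw [h3]
    apply ext_coeff
    intro g
    have h4 : ((p : O) • w).coeff g = (p : O) * w.coeff g := rfl
    have h5 : ((p : ℂ) • iotaR L O w).coeff g = (p : ℂ) * (iotaR L O w).coeff g := rfl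
    rw [iotaR_coeff, h5, iotaR_coeff, h4]
    push_cast
    rfl
  obtain ⟨n, i, c, d', hC, hcard, E, hE1, hE2, hE3, hE4⟩ := cyc_exists_E D d hAfN hLAf hM hO hdσ hDc hzo hz hN hAe horth hAp g₀ hKbar
    hfree t ht hAq horder
  obtain ⟨v, hv⟩ := exists_lift_rmul d hac haa E hE2
  have hvi : IsIdempotentElem (d.bar (rmulL hac haa v) : Module.End k (nn → k)) := by
    rw [hv]
    exact hE1
  obtain ⟨r, hr0, hr⟩ := exists_count hM hO Ω d d₀ hd hrat v hvi
  rw [hv] at hr
  have hEΘ : ∀ r', Commute E (thetaBar d L r') := fun r' => commute_thetaBar d L (fun g => hE2 _) r'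
  have he₀O : CoefIn O (incl L ef) := coefIn_incl L D.hefO
  have hu₀O : CoefIn O (incl L u) := coefIn_incl L D.huO
  have hee : incl L ef * incl L ef = incl L ef := by rw [← map_mul, D.hee]
  have hue : incl L u * incl L ef = incl L u := by rw [← map_mul, D.hue]
  have heu : incl L ef * incl L u = incl L u := by
    rw [← map_mul, isCentralElt_commute D.hefc, D.hue]
  have huN : incl L u ^ N = incl L ef := by rw [← map_pow, D.huN]
  have hTrO := coefIn_trU D
  have hTrdef : trU L u N = ∑ j ∈ Finset.range N, incl L u ^ (j + 1) := rfl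
  have huTr : incl L u * trU L u N = trU L u N := u_mul_geom hue huN hNpos
  have hTrTr : trU L u N * trU L u N = (N : ℕ) • trU L u N := geom_mul_geom hue huN hNpos
  have hpiU : piU L u N * piU L u N = piU L u N := by
    unfold piU
    rw [smul_mul_smul_comm, hTrTr, ← Nat.cast_smul_eq_nsmul ℂ, smul_smul]
    congr 1
    field_simp
  have htop : (rk E (d.imS ⊤) : ℂ) = ∑ χ : IrrCharacter G, tr (χ : G → ℂ) 1 * (r χ : ℂ) := by
    refine hr ⊤ 1 (fun _ _ => trivial) (fun _ _ => trivial) (one_mul 1) ?_ ?_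
    · intro s _
      exact mem_idealS.mpr ⟨s, by rw [one_mul]; exact mul_a_of_mem hac haa s.2⟩
    · apply EData.idealS_le_of_single
      intro g
      rw [one_mul]
      exact Submodule.subset_span ⟨⟨_, sg_mem g⟩, trivial, rfl⟩
  have hcE : (rk E (d.imS (kerX (blockElt Ω) (incl L ef) he₀O)) : ℂ) =
      ∑ χ : IrrCharacter G, tr (χ : G → ℂ) (incl L ef) * (r χ : ℂ) := by
    refine hr _ _ (kerX_pure hpc) (fun w hw => kerX_rmul hac haa v hw) hee ?_ ?_
    · intro s hs
      refine mem_idealS.mpr ⟨s, ?_⟩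
      rw [mem_kerX.mp hs]
      exact mul_a_of_mem hac haa s.2
    · apply EData.idealS_le_of_single
      intro g
      exact Submodule.subset_span ⟨⟨incl L ef * (MonoidAlgebra.single g (1 : ℂ) * blockElt Ω), mul_mem_lat he₀O (sg_mem g)⟩,
        mem_kerX.mpr (by rw [← mul_assoc, hee]), rfl⟩
  have hcU : (rk E (d.imS (kerX (blockElt Ω) (incl L u) hu₀O)) : ℂ) =
      ∑ χ : IrrCharacter G, tr (χ : G → ℂ) (piU L u N) * (r χ : ℂ) := by
    refine hr _ _ (kerX_pure hpc) (fun w hw => kerX_rmul hac haa v hw) hpiU ?_ ?_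
    · intro s hs
      refine mem_idealS.mpr ⟨s, ?_⟩
      have h1 := mem_kerX.mp hs
      have h2 : ∀ j : ℕ, incl L u ^ j * (s : MonoidAlgebra ℂ G) = s := by
        intro j
        induction j with
        | zero => simp
        | succ j ih => rw [pow_succ, mul_assoc, h1, ih]
      have h3 : piU L u N * (s : MonoidAlgebra ℂ G) = s := by
        unfold piU
        rw [smul_mul_assoc, hTrdef, Finset.sum_mul]
        simp only [h2]
        rw [Finset.sum_const, Finset.card_range, ← Nat.cast_smul_eq_nsmul ℂ, smul_smul, inv_mul_cancel₀ hNc, one_smul]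
      rw [h3]
      exact mul_a_of_mem hac haa s.2
    · apply EData.idealS_le_of_single
      intro g
      have h1 : piU L u N * (MonoidAlgebra.single g (1 : ℂ) * blockElt Ω) =
          (N : ℂ)⁻¹ • (trU L u N * (MonoidAlgebra.single g (1 : ℂ) * blockElt Ω)) := by
        unfold piU
        rw [smul_mul_assoc]
      rw [h1]
      refine Submodule.smul_mem _ _ (Submodule.subset_span ?_)
      exact ⟨⟨trU L u N * (MonoidAlgebra.single g (1 : ℂ) * blockElt Ω), mul_mem_lat hTrO (sg_mem g)⟩,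
        mem_kerX.mpr (by rw [← mul_assoc, huTr]), rfl⟩
  -- the operators
  have hThe : The D d = d.bar (lmulL (blockElt Ω) (incl L ef) he₀O) := The_eq D d hdσ
  have hThu : thetaBar d L (uBar D) = d.bar (lmulL (blockElt Ω) (incl L u) hu₀O) := thetaBar_liftO d L hdσ D.huO
  have hThy : Thy D d = d.bar (lmulL (blockElt Ω) (incl L u) hu₀O) - d.bar (lmulL (blockElt Ω) (incl L ef) he₀O) := by
    rw [Thy, yBar, map_sub, hThu]
    rw [← hThe]
  set S₀ := kerX (blockElt Ω) (incl L u) hu₀O with hS₀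
  set Se := kerX (blockElt Ω) (incl L ef) he₀O with hSe
  set π' : Module.End k (nn → k) := E * The D d with hπ'
  have hEThe : Commute E (The D d) := hEΘ _
  have hπidem : IsIdempotentElem π' := IsIdempotentElem.mul_of_commute hEThe hE1 (The_idem D d)
  have hπy : Commute (Thy D d) π' :=
    ((hEΘ (yBar D)).symm).mul_right (Thy_comm D d (eBar D))
  have hImSe : d.imS Se = (⊤ : Submodule k (nn → k)).map (The D d) := by
    ext x
    constructor
    · rintro ⟨s, hs, rfl⟩
      refine ⟨d.red s, trivial, ?_⟩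
      rw [hThe]
      show d.bar _ (d.red s) = _
      rw [d.bar_red]
      congr 1
      exact Subtype.ext (mem_kerX.mp hs)
    · rintro ⟨y, -, rfl⟩
      obtain ⟨m, rfl⟩ := d.red_surj y
      rw [hThe]
      show d.bar _ (d.red m) ∈ _
      rw [d.bar_red]
      refine d.red_mem_imS (mem_kerX.mpr ?_)
      show incl L ef * (incl L ef * (m : MonoidAlgebra ℂ G)) = incl L ef * m
      rw [← mul_assoc, hee]
  have hS₀e : ∀ x ∈ d.imS S₀, The D d x = x := by
    rintro _ ⟨s, hs, rfl⟩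
    rw [hThe, d.bar_red]
    congr 1
    apply Subtype.ext
    show incl L ef * (s : MonoidAlgebra ℂ G) = s
    rw [← mem_kerX.mp hs, ← mul_assoc, heu]
  have hrkSe : rk E (d.imS Se) = rk π' ⊤ := by
    unfold rk
    rw [hImSe, hπ', ← Submodule.map_comp]
    rfl
  have hrkS₀ : rk E (d.imS S₀) = rk π' (d.imS S₀) := by
    unfold rk
    have h1 : (d.imS S₀).map (The D d) = d.imS S₀ := by
      apply le_antisymm
      · rintro _ ⟨x, hx, rfl⟩
        rw [hS₀e x hx]
        exact hx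
      · intro x hx
        exact ⟨x, hx, hS₀e x hx⟩
    rw [hπ']
    have h2 : (d.imS S₀).map (E * The D d) = ((d.imS S₀).map (The D d)).map E := by
      rw [← Submodule.map_comp]
      rfl
    rw [h2, h1]
  have hyN : Thy D d ^ N = 0 := by rw [Thy, ← map_pow, hDc.hyN, map_zero]
  have hle2 : d.imS S₀ ≤ LinearMap.ker (Thy D d) := by
    rintro _ ⟨s, hs, rfl⟩
    rw [LinearMap.mem_ker, hThy, LinearMap.sub_apply, d.bar_red, d.bar_red, sub_eq_zero]
    congr 1
    apply Subtype.ext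
    show incl L u * (s : MonoidAlgebra ℂ G) = incl L ef * (s : MonoidAlgebra ℂ G)
    have h3 := mem_kerX.mp hs
    rw [h3, ← h3, ← mul_assoc, heu]
  have hN2 : 2 ≤ N := by
    rw [hN]
    calc 2 ≤ p := hp.out.two_le
      _ = p ^ 1 := (pow_one p).symm
      _ ≤ p ^ (b + 1) := Nat.pow_le_pow_right hp.out.pos (by omega)
  have hTrO' : CoefIn O (incl L (iotaR L O (trUO D))) := coefIn_incl L (coefIn_iotaR L _)
  have hlm : ∀ (x : MonoidAlgebra ℂ G) (hx : CoefIn O x), x = trU L u N →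
      lmulL (blockElt Ω) x hx = lmulL (blockElt Ω) (trU L u N) hTrO := by
    rintro _ _ rfl
    rfl
  have hpow : Thy D d ^ (N - 1) = d.bar (lmulL (blockElt Ω) (trU L u N) hTrO) := by
    have h3 : yBar D ^ (N - 1) = piR L O (trUO D) := by
      have h4 : yBar D ^ (N - 1) = yBar D ^ (N - 1) * eBar D := by
        obtain ⟨c', hc'⟩ : ∃ c', N - 1 = c' + 1 := ⟨N - 2, by omega⟩
        rw [hc', pow_succ, mul_assoc, D.y_mul_e]
      rw [h4, D.y_pow_mul_e hM hO hN]
      have h5 : trUO D = (∑ j ∈ Finset.range N, liftO u D.huO ^ j) * liftO ef D.hefO :=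
        (geom_mul_e D.hu_mul D.hu_pow hNpos).symm
      rw [h5, map_mul, map_sum]
      simp only [map_pow]
    rw [Thy, ← map_pow, h3, thetaBar_piR d L hdσ]
    rw [hlm _ _ (incl_iota_trUO D)]
  have hle1 : (⊤ : Submodule k (nn → k)).map (Thy D d ^ (N - 1)) ≤ d.imS S₀ := by
    rintro _ ⟨x, -, rfl⟩
    obtain ⟨m, rfl⟩ := d.red_surj x
    rw [hpow]
    show d.bar _ (d.red m) ∈ _
    rw [d.bar_red]
    refine d.red_mem_imS (mem_kerX.mpr ?_)
    show incl L u * (trU L u N * (m : MonoidAlgebra ℂ G)) = trU L u N * m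
    rw [← mul_assoc, huTr]
  obtain ⟨hb1, hb2⟩ := rk_bound hπidem hπy hyN hNpos hle1 hle2
  -- the section rank
  set π₁ := thetaBar d L i * E with hπ₁
  have hy1 : Commute π₁ (thetaBar d L (yBar D)) := ((Thy_comm D d i).symm).mul_left (hEΘ _)
  have hl1 : thetaBar d L i * π₁ = π₁ := by
    rw [hπ₁, ← mul_assoc, ← map_mul, hC.hii]
  have hr1 : π₁ * thetaBar d L i = π₁ := by
    rw [hπ₁, mul_assoc, (hEΘ i).eq, ← mul_assoc, ← map_mul, hC.hii]
  have hsec := secRk_liftC hDc hC hy1 hl1 hr1 (LinearMap.ker (Thy D d))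
    ((⊤ : Submodule k (nn → k)).map (Thy D d ^ (N - 1)))
    (fun r' => stable_ker_map (Thy_comm D d r').symm)
    (fun r' => stable_top_map ((Thy_comm D d r').pow_left _).symm)
  rw [hπ₁, liftC_eq_sum_of_idem hC hEΘ, ← hπ₁] at hsec
  have hπ'eq : thetaBar d L (eBar D) * E = π' := hEThe.symm.eq
  rw [hπ'eq] at hsec
  have hnDg : n ≤ Dg := by
    have h3 := D.finrank_range_eBar hM hO (N * (Dg * Dg)) h1ef
    rw [h3] at hcard
    have h4 : n * n ≤ Dg * Dg := by
      have h5 : N * (n * n) ≤ N * (Dg * Dg) := by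
        calc N * (n * n) = n * n * N := by ring
          _ ≤ _ := hcard
      exact Nat.le_of_mul_le_mul_left h5 hNpos
    exact Nat.mul_self_le_mul_self_iff.mp h4
  have hnn : ((n : ℤ)) * secRk π₁ (LinearMap.ker (Thy D d)) ((⊤ : Submodule k (nn → k)).map (Thy D d ^ (N - 1))) ≤ Dg := by
    have h3 : (n : ℤ) ≤ Dg := by exact_mod_cast hnDg
    have h4 : (0 : ℤ) ≤ n := by positivity
    nlinarith [hE4]
  refine ⟨r, hr0, ?_, (rk π' ⊤ : ℤ) - N * rk π' (d.imS S₀), ?_, ?_⟩
  · by_contra hcon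
    push Not at hcon
    have h3 : (rk E (d.imS ⊤) : ℂ) = 0 := by
      rw [htop]
      exact Finset.sum_eq_zero fun χ _ => by rw [hcon χ]; simp
    have h4 : rk E (d.imS ⊤) = 0 := by exact_mod_cast h3
    rw [d.imS_top] at h4
    have h5 : (⊤ : Submodule k (nn → k)).map E = ⊥ := Submodule.finrank_eq_zero.mp h4
    apply hE3
    refine LinearMap.ext fun x => ?_
    have h6 : E x ∈ (⊤ : Submodule k (nn → k)).map E := ⟨x, trivial, rfl⟩
    rw [h5] at h6
    simpa using h6
  · simp only [sub_mul, mul_assoc]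
    rw [Finset.sum_sub_distrib, ← Finset.mul_sum, ← hcE, ← hcU, hrkSe, hrkS₀]
    push_cast
    ring
  have hN1 : (0 : ℤ) ≤ (N : ℤ) - 1 := by
    have : (2 : ℤ) ≤ N := by exact_mod_cast hN2
    linarith
  refine ⟨?_, ?_⟩
  · rw [abs_le]
    rw [hsec] at hb1 hb2
    constructor
    · nlinarith
    · nlinarith
  intro hb0
  subst hb0
  have hNp : N = p := by rw [hN]; simp
  have hNpc : ((N : ℤ) - 1) = (p : ℤ) - 1 := by rw [hNp]
  let Z : MonoidAlgebra ℂ G := MonoidAlgebra.single (z : G) (1 : ℂ)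
  have hZe : Z * incl L ef = incl L ef * Z := hAe z (hLAf z.2)
  have huZ : incl L u = Z * incl L ef := by
    have h3 := congrArg (incl L) hz
    rw [map_mul, incl_single, pow_zero, pow_one] at h3
    exact h3.symm
  have hupow : ∀ j : ℕ, incl L u ^ (j + 1) = Z ^ (j + 1) * incl L ef := by
    intro j
    induction j with
    | zero => simpa using huZ
    | succ j ih =>
      rw [pow_succ, ih, huZ]
      calc Z ^ (j + 1) * incl L ef * (Z * incl L ef) = Z ^ (j + 1) * (incl L ef * Z) * incl L ef := by simp only [mul_assoc]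
        _ = Z ^ (j + 1) * (Z * incl L ef) * incl L ef := by rw [hZe]
        _ = Z ^ (j + 1) * Z * (incl L ef * incl L ef) := by simp only [mul_assoc]
        _ = _ := by rw [hee, ← pow_succ]
  have hzp : (z : G) ^ p = 1 := by
    rw [← Subgroup.coe_pow, ← hzo, pow_orderOf_eq_one]
    rfl
  have hZp : Z ^ p = 1 := by
    show (MonoidAlgebra.single (z : G) (1 : ℂ)) ^ p = 1
    rw [MonoidAlgebra.single_pow, one_pow, hzp, MonoidAlgebra.one_def]
  have hTrNh : trU L u N = Nh (z : G) p * incl L ef := by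
    rw [hTrdef, hNp]
    simp only [hupow]
    rw [← Finset.sum_mul]
    congr 1
    unfold Nh
    have h3 := geom_mul_e (e := (1 : MonoidAlgebra ℂ G)) (u := Z) (N := p) (mul_one Z) hZp hp.out.pos
    rw [mul_one] at h3
    exact h3.symm
  have hNhe : Nh (z : G) p * incl L ef = incl L ef * Nh (z : G) p := by
    have h3 : Commute Z (incl L ef) := hZe
    unfold Nh
    exact (Commute.sum_left _ _ _ fun i _ => h3.pow_left i).eq
  let X := rhoL O (blockElt Ω) (z : G)
  have hXp : X ^ p = 1 := by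
    show (rhoL O (blockElt Ω) (z : G)) ^ p = 1
    rw [← map_pow, hzp, map_one]
  have hXcoe : ∀ (i : ℕ) (w : latL O (blockElt Ω)), (((X ^ i) w : latL O (blockElt Ω)) : MonoidAlgebra ℂ G) = Z ^ i * w := by
    intro i w
    show (((rhoL O (blockElt Ω) (z : G)) ^ i) w : latL O (blockElt Ω)).1 = _
    rw [← map_pow, rhoL_coe]
    show _ = (MonoidAlgebra.single (z : G) (1 : ℂ)) ^ i * _
    rw [MonoidAlgebra.single_pow, one_pow]
  have hnrm : ∀ w : latL O (blockElt Ω), ((nrm X p w : latL O (blockElt Ω)) : MonoidAlgebra ℂ G) = Nh (z : G) p * w := by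
    intro w
    unfold nrm Nh
    rw [LinearMap.sum_apply, AddSubmonoidClass.coe_finsetSum, Finset.sum_mul]
    exact Finset.sum_congr rfl fun i _ => hXcoe i w
  let Le := lmulL (blockElt Ω) (incl L ef) he₀O
  let F := rmulL hac haa v
  let f : Module.End O (latL O (blockElt Ω)) := F * Le
  have hf : Commute f X := by
    show F * Le * X = X * (F * Le)
    refine LinearMap.ext fun w => Subtype.ext ?_
    show incl L ef * (Z * (w : MonoidAlgebra ℂ G)) * v = Z * (incl L ef * w * v)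
    rw [← mul_assoc, ← hZe, mul_assoc, mul_assoc, mul_assoc]
  have hbarf : d.bar f = π' := by
    show d.bar (F * Le) = E * The D d
    rw [d.bar_mul, hv, hThe]
  have hπf : IsIdempotentElem (d.bar f : Module.End k (nn → k)) := by
    rw [hbarf]
    exact hπidem
  have hpO : (p : O) ≠ 0 := UnramRing.natCast_ne_zero hM
  have htf : ∀ x : latL O (blockElt Ω), (p : O) • x = 0 → x = 0 := fun x h => (smul_eq_zero.mp h).resolve_left hpO
  have htate := tate_formula d htf hXp hf hπf
  rw [hbarf] at htate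
  set A' := d.imS (LinearMap.ker (X - 1)) with hA'
  set B' := d.imS (LinearMap.ker (nrm X p)) with hB'
  have hTre : trU L u N * incl L ef = trU L u N := by
    rw [hTrdef, Finset.sum_mul]
    refine Finset.sum_congr rfl fun j _ => ?_
    rw [pow_succ, mul_assoc, hue]
  have heTr : incl L ef * trU L u N = trU L u N := by
    rw [hTrdef, Finset.mul_sum]
    refine Finset.sum_congr rfl fun j _ => ?_
    rw [pow_succ', ← mul_assoc, heu]
  set S₁ : Submodule O (latL O (blockElt Ω)) := Se ⊓ LinearMap.ker (lmulL (blockElt Ω) (trU L u N) hTrO) with hS₁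
  have hS₁mem : ∀ w : latL O (blockElt Ω), w ∈ S₁ ↔ incl L ef * (w : MonoidAlgebra ℂ G) = w ∧ trU L u N * (w : MonoidAlgebra ℂ G) = 0 := by
    intro w
    constructor
    · rintro ⟨h3, h4⟩
      exact ⟨mem_kerX.mp h3, congrArg Subtype.val (LinearMap.mem_ker.mp h4)⟩
    · rintro ⟨h3, h4⟩
      exact ⟨mem_kerX.mpr h3, LinearMap.mem_ker.mpr (Subtype.ext h4)⟩
  have hpi1 : (incl L ef - piU L u N) * (incl L ef - piU L u N) = incl L ef - piU L u N := by
    have h3 : incl L ef * piU L u N = piU L u N := by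
      unfold piU
      rw [mul_smul_comm, heTr]
    have h4 : piU L u N * incl L ef = piU L u N := by
      unfold piU
      rw [smul_mul_assoc, hTre]
    rw [mul_sub, sub_mul, sub_mul, hee, h3, h4, hpiU]
    abel
  have hcount₁ : (rk E (d.imS S₁) : ℂ) = ∑ χ : IrrCharacter G, tr (χ : G → ℂ) (incl L ef - piU L u N) * (r χ : ℂ) := by
    refine hr _ _ ?_ ?_ hpi1 ?_ ?_
    · intro w hw
      obtain ⟨h3, h4⟩ := (hS₁mem _).mp hw
      have h5 : (((p : O) • w : latL O (blockElt Ω)) : MonoidAlgebra ℂ G) = (p : ℂ) • (w : MonoidAlgebra ℂ G) := by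
        show ((p : O) : ℂ) • (w : MonoidAlgebra ℂ G) = _
        push_cast
        rfl
      rw [h5, mul_smul_comm] at h3 h4
      refine (hS₁mem _).mpr ⟨smul_right_injective _ hpc h3, ?_⟩
      exact smul_right_injective _ hpc (h4.trans (smul_zero _).symm)
    · intro w hw
      obtain ⟨h3, h4⟩ := (hS₁mem _).mp hw
      refine (hS₁mem _).mpr ⟨?_, ?_⟩
      · rw [rmulL_coe, ← mul_assoc, h3]
      · rw [rmulL_coe, ← mul_assoc, h4, zero_mul]
    · intro s hs
      obtain ⟨h3, h4⟩ := (hS₁mem _).mp hs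
      refine mem_idealS.mpr ⟨s, ?_⟩
      have h5 : piU L u N * (s : MonoidAlgebra ℂ G) = 0 := by
        unfold piU
        rw [smul_mul_assoc, h4, smul_zero]
      rw [sub_mul, h3, h5, sub_zero]
      exact mul_a_of_mem hac haa s.2
    · apply EData.idealS_le_of_single
      intro g
      obtain ⟨x, hx⟩ : ∃ x, x = MonoidAlgebra.single g (1 : ℂ) * blockElt Ω := ⟨_, rfl⟩
      rw [← hx]
      have hx' : x ∈ latL O (blockElt Ω) := by
        rw [hx]
        exact sg_mem g
      let tt : latL O (blockElt Ω) := (N : O) • (⟨incl L ef * x, mul_mem_lat he₀O hx'⟩ : latL O (blockElt Ω)) -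
        ⟨trU L u N * x, mul_mem_lat hTrO hx'⟩
      have htt : (tt : MonoidAlgebra ℂ G) = (N : ℂ) • (incl L ef * x) - trU L u N * x := by
        show ((N : O) : ℂ) • (incl L ef * x) - trU L u N * x = _
        push_cast
        rfl
      have hmem : tt ∈ S₁ := by
        refine (hS₁mem _).mpr ⟨?_, ?_⟩
        · rw [htt, mul_sub, mul_smul_comm, ← mul_assoc, hee, ← mul_assoc, heTr]
        · rw [htt, mul_sub, mul_smul_comm, ← mul_assoc, hTre, ← mul_assoc, hTrTr, ← Nat.cast_smul_eq_nsmul ℂ, smul_mul_assoc,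
            sub_self]
      have h3 : (incl L ef - piU L u N) * x = (N : ℂ)⁻¹ • (tt : MonoidAlgebra ℂ G) := by
        rw [htt, smul_sub, smul_smul, inv_mul_cancel₀ hNc, one_smul, sub_mul]
        unfold piU
        rw [smul_mul_assoc]
      rw [h3]
      exact Submodule.smul_mem _ _ (Submodule.subset_span ⟨tt, hmem, rfl⟩)
  -- the ranks on the images
  have hkerX : ∀ s : latL O (blockElt Ω), s ∈ LinearMap.ker (X - 1) ↔ Z * (s : MonoidAlgebra ℂ G) = s := by
    intro s
    rw [LinearMap.mem_ker, LinearMap.sub_apply, sub_eq_zero]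
    constructor
    · intro h
      exact congrArg Subtype.val h
    · intro h
      exact Subtype.ext h
  have hTheRed : ∀ m : latL O (blockElt Ω), The D d (d.red m) = d.red ⟨incl L ef * (m : MonoidAlgebra ℂ G), mul_mem_lat he₀O m.2⟩ := by
    intro m
    rw [hThe, d.bar_red]
    rfl
  have hmapA : A'.map (The D d) = d.imS S₀ := by
    apply le_antisymm
    · rintro _ ⟨_, ⟨s, hs, rfl⟩, rfl⟩
      rw [hTheRed]
      refine d.red_mem_imS (mem_kerX.mpr ?_)
      show incl L u * (incl L ef * (s : MonoidAlgebra ℂ G)) = incl L ef * s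
      rw [← mul_assoc, hue, huZ, mul_assoc, ← mul_assoc, hZe, mul_assoc, (hkerX s).mp hs]
    · rintro _ ⟨s, hs, rfl⟩
      have h3 := mem_kerX.mp hs
      have h4 : incl L ef * (s : MonoidAlgebra ℂ G) = s := by
        rw [← h3, ← mul_assoc, heu]
      have h5 : Z * (s : MonoidAlgebra ℂ G) = s := by
        calc Z * (s : MonoidAlgebra ℂ G) = Z * (incl L ef * s) := by rw [h4]
          _ = (Z * incl L ef) * s := (mul_assoc _ _ _).symm
          _ = s := by rw [← huZ, h3]
      refine ⟨d.red s, d.red_mem_imS ((hkerX s).mpr h5), ?_⟩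
      rw [hTheRed]
      congr 1
      exact Subtype.ext h4
  have hmapB : B'.map (The D d) = d.imS S₁ := by
    apply le_antisymm
    · rintro _ ⟨_, ⟨s, hs, rfl⟩, rfl⟩
      have h3 : Nh (z : G) p * (s : MonoidAlgebra ℂ G) = 0 := by
        rw [← hnrm, LinearMap.mem_ker.mp hs]
        rfl
      rw [hTheRed]
      refine d.red_mem_imS ((hS₁mem _).mpr ⟨?_, ?_⟩)
      · show incl L ef * (incl L ef * (s : MonoidAlgebra ℂ G)) = incl L ef * s
        rw [← mul_assoc, hee]
      · show trU L u N * (incl L ef * (s : MonoidAlgebra ℂ G)) = 0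
        rw [← mul_assoc, hTre, hTrNh, hNhe, mul_assoc, h3, mul_zero]
    · rintro _ ⟨s, hs, rfl⟩
      obtain ⟨h3, h4⟩ := (hS₁mem _).mp hs
      have h5 : nrm X p s = 0 := by
        apply Subtype.ext
        rw [hnrm]
        calc Nh (z : G) p * (s : MonoidAlgebra ℂ G) = Nh (z : G) p * (incl L ef * s) := by rw [h3]
          _ = (Nh (z : G) p * incl L ef) * s := (mul_assoc _ _ _).symm
          _ = 0 := by rw [← hTrNh, h4]
      refine ⟨d.red s, d.red_mem_imS (LinearMap.mem_ker.mpr h5), ?_⟩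
      rw [hTheRed]
      congr 1
      exact Subtype.ext h3
  have hS₁e : ∀ x ∈ d.imS S₁, The D d x = x := by
    rintro _ ⟨s, hs, rfl⟩
    rw [hTheRed]
    congr 1
    exact Subtype.ext ((hS₁mem _).mp hs).1
  have hrkGen : ∀ Q : Submodule k (nn → k), rk π' Q = finrank k ((Q.map (The D d)).map E) := by
    intro Q
    unfold rk
    rw [hπ', ← Submodule.map_comp]
    rfl
  have hrA : rk π' A' = rk π' (d.imS S₀) := by
    rw [hrkGen, hmapA, ← hrkS₀]
    rfl
  have hrkS₁ : rk E (d.imS S₁) = rk π' (d.imS S₁) := by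
    rw [hrkGen]
    have h1 : (d.imS S₁).map (The D d) = d.imS S₁ := by
      apply le_antisymm
      · rintro _ ⟨x, hx, rfl⟩
        rw [hS₁e x hx]
        exact hx
      · intro x hx
        exact ⟨x, hx, hS₁e x hx⟩
    rw [h1]
    rfl
  have hrB : rk π' B' = rk π' (d.imS S₁) := by
    rw [hrkGen, hmapB, ← hrkS₁]
    rfl
  -- the additivity
  have hadd : rk π' ⊤ = rk π' (d.imS S₀) + rk π' (d.imS S₁) := by
    have h3 : ((rk π' ⊤ : ℕ) : ℂ) = ((rk π' (d.imS S₀) + rk π' (d.imS S₁) : ℕ) : ℂ) := by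
      push_cast
      rw [← hrkSe, ← hrkS₀, ← hrkS₁, hcE, hcU, hcount₁, ← Finset.sum_add_distrib]
      refine Finset.sum_congr rfl fun χ _ => ?_
      rw [tr_sub]
      ring
    exact_mod_cast h3
  -- the images of the operators
  have hTop : ∀ W : Module.End k (nn → k), rk π' ((⊤ : Submodule k (nn → k)).map W) =
      finrank k ((⊤ : Submodule k (nn → k)).map (E * (The D d * W))) := by
    intro W
    unfold rk
    rw [hπ', ← Submodule.map_comp, ← mul_assoc]
    rfl
  have hnrmbar : The D d * d.bar (nrm X p) = Thy D d ^ (N - 1) := by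
    rw [hpow, hThe, ← d.bar_mul]
    congr 1
    refine LinearMap.ext fun w => Subtype.ext ?_
    show incl L ef * ((nrm X p w : latL O (blockElt Ω)) : MonoidAlgebra ℂ G) = trU L u N * w
    rw [hnrm, hTrNh, hNhe, mul_assoc]
  have hXbar : The D d * d.bar (X - 1) = Thy D d := by
    rw [hThy, hThe, ← d.bar_mul, ← d.bar_sub]
    congr 1
    refine LinearMap.ext fun w => Subtype.ext ?_
    show incl L ef * (Z * (w : MonoidAlgebra ℂ G) - w) = incl L u * w - incl L ef * w
    rw [mul_sub, huZ, ← mul_assoc, hZe]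
  have hThepow : The D d * Thy D d ^ (N - 1) = Thy D d ^ (N - 1) := by
    obtain ⟨c', hc'⟩ : ∃ c', N - 1 = c' + 1 := ⟨N - 2, by omega⟩
    rw [hc', pow_succ', ← mul_assoc, The_mul_Thy]
  have hTM1 : rk π' ((⊤ : Submodule k (nn → k)).map (d.bar (nrm X p))) =
      rk π' ((⊤ : Submodule k (nn → k)).map (Thy D d ^ (N - 1))) := by
    rw [hTop, hTop, hnrmbar, hThepow]
  have hTM2 : rk π' ((⊤ : Submodule k (nn → k)).map (d.bar (X - 1))) =
      rk π' ((⊤ : Submodule k (nn → k)).map (Thy D d)) := by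
    rw [hTop, hTop, hXbar, The_mul_Thy]
  rw [hrA, hrB, hTM1, hTM2] at htate
  -- the section ranks
  have hstab : ∀ S : Submodule O (latL O (blockElt Ω)), (∀ (g : L), ∀ s ∈ S, rhoL O (blockElt Ω) (g : G) s ∈ S) →
      ∀ r', (d.imS S).map (thetaBar d L r') ≤ d.imS S := by
    rintro S hS r' _ ⟨_, ⟨s, hs, rfl⟩, rfl⟩
    rw [thetaBar_eq_sum, LinearMap.sum_apply]
    refine Submodule.sum_mem _ fun g _ => ?_
    rw [LinearMap.smul_apply, rhoBar_red]
    exact Submodule.smul_mem _ _ (d.red_mem_imS (hS g s hs))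
  have hcomL : ∀ (x : MonoidAlgebra ℂ L), IsCentralElt x → ∀ g : L,
      incl L x * MonoidAlgebra.single (g : G) (1 : ℂ) = MonoidAlgebra.single (g : G) (1 : ℂ) * incl L x := by
    intro x hx g
    rw [← incl_single, ← map_mul, ← map_mul, isCentralElt_commute hx]
  have hucom := hcomL u D.huc
  have hecom := hcomL ef D.hefc
  have hTrcom : ∀ g : L, trU L u N * MonoidAlgebra.single (g : G) (1 : ℂ) = MonoidAlgebra.single (g : G) (1 : ℂ) * trU L u N := by
    intro g
    have h3 : Commute (incl L u) (MonoidAlgebra.single (g : G) (1 : ℂ)) := hucom g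
    rw [hTrdef]
    exact (Commute.sum_left _ _ _ fun j _ => h3.pow_left _).eq
  have hS₀st : ∀ (g : L), ∀ s ∈ S₀, rhoL O (blockElt Ω) (g : G) s ∈ S₀ := by
    intro g s hs
    refine mem_kerX.mpr ?_
    show incl L u * (MonoidAlgebra.single (g : G) (1 : ℂ) * (s : MonoidAlgebra ℂ G)) = MonoidAlgebra.single (g : G) (1 : ℂ) * s
    rw [← mul_assoc, hucom, mul_assoc, mem_kerX.mp hs]
  have hS₁st : ∀ (g : L), ∀ s ∈ S₁, rhoL O (blockElt Ω) (g : G) s ∈ S₁ := by
    intro g s hs
    obtain ⟨h3, h4⟩ := (hS₁mem _).mp hs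
    refine (hS₁mem _).mpr ⟨?_, ?_⟩
    · show incl L ef * (MonoidAlgebra.single (g : G) (1 : ℂ) * (s : MonoidAlgebra ℂ G)) = MonoidAlgebra.single (g : G) (1 : ℂ) * s
      rw [← mul_assoc, hecom, mul_assoc, h3]
    · show trU L u N * (MonoidAlgebra.single (g : G) (1 : ℂ) * (s : MonoidAlgebra ℂ G)) = 0
      rw [← mul_assoc, hTrcom, mul_assoc, h4, mul_zero]
  have hsecA := secRk_liftC hDc hC hy1 hl1 hr1 (d.imS S₀)
    ((⊤ : Submodule k (nn → k)).map (Thy D d ^ (N - 1))) (hstab _ hS₀st)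
    (fun r' => stable_top_map ((Thy_comm D d r').pow_left _).symm)
  have hsecB := secRk_liftC hDc hC hy1 hl1 hr1 (d.imS S₁)
    ((⊤ : Submodule k (nn → k)).map (Thy D d)) (hstab _ hS₁st)
    (fun r' => stable_top_map (Thy_comm D d r').symm)
  rw [hπ₁, liftC_eq_sum_of_idem hC hEΘ, ← hπ₁, hπ'eq] at hsecA hsecB
  have hsub := rk_map_add_ker hπidem hπy (stable_top (π := π'))
  rw [top_inf_eq] at hsub
  have hnpos : 0 < n := by
    rcases Nat.eq_zero_or_pos n with h0 | h0
    · exfalso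
      subst h0
      apply hDc.e_ne_zero'
      rw [← hC.hsum]
      simp
    · exact h0
  have hnz : (0 : ℤ) < n := by exact_mod_cast hnpos
  have hle3 : (⊤ : Submodule k (nn → k)).map (Thy D d) ≤ d.imS S₁ := by
    rintro _ ⟨x, -, rfl⟩
    obtain ⟨m, rfl⟩ := d.red_surj x
    rw [hThy, LinearMap.sub_apply, d.bar_red, d.bar_red, ← map_sub]
    refine d.red_mem_imS ((hS₁mem _).mpr ⟨?_, ?_⟩)
    · show incl L ef * (incl L u * (m : MonoidAlgebra ℂ G) - incl L ef * m) = incl L u * m - incl L ef * m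
      rw [mul_sub, ← mul_assoc, heu, ← mul_assoc, hee]
    · show trU L u N * (incl L u * (m : MonoidAlgebra ℂ G) - incl L ef * m) = 0
      have h3 : trU L u N * incl L u = trU L u N := by
        rw [hTrdef, Finset.sum_mul]
        have h4 := u_mul_geom hue huN hNpos
        rw [Finset.mul_sum] at h4
        rw [← h4]
        refine Finset.sum_congr rfl fun j _ => ?_
        rw [← pow_succ, ← pow_succ']
      rw [mul_sub, ← mul_assoc, h3, ← mul_assoc, hTre, sub_self]
  have hmonoA := rk_mono (π := π') hle1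
  have hmonoB := rk_mono (π := π') hle3
  have hDgn : Dg ≤ n := by
    have h3 := D.finrank_range_eBar hM hO (N * (Dg * Dg)) h1ef
    have h4 := finrank_le_corner hDc hC
    rw [h3] at h4
    have h6 : Dg * Dg ≤ n * n := by
      have h7 : N * (Dg * Dg) ≤ N * (n * n) := by
        calc N * (Dg * Dg) ≤ n * n * N := h4
          _ = N * (n * n) := by ring
      exact Nat.le_of_mul_le_mul_left h7 hNpos
    exact Nat.mul_self_le_mul_self_iff.mp h6
  have hnD : n = Dg := le_antisymm hnDg hDgn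
  obtain ⟨a', ha'⟩ : ∃ a' : ℤ, a' = secRk π₁ (d.imS S₀) ((⊤ : Submodule k (nn → k)).map (Thy D d ^ (N - 1))) := ⟨_, rfl⟩
  obtain ⟨b', hb'⟩ : ∃ b' : ℤ, b' = secRk π₁ (d.imS S₁) ((⊤ : Submodule k (nn → k)).map (Thy D d)) := ⟨_, rfl⟩
  obtain ⟨τ, hτ⟩ : ∃ τ : ℤ, τ = secRk π₁ (LinearMap.ker (Thy D d)) ((⊤ : Submodule k (nn → k)).map (Thy D d ^ (N - 1))) := ⟨_, rfl⟩
  rw [← ha'] at hsecA
  rw [← hb'] at hsecB
  rw [← hτ] at hsec hE4
  simp only [secRk] at hsecA hsecB hsec
  obtain ⟨RE, hRE⟩ : ∃ RE : ℕ, RE = rk π' ⊤ := ⟨_, rfl⟩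
  obtain ⟨RA, hRA⟩ : ∃ RA : ℕ, RA = rk π' (d.imS S₀) := ⟨_, rfl⟩
  obtain ⟨RB, hRB⟩ : ∃ RB : ℕ, RB = rk π' (d.imS S₁) := ⟨_, rfl⟩
  obtain ⟨RK, hRK⟩ : ∃ RK : ℕ, RK = rk π' (LinearMap.ker (Thy D d)) := ⟨_, rfl⟩
  obtain ⟨a₀, ha₀⟩ : ∃ a₀ : ℕ, a₀ = rk π' ((⊤ : Submodule k (nn → k)).map (Thy D d ^ (N - 1))) := ⟨_, rfl⟩
  obtain ⟨b₀, hb₀⟩ : ∃ b₀ : ℕ, b₀ = rk π' ((⊤ : Submodule k (nn → k)).map (Thy D d)) := ⟨_, rfl⟩
  rw [← hRE, ← hRA]
  rw [← hRA, ← ha₀] at hsecA hmonoA
  rw [← hRB, ← hb₀] at hsecB hmonoB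
  rw [← hRK, ← ha₀] at hsec
  rw [← hRE, ← hb₀, ← hRK] at hsub
  rw [← hRE, ← hRA, ← hRB] at hadd
  rw [← hRA, ← hRB, ← ha₀, ← hb₀] at htate
  have hA0 : 0 ≤ a' := by
    have : (0 : ℤ) ≤ (n : ℤ) * a' := by
      rw [← hsecA]
      have : (a₀ : ℤ) ≤ RA := by exact_mod_cast hmonoA
      linarith
    exact nonneg_of_mul_nonneg_right this hnz
  have hB0 : 0 ≤ b' := by
    have : (0 : ℤ) ≤ (n : ℤ) * b' := by
      rw [← hsecB]
      have : (b₀ : ℤ) ≤ RB := by exact_mod_cast hmonoB
      linarith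
    exact nonneg_of_mul_nonneg_right this hnz
  have hab : a' + b' = τ := by
    apply mul_left_cancel₀ hnz.ne'
    have h3 : (RE : ℤ) = RA + RB := by exact_mod_cast hadd
    have h4 : (b₀ : ℤ) + RK = RE := by exact_mod_cast hsub
    rw [mul_add, ← hsecA, ← hsecB, ← hsec]
    linarith
  have hm : (RE : ℤ) - N * RA = -(((N : ℤ) - 1) * ((n : ℤ) * a' - (n : ℤ) * b')) := by
    have h3 : (RE : ℤ) = RA + RB := by exact_mod_cast hadd
    rw [← hsecA, ← hsecB, hNpc, hNp, h3]
    push_cast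
    linear_combination -htate
  rw [hm, ← hnD]
  have hcases : (a' = 0 ∧ b' = 0) ∨ (a' = 1 ∧ b' = 0) ∨ (a' = 0 ∧ b' = 1) := by omega
  rcases hcases with ⟨rfl, rfl⟩ | ⟨rfl, rfl⟩ | ⟨rfl, rfl⟩
  · left
    ring
  · right
    rw [abs_neg, abs_of_nonneg]
    · ring
    · nlinarith
  · right
    have : -(((N : ℤ) - 1) * ((n : ℤ) * 0 - (n : ℤ) * 1)) = ((N : ℤ) - 1) * n := by ring
    rw [this, abs_of_nonneg]
    nlinarith

end Key

end Cfsg.Agent.Lib.FF
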