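import Cfsg.Agent.Lib.FF.CycRing

/-!
# The reduction of the lattice of a central idempotent, and the action of the group algebra of a subgroup
-/

set_option autoImplicit false
set_option linter.unusedSectionVars false
set_option linter.unusedVariables false
set_option maxSynthPendingDepth 3
set_option linter.style.haveILetI false
set_option linter.unusedSimpArgs false
set_option linter.unnecessarySimpa false

namespace Cfsg.Agent.Lib.FF

open Module Polynomial Cfsg Cfsg.Agent.Lib.Block

section Num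

variable {k V : Type*} [Field k] [AddCommGroup V] [Module k V] [FiniteDimensional k V]
variable {π y : Module.End k V} {N : ℕ}

theorem map_top_pow_succ (y : Module.End k V) (j : ℕ) :
    ((⊤ : Submodule k V).map (y ^ j)).map y = (⊤ : Submodule k V).map (y ^ (j + 1)) := by
  rw [← Submodule.map_comp, pow_succ']
  rfl

/-- The bound for the rank on a section between the socle and the top layer. -/
theorem rk_bound (hπ : IsIdempotentElem π) (hy : Commute y π) (hyN : y ^ N = 0) (hN : 0 < N)
    {S₀ : Submodule k V} (h1 : (⊤ : Submodule k V).map (y ^ (N - 1)) ≤ S₀) (h2 : S₀ ≤ LinearMap.ker y) :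
    -(((N : ℤ) - 1) * secRk π (LinearMap.ker y) ((⊤ : Submodule k V).map (y ^ (N - 1)))) ≤
        (rk π ⊤ : ℤ) - N * rk π S₀ ∧
      (rk π ⊤ : ℤ) - N * rk π S₀ ≤ ((N : ℤ) - 1) * secRk π (LinearMap.ker y) ((⊤ : Submodule k V).map (y ^ (N - 1))) := by
  set Top : ℕ → Submodule k V := fun j => (⊤ : Submodule k V).map (y ^ j) with hTop
  set a : ℕ := rk π (Top (N - 1)) with ha
  set b : ℕ := rk π (LinearMap.ker y) with hb
  have hstab : ∀ j, (Top j).map π ≤ Top j := by
    intro j
    have h3 : Commute (y ^ j) π := hy.pow_left j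
    exact stable_map_of_commute h3 stable_top
  have hle : ∀ j, j ≤ N - 1 → Top (N - 1) ≤ Top j ⊓ LinearMap.ker y := by
    intro j hj
    refine le_inf ?_ (h1.trans h2)
    rintro _ ⟨w, -, rfl⟩
    refine ⟨(y ^ (N - 1 - j)) w, trivial, ?_⟩
    rw [← Module.End.mul_apply, ← pow_add]
    congr 2
    omega
  have hstep : ∀ j, j ≤ N - 1 → rk π (Top (j + 1)) + rk π (Top j ⊓ LinearMap.ker y) = rk π (Top j) := by
    intro j _
    have := rk_map_add_ker hπ hy (hstab j)
    rwa [map_top_pow_succ] at this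
  have hca : ∀ j, j ≤ N - 1 → a ≤ rk π (Top j ⊓ LinearMap.ker y) := fun j hj => rk_mono (hle j hj)
  have hcb : ∀ j, rk π (Top j ⊓ LinearMap.ker y) ≤ b := fun j => rk_mono inf_le_right
  have hbound : ∀ m j, j + m = N - 1 → (m + 1) * a ≤ rk π (Top j) ∧ rk π (Top j) ≤ m * b + a := by
    intro m
    induction m with
    | zero =>
      intro j hj
      have : j = N - 1 := by omega
      subst this
      simp [ha]
    | succ m ih =>
      intro j hj
      obtain ⟨h3, h4⟩ := ih (j + 1) (by omega)
      have h5 := hstep j (by omega)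
      have h6 := hca j (by omega)
      have h7 := hcb j
      constructor
      · calc (m + 1 + 1) * a = (m + 1) * a + a := by ring
          _ ≤ _ := by omega
      · calc rk π (Top j) = rk π (Top (j + 1)) + rk π (Top j ⊓ LinearMap.ker y) := h5.symm
          _ ≤ (m * b + a) + b := by omega
          _ = _ := by ring
  have hTop0 : Top 0 = ⊤ := by
    show (⊤ : Submodule k V).map (y ^ 0) = ⊤
    rw [pow_zero]
    exact Submodule.map_id _
  have hker : (⊤ : Submodule k V) ⊓ LinearMap.ker y = LinearMap.ker y := top_inf_eq _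
  have hab : a ≤ b := rk_mono (h1.trans h2)
  have hs0 : a ≤ rk π S₀ := rk_mono h1
  have hs1 : rk π S₀ ≤ b := rk_mono h2
  have hd0 := hbound (N - 1) 0 (by omega)
  rw [hTop0] at hd0
  have hdlow : (N : ℤ) * a + ((N : ℤ) - 1) * 0 ≤ rk π ⊤ := by
    have : (N - 1 + 1) * a ≤ rk π ⊤ := hd0.1
    rw [Nat.sub_add_cancel hN] at this
    have h3 : (N : ℤ) * a ≤ rk π ⊤ := by exact_mod_cast this
    linarith
  have hdup : (rk π ⊤ : ℤ) ≤ ((N : ℤ) - 1) * b + a := by
    have h3 : ((rk π ⊤ : ℕ) : ℤ) ≤ (((N - 1) * b + a : ℕ) : ℤ) := by exact_mod_cast hd0.2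
    push_cast at h3
    rw [Nat.cast_sub hN] at h3
    simpa using h3
  -- the refined lower bound
  have hdlow2 : (b : ℤ) + ((N : ℤ) - 1) * a ≤ rk π ⊤ := by
    by_cases hN1 : N = 1
    · subst hN1
      have hy0 : y = 0 := by simpa using hyN
      have h3 : LinearMap.ker y = ⊤ := by
        rw [hy0]
        exact LinearMap.ker_zero
      have h4 : b = rk π ⊤ := by rw [hb, h3]
      rw [← h4]
      simp
    · have h3 := hstep 0 (Nat.zero_le _)
      rw [hTop0, hker] at h3
      have h4 := (hbound (N - 2) 1 (by omega)).1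
      have h5 : (N - 2 + 1) * a + b ≤ rk π ⊤ := by
        rw [← h3]
        exact Nat.add_le_add_right h4 b
      have h6 : ((N - 2 + 1 : ℕ) : ℤ) = (N : ℤ) - 1 := by
        have : N - 2 + 1 = N - 1 := by omega
        rw [this, Nat.cast_sub hN]
        simp
      have h7 : (((N - 2 + 1) * a + b : ℕ) : ℤ) ≤ (rk π ⊤ : ℕ) := by exact_mod_cast h5
      push_cast at h7
      rw [Nat.cast_sub (by omega : 2 ≤ N)] at h7
      push_cast at h7
      linarith
  have hsec : secRk π (LinearMap.ker y) ((⊤ : Submodule k V).map (y ^ (N - 1))) = (b : ℤ) - a := rfl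
  rw [hsec]
  have hN0 : (1 : ℤ) ≤ N := by exact_mod_cast hN
  have hs0' : (a : ℤ) ≤ rk π S₀ := by exact_mod_cast hs0
  have hs1' : (rk π S₀ : ℤ) ≤ b := by exact_mod_cast hs1
  constructor
  · nlinarith
  · nlinarith

end Num

section Rep

variable {G : Type*} [Group G] [Fintype G] {O : Subring ℂ} [IsLocalRing O] {M : Ideal AlgInt} {p : ℕ}
  {a : MonoidAlgebra ℂ G} {V : Type*} [AddCommGroup V] [Module (IsLocalRing.ResidueField O) V]
  (d : RedData p O (IsLocalRing.ResidueField O) (latL O a) V)

/-- The action of the group on the reduction. -/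
noncomputable def rhoBar : G →* Module.End (IsLocalRing.ResidueField O) V where
  toFun g := d.bar (rhoL O a g)
  map_one' := by rw [map_one, d.bar_one]
  map_mul' g h := by rw [map_mul, d.bar_mul]

theorem rhoBar_apply (g : G) : rhoBar d g = d.bar (rhoL O a g) := rfl

theorem rhoBar_red (g : G) (v : latL O a) : rhoBar d g (d.red v) = d.red (rhoL O a g v) := d.bar_red _ _

variable (L : Subgroup G) [Fintype L]

/-- The action of the group algebra of a subgroup on the reduction. -/
noncomputable def thetaBar : MonoidAlgebra (IsLocalRing.ResidueField O) L →ₐ[IsLocalRing.ResidueField O]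
    Module.End (IsLocalRing.ResidueField O) V :=
  MonoidAlgebra.lift (IsLocalRing.ResidueField O) (Module.End (IsLocalRing.ResidueField O) V) L
    ((rhoBar d).comp L.subtype)

theorem thetaBar_single (g : L) (c : IsLocalRing.ResidueField O) :
    thetaBar d L (MonoidAlgebra.single g c) = c • rhoBar d (g : G) := by
  simp [thetaBar]

theorem thetaBar_eq_sum (r : MonoidAlgebra (IsLocalRing.ResidueField O) L) :
    thetaBar d L r = ∑ g : L, r.coeff g • rhoBar d (g : G) := by
  conv_lhs => rw [← ofFun_coeff r]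
  unfold ofFun
  rw [map_sum]
  refine Finset.sum_congr rfl fun g _ => ?_
  rw [thetaBar_single]

theorem commute_thetaBar {F : Module.End (IsLocalRing.ResidueField O) V} (hF : ∀ g : L, Commute F (rhoBar d (g : G)))
    (r : MonoidAlgebra (IsLocalRing.ResidueField O) L) : Commute F (thetaBar d L r) := by
  rw [thetaBar_eq_sum]
  exact Commute.sum_right _ _ _ fun g _ => (hF g).smul_right _

theorem coefIn_incl {z : MonoidAlgebra ℂ L} (hz : CoefIn O z) : CoefIn O (incl L z) := by
  intro g
  by_cases hg : g ∈ L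
  · have := coeff_incl_coe L z ⟨g, hg⟩
    simp only at this
    rw [this]
    exact hz _
  · rw [coeff_incl_of_notMem L z hg]
    exact O.zero_mem

theorem coefIn_iotaR (z : MonoidAlgebra O L) : CoefIn O (iotaR L O z) := by
  intro g
  rw [iotaR_coeff]
  exact Subtype.coe_prop _

/-- The action of the reduction of an element over `O`. -/
theorem thetaBar_piR (hdσ : d.σ = IsLocalRing.residue O) (z : MonoidAlgebra O L) :
    thetaBar d L (piR L O z) = d.bar (lmulL a (incl L (iotaR L O z)) (coefIn_incl L (coefIn_iotaR L z))) := by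
  refine d.bar_ext fun v => ?_
  rw [thetaBar_eq_sum, d.bar_red, LinearMap.sum_apply]
  have h1 : ∀ g : L, ((piR L O z).coeff g • rhoBar d (g : G)) (d.red v) = d.red (z.coeff g • rhoL O a (g : G) v) := by
    intro g
    rw [LinearMap.smul_apply, rhoBar_red, piR_coeff, d.red_smul, hdσ]
  simp only [h1]
  rw [← map_sum]
  congr 1
  apply Subtype.ext
  rw [lmulL_coe, incl_eq_sum_single, Finset.sum_mul]
  rw [AddSubmonoidClass.coe_finsetSum]
  refine Finset.sum_congr rfl fun g _ => ?_
  rw [iotaR_coeff, smul_mul_assoc]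
  rfl

/-- The action of the reduction of an element with coefficients in `O`. -/
theorem thetaBar_liftO (hdσ : d.σ = IsLocalRing.residue O) {z : MonoidAlgebra ℂ L} (hz : CoefIn O z) :
    thetaBar d L (piR L O (liftO z hz)) = d.bar (lmulL a (incl L z) (coefIn_incl L hz)) := by
  rw [thetaBar_piR d L hdσ]
  congr 2
  rw [iota_liftO]

end Rep

section RMul

variable {G : Type*} [Group G] [Fintype G] {O : Subring ℂ} {a : MonoidAlgebra ℂ G}

theorem mul_right_mem_lat (hac : IsCentralElt a) (haa : a * a = a) {v w : MonoidAlgebra ℂ G} (hv : v ∈ latL O a)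
    (hw : w ∈ latL O a) : w * v ∈ latL O a := by
  induction hw using Submodule.span_induction with
  | mem w h =>
    obtain ⟨g, rfl⟩ := h
    rw [mul_assoc, a_mul_of_mem hac haa hv]
    exact single_mul_mem g hv
  | zero => simp
  | add x y _ _ h1 h2 =>
    rw [add_mul]
    exact Submodule.add_mem _ h1 h2
  | smul r x _ h1 =>
    rw [smul_mul_assoc]
    exact Submodule.smul_mem _ _ h1

/-- Right multiplication on the lattice. -/
noncomputable def rmulL (hac : IsCentralElt a) (haa : a * a = a) (v : latL O a) : Module.End O (latL O a) where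
  toFun w := ⟨(w : MonoidAlgebra ℂ G) * v, mul_right_mem_lat hac haa v.2 w.2⟩
  map_add' x y := Subtype.ext (by simp [add_mul])
  map_smul' r x := Subtype.ext (by simp [smul_mul_assoc])

@[simp] theorem rmulL_coe (hac : IsCentralElt a) (haa : a * a = a) (v w : latL O a) :
    ((rmulL hac haa v w : latL O a) : MonoidAlgebra ℂ G) = w * v := rfl

variable [IsLocalRing O] {p : ℕ} {V : Type*} [AddCommGroup V] [Module (IsLocalRing.ResidueField O) V]
  (d : RedData p O (IsLocalRing.ResidueField O) (latL O a) V)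

/-- An endomorphism of the reduction commuting with the group lifts to a right multiplication. -/
theorem exists_lift_rmul (hac : IsCentralElt a) (haa : a * a = a) (E : Module.End (IsLocalRing.ResidueField O) V)
    (hE : ∀ g, Commute E (rhoBar d g)) : ∃ v : latL O a, d.bar (rmulL hac haa v) = E := by
  obtain ⟨v, hv⟩ := d.red_surj (E (d.red ⟨a, a_mem⟩))
  refine ⟨v, d.bar_ext fun w => ?_⟩
  rw [d.bar_red]
  have key : ∀ (x : MonoidAlgebra ℂ G) (hx : x ∈ latL O a), d.red (rmulL hac haa v ⟨x, hx⟩) = E (d.red ⟨x, hx⟩) := by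
    intro x hx
    induction hx using Submodule.span_induction with
    | mem x h =>
      obtain ⟨g, rfl⟩ := h
      have h1 : (⟨MonoidAlgebra.single g (1 : ℂ) * a, sg_mem g⟩ : latL O a) = rhoL O a g ⟨a, a_mem⟩ := rfl
      have h2 : rmulL hac haa v (rhoL O a g ⟨a, a_mem⟩) = rhoL O a g v := by
        apply Subtype.ext
        rw [rmulL_coe, rhoL_coe, rhoL_coe, mul_assoc, a_mul_of_mem hac haa v.2]
      rw [h1, h2, ← rhoBar_red, ← rhoBar_red, hv]
      exact congrArg (fun f : Module.End _ V => f (d.red ⟨a, a_mem⟩)) (hE g).eq.symm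
    | zero =>
      have : (⟨0, Submodule.zero_mem _⟩ : latL O a) = 0 := rfl
      rw [this, map_zero, map_zero, map_zero]
    | add x y hx' hy' h1 h2 =>
      have : (⟨x + y, Submodule.add_mem _ hx' hy'⟩ : latL O a) = ⟨x, hx'⟩ + ⟨y, hy'⟩ := rfl
      rw [this, map_add, map_add, map_add, map_add, h1, h2]
    | smul r x hx' h1 =>
      have : (⟨r • x, Submodule.smul_mem _ r hx'⟩ : latL O a) = r • ⟨x, hx'⟩ := rfl
      rw [this, map_smul, d.red_smul, d.red_smul, map_smul, h1]
  exact key w w.2

end RMul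

section Count

variable {G : Type*} [Group G] [Fintype G] {O : Subring ℂ} [IsLocalRing O] {M : Ideal AlgInt} {p : ℕ}
  [hp : Fact p.Prime] {V : Type*} [AddCommGroup V] [Module (IsLocalRing.ResidueField O) V] [FiniteDimensional (IsLocalRing.ResidueField O) V]

/-- **The counting formula** for a right multiplication with idempotent reduction. -/
theorem exists_count (hM : IsPModular p M) (hO : UnramRing M p O) (Ω : Set (IrrCharacter G))
    (d : RedData p O (IsLocalRing.ResidueField O) (latL O (blockElt Ω)) V) (d₀ : ℂ) (hd : d₀ ≠ 0)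
    (hrat : ∀ g, d₀ * (blockElt Ω).coeff g ∈ O) (v : latL O (blockElt Ω))
    (hv : IsIdempotentElem (d.bar (rmulL (isCentralElt_blockElt Ω) (blockElt_mul_self Ω) v) : Module.End _ V)) :
    ∃ r : IrrCharacter G → ℕ, (∀ χ, χ ∉ Ω → r χ = 0) ∧
      ∀ (S : Submodule O (latL O (blockElt Ω))) (π : MonoidAlgebra ℂ G), (∀ x, (p : O) • x ∈ S → x ∈ S) →
        (∀ w ∈ S, rmulL (isCentralElt_blockElt Ω) (blockElt_mul_self Ω) v w ∈ S) → π * π = π →
        (∀ s ∈ S, (s : MonoidAlgebra ℂ G) ∈ idealS π (blockElt Ω)) →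
        idealS π (blockElt Ω) ≤ Submodule.span ℂ ((Subtype.val : latL O (blockElt Ω) → MonoidAlgebra ℂ G) '' (S : Set _)) →
        (rk (d.bar (rmulL (isCentralElt_blockElt Ω) (blockElt_mul_self Ω) v)) (d.imS S) : ℂ) =
          ∑ χ : IrrCharacter G, tr (χ : G → ℂ) π * (r χ : ℂ) := by
  classical
  have := isPModular_isPrime hM
  have hDVR := hO.isDVR hM
  have hac : IsCentralElt (blockElt Ω) := isCentralElt_blockElt Ω
  have haa : blockElt Ω * blockElt Ω = blockElt Ω := blockElt_mul_self Ω
  have hμ : (v : MonoidAlgebra ℂ G) * blockElt Ω = v := mul_a_of_mem hac haa v.2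
  obtain ⟨r, hr0, hr⟩ := unit_root_count (v : MonoidAlgebra ℂ G) (MemLocalIdeal M) memLocalIdeal_zero Ω hμ
  refine ⟨r, hr0, ?_⟩
  intro S π hpure hst hπ hW hspan
  have hpO : (p : O) ≠ 0 := UnramRing.natCast_ne_zero hM
  have htf : ∀ x : latL O (blockElt Ω), (p : O) • x = 0 → x = 0 := fun x h => (smul_eq_zero.mp h).resolve_left hpO
  have hfin : Module.Finite O (latL O (blockElt Ω)) := inferInstance
  have hfree : Module.Free O (latL O (blockElt Ω)) := Module.free_of_finite_type_torsion_free'
  have hfinS : Module.Finite O S := inferInstance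
  have hfreeS : Module.Free O S := Module.free_of_finite_type_torsion_free'
  have hι : Function.Injective (latL O (blockElt Ω)).subtype := Subtype.val_injective
  obtain ⟨h1, -⟩ := rk_eq_countP hM hO d S htf hpure (rmulL hac haa v) hst hv (latL O (blockElt Ω)).subtype hι d₀ hd
    (fun s g => rat_of_mem hrat s.2 g) (idealS π (blockElt Ω)) hW hspan (LinearMap.mulRight ℂ (v : MonoidAlgebra ℂ G))
    (idealS_stable hac hμ) (fun s _ => rfl)
  rw [h1]
  exact hr π hπ

end Count

section Core

variable {G : Type*} [Group G] [Fintype G] {O : Subring ℂ} [IsLocalRing O] {M : Ideal AlgInt} {p : ℕ}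
  [hp : Fact p.Prime] {L : Subgroup G} [Fintype L] {ef u : MonoidAlgebra ℂ L} {N : ℕ}
  (D : CycData (Γ := L) O ef u N) {V : Type*} [AddCommGroup V] [Module (IsLocalRing.ResidueField O) V]
  {a : MonoidAlgebra ℂ G} (d : RedData p O (IsLocalRing.ResidueField O) (latL O a) V)

/-- The idempotent on the reduction. -/
noncomputable abbrev The : Module.End (IsLocalRing.ResidueField O) V := thetaBar d L (eBar D)

/-- The nilpotent on the reduction. -/
noncomputable abbrev Thy : Module.End (IsLocalRing.ResidueField O) V := thetaBar d L (yBar D)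

theorem The_idem : The D d * The D d = The D d := by
  rw [The, ← map_mul, D.eBar_mul]

theorem The_mul_Thy : The D d * Thy D d = Thy D d := by
  rw [The, Thy, ← map_mul, D.e_mul_y]

theorem Thy_mul_The : Thy D d * The D d = Thy D d := by
  rw [The, Thy, ← map_mul, D.y_mul_e]

theorem thetaBar_single_one (g : L) : thetaBar d L (MonoidAlgebra.single g 1) = rhoBar d (g : G) := by
  rw [thetaBar_single, one_smul]

theorem The_comm (r : MonoidAlgebra (IsLocalRing.ResidueField O) L) : Commute (The D d) (thetaBar d L r) := by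
  show thetaBar d L _ * _ = _ * thetaBar d L _
  rw [← map_mul, ← map_mul, D.e_comm]

theorem Thy_comm (r : MonoidAlgebra (IsLocalRing.ResidueField O) L) : Commute (Thy D d) (thetaBar d L r) := by
  show thetaBar d L _ * _ = _ * thetaBar d L _
  rw [← map_mul, ← map_mul, D.y_comm]

theorem The_comm_rho (g : L) : Commute (The D d) (rhoBar d (g : G)) := by
  rw [← thetaBar_single_one]
  exact The_comm D d _

theorem Thy_comm_rho (g : L) : Commute (Thy D d) (rhoBar d (g : G)) := by
  rw [← thetaBar_single_one]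
  exact Thy_comm D d _

/-- The element `z` on the block. -/
theorem single_mul_eBar (hM : IsPModular p M) (hO : UnramRing M p O) {z : L} {b : ℕ}
    (hz : MonoidAlgebra.single z (1 : ℂ) * ef = u ^ (p ^ b)) :
    MonoidAlgebra.single z (1 : IsLocalRing.ResidueField O) * eBar D = eBar D + yBar D ^ (p ^ b) := by
  haveI : CharP (IsLocalRing.ResidueField O) p := charP_res hM hO
  haveI : CharP (MonoidAlgebra (IsLocalRing.ResidueField O) L) p :=
    charP_of_injective_algebraMap (algebraMap (IsLocalRing.ResidueField O) _).injective p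
  have h1 : MonoidAlgebra.single z (1 : O) * liftO ef D.hefO = liftO u D.huO ^ (p ^ b) := by
    apply iotaR_inj
    rw [map_mul, map_pow, iotaR_single, D.iota_e, D.iota_u]
    simpa using hz
  have h2 := congrArg (piR L O) h1
  rw [map_mul, map_pow] at h2
  have h3 : piR L O (MonoidAlgebra.single z (1 : O)) = MonoidAlgebra.single z (1 : IsLocalRing.ResidueField O) := by
    simp [piR]
  rw [h3] at h2
  rw [eBar, h2]
  have hc : Commute (eBar D) (yBar D) := D.e_comm _
  have h4 : uBar D = eBar D + yBar D := by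
    rw [yBar]
    abel
  have h5 : (eBar D + yBar D) ^ (p ^ b) = eBar D ^ (p ^ b) + yBar D ^ (p ^ b) := add_pow_char_pow_of_commute _ _ hc
  rw [uBar] at h4
  rw [h4, h5]
  congr 1
  have h6 : ∀ n : ℕ, 0 < n → eBar D ^ n = eBar D := by
    intro n hn
    induction n with
    | zero => omega
    | succ n ih =>
      by_cases h0 : n = 0
      · simp [h0]
      · rw [pow_succ, ih (Nat.pos_of_ne_zero h0), D.eBar_mul]
  exact h6 _ (pow_pos hp.out.pos _)

/-- The norm on the block. -/
theorem nrm_on_block [FiniteDimensional (IsLocalRing.ResidueField O) V] (hM : IsPModular p M) (hO : UnramRing M p O) {z : L} {b : ℕ}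
    (hz : MonoidAlgebra.single z (1 : ℂ) * ef = u ^ (p ^ b)) {w : V} (hw : The D d w = w) :
    rhoBar d (z : G) w = w + (Thy D d ^ (p ^ b)) w ∧
      nrm (rhoBar d (z : G)) p w = (Thy D d ^ (p ^ b * (p - 1))) w := by
  haveI : CharP (IsLocalRing.ResidueField O) p := charP_res hM hO
  set Y := Thy D d ^ (p ^ b) with hY
  have hb : 0 < p ^ b := pow_pos hp.out.pos _
  have h1 : rhoBar d (z : G) * The D d = The D d + Y := by
    rw [← thetaBar_single_one, The, ← map_mul, single_mul_eBar D hM hO hz, map_add, map_pow]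
  have hYe : The D d * Y = Y := by
    obtain ⟨c, hc⟩ : ∃ c, p ^ b = c + 1 := ⟨p ^ b - 1, by omega⟩
    rw [hY, hc, pow_succ', ← mul_assoc, The_mul_Thy]
  have hcomm : Commute (The D d) (1 + Y) := by
    refine (Commute.one_right _).add_right ?_
    exact ((The_comm D d (yBar D)).pow_right _)
  have hA : ∀ x, The D d x = x → rhoBar d (z : G) x = (1 + Y) x := by
    intro x hx
    have h2 := congrArg (fun f : Module.End _ V => f x) h1
    simp only [Module.End.mul_apply, LinearMap.add_apply, hx] at h2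
    rw [h2]
    rfl
  have hpow : ∀ j : ℕ, The D d (((1 + Y) ^ j) w) = ((1 + Y) ^ j) w ∧
      (rhoBar d (z : G) ^ j) w = ((1 + Y) ^ j) w := by
    intro j
    induction j with
    | zero => simpa using hw
    | succ j ih =>
      obtain ⟨h3, h4⟩ := ih
      constructor
      · have h5 := congrArg (fun f : Module.End _ V => f w) (hcomm.pow_right (j + 1)).eq
        simp only [Module.End.mul_apply, hw] at h5
        exact h5
      · rw [pow_succ', Module.End.mul_apply, h4, hA _ h3, pow_succ', Module.End.mul_apply]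
  refine ⟨by simpa using hA w hw, ?_⟩
  have h6 : nrm (rhoBar d (z : G)) p w = nrm (1 + Y) p w := by
    unfold nrm
    rw [LinearMap.sum_apply, LinearMap.sum_apply]
    exact Finset.sum_congr rfl fun j _ => (hpow j).2
  rw [h6]
  have h7 : nrm (1 + Y) p = Y ^ (p - 1) := by
    have h8 := congrArg (aeval (1 + Y)) (poly_pow_geom (k := IsLocalRing.ResidueField O) p 1)
    simp only [pow_one, map_pow, map_sub, aeval_X, map_one, map_sum, add_sub_cancel_left] at h8
    exact h8.symm
  rw [h7, hY, ← pow_mul]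

section Van

/-- The sum over a conjugacy class. -/
noncomputable def classSumR (R : Type*) [Ring R] {Γ : Type*} [Group Γ] [Fintype Γ] (g₀ : Γ) : MonoidAlgebra R Γ := by
  classical
  exact ofFun (fun h => if IsConj g₀ h then 1 else 0)

theorem coeff_classSumR (R : Type*) [Ring R] {Γ : Type*} [Group Γ] [Fintype Γ] (g₀ h : Γ) [Decidable (IsConj g₀ h)] :
    (classSumR R g₀).coeff h = if IsConj g₀ h then 1 else 0 := by
  classical
  unfold classSumR
  rw [coeff_ofFun]
  congr

theorem isCentralElt_classSumR (R : Type*) [CommRing R] {Γ : Type*} [Group Γ] [Fintype Γ] (g₀ : Γ) :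
    IsCentralElt (classSumR R g₀) := by
  classical
  intro x u
  rw [coeff_classSumR, coeff_classSumR]
  have h : IsConj (x * u * x⁻¹) u := (isConj_iff.mpr ⟨x, rfl⟩).symm
  have h2 : IsConj g₀ (x * u * x⁻¹) ↔ IsConj g₀ u := ⟨fun h3 => h3.trans h, fun h3 => h3.trans h.symm⟩
  exact if_congr h2 rfl rfl

theorem thetaBar_classSumR (g₀ : L) [DecidablePred (IsConj g₀)] :
    thetaBar d L (classSumR (IsLocalRing.ResidueField O) g₀) =
      ∑ κ ∈ Finset.univ.filter (IsConj g₀), rhoBar d (κ : G) := by
  rw [thetaBar_eq_sum, Finset.sum_filter]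
  refine Finset.sum_congr rfl fun g _ => ?_
  rw [coeff_classSumR]
  split_ifs <;> simp

theorem exists_nrm_of_free (g₀ z' : L) (hz' : orderOf z' = p) (hfree : ∀ κ : L, IsConj g₀ κ → Commute z' κ → False)
    {w : V} (hzw : rhoBar d (z' : G) w = w) :
    ∃ w₁, thetaBar d L (classSumR (IsLocalRing.ResidueField O) g₀) w = nrm (rhoBar d (z' : G)) p w₁ := by
  classical
  let P := Subgroup.zpowers z'
  letI : Fintype P := Fintype.ofFinite _
  letI : MulAction P L :=
    { smul := fun q κ => (q : L) * κ * (q : L)⁻¹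
      one_smul := fun κ => by
        show ((1 : P) : L) * κ * ((1 : P) : L)⁻¹ = κ
        simp
      mul_smul := fun q q' κ => by
        show ((q * q' : P) : L) * κ * ((q * q' : P) : L)⁻¹ = (q : L) * ((q' : L) * κ * (q' : L)⁻¹) * (q : L)⁻¹
        push_cast
        group }
  have hsmul : ∀ (q : P) (κ : L), q • κ = (q : L) * κ * (q : L)⁻¹ := fun _ _ => rfl
  let F : Finset L := Finset.univ.filter (IsConj g₀)
  let M₀ : AddSubgroup V := (LinearMap.range (nrm (rhoBar d (z' : G)) p)).toAddSubgroup
  have hcardP : Nat.card P = p := by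
    rw [Nat.card_zpowers, hz']
  have hfix : ∀ (q : P), rhoBar d ((q : L) : G) w = w := by
    rintro ⟨_, j, rfl⟩
    have h1 : ∀ n : ℕ, (rhoBar d (z' : G) ^ n) w = w := by
      intro n
      induction n with
      | zero => simp
      | succ n ih => rw [pow_succ, Module.End.mul_apply, hzw, ih]
    have hord : z' ^ (p : ℕ) = 1 := by
      rw [← hz', pow_orderOf_eq_one]
    have h2 : ∃ n : ℕ, z' ^ j = z' ^ n := by
      refine ⟨(j % (p : ℤ)).toNat, ?_⟩
      have hp0 : (p : ℤ) ≠ 0 := by exact_mod_cast hp.out.ne_zero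
      rw [← zpow_natCast z', Int.toNat_of_nonneg (Int.emod_nonneg _ hp0)]
      exact zpow_eq_zpow_emod' j (by exact_mod_cast hord) |>.trans rfl
    obtain ⟨n, hn⟩ := h2
    show rhoBar d ((z' ^ j : L) : G) w = w
    rw [hn]
    push_cast
    rw [map_pow]
    exact h1 n
  have key := sum_mem_of_free_finset (P := P) (S := L) M₀ (fun κ => rhoBar d (κ : G) w) F ?_ ?_ ?_
  · obtain ⟨w₁, hw₁⟩ := key
    refine ⟨w₁, ?_⟩
    rw [thetaBar_classSumR, LinearMap.sum_apply]
    exact hw₁.symm
  · intro s hs q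
    refine Finset.mem_filter.mpr ⟨Finset.mem_univ _, (Finset.mem_filter.mp hs).2.trans ?_⟩
    rw [hsmul]
    exact isConj_iff.mpr ⟨q, rfl⟩
  · intro s hs q hq
    haveI : Fact (Nat.card P).Prime := ⟨by rw [hcardP]; exact hp.out⟩
    rcases Subgroup.eq_bot_or_eq_top_of_prime_card (MulAction.stabilizer P s) with h0 | h0
    · have h1 : q ∈ MulAction.stabilizer P s := hq
      rw [h0] at h1
      exact Subgroup.mem_bot.mp h1
    · exfalso
      have h1 : (⟨z', Subgroup.mem_zpowers z'⟩ : P) ∈ MulAction.stabilizer P s := by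
        rw [h0]
        exact Subgroup.mem_top _
      have h2 : (⟨z', Subgroup.mem_zpowers z'⟩ : P) • s = s := h1
      rw [hsmul] at h2
      refine hfree s (Finset.mem_filter.mp hs).2 ?_
      show z' * s = s * z'
      have h3 : z' * s * z'⁻¹ = s := h2
      calc z' * s = z' * s * z'⁻¹ * z' := by group
        _ = s * z' := by rw [h3]
  · intro s _
    have h1 : ∀ q : P, rhoBar d ((q • s : L) : G) w = rhoBar d ((q : L) : G) (rhoBar d (s : G) w) := by
      intro q
      have h3 : rhoBar d (((q : L) : G)⁻¹) w = w := by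
        have := hfix q⁻¹
        simpa using this
      rw [hsmul]
      push_cast
      rw [map_mul, map_mul, Module.End.mul_apply, Module.End.mul_apply, h3]
    simp only [h1]
    refine ⟨rhoBar d (s : G) w, ?_⟩
    have h2 := sum_zpowers_eq (M := V) z' (fun x : L => rhoBar d (x : G) (rhoBar d (s : G) w))
    rw [show (∑ q : P, rhoBar d ((q : L) : G) (rhoBar d (s : G) w)) = _ from h2, hz']
    unfold nrm
    rw [LinearMap.sum_apply]
    refine Finset.sum_congr rfl fun i _ => ?_
    push_cast
    rw [map_pow]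

theorem The_comm_nrm (z' : L) : Commute (The D d) (nrm (rhoBar d (z' : G)) p) := by
  unfold nrm
  exact Commute.sum_right _ _ _ fun i _ => (The_comm_rho D d z').pow_right i

/-- **Vanishing**: elements of order `p` outside the central one act freely on the defect class. -/
theorem cyc_van (hDc : CenData (lamG (IsLocalRing.ResidueField O) L) (eBar D) (yBar D) N) (g₀ : L)
    (hK : ∀ m, 0 < m → (eBar D * classSumR (IsLocalRing.ResidueField O) g₀) ^ m ≠ 0)
    (z' : L) (hz' : orderOf z' = p) (hfree : ∀ κ : L, IsConj g₀ κ → Commute z' κ → False)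
    {w : V} (hw : The D d w = w) (hzw : rhoBar d (z' : G) w = w) :
    ∃ w', The D d w' = w' ∧ w = nrm (rhoBar d (z' : G)) p w' := by
  have hc : ∀ r, classSumR (IsLocalRing.ResidueField O) g₀ * r = r * classSumR (IsLocalRing.ResidueField O) g₀ :=
    fun r => isCentralElt_commute (isCentralElt_classSumR _ g₀) r
  obtain ⟨v₁, hv₁c, hv₁⟩ := hDc.exists_inv_of_not_nil hc hK
  obtain ⟨w₁, hw₁⟩ := exists_nrm_of_free d g₀ z' hz' hfree hzw
  have hcv : Commute (thetaBar d L v₁) (nrm (rhoBar d (z' : G)) p) := by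
    unfold nrm
    refine Commute.sum_right _ _ _ fun i _ => Commute.pow_right ?_ i
    rw [← thetaBar_single_one]
    show thetaBar d L v₁ * _ = _ * thetaBar d L v₁
    rw [← map_mul, ← map_mul, hv₁c]
  have h1 : w = nrm (rhoBar d (z' : G)) p (thetaBar d L v₁ w₁) := by
    have h2 : thetaBar d L v₁ * (thetaBar d L (classSumR (IsLocalRing.ResidueField O) g₀) * The D d) = The D d := by
      rw [The, ← map_mul, ← map_mul, hv₁]
    have h3 := congrArg (fun f : Module.End _ V => f w) h2
    simp only [Module.End.mul_apply, hw] at h3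
    rw [hw₁] at h3
    have h4 := congrArg (fun f : Module.End _ V => f w₁) hcv.eq
    simp only [Module.End.mul_apply] at h4
    rw [← h4, h3]
  refine ⟨The D d (thetaBar d L v₁ w₁), ?_, ?_⟩
  · exact congrArg (fun f : Module.End _ V => f _) (The_idem D d)
  · have h4 := congrArg (fun f : Module.End _ V => f (thetaBar d L v₁ w₁)) (The_comm_nrm D d z').eq
    simp only [Module.End.mul_apply] at h4
    rw [← h4, ← h1, hw]

theorem The_eq (hdσ : d.σ = IsLocalRing.residue O) :
    The D d = d.bar (lmulL a (incl L ef) (coefIn_incl L D.hefO)) :=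
  thetaBar_liftO d L hdσ D.hefO

/-- Conjugation within a subgroup of prime order. -/
theorem mem_normalizer_of_conj_mem {x c : G} (hxo : orderOf x = p) (h : c⁻¹ * x * c ∈ Subgroup.zpowers x) :
    c ∈ Subgroup.normalizer ((Subgroup.zpowers x : Subgroup G) : Set G) := by
  classical
  set H := Subgroup.zpowers x with hH
  let φ : G →* G := (MulAut.conj c⁻¹).toMonoidHom
  have hφ : ∀ g, φ g = c⁻¹ * g * c := fun g => by simp [φ, MulAut.conj_apply]
  have hinj : Function.Injective φ := (MulAut.conj c⁻¹).injective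
  have hmap : H.map φ = Subgroup.zpowers (c⁻¹ * x * c) := by
    rw [hH, MonoidHom.map_zpowers, hφ]
  have hle : H.map φ ≤ H := by
    rw [hmap]
    exact (Subgroup.zpowers_le).mpr h
  have hcard : Nat.card (H.map φ) = Nat.card H := Subgroup.card_map_of_injective hinj
  have heq : H.map φ = H := Subgroup.eq_of_le_of_card_ge hle (by rw [hcard])
  have h2 : c⁻¹ ∈ Subgroup.normalizer (H : Set G) := by
    rw [Subgroup.mem_normalizer_iff]
    intro g
    constructor
    · intro hg
      rw [← heq]
      exact ⟨g, hg, by rw [hφ]; simp⟩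
    · intro hg
      have hg2 : c⁻¹ * g * c⁻¹⁻¹ ∈ H.map φ := by rw [heq]; exact hg
      obtain ⟨g', hg', hgg⟩ := hg2
      rw [hφ] at hgg
      have : g' = g := by
        have h3 : c⁻¹ * g' * c = c⁻¹ * g * c := by simpa using hgg
        exact mul_left_cancel (mul_right_cancel h3)
      rwa [← this]
  simpa using Subgroup.inv_mem _ h2

/-- The Mackey property on the block. -/
theorem cyc_hM [DecidableEq G] [FiniteDimensional (IsLocalRing.ResidueField O) V] (hM : IsPModular p M) (hO : UnramRing M p O)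
    (hdσ : d.σ = IsLocalRing.residue O) (hDc : CenData (lamG (IsLocalRing.ResidueField O) L) (eBar D) (yBar D) N)
    {Tf : Subgroup G} [Fintype (G ⧸ Tf)] (hLT : L ≤ Tf) {z : L} {b : ℕ} (hzo : orderOf z = p)
    (hz : MonoidAlgebra.single z (1 : ℂ) * ef = u ^ (p ^ b)) (hN : N = p ^ (b + 1))
    (hAe : ∀ x ∈ Tf, MonoidAlgebra.single x (1 : ℂ) * incl L ef = incl L ef * MonoidAlgebra.single x (1 : ℂ))
    (horth : ∀ c, c ∉ Tf → c ∈ Subgroup.normalizer ((Subgroup.zpowers (z : G) : Subgroup G) : Set G) →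
      incl L ef * MonoidAlgebra.single c (1 : ℂ) * incl L ef = 0)
    (hAp : ∀ x ∈ Tf, orderOf x = p → x ∈ L) (g₀ : L)
    (hK : ∀ m, 0 < m → (eBar D * classSumR (IsLocalRing.ResidueField O) g₀) ^ m ≠ 0)
    (hfree : ∀ z' : L, orderOf z' = p → z' ∉ Subgroup.zpowers z → ∀ κ : L, IsConj g₀ κ → Commute z' κ → False)
    (E₁ : Module.End (IsLocalRing.ResidueField O) V) (hE₁T : ∀ x ∈ Tf, Commute E₁ (rhoBar d x)) (hE₁e : The D d * E₁ = E₁)
    (v : V) (hve : The D d v = v) (hvy : (Thy D d ^ (p ^ b)) v = 0) :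
    relTrace (rhoBar d) Tf E₁ v - E₁ v ∈ (⊤ : Submodule (IsLocalRing.ResidueField O) V).map (Thy D d ^ (N - p ^ b)) := by
  classical
  have hE : The D d = d.bar (lmulL a (incl L ef) (coefIn_incl L D.hefO)) := The_eq D d hdσ
  have hN2 : N - p ^ b = p ^ b * (p - 1) := by
    rw [hN, pow_succ, Nat.mul_sub, mul_one]
  have hEr : ∀ E : Module.End (IsLocalRing.ResidueField O) V, (∀ g : L, Commute E (rhoBar d (g : G))) → Commute E (The D d) :=
    fun E h => commute_thetaBar d L h _
  have hEL : ∀ g : L, Commute E₁ (rhoBar d (g : G)) := fun g => hE₁T g (hLT g.2)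
  have hE₁e' : E₁ * The D d = E₁ := by
    rw [(hEr E₁ hEL).eq, hE₁e]
  have hebT : ∀ x ∈ Tf, Commute (The D d) (rhoBar d x) := by
    intro x hx
    rw [hE, rhoBar_apply]
    apply d.bar_commute
    show lmulL a (incl L ef) (coefIn_incl L D.hefO) * rhoL O a x = rhoL O a x * lmulL a (incl L ef) (coefIn_incl L D.hefO)
    refine LinearMap.ext fun w => Subtype.ext ?_
    simp only [Module.End.mul_apply, lmulL_coe, rhoL_coe, ← mul_assoc, hAe x hx]
  have hebF : Commute (relTrace (rhoBar d) Tf E₁) (The D d) :=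
    hEr _ fun g => relTrace_commute (rhoBar d) Tf hE₁T _
  have hzT : (z : G) ∈ Tf := hLT z.2
  have hzoG : orderOf (z : G) = p := by
    rw [Subgroup.orderOf_coe, hzo]
  refine mackey_section (rhoBar d) Tf (The D d) E₁ hE₁T hE₁e hE₁e' hebF hebT (The_idem D d) (z : G) hzoG hzT _ ?_ ?_ ?_ v hve ?_
  · intro w hw
    obtain ⟨-, h2⟩ := nrm_on_block D d hM hO hz hw
    rw [h2, hN2]
    exact ⟨w, trivial, rfl⟩
  · intro c hc hcn
    rw [hE, rhoBar_apply, ← d.bar_mul, ← d.bar_mul]
    have h0 : lmulL a (incl L ef) (coefIn_incl L D.hefO) * rhoL O a c * lmulL a (incl L ef) (coefIn_incl L D.hefO) = 0 := by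
      refine LinearMap.ext fun w => Subtype.ext ?_
      simp only [Module.End.mul_apply, lmulL_coe, rhoL_coe, ← mul_assoc]
      rw [horth c hc hcn, zero_mul]
      rfl
    rw [h0]
    refine d.bar_ext fun w => ?_
    rw [d.bar_red]
    simp
  · intro c hc hcn w hw hzw
    have hordc : orderOf (c⁻¹ * (z : G) * c) = p := by
      have h1 : orderOf ((MulAut.conj c⁻¹).toMonoidHom (z : G)) = orderOf (z : G) :=
        orderOf_injective _ (MulAut.conj c⁻¹).injective _
      have h2 : (MulAut.conj c⁻¹).toMonoidHom (z : G) = c⁻¹ * (z : G) * c := by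
        simp [MulAut.conj_apply]
      rw [← h2, h1, hzoG]
    have hmemL := hAp _ hc hordc
    let z' : L := ⟨c⁻¹ * (z : G) * c, hmemL⟩
    have hz'o : orderOf z' = p := by
      rw [← Subgroup.orderOf_coe]
      exact hordc
    have hz'n : z' ∉ Subgroup.zpowers z := by
      intro hmem
      apply hcn
      refine mem_normalizer_of_conj_mem hzoG ?_
      obtain ⟨j, hj⟩ := hmem
      refine ⟨j, ?_⟩
      have := congrArg (Subtype.val) hj
      simpa using this
    exact cyc_van D d hDc g₀ hK z' hz'o (hfree z' hz'o hz'n) hw hzw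
  · exact ((nrm_on_block D d hM hO hz hve).1).trans (by rw [hvy, add_zero])

end Van

section Act

variable {Af : Subgroup G} (hAfN : Af ≤ Subgroup.normalizer (L : Set G))

/-- The conjugation action. -/
noncomputable def actN : Af →* MulAut L := (Subgroup.normalizerMonoidHom L).comp (Subgroup.inclusion hAfN)

theorem actN_coe (x : Af) (g : L) : ((actN hAfN x g : L) : G) = (x : G) * g * (x : G)⁻¹ := rfl

variable (R₀ : Type*) [Field R₀]

/-- The conjugation action on the group algebra. -/
noncomputable def sgN : Af →* (MonoidAlgebra R₀ L ≃ₐ[R₀] MonoidAlgebra R₀ L) :=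
  (MonoidAlgebra.domCongrAut (R := R₀) (A := R₀) (M := L)).comp (actN hAfN)

theorem sgN_single (x : Af) (g : L) (c : R₀) :
    sgN hAfN R₀ x (MonoidAlgebra.single g c) = MonoidAlgebra.single (actN hAfN x g) c := by
  simp [sgN, MonoidAlgebra.domCongrAut]

theorem sgN_eq_sum (x : Af) (r : MonoidAlgebra R₀ L) :
    sgN hAfN R₀ x r = ∑ g : L, MonoidAlgebra.single (actN hAfN x g) (r.coeff g) := by
  conv_lhs => rw [← ofFun_coeff r]
  unfold ofFun
  rw [map_sum]
  simp only [sgN_single]

variable {R₀}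

omit [Fintype L] in
theorem sgN_inc [Fintype L] (hLAf : L ≤ Af) (l : L) (r : MonoidAlgebra R₀ L) :
    sgN hAfN R₀ (Subgroup.inclusion hLAf l) r =
      MonoidAlgebra.of R₀ L l * r * MonoidAlgebra.of R₀ L l⁻¹ := by
  rw [sgN_eq_sum]
  conv_rhs => rw [← ofFun_coeff r]
  unfold ofFun
  rw [Finset.mul_sum, Finset.sum_mul]
  refine Finset.sum_congr rfl fun g _ => ?_
  simp only [MonoidAlgebra.of_apply, MonoidAlgebra.single_mul_single, mul_one, one_mul]
  congr 1

theorem span_of_group (r : MonoidAlgebra R₀ L) : r ∈ Submodule.span R₀ (Set.range (MonoidAlgebra.of R₀ L)) := by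
  rw [← ofFun_coeff r]
  unfold ofFun
  refine Submodule.sum_mem _ fun g _ => ?_
  have h1 : MonoidAlgebra.single g (r.coeff g) = r.coeff g • MonoidAlgebra.of R₀ L g := by
    simp
  rw [h1]
  exact Submodule.smul_mem _ _ (Submodule.subset_span ⟨g, rfl⟩)

theorem sgN_eq_of_invariant {r : MonoidAlgebra R₀ L} (x : Af) (h : ∀ g, r.coeff (actN hAfN x g) = r.coeff g) :
    sgN hAfN R₀ x r = r := by
  rw [sgN_eq_sum]
  conv_rhs => rw [← ofFun_coeff r]
  unfold ofFun
  refine Fintype.sum_equiv (actN hAfN x).toEquiv _ _ fun g => ?_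
  rw [MulEquiv.toEquiv_eq_coe]
  show MonoidAlgebra.single (actN hAfN x g) (r.coeff g) = MonoidAlgebra.single (actN hAfN x g) (r.coeff (actN hAfN x g))
  rw [h]

/-- The action of the group normalizing the subgroup on the reduction. -/
theorem theta_conj (x : Af) (r : MonoidAlgebra (IsLocalRing.ResidueField O) L) :
    rhoBar d (x : G) * thetaBar d L r =
      thetaBar d L (sgN hAfN (IsLocalRing.ResidueField O) x r) * rhoBar d (x : G) := by
  rw [sgN_eq_sum]
  conv_lhs => rw [← ofFun_coeff r]
  unfold ofFun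
  rw [map_sum, map_sum, Finset.mul_sum, Finset.sum_mul]
  refine Finset.sum_congr rfl fun g _ => ?_
  rw [thetaBar_single, thetaBar_single, mul_smul_comm, smul_mul_assoc, ← map_mul, ← map_mul, actN_coe]
  congr 2
  group

theorem coeff_invariant_of_comm (hL : ∀ x ∈ Af, MonoidAlgebra.single x (1 : ℂ) * incl L ef = incl L ef * MonoidAlgebra.single x (1 : ℂ))
    (x : Af) (g : L) : ef.coeff (actN hAfN x g) = ef.coeff g := by
  have h1 := congrArg (fun z => MonoidAlgebra.coeff z ((x : G) * g)) (hL x x.2)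
  simp only [MonoidAlgebra.coeff_single_mul_apply, MonoidAlgebra.coeff_mul_single_apply, one_mul, mul_one,
    inv_mul_cancel_left] at h1
  rw [← coeff_incl_coe L ef g, ← coeff_incl_coe L ef (actN hAfN x g), actN_coe, h1]

end Act

section Main

variable {Af : Subgroup G} (hAfN : Af ≤ Subgroup.normalizer (L : Set G)) (hLAf : L ≤ Af)

include hAfN hLAf in
/-- A generator of the quotient modulo the subgroup, from a conjugate by the subgroup and a power. -/
theorem exists_gen_mod {t t₂ : Af} {l : L} {r' q : ℕ} (hAq : ∀ x : Af, (x : G) ^ q ∈ L)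
    (ht₂ : t₂ = (t * Subgroup.inclusion hLAf l) ^ r') (hr' : r' % q = 1 % q) :
    ∃ l₂ : L, t = t₂ * Subgroup.inclusion hLAf l₂ := by
  classical
  let L' : Subgroup Af := L.subgroupOf Af
  haveI hnorm : L'.Normal := by
    refine ⟨fun n hn g => ?_⟩
    have h1 := (Subgroup.mem_normalizer_iff.mp (hAfN g.2) (n : G)).mp hn
    exact h1
  let mk' : Af →* Af ⧸ L' := QuotientGroup.mk' L'
  have hmk : ∀ x : L, mk' (Subgroup.inclusion hLAf x) = 1 := by
    intro x
    exact (QuotientGroup.eq_one_iff _).mpr x.2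
  have hq : mk' t ^ q = 1 := by
    rw [← map_pow]
    exact (QuotientGroup.eq_one_iff _).mpr (hAq t)
  have h1 : mk' t₂ = mk' t := by
    rw [ht₂, map_pow, map_mul, hmk, mul_one, pow_eq_pow_mod r' hq, hr', ← pow_eq_pow_mod 1 hq, pow_one]
  have h2 : t₂⁻¹ * t ∈ L' := (QuotientGroup.eq).mp h1
  refine ⟨⟨_, h2⟩, ?_⟩
  apply Subtype.ext
  show (t : G) = t₂ * ((t₂⁻¹ * t : Af) : G)
  push_cast
  group

variable [FiniteDimensional (IsLocalRing.ResidueField O) V]

include hAfN in
/-- **The minimal idempotent** on the reduction of the lattice. -/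
theorem cyc_exists_E [Nontrivial V] (hM : IsPModular p M) (hO : UnramRing M p O)
    (hdσ : d.σ = IsLocalRing.residue O) (hDc : CenData (lamG (IsLocalRing.ResidueField O) L) (eBar D) (yBar D) N)
    {z : L} {b : ℕ} (hzo : orderOf z = p)
    (hz : MonoidAlgebra.single z (1 : ℂ) * ef = u ^ (p ^ b)) (hN : N = p ^ (b + 1))
    (hAe : ∀ x ∈ Af, MonoidAlgebra.single x (1 : ℂ) * incl L ef = incl L ef * MonoidAlgebra.single x (1 : ℂ))
    (horth : ∀ c, c ∉ Af → c ∈ Subgroup.normalizer ((Subgroup.zpowers (z : G) : Subgroup G) : Set G) →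
      incl L ef * MonoidAlgebra.single c (1 : ℂ) * incl L ef = 0)
    (hAp : ∀ x ∈ Af, orderOf x = p → x ∈ L) (g₀ : L)
    (hK : ∀ m, 0 < m → (eBar D * classSumR (IsLocalRing.ResidueField O) g₀) ^ m ≠ 0)
    (hfree : ∀ z' : L, orderOf z' = p → z' ∉ Subgroup.zpowers z → ∀ κ : L, IsConj g₀ κ → Commute z' κ → False)
    (t : Af) (ht : ∀ x : Af, ∃ (j : ℕ) (l : L), x = t ^ j * Subgroup.inclusion hLAf l)
    (hAq : ∀ x : Af, (x : G) ^ (Nat.card (IsLocalRing.ResidueField O) - 1) ∈ L)
    (horder : ∀ g : Af, ¬ p ∣ orderOf g → orderOf g ∣ Nat.card (IsLocalRing.ResidueField O) - 1) :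
    ∃ (n : ℕ) (i : MonoidAlgebra (IsLocalRing.ResidueField O) L) (c d' : Fin n → MonoidAlgebra (IsLocalRing.ResidueField O) L),
      Corner (k := IsLocalRing.ResidueField O) (eBar D) (yBar D) i c d' ∧
      n * n * N ≤ finrank (IsLocalRing.ResidueField O) (LinearMap.range (LinearMap.mulLeft (IsLocalRing.ResidueField O) (eBar D))) ∧
      ∃ E : Module.End (IsLocalRing.ResidueField O) V, IsIdempotentElem E ∧ (∀ g, Commute E (rhoBar d g)) ∧ E ≠ 0 ∧
        secRk (thetaBar d L i * E) (LinearMap.ker (Thy D d)) ((⊤ : Submodule (IsLocalRing.ResidueField O) V).map (Thy D d ^ (N - 1))) ≤ 1 := by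
  classical
  let k := IsLocalRing.ResidueField O
  have hkfin : Finite k := residue_finite hM hO
  letI hkF : Fintype k := Fintype.ofFinite k
  haveI hchar : CharP k p := charP_res hM hO
  have hFink : Module.Finite k (MonoidAlgebra k L) := Module.Finite.of_basis (MonoidAlgebra.basis L k)
  letI : Fintype (G ⧸ Af) := Fintype.ofFinite _
  have hcardk : Nat.card k = Fintype.card k := Nat.card_eq_fintype_card
  have hLGinv : ∀ x : Af, sgN hAfN k x (eBar D) = eBar D := by
    intro x
    apply sgN_eq_of_invariant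
    intro g
    rw [eBar, piR_coeff, piR_coeff]
    congr 1
    apply Subtype.ext
    rw [coeff_liftO, coeff_liftO]
    exact coeff_invariant_of_comm hAfN hAe x g
  have hN' : 0 < p ^ b := pow_pos hp.out.pos _
  have hNb : p ^ b < N := by
    rw [hN, pow_succ]
    have := hp.out.two_le
    nlinarith
  obtain ⟨n, i, c, d', l, r', hC, hi, hord, hr', hcard⟩ := exists_corner_data hDc (sgN hAfN k) (Subgroup.inclusion hLAf)
    (MonoidAlgebra.of k L) (fun l r => sgN_inc hAfN hLAf l r) (fun r => span_of_group r) t (hLGinv t) p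
    (by
      intro g hg
      rw [← hcardk]
      exact horder g hg)
  refine ⟨n, i, c, d', hC, hcard, ?_⟩
  set t₂ : Af := (t * Subgroup.inclusion hLAf l) ^ r' with ht₂
  have hr'' : r' % (Nat.card k - 1) = 1 % (Nat.card k - 1) := by
    rw [hcardk]
    exact hr'
  obtain ⟨l₂, hl₂⟩ := exists_gen_mod hAfN hLAf hAq ht₂ hr''
  have hordG : orderOf (t₂ : G) = orderOf t₂ := Subgroup.orderOf_coe t₂
  have ho : 0 < orderOf t₂ := orderOf_pos t₂
  have hdvd : orderOf t₂ ∣ Fintype.card k - 1 := by
    rw [← hcardk]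
    exact horder t₂ hord
  obtain ⟨m, hm⟩ := hdvd
  obtain ⟨g₁, hg₁, -⟩ := exists_gen_units (k := k)
  have hprim : IsPrimitiveRoot ((g₁ : kˣ) : k) (Fintype.card k - 1) := by
    rw [IsPrimitiveRoot.coe_units_iff, ← hg₁]
    exact IsPrimitiveRoot.orderOf g₁
  have hqpos : 0 < Fintype.card k - 1 := by
    have := Fintype.one_lt_card (α := k)
    omega
  have hζ : IsPrimitiveRoot (((g₁ : kˣ) : k) ^ m) (orderOf t₂) := hprim.pow hqpos (by rw [hm, mul_comm])
  have ho0 : ((orderOf t₂ : ℕ) : k) ≠ 0 := by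
    intro h0
    exact hord ((CharP.cast_eq_zero_iff k p _).mp h0)
  obtain ⟨g, hg0, hgy⟩ := hDc.exists_poly_of_aut (sgN hAfN k t₂) (hLGinv t₂)
  have hρσ : ∀ r, rhoBar d (t₂ : G) * thetaBar d L r = thetaBar d L (sgN hAfN k t₂ r) * rhoBar d (t₂ : G) :=
    fun r => theta_conj d hAfN t₂ r
  have hty : rhoBar d (t₂ : G) * thetaBar d L (yBar D) = aeval (thetaBar d L (yBar D)) g * rhoBar d (t₂ : G) := by
    rw [hρσ, hgy, ← aeval_algHom_apply]
  have hTf : ∀ E₁ : Module.End k V, (∀ r, Commute E₁ (thetaBar d L r)) → Commute E₁ (rhoBar d (t₂ : G)) →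
      ∀ x ∈ Af, Commute E₁ (rhoBar d x) := by
    intro E₁ h1 h2 x hx
    obtain ⟨j, l₃, hj⟩ := ht ⟨x, hx⟩
    have h3 : x = (t : G) ^ j * (l₃ : G) := congrArg Subtype.val hj
    have h4 : (t : G) = (t₂ : G) * (l₂ : G) := congrArg Subtype.val hl₂
    have hL : ∀ l₄ : L, Commute E₁ (rhoBar d (l₄ : G)) := by
      intro l₄
      rw [← thetaBar_single_one]
      exact h1 _
    rw [h3, map_mul, map_pow, h4, map_mul]
    exact ((h2.mul_right (hL l₂)).pow_right j).mul_right (hL l₃)
  have hmack := fun (E₁ : Module.End k V) (h1 : ∀ x ∈ Af, Commute E₁ (rhoBar d x)) (h2 : thetaBar d L (eBar D) * E₁ = E₁)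
      (v : V) (h3 : thetaBar d L (eBar D) v = v) (h4 : (thetaBar d L (yBar D) ^ (p ^ b)) v = 0) =>
    cyc_hM D d hM hO hdσ hDc hLAf hzo hz hN hAe horth hAp g₀ hK hfree E₁ h1 h2 v h3 h4
  exact exists_min_idem (G := G) hDc hC (thetaBar d L) (rhoBar d)
    (fun F hF r => commute_thetaBar d L (fun g => hF _) r) (t₂ : G) (sgN hAfN k t₂) (hLGinv t₂) hi hρσ
    (o := orderOf t₂) ho (by rw [← hordG]; exact pow_orderOf_eq_one _) hζ ho0 p hg0 hty Af hTf hN' hNb hmack

end Main

end Core

end Cfsg.Agent.Lib.FF
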