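import Cfsg.Agent.Lib.FF.GenTate

/-!
# Splitting idempotents for a nilpotent operator and a semisimple operator normalising it
-/

set_option autoImplicit false
set_option linter.unusedSectionVars false
set_option linter.unusedVariables false

namespace Cfsg.Agent.Lib.FF

open Module Polynomial

section LemT

variable {k V : Type*} [Field k] [AddCommGroup V] [Module k V]

theorem idem_apply' {π : Module.End k V} (h : IsIdempotentElem π) (v : V) : π (π v) = π v :=
  congrArg (fun f : Module.End k V => f v) h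

theorem mul_apply_eq {a b c : Module.End k V} (h : a * b = c) (v : V) : a (b v) = c v :=
  congrArg (fun f : Module.End k V => f v) h

/-- The eigencomponents of an operator of finite order. -/
theorem exists_eigen_comp {W : Type*} [AddCommGroup W] [Module k W] {t : Module.End k V} {o : ℕ} (ho : 0 < o)
    (ht : t ^ o = 1) {ζ : k} (hζ : IsPrimitiveRoot ζ o) (ho0 : (o : k) ≠ 0) (A : V →ₗ[k] W) {v : V} (hv : A v ≠ 0) :
    ∃ (q : k[X]) (l : k), A (aeval t q v) ≠ 0 ∧ t (aeval t q v) = l • aeval t q v := by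
  classical
  have hζ0 : ζ ≠ 0 := hζ.ne_zero ho.ne'
  set w := ζ⁻¹ with hw
  have hwo : w ^ o = 1 := by rw [hw, inv_pow, hζ.pow_eq_one, inv_one]
  let qq : ℕ → k[X] := fun j => ∑ i ∈ Finset.range o, C ((o : k)⁻¹ * w ^ (i * j)) * X ^ i
  have hqq : ∀ j, aeval t (qq j) = ∑ i ∈ Finset.range o, ((o : k)⁻¹ * w ^ (i * j)) • t ^ i := by
    intro j
    simp only [qq, map_sum]
    refine Finset.sum_congr rfl fun i _ => ?_
    rw [map_mul, aeval_C, map_pow, aeval_X, ← Algebra.smul_def]
  -- the sum is the identity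
  have hsum : ∑ j ∈ Finset.range o, aeval t (qq j) = 1 := by
    simp only [hqq]
    rw [Finset.sum_comm]
    rw [Finset.sum_eq_single_of_mem 0 (Finset.mem_range.mpr ho)]
    · simp only [zero_mul, pow_zero, mul_one, Finset.sum_const, Finset.card_range]
      rw [← Nat.cast_smul_eq_nsmul k, smul_smul, mul_inv_cancel₀ ho0, one_smul]
    · intro i hi hi0
      have hi1 : w ^ i ≠ 1 := by
        intro h
        have h2 : ζ ^ i = 1 := by
          rw [hw, inv_pow] at h
          exact inv_eq_one.mp h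
        have h3 := hζ.dvd_of_pow_eq_one i h2
        have h4 := Nat.le_of_dvd (Nat.pos_of_ne_zero hi0) h3
        have := Finset.mem_range.mp hi
        omega
      have h5 : ∑ j ∈ Finset.range o, (w ^ i) ^ j = 0 := by
        have h6 := mul_geom_sum (w ^ i) o
        rw [← pow_mul, mul_comm i o, pow_mul, hwo, one_pow, sub_self] at h6
        exact (mul_eq_zero.mp h6).resolve_left (sub_ne_zero.mpr hi1)
      rw [← Finset.sum_smul]
      have h7 : ∑ j ∈ Finset.range o, (o : k)⁻¹ * w ^ (i * j) = (o : k)⁻¹ * ∑ j ∈ Finset.range o, (w ^ i) ^ j := by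
        rw [Finset.mul_sum]
        refine Finset.sum_congr rfl fun j _ => ?_
        rw [pow_mul]
      rw [h7, h5, mul_zero, zero_smul]
  -- each component is an eigenvector
  have heig : ∀ j, t * aeval t (qq j) = ζ ^ j • aeval t (qq j) := by
    intro j
    rw [hqq]
    let b : ℕ → Module.End k V := fun i => (ζ ^ j * ((o : k)⁻¹ * w ^ (i * j))) • t ^ i
    have h1 : ∀ i, t * (((o : k)⁻¹ * w ^ (i * j)) • t ^ i) = b (i + 1) := by
      intro i
      show _ = (ζ ^ j * ((o : k)⁻¹ * w ^ ((i + 1) * j))) • t ^ (i + 1)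
      rw [mul_smul_comm, ← pow_succ']
      congr 1
      have h2 : ζ ^ j * w ^ j = 1 := by
        rw [← mul_pow, hw, mul_inv_cancel₀ hζ0, one_pow]
      rw [add_mul, one_mul, pow_add]
      calc (o : k)⁻¹ * w ^ (i * j) = (o : k)⁻¹ * w ^ (i * j) * (ζ ^ j * w ^ j) := by rw [h2, mul_one]
        _ = _ := by ring
    rw [Finset.mul_sum, Finset.sum_congr rfl fun i _ => h1 i, Finset.smul_sum]
    have h3 : ∑ i ∈ Finset.range (o + 1), b i = ∑ i ∈ Finset.range o, b (i + 1) + b 0 :=
      Finset.sum_range_succ' b o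
    have h4 : ∑ i ∈ Finset.range (o + 1), b i = ∑ i ∈ Finset.range o, b i + b o :=
      Finset.sum_range_succ b o
    have h5 : b o = b 0 := by
      show (ζ ^ j * ((o : k)⁻¹ * w ^ (o * j))) • t ^ o = (ζ ^ j * ((o : k)⁻¹ * w ^ (0 * j))) • t ^ 0
      rw [pow_mul, hwo, one_pow, ht]
      simp
    rw [h5] at h4
    have h6 : ∑ i ∈ Finset.range o, b (i + 1) = ∑ i ∈ Finset.range o, b i := by
      have := h3.symm.trans h4
      exact add_right_cancel this
    rw [h6]
    refine Finset.sum_congr rfl fun i _ => ?_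
    rw [smul_smul]
  -- pick a component
  have h1 : A v = ∑ j ∈ Finset.range o, A (aeval t (qq j) v) := by
    rw [← map_sum, ← LinearMap.sum_apply, hsum]
    rfl
  rw [h1] at hv
  obtain ⟨j, -, hj⟩ := Finset.exists_ne_zero_of_sum_ne_zero hv
  exact ⟨qq j, ζ ^ j, hj, congrArg (fun f : Module.End k V => f v) (heig j)⟩

variable [FiniteDimensional k V]

/-- Additivity of the rank. -/
theorem rk_add_orth {π₁ π₂ : Module.End k V} (h1 : IsIdempotentElem π₁) (h2 : IsIdempotentElem π₂)
    (h12 : π₁ * π₂ = 0) (h21 : π₂ * π₁ = 0) {S : Submodule k V} (hS1 : S.map π₁ ≤ S) (hS2 : S.map π₂ ≤ S) :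
    rk (π₁ + π₂) S = rk π₁ S + rk π₂ S := by
  have hz12 : ∀ v, π₁ (π₂ v) = 0 := fun v => by
    rw [mul_apply_eq h12]
    rfl
  have hz21 : ∀ v, π₂ (π₁ v) = 0 := fun v => by
    rw [mul_apply_eq h21]
    rfl
  have hsup : S.map (π₁ + π₂) = S.map π₁ ⊔ S.map π₂ := by
    apply le_antisymm
    · rintro _ ⟨s, hs, rfl⟩
      exact Submodule.add_mem_sup ⟨s, hs, rfl⟩ ⟨s, hs, rfl⟩
    · refine sup_le ?_ ?_
      · rintro _ ⟨s, hs, rfl⟩
        refine ⟨π₁ s, hS1 ⟨s, hs, rfl⟩, ?_⟩
        show π₁ (π₁ s) + π₂ (π₁ s) = π₁ s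
        rw [idem_apply' h1, hz21, add_zero]
      · rintro _ ⟨s, hs, rfl⟩
        refine ⟨π₂ s, hS2 ⟨s, hs, rfl⟩, ?_⟩
        show π₁ (π₂ s) + π₂ (π₂ s) = π₂ s
        rw [idem_apply' h2, hz12, zero_add]
  have hinf : S.map π₁ ⊓ S.map π₂ = ⊥ := by
    rw [eq_bot_iff]
    rintro x ⟨⟨s, hs, rfl⟩, ⟨s', hs', h⟩⟩
    have h3 : π₁ s = π₂ s' := h.symm
    have h4 : π₁ (π₁ s) = π₁ (π₂ s') := by rw [h3]
    rw [idem_apply' h1, hz12] at h4
    exact h4
  unfold rk
  rw [hsup]
  have := Submodule.finrank_sup_add_finrank_inf_eq (S.map π₁) (S.map π₂)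
  rw [hinf, finrank_bot] at this
  omega

/-- The rank of an idempotent on a section. -/
noncomputable def secRk (π : Module.End k V) (K Q : Submodule k V) : ℤ := (rk π K : ℤ) - rk π Q

theorem secRk_add {π₁ π₂ : Module.End k V} (h1 : IsIdempotentElem π₁) (h2 : IsIdempotentElem π₂)
    (h12 : π₁ * π₂ = 0) (h21 : π₂ * π₁ = 0) {K Q : Submodule k V} (hK1 : K.map π₁ ≤ K) (hK2 : K.map π₂ ≤ K)
    (hQ1 : Q.map π₁ ≤ Q) (hQ2 : Q.map π₂ ≤ Q) :
    secRk (π₁ + π₂) K Q = secRk π₁ K Q + secRk π₂ K Q := by
  unfold secRk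
  rw [rk_add_orth h1 h2 h12 h21 hK1 hK2, rk_add_orth h1 h2 h12 h21 hQ1 hQ2]
  push_cast
  ring

theorem commute_aeval_y (y : Module.End k V) (q : k[X]) : Commute (aeval y q) y := by
  have h : Commute q (X : k[X]) := (commute_X q).symm
  simpa using h.map (aeval y)

theorem commute_aeval_aeval (y : Module.End k V) (q q' : k[X]) : Commute (aeval y q) (aeval y q') := by
  have h : Commute q q' := Commute.all q q'
  exact h.map (aeval y)

theorem aeval_apply_top {y : Module.End k V} {m : ℕ} {v : V} (h2 : (y ^ (m + 1)) v = 0) (q : k[X]) :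
    (aeval y q) ((y ^ m) v) = q.coeff 0 • (y ^ m) v := by
  have h4 : q = aeval (X : k[X]) q.divX * X + C (q.coeff 0) := by
    rw [aeval_X_left_apply]
    exact q.divX_mul_X_add.symm
  have h5 : y ((y ^ m) v) = 0 := by
    rw [← Module.End.mul_apply, ← pow_succ']
    exact h2
  conv_lhs => rw [h4]
  rw [aeval_X_left_apply, map_add, map_mul, aeval_C, aeval_X, LinearMap.add_apply, Module.End.mul_apply, h5, map_zero,
    zero_add, Module.algebraMap_end_apply]

theorem aeval_dvd {y : Module.End k V} {m : ℕ} {v : V} (h1 : (y ^ m) v ≠ 0) (h2 : (y ^ (m + 1)) v = 0) :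
    ∀ j ≤ m, ∀ q : k[X], (y ^ (m + 1 - j)) (aeval y q v) = 0 → ∃ q' : k[X], aeval y q v = (y ^ j) (aeval y q' v) := by
  intro j
  induction j with
  | zero => exact fun _ q _ => ⟨q, rfl⟩
  | succ j ih =>
    intro hj q hq
    have h3 : (y ^ m) (aeval y q v) = 0 := by
      have e : m = j + (m + 1 - (j + 1)) := by omega
      rw [e, pow_add, Module.End.mul_apply, hq, map_zero]
    have hc : ∀ (n : ℕ) (u : V), (y ^ n) (aeval y q u) = (aeval y q) ((y ^ n) u) := fun n u =>
      congrArg (fun f : Module.End k V => f u) ((commute_aeval_y y q).pow_right n).symm.eq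
    rw [hc, aeval_apply_top h2] at h3
    have hq0 : q.coeff 0 = 0 := (smul_eq_zero.mp h3).resolve_right h1
    have hq1 : q = aeval (X : k[X]) q.divX * X := by
      rw [aeval_X_left_apply]
      have := q.divX_mul_X_add
      rw [hq0] at this
      simpa using this.symm
    have hq2 : ∀ u, aeval y q u = aeval y q.divX (y u) := by
      intro u
      conv_lhs => rw [hq1]
      rw [aeval_X_left_apply, map_mul, aeval_X]
      rfl
    have hq3 : ∀ u, aeval y q u = y (aeval y q.divX u) := by
      intro u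
      rw [hq2]
      exact congrArg (fun f : Module.End k V => f u) (commute_aeval_y y q.divX).eq.symm |>.symm ▸ rfl
    obtain ⟨q', hq'⟩ := ih (by omega) q.divX (by
      rw [hq3] at hq
      have e : m + 1 - j = (m + 1 - (j + 1)) + 1 := by omega
      rw [e, pow_succ, Module.End.mul_apply]
      exact hq)
    refine ⟨q', ?_⟩
    rw [hq3, hq', pow_succ', Module.End.mul_apply]

theorem kernel_cyclic {y : Module.End k V} {m : ℕ} {v : V} (h1 : (y ^ m) v ≠ 0) (h2 : (y ^ (m + 1)) v = 0)
    (q : k[X]) (h3 : y (aeval y q v) = 0) : ∃ c : k, aeval y q v = c • (y ^ m) v := by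
  obtain ⟨q', hq'⟩ := aeval_dvd h1 h2 m le_rfl q (by
    have e : m + 1 - m = 1 := by omega
    rw [e, pow_one]
    exact h3)
  refine ⟨q'.coeff 0, ?_⟩
  rw [hq', ← aeval_apply_top h2]
  exact congrArg (fun f : Module.End k V => f v) ((commute_aeval_y y q').pow_right m).symm.eq.symm |>.symm ▸ rfl

theorem commute_aeval_of_commute' {a z : Module.End k V} (h : Commute a z) (q : k[X]) : Commute a (aeval z q) := by
  induction q using Polynomial.induction_on' with
  | add p q hp hq =>
    rw [map_add]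
    exact hp.add_right hq
  | monomial n c =>
    rw [aeval_monomial]
    exact (Algebra.commute_algebraMap_right c a).mul_right (h.pow_right n)

theorem t_mul_aeval {y t : Module.End k V} {g : k[X]} (hty : t * y = aeval y g * t) (q : k[X]) :
    t * aeval y q = aeval y (q.comp g) * t := by
  induction q using Polynomial.induction_on with
  | C a =>
    simp only [aeval_C, C_comp]
    exact (Algebra.commutes a t).symm
  | add p q hp hq =>
    rw [map_add, mul_add, hp, hq, add_comp, map_add, add_mul]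
  | monomial n a h =>
    have h1 : C a * X ^ (n + 1) = (C a * X ^ n) * X := by ring
    have h2 : (C a * X ^ n * X).comp g = (C a * X ^ n).comp g * g := by rw [mul_comp, X_comp]
    rw [h1, map_mul, ← mul_assoc, h, aeval_X, mul_assoc, hty, h2, map_mul, mul_assoc]

theorem exists_conj_poly {y t : Module.End k V} {g : k[X]} (hg0 : g.coeff 0 = 0) (hty : t * y = aeval y g * t) (m : ℕ) :
    ∃ gm : k[X], gm.coeff 0 = 0 ∧ t ^ m * y = aeval y gm * t ^ m := by
  induction m with
  | zero => exact ⟨X, by simp, by simp⟩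
  | succ m ih =>
    obtain ⟨gm, h1, h2⟩ := ih
    refine ⟨gm.comp g, ?_, ?_⟩
    · rw [coeff_zero_eq_eval_zero, eval_comp, ← coeff_zero_eq_eval_zero, hg0, ← coeff_zero_eq_eval_zero, h1]
    · rw [pow_succ', mul_assoc, h2, ← mul_assoc, t_mul_aeval hty, mul_assoc]

/-- The cyclic subspace generated by a vector. -/
noncomputable def cycS (y : Module.End k V) (v : V) : Submodule k V :=
  LinearMap.range (((LinearMap.applyₗ v : Module.End k V →ₗ[k] V)).comp (aeval y : k[X] →ₐ[k] Module.End k V).toLinearMap)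

theorem mem_cycS {y : Module.End k V} {v u : V} : u ∈ cycS y v ↔ ∃ q : k[X], aeval y q v = u := by
  unfold cycS
  rw [LinearMap.mem_range]
  rfl

theorem aeval_mem_cycS (y : Module.End k V) (v : V) (q : k[X]) : aeval y q v ∈ cycS y v := mem_cycS.mpr ⟨q, rfl⟩

theorem aeval_stable_cycS (y : Module.End k V) (v : V) (q : k[X]) {u : V} (hu : u ∈ cycS y v) : aeval y q u ∈ cycS y v := by
  obtain ⟨q', rfl⟩ := mem_cycS.mp hu
  refine mem_cycS.mpr ⟨q * q', ?_⟩
  rw [map_mul]
  rfl

theorem y_stable_cycS (y : Module.End k V) (v : V) {u : V} (hu : u ∈ cycS y v) : y u ∈ cycS y v := by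
  have := aeval_stable_cycS y v X hu
  simpa using this

theorem pow_stable_cycS (y : Module.End k V) (v : V) (j : ℕ) {u : V} (hu : u ∈ cycS y v) : (y ^ j) u ∈ cycS y v := by
  have := aeval_stable_cycS y v (X ^ j) hu
  simpa using this

theorem t_stable_cycS {y t : Module.End k V} {g : k[X]} (hty : t * y = aeval y g * t) {v : V} {l : k}
    (hv : t v = l • v) {u : V} (hu : u ∈ cycS y v) : t u ∈ cycS y v := by
  obtain ⟨q, rfl⟩ := mem_cycS.mp hu
  have h1 := mul_apply_eq (t_mul_aeval hty q) v
  rw [h1]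
  show aeval y (q.comp g) (t v) ∈ _
  rw [hv, map_smul]
  exact Submodule.smul_mem _ _ (aeval_mem_cycS _ _ _)

section Step

variable {y t π : Module.End k V} {g : k[X]} {o N : ℕ}

/-- The step of the splitting argument. -/
theorem exists_cyc_idem (p : ℕ) [hp : Fact p.Prime] [CharP k p] (ho : 0 < o) (ht : t ^ o = 1) {ζ : k} (hζ : IsPrimitiveRoot ζ o) (ho0 : (o : k) ≠ 0)
    (hg0 : g.coeff 0 = 0) (hty : t * y = aeval y g * t) (hyN : y ^ N = 0) (hπ : IsIdempotentElem π)
    (hπy : Commute π y) (hπt : Commute π t) (hπ0 : π ≠ 0) :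
    ∃ f : Module.End k V, IsIdempotentElem f ∧ Commute f y ∧ Commute f t ∧ π * f = f ∧ f * π = f ∧ f ≠ 0 ∧
      (secRk f (LinearMap.ker y) ((⊤ : Submodule k V).map (y ^ (N - 1))) = 0 ∨
        secRk f (LinearMap.ker y) ((⊤ : Submodule k V).map (y ^ (N - 1))) = 1) := by
  classical
  -- the nilpotency index
  have hex : ∃ n, y ^ n * π = 0 := ⟨N, by rw [hyN, zero_mul]⟩
  obtain ⟨n, hn⟩ : ∃ n, n = Nat.find hex := ⟨_, rfl⟩
  have hnspec : y ^ n * π = 0 := by rw [hn]; exact Nat.find_spec hex
  have hnN : n ≤ N := by rw [hn]; exact Nat.find_min' hex (by rw [hyN, zero_mul])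
  have hn0 : n ≠ 0 := by
    rintro rfl
    apply hπ0
    simpa using hnspec
  obtain ⟨m, rfl⟩ : ∃ m, n = m + 1 := ⟨n - 1, by omega⟩
  have hm : y ^ m * π ≠ 0 := by
    have := Nat.find_min hex (m := m) (by omega)
    exact this
  -- the eigenvector
  obtain ⟨v₀, hv₀⟩ : ∃ v₀, (y ^ m * π) v₀ ≠ 0 := by
    by_contra hcon
    push Not at hcon
    exact hm (LinearMap.ext hcon)
  obtain ⟨q₀, l, hq₀, hl⟩ := exists_eigen_comp ho ht hζ ho0 (y ^ m) (v := π v₀) hv₀
  set v := aeval t q₀ (π v₀) with hv
  have hπv : π v = v := by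
    have h1 : Commute π (aeval t q₀) := commute_aeval_of_commute' hπt q₀
    rw [hv]
    have h3 := congrArg (fun f : Module.End k V => f (π v₀)) h1.eq
    simp only [Module.End.mul_apply, idem_apply' hπ] at h3
    exact h3
  have hym : (y ^ m) v ≠ 0 := hq₀
  have hym1 : (y ^ (m + 1)) v = 0 := by
    rw [← hπv]
    exact mul_apply_eq hnspec v
  have hnil : ∀ w, (y ^ (m + 1)) (π w) = 0 := fun w => mul_apply_eq hnspec w
  obtain ⟨α, hα⟩ : ∃ α : Module.Dual k V, α ((y ^ m) v) = 1 := Module.Projective.exists_dual_eq_one k hym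
  -- the map B
  let B : Module.End k V := ∑ j ∈ Finset.range (m + 1), (α ∘ₗ (y ^ (m - j) * π)).smulRight ((y ^ j) v)
  have hB : ∀ w, B w = ∑ j ∈ Finset.range (m + 1), α ((y ^ (m - j)) (π w)) • (y ^ j) v := by
    intro w
    simp only [B, LinearMap.sum_apply, LinearMap.smulRight_apply, LinearMap.comp_apply, Module.End.mul_apply]
  have hπyw : ∀ (i : ℕ) w, π ((y ^ i) w) = (y ^ i) (π w) := fun i w =>
    congrArg (fun f : Module.End k V => f w) (hπy.pow_right i).eq
  have hBy : Commute B y := by
    show B * y = y * B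
    refine LinearMap.ext fun w => ?_
    rw [Module.End.mul_apply, Module.End.mul_apply, hB, hB, map_sum, Finset.sum_range_succ', Finset.sum_range_succ]
    have hA : ∀ i ∈ Finset.range m, α ((y ^ (m - (i + 1))) (π (y w))) • (y ^ (i + 1)) v =
        y (α ((y ^ (m - i)) (π w)) • (y ^ i) v) := by
      intro i hi
      have hi' := Finset.mem_range.mp hi
      have e1 : π (y w) = y (π w) := congrArg (fun f : Module.End k V => f w) hπy.eq
      have e2 : m - i = (m - (i + 1)) + 1 := by omega
      have e5 : (y ^ (m - (i + 1))) (y (π w)) = (y ^ (m - i)) (π w) := by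
        rw [← Module.End.mul_apply, ← pow_succ, ← e2]
      have e6 : (y ^ (i + 1)) v = y ((y ^ i) v) := by
        rw [pow_succ']
        rfl
      rw [e1, e5, e6, map_smul]
    rw [Finset.sum_congr rfl hA]
    have e3 : α ((y ^ (m - 0)) (π (y w))) = 0 := by
      have e1 : π (y w) = y (π w) := congrArg (fun f : Module.End k V => f w) hπy.eq
      rw [e1, Nat.sub_zero, ← Module.End.mul_apply, ← pow_succ, hnil, map_zero]
    have e4 : y (α ((y ^ (m - m)) (π w)) • (y ^ m) v) = 0 := by
      have e6 : y ((y ^ m) v) = (y ^ (m + 1)) v := by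
        rw [pow_succ']
        rfl
      rw [map_smul, e6, hym1, smul_zero]
    rw [e3, e4, zero_smul, add_zero]
  have hBC : ∀ w, B w ∈ cycS y v := by
    intro w
    rw [hB]
    refine Submodule.sum_mem _ fun j _ => Submodule.smul_mem _ _ ?_
    exact pow_stable_cycS y v j ((mem_cycS).mpr ⟨1, by simp⟩)
  have hvC : v ∈ cycS y v := mem_cycS.mpr ⟨1, by simp⟩
  -- the subspace `y C`
  let yC : Submodule k V := (cycS y v).map y
  have hBv : B v - v ∈ yC := by
    rw [hB, hπv, Finset.sum_range_succ']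
    have e1 : α ((y ^ (m - 0)) v) = 1 := by rw [Nat.sub_zero, hα]
    rw [e1, pow_zero, one_smul, Module.End.one_apply, add_sub_cancel_right]
    refine Submodule.sum_mem _ fun j _ => Submodule.smul_mem _ _ ?_
    rw [pow_succ']
    exact ⟨_, pow_stable_cycS y v j hvC, rfl⟩
  have hyCa : ∀ (q : k[X]) {u : V}, u ∈ yC → aeval y q u ∈ yC := by
    rintro q _ ⟨c, hc, rfl⟩
    refine ⟨aeval y q c, aeval_stable_cycS y v q hc, ?_⟩
    exact congrArg (fun f : Module.End k V => f c) (commute_aeval_y y q).eq.symm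
  have hcomB : ∀ (q : k[X]), Commute B (aeval y q) := fun q => commute_aeval_of_commute' hBy q
  have hBu : ∀ u ∈ cycS y v, B u - u ∈ yC := by
    intro u hu
    obtain ⟨q, rfl⟩ := mem_cycS.mp hu
    have h1 : B (aeval y q v) = aeval y q (B v) := congrArg (fun f : Module.End k V => f v) (hcomB q).eq
    rw [h1, ← map_sub]
    exact hyCa q hBv
  have htC : ∀ {u : V}, u ∈ cycS y v → t u ∈ cycS y v := fun hu => t_stable_cycS hty hl hu
  have htCp : ∀ (i : ℕ) {u : V}, u ∈ cycS y v → (t ^ i) u ∈ cycS y v := by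
    intro i
    induction i with
    | zero => intro u hu; simpa using hu
    | succ i ih =>
      intro u hu
      rw [pow_succ', Module.End.mul_apply]
      exact htC (ih hu)
  have hvanish : ∀ u ∈ cycS y v, (y ^ (m + 1)) u = 0 := by
    intro u hu
    obtain ⟨q, rfl⟩ := mem_cycS.mp hu
    have := congrArg (fun f : Module.End k V => f v) ((commute_aeval_y y q).pow_right (m + 1)).symm.eq
    simp only [Module.End.mul_apply] at this
    rw [this, hym1, map_zero]
  have htyC : ∀ (i : ℕ) {u : V}, u ∈ yC → (t ^ i) u ∈ yC := by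
    intro i u hu
    obtain ⟨c, hc, rfl⟩ := hu
    obtain ⟨gm, h0, h1⟩ := exists_conj_poly hg0 hty i
    have h2 : (t ^ i) (y c) = aeval y gm ((t ^ i) c) := mul_apply_eq h1 c
    rw [h2]
    have h3 : gm = aeval (X : k[X]) gm.divX * X := by
      rw [aeval_X_left_apply]
      have := gm.divX_mul_X_add
      rw [h0] at this
      simpa using this.symm
    rw [h3, aeval_X_left_apply, map_mul, aeval_X, Module.End.mul_apply]
    have h4 := (commute_aeval_y y gm.divX).eq
    refine ⟨aeval y gm.divX ((t ^ i) c), aeval_stable_cycS y v _ (htCp i hc), ?_⟩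
    exact congrArg (fun f : Module.End k V => f ((t ^ i) c)) h4.symm
  -- the average
  let Aj : ℕ → Module.End k V := fun j => t ^ j * B * t ^ (o - j)
  have htt : ∀ j, j ≤ o → ∀ u, (t ^ j) ((t ^ (o - j)) u) = u := by
    intro j hj u
    rw [← Module.End.mul_apply, ← pow_add, Nat.add_sub_cancel' hj, ht]
    rfl
  have hAy : ∀ j, j ≤ o → Commute (Aj j) y := by
    intro j hj
    obtain ⟨g₁, -, h1⟩ := exists_conj_poly hg0 hty (o - j)
    obtain ⟨g₂, -, h2⟩ := exists_conj_poly hg0 hty j
    have h3 : t ^ (o - j) * y * t ^ j = aeval y g₁ := by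
      rw [h1, mul_assoc, ← pow_add, Nat.sub_add_cancel hj, ht, mul_one]
    have h4 : y * t ^ j = t ^ j * aeval y g₁ := by
      rw [← h3]
      calc y * t ^ j = t ^ o * y * t ^ j := by rw [ht, one_mul]
        _ = t ^ j * t ^ (o - j) * y * t ^ j := by rw [← pow_add, Nat.add_sub_cancel' hj]
        _ = _ := by noncomm_ring
    have h5 : t ^ (o - j) * y = aeval y g₁ * t ^ (o - j) := h1
    show t ^ j * B * t ^ (o - j) * y = y * (t ^ j * B * t ^ (o - j))
    have h6 := (hcomB g₁).eq
    calc t ^ j * B * t ^ (o - j) * y = t ^ j * B * (t ^ (o - j) * y) := by noncomm_ring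
      _ = t ^ j * B * (aeval y g₁ * t ^ (o - j)) := by rw [h5]
      _ = t ^ j * (B * aeval y g₁) * t ^ (o - j) := by noncomm_ring
      _ = t ^ j * (aeval y g₁ * B) * t ^ (o - j) := by rw [h6]
      _ = (t ^ j * aeval y g₁) * B * t ^ (o - j) := by noncomm_ring
      _ = (y * t ^ j) * B * t ^ (o - j) := by rw [h4]
      _ = _ := by noncomm_ring
  have hAC : ∀ j w, Aj j w ∈ cycS y v := by
    intro j w
    show (t ^ j) (B ((t ^ (o - j)) w)) ∈ _
    exact htCp j (hBC _)
  have hAu : ∀ j, j ≤ o → ∀ u ∈ cycS y v, Aj j u - u ∈ yC := by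
    intro j hj u hu
    have h1 : Aj j u - u = (t ^ j) (B ((t ^ (o - j)) u) - (t ^ (o - j)) u) := by
      rw [map_sub, htt j hj]
      rfl
    rw [h1]
    exact htyC j (hBu _ (htCp _ hu))
  let oi : k := (o : k)⁻¹
  let B' : Module.End k V := oi • ∑ j ∈ Finset.range o, Aj j
  have hB'y : Commute B' y := by
    show oi • _ * y = y * (oi • _)
    rw [smul_mul_assoc, mul_smul_comm]
    congr 1
    have : Commute (∑ j ∈ Finset.range o, Aj j) y :=
      Commute.sum_left _ _ _ fun j hj => hAy j (Finset.mem_range.mp hj).le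
    exact this.eq
  have hB't : Commute B' t := by
    show oi • _ * t = t * (oi • _)
    rw [smul_mul_assoc, mul_smul_comm]
    congr 1
    have h1 : ∀ j ∈ Finset.range o, t * Aj j = Aj (j + 1) * t := by
      intro j hj
      have hj' := Finset.mem_range.mp hj
      show t * (t ^ j * B * t ^ (o - j)) = t ^ (j + 1) * B * t ^ (o - (j + 1)) * t
      have e : o - j = (o - (j + 1)) + 1 := by omega
      rw [e, pow_succ, pow_succ' t j]
      noncomm_ring
    rw [Finset.mul_sum, Finset.sum_congr rfl h1, ← Finset.sum_mul]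
    congr 1
    have h3 : ∑ i ∈ Finset.range (o + 1), Aj i = ∑ i ∈ Finset.range o, Aj (i + 1) + Aj 0 :=
      Finset.sum_range_succ' Aj o
    have h4 : ∑ i ∈ Finset.range (o + 1), Aj i = ∑ i ∈ Finset.range o, Aj i + Aj o :=
      Finset.sum_range_succ Aj o
    have h5 : Aj o = Aj 0 := by
      show t ^ o * B * t ^ (o - o) = t ^ 0 * B * t ^ (o - 0)
      rw [ht, Nat.sub_self, Nat.sub_zero, ht]
      simp
    rw [h5] at h4
    exact add_right_cancel (h3.symm.trans h4).symm
  have hB'C : ∀ w, B' w ∈ cycS y v := by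
    intro w
    show oi • (∑ j ∈ Finset.range o, Aj j) w ∈ _
    rw [LinearMap.sum_apply]
    exact Submodule.smul_mem _ _ (Submodule.sum_mem _ fun j _ => hAC j w)
  have hB'u : ∀ u ∈ cycS y v, B' u - u ∈ yC := by
    intro u hu
    have h1 : B' u - u = oi • ∑ j ∈ Finset.range o, (Aj j u - u) := by
      rw [Finset.sum_sub_distrib, Finset.sum_const, Finset.card_range, smul_sub, ← Nat.cast_smul_eq_nsmul k, smul_smul,
        inv_mul_cancel₀ ho0, one_smul, LinearMap.smul_apply, LinearMap.sum_apply]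
    rw [h1]
    exact Submodule.smul_mem _ _ (Submodule.sum_mem _ fun j hj => hAu j (Finset.mem_range.mp hj).le u hu)
  -- the power
  have hvne : v ≠ 0 := by
    intro h0
    apply hym
    rw [h0, map_zero]
  have : Nontrivial V := ⟨⟨v, 0, hvne⟩⟩
  have : CharP (Module.End k V) p := charP_of_injective_algebraMap (algebraMap k (Module.End k V)).injective p
  obtain ⟨r, hr⟩ : ∃ r, m + 1 ≤ p ^ r := ⟨m + 1, (Nat.lt_pow_self hp.out.one_lt).le⟩
  let D : Module.End k V := B' - 1
  have hDy : Commute D y := hB'y.sub_left (Commute.one_left y)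
  have hDpow : ∀ i, ∀ u ∈ cycS y v, ∃ c ∈ cycS y v, (D ^ i) u = (y ^ i) c := by
    intro i
    induction i with
    | zero => exact fun u hu => ⟨u, hu, by simp⟩
    | succ i ih =>
      intro u hu
      obtain ⟨c, hc, h1⟩ := ih u hu
      obtain ⟨c', hc', h2⟩ := hB'u c hc
      refine ⟨c', hc', ?_⟩
      rw [pow_succ', Module.End.mul_apply, h1]
      have h3 : D ((y ^ i) c) = (y ^ i) (D c) := congrArg (fun f : Module.End k V => f c) (hDy.pow_right i).eq
      rw [h3]
      have h4 : D c = y c' := h2.symm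
      rw [h4, pow_succ, Module.End.mul_apply]
  have hB'pow : B' ^ p ^ r = D ^ p ^ r + 1 := by
    have h1 : B' = D + 1 := by simp [D]
    conv_lhs => rw [h1]
    rw [add_pow_char_pow_of_commute p r (Commute.one_right D), one_pow]
  let f : Module.End k V := B' ^ p ^ r
  have hfu : ∀ u ∈ cycS y v, f u = u := by
    intro u hu
    obtain ⟨c, hc, h1⟩ := hDpow (p ^ r) u hu
    show (B' ^ p ^ r) u = u
    rw [hB'pow, LinearMap.add_apply, h1, Module.End.one_apply]
    have h2 : (y ^ p ^ r) c = 0 := by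
      have e : p ^ r = (p ^ r - (m + 1)) + (m + 1) := by omega
      rw [e, pow_add, Module.End.mul_apply, hvanish c hc, map_zero]
    rw [h2, zero_add]
  obtain ⟨s, hs⟩ : ∃ s, p ^ r = s + 1 := ⟨p ^ r - 1, by
    have := Nat.pos_of_ne_zero (pow_ne_zero r hp.out.ne_zero)
    omega⟩
  have hfs : f = B' * B' ^ s := by
    show B' ^ p ^ r = _
    rw [hs, pow_succ']
  have hfC : ∀ w, f w ∈ cycS y v := by
    intro w
    rw [hfs]
    exact hB'C _
  have hfidem : IsIdempotentElem f := by
    refine LinearMap.ext fun w => ?_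
    show f (f w) = f w
    exact hfu _ (hfC w)
  have hfy : Commute f y := hB'y.pow_left _
  have hft : Commute f t := hB't.pow_left _
  have hπC : ∀ u ∈ cycS y v, π u = u := by
    intro u hu
    obtain ⟨q, rfl⟩ := mem_cycS.mp hu
    have h1 := congrArg (fun f : Module.End k V => f v) (commute_aeval_of_commute' hπy q).eq
    simp only [Module.End.mul_apply] at h1
    rw [h1, hπv]
  have hBπ : B * π = B := by
    refine LinearMap.ext fun w => ?_
    rw [Module.End.mul_apply, hB, hB, idem_apply' hπ]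
  have hB'π : B' * π = B' := by
    show oi • _ * π = oi • _
    rw [smul_mul_assoc, Finset.sum_mul]
    congr 1
    refine Finset.sum_congr rfl fun j _ => ?_
    show t ^ j * B * t ^ (o - j) * π = t ^ j * B * t ^ (o - j)
    have h1 : t ^ (o - j) * π = π * t ^ (o - j) := (hπt.pow_right _).eq.symm
    rw [mul_assoc, h1, ← mul_assoc, mul_assoc (t ^ j), hBπ]
  have hfπ : f * π = f := by
    have hfs' : f = B' ^ s * B' := by
      show B' ^ p ^ r = _
      rw [hs, pow_succ]
    rw [hfs', mul_assoc, hB'π]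
  have hπf : π * f = f := by
    refine LinearMap.ext fun w => ?_
    rw [Module.End.mul_apply]
    exact hπC _ (hfC w)
  have hf0 : f ≠ 0 := by
    intro h0
    apply hvne
    have := hfu v hvC
    rw [h0] at this
    exact this.symm
  refine ⟨f, hfidem, hfy, hft, hπf, hfπ, hf0, ?_⟩
  have hfy' : ∀ (i : ℕ) w, f ((y ^ i) w) = (y ^ i) (f w) := fun i w =>
    congrArg (fun g : Module.End k V => g w) (hfy.pow_right i).eq
  have hymC : (y ^ m) v ∈ cycS y v := pow_stable_cycS y v m hvC
  have hK : (LinearMap.ker y).map f = Submodule.span k {(y ^ m) v} := by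
    apply le_antisymm
    · rintro _ ⟨w, hw, rfl⟩
      obtain ⟨q, hq⟩ := mem_cycS.mp (hfC w)
      have h1 : y (f w) = 0 := by
        have := hfy' 1 w
        simp only [pow_one] at this
        rw [← this, LinearMap.mem_ker.mp hw, map_zero]
      rw [← hq] at h1 ⊢
      obtain ⟨c, hc⟩ := kernel_cyclic hym hym1 q h1
      rw [hc]
      exact Submodule.smul_mem _ _ (Submodule.mem_span_singleton_self _)
    · rw [Submodule.span_singleton_le_iff_mem]
      refine ⟨(y ^ m) v, ?_, hfu _ hymC⟩
      show y ((y ^ m) v) = 0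
      rw [← Module.End.mul_apply, ← pow_succ']
      exact hym1
  have hrkK : rk f (LinearMap.ker y) = 1 := by
    unfold rk
    rw [hK]
    exact finrank_span_singleton hym
  by_cases hmN : m + 1 < N
  · right
    have hQ : ((⊤ : Submodule k V).map (y ^ (N - 1))).map f = ⊥ := by
      rw [eq_bot_iff]
      rintro _ ⟨_, ⟨w, -, rfl⟩, rfl⟩
      rw [hfy']
      have e : N - 1 = (N - 1 - (m + 1)) + (m + 1) := by omega
      rw [e, pow_add, Module.End.mul_apply, hvanish _ (hfC w), map_zero]
      rfl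
    unfold secRk
    rw [hrkK]
    unfold rk
    rw [hQ, finrank_bot]
    norm_num
  · left
    have hNm : N - 1 = m := by omega
    have hQ : ((⊤ : Submodule k V).map (y ^ (N - 1))).map f = Submodule.span k {(y ^ m) v} := by
      rw [hNm]
      apply le_antisymm
      · rintro _ ⟨_, ⟨w, -, rfl⟩, rfl⟩
        rw [hfy']
        obtain ⟨q, hq⟩ := mem_cycS.mp (hfC w)
        rw [← hq]
        have h1 := congrArg (fun g : Module.End k V => g v) ((commute_aeval_y y q).pow_right m).symm.eq
        simp only [Module.End.mul_apply] at h1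
        rw [h1, aeval_apply_top hym1]
        exact Submodule.smul_mem _ _ (Submodule.mem_span_singleton_self _)
      · rw [Submodule.span_singleton_le_iff_mem]
        exact ⟨(y ^ m) v, ⟨v, trivial, rfl⟩, hfu _ hymC⟩
    unfold secRk
    rw [hrkK]
    unfold rk
    rw [hQ, finrank_span_singleton hym]
    norm_num

theorem stable_ker_map {π y : Module.End k V} (h : Commute π y) : (LinearMap.ker y).map π ≤ LinearMap.ker y :=
  stable_ker_of_commute h.symm

theorem stable_top_map {π y : Module.End k V} (h : Commute π y) :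
    ((⊤ : Submodule k V).map y).map π ≤ (⊤ : Submodule k V).map y :=
  stable_map_of_commute h.symm stable_top

/-- **Splitting.** -/
theorem exists_split (p : ℕ) [hp : Fact p.Prime] [CharP k p] (ho : 0 < o) (ht : t ^ o = 1) {ζ : k}
    (hζ : IsPrimitiveRoot ζ o) (ho0 : (o : k) ≠ 0)
    (hg0 : g.coeff 0 = 0) (hty : t * y = aeval y g * t) (hyN : y ^ N = 0) :
    ∀ (d : ℕ) (π : Module.End k V), rk π ⊤ ≤ d → IsIdempotentElem π → Commute π y → Commute π t →
      2 ≤ secRk π (LinearMap.ker y) ((⊤ : Submodule k V).map (y ^ (N - 1))) →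
      ∃ π₁ : Module.End k V, IsIdempotentElem π₁ ∧ Commute π₁ y ∧ Commute π₁ t ∧ π * π₁ = π₁ ∧ π₁ * π = π₁ ∧
        1 ≤ secRk π₁ (LinearMap.ker y) ((⊤ : Submodule k V).map (y ^ (N - 1))) ∧
        1 ≤ secRk (π - π₁) (LinearMap.ker y) ((⊤ : Submodule k V).map (y ^ (N - 1))) := by
  set K := LinearMap.ker y with hK
  set Q := (⊤ : Submodule k V).map (y ^ (N - 1)) with hQ
  have hKs : ∀ {a : Module.End k V}, Commute a y → K.map a ≤ K := fun h => stable_ker_map h
  have hQs : ∀ {a : Module.End k V}, Commute a y → Q.map a ≤ Q := fun h => stable_top_map (h.pow_right _)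
  have hadd : ∀ {a b : Module.End k V}, IsIdempotentElem a → IsIdempotentElem b → a * b = 0 → b * a = 0 →
      Commute a y → Commute b y → secRk (a + b) K Q = secRk a K Q + secRk b K Q := by
    intro a b h1 h2 h3 h4 h5 h6
    exact secRk_add h1 h2 h3 h4 (hKs h5) (hKs h6) (hQs h5) (hQs h6)
  intro d
  induction d with
  | zero =>
    intro π hd hπ hπy hπt h2
    exfalso
    have h0 : rk π ⊤ = 0 := by omega
    have hπ0 : ∀ S : Submodule k V, rk π S = 0 := by
      intro S
      have := rk_mono (π := π) (le_top : S ≤ ⊤)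
      omega
    unfold secRk at h2
    rw [hπ0, hπ0] at h2
    norm_num at h2
  | succ d ih =>
    intro π hd hπ hπy hπt h2
    have hπ0 : π ≠ 0 := by
      rintro rfl
      have h00 : ∀ S : Submodule k V, rk (0 : Module.End k V) S = 0 := by
        intro S
        unfold rk
        rw [show S.map (0 : Module.End k V) = ⊥ from Submodule.map_zero S, finrank_bot]
      unfold secRk at h2
      rw [h00, h00] at h2
      norm_num at h2
    obtain ⟨f, hf, hfy, hft, hπf, hfπ, hf0, hcase⟩ := exists_cyc_idem p ho ht hζ ho0 hg0 hty hyN hπ hπy hπt hπ0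
    have h'y : Commute (π - f) y := hπy.sub_left hfy
    have h't : Commute (π - f) t := hπt.sub_left hft
    have h'i : IsIdempotentElem (π - f) := by
      show (π - f) * (π - f) = π - f
      rw [mul_sub, sub_mul, sub_mul, hπ, hπf, hfπ, hf]
      abel
    have hf' : f * (π - f) = 0 := by rw [mul_sub, hfπ, hf, sub_self]
    have h'f : (π - f) * f = 0 := by rw [sub_mul, hπf, hf, sub_self]
    have hsum : f + (π - f) = π := by abel
    have hs := hadd hf h'i hf' h'f hfy h'y
    rw [hsum] at hs
    rcases hcase with h0 | h1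
    · -- `f` is free
      have h3 : 2 ≤ secRk (π - f) K Q := by rw [hs, h0] at h2; simpa using h2
      have hr := rk_add_orth (S := ⊤) hf h'i hf' h'f stable_top stable_top
      rw [hsum] at hr
      have hrf : 0 < rk f ⊤ := by
        unfold rk
        rw [Module.finrank_pos_iff_exists_ne_zero]
        obtain ⟨w, hw⟩ : ∃ w, f w ≠ 0 := by
          by_contra hcon
          push Not at hcon
          exact hf0 (LinearMap.ext hcon)
        exact ⟨⟨f w, w, trivial, rfl⟩, fun h => hw (congrArg Subtype.val h)⟩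
      obtain ⟨π₁, h1i, h1y, h1t, h1l, h1r, h11, h12⟩ := ih (π - f) (by omega) h'i h'y h't h3
      have hfp : f * π₁ = 0 := by
        rw [← h1l, ← mul_assoc, hf', zero_mul]
      have hpf : π₁ * f = 0 := by
        rw [← h1r, mul_assoc, h'f, mul_zero]
      refine ⟨π₁, h1i, h1y, h1t, ?_, ?_, h11, ?_⟩
      · have : π = (π - f) + f := by abel
        rw [this, add_mul, h1l, hfp, add_zero]
      · have : π = (π - f) + f := by abel
        rw [this, mul_add, h1r, hpf, add_zero]
      · have e : π - π₁ = f + ((π - f) - π₁) := by abel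
        have h4i : IsIdempotentElem ((π - f) - π₁) := by
          show ((π - f) - π₁) * ((π - f) - π₁) = (π - f) - π₁
          have e2 : ((π - f) - π₁) * ((π - f) - π₁) = (π - f) * (π - f) - (π - f) * π₁ - π₁ * (π - f) + π₁ * π₁ := by
            noncomm_ring
          rw [e2, h'i, h1l, h1r, h1i]
          abel
        have h5 : f * ((π - f) - π₁) = 0 := by rw [mul_sub, hf', hfp, sub_zero]
        have h6 : ((π - f) - π₁) * f = 0 := by rw [sub_mul, h'f, hpf, sub_zero]
        rw [e, hadd hf h4i h5 h6 hfy (h'y.sub_left h1y), h0, zero_add]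
        exact h12
    · refine ⟨f, hf, hfy, hft, hπf, hfπ, h1.ge, ?_⟩
      rw [hs, h1] at h2
      omega

end Step

section Sections

variable {y π : Module.End k V} {N j : ℕ}

theorem mem_map_ker_iff (hπ : IsIdempotentElem π) (hπy : Commute π y) {i : ℕ} {v : V} :
    v ∈ (LinearMap.ker (y ^ i)).map π ↔ π v = v ∧ (y ^ i) v = 0 := by
  constructor
  · rintro ⟨u, hu, rfl⟩
    refine ⟨idem_apply' hπ u, ?_⟩
    have := congrArg (fun f : Module.End k V => f u) (hπy.pow_right i).eq
    simp only [Module.End.mul_apply] at this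
    rw [← this, LinearMap.mem_ker.mp hu, map_zero]
  · rintro ⟨h1, h2⟩
    exact ⟨v, h2, h1⟩

theorem mem_map_top_iff (hπ : IsIdempotentElem π) (hπy : Commute π y) {i : ℕ} {v : V} :
    v ∈ ((⊤ : Submodule k V).map (y ^ i)).map π ↔ ∃ x, π x = x ∧ v = (y ^ i) x := by
  constructor
  · rintro ⟨_, ⟨u, -, rfl⟩, rfl⟩
    refine ⟨π u, idem_apply' hπ u, ?_⟩
    exact congrArg (fun f : Module.End k V => f u) (hπy.pow_right i).eq
  · rintro ⟨x, h1, rfl⟩
    refine ⟨(y ^ i) x, ⟨x, trivial, rfl⟩, ?_⟩
    have := congrArg (fun f : Module.End k V => f x) (hπy.pow_right i).eq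
    simp only [Module.End.mul_apply, h1] at this
    exact this

theorem secRk_ker_nonneg (hπ : IsIdempotentElem π) (hπy : Commute π y) (hyN : y ^ N = 0) (hj : j ≤ N) :
    ((⊤ : Submodule k V).map (y ^ (N - j))).map π ≤ (LinearMap.ker (y ^ j)).map π := by
  intro v hv
  obtain ⟨x, h1, rfl⟩ := (mem_map_top_iff hπ hπy).mp hv
  refine (mem_map_ker_iff hπ hπy).mpr ⟨?_, ?_⟩
  · have := congrArg (fun f : Module.End k V => f x) (hπy.pow_right (N - j)).eq
    simp only [Module.End.mul_apply, h1] at this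
    exact this
  · rw [← Module.End.mul_apply, ← pow_add, Nat.add_sub_cancel' hj, hyN]
    rfl

/-- If the socle section vanishes so does every other section. -/
theorem secRk_zero_of (hπ : IsIdempotentElem π) (hπy : Commute π y) (hyN : y ^ N = 0) (hN : 0 < N)
    (h0 : secRk π (LinearMap.ker y) ((⊤ : Submodule k V).map (y ^ (N - 1))) = 0) (hj : j ≤ N) :
    secRk π (LinearMap.ker (y ^ j)) ((⊤ : Submodule k V).map (y ^ (N - j))) = 0 := by
  have hle1 := secRk_ker_nonneg (j := 1) hπ hπy hyN hN
  rw [pow_one] at hle1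
  have heq : ((⊤ : Submodule k V).map (y ^ (N - 1))).map π = (LinearMap.ker y).map π := by
    apply Submodule.eq_of_le_of_finrank_eq hle1
    unfold secRk rk at h0
    omega
  have hstep : ∀ i, i ≤ N → (LinearMap.ker (y ^ i)).map π ≤ ((⊤ : Submodule k V).map (y ^ (N - i))).map π := by
    intro i
    induction i with
    | zero =>
      intro _ v hv
      obtain ⟨h1, h2⟩ := (mem_map_ker_iff hπ hπy).mp hv
      have : v = 0 := by simpa using h2
      rw [this]
      exact Submodule.zero_mem _
    | succ i ih =>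
      intro hi v hv
      obtain ⟨h1, h2⟩ := (mem_map_ker_iff hπ hπy).mp hv
      have h3 : (y ^ i) v ∈ (LinearMap.ker y).map π := by
        refine ⟨(y ^ i) v, ?_, ?_⟩
        · show y ((y ^ i) v) = 0
          rw [← Module.End.mul_apply, ← pow_succ']
          exact h2
        · have := congrArg (fun f : Module.End k V => f v) (hπy.pow_right i).eq
          simp only [Module.End.mul_apply, h1] at this
          exact this
      rw [← heq] at h3
      obtain ⟨x, hx, hx'⟩ := (mem_map_top_iff hπ hπy).mp h3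
      have e1 : N - 1 = i + (N - 1 - i) := by omega
      have hπ' : π ((y ^ (N - 1 - i)) x) = (y ^ (N - 1 - i)) x := by
        have := congrArg (fun f : Module.End k V => f x) (hπy.pow_right (N - 1 - i)).eq
        simp only [Module.End.mul_apply, hx] at this
        exact this
      have h4 : v - (y ^ (N - 1 - i)) x ∈ (LinearMap.ker (y ^ i)).map π := by
        refine (mem_map_ker_iff hπ hπy).mpr ⟨?_, ?_⟩
        · rw [map_sub, h1, hπ']
        · rw [map_sub, hx', e1, pow_add, Module.End.mul_apply]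
          have e2 : i + (N - 1 - i) - i = N - 1 - i := by omega
          rw [e2, sub_self]
      obtain ⟨x', hx1, hx2⟩ := (mem_map_top_iff hπ hπy).mp (ih (by omega) h4)
      refine (mem_map_top_iff hπ hπy).mpr ⟨x + (y) x', ?_, ?_⟩
      · have := congrArg (fun f : Module.End k V => f x') hπy.eq
        simp only [Module.End.mul_apply, hx1] at this
        rw [map_add, hx, this]
      · have e3 : N - (i + 1) = N - 1 - i := by omega
        have e4 : N - i = (N - 1 - i) + 1 := by omega
        rw [e3, map_add, ← Module.End.mul_apply (y ^ (N - 1 - i)) y, ← pow_succ, ← e4, ← hx2]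
        abel
  unfold secRk rk
  have h5 := Submodule.finrank_mono (secRk_ker_nonneg (j := j) hπ hπy hyN hj)
  have h6 := Submodule.finrank_mono (hstep j hj)
  omega

/-- If the socle section does not vanish neither does any other section. -/
theorem secRk_pos_of (hπ : IsIdempotentElem π) (hπy : Commute π y) (hyN : y ^ N = 0)
    (h0 : 0 < secRk π (LinearMap.ker y) ((⊤ : Submodule k V).map (y ^ (N - 1)))) (hj0 : 0 < j) (hj : j < N) :
    0 < secRk π (LinearMap.ker (y ^ j)) ((⊤ : Submodule k V).map (y ^ (N - j))) := by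
  classical
  have hN : 0 < N := by omega
  have hle1 := secRk_ker_nonneg (j := 1) hπ hπy hyN hN
  rw [pow_one] at hle1
  -- a vector in the socle section
  obtain ⟨c, hc, hcQ⟩ : ∃ c ∈ (LinearMap.ker y).map π, c ∉ ((⊤ : Submodule k V).map (y ^ (N - 1))).map π := by
    by_contra hcon
    push Not at hcon
    have : (LinearMap.ker y).map π ≤ ((⊤ : Submodule k V).map (y ^ (N - 1))).map π := hcon
    have h2 := Submodule.finrank_mono this
    unfold secRk rk at h0
    omega
  have hc' : π c = c ∧ y c = 0 := by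
    have := (mem_map_ker_iff (i := 1) hπ hπy).mp (by simpa using hc)
    simpa using this
  have hc0 : c ≠ 0 := by
    rintro rfl
    exact hcQ (Submodule.zero_mem _)
  -- the largest power
  let P : ℕ → Prop := fun i => ∃ x, π x = x ∧ c = (y ^ i) x
  have hP0 : P 0 := ⟨c, hc'.1, by simp⟩
  have hPbound : ∀ i, P i → i ≤ N - 1 := by
    rintro i ⟨x, h1, h2⟩
    by_contra hi
    apply hc0
    have e : i = (i - N) + N := by omega
    rw [h2, e, pow_add, hyN, mul_zero]
    rfl
  let i := Nat.findGreatest P (N - 1)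
  have hPi : P i := Nat.findGreatest_spec (m := 0) (Nat.zero_le _) hP0
  have hmax : ∀ n, i < n → ¬ P n := by
    intro n hn hPn
    have := Nat.le_findGreatest (hPbound n hPn) hPn
    omega
  have hiN : i < N - 1 := by
    have h3 : i ≤ N - 1 := Nat.findGreatest_le _
    rcases h3.lt_or_eq with h | h
    · exact h
    · exfalso
      obtain ⟨x, h1, h2⟩ := hPi
      rw [h] at h2
      exact hcQ ((mem_map_top_iff hπ hπy).mpr ⟨x, h1, h2⟩)
  obtain ⟨w, hw, hcw⟩ := hPi
  have hw0 : (y ^ (i + 1)) w = 0 := by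
    rw [pow_succ', Module.End.mul_apply, ← hcw, hc'.2]
  let m := i + 1 - j
  have hπm : ∀ (n : ℕ) x, π x = x → π ((y ^ n) x) = (y ^ n) x := by
    intro n x hx
    have := congrArg (fun f : Module.End k V => f x) (hπy.pow_right n).eq
    simp only [Module.End.mul_apply, hx] at this
    exact this
  have hA : (y ^ m) w ∈ (LinearMap.ker (y ^ j)).map π := by
    refine (mem_map_ker_iff hπ hπy).mpr ⟨hπm _ _ hw, ?_⟩
    have e : j + m = (j + m - (i + 1)) + (i + 1) := by
      have : i + 1 ≤ j + m := by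
        show i + 1 ≤ j + (i + 1 - j)
        omega
      omega
    rw [← Module.End.mul_apply, ← pow_add, e, pow_add, Module.End.mul_apply, hw0, map_zero]
  have hT : (y ^ m) w ∉ ((⊤ : Submodule k V).map (y ^ (N - j))).map π := by
    intro hmem
    obtain ⟨x, hx, hx'⟩ := (mem_map_top_iff hπ hπy).mp hmem
    by_cases hij : j ≤ i + 1
    · -- apply `y^(j-1)`
      have h6 : (y ^ (j - 1)) ((y ^ m) w) = c := by
        rw [hcw, ← Module.End.mul_apply, ← pow_add]
        congr 2
        show j - 1 + (i + 1 - j) = i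
        omega
      have h7 : (y ^ (j - 1)) ((y ^ (N - j)) x) = (y ^ (N - 1)) x := by
        rw [← Module.End.mul_apply, ← pow_add]
        congr 2
        omega
      rw [hx', h7] at h6
      exact hcQ ((mem_map_top_iff hπ hπy).mpr ⟨x, hx, h6.symm⟩)
    · have hm0 : m = 0 := by
        show i + 1 - j = 0
        omega
      rw [hm0, pow_zero, Module.End.one_apply] at hx'
      refine hmax (i + (N - j)) (by omega) ⟨x, hx, ?_⟩
      rw [hcw, hx', ← Module.End.mul_apply, ← pow_add]
  have hle := secRk_ker_nonneg (j := j) hπ hπy hyN hj.le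
  have hlt : ((⊤ : Submodule k V).map (y ^ (N - j))).map π < (LinearMap.ker (y ^ j)).map π :=
    lt_of_le_of_ne hle fun h => hT (by rw [h]; exact hA)
  have := Submodule.finrank_lt_finrank_of_lt hlt
  unfold secRk rk
  omega

end Sections

end LemT

end Cfsg.Agent.Lib.FF
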