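import Cfsg.Agent.Lib.FF.CycBlock2
import Cfsg.Agent.Lib.FF.CycForm

/-!
# Nilpotent blocks with cyclic defect group: prescribed pairs and automorphisms
-/

set_option autoImplicit false
set_option linter.unusedSectionVars false
set_option linter.unusedVariables false
set_option maxSynthPendingDepth 3
set_option linter.style.haveILetI false
set_option linter.unusedSimpArgs false
set_option linter.unnecessarySimpa false

open scoped ComplexConjugate
open Module Cfsg Cfsg.Agent.Lib.Block Cfsg.Agent.Lib.Char Cfsg.Agent.Lib.CharExtra Cfsg.Agent.Lib.BPair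

namespace Cfsg.Agent.Lib.FF

attribute [local instance] Cfsg.Agent.Lib.BPair.subFintype

section Loc

variable {H : Type*} [Group H] [Fintype H] {p : ℕ} [hp : Fact p.Prime] {M : Ideal AlgInt}

/-- The data attached to a prescribed pair on a nilpotent block with cyclic defect group. -/
theorem exists_nilSec_of {f : Set (IrrCharacter H)} {x : H} {b : ℕ} (hM : IsPModular p M)
    (hD : IsDefectGroup p M f (Subgroup.zpowers x)) (hnil : IsNilpotentBlock p M f) (hx : orderOf x = p ^ (b + 1))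
    {c : Set (IrrCharacter (Cen (Subgroup.zpowers x)))} (hc : IsBrauerPairOf p M f (Subgroup.zpowers x) c)
    (ι : Subgroup.centralizer ({x} : Set H) ≃* Cen (Subgroup.zpowers x)) (hι : ∀ k, ((ι k : Cen (Subgroup.zpowers x)) : H) = k) :
    ∃ φ, NilSec p M f x (mapBlock ι.symm c) φ (p ^ (b + 1)) b := by
  classical
  have := isPModular_isPrime hM
  have hx1 : x ≠ 1 := by
    rintro rfl
    rw [orderOf_one] at hx
    exact (Nat.one_lt_pow (by omega) (Fact.out : p.Prime).one_lt).ne hx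
  have hmax := isMaximal_of_defect hM hD hc
  have hab : ∀ u ∈ Subgroup.zpowers x, ∀ v ∈ Subgroup.zpowers x, u * v = v * u := by
    intro u hu v hv
    obtain ⟨i, rfl⟩ := Subgroup.mem_zpowers_iff.1 hu
    obtain ⟨j, rfl⟩ := Subgroup.mem_zpowers_iff.1 hv
    exact (Commute.refl x).zpow_zpow i j
  have hstab := (nilpotent_iff_of_abelian hM hmax hab).1 hnil
  have hQ1 : Subgroup.zpowers x ≠ ⊥ := by
    intro h
    rw [Subgroup.zpowers_eq_bot] at h
    exact hx1 h
  obtain ⟨-, hDc, h1c, h2c⟩ := nil_ab_sub hM hmax hab (fun g hg1 hg2 _ _ _ _ => hstab g hg1 hg2)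
    (Relation.ReflTransGen.refl) hQ1
  have hPC : Subgroup.zpowers x ≤ Cen (Subgroup.zpowers x) := zpowers_le_cen x
  have hcd1 := card_defect_group hM (isInducedBlock_of_pair hM hc).1 hDc
  have hcd2 := card_defect_group hM hnil.1 hD
  rw [card_subgroupOf_of_le hPC] at hcd1
  have hdef : blockDefect p c = blockDefect p f := by
    have h3 : p ^ blockDefect p c = p ^ blockDefect p f := by rw [← hcd1, hcd2]
    exact Nat.pow_right_injective (Fact.out : p.Prime).two_le h3
  have key : ∀ K : Subgroup H, K = Cen (Subgroup.zpowers x) → ∀ ι : K ≃* Cen (Subgroup.zpowers x),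
      (∀ k, ((ι k : Cen (Subgroup.zpowers x)) : H) = k) →
      IsInducedBlock M K (mapBlock ι.symm c) f ∧ IsPBlock M (mapBlock ι.symm c) ∧ blockRank p (mapBlock ι.symm c) = 1 ∧
      Nat.card (mapBlock ι.symm c) = orderOf x ∧ blockDefect p (mapBlock ι.symm c) = blockDefect p f ∧
      ∀ h : H, h ∈ Subgroup.normalizer (Subgroup.zpowers x : Set H) →
        StabilizesBlock K (mapBlock ι.symm c) h → h ∈ K := by
    rintro K rfl ι hι
    have e1 : ι = MulEquiv.refl _ := MulEquiv.ext fun k => Subtype.ext (hι k)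
    subst e1
    have e2 : mapBlock (MulEquiv.refl (Cen (Subgroup.zpowers x))).symm c = c := mapBlock_refl c
    rw [e2]
    refine ⟨isInducedBlock_of_pair hM hc, (isInducedBlock_of_pair hM hc).1, h1c, ?_, hdef, hstab⟩
    rw [h2c, Nat.card_zpowers]
  obtain ⟨h1, h2, h3, h4, h5, h6⟩ := key _ (centralizer_zpowers_eq x).symm ι hι
  have hcf := card_defect_group hM hnil.1 hD
  rw [Nat.card_zpowers, hx] at hcf
  have hde : p ^ blockDefect p (mapBlock ι.symm c) = p ^ (b + 1) := by rw [h5, hcf]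
  obtain ⟨φ, a1, a2, a3, a4⟩ := rank_one_all hM h2 h3 (by rw [h4, hx, hde])
  obtain ⟨c1, c2⟩ := nil_ab hM hD hab hnil
  rw [Nat.card_zpowers, hx] at c2
  refine ⟨φ, hM, hnil.1, hx, rfl, h1, a1, a2, ?_, hde, hcf.symm, h3, c1, c2, h6⟩
  rw [h4, hx] at a4
  exact a4

section Aut

variable {f : Set (IrrCharacter H)} {x : H} {e : Set (IrrCharacter (Subgroup.centralizer ({x} : Set H)))}
  {φ : Subgroup.centralizer ({x} : Set H) → ℂ} {N b : ℕ} {ε : ℂ} {u : MonoidAlgebra ℂ H} {ξ₀ : IrrCharacter H} {D A B : ℕ}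

/-- An automorphism with `τ x = x ^ s` fixing `φ` moves the section numbers. -/
theorem dd_aut {k : ℕ} (hxp : orderOf x = p ^ k) (τ : H ≃* H) {s : ℕ} (hτ : τ x = x ^ s) (hs : ¬ p ∣ s)
    (hφ : ∀ c c' : Subgroup.centralizer ({x} : Set H), (c' : H) = τ c → φ c' = φ c) (N : ℕ) (ξ : IrrCharacter H) :
    dd N x φ 1 (mapIrr τ.symm ξ) = dd N x φ s ξ := by
  classical
  obtain ⟨t, ht⟩ := exists_pow_pow_eq (x := x) hxp hs
  have hmem : ∀ c : Subgroup.centralizer ({x} : Set H), τ c ∈ Subgroup.centralizer ({x} : Set H) := by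
    intro c
    rw [Subgroup.mem_centralizer_singleton_iff]
    have h1 : (c : H) * x = x * c := Subgroup.mem_centralizer_singleton_iff.1 c.2
    have h2 : τ c * x ^ s = x ^ s * τ c := by
      rw [← hτ, ← map_mul, ← map_mul, h1]
    have h3 : Commute (τ c) (x ^ s) := h2
    have h4 := h3.pow_right t
    rw [ht] at h4
    exact h4
  let g : Subgroup.centralizer ({x} : Set H) → Subgroup.centralizer ({x} : Set H) := fun c => ⟨τ c, hmem c⟩
  have hg : Function.Bijective g := by
    apply Function.Injective.bijective_of_finite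
    intro c c' h
    have h1 : τ (c : H) = τ (c' : H) := congrArg Subtype.val h
    exact Subtype.ext (τ.injective h1)
  unfold dd
  congr 1
  rw [classInner_def, classInner_def]
  congr 1
  rw [← hg.sum_comp (fun c' => (ξ : H → ℂ) (x ^ s * c') * conj (φ c'))]
  refine Finset.sum_congr rfl fun c _ => ?_
  have e1 : φ (g c) = φ c := hφ c (g c) rfl
  rw [e1, mapIrr_apply', MulEquiv.symm_symm, pow_one, map_mul, hτ]

namespace NilU

variable (U : NilU p M f x φ N ε u ξ₀ D A B) (S : NilSec p M f x e φ N b)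
include U S

/-- The action of an automorphism on the eigenvalues of the central unit. -/
theorem eta_aut (τ : H ≃* H) {s : ℕ} (hτ : τ x = x ^ s) (hs : ¬ p ∣ s)
    (hφ : ∀ c c' : Subgroup.centralizer ({x} : Set H), (c' : H) = τ c → φ c' = φ c) {ξ : IrrCharacter H} (hξ : ξ ∈ f) :
    ε * dd N x φ 1 (mapIrr τ.symm ξ) = (ε * dd N x φ 1 ξ) ^ s := by
  rw [dd_aut S.hxp τ hτ hs hφ, S.dd_of_sign U.hε (U.hη ξ hξ) hs, ← mul_assoc, U.hε1, one_mul]

theorem fix_xi (τ : H ≃* H) {s : ℕ} (hτ : τ x = x ^ s) (hs : ¬ p ∣ s)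
    (hφ : ∀ c c' : Subgroup.centralizer ({x} : Set H), (c' : H) = τ c → φ c' = φ c)
    (hf : mapIrr τ.symm ξ₀ ∈ f) : mapIrr τ.symm ξ₀ = ξ₀ := by
  apply U.huniq _ hf
  rw [U.eta_aut S τ hτ hs hφ U.h₀, U.hone, one_pow]

theorem free_xi (τ : H ≃* H) {s : ℕ} (hτ : τ x = x ^ s) (hs : ¬ p ∣ s)
    (hφ : ∀ c c' : Subgroup.centralizer ({x} : Set H), (c' : H) = τ c → φ c' = φ c)
    (hs1 : ¬ p ∣ s - 1) {ξ : IrrCharacter H} (hξ : ξ ∈ f) (hfix : mapIrr τ.symm ξ = ξ) : ξ = ξ₀ := by
  have h1 := U.eta_aut S τ hτ hs hφ hξ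
  rw [hfix] at h1
  obtain ⟨η, hη⟩ : ∃ η, η = ε * dd N x φ 1 ξ := ⟨_, rfl⟩
  rw [← hη] at h1
  have h2 := U.hη ξ hξ
  rw [← hη] at h2
  have hs0 : 0 < s := Nat.pos_of_ne_zero fun h => hs (by rw [h]; exact dvd_zero p)
  have hη0 : η ≠ 0 := by
    rintro rfl
    rw [zero_pow S.hN0.ne'] at h2
    exact zero_ne_one h2
  have h3 : η ^ (s - 1) = 1 := by
    apply mul_left_cancel₀ hη0
    rw [← pow_succ', Nat.sub_add_cancel hs0, mul_one]
    exact h1.symm
  have hcop : Nat.Coprime (s - 1) N := by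
    rw [S.hN]
    exact Nat.Coprime.pow_right _ ((Nat.Prime.coprime_iff_not_dvd hp.out).2 hs1).symm
  have h4 : η = 1 := by
    have h5 := pow_gcd_eq_one.2 ⟨h3, h2⟩
    rwa [hcop.gcd_eq_one, pow_one] at h5
  apply U.huniq _ hξ
  rw [← hη, h4]

end NilU

end Aut

end Loc

end Cfsg.Agent.Lib.FF
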