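import Cfsg.Agent.Lib.FF.GenRep

/-!
# The Tate rank formula for an invariant section of arbitrary dimension
-/

set_option autoImplicit false
set_option linter.unusedSectionVars false
set_option linter.unusedVariables false
set_option maxSynthPendingDepth 3

namespace Cfsg.Agent.Lib.FF

open Module Polynomial

section KLinear

variable {k V : Type*} [Field k] [AddCommGroup V] [Module k V] [FiniteDimensional k V]
variable {π : Module.End k V}

/-- The rank of `π` when it maps `S` into `Z` and acts on `Z / T` by a non-zero scalar. -/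
theorem rk_add_of_sub (hπ : IsIdempotentElem π) {T Z S : Submodule k V} (hT : T.map π ≤ T) (hTZ : T ≤ Z)
    (hZS : Z ≤ S) (hS : S.map π ≤ Z) {c : k} (hc : c ≠ 0) (h : ∀ z ∈ Z, π z - c • z ∈ T) :
    rk π S + finrank k T = rk π T + finrank k Z := by
  have hidem : ∀ v, π (π v) = π v := fun v => by
    have := congrArg (fun f : Module.End k V => f v) hπ
    simpa using this
  have h1 : rk π S = rk π Z := by
    apply le_antisymm
    · apply Submodule.finrank_mono
      rintro _ ⟨u, hu, rfl⟩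
      exact ⟨π u, hS ⟨u, hu, rfl⟩, hidem u⟩
    · exact rk_mono hZS
  have h3 : Z.map π ⊓ T = T.map π := by
    apply le_antisymm
    · rintro t ⟨⟨u, _, rfl⟩, ht⟩
      exact ⟨π u, ht, hidem u⟩
    · exact le_inf (Submodule.map_mono hTZ) hT
  have h4 : Z.map π ⊔ T = Z := by
    apply le_antisymm
    · refine sup_le ?_ hTZ
      exact (Submodule.map_mono hZS).trans hS
    · intro z hz
      have h5 : z = c⁻¹ • (π z - (π z - c • z)) := by
        simp [smul_smul, inv_mul_cancel₀ hc]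
      rw [h5]
      refine Submodule.smul_mem _ _ (Submodule.sub_mem _ ?_ (Submodule.mem_sup_right (h z hz)))
      exact Submodule.mem_sup_left ⟨z, hz, rfl⟩
  have h6 := Submodule.finrank_sup_add_finrank_inf_eq (Z.map π) T
  rw [h3, h4] at h6
  unfold rk
  unfold rk at h1
  omega

/-- Iterating an endomorphism acting on a section by a scalar. -/
theorem iter_section {f : Module.End k V} {T Z S : Submodule k V} (hfT : T.map f ≤ T) (hZS : Z ≤ S)
    (hfS : ∀ u ∈ S, f u ∈ Z) {c : k} (hf : ∀ z ∈ Z, f z - c • z ∈ T) (M : ℕ) :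
    (∀ u ∈ S, (f ^ (M + 1)) u ∈ Z) ∧ ∀ z ∈ Z, (f ^ (M + 1)) z - c ^ (M + 1) • z ∈ T := by
  induction M with
  | zero =>
    constructor
    · intro u hu
      simpa using hfS u hu
    · intro z hz
      simpa using hf z hz
  | succ M ih =>
    obtain ⟨h1, h2⟩ := ih
    have hs : ∀ u, (f ^ (M + 1 + 1)) u = f ((f ^ (M + 1)) u) := fun u => by
      rw [pow_succ' f (M + 1)]
      rfl
    constructor
    · intro u hu
      rw [hs]
      exact hfS _ (hZS (h1 u hu))
    · intro z hz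
      rw [hs]
      have h3 : f ((f ^ (M + 1)) z - c ^ (M + 1) • z) ∈ T := hfT ⟨_, h2 z hz, rfl⟩
      rw [map_sub, map_smul] at h3
      have h4 := hf z hz
      have h5 : f ((f ^ (M + 1)) z) - c ^ (M + 1 + 1) • z =
          (f ((f ^ (M + 1)) z) - c ^ (M + 1) • f z) + c ^ (M + 1) • (f z - c • z) := by
        have h6 : c ^ (M + 1 + 1) = c ^ (M + 1) * c := pow_succ _ _
        rw [h6, smul_sub, smul_smul]
        abel
      rw [h5]
      exact Submodule.add_mem _ h3 (Submodule.smul_mem _ _ h4)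

/-- A family of vectors and functionals realising a projection on a section. -/
theorem exists_proj_family (T₀ Z : Submodule k V) (hTZ : T₀ ≤ Z) :
    ∃ (n : ℕ) (z : Fin n → V) (h : Fin n → (V →ₗ[k] k)), (∀ i, z i ∈ Z) ∧ (∀ i, ∀ u ∈ T₀, h i u = 0) ∧
      (∀ u, ∑ i, h i u • z i ∈ Z) ∧ ∀ u ∈ Z, ∑ i, h i u • z i - u ∈ T₀ := by
  classical
  let Tz : Submodule k Z := T₀.comap Z.subtype
  obtain ⟨C, hC⟩ := Submodule.exists_isCompl Tz
  let P₀ : Z →ₗ[k] C := Submodule.projectionOnto C Tz hC.symm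
  obtain ⟨P, hP⟩ := LinearMap.exists_extend P₀
  have hPZ : ∀ (u : V) (hu : u ∈ Z), P u = P₀ ⟨u, hu⟩ := fun u hu => by
    have := congrArg (fun f => f ⟨u, hu⟩) hP
    exact this
  let b := Module.finBasis k C
  refine ⟨_, fun i => ((b i : C) : Z), fun i => (b.coord i).comp P, ?_, ?_, ?_, ?_⟩
  · intro i
    exact ((b i : C) : Z).2
  · intro i u hu
    simp only [LinearMap.comp_apply]
    have h1 : P u = 0 := by
      rw [hPZ u (hTZ hu)]
      exact Submodule.projectionOnto_apply_right hC.symm ⟨⟨u, hTZ hu⟩, hu⟩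
    rw [h1, map_zero]
  · have hsum : ∀ u, ∑ i, ((b.coord i).comp P) u • (((b i : C) : Z) : V) = ((P u : C) : Z) := by
      intro u
      have h1 := b.sum_repr (P u)
      have h2 := congrArg (fun w : C => ((w : Z) : V)) h1
      simp only [Submodule.coe_sum, Submodule.coe_smul] at h2
      exact h2
    intro u
    rw [hsum]
    exact ((P u : C) : Z).2
  · have hsum : ∀ u, ∑ i, ((b.coord i).comp P) u • (((b i : C) : Z) : V) = ((P u : C) : Z) := by
      intro u
      have h1 := b.sum_repr (P u)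
      have h2 := congrArg (fun w : C => ((w : Z) : V)) h1
      simp only [Submodule.coe_sum, Submodule.coe_smul] at h2
      exact h2
    intro u hu
    rw [hsum, hPZ u hu]
    have h1 : (⟨u, hu⟩ : Z) - (P₀ ⟨u, hu⟩ : C) ∈ Tz := by
      rw [← Submodule.ker_projectionOnto hC.symm, LinearMap.mem_ker, map_sub,
        Submodule.projectionOnto_apply_left]
      exact sub_self _
    have h2 : u - ((P₀ ⟨u, hu⟩ : C) : Z) ∈ T₀ := h1
    have h3 := T₀.neg_mem h2
    rwa [neg_sub] at h3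

end KLinear

section Formula

variable {R : Type*} [CommRing R] {L : Type*} [AddCommGroup L] [Module R L]
variable {k V : Type*} [Field k] [AddCommGroup V] [Module k V] [FiniteDimensional k V]
variable {p : ℕ} [hp : Fact p.Prime] (d : RedData p R k L V) {X : Module.End R L}

/-- The Tate formula when `f` acts on `W` through a section, and trivially on `W'`. -/
theorem tate_Z_A (htf : ∀ v : L, (p : R) • v = 0 → v = 0) (hX : X ^ p = 1)
    {f : Module.End R L} (hf : Commute f X) {Z : Submodule k V}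
    (hTZ : (⊤ : Submodule k V).map (d.bar (nrm X p)) ≤ Z)
    (hZA : Z ≤ d.imS (LinearMap.ker (X - 1))) {c : k} (hc : c ≠ 0)
    (hfA : ∀ v ∈ LinearMap.ker (X - 1), d.red (f v) ∈ Z)
    (hfZ : ∀ v ∈ LinearMap.ker (X - 1), d.red v ∈ Z →
      d.red (f v) - c • d.red v ∈ (⊤ : Submodule k V).map (d.bar (nrm X p)))
    (hfB : ∀ v ∈ LinearMap.ker (nrm X p), ∃ t, f v = (X - 1) t) (M : ℕ)
    (hM : IsIdempotentElem (d.bar (f ^ (M + 1)) : Module.End k V)) :
    ((p : ℤ) - 1) * rk (d.bar (f ^ (M + 1))) (d.imS (LinearMap.ker (X - 1))) -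
        rk (d.bar (f ^ (M + 1))) (d.imS (LinearMap.ker (nrm X p))) =
      ((p : ℤ) - 1) * ((finrank k Z : ℤ) - finrank k ((⊤ : Submodule k V).map (d.bar (nrm X p)))) := by
  have hf' : Commute (f ^ (M + 1)) X := hf.pow_left _
  have hform := tate_formula (p := p) d htf hX hf' hM
  set π : Module.End k V := d.bar (f ^ (M + 1)) with hπdef
  have hπpow : π = (d.bar f : Module.End k V) ^ (M + 1) := d.bar_pow _ _
  set Tn := (⊤ : Submodule k V).map (d.bar (nrm X p)) with hTn
  set Ty := (⊤ : Submodule k V).map (d.bar (X - 1)) with hTy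
  have hNπ : Commute (d.bar (nrm X p) : Module.End k V) π :=
    d.bar_commute (commute_nrm_of_commute hf').symm
  have hyπ : Commute (d.bar (X - 1) : Module.End k V) π :=
    d.bar_commute (commute_y_of_commute hf').symm
  have hTnπ : Tn.map π ≤ Tn := stable_map_of_commute hNπ stable_top
  have hTyπ : Ty.map π ≤ Ty := stable_map_of_commute hyπ stable_top
  have hTyB : Ty ≤ d.imS (LinearMap.ker (nrm X p)) := by
    rintro _ ⟨u, -, rfl⟩
    obtain ⟨v, rfl⟩ := d.red_surj u
    rw [d.bar_red]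
    apply d.red_mem_imS
    rw [LinearMap.mem_ker]
    exact congrArg (fun f : Module.End R L => f v) (nrm_mul_y hX)
  have hfTn : Tn.map (d.bar f) ≤ Tn := by
    refine stable_map_of_commute (π := d.bar f) (d.bar_commute (commute_nrm_of_commute hf).symm) stable_top
  have hfS : ∀ u ∈ d.imS (LinearMap.ker (X - 1)), d.bar f u ∈ Z := by
    rintro _ ⟨v, hv, rfl⟩
    rw [d.bar_red]
    exact hfA v hv
  have hfZ' : ∀ z ∈ Z, d.bar f z - c • z ∈ Tn := by
    intro z hz
    obtain ⟨v, hv, rfl⟩ := d.mem_imS.mp (hZA hz)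
    rw [d.bar_red]
    exact hfZ v hv hz
  obtain ⟨hi1, hi2⟩ := iter_section hfTn hZA hfS hfZ' M
  rw [← hπpow] at hi1 hi2
  have hA := rk_add_of_sub hM hTnπ hTZ hZA (by
    rintro _ ⟨u, hu, rfl⟩
    exact hi1 u hu) (pow_ne_zero (M + 1) hc) hi2
  have hB : rk π (d.imS (LinearMap.ker (nrm X p))) = rk π Ty := by
    refine rk_eq_of_image_le hM hTyπ hTyB ?_
    rintro _ ⟨_, ⟨v, hv, rfl⟩, rfl⟩
    obtain ⟨t, ht⟩ := hfB v hv
    rw [hπdef, d.bar_red]
    have h1 : (f ^ (M + 1)) v = (f ^ M) (f v) := by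
      rw [pow_succ]
      rfl
    rw [h1, ht]
    have h2 : (f ^ M) ((X - 1) t) = (X - 1) ((f ^ M) t) :=
      congrArg (fun g : Module.End R L => g t) (commute_y_of_commute (hf.pow_left M)).eq
    rw [h2, ← d.bar_red]
    exact ⟨_, trivial, rfl⟩
  rw [hform, hB]
  have hA' : (rk π (d.imS (LinearMap.ker (X - 1))) : ℤ) + finrank k Tn = rk π Tn + finrank k Z := by
    exact_mod_cast hA
  have : (rk π (d.imS (LinearMap.ker (X - 1))) : ℤ) - rk π Tn = (finrank k Z : ℤ) - finrank k Tn := by linarith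
  rw [this]
  ring

/-- The Tate formula when `f` acts on `W'` through a section, and trivially on `W`. -/
theorem tate_Z_B (htf : ∀ v : L, (p : R) • v = 0 → v = 0) (hX : X ^ p = 1)
    {f : Module.End R L} (hf : Commute f X) {Z : Submodule k V}
    (hTZ : (⊤ : Submodule k V).map (d.bar (X - 1)) ≤ Z)
    (hZB : Z ≤ d.imS (LinearMap.ker (nrm X p))) {c : k} (hc : c ≠ 0)
    (hfB : ∀ v ∈ LinearMap.ker (nrm X p), d.red (f v) ∈ Z)
    (hfZ : ∀ v ∈ LinearMap.ker (nrm X p), d.red v ∈ Z →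
      d.red (f v) - c • d.red v ∈ (⊤ : Submodule k V).map (d.bar (X - 1)))
    (hfA : ∀ v ∈ LinearMap.ker (X - 1), ∃ t, f v = nrm X p t) (M : ℕ)
    (hM : IsIdempotentElem (d.bar (f ^ (M + 1)) : Module.End k V)) :
    ((p : ℤ) - 1) * rk (d.bar (f ^ (M + 1))) (d.imS (LinearMap.ker (X - 1))) -
        rk (d.bar (f ^ (M + 1))) (d.imS (LinearMap.ker (nrm X p))) =
      -(((p : ℤ) - 1) * ((finrank k Z : ℤ) - finrank k ((⊤ : Submodule k V).map (d.bar (X - 1))))) := by
  have hf' : Commute (f ^ (M + 1)) X := hf.pow_left _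
  have hform := tate_formula (p := p) d htf hX hf' hM
  set π : Module.End k V := d.bar (f ^ (M + 1)) with hπdef
  have hπpow : π = (d.bar f : Module.End k V) ^ (M + 1) := d.bar_pow _ _
  set Tn := (⊤ : Submodule k V).map (d.bar (nrm X p)) with hTn
  set Ty := (⊤ : Submodule k V).map (d.bar (X - 1)) with hTy
  have hNπ : Commute (d.bar (nrm X p) : Module.End k V) π :=
    d.bar_commute (commute_nrm_of_commute hf').symm
  have hyπ : Commute (d.bar (X - 1) : Module.End k V) π :=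
    d.bar_commute (commute_y_of_commute hf').symm
  have hTnπ : Tn.map π ≤ Tn := stable_map_of_commute hNπ stable_top
  have hTyπ : Ty.map π ≤ Ty := stable_map_of_commute hyπ stable_top
  have hTnA : Tn ≤ d.imS (LinearMap.ker (X - 1)) := by
    rintro _ ⟨u, -, rfl⟩
    obtain ⟨v, rfl⟩ := d.red_surj u
    rw [d.bar_red]
    apply d.red_mem_imS
    rw [LinearMap.mem_ker]
    exact congrArg (fun f : Module.End R L => f v) (y_mul_nrm hX)
  have hfTy : Ty.map (d.bar f) ≤ Ty := by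
    refine stable_map_of_commute (π := d.bar f) (d.bar_commute (commute_y_of_commute hf).symm) stable_top
  have hfS : ∀ u ∈ d.imS (LinearMap.ker (nrm X p)), d.bar f u ∈ Z := by
    rintro _ ⟨v, hv, rfl⟩
    rw [d.bar_red]
    exact hfB v hv
  have hfZ' : ∀ z ∈ Z, d.bar f z - c • z ∈ Ty := by
    intro z hz
    obtain ⟨v, hv, rfl⟩ := d.mem_imS.mp (hZB hz)
    rw [d.bar_red]
    exact hfZ v hv hz
  obtain ⟨hi1, hi2⟩ := iter_section hfTy hZB hfS hfZ' M
  rw [← hπpow] at hi1 hi2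
  have hB := rk_add_of_sub hM hTyπ hTZ hZB (by
    rintro _ ⟨u, hu, rfl⟩
    exact hi1 u hu) (pow_ne_zero (M + 1) hc) hi2
  have hA : rk π (d.imS (LinearMap.ker (X - 1))) = rk π Tn := by
    refine rk_eq_of_image_le hM hTnπ hTnA ?_
    rintro _ ⟨_, ⟨v, hv, rfl⟩, rfl⟩
    obtain ⟨t, ht⟩ := hfA v hv
    rw [hπdef, d.bar_red]
    have h1 : (f ^ (M + 1)) v = (f ^ M) (f v) := by
      rw [pow_succ]
      rfl
    rw [h1, ht]
    have h2 : (f ^ M) (nrm X p t) = nrm X p ((f ^ M) t) :=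
      congrArg (fun g : Module.End R L => g t) (commute_nrm_of_commute (hf.pow_left M)).eq
    rw [h2, ← d.bar_red]
    exact ⟨_, trivial, rfl⟩
  rw [hform, hA]
  have hB' : (rk π (d.imS (LinearMap.ker (nrm X p))) : ℤ) + finrank k Ty = rk π Ty + finrank k Z := by
    exact_mod_cast hB
  have : (rk π (d.imS (LinearMap.ker (nrm X p))) : ℤ) - rk π Ty = (finrank k Z : ℤ) - finrank k Ty := by linarith
  rw [this]
  ring

/-- The section-type endomorphism on `W`. -/
theorem exists_g_Z_A [Module.Free R L] (hpc : ∀ a b : R, (p : R) * a = (p : R) * b → a = b) (hX : X ^ p = 1)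
    {Z : Submodule k V} (hTZ : (⊤ : Submodule k V).map (d.bar (nrm X p)) ≤ Z)
    (hZA : Z ≤ d.imS (LinearMap.ker (X - 1))) :
    ∃ g : Module.End R L, Commute g X ∧ (∀ v ∈ LinearMap.ker (X - 1), d.red (g v) ∈ Z) ∧
      (∀ v ∈ LinearMap.ker (X - 1), d.red v ∈ Z →
        d.red (g v) - d.red v ∈ (⊤ : Submodule k V).map (d.bar (nrm X p))) ∧
      ∀ v ∈ LinearMap.ker (nrm X p), g v = 0 := by
  classical
  obtain ⟨n, z, h, hz, hh0, hs, hs'⟩ := exists_proj_family _ Z hTZ
  choose a ha ha' using fun i => d.mem_imS.mp (hZA (hz i))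
  have hlift := fun i => exists_lift_W d hpc hX (h i) (fun u => hh0 i _ ⟨u, trivial, rfl⟩) (ha i)
  choose h' g hh' hgX hgA hgB using hlift
  have hval : ∀ v ∈ LinearMap.ker (X - 1), d.red ((∑ i, g i) v) = ∑ i, h i (d.red v) • z i := by
    intro v hv
    rw [LinearMap.sum_apply, map_sum]
    refine Finset.sum_congr rfl fun i _ => ?_
    rw [hgA i v hv, d.red_smul, hh', ha']
  refine ⟨∑ i, g i, Commute.sum_left _ _ _ fun i _ => hgX i, ?_, ?_, ?_⟩
  · intro v hv
    rw [hval v hv]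
    exact hs _
  · intro v hv hv'
    rw [hval v hv]
    exact hs' _ hv'
  · intro v hv
    rw [LinearMap.sum_apply]
    exact Finset.sum_eq_zero fun i _ => hgB i v hv

/-- The section-type endomorphism on `W'`. -/
theorem exists_g_Z_B [Module.Free R L] (htf : ∀ v : L, (p : R) • v = 0 → v = 0) (hX : X ^ p = 1)
    {Z : Submodule k V} (hTZ : (⊤ : Submodule k V).map (d.bar (X - 1)) ≤ Z)
    (hZB : Z ≤ d.imS (LinearMap.ker (nrm X p))) :
    ∃ g : Module.End R L, Commute g X ∧ (∀ v ∈ LinearMap.ker (nrm X p), d.red (g v) ∈ Z) ∧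
      (∀ v ∈ LinearMap.ker (nrm X p), d.red v ∈ Z →
        d.red (g v) - d.red v ∈ (⊤ : Submodule k V).map (d.bar (X - 1))) ∧
      ∀ v ∈ LinearMap.ker (X - 1), g v = 0 := by
  classical
  obtain ⟨n, z, h, hz, hh0, hs, hs'⟩ := exists_proj_family _ Z hTZ
  choose b hb hb' using fun i => d.mem_imS.mp (hZB (hz i))
  have hlift := fun i => exists_lift_W' d htf hX (hb i) ((h i).comp (d.imS (LinearMap.ker (nrm X p))).subtype) (by
    rintro u hu ⟨v, rfl⟩
    exact hh0 i _ ⟨v, trivial, rfl⟩)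
  choose g hgX hgA hgB using hlift
  have hval : ∀ v ∈ LinearMap.ker (nrm X p), d.red ((∑ i, g i) v) - ∑ i, h i (d.red v) • z i ∈
      (⊤ : Submodule k V).map (d.bar (X - 1)) := by
    intro v hv
    rw [LinearMap.sum_apply, map_sum, ← Finset.sum_sub_distrib]
    refine Submodule.sum_mem _ fun i _ => ?_
    obtain ⟨r, hr⟩ := d.σ_surj (h i (d.red v))
    obtain ⟨t, ht, ht'⟩ := hgB i v hv r hr
    have h1 : d.red (g i v) - h i (d.red v) • z i = d.bar (X - 1) (d.red t) := by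
      rw [d.bar_red, ← ht', map_sub, d.red_smul, hr, hb']
    rw [h1]
    exact ⟨_, trivial, rfl⟩
  refine ⟨∑ i, g i, Commute.sum_left _ _ _ fun i _ => hgX i, ?_, ?_, ?_⟩
  · intro v hv
    have h1 := hTZ (hval v hv)
    have h2 := Z.add_mem h1 (hs (d.red v))
    rwa [sub_add_cancel] at h2
  · intro v hv hv'
    have h1 := hval v hv
    have h2 := hs' _ hv'
    have h3 := ((⊤ : Submodule k V).map (d.bar (X - 1))).add_mem h1 h2
    rwa [sub_add_sub_cancel] at h3
  · intro v hv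
    rw [LinearMap.sum_apply]
    exact Finset.sum_eq_zero fun i _ => hgA i v hv

end Formula

section MackeyPrime

variable {G : Type*} [Group G] [Fintype G] [DecidableEq G] {R L : Type*} [CommRing R] [AddCommGroup L]
  [Module R L] (ρ : G →* Module.End R L) (P : Subgroup G) [Fintype (G ⧸ P)]

/-- **Mackey for Tate cohomology**, first half, with the terms kept. -/
theorem relTrace_tate_A' {g : Module.End R L} (hg : ∀ q ∈ P, Commute g (ρ q))
    (e : Module.End R L) (he : ∀ q ∈ P, Commute e (ρ q)) (hee : e * e = e)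
    [Fintype P] [DecidableEq (G ⧸ P)] (Fix T₁ : Finset (G ⧸ P)) (hT : T₁ ⊆ Fix)
    (hfree : ∀ c ∉ Fix, ∀ q : P, (q : G) • c = c → q = 1)
    (hfix : ∀ c, c ∈ Fix ↔ ∀ q : P, (q : G) • c = c)
    (h0 : ∀ c ∈ Fix, c ∉ T₁ → e * conjOp ρ g (Quotient.out c) = 0)
    (M₀ : AddSubgroup L) (hM₀ : ∀ w, e w = w → (∑ q : P, ρ (q : G)) w ∈ M₀) (v : L) (hv : ∀ q : P, ρ (q : G) v = v) :
    e (relTrace ρ P g v) - ∑ c ∈ T₁, e (conjOp ρ g (Quotient.out c) v) ∈ M₀ := by
  classical
  have hsplit : e (relTrace ρ P g v) = ∑ c ∈ Fix, e (conjOp ρ g (Quotient.out c) v) +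
      ∑ c ∈ Finset.univ \ Fix, e (conjOp ρ g (Quotient.out c) v) := by
    unfold relTrace
    rw [LinearMap.sum_apply, map_sum, add_comm, Finset.sum_sdiff (Finset.subset_univ _)]
  have hfixsum : ∑ c ∈ Fix, e (conjOp ρ g (Quotient.out c) v) =
      ∑ c ∈ T₁, e (conjOp ρ g (Quotient.out c) v) := by
    symm
    apply Finset.sum_subset hT
    intro c hc hc'
    have := h0 c hc hc'
    exact congrArg (fun f : Module.End R L => f v) this
  have hfree' : ∑ c ∈ Finset.univ \ Fix, e (conjOp ρ g (Quotient.out c) v) ∈ M₀ := by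
    refine relTrace_free_mem ρ hg e he (Finset.univ \ Fix) ?_ ?_ M₀ v ?_
    · intro c hc q
      rw [Finset.mem_sdiff] at hc ⊢
      refine ⟨Finset.mem_univ _, fun hq => hc.2 ?_⟩
      rw [hfix] at hq ⊢
      intro q'
      have h1 := hq (q * q' * q⁻¹)
      have h2 : ((q * q' * q⁻¹ : P) : G) • ((q : G) • c) = (q : G) • ((q' : G) • c) := by
        simp only [Subgroup.coe_mul, Subgroup.coe_inv, mul_smul, inv_smul_smul]
      rw [h2] at h1
      exact smul_left_cancel _ h1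
    · intro c hc q hq
      exact hfree c (Finset.mem_sdiff.mp hc).2 q hq
    · intro c hc
      set u := e * conjOp ρ g (Quotient.out c) with hu
      have h1 : ∀ q : P, (ρ (q : G) * u * ρ (q : G)⁻¹) v = ρ (q : G) (u v) := by
        intro q
        have h2 : ρ (q : G)⁻¹ v = v := by
          have := hv q⁻¹
          simpa using this
        show ρ (q : G) (u (ρ (q : G)⁻¹ v)) = _
        rw [h2]
      simp only [h1]
      have h2 : ∑ q : P, ρ (q : G) (u v) = (∑ q : P, ρ (q : G)) (u v) := by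
        rw [LinearMap.sum_apply]
      rw [h2]
      apply hM₀
      have h3 : e * u = u := by rw [hu, ← mul_assoc, hee]
      exact congrArg (fun f : Module.End R L => f v) h3
  rw [hsplit, hfixsum, add_sub_cancel_left]
  exact hfree'

/-- **Mackey for Tate cohomology**, second half, with the terms kept. -/
theorem relTrace_tate_B' {g : Module.End R L} (hg : ∀ q ∈ P, Commute g (ρ q))
    (e : Module.End R L) (he : ∀ q ∈ P, Commute e (ρ q)) (hee : e * e = e)
    [Fintype P] [DecidableEq (G ⧸ P)] (Fix T₁ : Finset (G ⧸ P)) (hT : T₁ ⊆ Fix)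
    (hfree : ∀ c ∉ Fix, ∀ q : P, (q : G) • c = c → q = 1)
    (hfix : ∀ c, c ∈ Fix ↔ ∀ q : P, (q : G) • c = c)
    (h0 : ∀ c ∈ Fix, c ∉ T₁ → e * conjOp ρ g (Quotient.out c) = 0)
    (M₀ : AddSubgroup L) (hM₀ : ∀ (w : L) (q : P), e w = w → ρ (q : G) w - w ∈ M₀) (v : L)
    (hv : (∑ q : P, ρ (q : G)) v = 0) :
    e (relTrace ρ P g v) - ∑ c ∈ T₁, e (conjOp ρ g (Quotient.out c) v) ∈ M₀ := by
  classical
  have hsplit : e (relTrace ρ P g v) = ∑ c ∈ Fix, e (conjOp ρ g (Quotient.out c) v) +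
      ∑ c ∈ Finset.univ \ Fix, e (conjOp ρ g (Quotient.out c) v) := by
    unfold relTrace
    rw [LinearMap.sum_apply, map_sum, add_comm, Finset.sum_sdiff (Finset.subset_univ _)]
  have hfixsum : ∑ c ∈ Fix, e (conjOp ρ g (Quotient.out c) v) =
      ∑ c ∈ T₁, e (conjOp ρ g (Quotient.out c) v) := by
    symm
    apply Finset.sum_subset hT
    intro c hc hc'
    have := h0 c hc hc'
    exact congrArg (fun f : Module.End R L => f v) this
  have hfree' : ∑ c ∈ Finset.univ \ Fix, e (conjOp ρ g (Quotient.out c) v) ∈ M₀ := by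
    refine relTrace_free_mem ρ hg e he (Finset.univ \ Fix) ?_ ?_ M₀ v ?_
    · intro c hc q
      rw [Finset.mem_sdiff] at hc ⊢
      refine ⟨Finset.mem_univ _, fun hq => hc.2 ?_⟩
      rw [hfix] at hq ⊢
      intro q'
      have h1 := hq (q * q' * q⁻¹)
      have h2 : ((q * q' * q⁻¹ : P) : G) • ((q : G) • c) = (q : G) • ((q' : G) • c) := by
        simp only [Subgroup.coe_mul, Subgroup.coe_inv, mul_smul, inv_smul_smul]
      rw [h2] at h1
      exact smul_left_cancel _ h1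
    · intro c hc q hq
      exact hfree c (Finset.mem_sdiff.mp hc).2 q hq
    · intro c hc
      set u := e * conjOp ρ g (Quotient.out c) with hu
      have h3 : e * u = u := by rw [hu, ← mul_assoc, hee]
      have h4 : ∑ q : P, u (ρ (q : G)⁻¹ v) = 0 := by
        rw [← map_sum]
        have h5 : ∑ q : P, ρ (q : G)⁻¹ v = (∑ q : P, ρ (q : G)) v := by
          rw [LinearMap.sum_apply]
          refine Fintype.sum_equiv (Equiv.inv P) _ _ fun q => ?_
          simp
        rw [h5, hv, map_zero]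
      have h6 : ∑ q : P, (ρ (q : G) * u * ρ (q : G)⁻¹) v =
          ∑ q : P, (ρ (q : G) (u (ρ (q : G)⁻¹ v)) - u (ρ (q : G)⁻¹ v)) := by
        rw [Finset.sum_sub_distrib, h4, sub_zero]
        rfl
      rw [h6]
      refine M₀.sum_mem fun q _ => hM₀ _ q ?_
      exact congrArg (fun f : Module.End R L => f _) h3
  rw [hsplit, hfixsum, add_sub_cancel_left]
  exact hfree'

end MackeyPrime

section Rep

variable {G : Type*} [Group G] {R L : Type*} [CommRing R] [AddCommGroup L] [Module R L]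

/-- The data of a defect-one representation on the range of an idempotent stable under a subgroup `T` of
the normalizer, orthogonal to its conjugates under the rest of the normalizer. -/
structure RepZ (ρ : G →* Module.End R L) (e : Module.End R L) (x : G) (T : Subgroup G) (p : ℕ) : Prop where
  hee : e * e = e
  hx : orderOf x = p
  hxT : x ∈ T
  hTN : T ≤ Subgroup.normalizer ((Subgroup.zpowers x : Subgroup G) : Set G)
  he : ∀ t ∈ T, Commute (ρ t) e
  horth : ∀ n ∈ Subgroup.normalizer ((Subgroup.zpowers x : Subgroup G) : Set G), n ∉ T → e * ρ n * e = 0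

variable [Fintype G] {ρ : G →* Module.End R L} {e : Module.End R L} {x : G} {T : Subgroup G} {p : ℕ}

namespace RepZ

variable (D : RepZ ρ e x T p)
include D

/-- An element of `T` on the range of `e`. -/
noncomputable def tOp (t : G) (ht : t ∈ T) : Module.End R (LinearMap.range e) := resE e (ρ t) (D.he t ht)

/-- The generator on the range of `e`. -/
noncomputable def X₁ : Module.End R (LinearMap.range e) := D.tOp x D.hxT

theorem tOp_coe (t : G) (ht : t ∈ T) (v : LinearMap.range e) : ((D.tOp t ht v : LinearMap.range e) : L) = ρ t v := rfl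

theorem X₁_pow_coe (j : ℕ) (v : LinearMap.range e) : (((D.X₁ ^ j) v : LinearMap.range e) : L) = ρ (x ^ j) v := by
  unfold X₁ tOp
  rw [resE_pow, resE_coe, map_pow]

theorem X₁_pow : D.X₁ ^ p = 1 := by
  ext v
  rw [X₁_pow_coe, ← D.hx, pow_orderOf_eq_one, map_one]
  rfl

theorem tOp_mul_apply (t t' : G) (ht : t ∈ T) (ht' : t' ∈ T) (v : LinearMap.range e) :
    D.tOp (t * t') (T.mul_mem ht ht') v = D.tOp t ht (D.tOp t' ht' v) := by
  apply Subtype.ext
  rw [tOp_coe, map_mul]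
  rfl

theorem tOp_inv_apply (t : G) (ht : t ∈ T) (v : LinearMap.range e) :
    D.tOp t ht (D.tOp t⁻¹ (T.inv_mem ht) v) = v := by
  apply Subtype.ext
  rw [tOp_coe, tOp_coe, ← Module.End.mul_apply, ← map_mul, mul_inv_cancel, map_one]
  rfl

theorem exists_s (t : G) (ht : t ∈ T) : ∃ s : ℕ, t * x * t⁻¹ = x ^ s := by
  have h1 : t * x * t⁻¹ ∈ Subgroup.zpowers x :=
    (Subgroup.mem_normalizer_iff.mp (D.hTN ht) _).mp (Subgroup.mem_zpowers x)
  obtain ⟨s, hs⟩ := mem_powers_iff_mem_zpowers.mpr h1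
  exact ⟨s, hs.symm⟩

theorem t_mul_X (t : G) (ht : t ∈ T) {s : ℕ} (hs : t * x * t⁻¹ = x ^ s) :
    D.tOp t ht * D.X₁ = D.X₁ ^ s * D.tOp t ht := by
  have h : t * x = x ^ s * t := by
    rw [← hs]
    group
  ext v
  have h2 := congrArg (fun g : G => ρ g (v : L)) h
  simp only [map_mul, Module.End.mul_apply] at h2
  rw [Module.End.mul_apply, Module.End.mul_apply]
  show ρ t (ρ x v) = ((D.X₁ ^ s) (D.tOp t ht v) : LinearMap.range e)
  rw [X₁_pow_coe, h2]
  rfl

theorem sum_conj_eq [Fintype (Subgroup.zpowers x)] {z : G}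
    (hz : z ∈ Subgroup.normalizer ((Subgroup.zpowers x : Subgroup G) : Set G)) :
    ∑ q : Subgroup.zpowers x, ρ (z * (q : G) * z⁻¹) = ∑ q : Subgroup.zpowers x, ρ (q : G) := by
  have hmem : ∀ q : Subgroup.zpowers x, z * (q : G) * z⁻¹ ∈ Subgroup.zpowers x := fun q =>
    (Subgroup.mem_normalizer_iff.mp hz _).mp q.2
  let φ : Subgroup.zpowers x → Subgroup.zpowers x := fun q => ⟨z * (q : G) * z⁻¹, hmem q⟩
  have hφ : Function.Injective φ := by
    intro a b hab
    have : z * (a : G) * z⁻¹ = z * (b : G) * z⁻¹ := congrArg Subtype.val hab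
    exact Subtype.ext (by simpa using this)
  have hb : Function.Bijective φ := ⟨hφ, Finite.surjective_of_injective hφ⟩
  exact hb.sum_comp (fun q : Subgroup.zpowers x => ρ (q : G))

theorem sum_zpowers_rho [Fintype (Subgroup.zpowers x)] :
    ∑ q : Subgroup.zpowers x, ρ (q : G) = nrm (ρ x) p := by
  classical
  rw [sum_zpowers_eq x (fun g => ρ g), D.hx, nrm]
  simp only [map_pow]

theorem commute_nrm_rho {z : G}
    (hz : z ∈ Subgroup.normalizer ((Subgroup.zpowers x : Subgroup G) : Set G)) :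
    Commute (ρ z) (nrm (ρ x) p) := by
  classical
  let _ : Fintype (Subgroup.zpowers x) := Fintype.ofFinite _
  show ρ z * nrm (ρ x) p = nrm (ρ x) p * ρ z
  have h1 : ∀ q : Subgroup.zpowers x, ρ z * ρ (q : G) = ρ (z * (q : G) * z⁻¹) * ρ z := by
    intro q
    rw [← map_mul, ← map_mul]
    congr 1
    group
  rw [← D.sum_zpowers_rho, Finset.mul_sum]
  simp_rw [h1]
  rw [← Finset.sum_mul, D.sum_conj_eq hz]

theorem t_commute_nrm (t : G) (ht : t ∈ T) : Commute (D.tOp t ht) (nrm D.X₁ p) := by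
  show D.tOp t ht * nrm D.X₁ p = nrm D.X₁ p * D.tOp t ht
  ext v
  have hc := congrArg (fun f : Module.End R L => f (v : L)) (D.commute_nrm_rho (D.hTN ht)).eq
  simp only [Module.End.mul_apply] at hc
  unfold X₁ tOp at *
  rw [resE_nrm, Module.End.mul_apply, Module.End.mul_apply, resE_coe, resE_coe, resE_coe, resE_coe]
  exact hc

theorem stable_kerY (t : G) (ht : t ∈ T) : ∀ v ∈ LinearMap.ker (D.X₁ - 1), D.tOp t ht v ∈ LinearMap.ker (D.X₁ - 1) := by
  intro v hv
  refine LinearMap.mem_ker.mpr ?_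
  have hfix : D.X₁ v = v := by
    have := LinearMap.mem_ker.mp hv
    rw [LinearMap.sub_apply, sub_eq_zero] at this
    exact this
  obtain ⟨s, hs⟩ := D.exists_s t⁻¹ (T.inv_mem ht)
  have h := D.t_mul_X t⁻¹ (T.inv_mem ht) hs
  -- `X (t v) = t (X^s v)`
  have h1 : t * x ^ s = x * t := by
    rw [← hs]
    group
  have h2 : ((D.X₁ (D.tOp t ht v) : LinearMap.range e) : L) = ρ t ((D.X₁ ^ s) v) := by
    rw [X₁_pow_coe]
    show ρ x (ρ t (v : L)) = ρ t (ρ (x ^ s) (v : L))
    have h3 := congrArg (fun g : G => ρ g (v : L)) h1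
    simp only [map_mul, Module.End.mul_apply] at h3
    exact h3.symm
  have hpow : ∀ n : ℕ, (D.X₁ ^ n) v = v := by
    intro n
    induction n with
    | zero => simp
    | succ n ih => rw [pow_succ, Module.End.mul_apply, hfix, ih]
  rw [hpow] at h2
  rw [LinearMap.sub_apply]
  simp only [Module.End.one_apply, sub_eq_zero]
  exact Subtype.ext h2

theorem stable_rangeN (t : G) (ht : t ∈ T) : ∀ v ∈ LinearMap.range (nrm D.X₁ p), D.tOp t ht v ∈ LinearMap.range (nrm D.X₁ p) := by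
  rintro _ ⟨w, rfl⟩
  refine ⟨D.tOp t ht w, ?_⟩
  exact (congrArg (fun f : Module.End R (LinearMap.range e) => f w) (D.t_commute_nrm t ht).eq).symm

theorem stable_kerN (t : G) (ht : t ∈ T) : ∀ v ∈ LinearMap.ker (nrm D.X₁ p), D.tOp t ht v ∈ LinearMap.ker (nrm D.X₁ p) := by
  intro v hv
  refine LinearMap.mem_ker.mpr ?_
  have h := congrArg (fun f : Module.End R (LinearMap.range e) => f v) (D.t_commute_nrm t ht).eq
  simp only [Module.End.mul_apply] at h
  rw [← h, LinearMap.mem_ker.mp hv, map_zero]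

theorem stable_rangeY (t : G) (ht : t ∈ T) : ∀ v ∈ LinearMap.range (D.X₁ - 1), D.tOp t ht v ∈ LinearMap.range (D.X₁ - 1) := by
  have hpowy : ∀ (n : ℕ) (w : LinearMap.range e), (D.X₁ ^ n - 1) w ∈ LinearMap.range (D.X₁ - 1) := by
    intro n w
    have h := mul_geom_sum D.X₁ n
    rw [← h, Module.End.mul_apply]
    exact ⟨_, rfl⟩
  rintro _ ⟨w, rfl⟩
  obtain ⟨s, hs⟩ := D.exists_s t ht
  have h := congrArg (fun f : Module.End R (LinearMap.range e) => f w) (D.t_mul_X t ht hs)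
  simp only [Module.End.mul_apply] at h
  have h3 : D.tOp t ht ((D.X₁ - 1) w) = (D.X₁ ^ s - 1) (D.tOp t ht w) := by
    rw [LinearMap.sub_apply, map_sub, h, LinearMap.sub_apply]
    simp
  rw [h3]
  exact hpowy s _

omit D in
theorem out_mem_fix {x : G} {T : Subgroup G} (hTN : T ≤ Subgroup.normalizer ((Subgroup.zpowers x : Subgroup G) : Set G))
    {c : G ⧸ Subgroup.zpowers x} (hc : (Quotient.out c : G) ∈ T) (q : Subgroup.zpowers x) : (q : G) • c = c := by
  have hn := hTN hc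
  have h1 : ((Quotient.out c : G))⁻¹ * (q : G) * Quotient.out c ∈ Subgroup.zpowers x := by
    have h2 := (Subgroup.mem_normalizer_iff.mp (Subgroup.inv_mem _ hn) (q : G)).mp q.2
    simpa using h2
  conv_lhs => rw [← QuotientGroup.out_eq' c]
  show (((q : G) * Quotient.out c : G) : G ⧸ Subgroup.zpowers x) = c
  conv_rhs => rw [← QuotientGroup.out_eq' c]
  apply QuotientGroup.eq.mpr
  have h3 : ((q : G) * Quotient.out c)⁻¹ * Quotient.out c = (Quotient.out c : G)⁻¹ * (q : G)⁻¹ * Quotient.out c := by group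
  rw [h3]
  have h4 := Subgroup.inv_mem _ h1
  have h5 : ((Quotient.out c : G)⁻¹ * (q : G) * Quotient.out c)⁻¹ = (Quotient.out c : G)⁻¹ * (q : G)⁻¹ * Quotient.out c := by group
  rwa [h5] at h4

/-- The Mackey term. -/
theorem term_eq (g₁ : Module.End R (LinearMap.range e)) {n : G} (hn : n ∈ T) (v : LinearMap.range e) :
    e (conjOp ρ (extE e g₁) n (v : L)) = ((D.tOp n hn (g₁ (D.tOp n⁻¹ (T.inv_mem hn) v)) : LinearMap.range e) : L) := by
  show e (ρ n (extE e g₁ (ρ n⁻¹ (v : L)))) = _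
  have h1 : ρ n⁻¹ (v : L) = ((D.tOp n⁻¹ (T.inv_mem hn) v : LinearMap.range e) : L) := rfl
  rw [h1, extE_coe D.hee]
  exact idem_coe D.hee (D.tOp n hn (g₁ (D.tOp n⁻¹ (T.inv_mem hn) v)))

theorem orth_term (g₁ : Module.End R (LinearMap.range e)) {n : G}
    (hn : n ∈ Subgroup.normalizer ((Subgroup.zpowers x : Subgroup G) : Set G)) (hnT : n ∉ T) :
    e * conjOp ρ (extE e g₁) n = 0 := by
  have h1 : extE e g₁ = e * extE e g₁ := by
    refine LinearMap.ext fun w => ?_
    show _ = e (extE e g₁ w)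
    exact (idem_coe D.hee (g₁ (e.rangeRestrict w))).symm
  unfold conjOp
  rw [h1]
  have h2 := D.horth n hn hnT
  calc e * (ρ n * (e * extE e g₁) * ρ n⁻¹) = (e * ρ n * e) * (extE e g₁ * ρ n⁻¹) := by noncomm_ring
    _ = 0 := by rw [h2, zero_mul]

end RepZ

end Rep

section MainZ

variable {G : Type*} [Group G] [Fintype G] {R L : Type*} [CommRing R] [AddCommGroup L] [Module R L]
variable {k V : Type*} [Field k] [AddCommGroup V] [Module k V]
variable {ρ : G →* Module.End R L} {e : Module.End R L} {x : G} {T : Subgroup G} {p : ℕ}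

variable [hp : Fact p.Prime] [Fintype (G ⧸ Subgroup.zpowers x)] [DecidableEq (G ⧸ Subgroup.zpowers x)]

theorem RepZ.commute_ext (D : RepZ ρ e x T p) {g₁ : Module.End R (LinearMap.range e)} (hg₁ : Commute g₁ D.X₁) :
    ∀ q ∈ Subgroup.zpowers x, Commute (extE e g₁) (ρ q) := by
  intro q hq
  obtain ⟨n, rfl⟩ := (mem_powers_iff_mem_zpowers.mpr hq)
  have h : Commute (extE e g₁) (ρ x) := extE_commute D.hee g₁ (D.he x D.hxT) hg₁
  simp only [map_pow]
  exact h.pow_right n

theorem RepZ.e_commute (D : RepZ ρ e x T p) : ∀ q ∈ Subgroup.zpowers x, Commute e (ρ q) := fun q hq =>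
  (D.he q ((Subgroup.zpowers_le.mpr D.hxT) hq)).symm

/-- The Mackey decomposition on `ker (X - 1)`. -/
theorem RepZ.mackey_A (D : RepZ ρ e x T p) [Fintype (Subgroup.zpowers x)]
    {g₁ : Module.End R (LinearMap.range e)} (hg₁ : Commute g₁ D.X₁)
    (Fix T₁ : Finset (G ⧸ Subgroup.zpowers x)) (hfix : ∀ c, c ∈ Fix ↔ ∀ q : Subgroup.zpowers x, (q : G) • c = c)
    (hT₁ : ∀ c, c ∈ T₁ ↔ (Quotient.out c : G) ∈ T)
    (hF : Commute (relTrace ρ (Subgroup.zpowers x) (extE e g₁)) e)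
    {v : LinearMap.range e} (hv : v ∈ LinearMap.ker (D.X₁ - 1)) :
    ∃ τ : G ⧸ Subgroup.zpowers x → LinearMap.range e, (∀ c (hc : c ∈ T₁), τ c = D.tOp _ ((hT₁ c).mp hc)
        (g₁ (D.tOp (Quotient.out c : G)⁻¹ (T.inv_mem ((hT₁ c).mp hc)) v))) ∧
      ∃ w, resE e _ hF v - ∑ c ∈ T₁, τ c = nrm D.X₁ p w := by
  classical
  have hfree : ∀ c ∉ Fix, ∀ q : Subgroup.zpowers x, (q : G) • c = c → q = 1 := by
    intro c hc q hq
    exact free_of_not_fixed hp.out D.hx (fun h => hc ((hfix c).mpr h)) q hq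
  have hX1v : D.X₁ v = v := by
    have := LinearMap.mem_ker.mp hv
    rw [LinearMap.sub_apply, sub_eq_zero] at this
    exact this
  have hpow : ∀ n : ℕ, (D.X₁ ^ n) v = v := by
    intro n
    induction n with
    | zero => simp
    | succ n ih => rw [pow_succ, Module.End.mul_apply, hX1v, ih]
  have key := relTrace_tate_A' ρ (Subgroup.zpowers x) (D.commute_ext hg₁) e D.e_commute D.hee Fix T₁
    (fun c hc => (hfix c).mpr (RepZ.out_mem_fix D.hTN ((hT₁ c).mp hc)))
    hfree hfix (fun c hc hc' => D.orth_term g₁ (out_mem_normalizer ((hfix c).mp hc)) (fun h => hc' ((hT₁ c).mpr h)))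
    (((LinearMap.range (nrm D.X₁ p)).map (LinearMap.range e).subtype).toAddSubgroup) (by
      intro w hw
      rw [D.sum_zpowers_rho]
      refine ⟨nrm D.X₁ p ⟨w, (mem_range_of_idem D.hee w).mpr hw⟩, ⟨_, rfl⟩, ?_⟩
      unfold RepZ.X₁ RepZ.tOp
      rw [resE_nrm]
      rfl) (v : L) (by
      intro q
      obtain ⟨n, hn⟩ := (mem_powers_iff_mem_zpowers.mpr q.2)
      rw [← hn, ← D.X₁_pow_coe, hpow])
  obtain ⟨w₁, ⟨w, rfl⟩, hw⟩ : _ ∈ ((LinearMap.range (nrm D.X₁ p)).map (LinearMap.range e).subtype) := key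
  refine ⟨fun c => ⟨e (conjOp ρ (extE e g₁) (Quotient.out c) (v : L)), ⟨_, rfl⟩⟩, ?_, w, ?_⟩
  · intro c hc
    apply Subtype.ext
    exact D.term_eq g₁ ((hT₁ c).mp hc) v
  · apply Subtype.ext
    have h1 : e (relTrace ρ (Subgroup.zpowers x) (extE e g₁) (v : L)) = relTrace ρ (Subgroup.zpowers x) (extE e g₁) (v : L) := by
      have := congrArg (fun f : Module.End R L => f (v : L)) hF.eq
      simp only [Module.End.mul_apply, idem_coe D.hee v] at this
      exact this.symm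
    rw [h1] at hw
    simp only [AddSubmonoidClass.coe_finsetSum, Submodule.coe_sub]
    exact hw.symm

/-- The Mackey decomposition on `ker N`. -/
theorem RepZ.mackey_B (D : RepZ ρ e x T p) [Fintype (Subgroup.zpowers x)]
    {g₁ : Module.End R (LinearMap.range e)} (hg₁ : Commute g₁ D.X₁)
    (Fix T₁ : Finset (G ⧸ Subgroup.zpowers x)) (hfix : ∀ c, c ∈ Fix ↔ ∀ q : Subgroup.zpowers x, (q : G) • c = c)
    (hT₁ : ∀ c, c ∈ T₁ ↔ (Quotient.out c : G) ∈ T)
    (hF : Commute (relTrace ρ (Subgroup.zpowers x) (extE e g₁)) e)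
    {v : LinearMap.range e} (hv : v ∈ LinearMap.ker (nrm D.X₁ p)) :
    ∃ τ : G ⧸ Subgroup.zpowers x → LinearMap.range e, (∀ c (hc : c ∈ T₁), τ c = D.tOp _ ((hT₁ c).mp hc)
        (g₁ (D.tOp (Quotient.out c : G)⁻¹ (T.inv_mem ((hT₁ c).mp hc)) v))) ∧
      ∃ w, resE e _ hF v - ∑ c ∈ T₁, τ c = (D.X₁ - 1) w := by
  classical
  have hfree : ∀ c ∉ Fix, ∀ q : Subgroup.zpowers x, (q : G) • c = c → q = 1 := by
    intro c hc q hq
    exact free_of_not_fixed hp.out D.hx (fun h => hc ((hfix c).mpr h)) q hq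
  have key := relTrace_tate_B' ρ (Subgroup.zpowers x) (D.commute_ext hg₁) e D.e_commute D.hee Fix T₁
    (fun c hc => (hfix c).mpr (RepZ.out_mem_fix D.hTN ((hT₁ c).mp hc)))
    hfree hfix (fun c hc hc' => D.orth_term g₁ (out_mem_normalizer ((hfix c).mp hc)) (fun h => hc' ((hT₁ c).mpr h)))
    (((LinearMap.range (D.X₁ - 1)).map (LinearMap.range e).subtype).toAddSubgroup) (by
      intro w q hw
      obtain ⟨n, hn⟩ := (mem_powers_iff_mem_zpowers.mpr q.2)
      have hmem := (mem_range_of_idem D.hee w).mpr hw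
      have h1 : ρ (q : G) w - w = (LinearMap.range e).subtype (((D.X₁ - 1) * ∑ i ∈ Finset.range n, D.X₁ ^ i) ⟨w, hmem⟩) := by
        rw [mul_geom_sum, LinearMap.sub_apply, map_sub, ← hn]
        show _ = (((D.X₁ ^ n) ⟨w, hmem⟩ : LinearMap.range e) : L) - w
        rw [D.X₁_pow_coe]
      rw [h1]
      exact Submodule.mem_map_of_mem ⟨_, rfl⟩) (v : L) (by
      rw [D.sum_zpowers_rho]
      have := LinearMap.mem_ker.mp hv
      have h2 := congrArg (fun u : LinearMap.range e => (u : L)) this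
      unfold RepZ.X₁ RepZ.tOp at h2
      rw [resE_nrm] at h2
      exact h2)
  obtain ⟨w₁, ⟨w, rfl⟩, hw⟩ : _ ∈ ((LinearMap.range (D.X₁ - 1)).map (LinearMap.range e).subtype) := key
  refine ⟨fun c => ⟨e (conjOp ρ (extE e g₁) (Quotient.out c) (v : L)), ⟨_, rfl⟩⟩, ?_, w, ?_⟩
  · intro c hc
    apply Subtype.ext
    exact D.term_eq g₁ ((hT₁ c).mp hc) v
  · apply Subtype.ext
    have h1 : e (relTrace ρ (Subgroup.zpowers x) (extE e g₁) (v : L)) = relTrace ρ (Subgroup.zpowers x) (extE e g₁) (v : L) := by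
      have := congrArg (fun f : Module.End R L => f (v : L)) hF.eq
      simp only [Module.End.mul_apply, idem_coe D.hee v] at this
      exact this.symm
    rw [h1] at hw
    simp only [AddSubmonoidClass.coe_finsetSum, Submodule.coe_sub]
    exact hw.symm

end MainZ

section Main2

variable {G : Type*} [Group G] [Fintype G] {R L : Type*} [CommRing R] [AddCommGroup L] [Module R L]
variable {k V : Type*} [Field k] [AddCommGroup V] [Module k V]
variable {ρ : G →* Module.End R L} {e : Module.End R L} {x : G} {T : Subgroup G} {p : ℕ}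

/-- The number of cosets of `⟨x⟩` in `T`. -/
theorem card_T₁ [hp : Fact p.Prime] [Fintype (G ⧸ Subgroup.zpowers x)] [DecidableEq (G ⧸ Subgroup.zpowers x)] (hx : orderOf x = p) (hxT : x ∈ T)
    (T₁ : Finset (G ⧸ Subgroup.zpowers x)) (hT₁ : ∀ c, c ∈ T₁ ↔ (Quotient.out c : G) ∈ T) :
    T₁.card * p = Nat.card T := by
  classical
  have hle : Subgroup.zpowers x ≤ T := Subgroup.zpowers_le.mpr hxT
  let f : T → G ⧸ Subgroup.zpowers x := fun t => ((t : G) : G ⧸ Subgroup.zpowers x)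
  have hf : ∀ t, f t ∈ T₁ := by
    intro t
    rw [hT₁]
    have h2 : (Quotient.out ((t : G) : G ⧸ Subgroup.zpowers x) : G)⁻¹ * t ∈ Subgroup.zpowers x :=
      QuotientGroup.eq.mp (QuotientGroup.out_eq' _)
    have h3 := T.mul_mem t.2 (T.inv_mem (hle h2))
    have h4 : (t : G) * ((Quotient.out ((t : G) : G ⧸ Subgroup.zpowers x) : G)⁻¹ * t)⁻¹ =
        Quotient.out ((t : G) : G ⧸ Subgroup.zpowers x) := by group
    rwa [h4] at h3
  have hcard : T₁.card = Nat.card (T ⧸ (Subgroup.zpowers x).subgroupOf T) := by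
    let ι : (T ⧸ (Subgroup.zpowers x).subgroupOf T) → T₁ := fun q => Quotient.liftOn' q (fun t => (⟨f t, hf t⟩ : T₁)) (by
      intro a b hab
      apply Subtype.ext
      have h1 : (a : T)⁻¹ * b ∈ (Subgroup.zpowers x).subgroupOf T := QuotientGroup.leftRel_apply.mp hab
      exact QuotientGroup.eq.mpr h1)
    have hι : Function.Bijective ι := by
      constructor
      · intro a b hab
        obtain ⟨a, rfl⟩ := QuotientGroup.mk_surjective a
        obtain ⟨b, rfl⟩ := QuotientGroup.mk_surjective b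
        have h1 : ((a : G) : G ⧸ Subgroup.zpowers x) = ((b : G) : G ⧸ Subgroup.zpowers x) := congrArg Subtype.val hab
        have h2 := QuotientGroup.eq.mp h1
        exact QuotientGroup.eq.mpr (Subgroup.mem_subgroupOf.mpr (by simpa using h2))
      · rintro ⟨c, hc⟩
        have hc' := (hT₁ c).mp hc
        refine ⟨((⟨Quotient.out c, hc'⟩ : T) : T ⧸ (Subgroup.zpowers x).subgroupOf T), ?_⟩
        apply Subtype.ext
        exact QuotientGroup.out_eq' c
    rw [Nat.card_eq_of_bijective ι hι, Nat.card_eq_fintype_card, Fintype.card_coe]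
  have h1 := ((Subgroup.zpowers x).subgroupOf T).index_mul_card
  rw [Subgroup.index_eq_card] at h1
  have h2 : Nat.card ((Subgroup.zpowers x).subgroupOf T) = p := by
    rw [← hx, ← Nat.card_zpowers]
    exact Nat.card_congr (Subgroup.subgroupOfEquivOfLe hle).toEquiv
  rw [h2] at h1
  rw [hcard, h1]

/-- The number of cosets is prime to `p`. -/
theorem coprime_card_T₁ [hp : Fact p.Prime] [Fintype (G ⧸ Subgroup.zpowers x)] [DecidableEq (G ⧸ Subgroup.zpowers x)]
    (hx : orderOf x = p) (hxT : x ∈ T) (hp2 : ¬ p ^ 2 ∣ Fintype.card G)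
    (T₁ : Finset (G ⧸ Subgroup.zpowers x)) (hT₁ : ∀ c, c ∈ T₁ ↔ (Quotient.out c : G) ∈ T) :
    Nat.Coprime T₁.card p := by
  rw [Nat.coprime_comm, Nat.Prime.coprime_iff_not_dvd hp.out]
  intro hdvd
  apply hp2
  have h1 := card_T₁ hx hxT T₁ hT₁
  have h2 : p ^ 2 ∣ Nat.card T := by
    rw [← h1, pow_two]
    exact Nat.mul_dvd_mul hdvd (dvd_refl p)
  have h3 : Nat.card T ∣ Fintype.card G := by
    rw [← Nat.card_eq_fintype_card]
    exact Subgroup.card_subgroup_dvd_card T
  exact h2.trans h3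

/-- The properties of a relative trace on a section. -/
theorem RepZ.section_props [hp : Fact p.Prime] (D : RepZ ρ e x T p) (d : RedData p R k (LinearMap.range e) V)
    (Q : Type*) (Fix T₁ : Finset Q) (nn : Q → G) (hnn : ∀ c ∈ T₁, nn c ∈ T)
    (S₀ T₀' : Submodule R (LinearMap.range e)) (hS : ∀ t (ht : t ∈ T), ∀ v ∈ S₀, D.tOp t ht v ∈ S₀)
    {Z : Submodule k V} (hTZ : d.imS T₀' ≤ Z) (hZst : ∀ t (ht : t ∈ T), ∀ v ∈ Z, d.bar (D.tOp t ht) v ∈ Z)
    (hTst : ∀ t (ht : t ∈ T), ∀ v ∈ d.imS T₀', d.bar (D.tOp t ht) v ∈ d.imS T₀')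
    {g f : Module.End R (LinearMap.range e)}
    (hg1 : ∀ v ∈ S₀, d.red (g v) ∈ Z) (hg2 : ∀ v ∈ S₀, d.red v ∈ Z → d.red (g v) - d.red v ∈ d.imS T₀')
    (hm : ∀ v ∈ S₀, ∃ τ : Q → LinearMap.range e, (∀ c (hc : c ∈ T₁), τ c = D.tOp _ (hnn c hc)
        (g (D.tOp (nn c)⁻¹ (T.inv_mem (hnn c hc)) v))) ∧ f v - ∑ c ∈ T₁, τ c ∈ T₀') :
    (∀ v ∈ S₀, d.red (f v) ∈ Z) ∧ ∀ v ∈ S₀, d.red v ∈ Z → d.red (f v) - (T₁.card : k) • d.red v ∈ d.imS T₀' := by
  constructor
  · intro v hv
    obtain ⟨τ, hτ, hw⟩ := hm v hv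
    have h1 : f v = ∑ c ∈ T₁, τ c + (f v - ∑ c ∈ T₁, τ c) := by abel
    rw [h1, map_add, map_sum]
    refine Z.add_mem (Submodule.sum_mem _ fun c hc => ?_) (hTZ (d.red_mem_imS hw))
    rw [hτ c hc, ← d.bar_red]
    exact hZst _ _ _ (hg1 _ (hS _ _ v hv))
  · intro v hv hvZ
    obtain ⟨τ, hτ, hw⟩ := hm v hv
    have h1 : d.red (f v) - (T₁.card : k) • d.red v =
        ∑ c ∈ T₁, (d.red (τ c) - d.red v) + d.red (f v - ∑ c ∈ T₁, τ c) := by
      rw [Finset.sum_sub_distrib, Finset.sum_const, map_sub, map_sum, Nat.cast_smul_eq_nsmul]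
      abel
    rw [h1]
    refine (d.imS T₀').add_mem (Submodule.sum_mem _ fun c hc => ?_) (d.red_mem_imS hw)
    set n := nn c with hn
    have hnT := hnn c hc
    set w := D.tOp n⁻¹ (T.inv_mem hnT) v with hw'
    have hwS : w ∈ S₀ := hS _ _ v hv
    have hwZ : d.red w ∈ Z := by
      rw [hw', ← d.bar_red]
      exact hZst _ _ _ hvZ
    have h2 := hg2 w hwS hwZ
    have h3 := hTst n hnT _ h2
    have h4 : d.red (D.tOp n hnT w) = d.red v := by
      rw [hw', D.tOp_inv_apply]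
    rw [map_sub, d.bar_red, d.bar_red, h4] at h3
    rw [hτ c hc]
    exact h3

theorem map_top_bar' {R L k V : Type*} [CommRing R] [AddCommGroup L] [Module R L] [Field k] [AddCommGroup V] [Module k V]
    {p : ℕ} (d : RedData p R k L V) (E : Module.End R L) :
    (⊤ : Submodule k V).map (d.bar E) = d.imS (LinearMap.range E) := map_top_bar d E

/-- **The rank formula** on the range of `e`, for a section of given dimension. -/
theorem RepZ.exists_F_rank_Z [Finite k] [FiniteDimensional k V] [hp : Fact p.Prime]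
    [Module.Free R (LinearMap.range e)]
    (D : RepZ ρ e x T p) (d : RedData p R k (LinearMap.range e) V)
    (hpc : ∀ a b : R, (p : R) * a = (p : R) * b → a = b)
    (htf : ∀ v : LinearMap.range e, (p : R) • v = 0 → v = 0)
    (hp2 : ¬ p ^ 2 ∣ Fintype.card G)
    (hne : (∃ a₁ ∈ LinearMap.ker (D.X₁ - 1), a₁ ∉ LinearMap.range (nrm D.X₁ p)) ∨
      ∃ b₁ ∈ LinearMap.ker (nrm D.X₁ p), b₁ ∉ LinearMap.range (D.X₁ - 1)) (δ : ℕ)
    (hZ : ∀ A T₀ : Submodule k V, T₀ ≤ A → (∃ v ∈ A, v ∉ T₀) → (∀ t (ht : t ∈ T), ∀ v ∈ A, d.bar (D.tOp t ht) v ∈ A) →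
      (∀ t (ht : t ∈ T), ∀ v ∈ T₀, d.bar (D.tOp t ht) v ∈ T₀) → (∀ v ∈ A, d.bar D.X₁ v - v ∈ T₀) →
      ∃ Z : Submodule k V, T₀ ≤ Z ∧ Z ≤ A ∧ (∀ t (ht : t ∈ T), ∀ v ∈ Z, d.bar (D.tOp t ht) v ∈ Z) ∧
        finrank k Z = finrank k T₀ + δ) :
    ∃ F : Module.End R L, (∀ g, Commute F (ρ g)) ∧ ∀ (hF : Commute F e) (M : ℕ),
      IsIdempotentElem (d.bar ((resE e F hF) ^ (M + 1)) : Module.End k V) →
      (((p : ℤ) - 1) * rk (d.bar ((resE e F hF) ^ (M + 1))) (d.imS (LinearMap.ker (D.X₁ - 1))) -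
        rk (d.bar ((resE e F hF) ^ (M + 1))) (d.imS (LinearMap.ker (nrm D.X₁ p))) = ((p : ℤ) - 1) * δ) ∨
      (((p : ℤ) - 1) * rk (d.bar ((resE e F hF) ^ (M + 1))) (d.imS (LinearMap.ker (D.X₁ - 1))) -
        rk (d.bar ((resE e F hF) ^ (M + 1))) (d.imS (LinearMap.ker (nrm D.X₁ p))) = -(((p : ℤ) - 1) * δ)) := by
  classical
  let _ : Fintype (G ⧸ Subgroup.zpowers x) := Fintype.ofFinite _
  let _ : Fintype (Subgroup.zpowers x) := Fintype.ofFinite _
  let Fix : Finset (G ⧸ Subgroup.zpowers x) :=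
    Finset.univ.filter fun c => ∀ q : Subgroup.zpowers x, (q : G) • c = c
  have hfix : ∀ c, c ∈ Fix ↔ ∀ q : Subgroup.zpowers x, (q : G) • c = c := by
    intro c
    simp [Fix]
  let T₁ : Finset (G ⧸ Subgroup.zpowers x) := Finset.univ.filter fun c => (Quotient.out c : G) ∈ T
  have hT₁ : ∀ c, c ∈ T₁ ↔ (Quotient.out c : G) ∈ T := by
    intro c
    simp [T₁]
  have hXp := D.X₁_pow
  have hc₀ : (T₁.card : k) ≠ 0 := by
    have := natCast_ne_of_coprime d (coprime_card_T₁ D.hx D.hxT hp2 T₁ hT₁)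
    rwa [map_natCast] at this
  have hbarT : ∀ (t : G) (ht : t ∈ T) (S : Submodule R (LinearMap.range e)), (∀ v ∈ S, D.tOp t ht v ∈ S) →
      ∀ v ∈ d.imS S, d.bar (D.tOp t ht) v ∈ d.imS S := by
    rintro t ht S hS _ ⟨a, ha, rfl⟩
    rw [d.bar_red]
    exact d.red_mem_imS (hS a ha)
  have hnn : ∀ c ∈ T₁, (Quotient.out c : G) ∈ T := fun c hc => (hT₁ c).mp hc
  rcases hne with ⟨a₁, ha₁, ha₁T⟩ | ⟨b₁, hb₁, hb₁T⟩
  · have hTA : d.imS (LinearMap.range (nrm D.X₁ p)) ≤ d.imS (LinearMap.ker (D.X₁ - 1)) := by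
      apply d.imS_mono
      rintro _ ⟨w, rfl⟩
      exact LinearMap.mem_ker.mpr (congrArg (fun f : Module.End R (LinearMap.range e) => f w) (y_mul_nrm hXp))
    obtain ⟨Z, hZ1, hZ2, hZ3, hZ4⟩ := hZ _ _ hTA ⟨d.red a₁, d.red_mem_imS ha₁, by
        rw [← map_top_bar]
        exact red_notMem_nrm d htf hXp ha₁ (fun v hv => ha₁T ⟨v, hv⟩)⟩
      (fun t ht => hbarT t ht _ (D.stable_kerY t ht)) (fun t ht => hbarT t ht _ (D.stable_rangeN t ht)) (by
        rintro _ ⟨a, ha, rfl⟩
        have h1 : D.X₁ a = a := by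
          have := LinearMap.mem_ker.mp ha
          rwa [LinearMap.sub_apply, sub_eq_zero] at this
        rw [d.bar_red, h1, sub_self]
        exact Submodule.zero_mem _)
    rw [← map_top_bar] at hZ1 hZ4
    obtain ⟨g, hgX, hg1, hg2, hg0⟩ := exists_g_Z_A d hpc hXp hZ1 hZ2
    refine ⟨relTrace ρ (Subgroup.zpowers x) (extE e g), relTrace_commute ρ _ (D.commute_ext hgX), ?_⟩
    intro hF M hM
    left
    have hfX : Commute (resE e _ hF) D.X₁ := by
      have h1 := relTrace_commute ρ (Subgroup.zpowers x) (D.commute_ext hgX) x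
      show resE e _ hF * D.X₁ = D.X₁ * resE e _ hF
      ext v
      exact congrArg (fun f : Module.End R L => f (v : L)) h1.eq
    obtain ⟨hf1, hf2⟩ := D.section_props d (G ⧸ Subgroup.zpowers x) Fix T₁ (fun c => Quotient.out c) hnn
      (LinearMap.ker (D.X₁ - 1)) (LinearMap.range (nrm D.X₁ p)) (fun t ht => D.stable_kerY t ht)
      (Z := Z) (by rw [← map_top_bar]; exact hZ1) hZ3 (fun t ht => hbarT t ht _ (D.stable_rangeN t ht))
      (g := g) (f := resE e _ hF) hg1 (by rw [← map_top_bar]; exact hg2) (by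
        intro v hv
        obtain ⟨τ, hτ, w, hw⟩ := D.mackey_A hgX Fix T₁ hfix hT₁ hF hv
        exact ⟨τ, hτ, by rw [hw]; exact ⟨w, rfl⟩⟩)
    have hfB : ∀ v ∈ LinearMap.ker (nrm D.X₁ p), ∃ t, resE e _ hF v = (D.X₁ - 1) t := by
      intro v hv
      obtain ⟨τ, hτ, w, hw⟩ := D.mackey_B hgX Fix T₁ hfix hT₁ hF hv
      refine ⟨w, ?_⟩
      have h0 : ∑ c ∈ T₁, τ c = 0 := Finset.sum_eq_zero fun c hc => by
        rw [hτ c hc, hg0 _ (D.stable_kerN _ _ v hv), map_zero]
      rwa [h0, sub_zero] at hw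
    have h5 := tate_Z_A d htf hXp hfX hZ1 hZ2 hc₀ hf1 (by rw [← map_top_bar] at hf2; exact hf2) hfB M hM
    rw [h5, hZ4]
    push_cast
    ring
  · have hTB : d.imS (LinearMap.range (D.X₁ - 1)) ≤ d.imS (LinearMap.ker (nrm D.X₁ p)) := by
      apply d.imS_mono
      rintro _ ⟨w, rfl⟩
      exact LinearMap.mem_ker.mpr (congrArg (fun f : Module.End R (LinearMap.range e) => f w) (nrm_mul_y hXp))
    obtain ⟨Z, hZ1, hZ2, hZ3, hZ4⟩ := hZ _ _ hTB ⟨d.red b₁, d.red_mem_imS hb₁, by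
        rw [← map_top_bar]
        exact red_notMem_y d htf hXp hb₁ (fun v hv => hb₁T ⟨v, hv⟩)⟩
      (fun t ht => hbarT t ht _ (D.stable_kerN t ht)) (fun t ht => hbarT t ht _ (D.stable_rangeY t ht)) (by
        rintro _ ⟨a, ha, rfl⟩
        rw [d.bar_red, ← map_sub]
        exact d.red_mem_imS ⟨a, by simp⟩)
    rw [← map_top_bar] at hZ1 hZ4
    obtain ⟨g, hgX, hg1, hg2, hg0⟩ := exists_g_Z_B d htf hXp hZ1 hZ2
    refine ⟨relTrace ρ (Subgroup.zpowers x) (extE e g), relTrace_commute ρ _ (D.commute_ext hgX), ?_⟩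
    intro hF M hM
    right
    have hfX : Commute (resE e _ hF) D.X₁ := by
      have h1 := relTrace_commute ρ (Subgroup.zpowers x) (D.commute_ext hgX) x
      show resE e _ hF * D.X₁ = D.X₁ * resE e _ hF
      ext v
      exact congrArg (fun f : Module.End R L => f (v : L)) h1.eq
    obtain ⟨hf1, hf2⟩ := D.section_props d (G ⧸ Subgroup.zpowers x) Fix T₁ (fun c => Quotient.out c) hnn
      (LinearMap.ker (nrm D.X₁ p)) (LinearMap.range (D.X₁ - 1)) (fun t ht => D.stable_kerN t ht)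
      (Z := Z) (by rw [← map_top_bar]; exact hZ1) hZ3 (fun t ht => hbarT t ht _ (D.stable_rangeY t ht))
      (g := g) (f := resE e _ hF) hg1 (by rw [← map_top_bar]; exact hg2) (by
        intro v hv
        obtain ⟨τ, hτ, w, hw⟩ := D.mackey_B hgX Fix T₁ hfix hT₁ hF hv
        exact ⟨τ, hτ, by rw [hw]; exact ⟨w, rfl⟩⟩)
    have hfA : ∀ v ∈ LinearMap.ker (D.X₁ - 1), ∃ t, resE e _ hF v = nrm D.X₁ p t := by
      intro v hv
      obtain ⟨τ, hτ, w, hw⟩ := D.mackey_A hgX Fix T₁ hfix hT₁ hF hv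
      refine ⟨w, ?_⟩
      have h0 : ∑ c ∈ T₁, τ c = 0 := Finset.sum_eq_zero fun c hc => by
        rw [hτ c hc, hg0 _ (D.stable_kerY _ _ v hv), map_zero]
      rwa [h0, sub_zero] at hw
    have h5 := tate_Z_B d htf hXp hfX hZ1 hZ2 hc₀ hf1 (by rw [← map_top_bar] at hf2; exact hf2) hfA M hM
    rw [h5, hZ4]
    push_cast
    ring

end Main2

end Cfsg.Agent.Lib.FF
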