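import Cfsg.Agent.Lib.FF.CycAlg2
import Cfsg.Agent.Lib.FF.GenTate

/-!
# A minimal idempotent commuting with the group
-/

set_option autoImplicit false
set_option linter.unusedSectionVars false
set_option linter.unusedVariables false

namespace Cfsg.Agent.Lib.FF

open Module Polynomial

section MinIdem

universe u

variable {k : Type*} {R : Type u} {V G : Type*} [Field k] [Fintype k] [Ring R] [Algebra k R] [Module.Finite k R]
  [AddCommGroup V] [Module k V] [FiniteDimensional k V] [Group G] [Fintype G] [DecidableEq G]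
variable {lam : R →ₗ[k] k} {e y₀ : R} {N : ℕ} {i : R} {n : ℕ} {c d : Fin n → R}

theorem exists_smaller_idem (D : CenData lam e y₀ N) (hC : Corner (k := k) e y₀ i c d)
    (Θ : R →ₐ[k] Module.End k V) (ρ : G →* Module.End k V)
    (hΘ : ∀ F : Module.End k V, (∀ g, Commute F (ρ g)) → ∀ r, Commute F (Θ r))
    (t : G) (σ : R ≃ₐ[k] R) (hσe : σ e = e) (hσi : σ i = i) (hρσ : ∀ r, ρ t * Θ r = Θ (σ r) * ρ t)
    {o : ℕ} (ho : 0 < o) (hto : t ^ o = 1) {ζ : k} (hζ : IsPrimitiveRoot ζ o) (ho0 : (o : k) ≠ 0)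
    (p : ℕ) [hp : Fact p.Prime] [CharP k p] {g : k[X]} (hg0 : g.coeff 0 = 0)
    (hty : ρ t * Θ y₀ = aeval (Θ y₀) g * ρ t)
    (Tf : Subgroup G) [Fintype (G ⧸ Tf)]
    (hTf : ∀ E₁ : Module.End k V, (∀ r, Commute E₁ (Θ r)) → Commute E₁ (ρ t) → ∀ x ∈ Tf, Commute E₁ (ρ x))
    {j₀ : ℕ} (hj0 : 0 < j₀) (hj : j₀ < N)
    (hM : ∀ E₁ : Module.End k V, (∀ x ∈ Tf, Commute E₁ (ρ x)) → Θ e * E₁ = E₁ → ∀ v, Θ e v = v → (Θ y₀ ^ j₀) v = 0 →
      relTrace ρ Tf E₁ v - E₁ v ∈ (⊤ : Submodule k V).map (Θ y₀ ^ (N - j₀)))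
    (E : Module.End k V) (hE1 : IsIdempotentElem E) (hE2 : ∀ g, Commute E (ρ g))
    (hτ : 2 ≤ secRk (Θ i * E) (LinearMap.ker (Θ y₀)) ((⊤ : Submodule k V).map (Θ y₀ ^ (N - 1)))) :
    ∃ E' : Module.End k V, IsIdempotentElem E' ∧ (∀ g, Commute E' (ρ g)) ∧
      0 < secRk (Θ i * E') (LinearMap.ker (Θ y₀ ^ j₀)) ((⊤ : Submodule k V).map (Θ y₀ ^ (N - j₀))) ∧
      secRk (Θ i * E') (LinearMap.ker (Θ y₀ ^ j₀)) ((⊤ : Submodule k V).map (Θ y₀ ^ (N - j₀))) <
        secRk (Θ i * E) (LinearMap.ker (Θ y₀ ^ j₀)) ((⊤ : Submodule k V).map (Θ y₀ ^ (N - j₀))) := by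
  classical
  have hfinE : Finite (Module.End k V) := Module.finite_of_finite k
  set y := Θ y₀ with hy
  have hyN : y ^ N = 0 := by
    rw [hy, ← map_pow, D.hyN, map_zero]
  have hyc : ∀ r, Commute y (Θ r) := by
    intro r
    show Θ y₀ * Θ r = Θ r * Θ y₀
    rw [← map_mul, ← map_mul, D.hyc]
  have hie : i * e = i := by rw [← D.hec, hC.hei]
  set K := LinearMap.ker (y ^ j₀) with hK
  set T₀ := (⊤ : Submodule k V).map (y ^ (N - j₀)) with hT₀
  have hN : 0 < N := by omega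
  have hn : (n : ℤ) ≠ 0 := by
    rintro h
    have hn0 : n = 0 := by exact_mod_cast h
    subst hn0
    apply D.e_ne_zero
    rw [← hC.hsum]
    simp
  have hiidem : IsIdempotentElem (Θ i) := by
    show Θ i * Θ i = Θ i
    rw [← map_mul, hC.hii]
  have hit : Commute (Θ i) (ρ t) := by
    have h3 := hρσ i
    rw [hσi] at h3
    exact h3.symm
  have hEprops : ∀ E : Module.End k V, IsIdempotentElem E → (∀ g, Commute E (ρ g)) →
      IsIdempotentElem (Θ i * E) ∧ Commute (Θ i * E) y ∧ Commute (Θ i * E) (ρ t) ∧ Θ i * (Θ i * E) = Θ i * E ∧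
        (Θ i * E) * Θ i = Θ i * E := by
    intro E h1 h2
    have hEr := hΘ E h2
    refine ⟨IsIdempotentElem.mul_of_commute (hEr i).symm hiidem h1, ((hyc i).symm).mul_left (hEr y₀), hit.mul_left (h2 t), ?_, ?_⟩
    · rw [← mul_assoc, hiidem.eq]
    · rw [mul_assoc, (hEr i).eq, ← mul_assoc, hiidem.eq]
  obtain ⟨hπ, hπy, hπt, hπl, hπr⟩ := hEprops E hE1 hE2
  set π := Θ i * E with hπdef
  have hρto : ρ t ^ o = 1 := by rw [← map_pow, hto, map_one]
  obtain ⟨π₁, h1, h2, h3, h4, h5, h6, h7⟩ := exists_split p ho hρto hζ ho0 hg0 hty hyN (rk π ⊤) π le_rfl hπ hπy hπt hτ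
  have hl : Θ i * π₁ = π₁ := by
    rw [← h4, ← mul_assoc, hπl]
  have hr : π₁ * Θ i = π₁ := by
    rw [← h5, mul_assoc, hπr]
  set E₁ := liftC Θ c d π₁ with hE₁
  have hE₁idem : E₁ * E₁ = E₁ := liftC_idem hC h1 hr
  have hE₁Θ : ∀ r, Commute E₁ (Θ r) := fun r => (liftC_comm D hC h2 hl hr r).symm
  have hE₁e : Θ e * E₁ = E₁ := liftC_e D hC
  have hE₁e' : E₁ * Θ e = E₁ := by rw [(hE₁Θ e).eq, hE₁e]
  have hE₁t : Commute E₁ (ρ t) := by
    have h8 : ρ t * E₁ = liftC Θ (fun j => σ (c j)) (fun j => σ (d j)) π₁ * ρ t := by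
      simp only [hE₁, liftC, Finset.mul_sum, Finset.sum_mul]
      refine Finset.sum_congr rfl fun j _ => ?_
      calc ρ t * (Θ (c j) * π₁ * Θ (d j)) = (ρ t * Θ (c j)) * π₁ * Θ (d j) := by simp only [mul_assoc]
        _ = Θ (σ (c j)) * (ρ t * π₁) * Θ (d j) := by rw [hρσ]; simp only [mul_assoc]
        _ = Θ (σ (c j)) * π₁ * (ρ t * Θ (d j)) := by rw [← h3.eq]; simp only [mul_assoc]
        _ = _ := by rw [hρσ]; simp only [mul_assoc]
    have h9 : liftC Θ (fun j => σ (c j)) (fun j => σ (d j)) π₁ = E₁ := by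
      refine liftC_indep D hC h2 hl hr ?_ ?_ ?_
      · intro j
        rw [← hσe, ← map_mul, hC.hec]
      · intro j
        rw [← hσi, ← map_mul, hC.hci]
      · have h10 : ∑ j, σ (c j) * σ (d j) = σ (∑ j, c j * d j) := by
          rw [map_sum]
          simp only [map_mul]
        rw [h10, hC.hsum, hσe]
    rw [h9] at h8
    exact h8.symm
  have hE₁T := hTf E₁ hE₁Θ hE₁t
  set F := relTrace ρ Tf E₁ with hF
  have hFc : ∀ g, Commute F (ρ g) := relTrace_commute ρ Tf hE₁T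
  have hFΘ := hΘ F hFc
  have hyeq : Θ e * y = y := by
    rw [hy, ← map_mul, D.hey]
  have hemem : ∀ v, Θ e (Θ e v) = Θ e v := by
    intro v
    have : Θ e * Θ e = Θ e := by rw [← map_mul, D.hee]
    exact congrArg (fun f : Module.End k V => f v) this
  have hT₀e : ∀ u ∈ T₀, Θ e u = u := by
    rintro _ ⟨x, -, rfl⟩
    have hm : N - j₀ = (N - j₀ - 1) + 1 := by omega
    have h8 : Θ e * y ^ (N - j₀) = y ^ (N - j₀) := by
      rw [hm, pow_succ', ← mul_assoc, hyeq]
    exact congrArg (fun f : Module.End k V => f x) h8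
  have hT₀K : ∀ u ∈ T₀, (y ^ j₀) u = 0 := by
    rintro _ ⟨x, -, rfl⟩
    rw [← Module.End.mul_apply, ← pow_add, Nat.add_sub_cancel' hj.le, hyN]
    rfl
  let S : Submodule k V := K ⊓ LinearMap.ker (1 - Θ e)
  have hSmem : ∀ v, v ∈ S ↔ (y ^ j₀) v = 0 ∧ Θ e v = v := by
    intro v
    constructor
    · rintro ⟨h8, h9⟩
      refine ⟨h8, ?_⟩
      have h10 : (1 - Θ e) v = 0 := h9
      rw [LinearMap.sub_apply, sub_eq_zero] at h10
      exact h10.symm
    · rintro ⟨h8, h9⟩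
      refine ⟨h8, ?_⟩
      show (1 - Θ e) v = 0
      rw [LinearMap.sub_apply, h9]
      simp
  have hT₀S : T₀ ≤ S := fun u hu => (hSmem u).mpr ⟨hT₀K u hu, hT₀e u hu⟩
  have hcomy : ∀ {a : Module.End k V}, (∀ r, Commute a (Θ r)) → Commute a y := fun h => h y₀
  have hcompow : ∀ {a : Module.End k V}, (∀ r, Commute a (Θ r)) → ∀ m, Commute a (y ^ m) := fun h m => (h y₀).pow_right m
  have hSstable : ∀ {a : Module.End k V}, (∀ r, Commute a (Θ r)) → ∀ v ∈ S, a v ∈ S := by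
    intro a ha v hv
    obtain ⟨h8, h9⟩ := (hSmem v).mp hv
    refine (hSmem _).mpr ⟨?_, ?_⟩
    · have := congrArg (fun f : Module.End k V => f v) (hcompow ha j₀).eq
      simp only [Module.End.mul_apply, h8, map_zero] at this
      exact this.symm
    · have := congrArg (fun f : Module.End k V => f v) (ha e).eq
      simp only [Module.End.mul_apply, h9] at this
      exact this.symm
  have hT₀stable : ∀ {a : Module.End k V}, (∀ r, Commute a (Θ r)) → T₀.map a ≤ T₀ := fun ha =>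
    stable_top_map (hcompow ha _)
  have hMack : ∀ v ∈ S, F v - E₁ v ∈ T₀ := by
    intro v hv
    obtain ⟨h8, h9⟩ := (hSmem v).mp hv
    exact hM E₁ hE₁T hE₁e v h9 h8
  have hE₁idemv : ∀ v, E₁ (E₁ v) = E₁ v := fun v => congrArg (fun f : Module.End k V => f v) hE₁idem
  let Z : Submodule k V := S.map E₁ ⊔ T₀
  have hZS : Z ≤ S := by
    refine sup_le ?_ hT₀S
    rintro _ ⟨v, hv, rfl⟩
    exact hSstable hE₁Θ v hv
  have hTZ : T₀ ≤ Z := le_sup_right
  have hFT : T₀.map F ≤ T₀ := hT₀stable hFΘ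
  have hFS : ∀ u ∈ S, F u ∈ Z := by
    intro u hu
    have h8 : F u = E₁ u + (F u - E₁ u) := by abel
    rw [h8]
    exact Z.add_mem (Submodule.mem_sup_left ⟨u, hu, rfl⟩) (hTZ (hMack u hu))
  have hFZ : ∀ z ∈ Z, F z - (1 : k) • z ∈ T₀ := by
    intro z hz
    obtain ⟨_, ⟨v, hv, rfl⟩, t', ht', rfl⟩ := Submodule.mem_sup.mp hz
    have h8 : F (E₁ v + t') - (1 : k) • (E₁ v + t') = (F (E₁ v) - E₁ (E₁ v)) + F t' - t' := by
      rw [map_add, hE₁idemv, one_smul]
      abel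
    rw [h8]
    exact T₀.sub_mem (T₀.add_mem (hMack _ (hSstable hE₁Θ v hv)) (hFT ⟨t', ht', rfl⟩)) ht'
  have hE₁Z : ∀ z ∈ Z, E₁ z - (1 : k) • z ∈ T₀ := by
    intro z hz
    obtain ⟨_, ⟨v, hv, rfl⟩, t', ht', rfl⟩ := Submodule.mem_sup.mp hz
    have h8 : E₁ (E₁ v + t') - (1 : k) • (E₁ v + t') = E₁ t' - t' := by
      rw [map_add, hE₁idemv, one_smul]
      abel
    rw [h8]
    exact T₀.sub_mem (hT₀stable hE₁Θ ⟨t', ht', rfl⟩) ht'
  obtain ⟨M, hM'⟩ := exists_idem_pow F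
  have hE'c : ∀ g, Commute (F ^ (M + 1)) (ρ g) := fun g => (hFc g).pow_left _
  have hE'Θ := hΘ _ hE'c
  obtain ⟨hit1, hit2⟩ := iter_section hFT hZS hFS hFZ M
  rw [one_pow] at hit2
  have hA := rk_add_of_sub hM' (hT₀stable hE'Θ) hTZ hZS (by
    rintro _ ⟨u, hu, rfl⟩
    exact hit1 u hu) (one_ne_zero) hit2
  have hB := rk_add_of_sub (π := E₁) hE₁idem (hT₀stable hE₁Θ) hTZ hZS (by
    rintro _ ⟨u, hu, rfl⟩
    exact Submodule.mem_sup_left ⟨u, hu, rfl⟩) (one_ne_zero) hE₁Z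
  have hrkE₁K : rk E₁ K = rk E₁ S := by
    unfold rk
    refine congrArg (fun X : Submodule k V => finrank k X) ?_
    apply le_antisymm
    · rintro _ ⟨v, hv, rfl⟩
      refine ⟨Θ e v, (hSmem _).mpr ⟨?_, hemem v⟩, ?_⟩
      · have := congrArg (fun f : Module.End k V => f v) ((hyc e).pow_left j₀).eq
        simp only [Module.End.mul_apply] at this
        have hv' : (y ^ j₀) v = 0 := hv
        rw [this, hv', map_zero]
      · exact congrArg (fun f : Module.End k V => f v) hE₁e'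
    · exact Submodule.map_mono inf_le_left
  have hstabK : ∀ r, K.map (Θ r) ≤ K := fun r => stable_ker_map ((hyc r).symm.pow_right j₀)
  have hstabT : ∀ r, T₀.map (Θ r) ≤ T₀ := fun r => stable_top_map ((hyc r).symm.pow_right _)
  have hsec1 : secRk E₁ K T₀ = n * secRk π₁ K T₀ := secRk_liftC D hC h2 hl hr K T₀ hstabK hstabT
  obtain ⟨hπ', hπ'y, hπ't, hπ'l, hπ'r⟩ := hEprops _ hM' hE'c
  have hsec2 : secRk (liftC Θ c d (Θ i * F ^ (M + 1))) K T₀ = n * secRk (Θ i * F ^ (M + 1)) K T₀ :=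
    secRk_liftC D hC hπ'y hπ'l hπ'r K T₀ hstabK hstabT
  rw [liftC_eq_sum_of_idem hC hE'Θ] at hsec2
  have hrke1 : rk (Θ e * F ^ (M + 1)) K = rk (F ^ (M + 1)) S := by
    unfold rk
    refine congrArg (fun X : Submodule k V => finrank k X) ?_
    apply le_antisymm
    · rintro _ ⟨v, hv, rfl⟩
      refine ⟨Θ e v, (hSmem _).mpr ⟨?_, hemem v⟩, ?_⟩
      · have := congrArg (fun f : Module.End k V => f v) ((hyc e).pow_left j₀).eq
        simp only [Module.End.mul_apply] at this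
        have hv' : (y ^ j₀) v = 0 := hv
        rw [this, hv', map_zero]
      · exact congrArg (fun f : Module.End k V => f v) (hE'Θ e).eq
    · rintro _ ⟨v, hv, rfl⟩
      obtain ⟨h8, h9⟩ := (hSmem v).mp hv
      refine ⟨v, h8, ?_⟩
      have := congrArg (fun f : Module.End k V => f v) (hE'Θ e).eq
      simp only [Module.End.mul_apply, h9] at this
      exact this.symm
  have hrke2 : rk (Θ e * F ^ (M + 1)) T₀ = rk (F ^ (M + 1)) T₀ := by
    unfold rk
    refine congrArg (fun X : Submodule k V => finrank k X) ?_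
    ext u
    constructor
    · rintro ⟨v, hv, rfl⟩
      refine ⟨v, hv, ?_⟩
      have := congrArg (fun f : Module.End k V => f v) (hE'Θ e).eq
      simp only [Module.End.mul_apply, hT₀e v hv] at this
      exact this
    · rintro ⟨v, hv, rfl⟩
      refine ⟨v, hv, ?_⟩
      have := congrArg (fun f : Module.End k V => f v) (hE'Θ e).eq
      simp only [Module.End.mul_apply, hT₀e v hv] at this
      exact this.symm
  have hkey : (n : ℤ) * secRk (Θ i * F ^ (M + 1)) K T₀ = n * secRk π₁ K T₀ := by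
    rw [← hsec1, ← hsec2]
    unfold secRk
    rw [hrke1, hrke2, hrkE₁K]
    have hA' : (rk (F ^ (M + 1)) S : ℤ) + finrank k T₀ = rk (F ^ (M + 1)) T₀ + finrank k Z := by exact_mod_cast hA
    have hB' : (rk E₁ S : ℤ) + finrank k T₀ = rk E₁ T₀ + finrank k Z := by exact_mod_cast hB
    linarith
  have hkey' := mul_left_cancel₀ hn hkey
  have hpos1 : 0 < secRk π₁ K T₀ := secRk_pos_of h1 h2 hyN (by linarith) hj0 hj
  have hπ₂ : IsIdempotentElem (π - π₁) := by
    show (π - π₁) * (π - π₁) = π - π₁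
    rw [mul_sub, sub_mul, sub_mul, hπ.eq, h4, h5, h1.eq]
    abel
  have hπ₂y : Commute (π - π₁) y := hπy.sub_left h2
  have hpos2 : 0 < secRk (π - π₁) K T₀ := secRk_pos_of hπ₂ hπ₂y hyN (by linarith) hj0 hj
  have hadd : secRk π K T₀ = secRk π₁ K T₀ + secRk (π - π₁) K T₀ := by
    have h8 : π = π₁ + (π - π₁) := by abel
    conv_lhs => rw [h8]
    refine secRk_add h1 hπ₂ ?_ ?_ (stable_ker_map (h2.pow_right _)) (stable_ker_map (hπ₂y.pow_right _))
      (stable_top_map (h2.pow_right _)) (stable_top_map (hπ₂y.pow_right _))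
    · rw [mul_sub, h5, h1.eq, sub_self]
    · rw [sub_mul, h4, h1.eq, sub_self]
  refine ⟨F ^ (M + 1), hM', hE'c, ?_, ?_⟩
  · rw [hkey']
    exact hpos1
  · rw [hkey', hadd]
    linarith

theorem exists_min_idem [Nontrivial V] (D : CenData lam e y₀ N) (hC : Corner (k := k) e y₀ i c d)
    (Θ : R →ₐ[k] Module.End k V) (ρ : G →* Module.End k V)
    (hΘ : ∀ F : Module.End k V, (∀ g, Commute F (ρ g)) → ∀ r, Commute F (Θ r))
    (t : G) (σ : R ≃ₐ[k] R) (hσe : σ e = e) (hσi : σ i = i) (hρσ : ∀ r, ρ t * Θ r = Θ (σ r) * ρ t)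
    {o : ℕ} (ho : 0 < o) (hto : t ^ o = 1) {ζ : k} (hζ : IsPrimitiveRoot ζ o) (ho0 : (o : k) ≠ 0)
    (p : ℕ) [hp : Fact p.Prime] [CharP k p] {g : k[X]} (hg0 : g.coeff 0 = 0)
    (hty : ρ t * Θ y₀ = aeval (Θ y₀) g * ρ t)
    (Tf : Subgroup G) [Fintype (G ⧸ Tf)]
    (hTf : ∀ E₁ : Module.End k V, (∀ r, Commute E₁ (Θ r)) → Commute E₁ (ρ t) → ∀ x ∈ Tf, Commute E₁ (ρ x))
    {j₀ : ℕ} (hj0 : 0 < j₀) (hj : j₀ < N)
    (hM : ∀ E₁ : Module.End k V, (∀ x ∈ Tf, Commute E₁ (ρ x)) → Θ e * E₁ = E₁ → ∀ v, Θ e v = v → (Θ y₀ ^ j₀) v = 0 →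
      relTrace ρ Tf E₁ v - E₁ v ∈ (⊤ : Submodule k V).map (Θ y₀ ^ (N - j₀))) :
    ∃ E : Module.End k V, IsIdempotentElem E ∧ (∀ g, Commute E (ρ g)) ∧ E ≠ 0 ∧
      secRk (Θ i * E) (LinearMap.ker (Θ y₀)) ((⊤ : Submodule k V).map (Θ y₀ ^ (N - 1))) ≤ 1 := by
  classical
  set y := Θ y₀ with hy
  set K := LinearMap.ker (y ^ j₀) with hK
  set T₀ := (⊤ : Submodule k V).map (y ^ (N - j₀)) with hT₀
  have hsmaller := exists_smaller_idem (G := G) D hC Θ ρ hΘ t σ hσe hσi hρσ ho hto hζ ho0 p hg0 hty Tf hTf hj0 hj hM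
  let h : Module.End k V → ℤ := fun E => secRk (Θ i * E) K T₀
  by_cases hex : ∃ E : Module.End k V, IsIdempotentElem E ∧ (∀ g, Commute E (ρ g)) ∧ 0 < h E
  · have hex' : ∃ m : ℕ, ∃ E : Module.End k V, IsIdempotentElem E ∧ (∀ g, Commute E (ρ g)) ∧ 0 < h E ∧ h E = m := by
      obtain ⟨E, h1, h2, h3⟩ := hex
      exact ⟨(h E).toNat, E, h1, h2, h3, (Int.toNat_of_nonneg h3.le).symm⟩
    obtain ⟨E, h1, h2, h3, h4⟩ := Nat.find_spec hex'
    refine ⟨E, h1, h2, ?_, ?_⟩
    · rintro rfl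
      have h5 : h 0 = 0 := by
        show secRk (Θ i * 0) K T₀ = 0
        rw [mul_zero]
        unfold secRk rk
        rw [Submodule.map_zero, Submodule.map_zero]
        simp
      rw [h5] at h3
      exact lt_irrefl _ h3
    · by_contra hcon
      have h5 : 2 ≤ secRk (Θ i * E) (LinearMap.ker y) ((⊤ : Submodule k V).map (y ^ (N - 1))) := by omega
      obtain ⟨E', h6, h7, h8, h9⟩ := hsmaller E h1 h2 h5
      have h10 : (h E').toNat < Nat.find hex' := by
        have h11 : h E' < h E := h9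
        rw [h4] at h11
        have h12 : 0 < h E' := h8
        omega
      exact Nat.find_min hex' h10 ⟨E', h6, h7, h8, (Int.toNat_of_nonneg h8.le).symm⟩
  · refine ⟨1, IsIdempotentElem.one, fun g => Commute.one_left _, one_ne_zero, ?_⟩
    by_contra hcon
    have h5 : 2 ≤ secRk (Θ i * 1) (LinearMap.ker y) ((⊤ : Submodule k V).map (y ^ (N - 1))) := by omega
    apply hex
    refine ⟨1, IsIdempotentElem.one, fun g => Commute.one_left _, ?_⟩
    have hyN : y ^ N = 0 := by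
      rw [hy, ← map_pow, D.hyN, map_zero]
    have hiidem : IsIdempotentElem (Θ i * 1) := by
      show Θ i * 1 * (Θ i * 1) = Θ i * 1
      rw [mul_one, ← map_mul, hC.hii]
    have hiy : Commute (Θ i * 1) y := by
      show Θ i * 1 * Θ y₀ = Θ y₀ * (Θ i * 1)
      rw [mul_one, ← map_mul, ← map_mul, D.hyc]
    exact secRk_pos_of hiidem hiy hyN (by omega) hj0 hj

end MinIdem


section MackeySection

variable {G : Type*} [Group G] [Fintype G] [DecidableEq G] {k V : Type*} [Field k] [AddCommGroup V] [Module k V]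

theorem mackey_section (ρ : G →* Module.End k V) (Tf : Subgroup G) [Fintype (G ⧸ Tf)] (eb E₁ : Module.End k V)
    (hE₁T : ∀ x ∈ Tf, Commute E₁ (ρ x)) (hE₁e : eb * E₁ = E₁) (hE₁e' : E₁ * eb = E₁)
    (hebF : Commute (relTrace ρ Tf E₁) eb) (hebT : ∀ x ∈ Tf, Commute eb (ρ x)) (hee : eb * eb = eb)
    (z : G) {p : ℕ} [hp : Fact p.Prime] (hz : orderOf z = p) (hzT : z ∈ Tf)
    (T₀ : Submodule k V) (hT₀ : ∀ w, eb w = w → nrm (ρ z) p w ∈ T₀)
    (horth : ∀ c, c ∉ Tf → c ∈ Subgroup.normalizer ((Subgroup.zpowers z : Subgroup G) : Set G) → eb * ρ c * eb = 0)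
    (hvan : ∀ c, c⁻¹ * z * c ∈ Tf → c ∉ Subgroup.normalizer ((Subgroup.zpowers z : Subgroup G) : Set G) →
      ∀ w, eb w = w → ρ (c⁻¹ * z * c) w = w → ∃ w', eb w' = w' ∧ w = nrm (ρ (c⁻¹ * z * c)) p w')
    (v : V) (hve : eb v = v) (hvz : ρ z v = v) : relTrace ρ Tf E₁ v - E₁ v ∈ T₀ := by
  classical
  let Q := G ⧸ Tf
  let Φ : Q → V := fun c => eb (conjOp ρ E₁ (Quotient.out c) v)
  have heeA : ∀ u, eb (eb u) = eb u := fun u => congrArg (fun f : Module.End k V => f u) hee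
  have h1 : relTrace ρ Tf E₁ v = ∑ c : Q, Φ c := by
    have h2 := congrArg (fun f : Module.End k V => f v) hebF.eq
    simp only [Module.End.mul_apply, hve] at h2
    rw [h2]
    unfold relTrace
    rw [LinearMap.sum_apply, map_sum]
  let c₀ : Q := ((1 : G) : Q)
  have hΦ₀ : Φ c₀ = E₁ v := by
    show eb (conjOp ρ E₁ (Quotient.out c₀) v) = E₁ v
    rw [show c₀ = ((1 : G) : G ⧸ Tf) from rfl, conjOp_out ρ Tf hE₁T]
    have h2 : conjOp ρ E₁ 1 = E₁ := by
      unfold conjOp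
      simp
    rw [h2]
    exact congrArg (fun f : Module.End k V => f v) hE₁e
  let Fx : Finset Q := (Finset.univ.filter fun c : Q => z • c = c).erase c₀
  let Fr : Finset Q := Finset.univ.filter fun c : Q => ¬ z • c = c
  have hsplit : ∑ c : Q, Φ c = Φ c₀ + ∑ c ∈ Fx, Φ c + ∑ c ∈ Fr, Φ c := by
    have hz₀ : z • c₀ = c₀ := by
      show ((z * 1 : G) : G ⧸ Tf) = ((1 : G) : G ⧸ Tf)
      rw [QuotientGroup.eq]
      simpa using hzT
    have h2 := Finset.add_sum_erase (Finset.univ.filter fun c : Q => z • c = c) Φ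
      (Finset.mem_filter.mpr ⟨Finset.mem_univ c₀, hz₀⟩)
    rw [← Finset.sum_filter_add_sum_filter_not Finset.univ (fun c : Q => z • c = c), ← h2]
  have hzz : ∀ j : ℕ, ρ (z ^ j) v = v := by
    intro j
    induction j with
    | zero => simp
    | succ j ih =>
      rw [pow_succ, map_mul, Module.End.mul_apply, hvz, ih]
  have hqv : ∀ q ∈ Subgroup.zpowers z, ρ q v = v := by
    intro q hq
    obtain ⟨n, hn⟩ := mem_powers_iff_mem_zpowers.mpr hq
    rw [← hn]
    exact hzz n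
  have hqT : ∀ q ∈ Subgroup.zpowers z, q ∈ Tf := fun q hq => (Subgroup.zpowers_le.mpr hzT) hq
  have hFx : ∑ c ∈ Fx, Φ c ∈ T₀ := by
    refine Submodule.sum_mem _ fun c hc => ?_
    obtain ⟨hcne, hc'⟩ := Finset.mem_erase.mp hc
    have hcfix : z • c = c := (Finset.mem_filter.mp hc').2
    set x := Quotient.out c with hx
    have hcx : ((x : G) : G ⧸ Tf) = c := QuotientGroup.out_eq' c
    have hz' : x⁻¹ * z * x ∈ Tf := by
      have h2 : ((z * x : G) : G ⧸ Tf) = ((x : G) : G ⧸ Tf) := by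
        have h3 : z • ((x : G) : G ⧸ Tf) = ((z * x : G) : G ⧸ Tf) := rfl
        rw [← h3, hcx, hcfix]
      have h4 := QuotientGroup.eq.mp h2
      have h5 : (z * x)⁻¹ * x = (x⁻¹ * z * x)⁻¹ := by group
      rw [h5] at h4
      exact Tf.inv_mem_iff.mp h4
    have hxT : x ∉ Tf := by
      intro hxT
      apply hcne
      rw [← hcx]
      show ((x : G) : G ⧸ Tf) = ((1 : G) : G ⧸ Tf)
      rw [QuotientGroup.eq]
      simpa using Tf.inv_mem hxT
    show eb (conjOp ρ E₁ x v) ∈ T₀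
    unfold conjOp
    by_cases hxN : x ∈ Subgroup.normalizer ((Subgroup.zpowers z : Subgroup G) : Set G)
    · have h2 := horth x hxT hxN
      have h3 : eb ((ρ x * E₁ * ρ x⁻¹) v) = (eb * ρ x * eb) (E₁ (ρ x⁻¹ v)) := by
        simp only [Module.End.mul_apply]
        rw [← Module.End.mul_apply eb E₁, hE₁e]
      rw [h3, h2]
      exact T₀.zero_mem
    · set z' := x⁻¹ * z * x with hz'def
      set w₁ := eb (ρ x⁻¹ v) with hw₁
      have hz'w : ρ z' (ρ x⁻¹ v) = ρ x⁻¹ v := by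
        rw [← Module.End.mul_apply, ← map_mul]
        have h2 : z' * x⁻¹ = x⁻¹ * z := by
          rw [hz'def]
          group
        rw [h2, map_mul, Module.End.mul_apply, hvz]
      have h2 : ρ z' w₁ = w₁ := by
        rw [hw₁, ← Module.End.mul_apply, ← (hebT z' hz').eq, Module.End.mul_apply, hz'w]
      obtain ⟨w', hw'e, hw'⟩ := hvan x hz' hxN w₁ (heeA _) h2
      have h3 : E₁ (ρ x⁻¹ v) = nrm (ρ z') p (E₁ w') := by
        have h4 : E₁ (ρ x⁻¹ v) = E₁ w₁ := by
          rw [hw₁, ← Module.End.mul_apply E₁ eb, hE₁e']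
        rw [h4, hw', ← Module.End.mul_apply, ← Module.End.mul_apply]
        exact congrArg (fun f : Module.End k V => f w') (commute_nrm_of_commute (hE₁T z' hz')).eq
      have h5 : SemiconjBy (ρ x) (ρ z') (ρ z) := by
        show ρ x * ρ z' = ρ z * ρ x
        rw [← map_mul, ← map_mul, hz'def]
        congr 1
        group
      have h6 : ρ x * nrm (ρ z') p = nrm (ρ z) p * ρ x := by
        unfold nrm
        rw [Finset.mul_sum, Finset.sum_mul]
        exact Finset.sum_congr rfl fun i _ => (h5.pow_right i).eq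
      have h7 : eb ((ρ x * E₁ * ρ x⁻¹) v) = nrm (ρ z) p (eb (ρ x (E₁ w'))) := by
        simp only [Module.End.mul_apply]
        rw [h3, ← Module.End.mul_apply (ρ x), h6, Module.End.mul_apply, ← Module.End.mul_apply eb,
          ← Module.End.mul_apply (nrm (ρ z) p) eb]
        exact congrArg (fun f : Module.End k V => f (ρ x (E₁ w'))) (commute_nrm_of_commute (hebT z hzT)).eq
      rw [h7]
      exact hT₀ _ (heeA _)
  have hFr : ∑ c ∈ Fr, Φ c ∈ T₀ := by
    let Pz := Subgroup.zpowers z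
    have : Fintype Pz := Fintype.ofFinite _
    have hzmem : z ∈ Pz := Subgroup.mem_zpowers z
    have hmem := sum_mem_of_free_finset (P := Pz) (S := Q) T₀.toAddSubgroup Φ Fr ?_ ?_ ?_
    · exact hmem
    · intro s hs q
      have hs' : ¬ z • s = s := (Finset.mem_filter.mp hs).2
      refine Finset.mem_filter.mpr ⟨Finset.mem_univ _, fun h2 => hs' ?_⟩
      obtain ⟨n, hn⟩ := mem_powers_iff_mem_zpowers.mpr q.2
      have hcomm : z * (q : G) = (q : G) * z := by
        rw [← hn]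
        exact (Commute.refl z).pow_right n
      have h3 : (q : G) • (z • s) = (q : G) • s := by
        rw [← mul_smul, ← hcomm, mul_smul]
        exact h2
      exact smul_left_cancel _ h3
    · intro s hs q hq
      have hs' : ¬ z • s = s := (Finset.mem_filter.mp hs).2
      by_contra hne
      apply hs'
      have hcard : Nat.card Pz = p := by rw [Nat.card_zpowers, hz]
      have : Fact (Nat.card Pz).Prime := ⟨by rw [hcard]; exact hp.out⟩
      have hzq : Subgroup.zpowers q = ⊤ := by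
        rcases Subgroup.eq_bot_or_eq_top_of_prime_card (Subgroup.zpowers q) with h | h
        · exact absurd (Subgroup.zpowers_eq_bot.mp h) hne
        · exact h
      have h2 : q ∈ MulAction.stabilizer Pz s := hq
      have h3 : Subgroup.zpowers q ≤ MulAction.stabilizer Pz s := Subgroup.zpowers_le.mpr h2
      rw [hzq] at h3
      have h4 : (⟨z, hzmem⟩ : Pz) ∈ MulAction.stabilizer Pz s := h3 trivial
      exact h4
    · intro s hs
      have h2 : ∀ q : Pz, Φ (q • s) = ρ (q : G) (Φ s) := by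
        intro q
        have h3 : q • s = (((q : G) * Quotient.out s : G) : G ⧸ Tf) := by
          conv_lhs => rw [← QuotientGroup.out_eq' s]
          rfl
        show eb (conjOp ρ E₁ (Quotient.out (q • s)) v) = _
        rw [h3, conjOp_out ρ Tf hE₁T]
        have h4 := conjOp_conj ρ E₁ (q : G) (Quotient.out s)
        have h5 : conjOp ρ E₁ ((q : G) * Quotient.out s) =
            ρ (q : G) * conjOp ρ E₁ (Quotient.out s) * ρ (q : G)⁻¹ := by
          rw [h4, mul_assoc, ← map_mul, mul_inv_cancel, map_one, mul_one]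
        rw [h5]
        simp only [Module.End.mul_apply]
        rw [hqv _ (Subgroup.inv_mem _ q.2), ← Module.End.mul_apply eb, (hebT _ (hqT _ q.2)).eq]
        rfl
      simp only [h2]
      have h3 : ∑ q : Pz, ρ (q : G) (Φ s) = nrm (ρ z) p (Φ s) := by
        rw [sum_zpowers_eq z (fun g => ρ g (Φ s)), hz]
        unfold nrm
        rw [LinearMap.sum_apply]
        refine Finset.sum_congr rfl fun i _ => ?_
        rw [map_pow]
      rw [h3]
      exact hT₀ _ (heeA _)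
  rw [h1, hsplit, hΦ₀]
  have h2 : E₁ v + ∑ c ∈ Fx, Φ c + ∑ c ∈ Fr, Φ c - E₁ v = ∑ c ∈ Fx, Φ c + ∑ c ∈ Fr, Φ c := by abel
  rw [h2]
  exact T₀.add_mem hFx hFr

end MackeySection

end Cfsg.Agent.Lib.FF
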