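import Cfsg.Agent.Lib.FF.CycG6

/-!
# Blocks with cyclic defect group: the main theorem
-/

set_option autoImplicit false
set_option linter.unusedSectionVars false
set_option linter.unusedVariables false
set_option maxSynthPendingDepth 3
set_option linter.style.haveILetI false
set_option linter.unusedSimpArgs false
set_option linter.unnecessarySimpa false

open scoped ComplexConjugate
open Module Cfsg Cfsg.Agent.Lib.Block Cfsg.Agent.Lib.Char Cfsg.Agent.Lib.CharExtra Cfsg.Agent.Lib.BPair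

namespace Cfsg.Agent.Lib.FF

attribute [local instance] Cfsg.Agent.Lib.BPair.subFintype

section G7

variable {G : Type*} [Group G] [Fintype G] {p : ℕ} [hp : Fact p.Prime] {M : Ideal AlgInt}

theorem stab_form (hM : IsPModular p M) {D : Subgroup G} {b : Set (IrrCharacter (Cen D))} (hb : IsPBlock M b) {g : G}
    (hg : g ∈ Subgroup.normalizer (D : Set G)) :
    (∀ θ ∈ b, ∀ θ' : IrrCharacter (Cen D), (∀ h h' : Cen D, (h' : G) = g * h * g⁻¹ → (θ' : Cen D → ℂ) h' = (θ : Cen D → ℂ) h) → θ' ∈ b) ↔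
      StabilizesBlock (Cen D) b g := by
  have := isPModular_isPrime hM
  have hg' := normalizer_le_normalizer_cen hg
  constructor
  · intro h
    exact ⟨hg', fun χ hχ => ⟨mapIrr (nConj hg') χ, h χ hχ _ (isConjCharOf_mapIrr hg' χ), isConjCharOf_mapIrr hg' χ⟩⟩
  · intro h θ hθ θ' hθ'
    obtain ⟨hx, h1⟩ := (stabilizes_iff hb).1 h
    have h2 := eq_mapIrr_of_isConjCharOf hx hθ'
    rw [h2, ← h1]
    exact mapIrr_mem_mapBlock.2 hθ

/-- The main theorem on blocks with cyclic defect group. -/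
theorem cyc_main (hM : IsPModular p M) {B : Set (IrrCharacter G)} (hB : IsPBlock M B) {D : Subgroup G} (hcyc : IsCyclic D)
    {n : ℕ} (hDa : Nat.card D = p ^ (n + 1)) (hBD : IsDefectGroup p M B D) {b : Set (IrrCharacter (Cen D))}
    (hind : IsInducedBlock M (Cen D) b B) {T : Subgroup G}
    (hT : ∀ g, g ∈ T ↔ g ∈ Subgroup.normalizer (D : Set G) ∧ StabilizesBlock (Cen D) b g) {e : ℕ}
    (he : (Cen D).relIndex T = e) :
    e ∣ p - 1 ∧ (∀ χ ∈ B, blockHeight p B (χ : G → ℂ) = 0) ∧ blockRank p B = e ∧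
    ∃ X Y : Set (IrrCharacter G), B = X ∪ Y ∧ Disjoint X Y ∧ Nat.card X = e ∧ Nat.card Y = (p ^ (n + 1) - 1) / e ∧
      (∀ ψ ∈ Y, ∀ ψ' ∈ Y, ∀ g : G, ¬ p ∣ orderOf g → (ψ : G → ℂ) g = (ψ' : G → ℂ) g) ∧
      ∃ (δ : IrrCharacter G → ℤ) (δ₀ : ℤ), (∀ χ ∈ X, δ χ = 1 ∨ δ χ = -1) ∧ (δ₀ = 1 ∨ δ₀ = -1) ∧
        (∀ ψ ∈ Y, ∀ g : G, ¬ p ∣ orderOf g → (δ₀ : ℂ) * (ψ : G → ℂ) g + ∑ᶠ χ ∈ X, (δ χ : ℂ) * (χ : G → ℂ) g = 0) ∧
        (∀ χ ∈ X, ∀ χ' ∈ X, δ χ * (charDegree (χ : G → ℂ) : ℤ) ≡ δ χ' * (charDegree (χ' : G → ℂ) : ℤ) [ZMOD (p : ℤ) ^ (n + 1)]) ∧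
        (∀ ψ ∈ Y, ∀ χ ∈ X, (charDegree (ψ : G → ℂ) : ℤ) ≡ -((e : ℤ) * δ₀ * δ χ * (charDegree (χ : G → ℂ) : ℤ)) [ZMOD (p : ℤ) ^ (n + 1)]) := by
  obtain ⟨L, xh, f, e', φ, ε, u, ξ₀, D', A, B', Tp, C⟩ := exists_cycG hM hB hcyc hDa hBD hind hT he
  exact C.main

end G7

end Cfsg.Agent.Lib.FF
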