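import Cfsg.Agent.Lib.FF.GenKey

/-!
# The key theorem with the invariant subspace obtained from a `p'`-complement
-/

set_option autoImplicit false
set_option linter.unusedSectionVars false
set_option linter.unusedVariables false
set_option maxSynthPendingDepth 3

namespace Cfsg.Agent.Lib.FF

open Module Polynomial Cfsg Cfsg.Agent.Lib.Block

universe u

section GK2

variable {G : Type u} [Group G] [Fintype G]
variable {O : Subring ℂ} {x : G} {T : Subgroup G} {p : ℕ} {e₁ : MonoidAlgebra ℂ G}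
variable {M : Ideal AlgInt}

theorem incl_eq_sum_single (Γ : Subgroup G) [Fintype Γ] (z : MonoidAlgebra ℂ Γ) :
    incl Γ z = ∑ g : Γ, z.coeff g • MonoidAlgebra.single (g : G) (1 : ℂ) := by
  classical
  have h1 : z = ∑ g : Γ, z.coeff g • MonoidAlgebra.single g (1 : ℂ) := by
    ext g
    rw [MonoidAlgebra.coeff_sum, Finset.sum_apply']
    simp [MonoidAlgebra.coeff_smul, Finsupp.single_apply]
  conv_lhs => rw [h1]
  rw [map_sum]
  refine Finset.sum_congr rfl fun g _ => ?_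
  have h2 : z.coeff g • MonoidAlgebra.single g (1 : ℂ) = MonoidAlgebra.single g (z.coeff g) := by
    simp
  rw [h2, incl_single]
  simp

set_option maxHeartbeats 1000000 in
/-- **The key theorem** for an idempotent with a complement. -/
theorem GData.key_general [hp : Fact p.Prime] [IsLocalRing O] (H : GData O x T p e₁) (hM : IsPModular p M)
    (hO : UnramRing M p O) (Ω : Set (IrrCharacter G)) (d₀ : ℂ) (hd : d₀ ≠ 0)
    (hrat : ∀ g, d₀ * (blockElt Ω).coeff g ∈ O) (hp2 : ¬ p ^ 2 ∣ Fintype.card G)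
    (hne : ∑ χ : IrrCharacter G, tr (χ : G → ℂ) (blockElt Ω) * tr (χ : G → ℂ) ((Nh x p - 1) * e₁) ≠ 0)
    (Γ : Subgroup G) [Fintype Γ] (hΓT : Γ ≤ T) (hΓ : ¬ p ∣ Nat.card Γ)
    (hdec : ∀ t ∈ T, ∃ j : ℕ, ∃ γ ∈ Γ, t = x ^ j * γ)
    (z : MonoidAlgebra ℂ Γ) (hzc : IsCentralElt z) (hzz : z * z = z) (hzO : CoefIn O z)
    (hze : incl Γ z = e₁)
    (hval : ∀ η : IrrCharacter Γ, CoefIn O (blockElt ({η} : Set (IrrCharacter Γ))))
    (δ : ℕ) (hδ : ∀ η : IrrCharacter Γ, om (η : Γ → ℂ) z ≠ 0 → charDegree (η : Γ → ℂ) = δ) :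
    ∃ r : IrrCharacter G → ℕ, (∀ χ, χ ∉ Ω → r χ = 0) ∧
      (∑ χ : IrrCharacter G, tr (χ : G → ℂ) ((Nh x p - 1) * e₁) * (r χ : ℂ) = ((p : ℂ) - 1) * δ ∨
        ∑ χ : IrrCharacter G, tr (χ : G → ℂ) ((Nh x p - 1) * e₁) * (r χ : ℂ) = -(((p : ℂ) - 1) * δ)) := by
  classical
  refine H.key_rank_Z hM hO Ω d₀ hd hrat hp2 hne δ ?_
  intro V _ _ _ d hdσ A T₀ hTA hlt hA hT₀ hX
  let D := H.repZ (a := blockElt Ω)
  let ρV : Γ →* Module.End (IsLocalRing.ResidueField O) V :=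
    { toFun := fun γ => d.bar (D.tOp γ (hΓT γ.2))
      map_one' := by
        have h1 : D.tOp ((1 : Γ) : G) (hΓT (1 : Γ).2) = 1 := by
          refine LinearMap.ext fun v => Subtype.ext ?_
          rw [D.tOp_coe]
          simp
        rw [h1, d.bar_one]
      map_mul' := fun γ γ' => by
        have h1 : D.tOp ((γ * γ' : Γ) : G) (hΓT (γ * γ').2) =
            D.tOp γ (hΓT γ.2) * D.tOp γ' (hΓT γ'.2) := by
          refine LinearMap.ext fun v => ?_
          rw [Module.End.mul_apply]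
          exact D.tOp_mul_apply γ γ' (hΓT γ.2) (hΓT γ'.2) v
        rw [h1, d.bar_mul] }
  have hρV : ∀ γ : Γ, ρV γ = d.bar (D.tOp γ (hΓT γ.2)) := fun γ => rfl
  have hzV : ∑ g, IsLocalRing.residue O ⟨z.coeff g, hzO g⟩ • ρV g = 1 := by
    refine d.bar_ext fun v => ?_
    rw [LinearMap.sum_apply]
    have h1 : ∀ g : Γ, (IsLocalRing.residue O ⟨z.coeff g, hzO g⟩ • ρV g) (d.red v) =
        d.red ((⟨z.coeff g, hzO g⟩ : O) • D.tOp g (hΓT g.2) v) := by
      intro g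
      rw [LinearMap.smul_apply, hρV, d.bar_red, d.red_smul, hdσ]
    rw [Finset.sum_congr rfl fun g _ => h1 g, ← map_sum]
    have h2 : ∑ g : Γ, (⟨z.coeff g, hzO g⟩ : O) • D.tOp g (hΓT g.2) v = v := by
      apply iotaL_inj (lmulL (blockElt Ω) e₁ H.hcoef)
      rw [map_sum]
      have h3 : ∀ g : Γ, iotaL (lmulL (blockElt Ω) e₁ H.hcoef) ((⟨z.coeff g, hzO g⟩ : O) • D.tOp g (hΓT g.2) v) =
          z.coeff g • (MonoidAlgebra.single (g : G) (1 : ℂ) * iotaL (lmulL (blockElt Ω) e₁ H.hcoef) v) := fun g => rfl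
      rw [Finset.sum_congr rfl fun g _ => h3 g]
      have h4 := H.e_iota (a := blockElt Ω) v
      have h5 : e₁ = ∑ g : Γ, z.coeff g • MonoidAlgebra.single (g : G) (1 : ℂ) := by
        rw [← hze, incl_eq_sum_single]
      have h6 : ∑ g : Γ, z.coeff g • (MonoidAlgebra.single (g : G) (1 : ℂ) * iotaL (lmulL (blockElt Ω) e₁ H.hcoef) v) =
          (∑ g : Γ, z.coeff g • MonoidAlgebra.single (g : G) (1 : ℂ)) * iotaL (lmulL (blockElt Ω) e₁ H.hcoef) v := by
        rw [Finset.sum_mul]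
        refine Finset.sum_congr rfl fun g _ => ?_
        rw [smul_mul_assoc]
      rw [h6, ← h5]
      exact h4
    rw [h2]
    rfl
  obtain ⟨Z, h1, h2, h3, h4⟩ := exists_stable_Z hM hO hΓ z hzc hzz hzO hval δ hδ ρV hzV A T₀ hTA hlt
    (fun γ v hv => hA γ (hΓT γ.2) v hv) (fun γ v hv => hT₀ γ (hΓT γ.2) v hv)
  refine ⟨Z, h1, h2, ?_, h4⟩
  intro t ht v hv
  obtain ⟨j, γ, hγ, rfl⟩ := hdec t ht
  have hstep : ∀ i : ℕ, ∀ w ∈ Z, (d.bar D.X₁ ^ i) w ∈ Z := by
    intro i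
    induction i with
    | zero => intro w hw; simpa using hw
    | succ i ih =>
      intro w hw
      rw [pow_succ', Module.End.mul_apply]
      have h5 := ih w hw
      have h6 := hX _ (h2 h5)
      have h7 : d.bar D.X₁ ((d.bar D.X₁ ^ i) w) = (d.bar D.X₁ ((d.bar D.X₁ ^ i) w) - (d.bar D.X₁ ^ i) w) + (d.bar D.X₁ ^ i) w := by
        abel
      rw [h7]
      exact Z.add_mem (h1 h6) h5
  have h8 : D.tOp (x ^ j * γ) ht = D.X₁ ^ j * D.tOp γ (hΓT hγ) := by
    refine LinearMap.ext fun w => Subtype.ext ?_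
    rw [Module.End.mul_apply, D.tOp_coe, map_mul, Module.End.mul_apply, D.X₁_pow_coe]
    rfl
  show d.bar (D.tOp (x ^ j * γ) ht) v ∈ Z
  rw [h8, d.bar_mul, d.bar_pow, Module.End.mul_apply]
  exact hstep j _ (h3 ⟨γ, hγ⟩ v hv)

end GK2

end Cfsg.Agent.Lib.FF
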