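import Cfsg.Agent.Lib.FF.CycMack
import Cfsg.Agent.Lib.FF.GenKey2

/-!
# The group algebra over the residue field of a block with a central generator
-/

set_option autoImplicit false
set_option linter.unusedSectionVars false
set_option linter.unusedVariables false
set_option maxSynthPendingDepth 3
set_option linter.style.haveILetI false
set_option linter.unusedSimpArgs false
set_option linter.unnecessarySimpa false

namespace Cfsg.Agent.Lib.FF

open Module Polynomial Cfsg Cfsg.Agent.Lib.Block

section Lam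

variable (k : Type*) [Field k] (Γ : Type*) [Group Γ] [Fintype Γ]

/-- The coefficient at the identity. -/
noncomputable def lamG : MonoidAlgebra k Γ →ₗ[k] k where
  toFun r := r.coeff 1
  map_add' a b := by rw [MonoidAlgebra.coeff_add, Finsupp.add_apply]
  map_smul' c a := rfl

variable {k Γ}

theorem lamG_apply (r : MonoidAlgebra k Γ) : lamG k Γ r = r.coeff 1 := rfl

theorem lamG_sym (a b : MonoidAlgebra k Γ) : lamG k Γ (a * b) = lamG k Γ (b * a) := by
  simp only [lamG_apply]
  rw [coeff_mul_eq, coeff_mul_eq]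
  simp only [mul_one]
  refine Fintype.sum_equiv (Equiv.inv Γ) _ _ fun h => ?_
  simp [mul_comm]

theorem lamG_nd (a : MonoidAlgebra k Γ) (h : ∀ b, lamG k Γ (a * b) = 0) : a = 0 := by
  apply ext_coeff
  intro g
  have h1 := h (MonoidAlgebra.single g⁻¹ 1)
  rw [lamG_apply, MonoidAlgebra.coeff_mul_single_apply] at h1
  simpa using h1

end Lam

section Data

variable {Γ : Type*} [Group Γ] [Fintype Γ] {O : Subring ℂ} {M : Ideal AlgInt} {p : ℕ}
  {ef u : MonoidAlgebra ℂ Γ} {N : ℕ}

/-- The central elements in the corner of a central idempotent. -/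
noncomputable def cenW (ef : MonoidAlgebra ℂ Γ) : Submodule ℂ (MonoidAlgebra ℂ Γ) where
  carrier := {w | IsCentralElt w ∧ ef * w = w}
  add_mem' := by
    rintro a b ⟨h1, h2⟩ ⟨h3, h4⟩
    refine ⟨isCentralElt_add h1 h3, by rw [mul_add, h2, h4]⟩
  zero_mem' := ⟨isCentralElt_zero, mul_zero _⟩
  smul_mem' := by
    rintro c a ⟨h1, h2⟩
    refine ⟨isCentralElt_smul c h1, by rw [mul_smul_comm, h2]⟩

/-- The data at the level of the complex group algebra. -/
structure CycData (O : Subring ℂ) (ef u : MonoidAlgebra ℂ Γ) (N : ℕ) : Prop where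
  hefO : CoefIn O ef
  huO : CoefIn O u
  hefc : IsCentralElt ef
  huc : IsCentralElt u
  hee : ef * ef = ef
  hue : u * ef = u
  huN : u ^ N = ef

/-- The inclusion as a linear map. -/
noncomputable def iotaLin (Γ : Type*) [Group Γ] [Fintype Γ] (O : Subring ℂ) : MonoidAlgebra O Γ →ₗ[O] MonoidAlgebra ℂ Γ where
  toFun := iotaR Γ O
  map_add' := map_add _
  map_smul' r v := by
    apply ext_coeff
    intro g
    rw [iotaR_coeff]
    have h1 : (r • v).coeff g = r * v.coeff g := rfl
    have h2 : ((RingHom.id O r) • iotaR Γ O v).coeff g = (r : ℂ) * (iotaR Γ O v).coeff g := rfl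
    rw [h1, h2, iotaR_coeff]
    push_cast
    rfl

theorem iotaLin_apply (v : MonoidAlgebra O Γ) : iotaLin Γ O v = iotaR Γ O v := rfl

theorem iotaLin_inj : Function.Injective (iotaLin Γ O) := iotaR_inj

theorem iotaR_single (g : Γ) (c : O) : iotaR Γ O (MonoidAlgebra.single g c) = MonoidAlgebra.single g (c : ℂ) := by
  simp [iotaR]

theorem liftO_central {z : MonoidAlgebra ℂ Γ} (hz : CoefIn O z) (hc : IsCentralElt z) : IsCentralElt (liftO z hz) := by
  intro x g
  apply Subtype.ext
  rw [coeff_liftO, coeff_liftO, hc x g]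

theorem iotaR_central {z : MonoidAlgebra O Γ} (hc : IsCentralElt z) : IsCentralElt (iotaR Γ O z) := by
  intro x g
  rw [iotaR_coeff, iotaR_coeff, hc x g]

/-- The conjugation sum. -/
noncomputable def conjSum (R : Type*) [Ring R] (g : Γ) : MonoidAlgebra R Γ :=
  ∑ x : Γ, MonoidAlgebra.single (x * g * x⁻¹) (1 : R)

theorem isCentralElt_conjSum (R : Type*) [CommRing R] (g : Γ) : IsCentralElt (conjSum R g) := by
  rw [isCentralElt_iff_commute_single]
  intro s
  unfold conjSum
  rw [Finset.mul_sum, Finset.sum_mul]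
  refine Fintype.sum_equiv (Equiv.mulLeft s) _ _ fun x => ?_
  simp only [MonoidAlgebra.single_mul_single, mul_one, Equiv.coe_mulLeft]
  congr 1
  group

theorem iotaR_conjSum (g : Γ) : iotaR Γ O (conjSum O g) = conjSum ℂ g := by
  unfold conjSum
  rw [map_sum]
  refine Finset.sum_congr rfl fun x _ => ?_
  rw [iotaR_single]
  rfl

/-- A central element is the average of its conjugation sums. -/
theorem sum_conjSum {w : MonoidAlgebra ℂ Γ} (hw : IsCentralElt w) :
    ∑ g : Γ, w.coeff g • conjSum ℂ g = (Fintype.card Γ : ℂ) • w := by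
  have h1 : ∀ g : Γ, w.coeff g • conjSum ℂ g = ∑ x : Γ, MonoidAlgebra.single x (1 : ℂ) * MonoidAlgebra.single g (w.coeff g) *
      MonoidAlgebra.single x⁻¹ (1 : ℂ) := by
    intro g
    unfold conjSum
    rw [Finset.smul_sum]
    refine Finset.sum_congr rfl fun x _ => ?_
    simp [MonoidAlgebra.single_mul_single]
  simp only [h1]
  rw [Finset.sum_comm]
  have h2 : ∀ x : Γ, ∑ g : Γ, MonoidAlgebra.single x (1 : ℂ) * MonoidAlgebra.single g (w.coeff g) *
      MonoidAlgebra.single x⁻¹ (1 : ℂ) = w := by
    intro x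
    rw [← Finset.sum_mul, ← Finset.mul_sum, ← eq_sum_single w, (isCentralElt_iff_commute_single w).mp hw x, mul_assoc,
      MonoidAlgebra.single_mul_single]
    simp [← MonoidAlgebra.one_def]
  simp only [h2]
  rw [Finset.sum_const, Finset.card_univ, Nat.cast_smul_eq_nsmul]

variable [IsLocalRing O]

/-- The reduced elements. -/
noncomputable abbrev eBar (D : CycData (Γ := Γ) O ef u N) : MonoidAlgebra (IsLocalRing.ResidueField O) Γ :=
  piR Γ O (liftO ef D.hefO)

noncomputable abbrev uBar (D : CycData (Γ := Γ) O ef u N) : MonoidAlgebra (IsLocalRing.ResidueField O) Γ :=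
  piR Γ O (liftO u D.huO)

noncomputable abbrev yBar (D : CycData (Γ := Γ) O ef u N) : MonoidAlgebra (IsLocalRing.ResidueField O) Γ :=
  uBar D - eBar D

theorem piR_central {z : MonoidAlgebra O Γ} (hc : IsCentralElt z) : IsCentralElt (piR Γ O z) := by
  intro x g
  rw [piR_coeff, piR_coeff, hc x g]

theorem poly_pow_geom {k : Type*} [Field k] (p a : ℕ) [hp : Fact p.Prime] [CharP k p] :
    (X - 1 : k[X]) ^ (p ^ a - 1) = ∑ j ∈ Finset.range (p ^ a), X ^ j := by
  have h2 : (X - 1 : k[X]) ≠ 0 := X_sub_C_ne_zero (1 : k)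
  apply mul_left_cancel₀ h2
  rw [mul_geom_sum, ← pow_succ', Nat.sub_add_cancel (Nat.one_le_pow _ _ hp.out.pos)]
  have := sub_pow_char_pow (R := k[X]) (p := p) (n := a) (X : k[X]) 1
  simpa using this

theorem charP_res (hM : IsPModular p M) (hO : UnramRing M p O) [hp : Fact p.Prime] : CharP (IsLocalRing.ResidueField O) p := by
  have h1 : ((p : ℕ) : IsLocalRing.ResidueField O) = 0 := by
    have := (redGroup (Γ := PUnit.{1}) hM hO).σ_p
    simpa using this
  exact (CharP.charP_iff_prime_eq_zero hp.out).mpr h1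

namespace CycData

variable (D : CycData (Γ := Γ) O ef u N)
include D

theorem iota_e : iotaR Γ O (liftO ef D.hefO) = ef := iota_liftO _ _

theorem iota_u : iotaR Γ O (liftO u D.huO) = u := iota_liftO _ _

theorem he_mul : liftO ef D.hefO * liftO ef D.hefO = liftO ef D.hefO := by
  apply iotaR_inj
  rw [map_mul, D.iota_e, D.hee]

theorem hu_mul : liftO u D.huO * liftO ef D.hefO = liftO u D.huO := by
  apply iotaR_inj
  rw [map_mul, D.iota_e, D.iota_u, D.hue]

theorem hu_pow : liftO u D.huO ^ N = liftO ef D.hefO := by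
  apply iotaR_inj
  rw [map_pow, D.iota_e, D.iota_u, D.huN]

theorem eBar_mul : eBar D * eBar D = eBar D := by
  rw [eBar, ← map_mul, D.he_mul]

theorem uBar_mul : uBar D * eBar D = uBar D := by
  rw [eBar, uBar, ← map_mul, D.hu_mul]

theorem uBar_pow : uBar D ^ N = eBar D := by
  rw [eBar, uBar, ← map_pow, D.hu_pow]

theorem eBar_central : IsCentralElt (eBar D) := piR_central (liftO_central _ D.hefc)

theorem uBar_central : IsCentralElt (uBar D) := piR_central (liftO_central _ D.huc)

theorem e_comm (r : MonoidAlgebra (IsLocalRing.ResidueField O) Γ) : eBar D * r = r * eBar D :=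
  isCentralElt_commute D.eBar_central r

theorem u_comm (r : MonoidAlgebra (IsLocalRing.ResidueField O) Γ) : uBar D * r = r * uBar D :=
  isCentralElt_commute D.uBar_central r

theorem y_comm (r : MonoidAlgebra (IsLocalRing.ResidueField O) Γ) : yBar D * r = r * yBar D := by
  rw [yBar, sub_mul, mul_sub, D.u_comm, D.e_comm]

theorem e_mul_u : eBar D * uBar D = uBar D := by
  rw [D.e_comm, D.uBar_mul]

theorem e_mul_y : eBar D * yBar D = yBar D := by
  rw [yBar, mul_sub, D.e_mul_u, D.eBar_mul]

theorem y_mul_e : yBar D * eBar D = yBar D := by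
  rw [← D.e_comm, D.e_mul_y]

variable [hp : Fact p.Prime]

theorem y_pow_N (hM : IsPModular p M) (hO : UnramRing M p O) {a : ℕ} (hN : N = p ^ a) (ha : 1 ≤ a) :
    yBar D ^ N = 0 := by
  haveI : CharP (IsLocalRing.ResidueField O) p := charP_res hM hO
  haveI : CharP (MonoidAlgebra (IsLocalRing.ResidueField O) Γ) p :=
    charP_of_injective_algebraMap (algebraMap (IsLocalRing.ResidueField O) _).injective p
  have hc : Commute (uBar D) (eBar D) := D.u_comm _
  subst hN
  rw [yBar, sub_pow_char_pow_of_commute _ _ hc, D.uBar_pow]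
  have h1 : eBar D ^ (p ^ a) = eBar D := by
    have h2 : ∀ n : ℕ, 0 < n → eBar D ^ n = eBar D := by
      intro n hn
      induction n with
      | zero => omega
      | succ n ih =>
        by_cases h0 : n = 0
        · simp [h0]
        · rw [pow_succ, ih (Nat.pos_of_ne_zero h0), D.eBar_mul]
    exact h2 _ (pow_pos hp.out.pos _)
  rw [h1, sub_self]

theorem y_pow_mul_e (hM : IsPModular p M) (hO : UnramRing M p O) {a : ℕ} (hN : N = p ^ a) :
    yBar D ^ (N - 1) * eBar D = (∑ j ∈ Finset.range N, uBar D ^ j) * eBar D := by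
  haveI : CharP (IsLocalRing.ResidueField O) p := charP_res hM hO
  have h1 : ∀ m : ℕ, yBar D ^ m * eBar D = (uBar D - 1) ^ m * eBar D := by
    intro m
    induction m with
    | zero => simp
    | succ m ih =>
      have h2 : yBar D * eBar D = (uBar D - 1) * eBar D := by
        rw [D.y_mul_e, sub_mul, one_mul, D.uBar_mul]
      have hc : ∀ r, (uBar D - 1) * r = r * (uBar D - 1) := by
        intro r
        rw [sub_mul, mul_sub, D.u_comm, one_mul, mul_one]
      calc yBar D ^ (m + 1) * eBar D = yBar D ^ m * (yBar D * eBar D) := by rw [pow_succ, mul_assoc]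
        _ = yBar D ^ m * ((uBar D - 1) * eBar D) := by rw [h2]
        _ = (uBar D - 1) * (yBar D ^ m * eBar D) := by rw [← mul_assoc, ← hc, mul_assoc]
        _ = (uBar D - 1) * ((uBar D - 1) ^ m * eBar D) := by rw [ih]
        _ = _ := by rw [pow_succ', mul_assoc]
  rw [h1]
  congr 1
  have h3 := congrArg (aeval (uBar D)) (poly_pow_geom (k := IsLocalRing.ResidueField O) p a)
  subst hN
  simpa using h3

/-- The central elements of the reduction. -/
noncomputable def ZcBar : Submodule (IsLocalRing.ResidueField O) (MonoidAlgebra (IsLocalRing.ResidueField O) Γ) where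
  carrier := {x | IsCentralElt x ∧ eBar D * x = x}
  add_mem' := by
    rintro a b ⟨h1, h2⟩ ⟨h3, h4⟩
    refine ⟨isCentralElt_add h1 h3, by rw [mul_add, h2, h4]⟩
  zero_mem' := ⟨isCentralElt_zero, mul_zero _⟩
  smul_mem' := by
    rintro c a ⟨h1, h2⟩
    refine ⟨isCentralElt_smul c h1, by rw [mul_smul_comm, h2]⟩

/-- The central elements of the lattice. -/
noncomputable def ZcO : Submodule O (MonoidAlgebra O Γ) where
  carrier := {x | IsCentralElt x ∧ liftO ef D.hefO * x = x}
  add_mem' := by
    rintro a b ⟨h1, h2⟩ ⟨h3, h4⟩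
    refine ⟨isCentralElt_add h1 h3, by rw [mul_add, h2, h4]⟩
  zero_mem' := ⟨isCentralElt_zero, mul_zero _⟩
  smul_mem' := by
    rintro c a ⟨h1, h2⟩
    refine ⟨isCentralElt_smul c h1, by rw [mul_smul_comm, h2]⟩

theorem finrank_ZcBar_le (hM : IsPModular p M) (hO : UnramRing M p O) :
    finrank (IsLocalRing.ResidueField O) D.ZcBar ≤ finrank ℂ (cenW ef) := by
  classical
  have := isPModular_isPrime hM
  have hDVR := hO.isDVR hM
  let k := IsLocalRing.ResidueField O
  have hkfin : Finite k := residue_finite hM hO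
  let d : RedData p O k (MonoidAlgebra O Γ) (MonoidAlgebra k Γ) := redGroup hM hO
  have hFreeL : Module.Free O (MonoidAlgebra O Γ) := Module.Free.of_basis (MonoidAlgebra.basis Γ O)
  have hFinL : Module.Finite O (MonoidAlgebra O Γ) := Module.Finite.of_basis (MonoidAlgebra.basis Γ O)
  have hFink : Module.Finite k (MonoidAlgebra k Γ) := Module.Finite.of_basis (MonoidAlgebra.basis Γ k)
  have hpO : (p : O) ≠ 0 := UnramRing.natCast_ne_zero hM
  have htf : ∀ v : MonoidAlgebra O Γ, (p : O) • v = 0 → v = 0 := fun v h =>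
    (smul_eq_zero.mp h).resolve_left hpO
  set S := D.ZcO with hS
  have hSmem : ∀ w, w ∈ S ↔ IsCentralElt w ∧ liftO ef D.hefO * w = w := fun w => Iff.rfl
  have hpure : ∀ v, (p : O) • v ∈ S → v ∈ S := by
    intro v hv
    obtain ⟨h1, h2⟩ := (hSmem _).mp hv
    refine (hSmem _).mpr ⟨?_, ?_⟩
    · intro x g
      have h3 := h1 x g
      have h4 : ((p : O) • v).coeff (x * g * x⁻¹) = (p : O) * v.coeff (x * g * x⁻¹) := rfl
      have h5 : ((p : O) • v).coeff g = (p : O) * v.coeff g := rfl
      rw [h4, h5] at h3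
      exact mul_left_cancel₀ hpO h3
    · have h3 : (p : O) • (liftO ef D.hefO * v - v) = 0 := by
        rw [smul_sub, ← mul_smul_comm, h2, sub_self]
      exact sub_eq_zero.mp (htf _ h3)
  have hfreeS : Module.Free O S := Module.free_of_finite_type_torsion_free'
  have hfinS : Module.Finite O S := inferInstance
  have h1 : finrank k (d.imS S) = finrank O S := finrank_imS d S htf hpure
  have h2 : finrank O S = finrank ℂ (cenW ef) := by
    have hι : Function.Injective (iotaLin Γ O ∘ₗ S.subtype) := iotaLin_inj.comp Subtype.val_injective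
    refine (charpoly_link (O := O) (S := S) (iotaLin Γ O ∘ₗ S.subtype) hι 1 one_ne_zero ?_ (cenW ef) ?_ ?_ 1 (fun v hv => hv) 1
      (fun s => rfl)).2
    · intro s g
      rw [one_mul]
      show (iotaR Γ O (s : MonoidAlgebra O Γ)).coeff g ∈ O
      rw [iotaR_coeff]
      exact Subtype.coe_prop _
    · intro s
      obtain ⟨h3, h4⟩ := (hSmem _).mp s.2
      refine ⟨iotaR_central h3, ?_⟩
      show ef * iotaR Γ O (s : MonoidAlgebra O Γ) = iotaR Γ O (s : MonoidAlgebra O Γ)
      rw [← D.iota_e, ← map_mul, h4]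
    · rintro w ⟨h3, h4⟩
      have hcard : (Fintype.card Γ : ℂ) ≠ 0 := by exact_mod_cast Fintype.card_pos.ne'
      have h5 : w = (Fintype.card Γ : ℂ)⁻¹ • ∑ g : Γ, w.coeff g • (ef * conjSum ℂ g) := by
        have h6 : ∑ g : Γ, w.coeff g • (ef * conjSum ℂ g) = ef * ∑ g : Γ, w.coeff g • conjSum ℂ g := by
          rw [Finset.mul_sum]
          refine Finset.sum_congr rfl fun g _ => ?_
          rw [mul_smul_comm]
        rw [h6, sum_conjSum h3, mul_smul_comm, h4, smul_smul, inv_mul_cancel₀ hcard, one_smul]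
      rw [h5]
      refine Submodule.smul_mem _ _ (Submodule.sum_mem _ fun g _ => Submodule.smul_mem _ _ (Submodule.subset_span ?_))
      refine ⟨⟨liftO ef D.hefO * conjSum O g, (hSmem _).mpr ⟨isCentralElt_mul (liftO_central _ D.hefc) (isCentralElt_conjSum O g), ?_⟩⟩, ?_⟩
      · rw [← mul_assoc, D.he_mul]
      · show iotaR Γ O (liftO ef D.hefO * conjSum O g) = _
        rw [map_mul, D.iota_e, iotaR_conjSum]
  have h3 : D.ZcBar ≤ d.imS S := by
    rintro x ⟨h3, h4⟩
    let zh : MonoidAlgebra O Γ := ofFun fun g => Function.surjInv IsLocalRing.residue_surjective (x.coeff g)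
    have hzh : piR Γ O zh = x := by
      apply ext_coeff
      intro g
      rw [piR_coeff, coeff_ofFun, Function.surjInv_eq IsLocalRing.residue_surjective]
    have hzc : IsCentralElt zh := by
      intro y g
      rw [coeff_ofFun, coeff_ofFun, h3 y g]
    refine ⟨liftO ef D.hefO * zh, (hSmem _).mpr ⟨isCentralElt_mul (liftO_central _ D.hefc) hzc, ?_⟩, ?_⟩
    · rw [← mul_assoc, D.he_mul]
    · show piR Γ O (liftO ef D.hefO * zh) = x
      rw [map_mul, hzh]
      exact h4
  calc finrank k D.ZcBar ≤ finrank k (d.imS S) := Submodule.finrank_mono h3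
    _ = _ := by rw [h1, h2]

/-- **The data of a symmetric algebra with a nilpotent generator of the centre.** -/
theorem cenData (hM : IsPModular p M) (hO : UnramRing M p O) {a : ℕ} (hN : N = p ^ a) (ha : 1 ≤ a)
    (h5 : finrank ℂ (cenW ef) ≤ N)
    (hne : ∃ g, ¬ MemLocalIdeal M (((∑ j ∈ Finset.range N, u ^ j) * ef).coeff g)) :
    CenData (lamG (IsLocalRing.ResidueField O) Γ) (eBar D) (yBar D) N := by
  classical
  have := isPModular_isPrime hM
  have hDVR := hO.isDVR hM
  let k := IsLocalRing.ResidueField O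
  have hkfin : Finite k := residue_finite hM hO
  have hFink : Module.Finite k (MonoidAlgebra k Γ) := Module.Finite.of_basis (MonoidAlgebra.basis Γ k)
  have hNpos : 0 < N := by
    rw [hN]
    exact pow_pos (Fact.out : p.Prime).pos _
  have hyN := D.y_pow_N hM hO hN ha
  have hyN1 : yBar D ^ (N - 1) * eBar D ≠ 0 := by
    rw [D.y_pow_mul_e hM hO hN]
    intro h0
    obtain ⟨g, hg⟩ := hne
    apply hg
    have h1 : (∑ j ∈ Finset.range N, uBar D ^ j) * eBar D =
        piR Γ O ((∑ j ∈ Finset.range N, liftO u D.huO ^ j) * liftO ef D.hefO) := by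
      rw [map_mul, map_sum]
      simp only [map_pow]
    rw [h1] at h0
    have h2 := congrArg (fun z => MonoidAlgebra.coeff z g) h0
    simp only [piR_coeff] at h2
    have h3 : ((∑ j ∈ Finset.range N, u ^ j) * ef) = iotaR Γ O ((∑ j ∈ Finset.range N, liftO u D.huO ^ j) * liftO ef D.hefO) := by
      rw [map_mul, map_sum, D.iota_e]
      simp only [map_pow, D.iota_u]
    rw [h3, iotaR_coeff]
    exact (sigma_zero_iff hM hO (redGroup (Γ := Γ) hM hO) _).mp h2
  refine ⟨lamG_sym, lamG_nd, D.eBar_mul, D.e_comm, D.y_comm, D.e_mul_y, hyN, hNpos, hyN1, ?_⟩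
  intro c hc
  -- the map from the polynomials
  let J : (Fin N → k) →ₗ[k] MonoidAlgebra k Γ :=
    ∑ j : Fin N, (LinearMap.toSpanSingleton k _ (yBar D ^ (j : ℕ) * eBar D)) ∘ₗ LinearMap.proj j
  have hJ : ∀ v, J v = ∑ j : Fin N, v j • (yBar D ^ (j : ℕ) * eBar D) := by
    intro v
    simp only [J, LinearMap.sum_apply, LinearMap.comp_apply, LinearMap.proj_apply, LinearMap.toSpanSingleton_apply]
  have hJinj : Function.Injective J := by
    rw [← LinearMap.ker_eq_bot, LinearMap.ker_eq_bot']
    intro v hv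
    rw [hJ] at hv
    have key : ∀ m : ℕ, ∀ j : Fin N, (j : ℕ) = m → v j = 0 := by
      intro m
      induction m using Nat.strong_induction_on with
      | _ m ih =>
        intro j hj
        have h1 := congrArg (fun z => yBar D ^ (N - 1 - m) * z) hv
        simp only [mul_zero, Finset.mul_sum, mul_smul_comm] at h1
        rw [Finset.sum_eq_single j] at h1
        · have hjN := j.2
          rw [← mul_assoc, ← pow_add, hj, (show N - 1 - m + m = N - 1 by omega)] at h1
          exact (smul_eq_zero.mp h1).resolve_right hyN1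
        · intro i _ hi
          by_cases hlt : (i : ℕ) < m
          · rw [ih i hlt i rfl, zero_smul]
          · have hgt : m < i := by
              have : (i : ℕ) ≠ j := fun h => hi (Fin.ext h)
              omega
            have hiN := i.2
            have h2 : yBar D ^ (N - 1 - m) * (yBar D ^ (i : ℕ) * eBar D) = 0 := by
              rw [← mul_assoc, ← pow_add, pow_eq_zero_of_le (by omega) hyN, zero_mul]
            rw [h2, smul_zero]
        · intro h
          exact absurd (Finset.mem_univ _) h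
    funext j
    exact key j j rfl
  have hycen : IsCentralElt (yBar D) := (isCentralElt_iff_commute_single _).mpr fun x => (D.y_comm _).symm
  have hJle : LinearMap.range J ≤ D.ZcBar := by
    rintro _ ⟨v, rfl⟩
    rw [hJ]
    refine Submodule.sum_mem _ fun j _ => Submodule.smul_mem _ _ ?_
    refine ⟨isCentralElt_mul (isCentralElt_pow hycen _) D.eBar_central, ?_⟩
    rw [← D.e_comm, ← mul_assoc, D.eBar_mul]
  have hfr : finrank k (LinearMap.range J) = N := by
    rw [LinearMap.finrank_range_of_inj hJinj]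
    simp
  have heq : LinearMap.range J = D.ZcBar := by
    refine Submodule.eq_of_le_of_finrank_le hJle ?_
    rw [hfr]
    exact (D.finrank_ZcBar_le hM hO).trans h5
  have hcc : IsCentralElt c := (isCentralElt_iff_commute_single _).mpr fun x => (hc _).symm
  have hmem : eBar D * c ∈ D.ZcBar := by
    refine ⟨isCentralElt_mul D.eBar_central hcc, ?_⟩
    rw [← mul_assoc, D.eBar_mul]
  rw [← heq] at hmem
  obtain ⟨v, hv⟩ := hmem
  refine ⟨∑ j : Fin N, Polynomial.C (v j) * X ^ (j : ℕ), ?_⟩
  rw [← hv, hJ, map_sum, Finset.sum_mul]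
  refine Finset.sum_congr rfl fun j _ => ?_
  rw [map_mul, aeval_C, map_pow, aeval_X, Algebra.algebraMap_eq_smul_one, smul_mul_assoc, one_mul, smul_mul_assoc]

theorem finrank_range_eBar (hM : IsPModular p M) (hO : UnramRing M p O) (m : ℕ)
    (h1 : (Fintype.card Γ : ℂ) * ef.coeff 1 = m) :
    finrank (IsLocalRing.ResidueField O) (LinearMap.range (LinearMap.mulLeft (IsLocalRing.ResidueField O) (eBar D))) = m := by
  classical
  have := isPModular_isPrime hM
  have hDVR := hO.isDVR hM
  let k := IsLocalRing.ResidueField O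
  let d : RedData p O k (MonoidAlgebra O Γ) (MonoidAlgebra k Γ) := redGroup hM hO
  have hFreeL : Module.Free O (MonoidAlgebra O Γ) := Module.Free.of_basis (MonoidAlgebra.basis Γ O)
  have hFinL : Module.Finite O (MonoidAlgebra O Γ) := Module.Finite.of_basis (MonoidAlgebra.basis Γ O)
  set Eh := liftO ef D.hefO with hEh
  have hEhE : Eh * Eh = Eh := D.he_mul
  let T : Module.End O (MonoidAlgebra O Γ) := LinearMap.mulRight O Eh
  have hTT : IsIdempotentElem T := by
    show T * T = T
    refine LinearMap.ext fun v => ?_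
    show v * Eh * Eh = v * Eh
    rw [mul_assoc, hEhE]
  let S := LinearMap.range T
  have hproj := LinearMap.IsIdempotentElem.isProj_range T hTT
  have hfreeS : Module.Free O S := Module.free_of_finite_type_torsion_free'
  have hfreeK : Module.Free O (LinearMap.ker T) := Module.free_of_finite_type_torsion_free'
  have htrace := hproj.trace
  have hrank : finrank O S = m := by
    have h2 : ((LinearMap.trace O _ T : O) : ℂ) = (m : ℂ) := by
      rw [trace_eq_sum_coeff_O]
      have h3 : ∀ g : Γ, (T (MonoidAlgebra.single g 1)).coeff g = Eh.coeff 1 := by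
        intro g
        show (MonoidAlgebra.single g 1 * Eh).coeff g = _
        rw [MonoidAlgebra.coeff_single_mul_apply, one_mul, inv_mul_cancel]
      simp only [h3]
      rw [Finset.sum_const, Finset.card_univ, nsmul_eq_mul]
      push_cast
      rw [coeff_liftO, h1]
    rw [htrace] at h2
    have h3 : ((finrank O S : ℕ) : ℂ) = (m : ℂ) := by
      simpa using h2
    exact_mod_cast h3
  have hpO : (p : O) ≠ 0 := UnramRing.natCast_ne_zero hM
  have htf : ∀ v : MonoidAlgebra O Γ, (p : O) • v = 0 → v = 0 := fun v h =>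
    (smul_eq_zero.mp h).resolve_left hpO
  have hpure : ∀ v, (p : O) • v ∈ S → v ∈ S := by
    intro v hv
    have h2 : T ((p : O) • v) = (p : O) • v := LinearMap.IsProj.map_id hproj _ hv
    refine ⟨v, ?_⟩
    rw [map_smul] at h2
    have h3 : (p : O) • (T v - v) = 0 := by rw [smul_sub, h2, sub_self]
    exact sub_eq_zero.mp (htf _ h3)
  have h2 : LinearMap.range (LinearMap.mulLeft k (eBar D)) = d.imS S := by
    ext y
    constructor
    · rintro ⟨r, rfl⟩
      obtain ⟨w, rfl⟩ := piR_surj r
      refine ⟨T w, ⟨w, rfl⟩, ?_⟩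
      show piR Γ O (w * Eh) = eBar D * piR Γ O w
      rw [map_mul, D.e_comm]
    · rintro ⟨_, ⟨w, rfl⟩, rfl⟩
      refine ⟨piR Γ O w, ?_⟩
      show eBar D * piR Γ O w = piR Γ O (w * Eh)
      rw [map_mul, D.e_comm]
  rw [h2, finrank_imS d S htf hpure, hrank]

end CycData

end Data

section AbsPoly

variable {k : Type*} {R : Type*} [Field k] [Ring R] [Algebra k R]

theorem comm_aevalR {a z : R} (h : Commute a z) (q : k[X]) : Commute a (aeval z q) := by
  induction q using Polynomial.induction_on' with
  | add p q hp hq =>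
    rw [map_add]
    exact hp.add_right hq
  | monomial n c =>
    rw [aeval_monomial]
    exact Commute.mul_right (show Commute a (algebraMap k R c) from (Algebra.commutes' c a).symm) (h.pow_right n)

theorem exists_poly_inv {y : R} {N : ℕ} (hyN : y ^ N = 0) {q : k[X]} (hq : q.coeff 0 ≠ 0) :
    ∃ A : k[X], aeval y A * aeval y q = 1 := by
  have h1 : IsCoprime (X : k[X]) q := (Polynomial.irreducible_X.coprime_iff_not_dvd).mpr fun h =>
    hq (Polynomial.X_dvd_iff.mp h)
  obtain ⟨B, A, hAB⟩ := h1.pow_left (m := N)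
  refine ⟨A, ?_⟩
  have h2 := congrArg (aeval y) hAB
  simp only [map_add, map_mul, map_pow, aeval_X, hyN, mul_zero, zero_add, map_one] at h2
  exact h2

theorem aeval_pow_eq_zero {y : R} {N : ℕ} (hyN : y ^ N = 0) {q : k[X]} (hq : q.coeff 0 = 0) :
    (aeval y q) ^ N = 0 := by
  obtain ⟨W, rfl⟩ := Polynomial.X_dvd_iff.mpr hq
  rw [map_mul, aeval_X]
  have hc : Commute y (aeval y W) := comm_aevalR (Commute.refl y) W
  rw [hc.mul_pow, hyN, zero_mul]

variable {lam : R →ₗ[k] k} {e y : R} {N : ℕ}

namespace CenData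

variable (D : CenData lam e y N)
include D

theorem aeval_comm (q : k[X]) (r : R) : aeval y q * r = r * aeval y q :=
  (comm_aevalR (a := r) (D.hyc r).symm q).symm.eq

theorem aeval_mul_pow (q : k[X]) (m : ℕ) (hm : 0 < m) : (aeval y q * e) ^ m = aeval y q ^ m * e := by
  induction m with
  | zero => omega
  | succ m ih =>
    by_cases h0 : m = 0
    · simp [h0]
    · rw [pow_succ, ih (Nat.pos_of_ne_zero h0), pow_succ]
      calc aeval y q ^ m * e * (aeval y q * e) = aeval y q ^ m * (e * aeval y q) * e := by simp only [mul_assoc]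
        _ = aeval y q ^ m * (aeval y q * e) * e := by rw [D.hec]
        _ = _ := by simp only [mul_assoc, D.hee]

/-- A central element with non-nilpotent block part is invertible on the block. -/
theorem exists_inv_of_not_nil {c : R} (hc : ∀ r, c * r = r * c) (hnil : ∀ m, 0 < m → (e * c) ^ m ≠ 0) :
    ∃ v : R, (∀ r, v * r = r * v) ∧ v * (c * e) = e := by
  obtain ⟨q, hq⟩ := D.hcen c hc
  have hq0 : q.coeff 0 ≠ 0 := by
    intro h0
    apply hnil N D.hN
    rw [hq, D.aeval_mul_pow q N D.hN, aeval_pow_eq_zero D.hyN h0, zero_mul]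
  obtain ⟨A, hA⟩ := exists_poly_inv D.hyN hq0
  refine ⟨aeval y A, D.aeval_comm A, ?_⟩
  rw [← D.hec, hq, ← mul_assoc, hA, one_mul]

theorem e_ne_zero' : e ≠ 0 := by
  intro h
  apply D.hyN1
  rw [h, mul_zero]

/-- An automorphism fixing the idempotent maps the nilpotent generator to a polynomial in it. -/
theorem exists_poly_of_aut (σ : R ≃ₐ[k] R) (hσe : σ e = e) : ∃ g : k[X], g.coeff 0 = 0 ∧ σ y = aeval y g := by
  have hc : ∀ r, σ y * r = r * σ y := by
    intro r
    obtain ⟨s, rfl⟩ := σ.surjective r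
    rw [← map_mul, ← map_mul, D.hyc]
  obtain ⟨q, hq⟩ := D.hcen (σ y) hc
  have hσy : e * σ y = σ y := by
    rw [← hσe, ← map_mul, D.hey]
  rw [hσy] at hq
  have hq0 : q.coeff 0 = 0 := by
    by_contra h0
    obtain ⟨A, hA⟩ := exists_poly_inv D.hyN h0
    have h1 : (σ y) ^ N = 0 := by
      rw [← map_pow, D.hyN, map_zero]
    rw [hq, D.aeval_mul_pow q N D.hN] at h1
    apply D.e_ne_zero'
    have h2 : (aeval y A) ^ N * (aeval y q) ^ N = 1 := by
      have hcm : Commute (aeval y A) (aeval y q) := comm_aevalR (a := aeval y A) (comm_aevalR (Commute.refl y) A).symm q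
      rw [← hcm.mul_pow, hA, one_pow]
    calc e = (aeval y A) ^ N * (aeval y q) ^ N * e := by rw [h2, one_mul]
      _ = (aeval y A) ^ N * ((aeval y q) ^ N * e) := by rw [mul_assoc]
      _ = 0 := by rw [h1, mul_zero]
  refine ⟨q, hq0, ?_⟩
  rw [hq]
  obtain ⟨W, rfl⟩ := Polynomial.X_dvd_iff.mpr hq0
  rw [map_mul, aeval_X, mul_assoc, D.aeval_comm W e, ← mul_assoc, ← D.hec, D.hey]

end CenData

/-- The upper bound of the dimension by the corner. -/
theorem finrank_le_corner {i : R} {n : ℕ} {c d : Fin n → R} [Module.Finite k R] (D : CenData lam e y N)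
    (hC : Corner (k := k) e y i c d) :
    finrank k (LinearMap.range (LinearMap.mulLeft k e)) ≤ n * n * N := by
  classical
  let v : (Fin n × Fin n) × Fin N → R := fun p => c p.1.1 * y ^ (p.2 : ℕ) * d p.1.2
  have hle : LinearMap.range (LinearMap.mulLeft k e) ≤ Submodule.span k (Set.range v) := by
    rintro _ ⟨r, rfl⟩
    show e * r ∈ _
    have h1 : e * r = ∑ j, ∑ l, c j * (d j * r * c l) * d l := by
      have h2 : e * r = e * r * e := by rw [D.hec r, mul_assoc, D.hee]
      calc e * r = e * r * e := h2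
        _ = (∑ j, c j * d j) * r * (∑ l, c l * d l) := by rw [hC.hsum]
        _ = _ := by
          rw [Finset.sum_mul, Finset.sum_mul]
          refine Finset.sum_congr rfl fun j _ => ?_
          rw [Finset.mul_sum]
          refine Finset.sum_congr rfl fun l _ => ?_
          simp only [mul_assoc]
    rw [h1]
    refine Submodule.sum_mem _ fun j _ => Submodule.sum_mem _ fun l _ => ?_
    obtain ⟨q, hq⟩ := hC.hcorner (d j * r * c l)
    have h2 : i * (d j * r * c l) * i = d j * r * c l := by
      rw [← mul_assoc, ← mul_assoc, hC.hid, mul_assoc, hC.hci]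
    rw [h2] at hq
    rw [hq, aeval_eq_sum_range]
    rw [Finset.sum_mul, Finset.mul_sum, Finset.sum_mul]
    refine Submodule.sum_mem _ fun m _ => ?_
    have h3 : c j * (q.coeff m • y ^ m * i) * d l = q.coeff m • (c j * y ^ m * d l) := by
      rw [smul_mul_assoc, mul_smul_comm, smul_mul_assoc]
      congr 1
      rw [mul_assoc (c j), mul_assoc (y ^ m), hC.hid, mul_assoc]
    rw [h3]
    refine Submodule.smul_mem _ _ ?_
    by_cases hm : m < N
    · exact Submodule.subset_span ⟨((j, l), ⟨m, hm⟩), rfl⟩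
    · rw [pow_eq_zero_of_le (by omega) D.hyN]
      simp
  calc finrank k (LinearMap.range (LinearMap.mulLeft k e)) ≤ finrank k (Submodule.span k (Set.range v)) :=
        Submodule.finrank_mono hle
    _ ≤ Fintype.card ((Fin n × Fin n) × Fin N) := finrank_range_le_card v
    _ = _ := by simp

end AbsPoly

end Cfsg.Agent.Lib.FF
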