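import Cfsg.Agent.S3061
import Cfsg.Agent.S3062
import Mathlib

/-!
Ambient-level API for `dStarOf S`: `S` a `p`-subgroup of a group `G`.
-/

set_option autoImplicit false
open Cfsg

namespace Cfsg.Agent.Lib.FF

open Subgroup
open scoped commutatorElement

variable {G : Type*} [Group G]

theorem dStarOf_le (S : Subgroup G) : dStarOf S ≤ S := by
  rintro _ ⟨a, _, rfl⟩; exact a.2

variable [Finite G] {p : ℕ} [Fact p.Prime] {S : Subgroup G}

theorem dStarOf_comm (hS : IsPGroup p S) {a b : G} (ha : a ∈ dStarOf S) (hb : b ∈ dStarOf S) :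
    a * b = b * a := by
  obtain ⟨a', ha', rfl⟩ := ha
  obtain ⟨b', hb', rfl⟩ := hb
  exact congrArg Subtype.val
    (congrArg Subtype.val ((Cfsg.Agent.S3061.result hS).1.is_comm.comm ⟨a', ha'⟩ ⟨b', hb'⟩))

theorem dStarOf_family (hS : IsPGroup p S) {x : G} (hx : x ∈ S)
    (h : ⁅⁅dStarOf S ⊔ zpowers x, dStarOf S ⊔ zpowers x⁆, dStarOf S ⊔ zpowers x⁆ = ⊥)
    {a : G} (ha : a ∈ dStarOf S) : a * x = x * a := by
  let x' : S := ⟨x, hx⟩
  have hmap : (dStar S ⊔ zpowers x').map S.subtype = dStarOf S ⊔ zpowers x := by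
    rw [Subgroup.map_sup, MonoidHom.map_zpowers]; rfl
  have h0 : ⁅⁅dStar S ⊔ zpowers x', dStar S ⊔ zpowers x'⁆, dStar S ⊔ zpowers x'⁆ = ⊥ := by
    apply (map_eq_bot_iff_of_injective _ S.subtype_injective).mp
    rw [Subgroup.map_commutator, Subgroup.map_commutator, hmap]; exact h
  obtain ⟨a', ha', rfl⟩ := ha
  exact congrArg Subtype.val ((Cfsg.Agent.S3061.result hS).2 x' h0 a' ha')

theorem dStarOf_conj (hS : IsPGroup p S) {s a : G} (hs : s ∈ S) (ha : a ∈ dStarOf S) :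
    s * a * s⁻¹ ∈ dStarOf S := by
  obtain ⟨a', ha', rfl⟩ := ha
  have h1 := Cfsg.Agent.S3062.conj_family (Cfsg.Agent.S3061.result hS) ⟨s, hs⟩
  have h2 : (dStar S).map (MulAut.conj (⟨s, hs⟩ : S)).toMonoidHom ≤ dStar S := le_sSup h1
  have h3 := h2 ⟨a', ha', rfl⟩
  exact ⟨_, h3, by simp [MulAut.conj_apply]⟩

omit [Finite G] [Fact p.Prime] in
theorem le_dStarOf {A : Subgroup G} (hA : A ≤ S) (hc : ∀ a ∈ A, ∀ b ∈ A, a * b = b * a)
    (hf : ∀ x ∈ S, ⁅⁅A ⊔ zpowers x, A ⊔ zpowers x⁆, A ⊔ zpowers x⁆ = ⊥ → ∀ a ∈ A, a * x = x * a) :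
    A ≤ dStarOf S := by
  have hmem : A.subgroupOf S ∈ dStarFamily S := by
    refine ⟨⟨⟨?_⟩⟩, ?_⟩
    · rintro ⟨a, ha⟩ ⟨b, hb⟩
      exact Subtype.ext (Subtype.ext (hc _ ha _ hb))
    · intro x hx a ha
      have hmap : (A.subgroupOf S ⊔ zpowers x).map S.subtype = A ⊔ zpowers (x : G) := by
        rw [Subgroup.map_sup, MonoidHom.map_zpowers, subgroupOf_map_subtype, inf_eq_left.mpr hA]; rfl
      have h1 : ⁅⁅A ⊔ zpowers (x : G), A ⊔ zpowers (x : G)⁆, A ⊔ zpowers (x : G)⁆ = ⊥ := by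
        rw [← hmap, ← Subgroup.map_commutator, ← Subgroup.map_commutator, hx, Subgroup.map_bot]
      exact Subtype.ext (hf x x.2 h1 a ha)
  intro a ha
  exact ⟨⟨a, hA ha⟩, le_sSup hmem ha, rfl⟩

end Cfsg.Agent.Lib.FF
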