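import Mathlib
import Cfsg.Agent.Lib.Char.Gallagher
import Cfsg.Agent.Lib.Char.Projective
import Cfsg.Agent.Lib.Char.Clifford2
import Cfsg.Agent.Lib.OddChar.Inertia
import Cfsg.Agent.Lib.Hall.Converse

/-!
# A complement from a regular action; a relative Frattini argument
-/

set_option autoImplicit false
set_option linter.unusedSectionVars false
set_option linter.unusedVariables false
set_option linter.style.haveILetI false
set_option linter.unusedSimpArgs false

open scoped ComplexConjugate Pointwise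
open Module Cfsg Cfsg.Agent.Lib.Char

namespace Cfsg.Agent.Lib.FF

section FR1

universe u

/-- If `Γ = V T` then the index of `T` equals that of `V ∩ T` in `V`. -/
theorem index_eq_relIndex_of_mul {Γ : Type*} [Group Γ] [Finite Γ] (V T : Subgroup Γ)
    (hVT : ∀ γ : Γ, ∃ v ∈ V, ∃ t ∈ T, γ = v * t) : T.index = T.relIndex V := by
  classical
  have hbij : Function.Bijective (fun q : V ⧸ (T.subgroupOf V) =>
      Quotient.liftOn' q (fun v : V => ((v : Γ) : Γ ⧸ T)) (by
        intro a b h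
        rw [QuotientGroup.leftRel_apply] at h
        exact (QuotientGroup.eq).2 (by simpa [Subgroup.mem_subgroupOf] using h))) := by
    constructor
    · intro a b
      induction a using QuotientGroup.induction_on with | _ a => ?_
      induction b using QuotientGroup.induction_on with | _ b => ?_
      intro h
      have h' : ((a : Γ) : Γ ⧸ T) = ((b : Γ) : Γ ⧸ T) := h
      rw [QuotientGroup.eq] at h'
      exact (QuotientGroup.eq).2 (by simpa [Subgroup.mem_subgroupOf] using h')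
    · intro q
      induction q using QuotientGroup.induction_on with | _ g => ?_
      obtain ⟨v, hv, t, ht, rfl⟩ := hVT g
      refine ⟨((⟨v, hv⟩ : V) : V ⧸ (T.subgroupOf V)), ?_⟩
      refine (QuotientGroup.eq).2 ?_
      simpa using ht
  exact (Nat.card_congr (Equiv.ofBijective _ hbij)).symm

/-- The abstract complement. -/
theorem compl_abstract {Γ Q : Type*} [Group Γ] [Group Q] [Finite Γ] (φ : Γ →* Q)
    (hφ : Function.Surjective φ) (V T : Subgroup Γ) (p : ℕ) (hp : p.Prime)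
    (hVT : ∀ γ : Γ, ∃ v ∈ V, ∃ t ∈ T, γ = v * t)
    (hint : V ⊓ T = V ⊓ φ.ker)
    (hpow : ∃ a, (V ⊓ φ.ker).relIndex V = p ^ a)
    (hcop : ¬ p ∣ (V ⊓ φ.ker).relIndex φ.ker) :
    (V.map φ).IsComplement' (T.map φ) := by
  classical
  set C : Subgroup Γ := φ.ker with hC
  obtain ⟨a, ha⟩ := hpow
  have hTidx : T.index = p ^ a := by
    rw [index_eq_relIndex_of_mul V T hVT, ← ha, ← hint, inf_comm V T]
    exact (Subgroup.inf_relIndex_right T V).symm
  -- the second isomorphism count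
  have hcard : ∀ {X Y : Subgroup Γ}, X ≤ Y → Nat.card X * X.relIndex Y = Nat.card Y := by
    intro X Y hXY
    have := Subgroup.relIndex_mul_relIndex (⊥ : Subgroup Γ) X Y bot_le hXY
    rwa [Subgroup.relIndex_bot_left, Subgroup.relIndex_bot_left] at this
  have h1 : C.relIndex (C ⊔ T) = C.relIndex T := Subgroup.relIndex_sup_left T C
  have h2 : (C ⊓ T).relIndex T = C.relIndex T := Subgroup.inf_relIndex_right C T
  have e1 := hcard (le_sup_left : C ≤ C ⊔ T)
  have e2 := hcard (inf_le_right : C ⊓ T ≤ T)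
  have e3 := hcard (le_sup_right : T ≤ C ⊔ T)
  have e4 := hcard (inf_le_left : C ⊓ T ≤ C)
  rw [h1] at e1
  rw [h2] at e2
  have hipos : 0 < C.relIndex T := by
    refine Nat.pos_of_ne_zero fun h0 => ?_
    rw [h0, mul_zero] at e2
    exact (Nat.card_pos (α := T)).ne e2
  have hC0pos : 0 < Nat.card ↥(C ⊓ T) := Nat.card_pos
  have hrs : T.relIndex (C ⊔ T) = (C ⊓ T).relIndex C := by
    have h3 : Nat.card ↥(C ⊓ T) * C.relIndex T * T.relIndex (C ⊔ T) =
        Nat.card ↥(C ⊓ T) * (C ⊓ T).relIndex C * C.relIndex T := by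
      rw [e2, e3, e4, e1]
    have h4 : C.relIndex T * (Nat.card ↥(C ⊓ T) * T.relIndex (C ⊔ T)) =
        C.relIndex T * (Nat.card ↥(C ⊓ T) * (C ⊓ T).relIndex C) := by
      nlinarith [h3]
    have h5 := Nat.eq_of_mul_eq_mul_left hipos h4
    exact Nat.eq_of_mul_eq_mul_left hC0pos h5
  have hrdvd : T.relIndex (C ⊔ T) ∣ p ^ a := by
    rw [← hTidx, ← Subgroup.relIndex_mul_index (le_sup_right : T ≤ C ⊔ T)]
    exact dvd_mul_right _ _
  have hDle : V ⊓ C ≤ C ⊓ T := by
    intro x hx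
    refine ⟨hx.2, ?_⟩
    have : x ∈ V ⊓ T := by rw [hint]; exact hx
    exact this.2
  have hsdvd : (C ⊓ T).relIndex C ∣ (V ⊓ C).relIndex C := Subgroup.relIndex_dvd_of_le_left C hDle
  have hs1 : (C ⊓ T).relIndex C = 1 := by
    rw [← hrs] at hsdvd ⊢
    obtain ⟨k, hk, hk'⟩ := (Nat.dvd_prime_pow hp).1 hrdvd
    rcases Nat.eq_zero_or_pos k with rfl | hkpos
    · simpa using hk'
    · exfalso
      apply hcop
      rw [hk'] at hsdvd
      exact (dvd_pow_self p hkpos.ne').trans hsdvd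
  have hCT : C ≤ T := by
    have := Subgroup.relIndex_eq_one.1 hs1
    exact this.trans inf_le_right
  refine Subgroup.isComplement'_of_disjoint_and_mul_eq_univ ?_ ?_
  · rw [Subgroup.disjoint_def]
    intro x hx hx'
    obtain ⟨v, hv, rfl⟩ := hx
    obtain ⟨t, ht, htv⟩ := hx'
    have h6 : v⁻¹ * t ∈ C := by
      rw [hC, MonoidHom.mem_ker, map_mul, map_inv, htv]
      simp
    have h7 : v⁻¹ ∈ T := by
      have := T.mul_mem (hCT h6) (T.inv_mem ht)
      simpa using this
    have h8 : v ∈ T := by simpa using T.inv_mem h7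
    have h9 : v ∈ V ⊓ T := ⟨hv, h8⟩
    rw [hint] at h9
    exact h9.2
  · ext q
    simp only [Set.mem_mul, Set.mem_univ, iff_true]
    obtain ⟨γ, rfl⟩ := hφ q
    obtain ⟨v, hv, t, ht, rfl⟩ := hVT γ
    exact ⟨φ v, ⟨v, hv, rfl⟩, φ t, ⟨t, ht, rfl⟩, (map_mul φ v t).symm⟩

/-- Relative Frattini: if `Z ≤ R ≤ K`, with `Z`, `K` normal, `R / Z` a `p`-group and `p` not
dividing `|K : R|`, then each element of `G` is in `N_G(R) K`. -/
theorem frattini_rel {G : Type*} [Group G] [Finite G] (Z K R : Subgroup G) [hZn : Z.Normal]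
    [hKn : K.Normal] (hZR : Z ≤ R) (hRK : R ≤ K) (p : ℕ) [hp : Fact p.Prime]
    (hpow : ∃ b, Z.relIndex R = p ^ b) (hcop : ¬ p ∣ R.relIndex K) (g : G) :
    ∃ n ∈ Subgroup.normalizer (R : Set G), ∃ k ∈ K, g = n * k := by
  classical
  set f := QuotientGroup.mk' Z with hf
  have hfs : Function.Surjective f := QuotientGroup.mk'_surjective Z
  have hker : f.ker = Z := QuotientGroup.ker_mk' Z
  set Rb := R.map f with hRb
  set Kb := K.map f with hKb
  haveI hKbn : Kb.Normal := Subgroup.Normal.map hKn f hfs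
  have hRbKb : Rb ≤ Kb := Subgroup.map_mono hRK
  have hRidx : Rb.index = R.index := Subgroup.index_map_eq R hfs (by rw [hker]; exact hZR)
  have hKidx : Kb.index = K.index := Subgroup.index_map_eq K hfs (by rw [hker]; exact hZR.trans hRK)
  have hrel : Rb.relIndex Kb = R.relIndex K := by
    have h1 := Subgroup.relIndex_mul_index hRbKb
    have h2 := Subgroup.relIndex_mul_index hRK
    rw [hRidx, hKidx] at h1
    have hK0 : 0 < K.index := Nat.pos_of_ne_zero Subgroup.index_ne_zero_of_finite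
    exact Nat.eq_of_mul_eq_mul_right hK0 (h1.trans h2.symm)
  obtain ⟨b, hb⟩ := hpow
  have hRbcard : Nat.card Rb = p ^ b := by
    have h1 := Subgroup.card_mul_index Rb
    have h2 := Subgroup.relIndex_mul_index hZR
    rw [hRidx] at h1
    have h3 : Nat.card (G ⧸ Z) = Z.index := rfl
    rw [h3, ← h2, hb] at h1
    have hR0 : 0 < R.index := Nat.pos_of_ne_zero Subgroup.index_ne_zero_of_finite
    exact Nat.eq_of_mul_eq_mul_right hR0 h1
  have hRbp : IsPGroup p Rb := IsPGroup.of_card hRbcard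
  let P₀ : Subgroup Kb := Rb.subgroupOf Kb
  have hP₀ : IsPGroup p P₀ := hRbp.comap_subtype
  have hP₀idx : ¬ p ∣ P₀.index := by
    have : P₀.index = Rb.relIndex Kb := rfl
    rw [this, hrel]
    exact hcop
  let S : Sylow p Kb := hP₀.toSylow hP₀idx
  have hS : (S : Subgroup Kb) = P₀ := IsPGroup.toSylow_coe hP₀ hP₀idx
  have hfr := Sylow.normalizer_sup_eq_top S
  have hmap : (↑S : Subgroup Kb).map Kb.subtype = Rb := by
    rw [hS]
    exact Subgroup.map_subgroupOf_eq_of_le hRbKb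
  have hmem : ∀ x : G, x ∈ R ↔ f x ∈ Rb := by
    intro x
    constructor
    · intro hx
      exact Subgroup.mem_map_of_mem f hx
    · rintro ⟨r, hr, hrx⟩
      have h1 : r⁻¹ * x ∈ Z := by
        rw [← hker, MonoidHom.mem_ker, map_mul, map_inv, hrx]
        simp
      have := R.mul_mem hr (hZR h1)
      simpa using this
  have hgm : f g ∈ (Subgroup.normalizer (Rb : Set (G ⧸ Z)) ⊔ Kb : Subgroup (G ⧸ Z)) := by
    have h0 := hfr
    rw [hmap] at h0
    rw [h0]
    exact Subgroup.mem_top _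
  have hgm' : f g ∈ ((Subgroup.normalizer (Rb : Set (G ⧸ Z)) : Set (G ⧸ Z)) * (Kb : Set (G ⧸ Z))) := by
    rw [← Subgroup.mul_normal]
    exact hgm
  obtain ⟨nb, hnb, kb, hkb, hgb⟩ := hgm'
  obtain ⟨n, rfl⟩ := hfs nb
  obtain ⟨k, hk, rfl⟩ := hkb
  have hz : (n * k)⁻¹ * g ∈ Z := by
    rw [← hker, MonoidHom.mem_ker, map_mul, map_inv, map_mul]
    rw [← hgb]
    simp
  refine ⟨n, ?_, k * ((n * k)⁻¹ * g), K.mul_mem hk (hRK (hZR hz)), by group⟩
  have hnb' : f n ∈ Subgroup.normalizer (Rb : Set (G ⧸ Z)) := hnb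
  rw [Subgroup.mem_set_normalizer_iff] at hnb' ⊢
  intro h
  have h1 := hnb' (f h)
  have h2 : f n * f h * (f n)⁻¹ = f (n * h * n⁻¹) := by simp
  rw [h2] at h1
  have h3 : ∀ x : G, (x ∈ (R : Set G)) ↔ f x ∈ (Rb : Set (G ⧸ Z)) := hmem
  rw [h3 h, h3 (n * h * n⁻¹)]
  exact h1

end FR1

end Cfsg.Agent.Lib.FF
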