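import Cfsg.Agent.Lib.FF.FR1

/-!
# Fully ramified characters: uniqueness over a Sylow section, transitivity, regularity
-/

set_option autoImplicit false
set_option linter.unusedSectionVars false
set_option linter.unusedVariables false
set_option linter.style.haveILetI false
set_option linter.unusedSimpArgs false
set_option linter.unnecessarySimpa false

open scoped ComplexConjugate Pointwise
open Module Cfsg Cfsg.Agent.Lib.Char

namespace Cfsg.Agent.Lib.FF

section FR2

universe u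

/-- Some irreducible constituent stays over `θ`. -/
theorem exists_irr_over {X Y : Type*} [Group X] [Fintype X] [Group Y] [Fintype Y] (ι : Y →* X)
    (β : X → ℂ) (hβ : IsClassFunction X β) (θ : Y → ℂ)
    (h : classInner (β ∘ ι) θ ≠ 0) : ∃ ξ : X → ℂ, IsIrrCharacter X ξ ∧ classInner (ξ ∘ ι) θ ≠ 0 := by
  classical
  by_contra hcon
  push Not at hcon
  apply h
  have h1 : β ∘ ι = ∑ ξ : IrrCharacter X, classInner β (ξ : X → ℂ) • ((ξ : X → ℂ) ∘ ι) := by
    funext y
    have h2 := congrFun (classFunction_eq_sum β hβ) (ι y)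
    simpa [Finset.sum_apply] using h2
  rw [h1, classInner_sum_left]
  refine Finset.sum_eq_zero fun ξ _ => ?_
  rw [classInner_smul_left, hcon ξ ξ.2, mul_zero]

variable {A : Type*} [Group A] [Fintype A]

/-- Key formula for a character vanishing off `Z` and equal to `e θ` on `Z`. -/
theorem fr_inner_key (Z : Subgroup A) [Fintype Z] (θ : Z → ℂ) (α : A → ℂ) (e : ℕ)
    (hαZ : ∀ z : Z, α z = e * θ z) (hα0 : ∀ g, g ∉ Z → α g = 0) (F : A → ℂ) :
    classInner α F * (Z.index : ℂ) = e * classInner θ (fun z : Z => F z) := by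
  classical
  have h1 : ∀ g, α g = e * extendByZero Z θ g := by
    intro g
    by_cases hg : g ∈ Z
    · rw [hαZ ⟨g, hg⟩, extendByZero_of_mem Z θ hg]
    · rw [hα0 g hg, extendByZero_of_not_mem Z θ hg, mul_zero]
  simp only [classInner_def]
  have h2 : ∑ g, α g * conj (F g) = e * ∑ z : Z, θ z * conj (F z) := by
    rw [← sum_extendByZero_mul Z θ (fun g => conj (F g)), Finset.mul_sum]
    exact Finset.sum_congr rfl fun g _ => by rw [h1 g]; ring
  rw [h2]
  have hc : (Nat.card A : ℂ) = (Z.index : ℂ) * (Nat.card Z : ℂ) := by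
    exact_mod_cast (Subgroup.index_mul_card Z).symm
  have h3 : (Z.index : ℂ) ≠ 0 := by exact_mod_cast Subgroup.index_ne_zero_of_finite
  have h4 : (Nat.card Z : ℂ) ≠ 0 := card_subgroup_ne_zero Z
  rw [hc]
  field_simp

/-- Uniqueness of the irreducible character over `θ`. -/
theorem fr_unique_abs (Z : Subgroup A) [Fintype Z] (θ : Z → ℂ) (hθ : IsIrrCharacter Z θ) (α : A → ℂ)
    (hα : IsCharacter A α) (e : ℕ) (hαZ : ∀ z : Z, α z = e * θ z) (hα0 : ∀ g, g ∉ Z → α g = 0)
    (p v e' : ℕ) (hp : p.Prime) (he : e = p ^ v * e') (he' : ¬ p ∣ e') (hidx : Z.index = p ^ (2 * v))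
    (ξ₁ ξ₂ : A → ℂ) (h₁ : IsIrrCharacter A ξ₁) (h₂ : IsIrrCharacter A ξ₂)
    (hn₁ : classInner (fun z : Z => ξ₁ z) θ ≠ 0) (hn₂ : classInner (fun z : Z => ξ₂ z) θ ≠ 0) :
    ξ₁ = ξ₂ := by
  classical
  have he'0 : 0 < e' := Nat.pos_of_ne_zero (by rintro rfl; exact he' (dvd_zero p))
  have hpv : 0 < p ^ v := pow_pos hp.pos v
  have hθc := IsIrrCharacter.isCharacter hθ
  -- each multiplicity is at least `e'`
  have hm : ∀ ξ : A → ℂ, IsIrrCharacter A ξ → classInner (fun z : Z => ξ z) θ ≠ 0 →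
      ∃ m : ℕ, classInner α ξ = m ∧ e' ≤ m := by
    intro ξ hξ hne
    have hξc := IsIrrCharacter.isCharacter hξ
    obtain ⟨m, hm⟩ := classInner_isCharacter_nat hα hξc
    obtain ⟨d, hd⟩ := classInner_isCharacter_nat hθc (IsCharacter.restrict Z hξc)
    have hk := fr_inner_key Z θ α e hαZ hα0 ξ
    rw [hm, hd, hidx, he] at hk
    have hk' : m * p ^ (2 * v) = p ^ v * e' * d := by exact_mod_cast hk
    have hk2 : m * p ^ v = e' * d := by
      have : p ^ v * (m * p ^ v) = p ^ v * (e' * d) := by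
        rw [two_mul, pow_add] at hk'
        nlinarith [hk']
      exact Nat.eq_of_mul_eq_mul_left hpv this
    have hd0 : d ≠ 0 := by
      rintro rfl
      apply hne
      rw [← conj_classInner, hd]
      simp
    have hdvd : p ^ v ∣ d := by
      have h1 : p ^ v ∣ e' * d := ⟨m, by rw [← hk2]; ring⟩
      have hcop : Nat.Coprime (p ^ v) e' :=
        Nat.Coprime.pow_left _ ((Nat.Prime.coprime_iff_not_dvd hp).2 he')
      exact hcop.dvd_of_dvd_mul_left h1
    have hle : p ^ v ≤ d := Nat.le_of_dvd (Nat.pos_of_ne_zero hd0) hdvd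
    refine ⟨m, hm, ?_⟩
    have : e' * p ^ v ≤ m * p ^ v := by
      rw [hk2]
      exact Nat.mul_le_mul_left _ hle
    exact Nat.le_of_mul_le_mul_right this hpv
  -- the norm of `α`
  have hnorm : classInner α α = (e' ^ 2 : ℕ) := by
    have hk := fr_inner_key Z θ α e hαZ hα0 α
    have h1 : classInner θ (fun z : Z => α z) = (e : ℂ) := by
      have h2 : (fun z : Z => α z) = (e : ℂ) • θ := by
        funext z
        simp [hαZ z]
      rw [h2, classInner_smul_right, classInner_irr_self hθ]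
      simp
    rw [h1, hidx, he] at hk
    have hpc : ((p : ℂ) ^ v) ≠ 0 := by exact_mod_cast hpv.ne'
    have h3 : classInner α α * ((p : ℂ) ^ v * (p : ℂ) ^ v) = ((e' : ℂ) ^ 2) * ((p : ℂ) ^ v * (p : ℂ) ^ v) := by
      rw [two_mul, pow_add] at hk
      push_cast at hk
      rw [hk]
      ring
    have h4 := mul_right_cancel₀ (mul_ne_zero hpc hpc) h3
    rw [h4]
    push_cast
    rfl
  by_contra hne
  -- the coordinates
  obtain ⟨m₁, hm₁, hle₁⟩ := hm ξ₁ h₁ hn₁
  obtain ⟨m₂, hm₂, hle₂⟩ := hm ξ₂ h₂ hn₂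
  choose c hc using fun ψ : IrrCharacter A => classInner_isCharacter_nat hα
    (IsIrrCharacter.isCharacter ψ.2)
  have hexp : α = ∑ ψ : IrrCharacter A, (c ψ : ℂ) • (ψ : A → ℂ) := by
    conv_lhs => rw [classFunction_eq_sum α (IsCharacter.isClassFunction hα)]
    exact Finset.sum_congr rfl fun ψ _ => by rw [hc ψ]
  have hpars : classInner α α = ((∑ ψ, (c ψ : ℤ) ^ 2 : ℤ) : ℂ) := by
    have := classInner_self_eq_sum_int (G := A) (fun ψ => (c ψ : ℤ))
    simp only [Int.cast_natCast] at this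
    rw [← hexp] at this
    exact this
  rw [hnorm] at hpars
  have hZ : ((e' ^ 2 : ℕ) : ℤ) = ∑ ψ, (c ψ : ℤ) ^ 2 := by exact_mod_cast hpars
  set a₁ : IrrCharacter A := ⟨ξ₁, h₁⟩
  set a₂ : IrrCharacter A := ⟨ξ₂, h₂⟩
  have hc₁ : c a₁ = m₁ := by
    have := hc a₁
    rw [show (a₁ : A → ℂ) = ξ₁ from rfl, hm₁] at this
    exact_mod_cast this.symm
  have hc₂ : c a₂ = m₂ := by
    have := hc a₂
    rw [show (a₂ : A → ℂ) = ξ₂ from rfl, hm₂] at this
    exact_mod_cast this.symm
  have hne' : a₁ ≠ a₂ := fun h => hne (congrArg Subtype.val h)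
  have hge : (c a₁ : ℤ) ^ 2 + (c a₂ : ℤ) ^ 2 ≤ ∑ ψ, (c ψ : ℤ) ^ 2 := by
    have h1 : ∑ ψ ∈ ({a₁, a₂} : Finset (IrrCharacter A)), (c ψ : ℤ) ^ 2 ≤ ∑ ψ, (c ψ : ℤ) ^ 2 :=
      Finset.sum_le_sum_of_subset_of_nonneg (Finset.subset_univ _) (fun _ _ _ => sq_nonneg _)
    rwa [Finset.sum_pair hne'] at h1
  rw [hc₁, hc₂, ← hZ] at hge
  have h5 : (e' : ℤ) ≤ m₁ := by exact_mod_cast hle₁
  have h6 : (e' : ℤ) ≤ m₂ := by exact_mod_cast hle₂
  have h7 : (0 : ℤ) < e' := by exact_mod_cast he'0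
  push_cast at hge
  nlinarith

theorem isCyc_quot {X Y : Type*} [Group X] [Group Y] [IsCyclic Y] (f : X →* Y) (L : Subgroup X)
    [L.Normal] (hL : L = f.ker) : IsCyclic (X ⧸ L) := by
  subst hL
  exact isCyclic_of_injective (QuotientGroup.kerLift f) (QuotientGroup.kerLift_injective f)

section Level2

variable (K' Z' : Subgroup A) [Fintype K'] [Fintype Z'] (hZK : Z' ≤ K')

/-- Being over `θ` passes up through constituents. -/
theorem over_of_constituent (θ : Z' → ℂ) (hθ : IsCharacter Z' θ) {α : A → ℂ} (hα : IsCharacter A α)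
    {ψ : K' → ℂ} (hψ : IsIrrCharacter K' ψ) (h1 : classInner (fun n : K' => α n) ψ ≠ 0)
    (h2 : classInner (fun z : Z' => ψ ⟨z, hZK z.2⟩) θ ≠ 0) :
    classInner (fun z : Z' => α z) θ ≠ 0 := by
  classical
  have hres := IsCharacter.restrict K' hα
  have hκ := isCharacter_sub_of_constituent hres hψ h1
  have hκ' := IsCharacter.comp (Subgroup.inclusion hZK) hκ
  have hψ' := IsCharacter.comp (Subgroup.inclusion hZK) (IsIrrCharacter.isCharacter hψ)
  have hsum : (fun z : Z' => α z) = (ψ ∘ Subgroup.inclusion hZK) +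
      ((fun n : K' => α n) - ψ) ∘ Subgroup.inclusion hZK := by
    funext z
    simp [Subgroup.inclusion]
  rw [hsum, classInner_add_left]
  obtain ⟨a, ha⟩ := classInner_isCharacter_nat hψ' hθ
  obtain ⟨b, hb⟩ := classInner_isCharacter_nat hκ' hθ
  have h2' : classInner (ψ ∘ Subgroup.inclusion hZK) θ ≠ 0 := h2
  rw [ha] at h2' ⊢
  rw [hb]
  have ha0 : a ≠ 0 := by
    rintro rfl
    simp at h2'
  norm_cast
  omega

/-- Every irreducible character of a subgroup is under an irreducible character. -/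
theorem exists_irr_above {ψ : K' → ℂ} (hψ : IsIrrCharacter K' ψ) :
    ∃ ξ : A → ℂ, IsIrrCharacter A ξ ∧ classInner (fun n : K' => ξ n) ψ ≠ 0 := by
  classical
  have hψc := IsIrrCharacter.isCharacter hψ
  have hne : indFun K' ψ ≠ 0 := by
    intro h0
    have h1 := congrFun h0 1
    rw [indFun_one, Pi.zero_apply] at h1
    have ht : (K'.index : ℂ) ≠ 0 := by
      exact_mod_cast Subgroup.index_ne_zero_of_finite
    exact (mul_ne_zero ht (map_one_ne_zero_of_irr hψ)) h1
  obtain ⟨ξ, hξ, hi⟩ := exists_constituent (indFun_isCharacter K' hψc) hne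
  refine ⟨ξ, hξ, ?_⟩
  rw [frobenius_reciprocity K' ψ ξ (IsCharacter.isClassFunction (IsIrrCharacter.isCharacter hξ))] at hi
  intro h0
  apply hi
  rw [← conj_classInner, h0, map_zero]

/-- Uniqueness over `θ` gives transitivity over the normal subgroup `K'`. -/
theorem fr_trans (hN : K'.Normal) (θ : Z' → ℂ) (hθ : IsIrrCharacter Z' θ)
    (huniq : ∀ ξ₁ ξ₂ : A → ℂ, IsIrrCharacter A ξ₁ → IsIrrCharacter A ξ₂ →
      classInner (fun z : Z' => ξ₁ z) θ ≠ 0 → classInner (fun z : Z' => ξ₂ z) θ ≠ 0 → ξ₁ = ξ₂)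
    {ψ ψ' : K' → ℂ} (hψ : IsIrrCharacter K' ψ) (hψ' : IsIrrCharacter K' ψ')
    (h1 : classInner (fun z : Z' => ψ ⟨z, hZK z.2⟩) θ ≠ 0)
    (h2 : classInner (fun z : Z' => ψ' ⟨z, hZK z.2⟩) θ ≠ 0) :
    ∃ g : A, ψ' = conjFn hN g ψ := by
  classical
  have hθc := IsIrrCharacter.isCharacter hθ
  obtain ⟨ξ, hξ, hi⟩ := exists_irr_above K' hψ
  obtain ⟨ξ', hξ', hi'⟩ := exists_irr_above K' hψ'
  have h3 := over_of_constituent K' Z' hZK θ hθc (IsIrrCharacter.isCharacter hξ) hψ hi h1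
  have h4 := over_of_constituent K' Z' hZK θ hθc (IsIrrCharacter.isCharacter hξ') hψ' hi' h2
  have h5 := huniq ξ ξ' hξ hξ' h3 h4
  rw [← h5] at hi'
  exact clifford_constituent_conj hN hξ hψ hψ' hi hi'

/-- The index formula `|A : K'| = m² |A : S|`. -/
theorem fr_index (hN : K'.Normal) (θ : Z' → ℂ) (hθ : IsIrrCharacter Z' θ)
    (huniq : ∀ ξ₁ ξ₂ : A → ℂ, IsIrrCharacter A ξ₁ → IsIrrCharacter A ξ₂ →
      classInner (fun z : Z' => ξ₁ z) θ ≠ 0 → classInner (fun z : Z' => ξ₂ z) θ ≠ 0 → ξ₁ = ξ₂)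
    {ψ : K' → ℂ} (hψ : IsIrrCharacter K' ψ)
    (h1 : classInner (fun z : Z' => ψ ⟨z, hZK z.2⟩) θ ≠ 0) :
    ∃ (ξ : A → ℂ) (m : ℕ), IsIrrCharacter A ξ ∧ classInner (fun n : K' => ξ n) ψ = m ∧ m ≠ 0 ∧
      classInner (fun z : Z' => ξ z) θ ≠ 0 ∧
      K'.index = m ^ 2 * (inertia hN ψ).index := by
  classical
  have hθc := IsIrrCharacter.isCharacter hθ
  have hψc := IsIrrCharacter.isCharacter hψ
  obtain ⟨ξ, hξ, hi⟩ := exists_irr_above K' hψ
  have hξc := IsIrrCharacter.isCharacter hξ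
  obtain ⟨m, hm⟩ := classInner_isCharacter_nat (IsCharacter.restrict K' hξc) hψc
  have hm0 : m ≠ 0 := by
    rintro rfl
    exact hi (by simpa using hm)
  have h3 := over_of_constituent K' Z' hZK θ hθc hξc hψ hi h1
  refine ⟨ξ, m, hξ, hm, hm0, h3, ?_⟩
  have hcl := clifford_degree hN hξ hψ hm hm0
  -- the induced character
  have hind : indFun K' ψ = (m : ℂ) • ξ := by
    have hcf := indFun_isClassFunction K' ψ
    have hex := classFunction_eq_sum (indFun K' ψ) hcf
    rw [hex, Finset.sum_eq_single (⟨ξ, hξ⟩ : IrrCharacter A)]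
    · have h5 : classInner (indFun K' ψ) ξ = (m : ℂ) := by
        rw [frobenius_reciprocity K' ψ ξ (IsCharacter.isClassFunction hξc), ← conj_classInner, hm]
        simp
      simp only [h5]
    · intro χ _ hne
      by_cases h6 : classInner (indFun K' ψ) (χ : A → ℂ) = 0
      · rw [h6, zero_smul]
      · exfalso
        apply hne
        have hχc := IsIrrCharacter.isCharacter χ.2
        rw [frobenius_reciprocity K' ψ _ (IsCharacter.isClassFunction hχc)] at h6
        have h7 : classInner (fun n : K' => (χ : A → ℂ) n) ψ ≠ 0 := by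
          intro h0
          apply h6
          rw [← conj_classInner, h0, map_zero]
        have h8 := over_of_constituent K' Z' hZK θ hθc hχc hψ h7 h1
        exact Subtype.ext (huniq _ _ χ.2 hξ h8 h3)
    · intro h
      exact absurd (Finset.mem_univ _) h
  have h9 := congrFun hind 1
  rw [indFun_one, Pi.smul_apply, smul_eq_mul, map_one_eq_charDegree hψc, map_one_eq_charDegree hξc,
    hcl] at h9
  have hd : 0 < charDegree ψ := charDegree_pos_of_irr hψ
  have h10 : K'.index * charDegree ψ = m ^ 2 * (inertia hN ψ).index * charDegree ψ := by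
    have : ((K'.index * charDegree ψ : ℕ) : ℂ) = ((m ^ 2 * (inertia hN ψ).index * charDegree ψ : ℕ) : ℂ) := by
      push_cast
      rw [h9]
      push_cast
      ring
    exact_mod_cast this
  exact Nat.eq_of_mul_eq_mul_right hd h10

/-- When `A / K'` is cyclic the multiplicity is one. -/
theorem fr_m_one_of_cyclic (hN : K'.Normal) (hcyc : IsCyclic (A ⧸ K')) (θ : Z' → ℂ)
    (hθ : IsIrrCharacter Z' θ)
    (huniq : ∀ ξ₁ ξ₂ : A → ℂ, IsIrrCharacter A ξ₁ → IsIrrCharacter A ξ₂ →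
      classInner (fun z : Z' => ξ₁ z) θ ≠ 0 → classInner (fun z : Z' => ξ₂ z) θ ≠ 0 → ξ₁ = ξ₂)
    {ψ : K' → ℂ} (hψ : IsIrrCharacter K' ψ)
    (h1 : classInner (fun z : Z' => ψ ⟨z, hZK z.2⟩) θ ≠ 0)
    {ξ : A → ℂ} (hξ : IsIrrCharacter A ξ) (hξθ : classInner (fun z : Z' => ξ z) θ ≠ 0) :
    classInner (fun n : K' => ξ n) ψ = 1 := by
  classical
  have hθc := IsIrrCharacter.isCharacter hθ
  have hψc := IsIrrCharacter.isCharacter hψ
  letI : Fintype (inertia hN ψ) := Fintype.ofFinite _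
  have hK'S : K' ≤ inertia hN ψ := le_inertia hN (IsCharacter.isClassFunction hψc)
  let N₁ : Subgroup (inertia hN ψ) := K'.subgroupOf (inertia hN ψ)
  haveI hN₁ : N₁.Normal := hN.subgroupOf _
  let eq₁ : N₁ ≃* K' := Subgroup.subgroupOfEquivOfLe hK'S
  have hψ₁ : IsIrrCharacter N₁ (ψ ∘ eq₁) := isIrr_comp_equiv eq₁ hψ
  have hcyc₁ : IsCyclic ((inertia hN ψ) ⧸ N₁) := by
    refine isCyc_quot ((QuotientGroup.mk' K').comp (inertia hN ψ).subtype) N₁ ?_
    ext x
    simp [N₁, Subgroup.mem_subgroupOf, MonoidHom.mem_ker]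
  obtain ⟨d, X, hX, hXc⟩ := hψ₁
  have hinv : ∀ (g : inertia hN ψ) (n : N₁), X.character (nconj N₁ g n) = X.character n := by
    intro g n
    rw [hXc]
    have hg := (mem_inertia hN ψ g).1 g.2
    have hg' := congrFun hg (eq₁ n)
    exact hg'
  obtain ⟨σ, hσ⟩ := exists_rep_ext_of_cyclic N₁ hcyc₁ X hX hinv
  obtain ⟨ψh, hψh, hext⟩ := irr_extends_of_rep N₁ X hX σ hσ
  have hres : (fun n : K' => ψh ⟨n, hK'S n.2⟩) = ψ := by
    funext n
    have h2 := hext ⟨⟨n, hK'S n.2⟩, n.2⟩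
    rw [hXc] at h2
    exact h2
  have hψθ : classInner (fun n : K' => ψh ⟨n, hK'S n.2⟩) ψ ≠ 0 := by
    rw [hres, classInner_irr_self hψ]
    exact one_ne_zero
  have hΞ := indFun_isIrr_of_over hN hψ rfl hK'S hψh hψθ
  have hΞc := IsIrrCharacter.isCharacter hΞ
  have h3 : classInner (fun t : inertia hN ψ => indFun (inertia hN ψ) ψh t) ψh ≠ 0 := by
    have h4 := frobenius_reciprocity (inertia hN ψ) ψh _ (IsCharacter.isClassFunction hΞc)
    rw [classInner_irr_self hΞ] at h4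
    intro h0
    have h5 : classInner ψh (fun t : inertia hN ψ => indFun (inertia hN ψ) ψh t) = 0 := by
      rw [← conj_classInner, h0, map_zero]
    rw [h5] at h4
    exact one_ne_zero h4
  obtain ⟨-, h6⟩ := clifford_corresp_core hN hψ rfl hK'S hψh hψθ hΞ h3
  rw [hres, classInner_irr_self hψ] at h6
  have h7 : classInner (fun n : K' => indFun (inertia hN ψ) ψh n) ψ ≠ 0 := by
    rw [← h6]
    exact one_ne_zero
  have h8 := over_of_constituent K' Z' hZK θ hθc hΞc hψ h7 h1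
  rw [huniq _ _ hξ hΞ hξθ h8]
  exact h6.symm

/-- If the multiplicity is one then the inertia group is `K'`. -/
theorem fr_regular_of_index (hN : K'.Normal) {ψ : K' → ℂ} (hψ : IsIrrCharacter K' ψ)
    (h : K'.index = (inertia hN ψ).index) (u : A) (hu : conjFn hN u ψ = ψ) : u ∈ K' := by
  have hK'S : K' ≤ inertia hN ψ :=
    le_inertia hN (IsCharacter.isClassFunction (IsIrrCharacter.isCharacter hψ))
  have h1 := Subgroup.relIndex_mul_index hK'S
  have h2 : 0 < (inertia hN ψ).index := Nat.pos_of_ne_zero Subgroup.index_ne_zero_of_finite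
  rw [h] at h1
  have h3 : K'.relIndex (inertia hN ψ) = 1 := by
    have : K'.relIndex (inertia hN ψ) * (inertia hN ψ).index = 1 * (inertia hN ψ).index := by
      rw [h1, one_mul]
    exact Nat.eq_of_mul_eq_mul_right h2 this
  exact Subgroup.relIndex_eq_one.1 h3 ((mem_inertia hN ψ u).2 hu)

end Level2

end FR2

end Cfsg.Agent.Lib.FF
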