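import Cfsg.Agent.Lib.FF.FR2

/-!
# Fully ramified characters: complements in quotient groups
-/

set_option autoImplicit false
set_option linter.unusedSectionVars false
set_option linter.unusedVariables false
set_option linter.style.haveILetI false
set_option linter.unusedSimpArgs false
set_option linter.unnecessarySimpa false

open scoped ComplexConjugate Pointwise
open Module Cfsg Cfsg.Agent.Lib.Char

namespace Cfsg.Agent.Lib.FF

section FR3

/-- The second isomorphism count for a non-normal subgroup. -/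
theorem relIndex_second {Γ : Type*} [Group Γ] [Finite Γ] (C T : Subgroup Γ) [C.Normal] :
    T.relIndex (C ⊔ T) = (C ⊓ T).relIndex C := by
  have hcard : ∀ {X Y : Subgroup Γ}, X ≤ Y → Nat.card X * X.relIndex Y = Nat.card Y := by
    intro X Y hXY
    have := Subgroup.relIndex_mul_relIndex (⊥ : Subgroup Γ) X Y bot_le hXY
    rwa [Subgroup.relIndex_bot_left, Subgroup.relIndex_bot_left] at this
  have h1 : C.relIndex (C ⊔ T) = C.relIndex T := Subgroup.relIndex_sup_left T C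
  have h2 : (C ⊓ T).relIndex T = C.relIndex T := Subgroup.inf_relIndex_right C T
  have e1 := hcard (le_sup_left : C ≤ C ⊔ T)
  have e2 := hcard (inf_le_right : C ⊓ T ≤ T)
  have e3 := hcard (le_sup_right : T ≤ C ⊔ T)
  have e4 := hcard (inf_le_left : C ⊓ T ≤ C)
  rw [h1] at e1
  rw [h2] at e2
  have hipos : 0 < C.relIndex T := by
    refine Nat.pos_of_ne_zero fun h0 => ?_
    rw [h0, mul_zero] at e2
    exact (Nat.card_pos (α := T)).ne e2
  have hC0pos : 0 < Nat.card ↥(C ⊓ T) := Nat.card_pos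
  have h3 : Nat.card ↥(C ⊓ T) * C.relIndex T * T.relIndex (C ⊔ T) =
      Nat.card ↥(C ⊓ T) * (C ⊓ T).relIndex C * C.relIndex T := by
    rw [e2, e3, e4, e1]
  have h4 : C.relIndex T * (Nat.card ↥(C ⊓ T) * T.relIndex (C ⊔ T)) =
      C.relIndex T * (Nat.card ↥(C ⊓ T) * (C ⊓ T).relIndex C) := by
    nlinarith [h3]
  have h5 := Nat.eq_of_mul_eq_mul_left hipos h4
  exact Nat.eq_of_mul_eq_mul_left hC0pos h5

variable {G : Type*} [Group G]

/-- Conjugation by an element normalizing `U ⊓ L`, on `L.subgroupOf U`. -/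
def conjSub (U L : Subgroup G) (n : G) (hn : ∀ h, h ∈ U ⊓ L ↔ n * h * n⁻¹ ∈ U ⊓ L) :
    ↥(L.subgroupOf U) ≃* ↥(L.subgroupOf U) where
  toFun k := ⟨⟨n * k.1.1 * n⁻¹, ((hn k.1.1).1 ⟨k.1.2, k.2⟩).1⟩, ((hn k.1.1).1 ⟨k.1.2, k.2⟩).2⟩
  invFun k := ⟨⟨n⁻¹ * k.1.1 * n,
      ((hn (n⁻¹ * k.1.1 * n)).2 (by
        have : n * (n⁻¹ * k.1.1 * n) * n⁻¹ = k.1.1 := by group
        rw [this]
        exact ⟨k.1.2, k.2⟩)).1⟩,
      ((hn (n⁻¹ * k.1.1 * n)).2 (by
        have : n * (n⁻¹ * k.1.1 * n) * n⁻¹ = k.1.1 := by group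
        rw [this]
        exact ⟨k.1.2, k.2⟩)).2⟩
  left_inv k := by
    apply Subtype.ext
    apply Subtype.ext
    show n⁻¹ * (n * k.1.1 * n⁻¹) * n = k.1.1
    group
  right_inv k := by
    apply Subtype.ext
    apply Subtype.ext
    show n * (n⁻¹ * k.1.1 * n) * n⁻¹ = k.1.1
    group
  map_mul' a b := by
    apply Subtype.ext
    apply Subtype.ext
    show n * (a.1.1 * b.1.1) * n⁻¹ = n * a.1.1 * n⁻¹ * (n * b.1.1 * n⁻¹)
    group

@[simp] theorem conjSub_apply (U L : Subgroup G) (n : G) (hn) (k : ↥(L.subgroupOf U)) :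
    ((conjSub U L n hn k : ↥(L.subgroupOf U)) : U).1 = n * k.1.1 * n⁻¹ := rfl

/-- Stabilizer of a function under conjugation. -/
def fnStab (x : G → ℂ) : Subgroup G where
  carrier := {g | ∀ h, x (g * h * g⁻¹) = x h}
  mul_mem' := by
    intro a b ha hb h
    have h1 := ha (b * h * b⁻¹)
    rw [hb h] at h1
    rw [← h1]
    congr 1
    group
  one_mem' := by
    intro h
    simp
  inv_mem' := by
    intro a ha h
    have h1 := ha (a⁻¹ * h * a⁻¹⁻¹)
    rw [← h1]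
    congr 1
    group

theorem mem_fnStab (x : G → ℂ) (g : G) : g ∈ fnStab x ↔ ∀ h, x (g * h * g⁻¹) = x h := Iff.rfl

/-- The existence of the subgroup `U`. -/
theorem fr_exists_U [Finite G] (Z K : Subgroup G) [hZ : Z.Normal] [hK : K.Normal] (hZK : Z ≤ K) (p : ℕ)
    [Fact p.Prime] (P : Sylow p (G ⧸ K)) :
    ∃ U : Subgroup G, Z ≤ U ∧ U.map (QuotientGroup.mk' K) = P ∧ ¬ p ∣ U.index ∧
      ∃ b, Z.relIndex U = p ^ b := by
  classical
  let f : G ⧸ Z →* G ⧸ K := QuotientGroup.map Z K (MonoidHom.id G) hZK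
  have hf : Function.Surjective f := by
    intro q
    obtain ⟨g, rfl⟩ := QuotientGroup.mk_surjective q
    exact ⟨(g : G ⧸ Z), rfl⟩
  obtain ⟨S, hS⟩ := Sylow.mapSurjective_surjective hf p P
  have hfc : (QuotientGroup.mk' K : G →* G ⧸ K) = f.comp (QuotientGroup.mk' Z) := by
    ext g
    rfl
  have hsurj : Function.Surjective (QuotientGroup.mk' Z) := QuotientGroup.mk'_surjective Z
  refine ⟨(S : Subgroup (G ⧸ Z)).comap (QuotientGroup.mk' Z), ?_, ?_, ?_, ?_⟩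
  · intro z hz
    rw [Subgroup.mem_comap]
    have : (QuotientGroup.mk' Z) z = 1 := (QuotientGroup.eq_one_iff z).2 hz
    rw [this]
    exact Subgroup.one_mem _
  · rw [hfc, ← Subgroup.map_map, Subgroup.map_comap_eq_self_of_surjective hsurj]
    have := congrArg (fun Q : Sylow p (G ⧸ K) => (Q : Subgroup (G ⧸ K))) hS
    exact this
  · rw [Subgroup.index_comap_of_surjective _ hsurj]
    exact S.not_dvd_index
  · obtain ⟨n, hn⟩ := IsPGroup.iff_card.1 S.2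
    refine ⟨n, ?_⟩
    have h1 := Subgroup.relIndex_mul_index (H := Z) (K := (S : Subgroup (G ⧸ Z)).comap (QuotientGroup.mk' Z))
      (by
        intro z hz
        rw [Subgroup.mem_comap]
        have : (QuotientGroup.mk' Z) z = 1 := (QuotientGroup.eq_one_iff z).2 hz
        rw [this]
        exact Subgroup.one_mem _)
    rw [Subgroup.index_comap_of_surjective _ hsurj] at h1
    have h2 := Subgroup.card_mul_index (S : Subgroup (G ⧸ Z))
    have h3 : Nat.card (G ⧸ Z) = Z.index := rfl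
    rw [h3, ← h1, hn] at h2
    have h4 : 0 < (S : Subgroup (G ⧸ Z)).index := Nat.pos_of_ne_zero Subgroup.index_ne_zero_of_finite
    exact (Nat.eq_of_mul_eq_mul_right h4 h2).symm

theorem pow_mul_eq_aux {p a b i j : ℕ} (hp : p.Prime) (h : p ^ a * i = p ^ b * j) (hi : ¬ p ∣ i)
    (hj : ¬ p ∣ j) : a = b := by
  have hi0 : i ≠ 0 := fun h0 => hi (by rw [h0]; exact dvd_zero p)
  have hj0 : j ≠ 0 := fun h0 => hj (by rw [h0]; exact dvd_zero p)
  have h1 := congrArg (fun n => n.factorization p) h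
  simp only [Nat.factorization_mul (pow_ne_zero _ hp.ne_zero) hi0,
    Nat.factorization_mul (pow_ne_zero _ hp.ne_zero) hj0, Finsupp.add_apply, hp.factorization_pow,
    Finsupp.single_eq_same, Nat.factorization_eq_zero_of_not_dvd hi,
    Nat.factorization_eq_zero_of_not_dvd hj, add_zero] at h1
  exact h1

noncomputable def frFin {X : Type*} [Group X] [Finite X] (H : Subgroup X) : Fintype H :=
  Fintype.ofFinite _

attribute [local instance] frFin

variable [Fintype G]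

/-- A fully ramified character vanishes off `Z`. -/
theorem fr_vanish (Z : Subgroup G) (χ : G → ℂ) (hχ : IsIrrCharacter G χ) (θ : Z → ℂ)
    (hθ : IsIrrCharacter Z θ) (e : ℕ) (he : e ^ 2 = Z.index) (hfr : ∀ z : Z, χ z = e * θ z)
    (g : G) (hg : g ∉ Z) : χ g = 0 := by
  classical
  have hG : (0 : ℝ) < Nat.card G := by exact_mod_cast Nat.card_pos
  have hZ : (0 : ℝ) < Nat.card Z := by exact_mod_cast Nat.card_pos
  have h1 : ∑ g, ‖χ g‖ ^ 2 = (Nat.card G : ℝ) := by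
    have h2 := classInner_self_eq χ
    rw [classInner_irr_self hχ] at h2
    have h3 : (1 : ℝ) = (Nat.card G : ℝ)⁻¹ * ∑ g, ‖χ g‖ ^ 2 := by exact_mod_cast h2
    field_simp at h3
    linarith
  have h1' : ∑ z : Z, ‖θ z‖ ^ 2 = (Nat.card Z : ℝ) := by
    have h2 := classInner_self_eq θ
    rw [classInner_irr_self hθ] at h2
    have h3 : (1 : ℝ) = (Nat.card Z : ℝ)⁻¹ * ∑ g, ‖θ g‖ ^ 2 := by exact_mod_cast h2
    field_simp at h3
    linarith
  have h4 : ∑ z : Z, ‖χ z‖ ^ 2 = (Nat.card G : ℝ) := by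
    have h5 : ∀ z : Z, ‖χ z‖ ^ 2 = (e : ℝ) ^ 2 * ‖θ z‖ ^ 2 := by
      intro z
      rw [hfr z, norm_mul, mul_pow]
      simp
    rw [Finset.sum_congr rfl fun z _ => h5 z, ← Finset.mul_sum, h1']
    have h6 : (Nat.card G : ℝ) = (Z.index : ℝ) * Nat.card Z := by
      exact_mod_cast (Subgroup.index_mul_card Z).symm
    rw [h6, ← he]
    push_cast
    ring
  have hsplit := Fintype.sum_subtype_add_sum_subtype (fun g => g ∈ Z) (fun g => ‖χ g‖ ^ 2)
  have hsplit' : (Nat.card G : ℝ) + ∑ i : {x // ¬ x ∈ Z}, ‖χ i‖ ^ 2 = ∑ g, ‖χ g‖ ^ 2 := by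
    convert hsplit using 2
    rw [← h4]
    congr!
  have h8 : ∑ i : {x // ¬ x ∈ Z}, ‖χ i‖ ^ 2 = 0 := by
    rw [h1] at hsplit'
    linarith
  have h9 := (Finset.sum_eq_zero_iff_of_nonneg (fun i _ => by positivity)).1 h8 ⟨g, hg⟩ (Finset.mem_univ _)
  simpa using h9

def frTheta {Z : Subgroup G} (U : Subgroup G) (θ : Z → ℂ) : ↥(Z.subgroupOf U) → ℂ :=
  fun z => θ ⟨z.1.1, z.2⟩

theorem frTheta_irr {Z U : Subgroup G} (hZU : Z ≤ U) {θ : Z → ℂ} (hθ : IsIrrCharacter Z θ) :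
    IsIrrCharacter _ (frTheta U θ) :=
  isIrr_comp_equiv (Subgroup.subgroupOfEquivOfLe hZU) hθ

theorem frZK {Z K : Subgroup G} (hZK : Z ≤ K) (U : Subgroup G) : Z.subgroupOf U ≤ K.subgroupOf U :=
  fun z hz => hZK hz

/-- The stage A of the argument. -/
theorem fr_stageA (Z K U : Subgroup G) (hZK : Z ≤ K) (hZU : Z ≤ U)
    (χ : G → ℂ) (hχ : IsIrrCharacter G χ) (θ : Z → ℂ) (hθ : IsIrrCharacter Z θ) (e : ℕ)
    (he : e ^ 2 = Z.index) (hfr : ∀ z : Z, χ z = e * θ z) (p : ℕ) [hp : Fact p.Prime]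
    (hUi : ¬ p ∣ U.index) (hb : ∃ b, Z.relIndex U = p ^ b) :
    (∀ ξ₁ ξ₂ : U → ℂ, IsIrrCharacter U ξ₁ → IsIrrCharacter U ξ₂ →
      classInner (fun z : ↥(Z.subgroupOf U) => ξ₁ z) (frTheta U θ) ≠ 0 →
      classInner (fun z : ↥(Z.subgroupOf U) => ξ₂ z) (frTheta U θ) ≠ 0 → ξ₁ = ξ₂) ∧
    ∃ ψ₀ : ↥(K.subgroupOf U) → ℂ, IsIrrCharacter _ ψ₀ ∧
      classInner (fun z : ↥(Z.subgroupOf U) => ψ₀ ⟨z, frZK hZK U z.2⟩) (frTheta U θ) ≠ 0 := by
  classical
  have hvan := fr_vanish Z χ hχ θ hθ e he hfr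
  have he0 : e ≠ 0 := by
    rintro rfl
    have : Z.index ≠ 0 := Subgroup.index_ne_zero_of_finite
    rw [← he] at this
    simp at this
  obtain ⟨v, e', he', heq⟩ := Nat.exists_eq_pow_mul_and_not_dvd he0 p hp.out.ne_one
  obtain ⟨b, hb⟩ := hb
  have h2v : b = 2 * v := by
    have h1 := Subgroup.relIndex_mul_index hZU
    rw [hb, ← he, heq] at h1
    have hd : ¬ p ∣ e' ^ 2 := fun h => he' (hp.out.dvd_of_dvd_pow h)
    have h2 : p ^ b * U.index = p ^ (2 * v) * e' ^ 2 := by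
      rw [h1]
      ring
    exact pow_mul_eq_aux hp.out h2 hUi hd
  have hθ' := frTheta_irr hZU hθ
  let α : U → ℂ := fun u => χ u
  have hαc : IsCharacter U α := IsCharacter.restrict U (IsIrrCharacter.isCharacter hχ)
  have hαZ : ∀ z : ↥(Z.subgroupOf U), α z = e * frTheta U θ z := fun z => hfr ⟨z.1.1, z.2⟩
  have hα0 : ∀ g : U, g ∉ Z.subgroupOf U → α g = 0 := fun g hg => hvan g.1 hg
  constructor
  · intro ξ₁ ξ₂ h₁ h₂ hn₁ hn₂
    exact fr_unique_abs (Z.subgroupOf U) (frTheta U θ) hθ' α hαc e hαZ hα0 p v e' hp.out heq he'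
      (by rw [← h2v]; exact hb) ξ₁ ξ₂ h₁ h₂ hn₁ hn₂
  · have h1 : classInner (α ∘ (Z.subgroupOf U).subtype) (frTheta U θ) ≠ 0 := by
      have h2 : α ∘ (Z.subgroupOf U).subtype = (e : ℂ) • frTheta U θ := by
        funext z
        simp [hαZ z]
      rw [h2, classInner_smul_left, classInner_irr_self hθ']
      simpa using he0
    obtain ⟨ξ₀, hξ₀, hi₀⟩ := exists_irr_over _ α (IsCharacter.isClassFunction hαc) _ h1
    have hξ₀c := IsCharacter.restrict (K.subgroupOf U) (IsIrrCharacter.isCharacter hξ₀)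
    obtain ⟨ψ₀, hψ₀, hi⟩ := exists_irr_over (Subgroup.inclusion (frZK hZK U))
      (fun n : ↥(K.subgroupOf U) => ξ₀ n) (IsCharacter.isClassFunction hξ₀c) (frTheta U θ) hi₀
    exact ⟨ψ₀, hψ₀, hi⟩

open Classical in
/-- The extension by zero to `G` of a function on `K.subgroupOf U`. -/
noncomputable def frExt (U K : Subgroup G) (ψ : ↥(K.subgroupOf U) → ℂ) : G → ℂ :=
  fun g => if h : g ∈ U ∧ g ∈ K then ψ ⟨⟨g, h.1⟩, h.2⟩ else 0

theorem frExt_mem (U K : Subgroup G) (ψ : ↥(K.subgroupOf U) → ℂ) (g : G) (h : g ∈ U ⊓ K) :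
    frExt U K ψ g = ψ ⟨⟨g, h.1⟩, h.2⟩ := by
  unfold frExt
  exact dif_pos (show g ∈ U ∧ g ∈ K from h)

theorem frExt_not (U K : Subgroup G) (ψ : ↥(K.subgroupOf U) → ℂ) (g : G) (h : g ∉ U ⊓ K) :
    frExt U K ψ g = 0 := by
  unfold frExt
  exact dif_neg (show ¬ (g ∈ U ∧ g ∈ K) from h)

/-- The stage B of the argument. -/
theorem fr_stageB (Z K U : Subgroup G) [hZn : Z.Normal] [hKn : K.Normal] (hZK : Z ≤ K) (hZU : Z ≤ U)
    (θ : Z → ℂ) (hθ : IsIrrCharacter Z θ)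
    (hinv : ∀ (g : G) (z : Z), θ ⟨g * z * g⁻¹, hZn.conj_mem z z.2 g⟩ = θ z)
    (p : ℕ) [hp : Fact p.Prime] (hUi : ¬ p ∣ U.index) (hb : ∃ b, Z.relIndex U = p ^ b)
    (hN' : (K.subgroupOf U).Normal)
    (huniq : ∀ ξ₁ ξ₂ : U → ℂ, IsIrrCharacter U ξ₁ → IsIrrCharacter U ξ₂ →
      classInner (fun z : ↥(Z.subgroupOf U) => ξ₁ z) (frTheta U θ) ≠ 0 →
      classInner (fun z : ↥(Z.subgroupOf U) => ξ₂ z) (frTheta U θ) ≠ 0 → ξ₁ = ξ₂)
    (ψ₀ : ↥(K.subgroupOf U) → ℂ) (hψ₀ : IsIrrCharacter _ ψ₀)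
    (hover : classInner (fun z : ↥(Z.subgroupOf U) => ψ₀ ⟨z, frZK hZK U z.2⟩) (frTheta U θ) ≠ 0)
    (hR : ∀ u : U, conjFn hN' u ψ₀ = ψ₀ → u ∈ K.subgroupOf U)
    (P : Sylow p (G ⧸ K)) (hUP : U.map (QuotientGroup.mk' K) = P) :
    ∃ M : Subgroup (G ⧸ K), M.IsComplement' (P : Subgroup (G ⧸ K)) := by
  classical
  have hθ' := frTheta_irr hZU hθ
  have hUN : U ≤ Subgroup.normalizer ((U ⊓ K : Subgroup G) : Set G) := by
    intro u hu
    rw [Subgroup.mem_set_normalizer_iff]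
    intro h
    show (h ∈ U ∧ h ∈ K) ↔ (u * h * u⁻¹ ∈ U ∧ u * h * u⁻¹ ∈ K)
    constructor
    · rintro ⟨h1, h2⟩
      exact ⟨U.mul_mem (U.mul_mem hu h1) (U.inv_mem hu), hKn.conj_mem h h2 u⟩
    · rintro ⟨h1, h2⟩
      have h3 : h = u⁻¹ * (u * h * u⁻¹) * u := by group
      refine ⟨?_, ?_⟩
      · rw [h3]
        exact U.mul_mem (U.mul_mem (U.inv_mem hu) h1) hu
      · have h4 := hKn.conj_mem _ h2 u⁻¹
        rw [inv_inv] at h4
        rwa [← h3] at h4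
  set K₀ : Subgroup G := U ⊓ K with hK₀
  let N : Subgroup G := Subgroup.normalizer (K₀ : Set G)
  have hZK₀ : Z ≤ K₀ := le_inf hZU hZK
  have hK₀K : K₀ ≤ K := inf_le_right
  have hK₀U : K₀ ≤ U := inf_le_left
  have hK₀N : K₀ ≤ N := Subgroup.le_normalizer
  obtain ⟨b, hb⟩ := hb
  have hdvd₁ : K₀.relIndex U ∣ p ^ b := by
    rw [← hb, ← Subgroup.relIndex_mul_relIndex Z K₀ U hZK₀ hK₀U]
    exact dvd_mul_left _ _
  have hdvd₂ : Z.relIndex K₀ ∣ p ^ b := by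
    rw [← hb, ← Subgroup.relIndex_mul_relIndex Z K₀ U hZK₀ hK₀U]
    exact dvd_mul_right _ _
  obtain ⟨a, -, ha⟩ := (Nat.dvd_prime_pow hp.out).1 hdvd₁
  obtain ⟨c, -, hc⟩ := (Nat.dvd_prime_pow hp.out).1 hdvd₂
  have hcopK₀ : ¬ p ∣ K₀.relIndex K := by
    intro hd
    apply hUi
    have h1 : K₀ = K ⊓ U := inf_comm _ _
    rw [h1, ← relIndex_second K U] at hd
    rw [← Subgroup.relIndex_mul_index (le_sup_right : U ≤ K ⊔ U)]
    exact hd.trans (dvd_mul_right _ _)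
  let φ : N →* G ⧸ K := (QuotientGroup.mk' K).comp N.subtype
  have hφ : Function.Surjective φ := by
    intro q
    obtain ⟨g, rfl⟩ := QuotientGroup.mk_surjective q
    obtain ⟨n, hn, k, hk, rfl⟩ := frattini_rel Z K K₀ hZK₀ hK₀K p ⟨c, hc⟩ hcopK₀ g
    refine ⟨⟨n, hn⟩, ?_⟩
    show ((n : G) : G ⧸ K) = ((n * k : G) : G ⧸ K)
    refine (QuotientGroup.eq).2 ?_
    simpa using hk
  have hker : φ.ker = K.subgroupOf N := by
    ext n
    rw [MonoidHom.mem_ker, Subgroup.mem_subgroupOf]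
    exact QuotientGroup.eq_one_iff _
  let x₀ : G → ℂ := frExt U K ψ₀
  let V : Subgroup N := U.subgroupOf N
  let T : Subgroup N := (fnStab x₀).subgroupOf N
  have hclass := IsCharacter.isClassFunction (IsIrrCharacter.isCharacter hψ₀)
  have hVT : ∀ γ : N, ∃ v ∈ V, ∃ t ∈ T, γ = v * t := by
    intro γ
    have hn : (γ : G) ∈ N := γ.2
    set n : G := γ.1 with hndef
    have hn1 : ∀ h, h ∈ U ⊓ K ↔ n⁻¹ * h * n⁻¹⁻¹ ∈ U ⊓ K := by
      have := N.inv_mem hn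
      exact Subgroup.mem_set_normalizer_iff.1 this
    have hnZ : ∀ h, h ∈ U ⊓ Z ↔ n⁻¹ * h * n⁻¹⁻¹ ∈ U ⊓ Z := by
      rw [inf_eq_right.2 hZU]
      intro h
      constructor
      · intro hh
        exact hZn.conj_mem h hh n⁻¹
      · intro hh
        have h4 := hZn.conj_mem _ hh n
        have h5 : n * (n⁻¹ * h * n⁻¹⁻¹) * n⁻¹ = h := by group
        rwa [h5] at h4
    let eK := conjSub U K n⁻¹ hn1
    let eZ := conjSub U Z n⁻¹ hnZ
    have hψ₁ : IsIrrCharacter _ (ψ₀ ∘ eK) := isIrr_comp_equiv eK hψ₀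
    have hover₁ : classInner (fun z : ↥(Z.subgroupOf U) => (ψ₀ ∘ eK) ⟨z, frZK hZK U z.2⟩)
        (frTheta U θ) ≠ 0 := by
      have h1 : (fun z : ↥(Z.subgroupOf U) => (ψ₀ ∘ eK) ⟨z, frZK hZK U z.2⟩) =
          (fun z : ↥(Z.subgroupOf U) => ψ₀ ⟨z, frZK hZK U z.2⟩) ∘ eZ := by
        funext z
        rfl
      have h2 : frTheta U θ = frTheta U θ ∘ eZ := by
        funext z
        exact (hinv n⁻¹ ⟨z.1.1, z.2⟩).symm
      have h3 := classInner_comp_equiv eZ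
        (fun z : ↥(Z.subgroupOf U) => ψ₀ ⟨z, frZK hZK U z.2⟩) (frTheta U θ)
      rw [← h2] at h3
      rw [h1, h3]
      exact hover
    obtain ⟨g, hg⟩ := fr_trans (K.subgroupOf U) (Z.subgroupOf U) (frZK hZK U) hN' (frTheta U θ) hθ'
      huniq hψ₀ hψ₁ hover hover₁
    have hgU : ∀ h, h ∈ U ⊓ K ↔ (g : G) * h * (g : G)⁻¹ ∈ U ⊓ K :=
      Subgroup.mem_set_normalizer_iff.1 (hUN g.2)
    have key : ∀ h : G, x₀ ((g : G) * h * (g : G)⁻¹) = x₀ (n⁻¹ * h * n⁻¹⁻¹) := by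
      intro h
      by_cases hh : h ∈ U ⊓ K
      · have h1 := congrFun hg ⟨⟨h, hh.1⟩, hh.2⟩
        rw [show x₀ ((g : G) * h * (g : G)⁻¹) = _ from frExt_mem U K ψ₀ _ ((hgU h).1 hh),
          show x₀ (n⁻¹ * h * n⁻¹⁻¹) = _ from frExt_mem U K ψ₀ _ ((hn1 h).1 hh)]
        exact h1.symm
      · rw [show x₀ ((g : G) * h * (g : G)⁻¹) = _ from frExt_not U K ψ₀ _ (fun h' => hh ((hgU h).2 h')),
          show x₀ (n⁻¹ * h * n⁻¹⁻¹) = _ from frExt_not U K ψ₀ _ (fun h' => hh ((hn1 h).2 h'))]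
    refine ⟨⟨(g : G)⁻¹, hUN (U.inv_mem g.2)⟩, U.inv_mem g.2,
      ⟨(g : G) * n, N.mul_mem (hUN g.2) hn⟩, ?_, ?_⟩
    · show (g : G) * n ∈ fnStab x₀
      intro h
      have h1 := key (n * h * n⁻¹)
      have h2 : (g : G) * n * h * ((g : G) * n)⁻¹ = (g : G) * (n * h * n⁻¹) * (g : G)⁻¹ := by group
      have h3 : n⁻¹ * (n * h * n⁻¹) * n⁻¹⁻¹ = h := by group
      rw [h3] at h1
      rw [h2, h1]
    · apply Subtype.ext
      show n = (g : G)⁻¹ * ((g : G) * n)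
      group
  have hstab : ∀ u ∈ U, (u ∈ fnStab x₀ ↔ u ∈ K) := by
    intro u hu
    have huU : ∀ h, h ∈ U ⊓ K ↔ u * h * u⁻¹ ∈ U ⊓ K := Subgroup.mem_set_normalizer_iff.1 (hUN hu)
    constructor
    · intro hs
      have h1 : conjFn hN' (⟨u, hu⟩ : U) ψ₀ = ψ₀ := by
        funext k
        have h2 := hs k.1.1
        have hk : k.1.1 ∈ U ⊓ K := ⟨k.1.2, k.2⟩
        rw [show x₀ (u * k.1.1 * u⁻¹) = _ from frExt_mem U K ψ₀ _ ((huU _).1 hk),
          show x₀ k.1.1 = _ from frExt_mem U K ψ₀ _ hk] at h2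
        exact h2
      exact hR ⟨u, hu⟩ h1
    · intro huK h
      by_cases hh : h ∈ U ⊓ K
      · rw [show x₀ (u * h * u⁻¹) = _ from frExt_mem U K ψ₀ _ ((huU h).1 hh),
          show x₀ h = _ from frExt_mem U K ψ₀ _ hh]
        exact hclass ⟨⟨h, hh.1⟩, hh.2⟩ (⟨⟨u, hu⟩, huK⟩ : ↥(K.subgroupOf U))
      · rw [show x₀ (u * h * u⁻¹) = _ from frExt_not U K ψ₀ _ (fun h' => hh ((huU h).2 h')),
          show x₀ h = _ from frExt_not U K ψ₀ _ hh]
  have hint : V ⊓ T = V ⊓ φ.ker := by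
    rw [hker]
    ext v
    constructor
    · rintro ⟨h1, h2⟩
      exact ⟨h1, (hstab v.1 h1).1 h2⟩
    · rintro ⟨h1, h2⟩
      exact ⟨h1, (hstab v.1 h1).2 h2⟩
  have hVker : V ⊓ φ.ker = K₀.subgroupOf N := by
    rw [hker]
    ext v
    exact Iff.rfl
  have hpow : ∃ a, (V ⊓ φ.ker).relIndex V = p ^ a := by
    refine ⟨a, ?_⟩
    rw [hVker]
    show (K₀.subgroupOf N).relIndex (U.subgroupOf N) = p ^ a
    rw [Subgroup.relIndex_subgroupOf hUN]
    exact ha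
  have hcop : ¬ p ∣ (V ⊓ φ.ker).relIndex φ.ker := by
    rw [hVker, hker, ← Subgroup.inf_subgroupOf_right K N, Subgroup.relIndex_subgroupOf inf_le_right]
    intro hd
    apply hcopK₀
    rw [← Subgroup.relIndex_mul_relIndex K₀ (K ⊓ N) K (le_inf hK₀K hK₀N) inf_le_left]
    exact hd.trans (dvd_mul_right _ _)
  have hVmap : V.map φ = U.map (QuotientGroup.mk' K) := by
    have h1 : V.map φ = (V.map N.subtype).map (QuotientGroup.mk' K) := by
      rw [Subgroup.map_map]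
    rw [h1]
    congr 1
    exact Subgroup.map_subgroupOf_eq_of_le hUN
  have hc := compl_abstract φ hφ V T p hp.out hVT hint hpow hcop
  rw [hVmap, hUP] at hc
  exact ⟨T.map φ, hc.symm⟩

end FR3

end Cfsg.Agent.Lib.FF
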