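import Cfsg.Agent.Lib.FF.FR3

/-!
# Fully ramified characters: cyclic Sylow subgroups of the quotient have complements
-/

set_option autoImplicit false
set_option linter.unusedSectionVars false
set_option linter.unusedVariables false
set_option linter.style.haveILetI false
set_option linter.unusedSimpArgs false
set_option linter.unnecessarySimpa false

open scoped ComplexConjugate Pointwise
open Module Cfsg Cfsg.Agent.Lib.Char

namespace Cfsg.Agent.Lib.FF

section FR4

variable {G : Type*} [Group G] [Fintype G]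

attribute [local instance] frFin

theorem fr_invariant (Z : Subgroup G) [hZn : Z.Normal] (χ : G → ℂ) (hχ : IsIrrCharacter G χ)
    (θ : Z → ℂ) (e : ℕ) (he : e ^ 2 = Z.index) (hfr : ∀ z : Z, χ z = e * θ z) (g : G) (z : Z) :
    θ ⟨g * z * g⁻¹, hZn.conj_mem z z.2 g⟩ = θ z := by
  have he0 : (e : ℂ) ≠ 0 := by
    have h1 : e ≠ 0 := by
      rintro rfl
      have : Z.index ≠ 0 := Subgroup.index_ne_zero_of_finite
      rw [← he] at this
      simp at this
    exact_mod_cast h1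
  have h1 := IsCharacter.isClassFunction (IsIrrCharacter.isCharacter hχ) (z : G) g
  rw [hfr z, show χ (g * z * g⁻¹) = _ from hfr ⟨g * z * g⁻¹, hZn.conj_mem z z.2 g⟩] at h1
  exact mul_left_cancel₀ he0 h1

/-- **Cyclic Sylow subgroups have complements.** -/
theorem fr_cyc_compl (Z K : Subgroup G) [hZn : Z.Normal] [hKn : K.Normal] (hZK : Z ≤ K)
    (χ : G → ℂ) (hχ : IsIrrCharacter G χ) (θ : Z → ℂ) (hθ : IsIrrCharacter Z θ) (e : ℕ)
    (he : e ^ 2 = Z.index) (hfr : ∀ z : Z, χ z = e * θ z) (p : ℕ) [hp : Fact p.Prime]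
    (P : Sylow p (G ⧸ K)) (hcyc : IsCyclic P) :
    ∃ M : Subgroup (G ⧸ K), M.IsComplement' (P : Subgroup (G ⧸ K)) := by
  classical
  obtain ⟨U, hZU, hUP, hUi, hb⟩ := fr_exists_U Z K hZK p P
  obtain ⟨huniq, ψ₀, hψ₀, hover⟩ := fr_stageA Z K U hZK hZU χ hχ θ hθ e he hfr p hUi hb
  have hN' : (K.subgroupOf U).Normal := hKn.subgroupOf U
  have hθ' := frTheta_irr hZU hθ
  obtain ⟨ξ, m, hξ, hm, hm0, hξθ, hidx⟩ := fr_index (K.subgroupOf U) (Z.subgroupOf U) (frZK hZK U) hN'
    (frTheta U θ) hθ' huniq hψ₀ hover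
  have hcycA : IsCyclic (U ⧸ K.subgroupOf U) := by
    haveI := hcyc
    let f₀ : U →* G ⧸ K := (QuotientGroup.mk' K).comp U.subtype
    have hf₀ : ∀ u : U, f₀ u ∈ (P : Subgroup (G ⧸ K)) := by
      intro u
      rw [← hUP]
      exact Subgroup.mem_map_of_mem _ u.2
    refine isCyc_quot (f₀.codRestrict (P : Subgroup (G ⧸ K)) hf₀) _ ?_
    ext u
    rw [MonoidHom.mem_ker, Subgroup.mem_subgroupOf]
    have h1 : (f₀.codRestrict (P : Subgroup (G ⧸ K)) hf₀) u = 1 ↔ f₀ u = 1 := by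
      rw [Subtype.ext_iff]
      rfl
    rw [h1]
    exact (QuotientGroup.eq_one_iff _).symm
  have h1 := fr_m_one_of_cyclic (K.subgroupOf U) (Z.subgroupOf U) (frZK hZK U) hN' hcycA (frTheta U θ)
    hθ' huniq hψ₀ hover hξ hξθ
  rw [hm] at h1
  have hm1 : m = 1 := by exact_mod_cast h1
  rw [hm1, one_pow, one_mul] at hidx
  have hR := fr_regular_of_index (K.subgroupOf U) hN' hψ₀ hidx
  exact fr_stageB Z K U hZK hZU θ hθ (fr_invariant Z χ hχ θ e he hfr) p hUi hb hN' huniq ψ₀ hψ₀ hover hR P hUP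

end FR4

end Cfsg.Agent.Lib.FF
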