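import Cfsg.Agent.Lib.FF.FR4

/-!
# Fully ramified characters induced from a normal subgroup: the quotient is solvable
-/

set_option autoImplicit false
set_option linter.unusedSectionVars false
set_option linter.unusedVariables false
set_option linter.style.haveILetI false
set_option linter.unusedSimpArgs false
set_option linter.unnecessarySimpa false

open scoped ComplexConjugate Pointwise
open Module Cfsg Cfsg.Agent.Lib.Char

namespace Cfsg.Agent.Lib.FF

section FR5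

attribute [local instance] frFin

variable {A : Type*} [Group A] [Fintype A]

/-- The multiplicity of `θ` in an irreducible character over it. -/
theorem fr_deg_abs (Z : Subgroup A) [Fintype Z] (θ : Z → ℂ) (hθ : IsIrrCharacter Z θ) (α : A → ℂ)
    (hα : IsCharacter A α) (e : ℕ) (hαZ : ∀ z : Z, α z = e * θ z) (hα0 : ∀ g, g ∉ Z → α g = 0)
    (p v e' : ℕ) (hp : p.Prime) (he : e = p ^ v * e') (he' : ¬ p ∣ e') (hidx : Z.index = p ^ (2 * v))
    (ξ : A → ℂ) (hξ : IsIrrCharacter A ξ) (hne : classInner (fun z : Z => ξ z) θ ≠ 0) :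
    classInner (fun z : Z => ξ z) θ = ((p ^ v : ℕ) : ℂ) := by
  classical
  have he'0 : 0 < e' := Nat.pos_of_ne_zero (by rintro rfl; exact he' (dvd_zero p))
  have hpv : 0 < p ^ v := pow_pos hp.pos v
  have hθc := IsIrrCharacter.isCharacter hθ
  have hξc := IsIrrCharacter.isCharacter hξ
  obtain ⟨m, hm⟩ := classInner_isCharacter_nat hα hξc
  obtain ⟨d, hd⟩ := classInner_isCharacter_nat hθc (IsCharacter.restrict Z hξc)
  have hk := fr_inner_key Z θ α e hαZ hα0 ξ
  rw [hm, hd, hidx, he] at hk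
  have hk' : m * p ^ (2 * v) = p ^ v * e' * d := by exact_mod_cast hk
  have hk2 : m * p ^ v = e' * d := by
    have : p ^ v * (m * p ^ v) = p ^ v * (e' * d) := by
      rw [two_mul, pow_add] at hk'
      nlinarith [hk']
    exact Nat.eq_of_mul_eq_mul_left hpv this
  have hd0 : d ≠ 0 := by
    rintro rfl
    apply hne
    rw [← conj_classInner, hd]
    simp
  have hdvd : p ^ v ∣ d := by
    have h1 : p ^ v ∣ e' * d := ⟨m, by rw [← hk2]; ring⟩
    have hcop : Nat.Coprime (p ^ v) e' :=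
      Nat.Coprime.pow_left _ ((Nat.Prime.coprime_iff_not_dvd hp).2 he')
    exact hcop.dvd_of_dvd_mul_left h1
  obtain ⟨d₁, rfl⟩ := hdvd
  have hm' : m = e' * d₁ := by
    have : p ^ v * m = p ^ v * (e' * d₁) := by
      nlinarith [hk2]
    exact Nat.eq_of_mul_eq_mul_left hpv this
  have hd₁ : d₁ ≠ 0 := by
    rintro rfl
    simp at hd0
  -- the norm of `α`
  have hnorm : classInner α α = (e' ^ 2 : ℕ) := by
    have hk := fr_inner_key Z θ α e hαZ hα0 α
    have h1 : classInner θ (fun z : Z => α z) = (e : ℂ) := by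
      have h2 : (fun z : Z => α z) = (e : ℂ) • θ := by
        funext z
        simp [hαZ z]
      rw [h2, classInner_smul_right, classInner_irr_self hθ]
      simp
    rw [h1, hidx, he] at hk
    have hpc : ((p : ℂ) ^ v) ≠ 0 := by exact_mod_cast hpv.ne'
    have h3 : classInner α α * ((p : ℂ) ^ v * (p : ℂ) ^ v) = ((e' : ℂ) ^ 2) * ((p : ℂ) ^ v * (p : ℂ) ^ v) := by
      rw [two_mul, pow_add] at hk
      push_cast at hk
      rw [hk]
      ring
    have h4 := mul_right_cancel₀ (mul_ne_zero hpc hpc) h3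
    rw [h4]
    push_cast
    rfl
  choose c hc using fun ψ : IrrCharacter A => classInner_isCharacter_nat hα
    (IsIrrCharacter.isCharacter ψ.2)
  have hexp : α = ∑ ψ : IrrCharacter A, (c ψ : ℂ) • (ψ : A → ℂ) := by
    conv_lhs => rw [classFunction_eq_sum α (IsCharacter.isClassFunction hα)]
    exact Finset.sum_congr rfl fun ψ _ => by rw [hc ψ]
  have hpars : classInner α α = ((∑ ψ, (c ψ : ℤ) ^ 2 : ℤ) : ℂ) := by
    have := classInner_self_eq_sum_int (G := A) (fun ψ => (c ψ : ℤ))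
    simp only [Int.cast_natCast] at this
    rw [← hexp] at this
    exact this
  rw [hnorm] at hpars
  have hZ : ((e' ^ 2 : ℕ) : ℤ) = ∑ ψ, (c ψ : ℤ) ^ 2 := by exact_mod_cast hpars
  set a₁ : IrrCharacter A := ⟨ξ, hξ⟩
  have hc₁ : c a₁ = m := by
    have := hc a₁
    rw [show (a₁ : A → ℂ) = ξ from rfl, hm] at this
    exact_mod_cast this.symm
  have hge : (c a₁ : ℤ) ^ 2 ≤ ∑ ψ, (c ψ : ℤ) ^ 2 :=
    Finset.single_le_sum (f := fun ψ => (c ψ : ℤ) ^ 2) (fun _ _ => sq_nonneg _) (Finset.mem_univ a₁)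
  rw [hc₁, ← hZ, hm'] at hge
  have hd₁1 : d₁ = 1 := by
    have h7 : (e' * d₁) ^ 2 ≤ e' ^ 2 := by exact_mod_cast hge
    have h8 : e' * d₁ ≤ e' := by
      exact (Nat.pow_le_pow_iff_left (by norm_num)).1 h7
    have h9 : d₁ ≤ 1 := by
      have : e' * d₁ ≤ e' * 1 := by simpa using h8
      exact Nat.le_of_mul_le_mul_left this he'0
    omega
  rw [← conj_classInner, hd, hd₁1, mul_one]
  simp

/-- The Clifford count of the multiplicity of `θ`. -/
theorem fr_clifford_count (K' Z' : Subgroup A) [Fintype K'] [Fintype Z'] (hZK : Z' ≤ K')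
    (hN : K'.Normal) (θ : Z' → ℂ) {ξ : A → ℂ} (hξ : IsIrrCharacter A ξ) {ψ : K' → ℂ}
    (hψ : IsIrrCharacter K' ψ) {m : ℕ} (hm : classInner (fun n : K' => ξ n) ψ = m) (hm0 : m ≠ 0)
    (d₀ : ℂ) (hd₀ : ∀ g : A, classInner (fun z : Z' => conjFn hN g ψ ⟨z, hZK z.2⟩) θ = d₀) :
    classInner (fun z : Z' => ξ z) θ = m * (inertia hN ψ).index * d₀ := by
  classical
  have h1 := clifford_restrict hN hξ hψ (by rw [hm]; exact_mod_cast hm0)
  have h2 : (fun z : Z' => ξ z) = (m : ℂ) • ∑ φ ∈ cliffordOrbit hN ψ,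
      (fun z : Z' => (φ : K' → ℂ) ⟨z, hZK z.2⟩) := by
    funext z
    have h3 := congrFun h1 ⟨z, hZK z.2⟩
    rw [hm] at h3
    simpa [Finset.sum_apply] using h3
  rw [h2, classInner_smul_left, classInner_sum_left]
  have h4 : ∀ φ ∈ cliffordOrbit hN ψ, classInner (fun z : Z' => (φ : K' → ℂ) ⟨z, hZK z.2⟩) θ = d₀ := by
    intro φ hφ
    obtain ⟨g, hg⟩ := (mem_cliffordOrbit hN ψ φ).mp hφ
    rw [hg]
    exact hd₀ g
  rw [Finset.sum_congr rfl h4, Finset.sum_const, card_cliffordOrbit hN hψ, nsmul_eq_mul]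
  simp only [mul_assoc]

variable {G : Type*} [Group G] [Fintype G]

/-- The numerical relation coming from `χ = φ^G`. -/
theorem fr_ind_num (Z K : Subgroup G) (hZK : Z ≤ K) (χ : G → ℂ) (hχ : IsIrrCharacter G χ) (θ : Z → ℂ)
    (hθ : IsIrrCharacter Z θ) (e : ℕ) (he : e ^ 2 = Z.index) (hfr : ∀ z : Z, χ z = e * θ z)
    (φ : K → ℂ) (hφ : IsCharacter K φ) (hind : indFun K φ = χ) :
    ∃ f : ℕ, classInner (fun z : Z => φ ⟨z, hZK z.2⟩) θ = f ∧ e = f * K.index := by
  classical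
  have hvan := fr_vanish Z χ hχ θ hθ e he hfr
  have hθc := IsIrrCharacter.isCharacter hθ
  have hχc := IsIrrCharacter.isCharacter hχ
  have hθK := frTheta_irr hZK hθ
  let α : K → ℂ := fun k => χ k
  have hαZ : ∀ z : ↥(Z.subgroupOf K), α z = e * frTheta K θ z := fun z => hfr ⟨z.1.1, z.2⟩
  have hα0 : ∀ g : K, g ∉ Z.subgroupOf K → α g = 0 := fun g hg => hvan g.1 hg
  have hkey := fr_inner_key (Z.subgroupOf K) (frTheta K θ) α e hαZ hα0 φ
  have h1 : classInner α φ = 1 := by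
    have h2 := frobenius_reciprocity' K φ χ (IsCharacter.isClassFunction hχc)
    rw [hind, classInner_irr_self hχ] at h2
    exact h2.symm
  have hφZ : IsCharacter Z (fun z : Z => φ ⟨z, hZK z.2⟩) := IsCharacter.comp (Subgroup.inclusion hZK) hφ
  obtain ⟨f, hf⟩ := classInner_isCharacter_nat hφZ hθc
  refine ⟨f, hf, ?_⟩
  have h3 : classInner (frTheta K θ) (fun z : ↥(Z.subgroupOf K) => φ z) = f := by
    rw [← conj_classInner]
    have h4 := classInner_comp_equiv (Subgroup.subgroupOfEquivOfLe hZK)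
      (fun z : Z => φ ⟨z, hZK z.2⟩) θ
    have h5 : (fun z : ↥(Z.subgroupOf K) => φ z) =
      (fun z : Z => φ ⟨z, hZK z.2⟩) ∘ (Subgroup.subgroupOfEquivOfLe hZK) := rfl
    have h6 : frTheta K θ = θ ∘ (Subgroup.subgroupOfEquivOfLe hZK) := rfl
    rw [h5, h6, h4, hf]
    simp
  rw [h1, h3, one_mul] at hkey
  have h7 : (Z.subgroupOf K).index = e * f := by exact_mod_cast hkey
  have h8 := Subgroup.relIndex_mul_index hZK
  have h9 : Z.relIndex K = e * f := h7
  rw [h9, ← he] at h8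
  have he0 : 0 < e := by
    refine Nat.pos_of_ne_zero ?_
    rintro rfl
    have : Z.index ≠ 0 := Subgroup.index_ne_zero_of_finite
    rw [← he] at this
    simp at this
  have h10 : e * (f * K.index) = e * e := by
    rw [← mul_assoc, h8]
    ring
  exact (Nat.eq_of_mul_eq_mul_left he0 h10).symm

/-- Invariance of the multiplicity of `θ` under conjugation. -/
theorem fr_conj_inner (Z K U : Subgroup G) [hZn : Z.Normal] (hZK : Z ≤ K) (hZU : Z ≤ U)
    (θ : Z → ℂ) (hinv : ∀ (g : G) (z : Z), θ ⟨g * z * g⁻¹, hZn.conj_mem z z.2 g⟩ = θ z)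
    (ψ : ↥(K.subgroupOf U) → ℂ) (n : G) (hn1 : ∀ h, h ∈ U ⊓ K ↔ n * h * n⁻¹ ∈ U ⊓ K) :
    classInner (fun z : ↥(Z.subgroupOf U) => (ψ ∘ conjSub U K n hn1) ⟨z, frZK hZK U z.2⟩) (frTheta U θ) =
      classInner (fun z : ↥(Z.subgroupOf U) => ψ ⟨z, frZK hZK U z.2⟩) (frTheta U θ) := by
  have hnZ : ∀ h, h ∈ U ⊓ Z ↔ n * h * n⁻¹ ∈ U ⊓ Z := by
    rw [inf_eq_right.2 hZU]
    intro h
    constructor
    · intro hh
      exact hZn.conj_mem h hh n
    · intro hh
      have h4 := hZn.conj_mem _ hh n⁻¹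
      have h5 : n⁻¹ * (n * h * n⁻¹) * n⁻¹⁻¹ = h := by group
      rwa [h5] at h4
  let eZ := conjSub U Z n hnZ
  have h1 : (fun z : ↥(Z.subgroupOf U) => (ψ ∘ conjSub U K n hn1) ⟨z, frZK hZK U z.2⟩) =
      (fun z : ↥(Z.subgroupOf U) => ψ ⟨z, frZK hZK U z.2⟩) ∘ eZ := by
    funext z
    rfl
  have h2 : frTheta U θ = frTheta U θ ∘ eZ := by
    funext z
    exact (hinv n ⟨z.1.1, z.2⟩).symm
  have h3 := classInner_comp_equiv eZ
    (fun z : ↥(Z.subgroupOf U) => ψ ⟨z, frZK hZK U z.2⟩) (frTheta U θ)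
  rw [← h2] at h3
  rw [h1, h3]

/-- **The key theorem**: `P` has a complement in `G / K` if `χ` is induced from `K`. -/
theorem fr_ind_compl (Z K : Subgroup G) [hZn : Z.Normal] [hKn : K.Normal] (hZK : Z ≤ K)
    (χ : G → ℂ) (hχ : IsIrrCharacter G χ) (θ : Z → ℂ) (hθ : IsIrrCharacter Z θ) (e : ℕ)
    (he : e ^ 2 = Z.index) (hfr : ∀ z : Z, χ z = e * θ z) (φ : K → ℂ) (hφ : IsCharacter K φ)
    (hind : indFun K φ = χ) (p : ℕ) [hp : Fact p.Prime] (P : Sylow p (G ⧸ K)) :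
    ∃ M : Subgroup (G ⧸ K), M.IsComplement' (P : Subgroup (G ⧸ K)) := by
  classical
  obtain ⟨U, hZU, hUP, hUi, hb⟩ := fr_exists_U Z K hZK p P
  obtain ⟨huniq, ψ₀, hψ₀, hover⟩ := fr_stageA Z K U hZK hZU χ hχ θ hθ e he hfr p hUi hb
  have hN' : (K.subgroupOf U).Normal := hKn.subgroupOf U
  have hθ' := frTheta_irr hZU hθ
  have hinv := fr_invariant Z χ hχ θ e he hfr
  obtain ⟨ξ, m, hξ, hm, hm0, hξθ, hidx⟩ := fr_index (K.subgroupOf U) (Z.subgroupOf U) (frZK hZK U) hN'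
    (frTheta U θ) hθ' huniq hψ₀ hover
  -- the `p`-adic prelude
  have hvan := fr_vanish Z χ hχ θ hθ e he hfr
  have he0 : e ≠ 0 := by
    rintro rfl
    have : Z.index ≠ 0 := Subgroup.index_ne_zero_of_finite
    rw [← he] at this
    simp at this
  obtain ⟨v, e', he', heq⟩ := Nat.exists_eq_pow_mul_and_not_dvd he0 p hp.out.ne_one
  obtain ⟨b, hb'⟩ := hb
  have h2v : b = 2 * v := by
    have h1 := Subgroup.relIndex_mul_index hZU
    rw [hb', ← he, heq] at h1
    have hd : ¬ p ∣ e' ^ 2 := fun h => he' (hp.out.dvd_of_dvd_pow h)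
    have h2 : p ^ b * U.index = p ^ (2 * v) * e' ^ 2 := by
      rw [h1]
      ring
    exact pow_mul_eq_aux hp.out h2 hUi hd
  let α : U → ℂ := fun u => χ u
  have hαc : IsCharacter U α := IsCharacter.restrict U (IsIrrCharacter.isCharacter hχ)
  have hαZ : ∀ z : ↥(Z.subgroupOf U), α z = e * frTheta U θ z := fun z => hfr ⟨z.1.1, z.2⟩
  have hα0 : ∀ g : U, g ∉ Z.subgroupOf U → α g = 0 := fun g hg => hvan g.1 hg
  have hdeg := fr_deg_abs (Z.subgroupOf U) (frTheta U θ) hθ' α hαc e hαZ hα0 p v e' hp.out heq he'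
    (by rw [← h2v]; exact hb') ξ hξ hξθ
  -- the common multiplicity
  have hθ'c := IsIrrCharacter.isCharacter hθ'
  have hres : ∀ ψ : ↥(K.subgroupOf U) → ℂ, IsIrrCharacter _ ψ →
      IsCharacter _ (fun z : ↥(Z.subgroupOf U) => ψ ⟨z, frZK hZK U z.2⟩) := fun ψ hψ =>
    IsCharacter.comp (Subgroup.inclusion (frZK hZK U)) (IsIrrCharacter.isCharacter hψ)
  obtain ⟨d₀, hd₀⟩ := classInner_isCharacter_nat (hres ψ₀ hψ₀) hθ'c
  have hconj : ∀ g : U, classInner (fun z : ↥(Z.subgroupOf U) => conjFn hN' g ψ₀ ⟨z, frZK hZK U z.2⟩)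
      (frTheta U θ) = d₀ := by
    intro g
    have hg : ∀ h, h ∈ U ⊓ K ↔ (g : G) * h * (g : G)⁻¹ ∈ U ⊓ K := by
      intro h
      constructor
      · rintro ⟨h1, h2⟩
        exact ⟨U.mul_mem (U.mul_mem g.2 h1) (U.inv_mem g.2), hKn.conj_mem h h2 g⟩
      · rintro ⟨h1, h2⟩
        have h3 : h = (g : G)⁻¹ * ((g : G) * h * (g : G)⁻¹) * (g : G) := by group
        refine ⟨?_, ?_⟩
        · rw [h3]
          exact U.mul_mem (U.mul_mem (U.inv_mem g.2) h1) g.2
        · have h4 := hKn.conj_mem _ h2 (g : G)⁻¹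
          rw [inv_inv] at h4
          rwa [← h3] at h4
    rw [← hd₀]
    exact fr_conj_inner Z K U hZK hZU θ hinv ψ₀ (g : G) hg
  have hcount := fr_clifford_count (K.subgroupOf U) (Z.subgroupOf U) (frZK hZK U) hN' (frTheta U θ)
    hξ hψ₀ hm hm0 d₀ hconj
  rw [hdeg] at hcount
  set n := (inertia hN' ψ₀).index with hn
  have hcountN : p ^ v = m * n * d₀ := by exact_mod_cast hcount
  -- the numbers from `χ = φ^G`
  obtain ⟨f, hf, hef⟩ := fr_ind_num Z K hZK χ hχ θ hθ e he hfr φ hφ hind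
  have hdf : d₀ ∣ f := by
    let ι : ↥(K.subgroupOf U) →* K :=
      { toFun := fun k => ⟨k.1.1, k.2⟩, map_one' := rfl, map_mul' := fun _ _ => rfl }
    have hφ₀ : IsCharacter _ (φ ∘ ι) := IsCharacter.comp ι hφ
    have hsum : (fun z : ↥(Z.subgroupOf U) => (φ ∘ ι) ⟨z, frZK hZK U z.2⟩) =
        ∑ ψ : IrrCharacter ↥(K.subgroupOf U), classInner (φ ∘ ι) (ψ : ↥(K.subgroupOf U) → ℂ) •
          (fun z : ↥(Z.subgroupOf U) => (ψ : ↥(K.subgroupOf U) → ℂ) ⟨z, frZK hZK U z.2⟩) := by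
      funext z
      have h2 := congrFun (classFunction_eq_sum (φ ∘ ι) (IsCharacter.isClassFunction hφ₀))
        ⟨z, frZK hZK U z.2⟩
      simpa [Finset.sum_apply] using h2
    have h1 : classInner (fun z : ↥(Z.subgroupOf U) => (φ ∘ ι) ⟨z, frZK hZK U z.2⟩) (frTheta U θ) = f := by
      have h4 := classInner_comp_equiv (Subgroup.subgroupOfEquivOfLe hZU)
        (fun z : Z => φ ⟨z, hZK z.2⟩) θ
      rw [← hf, ← h4]
      rfl
    choose c hc using fun ψ : IrrCharacter ↥(K.subgroupOf U) =>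
      classInner_isCharacter_nat hφ₀ (IsIrrCharacter.isCharacter ψ.2)
    choose g' hg' using fun ψ : IrrCharacter ↥(K.subgroupOf U) =>
      classInner_isCharacter_nat (hres ψ ψ.2) hθ'c
    have h5 : (f : ℂ) = ((∑ ψ, c ψ * g' ψ : ℕ) : ℂ) := by
      rw [← h1, hsum, classInner_sum_left]
      push_cast
      refine Finset.sum_congr rfl fun ψ _ => ?_
      rw [classInner_smul_left, hc ψ, hg' ψ]
    have h6 : f = ∑ ψ, c ψ * g' ψ := by exact_mod_cast h5
    rw [h6]
    refine Finset.dvd_sum fun ψ _ => ?_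
    by_cases h7 : g' ψ = 0
    · rw [h7, mul_zero]
      exact dvd_zero _
    · have h8 : classInner (fun z : ↥(Z.subgroupOf U) => (ψ : ↥(K.subgroupOf U) → ℂ) ⟨z, frZK hZK U z.2⟩)
          (frTheta U θ) ≠ 0 := by
        rw [hg' ψ]
        exact_mod_cast h7
      obtain ⟨g, hg⟩ := fr_trans (K.subgroupOf U) (Z.subgroupOf U) (frZK hZK U) hN' (frTheta U θ) hθ'
        huniq hψ₀ ψ.2 hover h8
      have h9 := hconj g
      rw [← hg, hg' ψ] at h9
      have h10 : g' ψ = d₀ := by exact_mod_cast h9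
      rw [h10]
      exact dvd_mul_left _ _
  have hK'dvd : (K.subgroupOf U).index ∣ K.index := Subgroup.relIndex_dvd_index_of_normal K U
  obtain ⟨f₁, hf₁⟩ := hdf
  rw [hidx] at hK'dvd
  obtain ⟨t₁, ht₁⟩ := hK'dvd
  have hpv : 0 < p ^ v := pow_pos hp.out.pos v
  have he'eq : e' = m * (f₁ * t₁) := by
    have h1 : p ^ v * e' = p ^ v * (m * (f₁ * t₁)) := by
      rw [← heq, hef, hf₁, ht₁, hcountN]
      ring
    exact Nat.eq_of_mul_eq_mul_left hpv h1
  have hm1 : m = 1 := by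
    have h1 : m ∣ p ^ v := ⟨n * d₀, by rw [hcountN]; ring⟩
    obtain ⟨j, -, rfl⟩ := (Nat.dvd_prime_pow hp.out).1 h1
    rcases Nat.eq_zero_or_pos j with rfl | hj
    · simp
    · exfalso
      apply he'
      rw [he'eq]
      exact (dvd_pow_self p hj.ne').trans (dvd_mul_right _ _)
  rw [hm1, one_pow, one_mul] at hidx
  have hR := fr_regular_of_index (K.subgroupOf U) hN' hψ₀ hidx
  exact fr_stageB Z K U hZK hZU θ hθ hinv p hUi ⟨b, hb'⟩ hN' huniq ψ₀ hψ₀ hover hR P hUP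

/-- A complement gives the index needed for Hall's converse. -/
theorem index_eq_of_compl {X : Type*} [Group X] [Finite X] (p : ℕ) [hp : Fact p.Prime] (P : Sylow p X)
    (M : Subgroup X) (h : M.IsComplement' (P : Subgroup X)) :
    M.index = p ^ (Nat.card X).factorization p := by
  have h1 := h.card_mul_card
  have h2 := Sylow.card_eq_multiplicity P
  have h3 := Subgroup.card_mul_index M
  have h4 : 0 < Nat.card M := Nat.card_pos
  rw [← h2]
  rw [← h1] at h3
  exact Nat.eq_of_mul_eq_mul_left h4 h3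

/-- **The main theorem.** -/
theorem fr_ind_solvable (Z K : Subgroup G) [hZn : Z.Normal] [hKn : K.Normal] (hZK : Z ≤ K)
    (χ : G → ℂ) (hχ : IsIrrCharacter G χ) (θ : Z → ℂ) (hθ : IsIrrCharacter Z θ) (e : ℕ)
    (he : e ^ 2 = Z.index) (hfr : ∀ z : Z, χ z = e * θ z) (φ : K → ℂ) (hφ : IsCharacter K φ)
    (hind : indFun K φ = χ) : Group.IsSolvable (G ⧸ K) := by
  classical
  refine Cfsg.Agent.Lib.Hall.isSolvable_of_hallCompl _ _ rfl ?_
  intro p hp
  haveI : Fact p.Prime := ⟨hp⟩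
  let P : Sylow p (G ⧸ K) := Sylow.nonempty.some
  obtain ⟨M, hM⟩ := fr_ind_compl Z K hZK χ hχ θ hθ e he hfr φ hφ hind p P
  exact ⟨M, index_eq_of_compl p P M hM⟩

end FR5

end Cfsg.Agent.Lib.FF
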