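import Cfsg.Agent.Lib.FF.GenData
import Cfsg.Agent.Lib.FF.DefOneFinal

/-!
# The section functions `Dc` for defect one: Fourier expansion and basic properties
-/

set_option autoImplicit false
set_option linter.unusedSectionVars false
set_option linter.style.haveILetI false
set_option linter.unusedSimpArgs false
set_option linter.unnecessarySimpa false
set_option linter.unusedVariables false
set_option maxSynthPendingDepth 3

open scoped ComplexConjugate
open Subgroup

namespace Cfsg.Agent.Lib.FF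

open Cfsg (classInner IsCharacter IsIrrCharacter IrrCharacter IsClassFunction indFun
  extendByZero IsGeneralizedCharacter IsPModular IsPPart charDegree)
open Cfsg.Agent.Lib.Char
open Cfsg.Agent.Lib.Block hiding tr
open Cfsg.Agent.Lib.SmallSimple.Star
open Cfsg.Agent.Lib.SmallSimple.BL
open Cfsg.Agent.Lib.SmallSimple.BB

universe u

variable {G : Type u} [Group G] [Fintype G] {p : ℕ} {x : G} {K : Subgroup G} [Fintype K]
  {M : Ideal Cfsg.AlgInt} [hp : Fact p.Prime]

/-- The section function. -/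
noncomputable def Dc (χ : G → ℂ) (μ : K → ℂ) (u : G) : ℂ := classInner (fun k : K => χ (u * k)) μ

theorem Dc_def (χ : G → ℂ) (μ : K → ℂ) (u : G) :
    Dc χ μ u = (Nat.card K : ℂ)⁻¹ * ∑ k : K, χ (u * k) * conj (μ k) := rfl

/-- Multiplication `⟨x⟩ × K → G`. -/
def muK (hK : CompK x p K) : zpowers x × K →* G where
  toFun h := (h.1 : G) * h.2
  map_one' := by simp
  map_mul' a b := by
    obtain ⟨m, hm⟩ := Subgroup.mem_zpowers_iff.mp b.1.2
    have h1 : Commute (a.2 : G) (b.1 : G) := by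
      rw [← hm]
      exact (hK.comm a.2 a.2.2).zpow_right m
    simp only [Prod.fst_mul, Prod.snd_mul, coe_mul]
    calc (a.1 : G) * b.1 * (a.2 * b.2) = a.1 * (b.1 * a.2) * b.2 := by group
      _ = a.1 * (a.2 * b.1) * b.2 := by rw [h1.eq]
      _ = _ := by group

theorem exists_m [Fintype (zpowers x)] (hK : CompK x p K) (χ : IrrCharacter G) (μ : IrrCharacter K)
    (l : IrrCharacter (zpowers x)) :
    ∃ m : ℕ, classInner (l : zpowers x → ℂ) (fun u : zpowers x => Dc (χ : G → ℂ) (μ : K → ℂ) u) = m := by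
  classical
  have hφ : IsCharacter (zpowers x × K) (fun h => (l : zpowers x → ℂ) h.1 * (μ : K → ℂ) h.2) :=
    IsCharacter.mul (IsCharacter.comp (MonoidHom.fst (zpowers x) K) (IsIrrCharacter.isCharacter l.2))
      (IsCharacter.comp (MonoidHom.snd (zpowers x) K) (IsIrrCharacter.isCharacter μ.2))
  have hψ : IsCharacter (zpowers x × K) ((χ : G → ℂ) ∘ muK hK) :=
    IsCharacter.comp (muK hK) (IsIrrCharacter.isCharacter χ.2)
  obtain ⟨m, hm⟩ := classInner_isCharacter_nat hφ hψ
  refine ⟨m, ?_⟩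
  rw [← hm, classInner_def, classInner_def, Nat.card_prod, Fintype.sum_prod_type]
  simp only [Dc_def, map_mul, map_inv₀, Complex.conj_natCast, map_sum, Complex.conj_conj, Function.comp]
  push_cast
  rw [mul_inv, mul_assoc]
  congr 1
  rw [Finset.mul_sum]
  refine Finset.sum_congr rfl fun u _ => ?_
  rw [mul_left_comm, Finset.mul_sum]
  congr 1
  refine Finset.sum_congr rfl fun k _ => ?_
  show _ = (l : zpowers x → ℂ) u * (μ : K → ℂ) k * conj ((χ : G → ℂ) ((u : G) * k))
  ring

/-- The Fourier expansion on `⟨x⟩`. -/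
theorem exists_fourier [Fintype (zpowers x)] (hx : orderOf x = p) (f : zpowers x → ℂ)
    (hm : ∀ l : IrrCharacter (zpowers x), ∃ m : ℕ, classInner (l : zpowers x → ℂ) f = m) :
    ∃ (c : Nt x → ℤ) (n : ℕ), (∀ u : zpowers x, u ≠ 1 → f u = ∑ a : Nt x, (c a : ℂ) * (a.1 : zpowers x → ℂ) u) ∧
      f 1 = (p : ℂ) * n + ∑ a : Nt x, (c a : ℂ) ∧
      ∀ a : Nt x, (c a : ℂ) = (p : ℂ)⁻¹ * ∑ u : zpowers x, ((a.1 : zpowers x → ℂ) u - 1) * conj (f u) := by
  classical
  have hpr := hp.out
  choose m hm using hm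
  have hclass : IsClassFunction (zpowers x) f := by
    intro g h
    have : h * g * h⁻¹ = g := by
      rw [zp_comm h g]
      group
    rw [this]
  have hexp : ∀ u, f u = ∑ l : IrrCharacter (zpowers x), (m l : ℂ) * (l : zpowers x → ℂ) u := by
    intro u
    have h1 := congrFun (classFunction_eq_sum f hclass) u
    rw [Finset.sum_apply] at h1
    simp only [Pi.smul_apply, smul_eq_mul] at h1
    rw [h1]
    refine Finset.sum_congr rfl fun l _ => ?_
    rw [← conj_classInner, hm l, Complex.conj_natCast]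
  have hnt : Fintype.card (Nt x) = p - 1 := by
    have := card_nt' hpr hx
    rw [Nat.card_eq_fintype_card] at this
    omega
  refine ⟨fun a => (m a.1 : ℤ) - m triv, m triv, ?_, ?_, ?_⟩
  · intro u hu
    rw [hexp u, Fintype.sum_eq_add_sum_subtype_ne (fun l : IrrCharacter (zpowers x) => (m l : ℂ) * (l : zpowers x → ℂ) u) triv]
    have h7 := sum_nt_col u hu
    have h5 : ∀ a : Nt x, (((m a.1 : ℤ) - m triv : ℤ) : ℂ) * (a.1 : zpowers x → ℂ) u =
        (m a.1 : ℂ) * (a.1 : zpowers x → ℂ) u - (m triv : ℂ) * (a.1 : zpowers x → ℂ) u := by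
      intro a
      push_cast
      ring
    simp only [h5]
    rw [Finset.sum_sub_distrib, ← Finset.mul_sum, h7]
    have h6 : (triv : IrrCharacter (zpowers x)).1 u = 1 := rfl
    rw [h6]
    ring
  · rw [hexp 1, Fintype.sum_eq_add_sum_subtype_ne (fun l : IrrCharacter (zpowers x) => (m l : ℂ) * (l : zpowers x → ℂ) 1) triv]
    simp only [deg_one, mul_one]
    have h2 : ∑ a : Nt x, (((m a.1 : ℤ) - m triv : ℤ) : ℂ) =
        ∑ a : Nt x, (m a.1 : ℂ) - ((p : ℂ) - 1) * (m triv : ℂ) := by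
      push_cast
      rw [Finset.sum_sub_distrib, Finset.sum_const, Finset.card_univ, hnt, nsmul_eq_mul]
      push_cast [Nat.cast_sub hpr.one_lt.le]
      ring
    rw [h2]
    ring
  · intro a
    push_cast
    rw [← hm a.1, ← hm triv, classInner_def, classInner_def, Nat.card_zpowers, hx, ← mul_sub,
      ← Finset.sum_sub_distrib]
    congr 1
    refine Finset.sum_congr rfl fun u _ => ?_
    show _ - 1 * _ = _
    ring

/-- The coefficients of the section functions. -/
theorem exists_cmu [Fintype (zpowers x)] (hx : orderOf x = p) (hK : CompK x p K) :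
    ∃ (c : Nt x → IrrCharacter G → IrrCharacter K → ℤ) (n : IrrCharacter G → IrrCharacter K → ℕ),
      (∀ (χ : IrrCharacter G) (μ : IrrCharacter K), ∀ u : zpowers x, u ≠ 1 → Dc (χ : G → ℂ) (μ : K → ℂ) u = ∑ a : Nt x, (c a χ μ : ℂ) * (a.1 : zpowers x → ℂ) u) ∧
      (∀ (χ : IrrCharacter G) (μ : IrrCharacter K), Dc (χ : G → ℂ) (μ : K → ℂ) 1 = (p : ℂ) * n χ μ + ∑ a : Nt x, (c a χ μ : ℂ)) ∧
      ∀ (χ : IrrCharacter G) (μ : IrrCharacter K) (a : Nt x), (c a χ μ : ℂ) = (p : ℂ)⁻¹ * ∑ u : zpowers x, ((a.1 : zpowers x → ℂ) u - 1) * conj (Dc (χ : G → ℂ) (μ : K → ℂ) u) := by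
  have h := fun (χ : IrrCharacter G) (μ : IrrCharacter K) =>
    exists_fourier hx (fun u : zpowers x => Dc (χ : G → ℂ) (μ : K → ℂ) u) (fun l => exists_m hK χ μ l)
  choose c n h1 h2 h3 using h
  refine ⟨fun a χ μ => c χ μ a, n, h1, ?_, fun χ μ a => h3 χ μ a⟩
  intro χ μ
  exact h2 χ μ

/-- The expansion on `K` of the values on a section. -/
theorem chi_expand (hK : CompK x p K) (χ : IrrCharacter G) (u : zpowers x) (k : K) :
    (χ : G → ℂ) ((u : G) * k) = ∑ μ : IrrCharacter K, Dc (χ : G → ℂ) (μ : K → ℂ) u * (μ : K → ℂ) k := by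
  have hclass : IsClassFunction K (fun k : K => (χ : G → ℂ) ((u : G) * k)) := by
    intro g l
    have h1 : (u : G) * ((l * g * l⁻¹ : K) : G) = (l : G) * ((u : G) * g) * (l : G)⁻¹ := by
      obtain ⟨m, hm⟩ := Subgroup.mem_zpowers_iff.mp u.2
      have h2 : Commute (l : G) (u : G) := by
        rw [← hm]
        exact (hK.comm l l.2).zpow_right m
      simp only [coe_mul, coe_inv]
      calc (u : G) * (l * g * (l : G)⁻¹) = (u * l) * g * (l : G)⁻¹ := by group
        _ = (l * u) * g * (l : G)⁻¹ := by rw [h2.eq]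
        _ = _ := by group
    show (χ : G → ℂ) ((u : G) * ((l * g * l⁻¹ : K) : G)) = _
    rw [h1]
    exact IsCharacter.conj_apply (IsIrrCharacter.isCharacter χ.2) _ _
  have h1 := congrFun (classFunction_eq_sum _ hclass) k
  rw [Finset.sum_apply] at h1
  simp only [Pi.smul_apply, smul_eq_mul] at h1
  exact h1

/-- The degree as a sum. -/
theorem deg_expand (χ : IrrCharacter G) :
    (χ : G → ℂ) 1 = ∑ μ : IrrCharacter K, Dc (χ : G → ℂ) (μ : K → ℂ) 1 * (μ : K → ℂ) 1 := by
  have hclass : IsClassFunction K (fun k : K => (χ : G → ℂ) ((1 : G) * k)) := by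
    intro g l
    simp only [one_mul]
    exact (IsCharacter.isClassFunction (IsCharacter.restrict K (IsIrrCharacter.isCharacter χ.2))) g l
  have h1 := congrFun (classFunction_eq_sum _ hclass) 1
  rw [Finset.sum_apply] at h1
  simp only [Pi.smul_apply, smul_eq_mul, coe_one, mul_one] at h1
  exact h1

/-- Conjugate characters of `K`. -/
theorem Dc_thConj (hK : CompK x p K) (χ : IrrCharacter G) (θ₀ : IrrCharacter K) {n : G}
    (hn : n ∈ normalizer ((zpowers x : Subgroup G) : Set G)) (u : G) :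
    Dc (χ : G → ℂ) ((thConj hK n hn θ₀ : IrrCharacter K) : K → ℂ) u = Dc (χ : G → ℂ) (θ₀ : K → ℂ) (n * u * n⁻¹) := by
  rw [Dc_def, Dc_def]
  congr 1
  refine (Equiv.sum_comp (cjK hK n hn).toEquiv _).symm.trans ?_ |>.symm
  refine Finset.sum_congr rfl fun k _ => ?_
  rw [thConj_apply]
  have h1 : n * u * n⁻¹ * (((cjK hK n hn).toEquiv k : K) : G) = n * (u * k) * n⁻¹ := by
    show n * u * n⁻¹ * (n * k * n⁻¹) = _
    group
  rw [h1]
  have h2 := IsCharacter.conj_apply (IsIrrCharacter.isCharacter χ.2) (u * k) n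
  rw [h2]
  rfl

end Cfsg.Agent.Lib.FF
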