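import Cfsg.Agent.Lib.FF.GenChi1
import Cfsg.Agent.Lib.FF.GenForm

/-!
# The Gram matrix of the vectors of coefficients for defect one
-/

set_option autoImplicit false
set_option linter.unusedSectionVars false
set_option linter.style.haveILetI false
set_option linter.unusedSimpArgs false
set_option linter.unnecessarySimpa false
set_option linter.unusedVariables false
set_option maxSynthPendingDepth 3

open scoped ComplexConjugate
open Subgroup

namespace Cfsg.Agent.Lib.FF

open Cfsg (classInner IsCharacter IsIrrCharacter IrrCharacter IsClassFunction indFun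
  extendByZero IsGeneralizedCharacter IsPModular IsPPart charDegree)
open Cfsg.Agent.Lib.Char
open Cfsg.Agent.Lib.Block hiding tr
open Cfsg.Agent.Lib.SmallSimple.Star
open Cfsg.Agent.Lib.SmallSimple.BL
open Cfsg.Agent.Lib.SmallSimple.BB

universe u

variable {G : Type u} [Group G] [Fintype G] {p : ℕ} {x : G} {K : Subgroup G} [Fintype K]
  {M : Ideal Cfsg.AlgInt} [hp : Fact p.Prime]

open Classical in
/-- The second orthogonality relation as a count. -/
theorem second_orth_count (g h : G) :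
    ∑ χ : IrrCharacter G, (χ : G → ℂ) g * conj ((χ : G → ℂ) h) =
      ((Finset.univ.filter fun t : G => t * h * t⁻¹ = g).card : ℂ) := by
  classical
  rw [second_orthogonality']
  by_cases hc : IsConj g h
  · rw [if_pos hc]
    obtain ⟨t₀, ht₀⟩ := isConj_iff.mp hc.symm
    congr 1
    rw [← Fintype.card_subtype, ← Nat.card_eq_fintype_card]
    have hcc : ∀ c : centralizer ({h} : Set G), (c : G) * h * (c : G)⁻¹ = h := by
      intro c
      have : (c : G) * h = h * c := Subgroup.mem_centralizer_singleton_iff.mp c.2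
      rw [this]
      group
    let f : centralizer ({h} : Set G) → {t : G // t * h * t⁻¹ = g} := fun c => ⟨t₀ * c, by
      have h1 : t₀ * (c : G) * h * (t₀ * c)⁻¹ = t₀ * ((c : G) * h * (c : G)⁻¹) * t₀⁻¹ := by group
      rw [h1, hcc c]
      exact ht₀⟩
    refine Nat.card_eq_of_bijective f ⟨?_, ?_⟩
    · intro c c' hcc'
      have h2 := congrArg Subtype.val hcc'
      exact Subtype.ext (mul_left_cancel h2)
    · rintro ⟨t, ht⟩
      have h5 : t₀⁻¹ * t ∈ centralizer ({h} : Set G) := by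
        rw [Subgroup.mem_centralizer_singleton_iff]
        have h3 : t₀ * h * t₀⁻¹ = t * h * t⁻¹ := ht₀.trans ht.symm
        have h4 : t₀⁻¹ * t * h * (t₀⁻¹ * t)⁻¹ = t₀⁻¹ * (t * h * t⁻¹) * t₀ := by group
        have h6 : t₀⁻¹ * t * h * (t₀⁻¹ * t)⁻¹ = h := by
          rw [h4, ← h3]
          group
        exact mul_inv_eq_iff_eq_mul.mp h6
      refine ⟨⟨_, h5⟩, ?_⟩
      apply Subtype.ext
      simp [f]
  · rw [if_neg hc]
    have : (Finset.univ.filter fun t : G => t * h * t⁻¹ = g) = ∅ := by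
      rw [Finset.filter_eq_empty_iff]
      intro t _ ht
      exact hc (isConj_iff.mpr ⟨t, ht⟩).symm
    rw [this]
    simp

theorem inter_trivial (hx : orderOf x = p) (hK : CompK x p K) {y : G} (hy : y ∈ zpowers x) (hyK : y ∈ K) : y = 1 := by
  by_contra hne
  have h1 : orderOf y = p := orderOf_of_mem hp.out hx hy hne
  exact orderOf_not_dvd_of_mem K hK.ndvd hyK (by rw [h1])

theorem comm_of_mem (hK : CompK x p K) {k u : G} (hk : k ∈ K) (hu : u ∈ zpowers x) : Commute k u := by
  obtain ⟨m, hm⟩ := Subgroup.mem_zpowers_iff.mp hu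
  rw [← hm]
  exact (hK.comm k hk).zpow_right m

theorem isPPart_mul (hx : orderOf x = p) (hK : CompK x p K) {u k : G} (hu : u ∈ zpowers x) (hu1 : u ≠ 1) (hk : k ∈ K) :
    IsPPart p (u * k) u :=
  ⟨k, rfl, (comm_of_mem hK hk hu).symm, ⟨1, by rw [orderOf_of_mem hp.out hx hu hu1, pow_one]⟩,
    orderOf_not_dvd_of_mem K hK.ndvd hk⟩

/-- The decomposition of a conjugate. -/
theorem conj_decomp (hx : orderOf x = p) (hK : CompK x p K) {u v k l t : G} (hu : u ∈ zpowers x) (hu1 : u ≠ 1)
    (hv : v ∈ zpowers x) (hv1 : v ≠ 1) (hk : k ∈ K) (hl : l ∈ K) (h : t * (u * k) * t⁻¹ = v * l) :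
    t * u * t⁻¹ = v ∧ t * k * t⁻¹ = l := by
  have h1 : IsPPart p (v * l) v := isPPart_mul hx hK hv hv1 hl
  have h2 : IsPPart p (v * l) (t * u * t⁻¹) := by
    refine ⟨t * k * t⁻¹, ?_, ?_, ?_, ?_⟩
    · rw [← h]
      group
    · show t * u * t⁻¹ * (t * k * t⁻¹) = t * k * t⁻¹ * (t * u * t⁻¹)
      have := (comm_of_mem hK hk hu).eq
      calc t * u * t⁻¹ * (t * k * t⁻¹) = t * (u * k) * t⁻¹ := by group
        _ = t * (k * u) * t⁻¹ := by rw [this]
        _ = _ := by group
    · exact ⟨1, by rw [orderOf_conj, orderOf_of_mem hp.out hx hu hu1, pow_one]⟩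
    · rw [orderOf_conj]
      exact orderOf_not_dvd_of_mem K hK.ndvd hk
  have h3 := IsPPart_eq h2 h1
  refine ⟨h3, ?_⟩
  have h4 : t * u * t⁻¹ * (t * k * t⁻¹) = v * l := by
    rw [← h]
    group
  rw [h3] at h4
  exact mul_left_cancel h4

section Gram

variable [Fintype (zpowers x)] {T : Subgroup G} [Fintype T]

/-- Inclusion into the normalizer. -/
def toN (hTN : T ≤ normalizer ((zpowers x : Subgroup G) : Set G)) (t : T) :
    normalizer ((zpowers x : Subgroup G) : Set G) := ⟨t, hTN t.2⟩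

theorem toN_mul (hTN : T ≤ normalizer ((zpowers x : Subgroup G) : Set G)) (t t' : T) :
    toN hTN (t * t') = toN hTN t * toN hTN t' := rfl

theorem toN_inv (hTN : T ≤ normalizer ((zpowers x : Subgroup G) : Set G)) (t : T) :
    toN hTN t⁻¹ = (toN hTN t)⁻¹ := rfl

theorem toN_one (hTN : T ≤ normalizer ((zpowers x : Subgroup G) : Set G)) :
    toN hTN 1 = 1 := rfl

/-- The relation on characters of `⟨x⟩` given by `T`. -/
def RelT (hTN : T ≤ normalizer ((zpowers x : Subgroup G) : Set G)) (a b : IrrCharacter (zpowers x)) : Prop :=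
  ∃ t : T, (b : zpowers x → ℂ) ∘ cj (toN hTN t) = a

theorem relT_equiv (hTN : T ≤ normalizer ((zpowers x : Subgroup G) : Set G)) : Equivalence (RelT hTN) := by
  refine ⟨fun a => ⟨1, ?_⟩, ?_, ?_⟩
  · funext u
    simp [toN_one, cj_one]
  · rintro a b ⟨g, hg⟩
    refine ⟨g⁻¹, ?_⟩
    rw [← hg]
    funext u
    simp [toN_inv, cj_cj_inv]
  · rintro a b c ⟨g, hg⟩ ⟨g', hg'⟩
    refine ⟨g' * g, ?_⟩
    rw [← hg, ← hg']
    funext u
    simp [toN_mul, cj_mul]

/-- The elements of `T` which move `b` to `a`. -/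
theorem card_fiber_T (hx : orderOf x = p) (hTN : T ≤ normalizer ((zpowers x : Subgroup G) : Set G))
    (hCT : centralizer ({x} : Set G) ≤ T) (a b : IrrCharacter (zpowers x))
    (hb : (b : zpowers x → ℂ) ≠ tr) (hab : RelT hTN a b) :
    Nat.card {g : T // (b : zpowers x → ℂ) ∘ cj (toN hTN g) = a} = Nat.card (centralizer ({x} : Set G)) := by
  classical
  have hpr := hp.out
  obtain ⟨g₀, hg₀⟩ := hab
  have hcomm : ∀ (u : centralizer ({x} : Set G)) (v : zpowers x),
      cj (toN hTN ⟨u, hCT u.2⟩) v = v := by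
    intro u v
    apply Subtype.ext
    simp only [cj_coe, toN]
    obtain ⟨k, hk⟩ := Subgroup.mem_zpowers_iff.mp v.2
    have hc : Commute (u : G) x := Subgroup.mem_centralizer_singleton_iff.mp u.2
    rw [← hk, (hc.zpow_right k).eq]
    group
  let f : centralizer ({x} : Set G) → {g : T // (b : zpowers x → ℂ) ∘ cj (toN hTN g) = a} := fun u => ⟨⟨u, hCT u.2⟩ * g₀, by
    rw [← hg₀]
    funext v
    simp only [Function.comp, toN_mul, cj_mul, hcomm]⟩
  refine (Nat.card_eq_of_bijective f ⟨?_, ?_⟩).symm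
  · intro u v huv
    have h1 := congrArg Subtype.val huv
    have h2 := mul_right_cancel h1
    have h3 : (u : G) = v := congrArg (fun t : T => (t : G)) h2
    exact Subtype.ext h3
  · rintro ⟨g, hg⟩
    have h1 : (b : zpowers x → ℂ) ∘ cj (toN hTN (g * g₀⁻¹)) = b := by
      funext v
      have h2 := congrFun (hg.trans hg₀.symm) (cj (toN hTN g₀⁻¹) v)
      simp only [Function.comp, toN_inv, cj_cj_inv] at h2
      simp only [Function.comp, toN_mul, toN_inv, cj_mul]
      exact h2
    have h3 := mem_of_stab' hpr hx b hb _ h1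
    refine ⟨⟨_, h3⟩, ?_⟩
    apply Subtype.ext
    apply Subtype.ext
    simp [f, toN]

/-- The orbit of a non-trivial character under `T`. -/
theorem card_orbit_T (hx : orderOf x = p) (hTN : T ≤ normalizer ((zpowers x : Subgroup G) : Set G))
    (hCT : centralizer ({x} : Set G) ≤ T) (a : Nt x) :
    Nat.card T = Nat.card {b : Nt x // RelT hTN a.1 b.1} * Nat.card (centralizer ({x} : Set G)) := by
  classical
  let f : T → {b : Nt x // RelT hTN a.1 b.1} := fun g =>
    ⟨⟨⟨(a.1 : zpowers x → ℂ) ∘ cj (toN hTN g⁻¹), irr_twist _ a.1.2⟩, by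
      have hr : Rel a.1 (⟨(a.1 : zpowers x → ℂ) ∘ cj (toN hTN g⁻¹), irr_twist _ a.1.2⟩ :
          IrrCharacter (zpowers x)) := ⟨toN hTN g, by
        funext u
        simp [toN_inv, cj_inv_cj]⟩
      exact ne_triv_of_rel a.2 hr⟩, ⟨g, by
        funext u
        simp [toN_inv, cj_inv_cj]⟩⟩
  refine Lib.SmallSimple.card_eq_of_fibers f _ ?_
  rintro ⟨⟨b, hb⟩, hab⟩
  rw [← card_fiber_T hx hTN hCT a.1 b (ne_tr_of_ne b hb) hab]
  apply Nat.card_congr
  refine Equiv.subtypeEquivRight fun g => ?_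
  constructor
  · intro hg
    have h1 : (a.1 : zpowers x → ℂ) ∘ cj (toN hTN g⁻¹) = b := by
      have := congrArg (fun t : {b : Nt x // RelT hTN a.1 b.1} => ((t.1.1 : IrrCharacter (zpowers x)) : zpowers x → ℂ)) hg
      exact this
    rw [← h1]
    funext u
    simp [toN_inv, cj_inv_cj]
  · intro hg
    apply Subtype.ext
    apply Subtype.ext
    apply Subtype.ext
    show (a.1 : zpowers x → ℂ) ∘ cj (toN hTN g⁻¹) = b
    rw [← hg]
    funext u
    simp [toN_inv, cj_cj_inv]

open Classical in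
/-- The orthogonality relation for the section functions of `θ₀`. -/
theorem Dc_gram (hx : orderOf x = p) (hK : CompK x p K) (θ₀ : IrrCharacter K) (hT : IsStabT x θ₀ T)
    (hTN : T ≤ normalizer ((zpowers x : Subgroup G) : Set G)) (u v : zpowers x) (hu : u ≠ 1) (hv : v ≠ 1) :
    ∑ χ : IrrCharacter G, conj (Dc (χ : G → ℂ) (θ₀ : K → ℂ) u) * Dc (χ : G → ℂ) (θ₀ : K → ℂ) v =
      (Nat.card K : ℂ)⁻¹ * ∑ t : T, if cj (toN hTN t) u = v then 1 else 0 := by
  classical
  have hpr := hp.out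
  have hu' : (u : G) ≠ 1 := fun h => hu (Subtype.ext h)
  have hv' : (v : G) ≠ 1 := fun h => hv (Subtype.ext h)
  have hc0 : (Nat.card K : ℂ) ≠ 0 := by exact_mod_cast Nat.card_pos.ne'
  -- first step: the sum over characters
  have h1 : ∀ χ : IrrCharacter G, conj (Dc (χ : G → ℂ) (θ₀ : K → ℂ) u) * Dc (χ : G → ℂ) (θ₀ : K → ℂ) v =
      (Nat.card K : ℂ)⁻¹ * (Nat.card K : ℂ)⁻¹ * ∑ k : K, ∑ l : K, (θ₀ : K → ℂ) k * conj ((θ₀ : K → ℂ) l) *
        ((χ : G → ℂ) ((v : G) * l) * conj ((χ : G → ℂ) ((u : G) * k))) := by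
    intro χ
    simp only [Dc_def, map_mul, map_inv₀, Complex.conj_natCast, map_sum, Complex.conj_conj]
    rw [mul_mul_mul_comm, Finset.sum_mul_sum]
    congr 1
    refine Finset.sum_congr rfl fun k _ => Finset.sum_congr rfl fun l _ => ?_
    ring
  rw [Finset.sum_congr rfl fun χ _ => h1 χ, ← Finset.mul_sum]
  have h2 : ∑ χ : IrrCharacter G, ∑ k : K, ∑ l : K, (θ₀ : K → ℂ) k * conj ((θ₀ : K → ℂ) l) *
        ((χ : G → ℂ) ((v : G) * l) * conj ((χ : G → ℂ) ((u : G) * k))) =
      ∑ t : G, ∑ k : K, ∑ l : K, (θ₀ : K → ℂ) k * conj ((θ₀ : K → ℂ) l) *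
        (if t * ((u : G) * k) * t⁻¹ = (v : G) * l then 1 else 0) := by
    rw [Finset.sum_comm]
    simp only [Finset.sum_comm (s := (Finset.univ : Finset G))]
    refine Finset.sum_congr rfl fun k _ => ?_
    rw [Finset.sum_comm]
    refine Finset.sum_congr rfl fun l _ => ?_
    rw [← Finset.mul_sum, ← Finset.mul_sum, second_orth_count, Finset.card_filter]
    push_cast
    rfl
  rw [h2]
  -- the inner sum
  have h3 : ∀ t : G, ∑ k : K, ∑ l : K, (θ₀ : K → ℂ) k * conj ((θ₀ : K → ℂ) l) *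
        (if t * ((u : G) * k) * t⁻¹ = (v : G) * l then 1 else 0) =
      if t ∈ T ∧ t * u * t⁻¹ = v then (Nat.card K : ℂ) else 0 := by
    intro t
    by_cases htu : t * u * t⁻¹ = v
    · have htN : t ∈ normalizer ((zpowers x : Subgroup G) : Set G) :=
        mem_normalizer_of_conj' hpr hx u.2 hu' (by rw [htu]; exact v.2)
      have h4 : ∀ k l : K, (t * ((u : G) * k) * t⁻¹ = (v : G) * l) ↔ l = cjK hK t htN k := by
        intro k l
        constructor
        · intro h
          exact Subtype.ext (conj_decomp hx hK u.2 hu' v.2 hv' k.2 l.2 h).2.symm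
        · rintro rfl
          rw [cjK_coe, ← htu]
          group
      simp only [h4]
      have h5 : ∀ k : K, ∑ l : K, (θ₀ : K → ℂ) k * conj ((θ₀ : K → ℂ) l) *
          (if l = cjK hK t htN k then 1 else 0) =
          (θ₀ : K → ℂ) k * conj (((thConj hK t htN θ₀ : IrrCharacter K) : K → ℂ) k) := by
        intro k
        rw [Finset.sum_eq_single (cjK hK t htN k)]
        · rw [if_pos rfl, mul_one]
          rfl
        · intro b _ hb
          rw [if_neg hb, mul_zero]
        · intro h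
          exact absurd (Finset.mem_univ _) h
      simp only [h5]
      have h6 := classInner_irr θ₀.2 (thConj hK t htN θ₀).2
      rw [classInner_def] at h6
      have h7 : ∑ k : K, (θ₀ : K → ℂ) k * conj (((thConj hK t htN θ₀ : IrrCharacter K) : K → ℂ) k) =
          (Nat.card K : ℂ) * (if (θ₀ : K → ℂ) = ((thConj hK t htN θ₀ : IrrCharacter K) : K → ℂ) then 1 else 0) := by
        rw [← h6, mul_inv_cancel_left₀ hc0]
      rw [h7]
      by_cases htT : t ∈ T
      · have h8 := (hT.thConj_eq hK htN).mpr htT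
        have h9 : (t ∈ T ∧ t * (u : G) * t⁻¹ = v) := ⟨htT, htu⟩
        rw [if_pos h9, if_pos (by rw [h8]), mul_one]
      · have h8 : (θ₀ : K → ℂ) ≠ ((thConj hK t htN θ₀ : IrrCharacter K) : K → ℂ) := by
          intro h9
          exact htT ((hT.thConj_eq hK htN).mp (Subtype.ext h9.symm))
        have h9 : ¬ (t ∈ T ∧ t * (u : G) * t⁻¹ = v) := fun h => htT h.1
        rw [if_neg h9, if_neg h8, mul_zero]
    · rw [if_neg (fun h => htu h.2)]
      refine Finset.sum_eq_zero fun k _ => Finset.sum_eq_zero fun l _ => ?_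
      rw [if_neg, mul_zero]
      intro h
      exact htu (conj_decomp hx hK u.2 hu' v.2 hv' k.2 l.2 h).1
  simp only [h3]
  rw [sum_subgroup_of_support T (fun t => if t ∈ T ∧ t * (u : G) * t⁻¹ = v then (Nat.card K : ℂ) else 0) (by
    intro g hg
    rw [if_neg (fun h => hg h.1)])]
  have h9 : ∀ t : T, (if (t : G) ∈ T ∧ (t : G) * (u : G) * (t : G)⁻¹ = v then (Nat.card K : ℂ) else 0) =
      (Nat.card K : ℂ) * if cj (toN hTN t) u = v then 1 else 0 := by
    intro t
    have h10 : cj (toN hTN t) u = v ↔ (t : G) * (u : G) * (t : G)⁻¹ = v := by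
      constructor
      · intro h
        exact congrArg Subtype.val h
      · intro h
        exact Subtype.ext h
    by_cases h : (t : G) * (u : G) * (t : G)⁻¹ = v
    · rw [if_pos ⟨t.2, h⟩, if_pos (h10.mpr h), mul_one]
    · rw [if_neg (fun h' => h h'.2), if_neg (fun h' => h (h10.mp h')), mul_zero]
  simp only [h9]
  rw [← Finset.mul_sum]
  field_simp

/-- The orthogonality of the section functions with the regular elements. -/
theorem Dc_regular (hx : orderOf x = p) (hK : CompK x p K) (θ₀ : IrrCharacter K) (u : zpowers x) (hu : u ≠ 1)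
    (g : G) (hg : ¬ p ∣ orderOf g) :
    ∑ χ : IrrCharacter G, conj (Dc (χ : G → ℂ) (θ₀ : K → ℂ) u) * (χ : G → ℂ) g = 0 := by
  classical
  have hu' : (u : G) ≠ 1 := fun h => hu (Subtype.ext h)
  have h1 : ∀ χ : IrrCharacter G, conj (Dc (χ : G → ℂ) (θ₀ : K → ℂ) u) * (χ : G → ℂ) g =
      (Nat.card K : ℂ)⁻¹ * ∑ k : K, (θ₀ : K → ℂ) k * ((χ : G → ℂ) g * conj ((χ : G → ℂ) ((u : G) * k))) := by
    intro χ
    simp only [Dc_def, map_mul, map_inv₀, Complex.conj_natCast, map_sum, Complex.conj_conj]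
    rw [mul_assoc, Finset.sum_mul]
    congr 1
    refine Finset.sum_congr rfl fun k _ => ?_
    ring
  rw [Finset.sum_congr rfl fun χ _ => h1 χ, ← Finset.mul_sum, Finset.sum_comm]
  have h2 : ∀ k : K, ∑ χ : IrrCharacter G, (θ₀ : K → ℂ) k * ((χ : G → ℂ) g * conj ((χ : G → ℂ) ((u : G) * k))) = 0 := by
    intro k
    rw [← Finset.mul_sum, second_orthogonality, if_neg, mul_zero]
    intro hc
    apply hg
    obtain ⟨c', hc'⟩ := isConj_iff.mp hc
    rw [← orderOf_conj c' g, hc']
    have h3 : orderOf (u : G) = p := orderOf_of_mem hp.out hx u.2 hu'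
    have h4 := (comm_of_mem hK k.2 u.2).symm.orderOf_mul_eq_mul_orderOf_of_coprime (by
      rw [h3]
      exact (Nat.Prime.coprime_iff_not_dvd hp.out).mpr (orderOf_not_dvd_of_mem K hK.ndvd k.2))
    rw [h4, h3]
    exact dvd_mul_right _ _
  rw [Finset.sum_eq_zero fun k _ => h2 k, mul_zero]

open Classical in
/-- The Gram matrix. -/
theorem c_gram (hx : orderOf x = p) (hK : CompK x p K) (θ₀ : IrrCharacter K) (hT : IsStabT x θ₀ T)
    (hTN : T ≤ normalizer ((zpowers x : Subgroup G) : Set G)) (hCT : centralizer ({x} : Set G) ≤ T) (e : ℕ)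
    (hcardT : Nat.card T = e * Nat.card (centralizer ({x} : Set G)))
    (hcardC : Nat.card (centralizer ({x} : Set G)) = p * Nat.card K)
    (c : Nt x → IrrCharacter G → ℤ)
    (hc : ∀ (a : Nt x) (χ : IrrCharacter G), (c a χ : ℂ) = (p : ℂ)⁻¹ * ∑ u : zpowers x,
      ((a.1 : zpowers x → ℂ) u - 1) * conj (Dc (χ : G → ℂ) (θ₀ : K → ℂ) u)) (a b : Nt x) :
    ip (c a) (c b) = (e : ℤ) + if RelT hTN a.1 b.1 then 1 else 0 := by
  have hpr := hp.out
  have hp0 : (p : ℂ) ≠ 0 := by exact_mod_cast hpr.ne_zero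
  have hK0 : (Nat.card K : ℂ) ≠ 0 := by exact_mod_cast Nat.card_pos.ne'
  have hC0 : (Nat.card (centralizer ({x} : Set G)) : ℂ) ≠ 0 := by exact_mod_cast Nat.card_pos.ne'
  have hCc : (Nat.card (centralizer ({x} : Set G)) : ℂ) = (p : ℂ) * (Nat.card K : ℂ) := by
    rw [hcardC]
    push_cast
    rfl
  have hf1 : ∀ a : Nt x, (a.1 : zpowers x → ℂ) 1 - 1 = 0 := fun a => by
    rw [deg_one]
    ring
  set f : zpowers x → ℂ := fun u => (a.1 : zpowers x → ℂ) u - 1 with hf
  set f' : zpowers x → ℂ := fun u => (b.1 : zpowers x → ℂ) u - 1 with hf'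
  have hF1 : f 1 = 0 := hf1 a
  have hF1' : f' 1 = 0 := hf1 b
  let S : zpowers x → zpowers x → ℂ := fun u v => ∑ χ : IrrCharacter G,
    conj (Dc (χ : G → ℂ) (θ₀ : K → ℂ) u) * Dc (χ : G → ℂ) (θ₀ : K → ℂ) v
  let R : zpowers x → zpowers x → ℂ := fun u v => ∑ t : T, if cj (toN hTN t) u = v then 1 else 0
  have h1 : ((ip (c a) (c b) : ℤ) : ℂ) = (p : ℂ)⁻¹ * (p : ℂ)⁻¹ * ∑ u : zpowers x, ∑ v : zpowers x,
      f u * conj (f' v) * S u v := by
    have h10 : ∀ χ : IrrCharacter G, (c a χ : ℂ) * (c b χ : ℂ) = (p : ℂ)⁻¹ * (p : ℂ)⁻¹ *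
        ∑ u : zpowers x, ∑ v : zpowers x, f u * conj (f' v) *
          (conj (Dc (χ : G → ℂ) (θ₀ : K → ℂ) u) * Dc (χ : G → ℂ) (θ₀ : K → ℂ) v) := by
      intro χ
      have hconj : (c b χ : ℂ) = conj (c b χ : ℂ) := (map_intCast (starRingEnd ℂ) _).symm
      rw [hconj, hc a χ, hc b χ, map_mul, map_inv₀, Complex.conj_natCast, map_sum]
      simp only [map_mul, Complex.conj_conj, map_sub, map_one]
      rw [mul_mul_mul_comm, Finset.sum_mul_sum]
      congr 1
      refine Finset.sum_congr rfl fun u _ => Finset.sum_congr rfl fun v _ => ?_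
      simp only [f, f', map_sub, map_one]
      ring
    simp only [ip]
    push_cast
    rw [Finset.sum_congr rfl fun χ _ => h10 χ, ← Finset.mul_sum]
    congr 1
    rw [Finset.sum_comm]
    refine Finset.sum_congr rfl fun u _ => ?_
    rw [Finset.sum_comm]
    refine Finset.sum_congr rfl fun v _ => ?_
    rw [← Finset.mul_sum]
  have h2 : (∑ u : zpowers x, ∑ v : zpowers x, f u * conj (f' v) * S u v) * (Nat.card K : ℂ) =
      ∑ u : zpowers x, ∑ v : zpowers x, f u * conj (f' v) * R u v := by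
    rw [Finset.sum_mul]
    refine Finset.sum_congr rfl fun u _ => ?_
    rw [Finset.sum_mul]
    refine Finset.sum_congr rfl fun v _ => ?_
    by_cases hu : u = 1
    · subst hu
      rw [hF1]
      ring
    by_cases hv : v = 1
    · subst hv
      rw [hF1']
      simp
    have h' : S u v * (Nat.card K : ℂ) = R u v := by
      show (∑ χ : IrrCharacter G, conj (Dc (χ : G → ℂ) (θ₀ : K → ℂ) u) * Dc (χ : G → ℂ) (θ₀ : K → ℂ) v) * _ = _
      rw [Dc_gram hx hK θ₀ hT hTN u v hu hv, mul_comm, mul_inv_cancel_left₀ hK0]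
    rw [mul_assoc, h']
  have h3 : ∑ u : zpowers x, ∑ v : zpowers x, f u * conj (f' v) * R u v =
      ∑ g : T, ∑ u : zpowers x, f u * conj (f' (cj (toN hTN g) u)) := by
    rw [Finset.sum_comm (s := (Finset.univ : Finset T))]
    refine Finset.sum_congr rfl fun u _ => ?_
    have h30 : ∀ v : zpowers x, f u * conj (f' v) * R u v =
        ∑ g : T, if cj (toN hTN g) u = v then f u * conj (f' v) else 0 := by
      intro v
      simp only [R]
      rw [Finset.mul_sum]
      refine Finset.sum_congr rfl fun g _ => ?_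
      split_ifs <;> simp
    rw [Finset.sum_congr rfl fun v _ => h30 v, Finset.sum_comm]
    refine Finset.sum_congr rfl fun g _ => ?_
    rw [Finset.sum_ite_eq]
    simp
  have h4 : ∑ g : T, ∑ u : zpowers x, f u * conj (f' (cj (toN hTN g) u)) = (p : ℂ) * ∑ g : T,
      ((if (b.1 : zpowers x → ℂ) ∘ cj (toN hTN g) = a.1 then 1 else 0) + 1) := by
    rw [Finset.mul_sum]
    refine Finset.sum_congr rfl fun g _ => ?_
    rw [← inner_twist a b (toN hTN g), classInner_def, Nat.card_zpowers, hx, ← mul_assoc, mul_inv_cancel₀ hp0,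
      one_mul]
    rfl
  have h5 : (∑ g : T, (((if (b.1 : zpowers x → ℂ) ∘ cj (toN hTN g) = a.1 then 1 else 0) + 1) : ℂ)) =
      (if RelT hTN a.1 b.1 then (Nat.card (centralizer ({x} : Set G)) : ℂ) else 0) +
        (e : ℂ) * (Nat.card (centralizer ({x} : Set G)) : ℂ) := by
    rw [Finset.sum_add_distrib, Finset.sum_const, Finset.card_univ, nsmul_eq_mul, mul_one,
      Finset.sum_boole, Fintype.card_eq_nat_card, hcardT]
    congr 1
    · by_cases hr : RelT hTN a.1 b.1
      · rw [if_pos hr, ← card_fiber_T hx hTN hCT a.1 b.1 (ne_tr_of_ne b.1 b.2) hr,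
          Nat.card_eq_fintype_card, Fintype.card_subtype]
      · rw [if_neg hr]
        have : (Finset.univ.filter fun g : T => (b.1 : zpowers x → ℂ) ∘ cj (toN hTN g) = a.1) = ∅ := by
          rw [Finset.filter_eq_empty_iff]
          intro g _ hg
          exact hr ⟨g, hg⟩
        rw [this]
        simp
    · push_cast
      rfl
  rw [h3, h4, h5] at h2
  have h6 : ((ip (c a) (c b) : ℤ) : ℂ) * (Nat.card (centralizer ({x} : Set G)) : ℂ) =
      ((e : ℂ) + if RelT hTN a.1 b.1 then 1 else 0) * (Nat.card (centralizer ({x} : Set G)) : ℂ) := by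
    have h7 : ((ip (c a) (c b) : ℤ) : ℂ) * (Nat.card K : ℂ) = (p : ℂ)⁻¹ * (p : ℂ)⁻¹ * ((p : ℂ) *
        ((if RelT hTN a.1 b.1 then (Nat.card (centralizer ({x} : Set G)) : ℂ) else 0) +
        (e : ℂ) * (Nat.card (centralizer ({x} : Set G)) : ℂ))) := by
      rw [h1, mul_assoc, h2]
    have h8 : ((ip (c a) (c b) : ℤ) : ℂ) * (Nat.card (centralizer ({x} : Set G)) : ℂ) =
        (p : ℂ) * (((ip (c a) (c b) : ℤ) : ℂ) * (Nat.card K : ℂ)) := by
      rw [hCc]
      ring
    rw [h8, h7]
    by_cases hr : RelT hTN a.1 b.1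
    · simp only [if_pos hr]
      field_simp
      ring
    · simp only [if_neg hr]
      field_simp
      ring
  have h9 := mul_right_cancel₀ hC0 h6
  have h2' : ((ip (c a) (c b) : ℤ) : ℂ) = (((e : ℤ) + if RelT hTN a.1 b.1 then 1 else 0 : ℤ) : ℂ) := by
    rw [h9]
    push_cast
    rfl
  exact_mod_cast h2'

/-- The vectors are orthogonal to the columns of regular elements. -/
theorem c_regular (hx : orderOf x = p) (hK : CompK x p K) (θ₀ : IrrCharacter K)
    (c : Nt x → IrrCharacter G → ℤ)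
    (hc : ∀ (a : Nt x) (χ : IrrCharacter G), (c a χ : ℂ) = (p : ℂ)⁻¹ * ∑ u : zpowers x,
      ((a.1 : zpowers x → ℂ) u - 1) * conj (Dc (χ : G → ℂ) (θ₀ : K → ℂ) u)) (a : Nt x) (g : G)
    (hg : ¬ p ∣ orderOf g) : ∑ χ : IrrCharacter G, (c a χ : ℂ) * (χ : G → ℂ) g = 0 := by
  have h1 : ∀ χ : IrrCharacter G, (c a χ : ℂ) * (χ : G → ℂ) g = (p : ℂ)⁻¹ * ∑ u : zpowers x,
      ((a.1 : zpowers x → ℂ) u - 1) * (conj (Dc (χ : G → ℂ) (θ₀ : K → ℂ) u) * (χ : G → ℂ) g) := by
    intro χ
    rw [hc, mul_assoc, Finset.sum_mul]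
    congr 1
    refine Finset.sum_congr rfl fun u _ => ?_
    ring
  rw [Finset.sum_congr rfl fun χ _ => h1 χ, ← Finset.mul_sum, Finset.sum_comm]
  have h2 : ∀ u : zpowers x, ∑ χ : IrrCharacter G, ((a.1 : zpowers x → ℂ) u - 1) *
      (conj (Dc (χ : G → ℂ) (θ₀ : K → ℂ) u) * (χ : G → ℂ) g) = 0 := by
    intro u
    rw [← Finset.mul_sum]
    by_cases hu : u = 1
    · subst hu
      rw [deg_one]
      ring
    · rw [Dc_regular hx hK θ₀ u hu g hg, mul_zero]
  rw [Finset.sum_eq_zero fun u _ => h2 u, mul_zero]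

/-- The order of the centralizer. -/
theorem card_centralizer_compK (hx : orderOf x = p) (hK : CompK x p K) :
    Nat.card (centralizer ({x} : Set G)) = p * Nat.card K := by
  have hmem : ∀ h : zpowers x × K, (muK hK h) ∈ centralizer ({x} : Set G) := by
    rintro ⟨u, k⟩
    rw [Subgroup.mem_centralizer_singleton_iff]
    show (u : G) * k * x = x * ((u : G) * k)
    have h1 : Commute (k : G) x := hK.comm k k.2
    have h2 : Commute (u : G) x := by
      obtain ⟨m, hm⟩ := Subgroup.mem_zpowers_iff.mp u.2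
      rw [← hm]
      exact (Commute.refl x).zpow_left m
    rw [mul_assoc, h1.eq, ← mul_assoc, h2.eq, mul_assoc]
  let F : zpowers x × K → centralizer ({x} : Set G) := fun h => ⟨muK hK h, hmem h⟩
  have hF : Function.Bijective F := by
    constructor
    · rintro ⟨u, k⟩ ⟨u', k'⟩ h
      have h1 : (u : G) * k = (u' : G) * k' := congrArg Subtype.val h
      have h2 : (u' : G)⁻¹ * u = k' * (k : G)⁻¹ := by
        rw [inv_mul_eq_iff_eq_mul, ← mul_assoc, eq_mul_inv_iff_mul_eq]
        exact h1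
      have h3 : (u' : G)⁻¹ * u = 1 := inter_trivial hx hK
        (Subgroup.mul_mem _ (Subgroup.inv_mem _ u'.2) u.2) (by
          rw [h2]
          exact K.mul_mem k'.2 (K.inv_mem k.2))
      have h4 : (u : G) = u' := by
        rw [inv_mul_eq_one] at h3
        exact h3.symm
      have h5 : (k : G) = k' := by
        rw [h4] at h1
        exact mul_left_cancel h1
      exact Prod.ext (Subtype.ext h4) (Subtype.ext h5)
    · rintro ⟨y, hy⟩
      have hy' : Commute y x := Subgroup.mem_centralizer_singleton_iff.mp hy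
      obtain ⟨j, c, hc, rfl⟩ := hK.decomp y hy'
      refine ⟨(⟨x ^ j, Subgroup.pow_mem _ (mem_zpowers x) j⟩, ⟨c, hc⟩), ?_⟩
      apply Subtype.ext
      rfl
  rw [← Nat.card_eq_of_bijective F hF, Nat.card_prod, Nat.card_zpowers, hx]

end Gram

end Cfsg.Agent.Lib.FF
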