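import Cfsg.Agent.Lib.FF.GenChi2
import Cfsg.Agent.Lib.BPair.GalFix2
import Cfsg.Agent.Lib.Block.Section

/-!
# The blocks of the centralizer for defect one
-/

set_option autoImplicit false
set_option linter.unusedSectionVars false
set_option linter.style.haveILetI false
set_option linter.unusedSimpArgs false
set_option linter.unnecessarySimpa false
set_option linter.unusedVariables false
set_option maxSynthPendingDepth 3

open scoped ComplexConjugate
open Subgroup

namespace Cfsg.Agent.Lib.FF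

open Cfsg (classInner IsCharacter IsIrrCharacter IrrCharacter IsClassFunction indFun
  extendByZero IsGeneralizedCharacter IsPModular IsPPart charDegree IsPBlock blockOf blockCoeff SameBlock MemLocalIdeal
  IsInducedBlock IsDefectGroup inducedCentralChar centralChar)
open Cfsg.Agent.Lib.Char
open Cfsg.Agent.Lib.Block hiding tr
open Cfsg.Agent.Lib.SmallSimple.Star
open Cfsg.Agent.Lib.SmallSimple.BL
open Cfsg.Agent.Lib.SmallSimple.BB

universe u

variable {G : Type u} [Group G] [Fintype G] {p : ℕ} {x : G} {K : Subgroup G} [Fintype K]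
  {M : Ideal Cfsg.AlgInt} [hp : Fact p.Prime] {C : Subgroup G} [Fintype C]

/-- The characters of `C` over a character of `K`. -/
def Amu (hKC : K ≤ C) (μ : IrrCharacter K) : Set (IrrCharacter C) :=
  {ξ | ∀ k : K, (ξ : C → ℂ) ⟨k, hKC k.2⟩ = (μ : K → ℂ) k}

theorem le_C_of_compK (hK : CompK x p K) (hC : ∀ g, g ∈ C ↔ Commute g x) : K ≤ C :=
  fun k hk => (hC k).mpr (hK.comm k hk)

theorem C_le_N (hC : ∀ g, g ∈ C ↔ Commute g x) : C ≤ normalizer ((zpowers x : Subgroup G) : Set G) := by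
  intro g hg
  apply Cfsg.Agent.Lib.SmallSimple.BB.centralizer_le_normalizer
  rw [Subgroup.mem_centralizer_singleton_iff]
  exact ((hC g).mp hg).eq

/-- Characters of `K` are invariant in `C`. -/
theorem thConj_C (hK : CompK x p K) (hC : ∀ g, g ∈ C ↔ Commute g x) (μ : IrrCharacter K) (a : G) (ha : a ∈ C) :
    thConj hK a (C_le_N hC ha) μ = μ := by
  apply Subtype.ext
  funext k
  rw [thConj_apply]
  obtain ⟨j, c, hc, rfl⟩ := hK.decomp a ((hC a).mp ha)
  have h1 : Commute (x ^ j) (c * (k : G) * c⁻¹) :=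
    ((hK.comm _ (K.mul_mem (K.mul_mem hc k.2) (K.inv_mem hc))).pow_right j).symm
  have h2 : (⟨x ^ j * c * k * (x ^ j * c)⁻¹, hK.conj_mem (C_le_N hC ha) k.2⟩ : K) = ⟨c, hc⟩ * k * (⟨c, hc⟩ : K)⁻¹ := by
    apply Subtype.ext
    show x ^ j * c * k * (x ^ j * c)⁻¹ = c * k * c⁻¹
    calc x ^ j * c * k * (x ^ j * c)⁻¹ = x ^ j * (c * k * c⁻¹) * (x ^ j)⁻¹ := by group
      _ = (c * k * c⁻¹) * x ^ j * (x ^ j)⁻¹ := by rw [h1.eq]
      _ = _ := by group
  rw [h2]
  exact IsCharacter.conj_apply (IsIrrCharacter.isCharacter μ.2) k _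

section

variable (hx : orderOf x = p) (hK : CompK x p K) (hC : ∀ g, g ∈ C ↔ Commute g x)

include hx hK hC

theorem isCyclic_quot_C [hn : (K.subgroupOf C).Normal] : IsCyclic (C ⧸ K.subgroupOf C) := by
  have hz : zpowers x ≤ C := by
    rw [Subgroup.zpowers_le]
    exact (hC x).mpr (Commute.refl x)
  let f : zpowers x →* C ⧸ K.subgroupOf C := (QuotientGroup.mk' (K.subgroupOf C)).comp (Subgroup.inclusion hz)
  refine isCyclic_of_surjective f ?_
  intro q
  obtain ⟨c, rfl⟩ := QuotientGroup.mk_surjective q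
  obtain ⟨j, k, hk, hck⟩ := hK.decomp c ((hC c).mp c.2)
  refine ⟨⟨x ^ j, Subgroup.pow_mem _ (mem_zpowers x) j⟩, ?_⟩
  show ((⟨x ^ j, hz (Subgroup.pow_mem _ (mem_zpowers x) j)⟩ : C) : C ⧸ K.subgroupOf C) = (c : C ⧸ K.subgroupOf C)
  refine QuotientGroup.eq.mpr (Subgroup.mem_subgroupOf.mpr ?_)
  have h1 : ((⟨x ^ j, hz (Subgroup.pow_mem _ (mem_zpowers x) j)⟩ : C)⁻¹ * c : C).1 = k := by
    show (x ^ j)⁻¹ * (c : G) = k
    rw [hck]
    group
  rw [h1]
  exact hk

theorem mem_Amu_of_inner [Fintype (K.subgroupOf C)] (μ : IrrCharacter K) (ξ : IrrCharacter C)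
    (h : classInner (fun n : K.subgroupOf C => (ξ : C → ℂ) n)
        ((pull (Subgroup.subgroupOfEquivOfLe (le_C_of_compK hK hC)) μ : IrrCharacter (K.subgroupOf C)) : K.subgroupOf C → ℂ) ≠ 0) :
    ξ ∈ Amu (le_C_of_compK hK hC) μ := by
  classical
  have hKC := le_C_of_compK hK hC
  haveI hn : (K.subgroupOf C).Normal := subgroupOf_normal hK (C_le_N hC)
  have hinv : ∀ a (ha : a ∈ C), thConj hK a (C_le_N hC ha) μ = μ := fun a ha => thConj_C hK hC μ a ha
  have h1 := eval_one_of_inner_ne hx hK (C_le_N hC) hinv hKC (isCyclic_quot_C hx hK hC) ξ h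
  have hres := clifford_invariant hn ξ.2 (pull (Subgroup.subgroupOfEquivOfLe hKC) μ).2
    (pull_inv' hK (C_le_N hC) hinv hKC hn) h
  set m := classInner (fun n : K.subgroupOf C => (ξ : C → ℂ) n)
        ((pull (Subgroup.subgroupOfEquivOfLe hKC) μ : IrrCharacter (K.subgroupOf C)) : K.subgroupOf C → ℂ) with hm
  have h2 := congrFun hres 1
  simp only [Pi.smul_apply, smul_eq_mul, pull_coe, Function.comp, map_one] at h2
  have h3 : (ξ : C → ℂ) ((1 : K.subgroupOf C) : C) = (ξ : C → ℂ) 1 := rfl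
  rw [h3, h1] at h2
  have hμ0 : (μ : K → ℂ) 1 ≠ 0 := isIrr_one_ne_zero μ.2
  have hm1 : m = 1 := by
    apply mul_right_cancel₀ hμ0
    rw [one_mul]
    exact h2.symm
  intro k
  have h4 := congrFun hres ⟨⟨k, hKC k.2⟩, Subgroup.mem_subgroupOf.mpr k.2⟩
  simp only [Pi.smul_apply, smul_eq_mul, pull_coe, Function.comp, hm1, one_mul] at h4
  exact h4

/-- The central idempotent of `C` belonging to a character of `K`. -/
theorem zTh_eq_blockElt (μ : IrrCharacter K) :
    zTh C μ = blockElt (Amu (le_C_of_compK hK hC) μ) := by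
  classical
  have hKC := le_C_of_compK hK hC
  haveI : Fintype (K.subgroupOf C) := Fintype.ofFinite _
  have hinv : ∀ a (ha : a ∈ C), thConj hK a (C_le_N hC ha) μ = μ := fun a ha => thConj_C hK hC μ a ha
  apply eq_blockElt_of_om (zTh_central' hK (C_le_N hC) hinv)
  · intro ξ hξ
    unfold om
    rw [tr_zTh hKC]
    have h1 : (fun n : K.subgroupOf C => (ξ : C → ℂ) n) =
        ((pull (Subgroup.subgroupOfEquivOfLe hKC) μ : IrrCharacter (K.subgroupOf C)) : K.subgroupOf C → ℂ) := by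
      funext n
      rw [pull_coe]
      exact hξ (Subgroup.subgroupOfEquivOfLe hKC n)
    rw [h1, classInner_irr_self (pull (Subgroup.subgroupOfEquivOfLe hKC) μ).2, mul_one]
    have h2 : (ξ : C → ℂ) 1 = (μ : K → ℂ) 1 := hξ 1
    rw [h2, div_self (isIrr_one_ne_zero μ.2)]
  · intro ξ hξ
    unfold om
    rw [tr_zTh hKC]
    have h1 : classInner (fun n : K.subgroupOf C => (ξ : C → ℂ) n)
        ((pull (Subgroup.subgroupOfEquivOfLe hKC) μ : IrrCharacter (K.subgroupOf C)) : K.subgroupOf C → ℂ) = 0 := by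
      by_contra h0
      exact hξ (mem_Amu_of_inner hx hK hC μ ξ h0)
    rw [h1, mul_zero, zero_div]

theorem Amu_nonempty (μ : IrrCharacter K) : (Amu (le_C_of_compK hK hC) μ).Nonempty := by
  classical
  have hKC := le_C_of_compK hK hC
  haveI : Fintype (K.subgroupOf C) := Fintype.ofFinite _
  haveI hn : (K.subgroupOf C).Normal := subgroupOf_normal hK (C_le_N hC)
  obtain ⟨ξ, hξ⟩ := exists_irr_over (K.subgroupOf C) (pull (Subgroup.subgroupOfEquivOfLe hKC) μ)
  exact ⟨ξ, mem_Amu_of_inner hx hK hC μ ξ hξ⟩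

theorem localCoeff_eTh (hM : IsPModular p M) (μ : IrrCharacter K) :
    Cfsg.Agent.Lib.Block.LocalCoeff M (eTh μ : MonoidAlgebra ℂ G) := by
  have := isPModular_isPrime hM
  have hnd : ¬ p ∣ Nat.card K / charDegree (μ : K → ℂ) :=
    fun h => hK.ndvd (h.trans (Nat.div_dvd_of_dvd (charDegree_dvd_card μ.2)))
  have h1 : IsPBlock M ({μ} : Set (IrrCharacter K)) := ⟨μ, (blockOf_eq_singleton_of_not_dvd hM μ hnd).symm⟩
  exact localCoeff_incl K (localCoeff_blockElt (isBlockUnion_of_isPBlock h1))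

theorem Amu_isPBlock (hM : IsPModular p M) (μ : IrrCharacter K) : IsPBlock M (Amu (le_C_of_compK hK hC) μ) := by
  classical
  have := isPModular_isPrime hM
  have hKC := le_C_of_compK hK hC
  obtain ⟨ξ₀, hξ₀⟩ := Amu_nonempty hx hK hC μ
  have hU : IsBlockUnion M (Amu hKC μ) := by
    apply isBlockUnion_of_localCoeff
    rw [← zTh_eq_blockElt hx hK hC μ]
    exact localCoeff_resAlg C (localCoeff_eTh hx hK hC hM μ)
  have hsame : ∀ ξ ∈ Amu hKC μ, SameBlock M (ξ₀ : C → ℂ) (ξ : C → ℂ) := by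
    intro ξ hξ
    apply Cfsg.Agent.Lib.BPair.sameBlock_of_regular hM
    intro y hy
    have hyK : (y : G) ∈ K := hK.reg y ((hC y).mp y.2) (by
      intro hd
      apply hy
      rwa [Subgroup.orderOf_coe] at hd)
    have h1 : (ξ₀ : C → ℂ) y = (ξ : C → ℂ) y := by
      have h2 := hξ₀ ⟨y, hyK⟩
      have h3 := hξ ⟨y, hyK⟩
      exact h2.trans h3.symm
    have h2 : (ξ₀ : C → ℂ) 1 = (ξ : C → ℂ) 1 := by
      have h2 := hξ₀ 1
      have h3 := hξ 1
      exact h2.trans h3.symm
    have h3 : centralChar (ξ₀ : C → ℂ) y = centralChar (ξ : C → ℂ) y := by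
      unfold centralChar
      rw [h1, h2]
    rw [h3, sub_self]
    exact memLocalIdeal_zero
  refine ⟨ξ₀, ?_⟩
  ext ξ
  constructor
  · exact hsame ξ
  · intro h
    by_contra hnot
    exact hU ξ₀ hξ₀ ξ hnot h

theorem blockCoeff_Amu (μ : IrrCharacter K) (c : C) :
    blockCoeff (Amu (le_C_of_compK hK hC) μ) c = (eTh μ : MonoidAlgebra ℂ G).coeff (c : G) := by
  rw [← coeff_blockElt, ← zTh_eq_blockElt hx hK hC μ]
  unfold zTh
  rw [coeff_resAlg]

theorem exists_induced (hM : IsPModular p M) (μ : IrrCharacter K) :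
    ∃ B' : Set (IrrCharacter G), IsInducedBlock M C (Amu (le_C_of_compK hK hC) μ) B' := by
  classical
  have := isPModular_isPrime hM
  have hKC := le_C_of_compK hK hC
  have hb := Amu_isPBlock hx hK hC hM μ
  obtain ⟨ξ₀, hξ₀⟩ := Amu_nonempty hx hK hC μ
  have hPp : IsPGroup p (zpowers x : Subgroup G) := by
    apply IsPGroup.of_card (n := 1)
    rw [Nat.card_zpowers, hx, pow_one]
  have hPH : zpowers x ≤ C := by
    rw [Subgroup.zpowers_le]
    exact (hC x).mpr (Commute.refl x)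
  have hCH : centralizer ((zpowers x : Subgroup G) : Set G) ≤ C := by
    intro g hg
    rw [Subgroup.mem_centralizer_iff] at hg
    exact (hC g).mpr (hg x (mem_zpowers x)).symm
  obtain ⟨χ', hχ'⟩ := exists_irr_congruent (M := M) hM hPp hPH hCH (C_le_N hC) ξ₀
  refine ⟨blockOf M (χ' : G → ℂ), hb, isPBlock_blockOf χ', ?_⟩
  intro ξ hξ χ hχ g
  have h1 := memLocalIdeal_induced_sub_of_sameBlock (M := M) ξ.2 ξ₀.2 (sameBlock_of_mem hb hξ hξ₀) g
  exact memLocalIdeal_sub_trans h1 (memLocalIdeal_sub_trans (hχ' g) (hχ g))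

/-- Brauer's second main theorem for the section functions. -/
theorem Dc_zero_of_induced (hM : IsPModular p M) (μ : IrrCharacter K) {B' : Set (IrrCharacter G)}
    (hind : IsInducedBlock M C (Amu (le_C_of_compK hK hC) μ) B') (χ : IrrCharacter G) (hχ : χ ∉ B')
    (u : zpowers x) (hu : u ≠ 1) : Dc (χ : G → ℂ) (μ : K → ℂ) u = 0 := by
  classical
  have hpr := hp.out
  have hKC := le_C_of_compK hK hC
  have hu' : (u : G) ≠ 1 := fun h => hu (Subtype.ext h)
  have huC : (u : G) ∈ C := by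
    have hPH : zpowers x ≤ C := by
      rw [Subgroup.zpowers_le]
      exact (hC x).mpr (Commute.refl x)
    exact hPH u.2
  have hcent : ∀ z : G, IsPPart p (u : G) z → centralizer ({z} : Set G) ≤ C := by
    intro z hz
    have h1 : IsPPart p (u : G) (u : G) :=
      ⟨1, mul_one _, Commute.one_right _, ⟨1, by rw [orderOf_of_mem hpr hx u.2 hu', pow_one]⟩, by simpa using hpr.one_lt.ne'⟩
    rw [IsPPart_eq hz h1, centralizer_eq hpr hx u.2 hu']
    intro g hg
    rw [Subgroup.mem_centralizer_singleton_iff] at hg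
    exact (hC g).mpr hg
  have h1 := second_main hM C _ B' hind ⟨u, huC⟩ hcent χ hχ
  simp only [blockCoeff_Amu hx hK hC μ] at h1
  have h2 := sum_subgroup_of_support C (fun g => (eTh μ : MonoidAlgebra ℂ G).coeff g * (χ : G → ℂ) (g * u)) (by
    intro g hg
    rw [coeff_eTh_of_notMem _ (fun h => hg (hKC h)), zero_mul])
  have h3 := sum_subgroup_of_support K (fun g => (eTh μ : MonoidAlgebra ℂ G).coeff g * (χ : G → ℂ) (g * u)) (by
    intro g hg
    rw [coeff_eTh_of_notMem _ hg, zero_mul])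
  rw [h2.symm.trans h3] at h1
  have h4 : ∀ k : K, (eTh μ : MonoidAlgebra ℂ G).coeff (k : G) * (χ : G → ℂ) ((k : G) * u) =
      (μ : K → ℂ) 1 * ((Nat.card K : ℂ)⁻¹ * ((χ : G → ℂ) ((u : G) * k) * conj ((μ : K → ℂ) k))) := by
    intro k
    rw [coeff_eTh_coe, (comm_of_mem hK k.2 u.2).eq]
    ring
  simp only [h4] at h1
  rw [← Finset.mul_sum, ← Finset.mul_sum] at h1
  exact (mul_eq_zero.mp h1).resolve_left (isIrr_one_ne_zero μ.2)

/-- The characters of `K` occurring in a block. -/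
theorem conj_of_Dc_ne (hM : IsPModular p M) {θ₀ : IrrCharacter K} {B : Set (IrrCharacter G)} (hB : IsPBlock M B)
    (hD : IsDefectGroup p M B (zpowers x))
    (hind : IsInducedBlock M C (Amu (le_C_of_compK hK hC) θ₀) B) (μ : IrrCharacter K) (χ : IrrCharacter G) (hχ : χ ∈ B)
    (u : zpowers x) (hu : u ≠ 1) (hne : Dc (χ : G → ℂ) (μ : K → ℂ) u ≠ 0) :
    ∃ (n : G) (hn : n ∈ normalizer ((zpowers x : Subgroup G) : Set G)), μ = thConj hK n hn θ₀ := by
  classical
  have := isPModular_isPrime hM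
  have hKC := le_C_of_compK hK hC
  obtain ⟨B', hB'⟩ := exists_induced (C := C) hx hK hC hM μ
  have hχ' : χ ∈ B' := by
    by_contra hnot
    exact hne (Dc_zero_of_induced hx hK hC hM μ hB' χ hnot u hu)
  have hBB : B' = B := (blockOf_eq_of_mem hB'.2.1 hχ').trans (blockOf_eq_of_mem hB hχ).symm
  subst hBB
  have hPp : IsPGroup p (zpowers x : Subgroup G) := by
    apply IsPGroup.of_card (n := 1)
    rw [Nat.card_zpowers, hx, pow_one]
  have hCH : centralizer ((zpowers x : Subgroup G) : Set G) ≤ C := by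
    intro g hg
    rw [Subgroup.mem_centralizer_iff] at hg
    exact (hC g).mpr (hg x (mem_zpowers x)).symm
  haveI : Fintype (normalizer ((zpowers x : Subgroup G) : Set G)) := Fintype.ofFinite _
  haveI : Fintype (C.subgroupOf (normalizer ((zpowers x : Subgroup G) : Set G))) := Fintype.ofFinite _
  haveI hLn : (C.subgroupOf (normalizer ((zpowers x : Subgroup G) : Set G))).Normal := by
    refine ⟨fun c hc g => ?_⟩
    rw [Subgroup.mem_subgroupOf] at hc ⊢
    rw [hC] at hc ⊢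
    have hg : (g : G)⁻¹ * x * g ∈ zpowers x := by
      have := (Subgroup.mem_normalizer_iff.mp (Subgroup.inv_mem _ g.2) x).mp (mem_zpowers x)
      simpa using this
    obtain ⟨m, hm⟩ := Subgroup.mem_zpowers_iff.mp hg
    have hcm : Commute (c : G) (x ^ m) := hc.zpow_right m
    have e1 : x * (g : G) = g * x ^ m := by
      rw [hm]
      group
    show (g : G) * c * (g : G)⁻¹ * x = x * ((g : G) * c * (g : G)⁻¹)
    have e2 : (g : G)⁻¹ * x = x ^ m * (g : G)⁻¹ := by
      rw [hm]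
      group
    calc (g : G) * c * (g : G)⁻¹ * x = g * c * ((g : G)⁻¹ * x) := by group
      _ = g * c * (x ^ m * (g : G)⁻¹) := by rw [e2]
      _ = g * (c * x ^ m) * (g : G)⁻¹ := by group
      _ = g * (x ^ m * c) * (g : G)⁻¹ := by rw [hcm.eq]
      _ = (g * x ^ m) * c * (g : G)⁻¹ := by group
      _ = (x * g) * c * (g : G)⁻¹ := by rw [e1]
      _ = _ := by group
  obtain ⟨n, hn, hconj⟩ := exists_conj_of_induced_blocks hM hPp hB hD hCH (C_le_N hC) hind hB'
  refine ⟨n, hn, ?_⟩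
  obtain ⟨θ, hθ⟩ := hind.1 |> IsPBlock_nonempty
  obtain ⟨θ', hθ', hc⟩ := hconj θ hθ
  apply Subtype.ext
  funext k
  rw [thConj_apply, ← hθ' k]
  have hk : n * (k : G) * n⁻¹ ∈ C := hKC (hK.conj_mem hn k.2)
  rw [hc ⟨k, hKC k.2⟩ hk]
  exact hθ ⟨n * k * n⁻¹, hK.conj_mem hn k.2⟩

end

end Cfsg.Agent.Lib.FF
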