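import Cfsg.Agent.Lib.FF.GenChi3

/-!
# The degrees and the rationality for defect one
-/

set_option autoImplicit false
set_option linter.unusedSectionVars false
set_option linter.style.haveILetI false
set_option linter.unusedSimpArgs false
set_option linter.unnecessarySimpa false
set_option linter.unusedVariables false
set_option maxSynthPendingDepth 3

open scoped ComplexConjugate
open Subgroup

namespace Cfsg.Agent.Lib.FF

open Cfsg (classInner IsCharacter IsIrrCharacter IrrCharacter IsClassFunction indFun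
  extendByZero IsGeneralizedCharacter IsPModular IsPPart charDegree IsPBlock blockOf blockCoeff SameBlock MemLocalIdeal
  IsInducedBlock IsDefectGroup inducedCentralChar centralChar)
open Cfsg.Agent.Lib.Char
open Cfsg.Agent.Lib.Block hiding tr
open Cfsg.Agent.Lib.SmallSimple.Star
open Cfsg.Agent.Lib.SmallSimple.BL
open Cfsg.Agent.Lib.SmallSimple.BB

universe u

variable {G : Type u} [Group G] [Fintype G] {p : ℕ} {x : G} {K : Subgroup G} [Fintype K]
  {M : Ideal Cfsg.AlgInt} [hp : Fact p.Prime] {C : Subgroup G} [Fintype C]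

section Orbit

theorem thConj_mul (hK : CompK x p K) {n m : G} (hn : n ∈ normalizer ((zpowers x : Subgroup G) : Set G))
    (hm : m ∈ normalizer ((zpowers x : Subgroup G) : Set G)) (hnm : n * m ∈ normalizer ((zpowers x : Subgroup G) : Set G))
    (θ : IrrCharacter K) : thConj hK (n * m) hnm θ = thConj hK m hm (thConj hK n hn θ) := by
  apply Subtype.ext
  funext k
  rw [thConj_apply, thConj_apply, thConj_apply]
  refine congrArg _ ?_
  apply Subtype.ext
  show n * m * k * (n * m)⁻¹ = n * (m * k * m⁻¹) * n⁻¹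
  group

theorem thConj_self_one (hK : CompK x p K) (h1 : (1 : G) ∈ normalizer ((zpowers x : Subgroup G) : Set G))
    (θ : IrrCharacter K) : thConj hK 1 h1 θ = θ := by
  apply Subtype.ext
  funext k
  rw [thConj_apply]
  refine congrArg _ ?_
  apply Subtype.ext
  show 1 * (k : G) * 1⁻¹ = k
  group

open Classical in
/-- The conjugates of a character of `K`. -/
noncomputable def orbK (hK : CompK x p K) (θ₀ : IrrCharacter K) : Finset (IrrCharacter K) :=
  Finset.univ.filter fun μ => ∃ (n : G) (hn : n ∈ normalizer ((zpowers x : Subgroup G) : Set G)), μ = thConj hK n hn θ₀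

theorem mem_orbK (hK : CompK x p K) (θ₀ μ : IrrCharacter K) :
    μ ∈ orbK hK θ₀ ↔ ∃ (n : G) (hn : n ∈ normalizer ((zpowers x : Subgroup G) : Set G)), μ = thConj hK n hn θ₀ := by
  unfold orbK
  simp

/-- The orbit-stabilizer theorem. -/
theorem card_normalizer_orb (hK : CompK x p K) {θ₀ : IrrCharacter K} {T : Subgroup G} (hT : IsStabT x θ₀ T) :
    Nat.card (normalizer ((zpowers x : Subgroup G) : Set G)) = (orbK hK θ₀).card * Nat.card T := by
  classical
  let f : normalizer ((zpowers x : Subgroup G) : Set G) → orbK hK θ₀ := fun n =>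
    ⟨thConj hK n n.2 θ₀, (mem_orbK hK θ₀ _).mpr ⟨n, n.2, rfl⟩⟩
  have h := Lib.SmallSimple.card_eq_of_fibers f (Nat.card T) (by
    rintro ⟨μ, hμ⟩
    obtain ⟨n₀, hn₀, rfl⟩ := (mem_orbK hK θ₀ μ).mp hμ
    have hTN : ∀ t : T, (t : G) ∈ normalizer ((zpowers x : Subgroup G) : Set G) := fun t => ((hT t).mp t.2).1
    let g : T → {a : normalizer ((zpowers x : Subgroup G) : Set G) // f a = ⟨thConj hK n₀ hn₀ θ₀, hμ⟩} := fun t =>
      ⟨⟨t * n₀, Subgroup.mul_mem _ (hTN t) hn₀⟩, by
        apply Subtype.ext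
        show thConj hK (t * n₀) _ θ₀ = thConj hK n₀ hn₀ θ₀
        rw [thConj_mul hK (hTN t) hn₀, (hT.thConj_eq hK (hTN t)).mpr t.2]⟩
    refine (Nat.card_eq_of_bijective g ⟨?_, ?_⟩).symm
    · intro t t' htt
      have h1 : (t : G) * n₀ = t' * n₀ := congrArg (fun a => ((a.1 : normalizer ((zpowers x : Subgroup G) : Set G)) : G)) htt
      exact Subtype.ext (mul_right_cancel h1)
    · rintro ⟨n, hn⟩
      have hn' : thConj hK n n.2 θ₀ = thConj hK n₀ hn₀ θ₀ := congrArg Subtype.val hn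
      have hinv : n₀⁻¹ ∈ normalizer ((zpowers x : Subgroup G) : Set G) := Subgroup.inv_mem _ hn₀
      have h2 : thConj hK ((n : G) * n₀⁻¹) (Subgroup.mul_mem _ n.2 hinv) θ₀ = θ₀ := by
        rw [thConj_mul hK n.2 hinv, hn', ← thConj_mul hK hn₀ hinv (by simp)]
        have h3 : n₀ * n₀⁻¹ = 1 := mul_inv_cancel n₀
        simp only [h3]
        exact thConj_self_one hK _ θ₀
      have h4 := (hT.thConj_eq hK _).mp h2
      refine ⟨⟨_, h4⟩, ?_⟩
      apply Subtype.ext
      apply Subtype.ext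
      show (n : G) * n₀⁻¹ * n₀ = n
      group)
  rw [h, Nat.card_eq_fintype_card (α := orbK hK θ₀), Fintype.card_coe]

end Orbit

/-- The conjugate form of a singular element. -/
theorem exists_conj_section (hx : orderOf x = p) (hsyl : ¬ p ^ 2 ∣ Nat.card G) (hK : CompK x p K) (g : G)
    (hg : p ∣ orderOf g) :
    ∃ (d : G) (u : zpowers x) (k : K), u ≠ 1 ∧ d * g * d⁻¹ = (u : G) * k := by
  classical
  have hpr := hp.out
  obtain ⟨a, y, h1, hc, ⟨k, hk⟩, hy, -, -⟩ := exists_jordan (p := p) g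
  have ha1 : a ≠ 1 := by
    rintro rfl
    rw [one_mul] at h1
    rw [← h1] at hg
    exact hy hg
  have hdvdcard : p ∣ Nat.card G := by
    rw [← hx]
    exact orderOf_dvd_natCard x
  have hfact : (Nat.card G).factorization p = 1 := by
    have h2 : 1 ≤ (Nat.card G).factorization p :=
      (hpr.dvd_iff_one_le_factorization Nat.card_pos.ne').mp hdvdcard
    have h3 : ¬ 2 ≤ (Nat.card G).factorization p := fun h =>
      hsyl ((hpr.pow_dvd_iff_le_factorization Nat.card_pos.ne').mpr h)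
    omega
  let S : Sylow p G := Sylow.ofCard (zpowers x) (by rw [Nat.card_zpowers, hx, hfact, pow_one])
  obtain ⟨d, hd⟩ := exists_conj_elt_into_sylow S ⟨k, hk⟩
  have hd' : d * a * d⁻¹ ∈ zpowers x := hd
  have hu1 : d * a * d⁻¹ ≠ 1 := by
    intro h
    apply ha1
    have : a = d⁻¹ * (d * a * d⁻¹) * d := by group
    rw [this, h]
    group
  have hyc : Commute (d * y * d⁻¹) x := by
    have h3 : Commute (d * y * d⁻¹) (d * a * d⁻¹) := by
      show d * y * d⁻¹ * (d * a * d⁻¹) = d * a * d⁻¹ * (d * y * d⁻¹)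
      have h4 : y * a = a * y := hc.symm.eq
      calc d * y * d⁻¹ * (d * a * d⁻¹) = d * (y * a) * d⁻¹ := by group
        _ = d * (a * y) * d⁻¹ := by rw [h4]
        _ = _ := by group
    have hz := zp_gen hpr hx hd' hu1
    have hxm : x ∈ zpowers (d * a * d⁻¹) := by
      rw [hz]
      exact mem_zpowers x
    obtain ⟨m, hm⟩ := Subgroup.mem_zpowers_iff.mp hxm
    rw [← hm]
    exact h3.zpow_right m
  have hyK : d * y * d⁻¹ ∈ K := hK.reg _ hyc (by rwa [orderOf_conj])
  refine ⟨d, ⟨d * a * d⁻¹, hd'⟩, ⟨d * y * d⁻¹, hyK⟩, fun h => hu1 (congrArg Subtype.val h), ?_⟩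
  rw [← h1]
  show d * (a * y) * d⁻¹ = d * a * d⁻¹ * (d * y * d⁻¹)
  group

section Final

variable [Fintype (zpowers x)] (hx : orderOf x = p) (hK : CompK x p K) (hC : ∀ g, g ∈ C ↔ Commute g x)

/-- The trace of the key element. -/
theorem tr_single_eTh (θ₀ : IrrCharacter K) (χ : G → ℂ) (u : G) :
    Cfsg.Agent.Lib.Block.tr χ (MonoidAlgebra.single u (1 : ℂ) * eTh θ₀) = (θ₀ : K → ℂ) 1 * Dc χ (θ₀ : K → ℂ) u := by
  rw [tr_single_mul, sum_subgroup_of_support K (fun g => (eTh θ₀ : MonoidAlgebra ℂ G).coeff g * χ (u * g)) (by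
    intro g hg
    rw [coeff_eTh_of_notMem _ hg, zero_mul]), Dc_def, Finset.mul_sum, Finset.mul_sum]
  refine Finset.sum_congr rfl fun k _ => ?_
  rw [coeff_eTh_coe]
  ring

include hx in
theorem tr_Nh_eTh (θ₀ : IrrCharacter K) (c : Nt x → IrrCharacter G → ℤ)
    (hval : ∀ (χ : IrrCharacter G) (u : zpowers x), u ≠ 1 → Dc (χ : G → ℂ) (θ₀ : K → ℂ) u =
      ∑ a : Nt x, (c a χ : ℂ) * (a.1 : zpowers x → ℂ) u) (χ : IrrCharacter G) :
    Cfsg.Agent.Lib.Block.tr (χ : G → ℂ) ((Nh x p - 1) * eTh θ₀) = - ((θ₀ : K → ℂ) 1 * ∑ a : Nt x, (c a χ : ℂ)) := by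
  have hpr := hp.out
  have h1 : Nh x p - 1 = ∑ i ∈ Finset.range (p - 1), (MonoidAlgebra.single x (1 : ℂ)) ^ (i + 1) := by
    unfold Nh
    obtain ⟨q, hq⟩ : ∃ q, p = q + 1 := ⟨p - 1, by have := hpr.pos; omega⟩
    rw [hq, Finset.sum_range_succ']
    simp
  rw [h1, Finset.sum_mul, tr_sum]
  have h2 : ∀ i ∈ Finset.range (p - 1), Cfsg.Agent.Lib.Block.tr (χ : G → ℂ)
      ((MonoidAlgebra.single x (1 : ℂ)) ^ (i + 1) * eTh θ₀) =
      (θ₀ : K → ℂ) 1 * ∑ a : Nt x, (c a χ : ℂ) * (a.1 : zpowers x → ℂ) ⟨x ^ (i + 1), x_pow_mem _⟩ := by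
    intro i hi
    rw [MonoidAlgebra.single_pow, one_pow, tr_single_eTh]
    have hlt : i + 1 < orderOf x := by
      rw [hx]
      have := Finset.mem_range.mp hi
      omega
    have hne : x ^ (i + 1) ≠ 1 := pow_ne_one_of_lt_orderOf (by omega) hlt
    rw [← hval χ ⟨x ^ (i + 1), x_pow_mem _⟩ (fun h => hne (congrArg Subtype.val h))]
  rw [Finset.sum_congr rfl h2, ← Finset.mul_sum, Finset.sum_comm, ← mul_neg]
  congr 1
  rw [← Finset.sum_neg_distrib]
  refine Finset.sum_congr rfl fun a _ => ?_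
  rw [← Finset.mul_sum, sum_nt hx a]
  ring

end Final

end Cfsg.Agent.Lib.FF
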