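import Cfsg.Agent.Lib.FF.GenDeg
import Cfsg.Agent.Lib.Block.Extended

/-!
# The idempotent of a character of the complement `K`, and the data for the key theorem
-/

set_option autoImplicit false
set_option linter.unusedSectionVars false
set_option linter.unusedVariables false
set_option maxSynthPendingDepth 3

open scoped ComplexConjugate

namespace Cfsg.Agent.Lib.FF

open Module Polynomial Cfsg Cfsg.Agent.Lib.Block Cfsg.Agent.Lib.Char
open Cfsg.Agent.Lib.SmallSimple.BB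

universe u

section GD

variable {G : Type u} [Group G] [Fintype G] {p : ℕ} {x : G} {K : Subgroup G} [Fintype K]
  {M : Ideal AlgInt} {O : Subring ℂ}

theorem blockCoeff_singleton {H : Type*} [Group H] [Fintype H] (η : IrrCharacter H) (g : H) :
    blockCoeff ({η} : Set (IrrCharacter H)) g = (Nat.card H : ℂ)⁻¹ * ((η : H → ℂ) 1 * conj ((η : H → ℂ) g)) := by
  classical
  rw [blockCoeff_eq_sum]
  congr 1
  rw [Finset.sum_eq_single η]
  · rw [if_pos (Set.mem_singleton η)]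
  · intro b _ hb
    rw [if_neg (by simpa using hb)]
  · intro h
    exact absurd (Finset.mem_univ _) h

/-- The idempotent of a character of `K`, in the group algebra of `G`. -/
noncomputable def eTh (θ₀ : IrrCharacter K) : MonoidAlgebra ℂ G :=
  incl K (blockElt ({θ₀} : Set (IrrCharacter K)))

theorem coeff_eTh_coe (θ₀ : IrrCharacter K) (k : K) :
    (eTh θ₀ : MonoidAlgebra ℂ G).coeff (k : G) =
      (Nat.card K : ℂ)⁻¹ * ((θ₀ : K → ℂ) 1 * conj ((θ₀ : K → ℂ) k)) := by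
  unfold eTh
  rw [coeff_incl_coe, coeff_blockElt, blockCoeff_singleton]

theorem coeff_eTh_of_notMem (θ₀ : IrrCharacter K) {g : G} (hg : g ∉ K) :
    (eTh θ₀ : MonoidAlgebra ℂ G).coeff g = 0 := by
  unfold eTh
  rw [coeff_incl_of_notMem K _ hg]

theorem eTh_idem (θ₀ : IrrCharacter K) : (eTh θ₀ : MonoidAlgebra ℂ G) * eTh θ₀ = eTh θ₀ := by
  unfold eTh
  rw [← map_mul, blockElt_mul_self]

theorem blockElt_singleton_mul_of_ne {H : Type*} [Group H] [Fintype H] {η η' : IrrCharacter H} (h : η ≠ η') :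
    blockElt ({η} : Set (IrrCharacter H)) * blockElt ({η'} : Set (IrrCharacter H)) = 0 := by
  classical
  apply central_ext_om (isCentralElt_mul (isCentralElt_blockElt _) (isCentralElt_blockElt _)) (by
    intro a b
    simp)
  intro χ
  rw [om_mul χ.2 (isCentralElt_blockElt _), om_blockElt, om_blockElt]
  have h0 : om (χ : H → ℂ) 0 = 0 := by
    unfold om
    rw [tr_zero, zero_div]
  rw [h0]
  by_cases h1 : χ = η
  · subst h1
    rw [if_neg (c := χ ∈ ({η'} : Set (IrrCharacter H))) (by simpa using h), mul_zero]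
  · rw [if_neg (by simpa using h1), zero_mul]

theorem eTh_mul_of_ne {θ θ' : IrrCharacter K} (h : θ ≠ θ') :
    (eTh θ : MonoidAlgebra ℂ G) * eTh θ' = 0 := by
  unfold eTh
  rw [← map_mul, blockElt_singleton_mul_of_ne h, map_zero]

theorem single_mul_eq_of_coeff (z w : MonoidAlgebra ℂ G) (t : G) (h : ∀ g, z.coeff (t * g * t⁻¹) = w.coeff g) :
    z * MonoidAlgebra.single t (1 : ℂ) = MonoidAlgebra.single t (1 : ℂ) * w := by
  apply ext_coeff
  intro g
  rw [MonoidAlgebra.coeff_single_mul_apply, MonoidAlgebra.coeff_mul_single_apply, one_mul, mul_one, ← h]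
  congr 1
  group

variable [hp : Fact p.Prime]

/-- Conjugation by an element of the normalizer on `K`. -/
noncomputable def cjK (hK : CompK x p K) (n : G)
    (hn : n ∈ Subgroup.normalizer ((Subgroup.zpowers x : Subgroup G) : Set G)) : K ≃* K where
  toFun k := ⟨n * k * n⁻¹, hK.conj_mem hn k.2⟩
  invFun k := ⟨n⁻¹ * k * n, by
    have := hK.conj_mem (Subgroup.inv_mem _ hn) k.2
    simpa using this⟩
  left_inv k := by
    apply Subtype.ext
    show n⁻¹ * (n * k * n⁻¹) * n = k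
    group
  right_inv k := by
    apply Subtype.ext
    show n * (n⁻¹ * k * n) * n⁻¹ = k
    group
  map_mul' a b := by
    apply Subtype.ext
    show n * (a * b : G) * n⁻¹ = (n * a * n⁻¹) * (n * b * n⁻¹)
    group

theorem cjK_coe (hK : CompK x p K) (n : G)
    (hn : n ∈ Subgroup.normalizer ((Subgroup.zpowers x : Subgroup G) : Set G)) (k : K) :
    ((cjK hK n hn k : K) : G) = n * k * n⁻¹ := rfl

/-- The conjugate of a character of `K`. -/
noncomputable def thConj (hK : CompK x p K) (n : G)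
    (hn : n ∈ Subgroup.normalizer ((Subgroup.zpowers x : Subgroup G) : Set G)) (θ₀ : IrrCharacter K) : IrrCharacter K :=
  pull (cjK hK n hn) θ₀

theorem thConj_apply (hK : CompK x p K) (n : G)
    (hn : n ∈ Subgroup.normalizer ((Subgroup.zpowers x : Subgroup G) : Set G)) (θ₀ : IrrCharacter K) (k : K) :
    ((thConj hK n hn θ₀ : IrrCharacter K) : K → ℂ) k = (θ₀ : K → ℂ) ⟨n * k * n⁻¹, hK.conj_mem hn k.2⟩ := rfl

theorem thConj_one (hK : CompK x p K) (n : G)
    (hn : n ∈ Subgroup.normalizer ((Subgroup.zpowers x : Subgroup G) : Set G)) (θ₀ : IrrCharacter K) :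
    ((thConj hK n hn θ₀ : IrrCharacter K) : K → ℂ) 1 = (θ₀ : K → ℂ) 1 := by
  rw [thConj_apply]
  have : (⟨n * ((1 : K) : G) * n⁻¹, hK.conj_mem hn (1 : K).2⟩ : K) = 1 := by
    apply Subtype.ext
    simp
  rw [this]

theorem coeff_eTh_conj (hK : CompK x p K) (n : G)
    (hn : n ∈ Subgroup.normalizer ((Subgroup.zpowers x : Subgroup G) : Set G)) (θ₀ : IrrCharacter K) (y : G) :
    (eTh θ₀ : MonoidAlgebra ℂ G).coeff (n * y * n⁻¹) = (eTh (thConj hK n hn θ₀) : MonoidAlgebra ℂ G).coeff y := by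
  by_cases hy : y ∈ K
  · have h1 := coeff_eTh_coe (G := G) θ₀ ⟨n * y * n⁻¹, hK.conj_mem hn hy⟩
    have h2 := coeff_eTh_coe (G := G) (thConj hK n hn θ₀) ⟨y, hy⟩
    simp only at h1 h2
    rw [h1, h2, thConj_one, thConj_apply]
  · have h1 : n * y * n⁻¹ ∉ K := by
      intro h
      apply hy
      have := hK.conj_mem (Subgroup.inv_mem _ hn) h
      have h3 : n⁻¹ * (n * y * n⁻¹) * n⁻¹⁻¹ = y := by group
      rwa [h3] at this
    rw [coeff_eTh_of_notMem _ h1, coeff_eTh_of_notMem _ hy]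

/-- The stabilizer of a character of `K` in the normalizer. -/
def IsStabT (x : G) (θ₀ : IrrCharacter K) (T : Subgroup G) : Prop :=
  ∀ g, g ∈ T ↔ g ∈ Subgroup.normalizer ((Subgroup.zpowers x : Subgroup G) : Set G) ∧
    ∀ k k' : K, (k' : G) = g * k * g⁻¹ → (θ₀ : K → ℂ) k' = (θ₀ : K → ℂ) k

theorem IsStabT.thConj_eq {θ₀ : IrrCharacter K} {T : Subgroup G} (hT : IsStabT x θ₀ T) (hK : CompK x p K)
    {n : G} (hn : n ∈ Subgroup.normalizer ((Subgroup.zpowers x : Subgroup G) : Set G)) :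
    thConj hK n hn θ₀ = θ₀ ↔ n ∈ T := by
  rw [hT n]
  constructor
  · intro h
    refine ⟨hn, fun k k' hk => ?_⟩
    have h1 := congrArg (fun ξ : IrrCharacter K => (ξ : K → ℂ) k) h
    simp only [thConj_apply] at h1
    rw [← h1]
    have h2 : k' = ⟨n * k * n⁻¹, hK.conj_mem hn k.2⟩ := Subtype.ext hk
    rw [h2]
  · rintro ⟨-, h⟩
    apply Subtype.ext
    funext k
    rw [thConj_apply]
    exact h k _ rfl

theorem IsStabT.apply_conj {θ₀ : IrrCharacter K} {T : Subgroup G} (hT : IsStabT x θ₀ T) {t : G} (ht : t ∈ T)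
    (k : K) (hk : t * k * t⁻¹ ∈ K) : (θ₀ : K → ℂ) ⟨t * k * t⁻¹, hk⟩ = (θ₀ : K → ℂ) k :=
  ((hT t).mp ht).2 k _ rfl

/-- The data for the key theorem. -/
theorem gdata (hM : IsPModular p M) (hO : UnramRing M p O) (hx : orderOf x = p) (hK : CompK x p K)
    (θ₀ : IrrCharacter K) (hθO : ∀ k : K, (θ₀ : K → ℂ) k ∈ O) {T : Subgroup G} (hT : IsStabT x θ₀ T) :
    GData O x T p (eTh θ₀) where
  hx := hx
  hxT := by
    rw [hT x]
    refine ⟨Subgroup.le_normalizer (Subgroup.mem_zpowers x), fun k k' hk => ?_⟩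
    have h2 : k' = k := by
      apply Subtype.ext
      rw [hk]
      have := (hK.comm k k.2).eq
      calc x * k * x⁻¹ = (k : G) * x * x⁻¹ := by rw [this]
        _ = k := by group
    rw [h2]
  hTN := fun t ht => ((hT t).mp ht).1
  hcoef := by
    have := isPModular_isPrime hM
    intro g
    by_cases hg : g ∈ K
    · have h1 := coeff_eTh_coe (G := G) θ₀ ⟨g, hg⟩
      simp only at h1
      rw [h1]
      refine O.mul_mem (hO.inv_mem _ (natCast_mem _ _) (not_memLocalIdeal_natCast hM hK.ndvd)) (O.mul_mem (hθO 1) ?_)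
      rw [← IsCharacter.map_inv' (IsIrrCharacter.isCharacter θ₀.2)]
      exact hθO _
    · rw [coeff_eTh_of_notMem _ hg]
      exact O.zero_mem
  hidem := eTh_idem θ₀
  hT t ht := by
    have htN := ((hT t).mp ht).1
    symm
    apply single_mul_eq_of_coeff
    intro g
    rw [coeff_eTh_conj hK t htN, (hT.thConj_eq hK htN).mpr ht]
  horth n hn hnT := by
    have h1 : (eTh θ₀ : MonoidAlgebra ℂ G) * MonoidAlgebra.single n (1 : ℂ) =
        MonoidAlgebra.single n (1 : ℂ) * eTh (thConj hK n hn θ₀) :=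
      single_mul_eq_of_coeff _ _ n (coeff_eTh_conj hK n hn θ₀)
    rw [h1, mul_assoc, eTh_mul_of_ne, mul_zero]
    intro h
    exact hnT ((hT.thConj_eq hK hn).mp h)

theorem pow_n_eq_one {n : ℕ} (hn : Nat.card G = p * n) (g : G) (hg : ¬ p ∣ orderOf g) : g ^ n = 1 := by
  have h1 : orderOf g ∣ p * n := by
    rw [← hn]
    exact orderOf_dvd_natCard g
  have hcop : Nat.Coprime (orderOf g) p := ((Nat.Prime.coprime_iff_not_dvd hp.out).mpr hg).symm
  exact orderOf_dvd_iff_pow_eq_one.mp (hcop.dvd_of_dvd_mul_left h1)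

theorem irr_val_mem {H : Type*} [Group H] [Finite H] (χ : IrrCharacter H) (g : H) {n : ℕ} (hg : g ^ n = 1)
    (hroots : ∀ z : ℂ, z ^ n = 1 → z ∈ O) : (χ : H → ℂ) g ∈ O := by
  classical
  obtain ⟨m, ρ, hρ, hχ⟩ := χ.2
  obtain ⟨ζ, hζ, hsum⟩ := character_eq_sum_roots ρ g (isOfFinOrder_of_finite g)
  have h1 := hsum 1
  rw [zpow_one] at h1
  have h2 : (χ : H → ℂ) g = ρ.character g := by
    rw [hχ]
  rw [h2, h1]
  refine O.sum_mem fun i _ => ?_
  rw [zpow_one]
  apply hroots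
  obtain ⟨w, hw⟩ := orderOf_dvd_of_pow_eq_one hg
  rw [hw, pow_mul, hζ, one_pow]

theorem orderOf_not_dvd_of_mem (L : Subgroup G) (hL : ¬ p ∣ Nat.card L) {g : G} (hg : g ∈ L) : ¬ p ∣ orderOf g := by
  intro h
  apply hL
  have h2 : orderOf (⟨g, hg⟩ : L) = orderOf g := Subgroup.orderOf_mk _ _
  rw [← h2] at h
  exact h.trans (orderOf_dvd_natCard _)

/-- A complement in the stabilizer. -/
theorem exists_gamma (hx : orderOf x = p) (hsyl : ¬ p ^ 2 ∣ Nat.card G) (hK : CompK x p K) {T : Subgroup G}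
    (hxT : x ∈ T) (hTN : T ≤ Subgroup.normalizer ((Subgroup.zpowers x : Subgroup G) : Set G)) (hKT : K ≤ T) :
    ∃ Γ : Subgroup G, Γ ≤ T ∧ ¬ p ∣ Nat.card Γ ∧ (∀ t ∈ T, ∃ j : ℕ, ∃ γ ∈ Γ, t = x ^ j * γ) ∧ K ≤ Γ ∧
      ∀ γ ∈ Γ, Commute γ x → γ ∈ K := by
  classical
  have hpr := hp.out
  let Q : Subgroup T := (Subgroup.zpowers x).subgroupOf T
  have hzT : Subgroup.zpowers x ≤ T := Subgroup.zpowers_le.mpr hxT
  have hQn : Q.Normal := by
    refine ⟨fun n hn g => ?_⟩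
    rw [Subgroup.mem_subgroupOf] at hn ⊢
    exact (Subgroup.mem_normalizer_iff.mp (hTN g.2) _).mp hn
  have hQc : Nat.card Q = p := by
    have : Nat.card Q = Nat.card (Subgroup.zpowers x) :=
      Nat.card_congr (Subgroup.subgroupOfEquivOfLe hzT).toEquiv
    rw [this, Nat.card_zpowers, hx]
  have hQi : ¬ p ∣ Q.index := by
    intro h
    apply hsyl
    have h1 : Nat.card Q * Q.index = Nat.card T := Subgroup.card_mul_index Q
    rw [hQc] at h1
    have h2 : p ^ 2 ∣ Nat.card T := by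
      rw [← h1, pow_two]
      exact Nat.mul_dvd_mul_left p h
    exact h2.trans (Subgroup.card_subgroup_dvd_card T)
  have hcop : (Nat.card Q).Coprime Q.index := by
    rw [hQc]
    exact (Nat.Prime.coprime_iff_not_dvd hpr).mpr hQi
  obtain ⟨H, hH⟩ := Subgroup.exists_right_complement'_of_coprime hcop
  have hHc : Nat.card H = Q.index := by
    have h1 := hH.card_mul_card
    have h2 : Nat.card Q * Q.index = Nat.card T := Subgroup.card_mul_index Q
    rw [← h2] at h1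
    exact Nat.eq_of_mul_eq_mul_left Nat.card_pos h1
  let Γ : Subgroup G := H.map T.subtype
  have hΓc : Nat.card Γ = Nat.card H :=
    Nat.card_congr (H.equivMapOfInjective _ T.subtype_injective).toEquiv.symm
  have hΓp : ¬ p ∣ Nat.card Γ := by
    rw [hΓc, hHc]
    exact hQi
  have hΓT : Γ ≤ T := by
    rintro _ ⟨h, -, rfl⟩
    exact h.2
  have hdec : ∀ t ∈ T, ∃ j : ℕ, ∃ γ ∈ Γ, t = x ^ j * γ := by
    intro t ht
    obtain ⟨⟨q, h⟩, hqh⟩ := hH.2 (⟨t, ht⟩ : T)
    have hq : ((q : T) : G) ∈ Subgroup.zpowers x := Subgroup.mem_subgroupOf.mp q.2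
    obtain ⟨j, hj⟩ := mem_powers_iff_mem_zpowers.mpr hq
    refine ⟨j, ((h : T) : G), ⟨h, h.2, rfl⟩, ?_⟩
    have h3 := congrArg Subtype.val hqh
    simp only at h3
    have hj' : ((q : T) : G) = x ^ j := hj.symm
    rw [← hj']
    exact h3.symm
  have hcent : ∀ γ ∈ Γ, Commute γ x → γ ∈ K :=
    fun γ hγ hc => hK.reg γ hc (orderOf_not_dvd_of_mem Γ hΓp hγ)
  refine ⟨Γ, hΓT, hΓp, hdec, ?_, hcent⟩
  intro c hc
  obtain ⟨j, γ, hγ, hcγ⟩ := hdec c (hKT hc)
  have hγx : Commute γ x := by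
    have h1 : γ = (x ^ j)⁻¹ * c := by
      rw [hcγ]
      group
    rw [h1]
    exact ((Commute.refl x).pow_left j).inv_left.mul_left (hK.comm c hc)
  have hγK := hcent γ hγ hγx
  have hxj : x ^ j ∈ K := by
    have h1 : x ^ j = c * γ⁻¹ := by
      rw [hcγ]
      group
    rw [h1]
    exact K.mul_mem hc (K.inv_mem hγK)
  have hxj1 : x ^ j = 1 := by
    by_contra hne
    have h1 : orderOf (x ^ j) = p := orderOf_of_mem hpr hx (Subgroup.pow_mem _ (Subgroup.mem_zpowers x) j) hne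
    exact orderOf_not_dvd_of_mem K hK.ndvd hxj (by rw [h1])
  rw [hcγ, hxj1, one_mul]
  exact hγ

theorem subgroupOf_normal (hK : CompK x p K) {Γ : Subgroup G}
    (hΓN : Γ ≤ Subgroup.normalizer ((Subgroup.zpowers x : Subgroup G) : Set G)) : (K.subgroupOf Γ).Normal := by
  refine ⟨fun n hn g => ?_⟩
  rw [Subgroup.mem_subgroupOf] at hn ⊢
  exact hK.conj_mem (hΓN g.2) hn

theorem isCyclic_quot (hx : orderOf x = p) (hK : CompK x p K) {Γ : Subgroup G}
    (hΓN : Γ ≤ Subgroup.normalizer ((Subgroup.zpowers x : Subgroup G) : Set G))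
    (hcent : ∀ γ ∈ Γ, Commute γ x → γ ∈ K) [hn : (K.subgroupOf Γ).Normal] : IsCyclic (Γ ⧸ K.subgroupOf Γ) := by
  classical
  have hcard : Nat.card (Subgroup.zpowers x) = p := by rw [Nat.card_zpowers, hx]
  have : IsCyclic (MulAut (Subgroup.zpowers x)) := by
    have e := IsCyclic.mulAutMulEquiv (Subgroup.zpowers x)
    rw [hcard] at e
    exact isCyclic_of_surjective e.symm e.symm.surjective
  let F : Γ →* MulAut (Subgroup.zpowers x) := (Subgroup.zpowers x).normalizerMonoidHom.comp (Subgroup.inclusion hΓN)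
  have hker : ∀ γ : Γ, F γ = 1 ↔ (γ : G) ∈ K := by
    intro γ
    constructor
    · intro h
      have h1 : Subgroup.inclusion hΓN γ ∈ (Subgroup.zpowers x).normalizerMonoidHom.ker := h
      rw [Subgroup.normalizerMonoidHom_ker] at h1
      have h2 : (γ : G) ∈ Subgroup.centralizer ((Subgroup.zpowers x : Subgroup G) : Set G) := h1
      rw [Subgroup.mem_centralizer_iff] at h2
      exact hcent γ γ.2 (h2 x (Subgroup.mem_zpowers x)).symm
    · intro h
      have h1 : Subgroup.inclusion hΓN γ ∈ (Subgroup.zpowers x).normalizerMonoidHom.ker := by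
        rw [Subgroup.normalizerMonoidHom_ker]
        show (γ : G) ∈ Subgroup.centralizer ((Subgroup.zpowers x : Subgroup G) : Set G)
        rw [Subgroup.mem_centralizer_iff]
        intro u hu
        obtain ⟨k, rfl⟩ := Subgroup.mem_zpowers_iff.mp hu
        exact ((hK.comm γ h).zpow_right k).symm
      exact h1
  let L : Γ ⧸ K.subgroupOf Γ →* MulAut (Subgroup.zpowers x) :=
    QuotientGroup.lift (K.subgroupOf Γ) F (fun n hn => (hker n).mpr (Subgroup.mem_subgroupOf.mp hn))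
  refine isCyclic_of_injective L ?_
  intro a b hab
  obtain ⟨a, rfl⟩ := QuotientGroup.mk_surjective a
  obtain ⟨b, rfl⟩ := QuotientGroup.mk_surjective b
  have h1 : F a = F b := hab
  refine QuotientGroup.eq.mpr (Subgroup.mem_subgroupOf.mpr ?_)
  apply (hker _).mp
  rw [map_mul, map_inv, h1, inv_mul_cancel]

theorem sum_subgroup_of_support {H : Type*} [Group H] [Fintype H] (L : Subgroup H) [Fintype L] (f : H → ℂ)
    (hf : ∀ g, g ∉ L → f g = 0) : ∑ g, f g = ∑ l : L, f l := by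
  classical
  have h1 : ∑ g, f g = ∑ g ∈ Finset.univ.filter (fun g => g ∈ L), f g := by
    symm
    apply Finset.sum_subset (Finset.subset_univ _)
    intro g _ hg
    exact hf g (by simpa using hg)
  rw [h1]
  refine Finset.sum_subtype _ ?_ _
  intro g
  simp

section Key

variable {T Γ : Subgroup G} [Fintype Γ] 

/-- The central idempotent of `Γ`. -/
noncomputable def zTh (Γ : Subgroup G) [Fintype Γ] (θ₀ : IrrCharacter K) : MonoidAlgebra ℂ Γ := resAlg Γ (eTh θ₀)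

theorem incl_zTh (hKΓ : K ≤ Γ) (θ₀ : IrrCharacter K) : incl Γ (zTh Γ θ₀) = (eTh θ₀ : MonoidAlgebra ℂ G) :=
  incl_resAlg_of_support fun g hg => coeff_eTh_of_notMem θ₀ fun h => hg (hKΓ h)

theorem zTh_central' (hK : CompK x p K) {θ₀ : IrrCharacter K}
    (hΓN : Γ ≤ Subgroup.normalizer ((Subgroup.zpowers x : Subgroup G) : Set G))
    (hinv : ∀ a (ha : a ∈ Γ), thConj hK a (hΓN ha) θ₀ = θ₀) :
    IsCentralElt (zTh Γ θ₀) := by
  intro a g
  unfold zTh
  rw [coeff_resAlg, coeff_resAlg]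
  have h1 : ((a * g * a⁻¹ : Γ) : G) = (a : G) * g * (a : G)⁻¹ := by simp
  rw [h1, coeff_eTh_conj hK _ (hΓN a.2), hinv a a.2]

theorem zTh_central (hK : CompK x p K) {θ₀ : IrrCharacter K} (hT : IsStabT x θ₀ T) (hΓT : Γ ≤ T) :
    IsCentralElt (zTh Γ θ₀) :=
  zTh_central' hK (fun g hg => ((hT g).mp (hΓT hg)).1)
    (fun a ha => (hT.thConj_eq hK _).mpr (hΓT ha))

theorem zTh_idem (hKΓ : K ≤ Γ) (θ₀ : IrrCharacter K) : zTh Γ θ₀ * zTh Γ θ₀ = zTh Γ θ₀ := by
  have h1 := resAlg_incl Γ (zTh Γ θ₀ * zTh Γ θ₀)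
  rw [map_mul, incl_zTh hKΓ, eTh_idem] at h1
  exact h1.symm

theorem tr_zTh (hKΓ : K ≤ Γ) (θ₀ : IrrCharacter K) (η : IrrCharacter Γ) [Fintype (K.subgroupOf Γ)] :
    tr (η : Γ → ℂ) (zTh Γ θ₀) = (θ₀ : K → ℂ) 1 *
      classInner (fun n : K.subgroupOf Γ => (η : Γ → ℂ) n)
        ((pull (Subgroup.subgroupOfEquivOfLe hKΓ) θ₀ : IrrCharacter (K.subgroupOf Γ)) : K.subgroupOf Γ → ℂ) := by
  classical
  unfold tr zTh
  rw [sum_subgroup_of_support (K.subgroupOf Γ)]
  · rw [classInner_def, Finset.mul_sum, Finset.mul_sum]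
    have hc : Nat.card (K.subgroupOf Γ) = Nat.card K :=
      Nat.card_congr (Subgroup.subgroupOfEquivOfLe hKΓ).toEquiv
    rw [hc]
    refine Finset.sum_congr rfl fun n _ => ?_
    rw [coeff_resAlg]
    have h1 := coeff_eTh_coe (G := G) θ₀ (Subgroup.subgroupOfEquivOfLe hKΓ n)
    have h2 : ((Subgroup.subgroupOfEquivOfLe hKΓ n : K) : G) = ((n : Γ) : G) := rfl
    rw [h2] at h1
    rw [h1, pull_coe]
    simp only [Function.comp]
    ring
  · intro g hg
    rw [coeff_resAlg, coeff_eTh_of_notMem, zero_mul]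
    exact fun h => hg (Subgroup.mem_subgroupOf.mpr h)

/-- The invariance of the character of the normal subgroup. -/
theorem pull_inv' (hK : CompK x p K) {θ₀ : IrrCharacter K}
    (hΓN : Γ ≤ Subgroup.normalizer ((Subgroup.zpowers x : Subgroup G) : Set G))
    (hinv : ∀ a (ha : a ∈ Γ), thConj hK a (hΓN ha) θ₀ = θ₀) (hKΓ : K ≤ Γ)
    (hn : (K.subgroupOf Γ).Normal) (g : Γ) :
    conjFn hn g ((pull (Subgroup.subgroupOfEquivOfLe hKΓ) θ₀ : IrrCharacter (K.subgroupOf Γ)) : K.subgroupOf Γ → ℂ) =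
      (pull (Subgroup.subgroupOfEquivOfLe hKΓ) θ₀ : IrrCharacter (K.subgroupOf Γ)) := by
  funext n
  simp only [conjFn, pull_coe, Function.comp]
  have h4 := congrArg (fun ξ : IrrCharacter K => (ξ : K → ℂ) (Subgroup.subgroupOfEquivOfLe hKΓ n)) (hinv g g.2)
  simp only [thConj_apply] at h4
  exact h4

/-- Characters over `θ₀` have the degree of `θ₀`. -/
theorem eval_one_of_inner_ne (hx : orderOf x = p) (hK : CompK x p K) {θ₀ : IrrCharacter K}
    (hΓN : Γ ≤ Subgroup.normalizer ((Subgroup.zpowers x : Subgroup G) : Set G))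
    (hinv : ∀ a (ha : a ∈ Γ), thConj hK a (hΓN ha) θ₀ = θ₀)
    (hKΓ : K ≤ Γ) [hn : (K.subgroupOf Γ).Normal] (hcyc : IsCyclic (Γ ⧸ K.subgroupOf Γ))
    (η : IrrCharacter Γ) [Fintype (K.subgroupOf Γ)]
    (h : classInner (fun n : K.subgroupOf Γ => (η : Γ → ℂ) n)
        ((pull (Subgroup.subgroupOfEquivOfLe hKΓ) θ₀ : IrrCharacter (K.subgroupOf Γ)) : K.subgroupOf Γ → ℂ) ≠ 0) :
    (η : Γ → ℂ) 1 = (θ₀ : K → ℂ) 1 := by
  classical
  have h3 := deg_eq_of_over_cyclic (K.subgroupOf Γ) hcyc (pull (Subgroup.subgroupOfEquivOfLe hKΓ) θ₀)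
    (pull_inv' hK hΓN hinv hKΓ hn) η h
  rw [h3, pull_coe]
  simp only [Function.comp, map_one]

/-- Characters over `θ₀` have the degree of `θ₀`. -/
theorem degree_of_om_ne (hx : orderOf x = p) (hK : CompK x p K) {θ₀ : IrrCharacter K} (hT : IsStabT x θ₀ T)
    (hΓT : Γ ≤ T) (hKΓ : K ≤ Γ) (hcent : ∀ γ ∈ Γ, Commute γ x → γ ∈ K) (η : IrrCharacter Γ)
    (h : om (η : Γ → ℂ) (zTh Γ θ₀) ≠ 0) : charDegree (η : Γ → ℂ) = charDegree (θ₀ : K → ℂ) := by
  classical
  have hΓN : Γ ≤ Subgroup.normalizer ((Subgroup.zpowers x : Subgroup G) : Set G) :=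
    fun g hg => ((hT g).mp (hΓT hg)).1
  haveI : Fintype (K.subgroupOf Γ) := Fintype.ofFinite _
  have h1 : tr (η : Γ → ℂ) (zTh Γ θ₀) ≠ 0 := by
    intro h0
    apply h
    unfold om
    rw [h0, zero_div]
  rw [tr_zTh hKΓ] at h1
  have h2 := right_ne_zero_of_mul h1
  haveI hn : (K.subgroupOf Γ).Normal := subgroupOf_normal hK hΓN
  have h3 := eval_one_of_inner_ne hx hK hΓN (fun a ha => (hT.thConj_eq hK _).mpr (hΓT ha)) hKΓ
    (isCyclic_quot hx hK hΓN hcent) η h2
  unfold charDegree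
  rw [h3]

end Key

/-- **The key theorem**, for the idempotent of a character of `K`. -/
theorem key_theta (hM : IsPModular p M) (hO : UnramRing M p O) {n : ℕ} (hn : Nat.card G = p * n)
    (hroots : ∀ z : ℂ, z ^ n = 1 → z ∈ O) (hx : orderOf x = p) (hsyl : ¬ p ^ 2 ∣ Nat.card G)
    (hK : CompK x p K) (θ₀ : IrrCharacter K) {T : Subgroup G} (hT : IsStabT x θ₀ T)
    (Ω : Set (IrrCharacter G)) [DecidablePred fun χ => χ ∈ Ω]
    (hrat : ∀ g, (∑ χ : IrrCharacter G, if χ ∈ Ω then (χ : G → ℂ) 1 * conj ((χ : G → ℂ) g) else 0) ∈ O)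
    (hne : ∑ χ : IrrCharacter G, tr (χ : G → ℂ) (blockElt Ω) * tr (χ : G → ℂ) ((Nh x p - 1) * eTh θ₀) ≠ 0) :
    ∃ r : IrrCharacter G → ℕ, (∀ χ, χ ∉ Ω → r χ = 0) ∧
      (∑ χ : IrrCharacter G, tr (χ : G → ℂ) ((Nh x p - 1) * eTh θ₀) * (r χ : ℂ) =
          ((p : ℂ) - 1) * (charDegree (θ₀ : K → ℂ) : ℕ) ∨
        ∑ χ : IrrCharacter G, tr (χ : G → ℂ) ((Nh x p - 1) * eTh θ₀) * (r χ : ℂ) =
          -(((p : ℂ) - 1) * (charDegree (θ₀ : K → ℂ) : ℕ))) := by
  classical
  have := isPModular_isPrime hM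
  have hDVR := hO.isDVR hM
  have hKreg : ∀ k : K, (k : G) ^ n = 1 := fun k =>
    pow_n_eq_one hn k (orderOf_not_dvd_of_mem K hK.ndvd k.2)
  have hθO : ∀ k : K, (θ₀ : K → ℂ) k ∈ O := by
    intro k
    refine irr_val_mem θ₀ k (n := n) ?_ hroots
    apply Subtype.ext
    simpa using hKreg k
  have H := gdata hM hO hx hK θ₀ hθO hT
  have hKT : K ≤ T := by
    intro c hc
    rw [hT c]
    refine ⟨?_, fun k k' hk => ?_⟩
    · apply centralizer_le_normalizer
      rw [Subgroup.mem_centralizer_singleton_iff]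
      exact (hK.comm c hc).eq
    · have h1 : (k' : K) = ⟨c, hc⟩ * k * (⟨c, hc⟩ : K)⁻¹ := Subtype.ext hk
      rw [h1]
      exact IsCharacter.conj_apply (IsIrrCharacter.isCharacter θ₀.2) k _
  obtain ⟨Γ, hΓT, hΓ, hdec, hKΓ, hcent⟩ := exists_gamma hx hsyl hK H.hxT H.hTN hKT
  haveI : Fintype Γ := Fintype.ofFinite _
  have hcardne : (Nat.card G : ℂ) ≠ 0 := by exact_mod_cast Nat.card_pos.ne'
  have hp2 : ¬ p ^ 2 ∣ Fintype.card G := by rwa [← Nat.card_eq_fintype_card]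
  have hrat' : ∀ g, (Nat.card G : ℂ) * (blockElt Ω).coeff g ∈ O := by
    intro g
    rw [coeff_blockElt, blockCoeff_eq_sum, mul_inv_cancel_left₀ hcardne]
    convert hrat g
  refine H.key_general hM hO Ω _ hcardne hrat' hp2 hne Γ hΓT hΓ hdec (zTh Γ θ₀) (zTh_central hK hT hΓT)
    (zTh_idem hKΓ θ₀) ?_ (incl_zTh hKΓ θ₀) ?_ _ (fun η h => degree_of_om_ne hx hK hT hΓT hKΓ hcent η h)
  · intro g
    unfold zTh
    rw [coeff_resAlg]
    exact H.hcoef _
  · intro η g
    rw [coeff_blockElt, blockCoeff_singleton]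
    have hgreg : ∀ g : Γ, g ^ n = 1 := fun g => by
      apply Subtype.ext
      simpa using pow_n_eq_one hn (g : G) (orderOf_not_dvd_of_mem Γ hΓ g.2)
    refine O.mul_mem (hO.inv_mem _ (natCast_mem _ _) (not_memLocalIdeal_natCast hM hΓ)) (O.mul_mem ?_ ?_)
    · exact irr_val_mem η 1 (hgreg 1) hroots
    · rw [← IsCharacter.map_inv' (IsIrrCharacter.isCharacter η.2)]
      exact irr_val_mem η _ (hgreg _) hroots

end GD

end Cfsg.Agent.Lib.FF
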