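import Cfsg.Agent.Lib.FF.GenKey2
import Cfsg.Agent.Lib.Char.Projective
import Cfsg.Agent.Lib.Char.Gallagher
import Cfsg.Agent.Lib.Degree.Inflate

/-!
# Degrees of the characters over an invariant character with cyclic quotient
-/

set_option autoImplicit false
set_option linter.unusedSectionVars false
set_option linter.unusedVariables false
set_option maxSynthPendingDepth 3

open scoped ComplexConjugate

namespace Cfsg.Agent.Lib.FF

open Cfsg Cfsg.Agent.Lib.Char Cfsg.Agent.Lib.Degree

universe u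

/-- If `G / N` is cyclic and `θ` is invariant, then every character over `θ` has the same degree. -/
theorem deg_eq_of_over_cyclic {G : Type u} [Group G] [Fintype G] (N : Subgroup G) [hN : N.Normal] [Fintype N]
    (hcyc : IsCyclic (G ⧸ N)) (θ : IrrCharacter N) (hinv : ∀ g, conjFn hN g (θ : N → ℂ) = θ)
    (η : IrrCharacter G) (h : classInner (fun n : N => (η : G → ℂ) n) (θ : N → ℂ) ≠ 0) :
    (η : G → ℂ) 1 = (θ : N → ℂ) 1 := by
  classical
  obtain ⟨θf, hθf⟩ := θ
  have hθf' := hθf
  obtain ⟨d, X, hX, rfl⟩ := hθf'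
  obtain ⟨σ, hσ⟩ := exists_rep_ext_of_cyclic N hcyc X hX (fun g n => congrFun (hinv g) n)
  obtain ⟨χh, hχh, hext⟩ := irr_extends_of_rep N X hX σ hσ
  have hone : IsIrrCharacter N (fun _ => (1 : ℂ)) := isIrrCharacter_one
  have hmul : ((fun _ => (1 : ℂ)) * X.character : N → ℂ) = X.character := by
    funext n
    simp
  have hprod : IsIrrCharacter N ((fun _ => (1 : ℂ)) * X.character : N → ℂ) := by
    rw [hmul]
    exact hθf
  have hbij := gallagher_bijOn N hone hθf (fun g => rfl) hprod hχh hext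
  have hηmem : (η : G → ℂ) ∈ {ψ : G → ℂ | IsIrrCharacter G ψ ∧
      classInner (indFun N ((fun _ => (1 : ℂ)) * X.character : N → ℂ)) ψ ≠ 0} := by
    refine ⟨η.2, ?_⟩
    rw [hmul, frobenius_reciprocity N _ _ (IsCharacter.isClassFunction (IsIrrCharacter.isCharacter η.2))]
    intro h0
    apply h
    rw [← conj_classInner, h0, map_zero]
  obtain ⟨β, ⟨hβ, hβ0⟩, hβη⟩ := hbij.surjOn hηmem
  have hcl := IsCharacter.isClassFunction (IsIrrCharacter.isCharacter hβ)
  rw [frobenius_reciprocity N _ _ hcl] at hβ0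
  have hβ0' : classInner (fun n : N => β n) (fun _ => (1 : ℂ)) ≠ 0 := by
    intro h0
    apply hβ0
    rw [← conj_classInner, h0, map_zero]
  have hres := clifford_invariant hN hβ hone (fun g => rfl) hβ0'
  have hker : KerContains N β := by
    intro n hn
    have h1 := congrFun hres ⟨n, hn⟩
    have h2 := congrFun hres 1
    simp only [Pi.smul_apply, smul_eq_mul, mul_one] at h1 h2
    have h3 : β ((1 : N) : G) = β 1 := rfl
    rw [h3] at h2
    rw [h1, h2]
  obtain ⟨ψ, hψ⟩ := exists_inflate N (χ := ⟨β, hβ⟩) hker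
  have : IsCyclic (G ⧸ N) := hcyc
  have hψ1 : (ψ : G ⧸ N → ℂ) 1 = 1 := charDegree_eq_one_of_comm (fun a b => (IsCyclic.commGroup (α := G ⧸ N)).mul_comm a b) ψ.2
  have hβ1 : β 1 = 1 := by
    have h1 := congrArg (fun ξ : IrrCharacter G => (ξ : G → ℂ) 1) hψ
    simp only [inflate_apply] at h1
    rw [← h1]
    exact hψ1
  have h5 := congrFun hβη 1
  simp only [Pi.mul_apply] at h5
  rw [← h5, hβ1, one_mul]
  exact hext 1

end Cfsg.Agent.Lib.FF
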