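import Cfsg.Agent.Lib.FF.GenTate

/-!
# The key rank theorem for defect one, for an idempotent which is not stable under the whole normalizer
-/

set_option autoImplicit false
set_option linter.unusedSectionVars false
set_option linter.unusedVariables false
set_option maxSynthPendingDepth 3

namespace Cfsg.Agent.Lib.FF

open Module Polynomial Cfsg Cfsg.Agent.Lib.Block

universe u

section GDataSec

variable {G : Type u} [Group G] [Fintype G]

/-- The data of the idempotent `e₁`. -/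
structure GData (O : Subring ℂ) (x : G) (T : Subgroup G) (p : ℕ) (e₁ : MonoidAlgebra ℂ G) : Prop where
  hx : orderOf x = p
  hxT : x ∈ T
  hTN : T ≤ Subgroup.normalizer ((Subgroup.zpowers x : Subgroup G) : Set G)
  hcoef : CoefIn O e₁
  hidem : e₁ * e₁ = e₁
  hT : ∀ t ∈ T, MonoidAlgebra.single t (1 : ℂ) * e₁ = e₁ * MonoidAlgebra.single t (1 : ℂ)
  horth : ∀ n ∈ Subgroup.normalizer ((Subgroup.zpowers x : Subgroup G) : Set G), n ∉ T →
    e₁ * MonoidAlgebra.single n (1 : ℂ) * e₁ = 0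

variable {O : Subring ℂ} {x : G} {T : Subgroup G} {p : ℕ} {e₁ a : MonoidAlgebra ℂ G}

theorem GData.repZ (H : GData O x T p e₁) :
    RepZ (rhoL O a) (lmulL a e₁ H.hcoef) x T p where
  hee := by
    refine LinearMap.ext fun v => Subtype.ext ?_
    simp only [Module.End.mul_apply, lmulL_coe, ← mul_assoc, H.hidem]
  hx := H.hx
  hxT := H.hxT
  hTN := H.hTN
  he t ht := by
    show _ * _ = _ * _
    refine LinearMap.ext fun v => Subtype.ext ?_
    simp only [Module.End.mul_apply, lmulL_coe, rhoL_coe, ← mul_assoc, H.hT t ht]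
  horth n hn hnT := by
    refine LinearMap.ext fun v => Subtype.ext ?_
    simp only [Module.End.mul_apply, lmulL_coe, rhoL_coe, ← mul_assoc, H.horth n hn hnT, zero_mul]
    rfl

namespace GData

variable (H : GData O x T p e₁)
include H

theorem y_pow : (MonoidAlgebra.single x (1 : ℂ)) ^ p = 1 := by
  rw [MonoidAlgebra.single_pow, one_pow, ← H.hx, pow_orderOf_eq_one, MonoidAlgebra.one_def]

theorem y_mul_Nh : MonoidAlgebra.single x (1 : ℂ) * Nh x p = Nh x p := by
  have h := mul_geom_sum (MonoidAlgebra.single x (1 : ℂ)) p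
  rw [H.y_pow, sub_self, sub_mul, one_mul, sub_eq_zero] at h
  exact h

theorem pow_mul_Nh (i : ℕ) : (MonoidAlgebra.single x (1 : ℂ)) ^ i * Nh x p = Nh x p := by
  induction i with
  | zero => simp
  | succ i ih => rw [pow_succ, mul_assoc, H.y_mul_Nh, ih]

theorem Nh_mul_Nh : Nh x p * Nh x p = (p : ℂ) • Nh x p := by
  have h1 : Nh x p * Nh x p = ∑ i ∈ Finset.range p, (MonoidAlgebra.single x (1 : ℂ)) ^ i * Nh x p :=
    Finset.sum_mul _ _ _
  rw [h1]
  simp only [H.pow_mul_Nh]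
  rw [Finset.sum_const, Finset.card_range, Nat.cast_smul_eq_nsmul]

theorem e_comm_y : MonoidAlgebra.single x (1 : ℂ) * e₁ = e₁ * MonoidAlgebra.single x (1 : ℂ) :=
  H.hT x H.hxT

theorem e_comm_Nh : Nh x p * e₁ = e₁ * Nh x p := by
  have h : Commute (MonoidAlgebra.single x (1 : ℂ)) e₁ := H.e_comm_y
  have h2 : Commute (Nh x p) e₁ := by
    unfold Nh
    exact Commute.sum_left _ _ _ fun i _ => h.pow_left i
  exact h2.eq

end GData

/-- The generator on the range of `e₁`. -/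
noncomputable abbrev XOneZ (H : GData O x T p e₁) (a : MonoidAlgebra ℂ G) :
    Module.End O (LinearMap.range (lmulL a e₁ H.hcoef)) := (H.repZ (a := a)).X₁

/-- `X - 1` on the range of `e₁`. -/
noncomputable abbrev YOneZ (H : GData O x T p e₁) (a : MonoidAlgebra ℂ G) :
    Module.End O (LinearMap.range (lmulL a e₁ H.hcoef)) :=
  XOneZ H a - 1

/-- The norm on the range of `e₁`. -/
noncomputable abbrev NOneZ (H : GData O x T p e₁) (a : MonoidAlgebra ℂ G) :
    Module.End O (LinearMap.range (lmulL a e₁ H.hcoef)) := nrm (XOneZ H a) p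


namespace GData

variable (H : GData O x T p e₁)
include H

theorem piA_idem (hp : (p : ℂ) ≠ 0) : piA x p e₁ * piA x p e₁ = piA x p e₁ := by
  unfold piA
  rw [smul_mul_smul_comm]
  have h1 : Nh x p * e₁ * (Nh x p * e₁) = (Nh x p * Nh x p) * (e₁ * e₁) := by
    calc Nh x p * e₁ * (Nh x p * e₁) = Nh x p * (e₁ * Nh x p) * e₁ := by noncomm_ring
      _ = Nh x p * (Nh x p * e₁) * e₁ := by rw [H.e_comm_Nh]
      _ = _ := by noncomm_ring
  rw [h1, H.Nh_mul_Nh, H.hidem, smul_mul_assoc, smul_smul]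
  congr 1
  field_simp

theorem e_mul_piA : e₁ * piA x p e₁ = piA x p e₁ := by
  unfold piA
  have : e₁ * (Nh x p * e₁) = Nh x p * e₁ := by
    rw [← mul_assoc, ← H.e_comm_Nh, mul_assoc, H.hidem]
  rw [mul_smul_comm, this]

theorem piA_mul_e : piA x p e₁ * e₁ = piA x p e₁ := by
  unfold piA
  rw [smul_mul_assoc, mul_assoc, H.hidem]

theorem piB_idem (hp : (p : ℂ) ≠ 0) : piB x p e₁ * piB x p e₁ = piB x p e₁ := by
  unfold piB
  rw [mul_sub, sub_mul, sub_mul, H.hidem, H.e_mul_piA, H.piA_mul_e, H.piA_idem hp]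
  abel

theorem tr_formula (hp : (p : ℂ) ≠ 0) (φ : G → ℂ) :
    tr φ ((Nh x p - 1) * e₁) = ((p : ℂ) - 1) * tr φ (piA x p e₁) - tr φ (piB x p e₁) := by
  have h1 : (Nh x p - 1) * e₁ = ((p : ℂ) - 1) • piA x p e₁ - piB x p e₁ := by
    unfold piB piA
    rw [sub_mul, one_mul, sub_smul, one_smul, smul_smul]
    have : (p : ℂ) * (p : ℂ)⁻¹ = 1 := mul_inv_cancel₀ hp
    rw [this, one_smul]
    abel
  rw [h1, tr_sub, tr_smul]

variable (hac : IsCentralElt a) (haa : a * a = a)

theorem iota_pow (v : LinearMap.range (lmulL a e₁ H.hcoef)) (i : ℕ) :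
    iotaL _ (((H.repZ (a := a)).X₁ ^ i) v) = (MonoidAlgebra.single x (1 : ℂ)) ^ i * iotaL _ v := by
  have h := (H.repZ (a := a)).X₁_pow_coe i v
  have h2 := congrArg (fun w : latL O a => (w : MonoidAlgebra ℂ G)) h
  rw [MonoidAlgebra.single_pow, one_pow]
  exact h2

theorem iota_X (v : LinearMap.range (lmulL a e₁ H.hcoef)) :
    iotaL _ ((H.repZ (a := a)).X₁ v) = (MonoidAlgebra.single x (1 : ℂ)) * iotaL _ v := by
  have := H.iota_pow v 1
  simpa using this

theorem iota_nrm (v : LinearMap.range (lmulL a e₁ H.hcoef)) :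
    iotaL _ (NOneZ H a v) = Nh x p * iotaL _ v := by
  unfold NOneZ nrm Nh
  rw [LinearMap.sum_apply, map_sum, Finset.sum_mul]
  exact Finset.sum_congr rfl fun i _ => H.iota_pow v i

theorem e_iota (v : LinearMap.range (lmulL a e₁ H.hcoef)) : e₁ * iotaL _ v = iotaL _ v := by
  have h := idem_coe (H.repZ (a := a)).hee v
  exact congrArg (fun w : latL O a => (w : MonoidAlgebra ℂ G)) h

include hac haa

theorem iota_a (v : LinearMap.range (lmulL a e₁ H.hcoef)) : iotaL _ v * a = iotaL _ v :=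
  mul_a_of_mem hac haa (v : latL O a).2

/-- The generators of the range of `e`. -/
noncomputable def ug (H : GData O x T p e₁) (a : MonoidAlgebra ℂ G) (g : G) :
    LinearMap.range (lmulL a e₁ H.hcoef) :=
  ⟨lmulL a e₁ H.hcoef ⟨MonoidAlgebra.single g (1 : ℂ) * a, sg_mem g⟩, ⟨_, rfl⟩⟩

omit hac haa in
theorem iota_ug (g : G) : iotaL _ (H.ug a g) = e₁ * (MonoidAlgebra.single g (1 : ℂ) * a) := rfl

theorem mem_A (hp : (p : ℂ) ≠ 0) (v : LinearMap.range (lmulL a e₁ H.hcoef))
    (hv : v ∈ LinearMap.ker (YOneZ H a)) : iotaL _ v ∈ idealS (piA x p e₁) a := by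
  refine mem_idealS.mpr ⟨iotaL _ v, ?_⟩
  rw [mul_assoc, H.iota_a hac haa v]
  have h2 : NOneZ H a v = (p : O) • v := nrm_apply_of_ker (R := O) (X := XOneZ H a) hv
  have h3 := H.iota_nrm v
  rw [h2, map_smul] at h3
  unfold piA
  rw [smul_mul_assoc, mul_assoc, H.e_iota, ← h3]
  show (p : ℂ)⁻¹ • (((p : O) : ℂ) • iotaL _ v) = _
  rw [smul_smul]
  have : (p : ℂ)⁻¹ * (((p : O) : ℂ)) = 1 := by
    push_cast
    exact inv_mul_cancel₀ hp
  rw [this, one_smul]

theorem mem_B (hp : (p : ℂ) ≠ 0) (v : LinearMap.range (lmulL a e₁ H.hcoef))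
    (hv : v ∈ LinearMap.ker (NOneZ H a)) : iotaL _ v ∈ idealS (piB x p e₁) a := by
  refine mem_idealS.mpr ⟨iotaL _ v, ?_⟩
  rw [mul_assoc, H.iota_a hac haa v]
  have h3 := H.iota_nrm v
  rw [LinearMap.mem_ker.mp hv, map_zero] at h3
  unfold piB piA
  rw [sub_mul, H.e_iota, smul_mul_assoc, mul_assoc, H.e_iota, ← h3, smul_zero, sub_zero]

theorem span_A (hp : (p : ℂ) ≠ 0) : idealS (piA x p e₁) a ≤ Submodule.span ℂ
    (iotaL (lmulL a e₁ H.hcoef) '' (SetLike.coe (LinearMap.ker (YOneZ H a)))) := by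
  apply EData.idealS_le_of_single
  intro g
  have hmem : NOneZ H a (H.ug a g) ∈ LinearMap.ker (YOneZ H a) := by
    refine LinearMap.mem_ker.mpr ?_
    exact congrArg (fun f : Module.End O (LinearMap.range (lmulL a e₁ H.hcoef)) => f (H.ug a g))
      (y_mul_nrm (H.repZ (a := a)).X₁_pow)
  have h1 : piA x p e₁ * (MonoidAlgebra.single g (1 : ℂ) * a) =
      (p : ℂ)⁻¹ • iotaL _ (NOneZ H a (H.ug a g)) := by
    rw [H.iota_nrm, iota_ug]
    unfold piA
    rw [smul_mul_assoc, mul_assoc]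
  rw [h1]
  exact Submodule.smul_mem _ _ (Submodule.subset_span ⟨_, hmem, rfl⟩)

theorem span_B (hp : (p : ℂ) ≠ 0) : idealS (piB x p e₁) a ≤ Submodule.span ℂ
    (iotaL (lmulL a e₁ H.hcoef) '' (SetLike.coe (LinearMap.ker (NOneZ H a)))) := by
  apply EData.idealS_le_of_single
  intro g
  set u := H.ug a g with hu
  have hmem : (p : O) • u - NOneZ H a u ∈ LinearMap.ker (NOneZ H a) := by
    refine LinearMap.mem_ker.mpr ?_
    have h2 : NOneZ H a u ∈ LinearMap.ker (YOneZ H a) := by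
      refine LinearMap.mem_ker.mpr ?_
      exact congrArg (fun f : Module.End O (LinearMap.range (lmulL a e₁ H.hcoef)) => f u)
        (y_mul_nrm (H.repZ (a := a)).X₁_pow)
    rw [map_sub, map_smul, nrm_apply_of_ker (R := O) (X := XOneZ H a) h2, sub_self]
  have h1 : piB x p e₁ * (MonoidAlgebra.single g (1 : ℂ) * a) =
      (p : ℂ)⁻¹ • iotaL _ ((p : O) • u - NOneZ H a u) := by
    rw [map_sub, map_smul, H.iota_nrm, hu, iota_ug]
    show _ = (p : ℂ)⁻¹ • (((p : O) : ℂ) • (e₁ * (MonoidAlgebra.single g (1 : ℂ) * a)) - _)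
    rw [smul_sub, smul_smul]
    have : (p : ℂ)⁻¹ * (((p : O) : ℂ)) = 1 := by
      push_cast
      exact inv_mul_cancel₀ hp
    rw [this, one_smul]
    unfold piB piA
    rw [sub_mul, smul_mul_assoc, mul_assoc]
  rw [h1]
  exact Submodule.smul_mem _ _ (Submodule.subset_span ⟨_, hmem, rfl⟩)

end GData

section Key

variable {M : Ideal AlgInt}

set_option maxHeartbeats 4000000 in
/-- **The key rank theorem.** -/
theorem GData.key_rank_Z [hp : Fact p.Prime] [IsLocalRing O] (H : GData O x T p e₁) (hM : IsPModular p M)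
    (hO : UnramRing M p O) (Ω : Set (IrrCharacter G)) (d₀ : ℂ) (hd : d₀ ≠ 0)
    (hrat : ∀ g, d₀ * (blockElt Ω).coeff g ∈ O) (hp2 : ¬ p ^ 2 ∣ Fintype.card G)
    (hne : ∑ χ : IrrCharacter G, tr (χ : G → ℂ) (blockElt Ω) * tr (χ : G → ℂ) ((Nh x p - 1) * e₁) ≠ 0) (δ : ℕ)
    (hZ0 : ∀ (V : Type u) [AddCommGroup V] [Module (IsLocalRing.ResidueField O) V] [FiniteDimensional (IsLocalRing.ResidueField O) V]
      (d : RedData p O (IsLocalRing.ResidueField O) (LinearMap.range (lmulL (blockElt Ω) e₁ H.hcoef)) V)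
      (_ : d.σ = IsLocalRing.residue O)
      (A T₀ : Submodule (IsLocalRing.ResidueField O) V), T₀ ≤ A → (∃ v ∈ A, v ∉ T₀) →
      (∀ t (ht : t ∈ T), ∀ v ∈ A, d.bar ((H.repZ (a := blockElt Ω)).tOp t ht) v ∈ A) →
      (∀ t (ht : t ∈ T), ∀ v ∈ T₀, d.bar ((H.repZ (a := blockElt Ω)).tOp t ht) v ∈ T₀) →
      (∀ v ∈ A, d.bar (H.repZ (a := blockElt Ω)).X₁ v - v ∈ T₀) →
      ∃ Z : Submodule (IsLocalRing.ResidueField O) V, T₀ ≤ Z ∧ Z ≤ A ∧
        (∀ t (ht : t ∈ T), ∀ v ∈ Z, d.bar ((H.repZ (a := blockElt Ω)).tOp t ht) v ∈ Z) ∧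
        finrank (IsLocalRing.ResidueField O) Z = finrank (IsLocalRing.ResidueField O) T₀ + δ) :
    ∃ r : IrrCharacter G → ℕ, (∀ χ, χ ∉ Ω → r χ = 0) ∧
      (∑ χ : IrrCharacter G, tr (χ : G → ℂ) ((Nh x p - 1) * e₁) * (r χ : ℂ) = ((p : ℂ) - 1) * δ ∨
        ∑ χ : IrrCharacter G, tr (χ : G → ℂ) ((Nh x p - 1) * e₁) * (r χ : ℂ) = -(((p : ℂ) - 1) * δ)) := by
  classical
  have := isPModular_isPrime hM
  have hDVR := hO.isDVR hM
  have hp0 : (p : ℂ) ≠ 0 := by exact_mod_cast hp.out.ne_zero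
  set a := blockElt Ω with ha
  have hac : IsCentralElt a := isCentralElt_blockElt Ω
  have haa : a * a = a := blockElt_mul_self Ω
  let D := H.repZ (a := a)
  let e := lmulL a e₁ H.hcoef
  have : Module.Finite O (LinearMap.range e) := inferInstance
  have : Module.Free O (LinearMap.range e) := Module.free_of_finite_type_torsion_free'
  let b := Module.Free.chooseBasis O (LinearMap.range e)
  let n := Module.Free.ChooseBasisIndex O (LinearMap.range e)
  have : Fintype n := Module.Free.ChooseBasisIndex.fintype O (LinearMap.range e)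
  let k := IsLocalRing.ResidueField O
  have : Finite k := residue_finite hM hO
  let d : RedData p O k (LinearMap.range e) (n → k) := redOfBasis (IsLocalRing.residue O)
    IsLocalRing.residue_surjective (residue_zero_iff hM hO) b
  have hpc : ∀ u v : O, (p : O) * u = (p : O) * v → u = v := by
    intro u v h
    exact mul_left_cancel₀ (UnramRing.natCast_ne_zero hM) h
  have htf : ∀ v : LinearMap.range e, (p : O) • v = 0 → v = 0 := by
    intro v h
    exact (smul_eq_zero.mp h).resolve_left (UnramRing.natCast_ne_zero hM)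
  have hXp : XOneZ H a ^ p = 1 := D.X₁_pow
  have hpure_A : ∀ v, (p : O) • v ∈ LinearMap.ker (YOneZ H a) → v ∈ LinearMap.ker (YOneZ H a) := by
    intro v hv
    refine LinearMap.mem_ker.mpr (htf _ ?_)
    rw [← map_smul]
    exact LinearMap.mem_ker.mp hv
  have hpure_B : ∀ v, (p : O) • v ∈ LinearMap.ker (NOneZ H a) → v ∈ LinearMap.ker (NOneZ H a) := by
    intro v hv
    refine LinearMap.mem_ker.mpr (htf _ ?_)
    rw [← map_smul]
    exact LinearMap.mem_ker.mp hv
  have hι := iotaL_inj e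
  have hrat' : ∀ (s : LinearMap.range e) (g : G), d₀ * (iotaL e s).coeff g ∈ O :=
    fun s g => rat_of_mem hrat (s : latL O a).2 g
  have hπA := H.piA_idem hp0
  have hπB := H.piB_idem hp0
  have hWA : ∀ s ∈ LinearMap.ker (YOneZ H a), iotaL e s ∈ idealS (piA x p e₁) a :=
    fun s hs => H.mem_A hac haa hp0 s hs
  have hWB : ∀ s ∈ LinearMap.ker (NOneZ H a), iotaL e s ∈ idealS (piB x p e₁) a :=
    fun s hs => H.mem_B hac haa hp0 s hs
  have hspanA := H.span_A hac haa (a := a) hp0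
  have hspanB := H.span_B hac haa (a := a) hp0
  have himg : ∀ S : Submodule O (LinearMap.range e),
      iotaL e '' (S : Set _) = Set.range (iotaL e ∘ₗ S.subtype) := by
    intro S
    ext y
    constructor
    · rintro ⟨s, hs, rfl⟩
      exact ⟨⟨s, hs⟩, rfl⟩
    · rintro ⟨s, rfl⟩
      exact ⟨s, s.2, rfl⟩
  have finA : finrank O (LinearMap.ker (YOneZ H a)) = finrank ℂ (idealS (piA x p e₁) a) := by
    refine (charpoly_link (O := O) (S := LinearMap.ker (YOneZ H a)) (iotaL e ∘ₗ (LinearMap.ker (YOneZ H a)).subtype)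
      (hι.comp Subtype.val_injective) d₀ hd (fun s g => hrat' _ g) _ (fun s => hWA _ s.2) (by
        rw [← himg]
        exact hspanA) 1 (fun v hv => hv) 1 (fun s => rfl)).2
  have finB : finrank O (LinearMap.ker (NOneZ H a)) = finrank ℂ (idealS (piB x p e₁) a) := by
    refine (charpoly_link (O := O) (S := LinearMap.ker (NOneZ H a)) (iotaL e ∘ₗ (LinearMap.ker (NOneZ H a)).subtype)
      (hι.comp Subtype.val_injective) d₀ hd (fun s g => hrat' _ g) _ (fun s => hWB _ s.2) (by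
        rw [← himg]
        exact hspanB) 1 (fun v hv => hv) 1 (fun s => rfl)).2
  have hdimA := finrank_idealS (piA x p e₁) hπA Ω
  have hdimB := finrank_idealS (piB x p e₁) hπB Ω
  have hne2 : (∃ a₁ ∈ LinearMap.ker (YOneZ H a), a₁ ∉ LinearMap.range (NOneZ H a)) ∨
      ∃ b₁ ∈ LinearMap.ker (NOneZ H a), b₁ ∉ LinearMap.range (YOneZ H a) := by
    by_contra hcon
    push Not at hcon
    obtain ⟨h1, h2⟩ := hcon
    have h3 := tate_id d htf hXp h1 h2
    rw [finrank_imS d _ htf hpure_A, finrank_imS d _ htf hpure_B, finA, finB] at h3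
    have h4 := congrArg (Int.cast : ℤ → ℂ) h3
    push_cast at h4
    rw [← ha] at hdimA hdimB
    rw [hdimA, hdimB] at h4
    apply hne
    have h5 : ∀ χ : IrrCharacter G, tr (χ : G → ℂ) a * tr (χ : G → ℂ) ((Nh x p - 1) * e₁) =
        ((p : ℂ) - 1) * (tr (χ : G → ℂ) (piA x p e₁) * tr (χ : G → ℂ) a) -
          tr (χ : G → ℂ) (piB x p e₁) * tr (χ : G → ℂ) a := by
      intro χ
      rw [H.tr_formula hp0]
      ring
    simp only [h5]
    rw [Finset.sum_sub_distrib, ← Finset.mul_sum, h4, sub_self]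
  obtain ⟨F, hFc, hrank⟩ := D.exists_F_rank_Z d hpc htf hp2 hne2 δ (hZ0 (n → k) d rfl)
  obtain ⟨μ, hμL, hμ⟩ := exists_lambda hac haa F hFc
  have hF : Commute F e := by
    show F * e = e * F
    refine LinearMap.ext fun v => Subtype.ext ?_
    show ((F (e v) : latL O a) : MonoidAlgebra ℂ G) = e₁ * ((F v : latL O a) : MonoidAlgebra ℂ G)
    rw [hμ, hμ, lmulL_coe, mul_assoc]
  let f := resE e F hF
  have hVf : Finite (Module.End k (n → k)) := Module.finite_of_finite k
  obtain ⟨M', hM'⟩ := exists_idem_pow (d.bar f : Module.End k (n → k))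
  have hidem : IsIdempotentElem (d.bar (f ^ (M' + 1)) : Module.End k (n → k)) := by
    rw [d.bar_pow]
    exact hM'
  have hEcoe : ∀ s : LinearMap.range e, iotaL e ((f ^ (M' + 1)) s) = iotaL e s * μ ^ (M' + 1) := by
    intro s
    have h1 : f ^ (M' + 1) = resE e (F ^ (M' + 1)) (hF.pow_left _) := resE_pow e F hF _
    rw [h1]
    exact lat_pow_apply hμ (M' + 1) (s : latL O a)
  have hμ' : μ ^ (M' + 1) * a = μ ^ (M' + 1) := by
    rw [pow_succ, mul_assoc, mul_a_of_mem hac haa hμL]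
  obtain ⟨r, hr0, hr⟩ := unit_root_count (μ ^ (M' + 1)) (MemLocalIdeal M) memLocalIdeal_zero Ω hμ'
  refine ⟨r, hr0, ?_⟩
  have hfX : Commute f (XOneZ H a) := by
    show f * XOneZ H a = XOneZ H a * f
    refine LinearMap.ext fun v => Subtype.ext (Subtype.ext ?_)
    exact congrArg (fun g : Module.End O (latL O a) => ((g (v : latL O a) : latL O a) : MonoidAlgebra ℂ G)) (hFc x).eq
  have hcE : Commute (f ^ (M' + 1)) (XOneZ H a) := hfX.pow_left _
  have hE_A : ∀ v ∈ LinearMap.ker (YOneZ H a), (f ^ (M' + 1)) v ∈ LinearMap.ker (YOneZ H a) := by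
    intro v hv
    refine LinearMap.mem_ker.mpr ?_
    have h1 := congrArg (fun g : Module.End O (LinearMap.range e) => g v) (commute_y_of_commute hcE).eq
    simp only [Module.End.mul_apply] at h1
    rw [← h1, LinearMap.mem_ker.mp hv, map_zero]
  have hE_B : ∀ v ∈ LinearMap.ker (NOneZ H a), (f ^ (M' + 1)) v ∈ LinearMap.ker (NOneZ H a) := by
    intro v hv
    refine LinearMap.mem_ker.mpr ?_
    have h1 := congrArg (fun g : Module.End O (LinearMap.range e) => g v) (commute_nrm_of_commute (p := p) hcE).eq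
    simp only [Module.End.mul_apply] at h1
    rw [← h1, LinearMap.mem_ker.mp hv, map_zero]
  have hst_A := idealS_stable (π := piA x p e₁) hac hμ'
  have hst_B := idealS_stable (π := piB x p e₁) hac hμ'
  obtain ⟨rkA, -⟩ := rk_eq_countP hM hO d (LinearMap.ker (YOneZ H a)) htf hpure_A (f ^ (M' + 1)) hE_A hidem (iotaL e) hι d₀ hd
    hrat' (idealS (piA x p e₁) a) hWA hspanA (LinearMap.mulRight ℂ (μ ^ (M' + 1))) hst_A (fun s _ => (hEcoe s).symm)
  obtain ⟨rkB, -⟩ := rk_eq_countP hM hO d (LinearMap.ker (NOneZ H a)) htf hpure_B (f ^ (M' + 1)) hE_B hidem (iotaL e) hι d₀ hd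
    hrat' (idealS (piB x p e₁) a) hWB hspanB (LinearMap.mulRight ℂ (μ ^ (M' + 1))) hst_B (fun s _ => (hEcoe s).symm)
  have hrA := hr (piA x p e₁) hπA
  have hrB := hr (piB x p e₁) hπB
  rw [← rkA] at hrA
  rw [← rkB] at hrB
  have hsum : ∑ χ : IrrCharacter G, tr (χ : G → ℂ) ((Nh x p - 1) * e₁) * (r χ : ℂ) =
      ((p : ℂ) - 1) * (rk (d.bar (f ^ (M' + 1))) (d.imS (LinearMap.ker (YOneZ H a))) : ℂ) -
        (rk (d.bar (f ^ (M' + 1))) (d.imS (LinearMap.ker (NOneZ H a))) : ℂ) := by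
    rw [hrA, hrB, Finset.mul_sum, ← Finset.sum_sub_distrib]
    refine Finset.sum_congr rfl fun χ _ => ?_
    rw [H.tr_formula hp0]
    ring
  rw [hsum]
  rcases hrank hF M' hidem with h | h
  · left
    have h4 := congrArg (Int.cast : ℤ → ℂ) h
    push_cast at h4
    exact h4
  · right
    have h4 := congrArg (Int.cast : ℤ → ℂ) h
    push_cast at h4
    exact h4

end Key

end GDataSec

end Cfsg.Agent.Lib.FF
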