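import Cfsg.Agent.Lib.FF.GenChi4

/-!
# Blocks of defect one: the main theorem
-/

set_option autoImplicit false
set_option linter.unusedSectionVars false
set_option linter.style.haveILetI false
set_option linter.unusedSimpArgs false
set_option linter.unnecessarySimpa false
set_option linter.unusedVariables false
set_option maxSynthPendingDepth 3

open scoped ComplexConjugate
open Subgroup

namespace Cfsg.Agent.Lib.FF

open Cfsg (classInner IsCharacter IsIrrCharacter IrrCharacter IsClassFunction indFun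
  extendByZero IsGeneralizedCharacter IsPModular IsPPart charDegree IsPBlock blockOf blockCoeff SameBlock MemLocalIdeal
  IsInducedBlock IsDefectGroup inducedCentralChar centralChar)
open Cfsg.Agent.Lib.Char
open Cfsg.Agent.Lib.Block hiding tr
open Cfsg.Agent.Lib.SmallSimple.Star
open Cfsg.Agent.Lib.SmallSimple.BL
open Cfsg.Agent.Lib.SmallSimple.BB

universe u

variable {G : Type u} [Group G] [Fintype G] {p : ℕ} {x : G} {K : Subgroup G} [Fintype K]
  {M : Ideal Cfsg.AlgInt} [hp : Fact p.Prime] {C : Subgroup G} [Fintype C]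
  [Fintype (zpowers x)] {T : Subgroup G} [Fintype T] {B : Set (IrrCharacter G)} {θ₀ : IrrCharacter K}

section Data

variable {c : Nt x → IrrCharacter G → IrrCharacter K → ℤ} {n : IrrCharacter G → IrrCharacter K → ℕ}

/-- The coefficient vanishes if the section function does. -/
theorem c_zero_of_Dc (h3 : ∀ (χ : IrrCharacter G) (μ : IrrCharacter K) (a : Nt x), (c a χ μ : ℂ) =
      (p : ℂ)⁻¹ * ∑ u : zpowers x, ((a.1 : zpowers x → ℂ) u - 1) * conj (Dc (χ : G → ℂ) (μ : K → ℂ) u))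
    {χ : IrrCharacter G} {μ : IrrCharacter K} (h : ∀ u : zpowers x, u ≠ 1 → Dc (χ : G → ℂ) (μ : K → ℂ) u = 0) (a : Nt x) :
    c a χ μ = 0 := by
  have h1 : (c a χ μ : ℂ) = 0 := by
    rw [h3, Finset.sum_eq_zero, mul_zero]
    intro u _
    by_cases hu : u = 1
    · subst hu
      rw [deg_one]
      ring
    · rw [h u hu]
      simp
  exact_mod_cast h1

variable (hM : IsPModular p M) (hx : orderOf x = p) (hsyl : ¬ p ^ 2 ∣ Nat.card G) (hK : CompK x p K)
  (hC : ∀ g, g ∈ C ↔ Commute g x) (hT : IsStabT x θ₀ T) (hB : IsPBlock M B)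
  (hD : IsDefectGroup p M B (zpowers x)) (hind : IsInducedBlock M C (Amu (le_C_of_compK hK hC) θ₀) B)
  (h1 : ∀ (χ : IrrCharacter G) (μ : IrrCharacter K), ∀ u : zpowers x, u ≠ 1 →
    Dc (χ : G → ℂ) (μ : K → ℂ) u = ∑ a : Nt x, (c a χ μ : ℂ) * (a.1 : zpowers x → ℂ) u)
  (h2 : ∀ (χ : IrrCharacter G) (μ : IrrCharacter K), Dc (χ : G → ℂ) (μ : K → ℂ) 1 = (p : ℂ) * n χ μ + ∑ a : Nt x, (c a χ μ : ℂ))
  (h3 : ∀ (χ : IrrCharacter G) (μ : IrrCharacter K) (a : Nt x), (c a χ μ : ℂ) =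
      (p : ℂ)⁻¹ * ∑ u : zpowers x, ((a.1 : zpowers x → ℂ) u - 1) * conj (Dc (χ : G → ℂ) (μ : K → ℂ) u))

include hM hx hK hC hB hD hind in
theorem Dc_zero_off_orbit {χ : IrrCharacter G} (hχ : χ ∈ B) {μ : IrrCharacter K} (hμ : μ ∉ orbK hK θ₀)
    (u : zpowers x) (hu : u ≠ 1) : Dc (χ : G → ℂ) (μ : K → ℂ) u = 0 := by
  by_contra hne
  obtain ⟨m, hm, rfl⟩ := conj_of_Dc_ne hx hK hC hM hB hD hind μ χ hχ u hu hne
  exact hμ ((mem_orbK hK θ₀ _).mpr ⟨m, hm, rfl⟩)

include hM hx hK hC hind h3 in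
theorem c_zero_off_block {χ : IrrCharacter G} (hχ : χ ∉ B) (a : Nt x) : c a χ θ₀ = 0 :=
  c_zero_of_Dc h3 (fun u hu => Dc_zero_of_induced hx hK hC hM θ₀ hind χ hχ u hu) a

include hM hx hK hC hB hD hind h2 h3 in
/-- The degree formula. -/
theorem deg_formula {χ : IrrCharacter G} (hχ : χ ∈ B) :
    ∃ n' : ℤ, (charDegree (χ : G → ℂ) : ℤ) = p * n' +
      (((orbK hK θ₀).card * charDegree (θ₀ : K → ℂ) : ℕ) : ℤ) * ∑ a : Nt x, c a χ θ₀ := by
  classical
  have hd : ∀ μ : IrrCharacter K, (μ : K → ℂ) 1 = (charDegree (μ : K → ℂ) : ℂ) :=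
    fun μ => map_one_eq_charDegree (IsIrrCharacter.isCharacter μ.2)
  have hd' : ∀ χ : IrrCharacter G, (χ : G → ℂ) 1 = (charDegree (χ : G → ℂ) : ℂ) :=
    fun χ => map_one_eq_charDegree (IsIrrCharacter.isCharacter χ.2)
  have h0 := deg_expand (K := K) χ
  rw [← Finset.sum_add_sum_compl (orbK hK θ₀)] at h0
  have hin : ∀ μ ∈ orbK hK θ₀, Dc (χ : G → ℂ) (μ : K → ℂ) 1 * (μ : K → ℂ) 1 =
      ((p : ℂ) * n χ θ₀ + ∑ a : Nt x, (c a χ θ₀ : ℂ)) * (charDegree (θ₀ : K → ℂ) : ℂ) := by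
    intro μ hμ
    obtain ⟨m, hm, rfl⟩ := (mem_orbK hK θ₀ μ).mp hμ
    rw [Dc_thConj hK χ θ₀ hm, thConj_one, hd θ₀, ← h2 χ θ₀]
    simp
  have hout : ∀ μ ∈ (orbK hK θ₀)ᶜ, Dc (χ : G → ℂ) (μ : K → ℂ) 1 * (μ : K → ℂ) 1 =
      (p : ℂ) * ((n χ μ * charDegree (μ : K → ℂ) : ℕ) : ℂ) := by
    intro μ hμ
    have hμ' : μ ∉ orbK hK θ₀ := by simpa using hμ
    have hc : ∀ a : Nt x, c a χ μ = 0 :=
      c_zero_of_Dc h3 (fun u hu => Dc_zero_off_orbit hM hx hK hC hB hD hind hχ hμ' u hu)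
    rw [h2 χ μ, hd μ]
    simp only [hc]
    push_cast
    simp
    ring
  rw [Finset.sum_congr rfl hin, Finset.sum_congr rfl hout, Finset.sum_const, nsmul_eq_mul, ← Finset.mul_sum] at h0
  refine ⟨(((orbK hK θ₀).card * n χ θ₀ * charDegree (θ₀ : K → ℂ) : ℕ) : ℤ) +
    ((∑ μ ∈ (orbK hK θ₀)ᶜ, n χ μ * charDegree (μ : K → ℂ) : ℕ) : ℤ), ?_⟩
  have hS : ((∑ a : Nt x, c a χ θ₀ : ℤ) : ℂ) = ∑ a : Nt x, (c a χ θ₀ : ℂ) := by push_cast; rfl
  have h5 : (charDegree (χ : G → ℂ) : ℂ) = (p : ℂ) * (((((orbK hK θ₀).card * n χ θ₀ * charDegree (θ₀ : K → ℂ) : ℕ) : ℂ) +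
      ((∑ μ ∈ (orbK hK θ₀)ᶜ, n χ μ * charDegree (μ : K → ℂ) : ℕ) : ℂ))) +
      (((orbK hK θ₀).card * charDegree (θ₀ : K → ℂ) : ℕ) : ℂ) * ((∑ a : Nt x, c a χ θ₀ : ℤ) : ℂ) := by
    rw [← hd' χ, h0, hS]
    push_cast
    ring
  exact_mod_cast h5

include hM hx hsyl hK hC hB hD hind h1 in
open Classical in
/-- The rationality of the idempotents. -/
theorem rat_omega {O : Subring ℂ} {m : ℕ} (hm : Nat.card G = p * m) (hroots : ∀ z : ℂ, z ^ m = 1 → z ∈ O)
    (Ω : Finset (IrrCharacter G)) (hΩ : (↑Ω : Set (IrrCharacter G)) ⊆ B) (D : ℕ)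
    (hdeg : ∀ χ ∈ Ω, charDegree (χ : G → ℂ) = D) (w : ℤ) (hw : ∀ a : Nt x, ∑ y ∈ Ω, c a y θ₀ = w) (g : G) :
    (∑ χ : IrrCharacter G, if χ ∈ (↑Ω : Set (IrrCharacter G)) then (χ : G → ℂ) 1 * conj ((χ : G → ℂ) g) else 0) ∈ O := by
  have hpr := hp.out
  rw [sum_if_coe]
  have hd' : ∀ χ : IrrCharacter G, (χ : G → ℂ) 1 = (charDegree (χ : G → ℂ) : ℂ) :=
    fun χ => map_one_eq_charDegree (IsIrrCharacter.isCharacter χ.2)
  have hKv : ∀ (μ : IrrCharacter K) (k : K), conj ((μ : K → ℂ) k) ∈ O := by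
    intro μ k
    rw [← IsCharacter.map_inv' (IsIrrCharacter.isCharacter μ.2)]
    refine irr_val_mem μ _ (n := m) ?_ hroots
    apply Subtype.ext
    simpa using pow_n_eq_one hm ((k⁻¹ : K) : G) (orderOf_not_dvd_of_mem K hK.ndvd (k⁻¹).2)
  by_cases hg : p ∣ orderOf g
  · obtain ⟨d, u, k, hu, hdg⟩ := exists_conj_section hx hsyl hK g hg
    have hval : ∀ y : IrrCharacter G, (y : G → ℂ) g = (y : G → ℂ) ((u : G) * k) := by
      intro y
      rw [← hdg]
      exact (IsCharacter.conj_apply (IsIrrCharacter.isCharacter y.2) g d).symm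
    have hsum : ∑ y ∈ Ω, (y : G → ℂ) ((u : G) * k) = - ((w : ℂ) * ∑ μ ∈ orbK hK θ₀, (μ : K → ℂ) k) := by
      simp only [chi_expand hK _ u k]
      rw [Finset.sum_comm, ← Finset.sum_add_sum_compl (orbK hK θ₀)]
      have hout : ∀ μ ∈ (orbK hK θ₀)ᶜ, ∑ y ∈ Ω, Dc (y : G → ℂ) (μ : K → ℂ) u * (μ : K → ℂ) k = 0 := by
        intro μ hμ
        have hμ' : μ ∉ orbK hK θ₀ := by simpa using hμ
        refine Finset.sum_eq_zero fun y hy => ?_
        rw [Dc_zero_off_orbit hM hx hK hC hB hD hind (hΩ (Finset.mem_coe.mpr hy)) hμ' u hu, zero_mul]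
      have hin : ∀ μ ∈ orbK hK θ₀, ∑ y ∈ Ω, Dc (y : G → ℂ) (μ : K → ℂ) u * (μ : K → ℂ) k = -((w : ℂ) * (μ : K → ℂ) k) := by
        intro μ hμ
        obtain ⟨n₀, hn₀, rfl⟩ := (mem_orbK hK θ₀ μ).mp hμ
        have hvm : n₀ * u * n₀⁻¹ ∈ zpowers x := (Subgroup.mem_normalizer_iff.mp hn₀ _).mp u.2
        let v : zpowers x := ⟨n₀ * u * n₀⁻¹, hvm⟩
        have hv : v ≠ 1 := by
          intro h0
          apply hu
          have h4 : n₀ * (u : G) * n₀⁻¹ = 1 := congrArg Subtype.val h0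
          have h5 : (u : G) = 1 := by
            have : (u : G) = n₀⁻¹ * (n₀ * u * n₀⁻¹) * n₀ := by group
            rw [this, h4]
            group
          exact Subtype.ext h5
        have h6 : ∀ y ∈ Ω, Dc (y : G → ℂ) ((thConj hK n₀ hn₀ θ₀ : IrrCharacter K) : K → ℂ) u *
            ((thConj hK n₀ hn₀ θ₀ : IrrCharacter K) : K → ℂ) k =
            (∑ a : Nt x, (c a y θ₀ : ℂ) * (a.1 : zpowers x → ℂ) v) * ((thConj hK n₀ hn₀ θ₀ : IrrCharacter K) : K → ℂ) k := by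
          intro y hy
          rw [Dc_thConj hK y θ₀ hn₀, ← h1 y θ₀ v hv]
        rw [Finset.sum_congr rfl h6, ← Finset.sum_mul, Finset.sum_comm]
        have h7 : ∀ a : Nt x, ∑ y ∈ Ω, (c a y θ₀ : ℂ) * (a.1 : zpowers x → ℂ) v = (w : ℂ) * (a.1 : zpowers x → ℂ) v := by
          intro a
          rw [← Finset.sum_mul, ← hw a]
          push_cast
          rfl
        simp only [h7]
        rw [← Finset.mul_sum, sum_nt_col v hv]
        ring
      rw [Finset.sum_congr rfl hin, Finset.sum_congr rfl hout, Finset.sum_const_zero, add_zero, Finset.sum_neg_distrib, Finset.mul_sum]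
    have h8 : ∀ y ∈ Ω, (y : G → ℂ) 1 * conj ((y : G → ℂ) g) = (D : ℂ) * conj ((y : G → ℂ) ((u : G) * k)) := by
      intro y hy
      rw [hd' y, hdeg y hy, hval y]
    rw [Finset.sum_congr rfl h8, ← Finset.mul_sum, ← map_sum, hsum]
    simp only [map_neg, map_mul, map_intCast, map_sum]
    refine O.mul_mem (natCast_mem _ _) (O.neg_mem (O.mul_mem (intCast_mem _ _) (O.sum_mem fun μ _ => hKv μ k)))
  · refine O.sum_mem fun y _ => ?_
    rw [← IsCharacter.map_inv' (IsIrrCharacter.isCharacter y.2), hd' y]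
    refine O.mul_mem (natCast_mem _ _) (irr_val_mem y _ (pow_n_eq_one hm _ (by rwa [orderOf_inv])) hroots)

end Data

open Classical in
/-- The data of the lattice argument for a block of defect one. -/
theorem ad_block {c : Nt x → IrrCharacter G → IrrCharacter K → ℤ} {n : IrrCharacter G → IrrCharacter K → ℕ}
    (hM : IsPModular p M) (hx : orderOf x = p) (hsyl : ¬ p ^ 2 ∣ Nat.card G) (hK : CompK x p K)
    (hC : ∀ g, g ∈ C ↔ Commute g x) (hT : IsStabT x θ₀ T) (hB : IsPBlock M B)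
    (hD : IsDefectGroup p M B (zpowers x)) (hind : IsInducedBlock M C (Amu (le_C_of_compK hK hC) θ₀) B)
    (h1 : ∀ (χ : IrrCharacter G) (μ : IrrCharacter K), ∀ u : zpowers x, u ≠ 1 →
      Dc (χ : G → ℂ) (μ : K → ℂ) u = ∑ a : Nt x, (c a χ μ : ℂ) * (a.1 : zpowers x → ℂ) u)
    (h3 : ∀ (χ : IrrCharacter G) (μ : IrrCharacter K) (a : Nt x), (c a χ μ : ℂ) =
      (p : ℂ)⁻¹ * ∑ u : zpowers x, ((a.1 : zpowers x → ℂ) u - 1) * conj (Dc (χ : G → ℂ) (μ : K → ℂ) u))
    (hTN : T ≤ normalizer ((zpowers x : Subgroup G) : Set G)) (hCT : centralizer ({x} : Set G) ≤ T) (e : ℕ)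
    (hcardT : Nat.card T = e * Nat.card (centralizer ({x} : Set G))) :
    AD (fun (a : Nt x) (χ : IrrCharacter G) => c a χ θ₀) (fun χ => charDegree (χ : G → ℂ))
      (fun a b : Nt x => RelT hTN a.1 b.1) e B := by
  have hpr := hp.out
  have hd' : ∀ χ : IrrCharacter G, (χ : G → ℂ) 1 = (charDegree (χ : G → ℂ) : ℂ) :=
    fun χ => map_one_eq_charDegree (IsIrrCharacter.isCharacter χ.2)
  have hnt : Fintype.card (Nt x) = p - 1 := by
    have := card_nt' hpr hx
    rw [Nat.card_eq_fintype_card] at this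
    omega
  have hpcast : ((p - 1 : ℕ) : ℂ) = (p : ℂ) - 1 := by
    push_cast [Nat.cast_sub hpr.one_lt.le]
    ring
  refine ⟨fun χ => charDegree_pos_of_irr χ.2, fun a χ hχ => c_zero_off_block hM hx hK hC hind h3 hχ a,
    fun a b => c_gram hx hK θ₀ hT hTN hCT e hcardT (card_centralizer_compK hx hK) _ (fun a χ => h3 χ θ₀ a) a b, ?_,
    fun a => (relT_equiv hTN).refl a.1, fun a b h => (relT_equiv hTN).symm h,
    fun a b d h h' => (relT_equiv hTN).trans h h', ?_, ?_⟩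
  · intro a
    have h10 := c_regular hx hK θ₀ (fun a χ => c a χ θ₀) (fun a χ => h3 χ θ₀ a) a 1 (by simpa using hpr.one_lt.ne')
    simp only [hd'] at h10
    have h20 : ((ip (fun χ => c a χ θ₀) (fun χ => (charDegree (χ : G → ℂ) : ℤ)) : ℤ) : ℂ) = 0 := by
      simp only [ip]
      push_cast
      exact h10
    exact_mod_cast h20
  · intro a
    have h10 := card_orbit_T hx hTN hCT a
    rw [hcardT] at h10
    have h20 := Nat.eq_of_mul_eq_mul_right Nat.card_pos h10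
    rw [h20, Nat.card_eq_fintype_card, Fintype.card_subtype]
  · intro Ω D w hΩ hdeg hw hw0
    have hdvd : p ∣ Nat.card G := by
      rw [← hx]
      exact orderOf_dvd_natCard x
    obtain ⟨m, hm⟩ := hdvd
    have hm0 : 0 < m := by
      rcases Nat.eq_zero_or_pos m with h | h
      · rw [h, mul_zero] at hm
        exact absurd hm Nat.card_pos.ne'
      · exact h
    have hpm : ¬ p ∣ m := by
      intro h
      apply hsyl
      rw [hm, pow_two]
      exact Nat.mul_dvd_mul_left p h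
    obtain ⟨O, hO, hroots⟩ := exists_unram hM hm0 hpm
    have hTr := tr_Nh_eTh hx θ₀ (fun a χ => c a χ θ₀) (fun χ u hu => h1 χ θ₀ u hu)
    have hθ0 : (θ₀ : K → ℂ) 1 ≠ 0 := isIrr_one_ne_zero θ₀.2
    have hS : ∀ y ∈ Ω, (y : G → ℂ) 1 * ∑ a : Nt x, (c a y θ₀ : ℂ) = (D : ℂ) * ∑ a : Nt x, (c a y θ₀ : ℂ) := by
      intro y hy
      rw [hd' y, hdeg y hy]
    have hSum : ∑ y ∈ Ω, ∑ a : Nt x, (c a y θ₀ : ℂ) = ((p - 1 : ℕ) : ℂ) * (w : ℂ) := by
      rw [Finset.sum_comm]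
      have : ∀ a : Nt x, ∑ y ∈ Ω, (c a y θ₀ : ℂ) = (w : ℂ) := by
        intro a
        rw [← hw a]
        push_cast
        rfl
      simp only [this]
      rw [Finset.sum_const, Finset.card_univ, hnt, nsmul_eq_mul]
    have hne : ∑ χ : IrrCharacter G, Cfsg.Agent.Lib.Block.tr (χ : G → ℂ) (blockElt (↑Ω : Set (IrrCharacter G))) *
        Cfsg.Agent.Lib.Block.tr (χ : G → ℂ) ((Nh x p - 1) * eTh θ₀) ≠ 0 := by
      have h11 : ∀ χ : IrrCharacter G, Cfsg.Agent.Lib.Block.tr (χ : G → ℂ) (blockElt (↑Ω : Set (IrrCharacter G))) *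
          Cfsg.Agent.Lib.Block.tr (χ : G → ℂ) ((Nh x p - 1) * eTh θ₀) =
          - (θ₀ : K → ℂ) 1 * (if χ ∈ (↑Ω : Set (IrrCharacter G)) then (χ : G → ℂ) 1 * ∑ a : Nt x, (c a χ θ₀ : ℂ) else 0) := by
        intro χ
        rw [tr_blockElt, hTr]
        by_cases hχ : χ ∈ (↑Ω : Set (IrrCharacter G))
        · rw [if_pos hχ, if_pos hχ]
          ring
        · rw [if_neg hχ, if_neg hχ]
          simp
      simp only [h11]
      rw [← Finset.mul_sum, sum_if_coe, Finset.sum_congr rfl hS, ← Finset.mul_sum, hSum]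
      have hD0 : (D : ℂ) ≠ 0 := by
        obtain ⟨y, hy⟩ : Ω.Nonempty := by
          by_contra hcon
          rw [Finset.not_nonempty_iff_eq_empty] at hcon
          obtain ⟨a₀⟩ : Nonempty (Nt x) := by
            rw [← Fintype.card_pos_iff, hnt]
            have := hpr.two_le
            omega
          have := hw a₀
          rw [hcon, Finset.sum_empty] at this
          exact hw0 this.symm
        rw [← hdeg y hy]
        exact_mod_cast (charDegree_pos_of_irr y.2).ne'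
      have hpm1 : ((p - 1 : ℕ) : ℂ) ≠ 0 := by
        have : p - 1 ≠ 0 := by
          have := hpr.two_le
          omega
        exact_mod_cast this
      have hw0' : (w : ℂ) ≠ 0 := by exact_mod_cast hw0
      exact mul_ne_zero (neg_ne_zero.mpr hθ0) (mul_ne_zero hD0 (mul_ne_zero hpm1 hw0'))
    obtain ⟨r, hr0, hr⟩ := key_theta hM hO hm hroots hx hsyl hK θ₀ hT (↑Ω : Set (IrrCharacter G))
      (rat_omega hM hx hsyl hK hC hB hD hind h1 hm hroots Ω hΩ D hdeg w hw) hne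
    refine ⟨r, fun i hi => hr0 i (by simpa using hi), ?_⟩
    have hsum : ∑ χ : IrrCharacter G, Cfsg.Agent.Lib.Block.tr (χ : G → ℂ) ((Nh x p - 1) * eTh θ₀) * (r χ : ℂ) =
        -((θ₀ : K → ℂ) 1 * ∑ i : IrrCharacter G, (r i : ℂ) * ∑ a : Nt x, (c a i θ₀ : ℂ)) := by
      rw [Finset.mul_sum, ← Finset.sum_neg_distrib]
      refine Finset.sum_congr rfl fun χ _ => ?_
      rw [hTr]
      ring
    rw [hsum] at hr
    have hd0' : (charDegree (θ₀ : K → ℂ) : ℂ) = (θ₀ : K → ℂ) 1 := (map_one_eq_charDegree (IsIrrCharacter.isCharacter θ₀.2)).symm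
    rw [hd0'] at hr
    rcases hr with h | h
    · right
      have h2 : ∑ i : IrrCharacter G, (r i : ℂ) * ∑ a : Nt x, (c a i θ₀ : ℂ) = -((p : ℂ) - 1) := by
        apply mul_left_cancel₀ hθ0
        linear_combination -h
      have h4 : (((∑ i, (r i : ℤ) * ∑ a : Nt x, c a i θ₀ : ℤ)) : ℂ) = ((-(Fintype.card (Nt x) : ℤ) : ℤ) : ℂ) := by
        push_cast
        rw [hnt, hpcast]
        exact h2
      exact_mod_cast h4
    · left
      have h2 : ∑ i : IrrCharacter G, (r i : ℂ) * ∑ a : Nt x, (c a i θ₀ : ℂ) = (p : ℂ) - 1 := by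
        apply mul_left_cancel₀ hθ0
        linear_combination -h
      have h4 : (((∑ i, (r i : ℤ) * ∑ a : Nt x, c a i θ₀ : ℤ)) : ℂ) = (((Fintype.card (Nt x) : ℤ) : ℤ) : ℂ) := by
        push_cast
        rw [hnt, hpcast]
        exact h2
      exact_mod_cast h4


open Classical in
/-- **Blocks of defect one.** -/
theorem block_theta_main (hM : IsPModular p M) (hx : orderOf x = p) (hsyl : ¬ p ^ 2 ∣ Nat.card G) (hK : CompK x p K)
    (hC : ∀ g, g ∈ C ↔ Commute g x) (hT : IsStabT x θ₀ T) (hB : IsPBlock M B)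
    (hD : IsDefectGroup p M B (zpowers x)) (hind : IsInducedBlock M C (Amu (le_C_of_compK hK hC) θ₀) B)
    (e f : ℕ) (hcardT : Nat.card T = e * Nat.card (centralizer ({x} : Set G)))
    (hcardN : Nat.card (normalizer ((zpowers x : Subgroup G) : Set G)) = f * Nat.card (centralizer ({x} : Set G))) :
    e ∣ p - 1 ∧ Nat.card B = e + (p - 1) / e ∧ ∃ X Y : Set (IrrCharacter G), B = X ∪ Y ∧ Disjoint X Y ∧
      Nat.card X = e ∧ Nat.card Y = (p - 1) / e ∧
      (∀ χ ∈ X, (charDegree (χ : G → ℂ) : ℤ) ≡ ((f / e * charDegree (θ₀ : K → ℂ) : ℕ) : ℤ) [ZMOD p] ∨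
        (charDegree (χ : G → ℂ) : ℤ) ≡ -((f / e * charDegree (θ₀ : K → ℂ) : ℕ) : ℤ) [ZMOD p]) ∧
      (∃ ε : ℤ, (ε = 1 ∨ ε = -1) ∧ ∀ ψ ∈ Y, (charDegree (ψ : G → ℂ) : ℤ) ≡ ε * ((f * charDegree (θ₀ : K → ℂ) : ℕ) : ℤ) [ZMOD p]) ∧
      ∀ ψ ∈ Y, ∀ ψ' ∈ Y, ∀ g : G, ¬ p ∣ orderOf g → (ψ : G → ℂ) g = (ψ' : G → ℂ) g := by
  have hpr := hp.out
  have := isPModular_isPrime hM
  have hTN : T ≤ normalizer ((zpowers x : Subgroup G) : Set G) := fun t ht => ((hT t).mp ht).1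
  have hCT : centralizer ({x} : Set G) ≤ T := by
    intro g hg
    rw [hT g]
    have hgc : Commute g x := Subgroup.mem_centralizer_singleton_iff.mp hg
    have hgC := (hC g).mpr hgc
    refine ⟨C_le_N hC hgC, fun k k' hk => ?_⟩
    have h1 := thConj_C hK hC θ₀ g hgC
    have h2 := congrArg (fun ξ : IrrCharacter K => (ξ : K → ℂ) k) h1
    simp only [thConj_apply] at h2
    rw [← h2]
    exact congrArg _ (Subtype.ext hk)
  obtain ⟨c₀, n₀, h1, h2, h3⟩ := exists_cmu (G := G) (K := K) hx hK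
  have hAD := ad_block (c := c₀) (n := n₀) hM hx hsyl hK hC hT hB hD hind h1 h3 hTN hCT e hcardT
  have hnt : Fintype.card (Nt x) = p - 1 := by
    have := card_nt' hpr hx
    rw [Nat.card_eq_fintype_card] at this
    omega
  obtain ⟨a₀⟩ : Nonempty (Nt x) := by
    rw [← Fintype.card_pos_iff, hnt]
    have := hpr.two_le
    omega
  have hepos : 0 < e := by
    rw [← hAD.hcls a₀, Finset.card_pos]
    exact ⟨a₀, by simp [hAD.hrefl a₀]⟩
  set c : Nt x → IrrCharacter G → ℤ := fun a χ => c₀ a χ θ₀ with hc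
  set deg : IrrCharacter G → ℕ := fun χ => charDegree (χ : G → ℂ) with hdeg
  obtain ⟨u, ε, ψ, hε, F, hu0⟩ := A_final_form hAD a₀ hepos
  have hte := A_t_e hAD F
  have hYB := A_YB0 hAD F hu0
  have hXB : ∀ χ, u χ ≠ 0 → χ ∈ B := fun χ hu => A_XB hAD F hu0 a₀ hu
  have hXY : ∀ χ, u χ ≠ 0 → χ ∉ imgA ψ := fun χ hu => A_XY F hu0 hu
  have hunit : ∀ χ, u χ ≠ 0 → u χ = 1 ∨ u χ = -1 := fun χ hu => A_unit hAD F hu0 a₀ hu
  have hcardX := A_card_X hAD F hu0 hε a₀
  -- orbits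
  have hOrb : f = (orbK hK θ₀).card * e := by
    have h4 := card_normalizer_orb hK hT
    rw [hcardN, hcardT, ← mul_assoc] at h4
    exact Nat.eq_of_mul_eq_mul_right Nat.card_pos h4
  have hfe : f / e = (orbK hK θ₀).card := by
    rw [hOrb, Nat.mul_div_cancel _ hepos]
  have hd := fun (χ : IrrCharacter G) (hχ : χ ∈ B) => deg_formula hM hx hK hC hB hD hind h2 h3 hχ
  set t := (imgA ψ).card with ht
  have hdvd : e ∣ p - 1 := by
    rw [← hnt, ← hte]
    exact dvd_mul_left _ _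
  have hdiv : (p - 1) / e = t := by
    rw [← hnt, ← hte, Nat.mul_div_cancel _ hepos]
  have hBeq : B = {χ | u χ ≠ 0} ∪ ↑(imgA ψ) := by
    ext χ
    constructor
    · intro hχ
      by_cases hy : χ ∈ imgA ψ
      · exact Or.inr hy
      · left
        intro h0
        obtain ⟨n', hn'⟩ := hd χ hχ
        have hsum : ∑ a : Nt x, c₀ a χ θ₀ = 0 := by
          have := A_sum_not F hy
          rw [h0, mul_zero] at this
          exact this
        rw [hsum, mul_zero, add_zero] at hn'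
        have hdvdχ : p ∣ charDegree (χ : G → ℂ) := by
          have : (p : ℤ) ∣ (charDegree (χ : G → ℂ) : ℤ) := ⟨n', hn'⟩
          exact_mod_cast this
        have hnd : ¬ p ∣ Nat.card G / charDegree (χ : G → ℂ) := by
          obtain ⟨k, hk⟩ := charDegree_dvd_card χ.2
          have hpos := charDegree_pos_of_irr χ.2
          intro h2'
          apply hsyl
          rw [hk, Nat.mul_div_cancel_left _ hpos] at h2'
          rw [hk, pow_two]
          exact Nat.mul_dvd_mul hdvdχ h2'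
        have hblock := blockOf_eq_singleton_of_not_dvd hM χ hnd
        have h4 : ψ a₀ ∈ blockOf M (χ : G → ℂ) := by
          rw [← blockOf_eq_of_mem hB hχ]
          exact hYB _ (Finset.mem_image.mpr ⟨a₀, Finset.mem_univ _, rfl⟩)
        rw [hblock, Set.mem_singleton_iff] at h4
        apply hy
        rw [← h4]
        exact Finset.mem_image.mpr ⟨a₀, Finset.mem_univ _, rfl⟩
    · rintro (h | h)
      · exact hXB χ h
      · exact hYB χ h
  have hdisj : Disjoint {χ | u χ ≠ 0} (↑(imgA ψ) : Set (IrrCharacter G)) := by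
    rw [Set.disjoint_left]
    intro χ hχ hy
    exact hXY χ hχ hy
  have hcX : Nat.card {χ | u χ ≠ 0} = e := by
    rw [← hcardX]
    exact Nat.subtype_card _ (by simp)
  have hcY : Nat.card (↑(imgA ψ) : Set (IrrCharacter G)) = t := by
    rw [Nat.card_coe_set_eq, Set.ncard_coe_finset]
  refine ⟨hdvd, ?_, {χ | u χ ≠ 0}, ↑(imgA ψ), hBeq, hdisj, hcX, ?_, ?_, ⟨ε, hε, ?_⟩, ?_⟩
  · rw [hBeq, Nat.card_coe_set_eq, Set.ncard_union_eq hdisj, ← Nat.card_coe_set_eq, hcX, ← Nat.card_coe_set_eq, hcY, hdiv]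
  · rw [hcY, hdiv]
  · intro χ hχ
    have hχ0 : u χ ≠ 0 := hχ
    obtain ⟨n', hn'⟩ := hd χ (hXB χ hχ0)
    have hsum : ∑ a : Nt x, c₀ a χ θ₀ = ((p - 1 : ℕ) : ℤ) * u χ := by
      have := A_sum_not F (hXY χ hχ0)
      rw [hnt] at this
      exact this
    rw [hsum] at hn'
    rw [hfe]
    have hp1 : ((p - 1 : ℕ) : ℤ) = (p : ℤ) - 1 := by
      push_cast [Nat.cast_sub hpr.one_lt.le]
      ring
    rw [hp1] at hn'
    rcases hunit χ hχ0 with h | h
    · right
      rw [h] at hn'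
      rw [Int.modEq_iff_dvd]
      refine ⟨-(n' + (((orbK hK θ₀).card * charDegree (θ₀ : K → ℂ) : ℕ) : ℤ)), ?_⟩
      rw [hn']
      ring
    · left
      rw [h] at hn'
      rw [Int.modEq_iff_dvd]
      refine ⟨-(n' - (((orbK hK θ₀).card * charDegree (θ₀ : K → ℂ) : ℕ) : ℤ)), ?_⟩
      rw [hn']
      ring
  · intro y hy
    have hy' : y ∈ imgA ψ := hy
    obtain ⟨n', hn'⟩ := hd y (hYB y hy')
    have hw : ε = (t : ℤ) * 0 + ε := by ring
    have hsum := A_sum_y hAD F (v := 0) (fun a => hu0 a) hw y hy'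
    have hsum' : ∑ a : Nt x, c₀ a y θ₀ = (e : ℤ) * ε := hsum
    rw [hsum'] at hn'
    rw [Int.modEq_iff_dvd]
    refine ⟨-n', ?_⟩
    rw [hn', hOrb]
    push_cast
    ring
  · intro y hy y' hy' g hg
    have hrel : ∀ (a : Nt x), (ε : ℂ) * (ψ a : G → ℂ) g = - ∑ χ, (u χ : ℂ) * (χ : G → ℂ) g := by
      intro a
      have h10 := c_regular hx hK θ₀ c (fun a χ => h3 χ θ₀ a) a g hg
      have h11 : ∀ χ : IrrCharacter G, (c a χ : ℂ) * (χ : G → ℂ) g =
          (u χ : ℂ) * (χ : G → ℂ) g + if χ = ψ a then (ε : ℂ) * (χ : G → ℂ) g else 0 := by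
        intro χ
        rw [F.val]
        by_cases h : χ = ψ a
        · rw [if_pos h, if_pos h]
          push_cast
          ring
        · rw [if_neg h, if_neg h]
          push_cast
          ring
      rw [Finset.sum_congr rfl (fun χ _ => h11 χ), Finset.sum_add_distrib, Finset.sum_ite_eq',
        if_pos (Finset.mem_univ _)] at h10
      linear_combination h10
    have hε0 : (ε : ℂ) ≠ 0 := by exact_mod_cast F.hε
    obtain ⟨a, -, rfl⟩ := Finset.mem_image.mp (show y ∈ imgA ψ from hy)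
    obtain ⟨b, -, rfl⟩ := Finset.mem_image.mp (show y' ∈ imgA ψ from hy')
    apply mul_left_cancel₀ hε0
    rw [hrel a, hrel b]

/-- An irreducible character of `C` lies over a character of `K`. -/
theorem exists_mu_of_xi (hx : orderOf x = p) (hK : CompK x p K) (hC : ∀ g, g ∈ C ↔ Commute g x) (ξ : IrrCharacter C) :
    ∃ μ : IrrCharacter K, ξ ∈ Amu (le_C_of_compK hK hC) μ := by
  classical
  have hKC := le_C_of_compK hK hC
  haveI : Fintype (K.subgroupOf C) := Fintype.ofFinite _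
  haveI hn : (K.subgroupOf C).Normal := subgroupOf_normal hK (C_le_N hC)
  obtain ⟨ν, hν⟩ := exists_constituent (K.subgroupOf C) ξ
  refine ⟨pull (Subgroup.subgroupOfEquivOfLe hKC).symm ν, mem_Amu_of_inner hx hK hC _ ξ ?_⟩
  have h1 : (pull (Subgroup.subgroupOfEquivOfLe hKC) (pull (Subgroup.subgroupOfEquivOfLe hKC).symm ν) :
      IrrCharacter (K.subgroupOf C)) = ν := by
    apply Subtype.ext
    funext n
    simp [pull_coe]
  rw [h1]
  exact hν

/-- A character with an element in its kernel. -/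
theorem irr_mul_of_eq {H : Type*} [Group H] [Finite H] (ξ : IrrCharacter H) (y c : H)
    (hy : (ξ : H → ℂ) y = (ξ : H → ℂ) 1) : (ξ : H → ℂ) (y * c) = (ξ : H → ℂ) c := by
  obtain ⟨ξf, n, ρ, hρ, rfl⟩ := ξ
  have h1 : ρ.character y = (Module.finrank ℂ (Fin n → ℂ) : ℂ) := by
    rw [← Representation.char_one ρ]
    exact hy
  have h2 : ρ y = 1 := (character_eq_finrank_iff ρ y (isOfFinOrder_of_finite y)).mp h1
  show ρ.character (y * c) = ρ.character c
  unfold Representation.character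
  rw [map_mul, h2, one_mul]

/-- **Blocks of defect one** in the form used in the statements. -/
theorem block_main_C (hM : IsPModular p M) (hx : orderOf x = p) (hsyl : ¬ p ^ 2 ∣ Nat.card G)
    (hC : ∀ g, g ∈ C ↔ Commute g x) (hB : IsPBlock M B) (hD : IsDefectGroup p M B (zpowers x))
    (b : Set (IrrCharacter C)) (hind : IsInducedBlock M C b B) (θ : IrrCharacter C) (hθ : θ ∈ b)
    (hθP : ∀ y : C, (y : G) ∈ zpowers x → (θ : C → ℂ) y = (θ : C → ℂ) 1)
    (hT : ∀ g : G, g ∈ T ↔ (g ∈ normalizer ((zpowers x : Subgroup G) : Set G) ∧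
      ∀ c c' : C, (c' : G) = g * c * g⁻¹ → (θ : C → ℂ) c' = (θ : C → ℂ) c))
    (e f : ℕ) (he : C.relIndex T = e) (hf : C.relIndex (normalizer ((zpowers x : Subgroup G) : Set G)) = f) :
    e ∣ p - 1 ∧ Nat.card B = e + (p - 1) / e ∧ ∃ X Y : Set (IrrCharacter G), B = X ∪ Y ∧ Disjoint X Y ∧
      Nat.card X = e ∧ Nat.card Y = (p - 1) / e ∧
      (∀ χ ∈ X, (charDegree (χ : G → ℂ) : ℤ) ≡ ((f / e * charDegree (θ : C → ℂ) : ℕ) : ℤ) [ZMOD p] ∨
        (charDegree (χ : G → ℂ) : ℤ) ≡ -((f / e * charDegree (θ : C → ℂ) : ℕ) : ℤ) [ZMOD p]) ∧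
      (∃ ε : ℤ, (ε = 1 ∨ ε = -1) ∧ ∀ ψ ∈ Y, (charDegree (ψ : G → ℂ) : ℤ) ≡ ε * ((f * charDegree (θ : C → ℂ) : ℕ) : ℤ) [ZMOD p]) ∧
      ∀ ψ ∈ Y, ∀ ψ' ∈ Y, ∀ g : G, ¬ p ∣ orderOf g → (ψ : G → ℂ) g = (ψ' : G → ℂ) g := by
  classical
  have hpr := hp.out
  have := isPModular_isPrime hM
  have hCx : C = centralizer ({x} : Set G) := by
    ext y
    rw [hC, Subgroup.mem_centralizer_singleton_iff]
    rfl
  obtain ⟨K, hK⟩ := exists_compK (G := G) (p := p) hx hsyl
  letI : Fintype K := Fintype.ofFinite _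
  have hKC := le_C_of_compK hK hC
  obtain ⟨θ₀, hθ₀⟩ := exists_mu_of_xi hx hK hC θ
  have hbA : b = Amu hKC θ₀ :=
    (blockOf_eq_of_mem hind.1 hθ).trans (blockOf_eq_of_mem (Amu_isPBlock hx hK hC hM θ₀) hθ₀).symm
  subst hbA
  have hPC : zpowers x ≤ C := by
    rw [Subgroup.zpowers_le]
    exact (hC x).mpr (Commute.refl x)
  have hle : C ≤ normalizer ((zpowers x : Subgroup G) : Set G) := C_le_N hC
  have hker : ∀ (u c : C), (u : G) ∈ zpowers x → (θ : C → ℂ) (u * c) = (θ : C → ℂ) c :=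
    fun u c hu => irr_mul_of_eq θ u c (hθP u hu)
  have hval : ∀ (c : C) (k : K), (c : G) = k → (θ : C → ℂ) c = (θ₀ : K → ℂ) k := by
    intro c k hck
    rw [← hθ₀ k]
    exact congrArg _ (Subtype.ext hck)
  have hstab : IsStabT x θ₀ T := by
    intro y
    rw [hT y]
    refine and_congr_right fun hyN => ?_
    constructor
    · intro h k k' hk
      have h1 := h ⟨k, hKC k.2⟩ ⟨k', hKC k'.2⟩ hk
      rw [← hval ⟨k, hKC k.2⟩ k rfl, ← hval ⟨k', hKC k'.2⟩ k' rfl]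
      exact h1
    · intro h c c' hcc
      obtain ⟨j, k, hk, hjk⟩ := hK.decomp c ((hC c).mp c.2)
      have hu : y * x ^ j * y⁻¹ ∈ zpowers x :=
        (Subgroup.mem_normalizer_iff.mp hyN _).mp (Subgroup.pow_mem _ (mem_zpowers x) j)
      have hkK : y * k * y⁻¹ ∈ K := hK.conj_mem hyN hk
      have h1 : c = ⟨x ^ j, hPC (Subgroup.pow_mem _ (mem_zpowers x) j)⟩ * ⟨k, hKC hk⟩ :=
        Subtype.ext hjk
      have h2 : c' = ⟨y * x ^ j * y⁻¹, hPC hu⟩ * ⟨y * k * y⁻¹, hKC hkK⟩ := by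
        apply Subtype.ext
        rw [hcc, hjk]
        show y * (x ^ j * k) * y⁻¹ = y * x ^ j * y⁻¹ * (y * k * y⁻¹)
        group
      rw [h1, h2, hker _ _ hu, hker _ _ (Subgroup.pow_mem _ (mem_zpowers x) j),
        hval _ ⟨_, hkK⟩ rfl, hval _ ⟨k, hk⟩ rfl]
      exact h ⟨k, hk⟩ ⟨_, hkK⟩ rfl
  have hCT : C ≤ T := by
    intro y hy
    rw [hstab y]
    refine ⟨C_le_N hC hy, fun k k' hk => ?_⟩
    have h1 := thConj_C hK hC θ₀ y hy
    have h2 := congrArg (fun ξ : IrrCharacter K => (ξ : K → ℂ) k) h1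
    simp only [thConj_apply] at h2
    rw [← h2]
    exact congrArg _ (Subtype.ext hk)
  have hcardT : Nat.card T = e * Nat.card (centralizer ({x} : Set G)) := by
    rw [← hCx, ← he, ← Subgroup.relIndex_bot_left, ← Subgroup.relIndex_bot_left,
        mul_comm, Subgroup.relIndex_mul_relIndex _ _ _ bot_le hCT]
  have hcardN : Nat.card (normalizer ((zpowers x : Subgroup G) : Set G)) =
      f * Nat.card (centralizer ({x} : Set G)) := by
    rw [← hCx, ← hf, ← Subgroup.relIndex_bot_left, ← Subgroup.relIndex_bot_left,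
        mul_comm, Subgroup.relIndex_mul_relIndex _ _ _ bot_le hle]
  have hdeg : charDegree (θ : C → ℂ) = charDegree (θ₀ : K → ℂ) := by
    unfold charDegree
    have h1 : (θ : C → ℂ) 1 = (θ₀ : K → ℂ) 1 := hval 1 1 rfl
    rw [h1]
  rw [hdeg]
  exact block_theta_main hM hx hsyl hK hC hstab hB hD hind e f hcardT hcardN

end Cfsg.Agent.Lib.FF
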