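import Cfsg.Agent.Lib.FF.DefOneGroup

/-!
# Invariant subspaces of the right dimension for group algebras over a finite residue field

Wedderburn: a central idempotent of the group algebra over the residue field of an unramified ring, attached to
an irreducible complex character, cuts out a full matrix algebra of the size of the character.
-/

set_option autoImplicit false
set_option linter.unusedSectionVars false
set_option linter.unusedVariables false
set_option maxSynthPendingDepth 3

namespace Cfsg.Agent.Lib.FF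

open Module

universe u

section MatrixSub

variable {k Q : Type*} [Field k] [AddCommGroup Q] [Module k Q]

/-- A nonzero multiplicative linear map from a matrix algebra to endomorphisms gives an invariant subspace
of the size of the matrices. -/
theorem exists_sub_of_matrix {m : ℕ} [NeZero m] (φ : Matrix (Fin m) (Fin m) k →ₗ[k] Module.End k Q)
    (hmul : ∀ A B, φ (A * B) = φ A * φ B) (h1 : φ 1 ≠ 0) :
    ∃ Z : Submodule k Q, (∀ A, ∀ v ∈ Z, φ A v ∈ Z) ∧ (∀ v ∈ Z, φ 1 v = v) ∧ finrank k Z = m := by
  classical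
  let ε : Fin m → Fin m → Matrix (Fin m) (Fin m) k := fun i j => Matrix.single i j 1
  have hεε : ∀ i j l n, ε i j * ε l n = if j = l then ε i n else 0 := by
    intro i j l n
    by_cases h : j = l
    · subst h
      simp [ε, Matrix.single_mul_single_same]
    · simp [ε, h, Matrix.single_mul_single_of_ne]
  have hone : (1 : Matrix (Fin m) (Fin m) k) = ∑ i, ε i i := by
    ext a b
    simp only [ε, Matrix.sum_apply, Matrix.single_apply, Matrix.one_apply]
    by_cases hab : a = b
    · subst hab
      simp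
    · rw [if_neg hab]
      symm
      exact Finset.sum_eq_zero fun i _ => if_neg fun h => hab (h.1.symm.trans h.2)
  have h00 : φ (ε 0 0) ≠ 0 := by
    intro h0
    apply h1
    rw [hone, map_sum]
    refine Finset.sum_eq_zero fun i _ => ?_
    have : ε i i = ε i 0 * (ε 0 0 * ε 0 i) := by
      rw [hεε, if_pos rfl, hεε, if_pos rfl]
    rw [this, hmul, hmul, h0]
    simp
  obtain ⟨w, hw⟩ : ∃ w, φ (ε 0 0) w ≠ 0 := by
    by_contra hcon
    push Not at hcon
    exact h00 (LinearMap.ext hcon)
  set y := φ (ε 0 0) w with hy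
  have hyy : φ (ε 0 0) y = y := by
    have := hmul (ε 0 0) (ε 0 0)
    rw [hεε, if_pos rfl] at this
    have h2 := congrArg (fun f : Module.End k Q => f w) this
    simpa [hy] using h2.symm
  let v : Fin m → Q := fun i => φ (ε i 0) y
  have hv1 : ∀ i, φ 1 (v i) = v i := by
    intro i
    have := hmul 1 (ε i 0)
    rw [one_mul] at this
    have h2 := congrArg (fun f : Module.End k Q => f y) this
    simpa [v] using h2.symm
  have hact : ∀ A i, φ A (v i) = ∑ j, A j i • v j := by
    intro A i
    have h2 : A * ε i 0 = ∑ j, A j i • ε j 0 := by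
      ext a b
      simp only [ε, Matrix.mul_apply, Matrix.single_apply, Matrix.sum_apply, Matrix.smul_apply, smul_eq_mul]
      by_cases hb : b = 0
      · subst hb
        simp
      · have hb' : ¬ (0 : Fin m) = b := fun h => hb h.symm
        simp only [hb', and_false, if_false, mul_zero, Finset.sum_const_zero]
    have h3 := hmul A (ε i 0)
    rw [h2, map_sum] at h3
    have h4 := congrArg (fun f : Module.End k Q => f y) h3
    simp only [LinearMap.sum_apply, map_smul, LinearMap.smul_apply, Module.End.mul_apply] at h4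
    exact h4.symm
  have hli : LinearIndependent k v := by
    rw [Fintype.linearIndependent_iff]
    intro c hc j
    have h2 := congrArg (φ (ε 0 j)) hc
    rw [map_sum, map_zero] at h2
    have h3 : ∀ i, φ (ε 0 j) (c i • v i) = if i = j then c i • y else 0 := by
      intro i
      rw [map_smul]
      have h4 := hmul (ε 0 j) (ε i 0)
      rw [hεε] at h4
      have h5 := congrArg (fun f : Module.End k Q => f y) h4
      simp only [Module.End.mul_apply] at h5
      show c i • φ (ε 0 j) (φ (ε i 0) y) = _
      rw [← h5]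
      by_cases hij : i = j
      · subst hij
        rw [if_pos rfl, if_pos rfl, hyy]
      · rw [if_neg (Ne.symm hij), if_neg hij]
        simp
    simp only [h3] at h2
    rw [Finset.sum_ite_eq' , if_pos (Finset.mem_univ _)] at h2
    exact (smul_eq_zero.mp h2).resolve_right hw
  refine ⟨Submodule.span k (Set.range v), ?_, ?_, ?_⟩
  · intro A u hu
    induction hu using Submodule.span_induction with
    | mem u h =>
      obtain ⟨i, rfl⟩ := h
      rw [hact]
      exact Submodule.sum_mem _ fun j _ => Submodule.smul_mem _ _ (Submodule.subset_span ⟨j, rfl⟩)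
    | zero => simp
    | add a b _ _ h1 h2 =>
      rw [map_add]
      exact Submodule.add_mem _ h1 h2
    | smul c a _ h1 =>
      rw [map_smul]
      exact Submodule.smul_mem _ _ h1
  · intro u hu
    induction hu using Submodule.span_induction with
    | mem u h =>
      obtain ⟨i, rfl⟩ := h
      exact hv1 i
    | zero => simp
    | add a b _ _ h1 h2 => rw [map_add, h1, h2]
    | smul c a _ h1 => rw [map_smul, h1]
  · rw [finrank_span_eq_card hli]
    simp

end MatrixSub

section WA

variable {k : Type*} {S : Type u} [Field k] [Finite k] [Ring S] [Algebra k S] [Module.Finite k S]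
  [IsSemisimpleRing S] [Nontrivial S]

/-- A finite-dimensional semisimple algebra over a finite field whose centre is the field is a full matrix algebra. -/
theorem exists_matrix_of_central
    (hcen : ∀ s : S, (∀ t, s * t = t * s) → ∃ c : k, s = algebraMap k S c) :
    ∃ m : ℕ, NeZero m ∧ Nonempty (S ≃ₐ[k] Matrix (Fin m) (Fin m) k) := by
  classical
  obtain ⟨n, D, d, hD, hA, hF, hd, ⟨f⟩⟩ := IsSemisimpleRing.exists_algEquiv_pi_matrix_divisionRing_finite k (R := S)
  have hnt : ∀ i, Nontrivial (Matrix (Fin (d i)) (Fin (d i)) (D i)) := by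
    intro i
    have := hd i
    infer_instance
  have hn : 0 < n := by
    by_contra h
    have hn0 : n = 0 := by omega
    subst hn0
    have : Subsingleton (Π i, Matrix (Fin (d i)) (Fin (d i)) (D i)) := inferInstance
    have h2 : (1 : S) = 0 := f.injective (Subsingleton.elim _ _)
    exact one_ne_zero h2
  let i₀ : Fin n := ⟨0, hn⟩
  have hcen' : ∀ s : (Π i, Matrix (Fin (d i)) (Fin (d i)) (D i)), (∀ t, s * t = t * s) →
      ∃ c : k, s = algebraMap k _ c := by
    intro s hs
    obtain ⟨c, hc⟩ := hcen (f.symm s) (by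
      intro t
      apply f.injective
      rw [map_mul, map_mul, f.apply_symm_apply]
      exact hs _)
    refine ⟨c, ?_⟩
    have := congrArg f hc
    rw [f.apply_symm_apply, AlgEquiv.commutes] at this
    exact this
  have huniq : ∀ j : Fin n, j = i₀ := by
    intro j
    by_contra hj
    obtain ⟨c, hc⟩ := hcen' (Pi.single i₀ 1) (by
      intro t
      funext l
      by_cases hl : l = i₀
      · subst hl
        simp
      · simp [Pi.single_eq_of_ne hl])
    have h1 := congrFun hc j
    have h2 := congrFun hc i₀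
    rw [Pi.single_eq_of_ne hj] at h1
    rw [Pi.single_eq_same] at h2
    have h3 : algebraMap k (Matrix (Fin (d j)) (Fin (d j)) (D j)) c = 0 := h1.symm
    have hc0 : c = 0 := by
      by_contra hc0
      have := (algebraMap k (Matrix (Fin (d j)) (Fin (d j)) (D j))).injective (a₁ := c) (a₂ := 0)
      exact hc0 (this (by rw [h3, map_zero]))
    rw [hc0] at h2
    have h4 : (1 : Matrix (Fin (d i₀)) (Fin (d i₀)) (D i₀)) = 0 := by
      have h5 : (algebraMap k (Π i, Matrix (Fin (d i)) (Fin (d i)) (D i)) 0) i₀ = 0 := by simp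
      rw [h5] at h2
      exact h2
    exact one_ne_zero h4
  have hd0 := hd i₀
  -- reduce to one factor
  let g₀ : S →ₐ[k] Matrix (Fin (d i₀)) (Fin (d i₀)) (D i₀) :=
    (Pi.evalAlgHom k (fun i => Matrix (Fin (d i)) (Fin (d i)) (D i)) i₀).comp f.toAlgHom
  have hg₀ : Function.Bijective g₀ := by
    constructor
    · intro a b hab
      apply f.injective
      funext j
      rw [huniq j]
      exact hab
    · intro y
      refine ⟨f.symm (fun j => (huniq j).symm ▸ y), ?_⟩
      simp only [g₀, AlgHom.comp_apply]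
      show (f (f.symm _)) i₀ = y
      rw [f.apply_symm_apply]
  let g : S ≃ₐ[k] Matrix (Fin (d i₀)) (Fin (d i₀)) (D i₀) := AlgEquiv.ofBijective g₀ hg₀
  -- the division ring is the field
  have hfinD : Finite (D i₀) := Module.finite_of_finite k
  let hfield : Field (D i₀) := littleWedderburn (D i₀)
  have hsurj : Function.Surjective (algebraMap k (D i₀)) := by
    intro y
    obtain ⟨c, hc⟩ := hcen (g.symm (Matrix.scalar _ y)) (by
      intro t
      apply g.injective
      rw [map_mul, map_mul, g.apply_symm_apply]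
      ext a b
      simp only [Matrix.scalar_apply, Matrix.diagonal_mul, Matrix.mul_diagonal]
      exact mul_comm _ _)
    have h2 := congrArg g hc
    rw [g.apply_symm_apply, AlgEquiv.commutes] at h2
    have h3 := congrFun (congrFun h2 0) 0
    refine ⟨c, ?_⟩
    simpa [Matrix.algebraMap_matrix_apply] using h3.symm
  have hinj : Function.Injective (algebraMap k (D i₀)) := (algebraMap k (D i₀)).injective
  let j : k ≃ₐ[k] D i₀ := AlgEquiv.ofBijective (Algebra.ofId k (D i₀)) ⟨hinj, hsurj⟩
  refine ⟨d i₀, hd0, ⟨g.trans (AlgEquiv.mapMatrix j.symm)⟩⟩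

end WA


section Corner

variable {k R Q : Type*} [Field k] [Finite k] [Ring R] [Algebra k R] [Module.Finite k R] [IsSemisimpleRing R]
  [AddCommGroup Q] [Module k Q]

/-- The left ideal generated by a central idempotent. -/
noncomputable abbrev idW (E : R) : Submodule k R := LinearMap.range (LinearMap.mulRight k E)

/-- Left multiplication on the ideal generated by a central idempotent. -/
noncomputable def lamW (E : R) (hE : E * E = E) : R →ₐ[k] Module.End k (idW (k := k) E) where
  toFun r := (LinearMap.mulLeft k r).restrict (p := idW (k := k) E) (q := idW (k := k) E) (by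
    rintro _ ⟨w, rfl⟩
    exact ⟨r * w, by simp [mul_assoc]⟩)
  map_one' := by
    refine LinearMap.ext fun v => Subtype.ext ?_
    simp
  map_mul' a b := by
    refine LinearMap.ext fun v => Subtype.ext ?_
    simp [mul_assoc]
  map_zero' := by
    refine LinearMap.ext fun v => Subtype.ext ?_
    simp
  map_add' a b := by
    refine LinearMap.ext fun v => Subtype.ext ?_
    simp [add_mul]
  commutes' c := by
    refine LinearMap.ext fun v => Subtype.ext ?_
    simp [Algebra.smul_def]

@[simp] theorem lamW_coe (E : R) (hE : E * E = E) (r : R) (v : idW (k := k) E) :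
    ((lamW E hE r v : idW (k := k) E) : R) = r * v := rfl

/-- **The corner lemma.** A central idempotent of a semisimple algebra over a finite field whose central
elements in the corner are scalars acts with an invariant subspace of dimension the square root of the dimension of the corner. -/
theorem exists_sub_of_corner {E : R} (hE : E * E = E) (hc : ∀ r, E * r = r * E) (hE0 : E ≠ 0)
    (hcen : ∀ z : R, (∀ t, z * t = t * z) → z * E = z → ∃ c : k, z = c • E)
    (ρ' : R →ₐ[k] Module.End k Q) (hne : ρ' E ≠ 0) :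
    ∃ (m : ℕ) (Z : Submodule k Q), m * m = finrank k (idW (k := k) E) ∧ finrank k Z = m ∧
      ∀ r, ∀ v ∈ Z, ρ' r v ∈ Z := by
  classical
  let W := idW (k := k) E
  let Λ : R →ₐ[k] Module.End k W := lamW E hE
  let E' : W := ⟨E, ⟨1, by simp⟩⟩ 
  have hEW : ∀ v : W, (v : R) * E = v := by
    rintro ⟨_, w, rfl⟩
    show w * E * E = w * E
    rw [mul_assoc, hE]
  let S := Λ.range
  have hSemi : IsSemisimpleRing S := RingHom.isSemisimpleRing_of_surjective (Λ.rangeRestrict : R →+* S)
    Λ.rangeRestrict_surjective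
  have hFin : Module.Finite k W := inferInstance
  have hFinS : Module.Finite k S := inferInstance
  have hΛE : Λ E = 1 := by
    refine LinearMap.ext fun v => Subtype.ext ?_
    show E * (v : R) = v
    rw [hc, hEW]
  have hzero : ∀ r, r * E = 0 → Λ r = 0 := by
    intro r hr
    refine LinearMap.ext fun v => Subtype.ext ?_
    obtain ⟨_, w, rfl⟩ := v
    show r * (w * E) = 0
    rw [← hc w, ← mul_assoc, hr, zero_mul]
  have hNT : Nontrivial S := by
    refine ⟨⟨0, 1, fun h => ?_⟩⟩
    have h2 : (1 : Module.End k W) = 0 := (congrArg Subtype.val h).symm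
    have h3 : (1 : Module.End k W) E' = 0 := by rw [h2]; rfl
    exact hE0 (congrArg Subtype.val h3)
  have hcenS : ∀ s : S, (∀ t, s * t = t * s) → ∃ c : k, s = algebraMap k S c := by
    rintro ⟨_, r, rfl⟩ hs
    have hcomm : ∀ t : R, Λ r * Λ t = Λ t * Λ r := by
      intro t
      have := hs ⟨Λ t, t, rfl⟩
      exact congrArg Subtype.val this
    have hz : ∀ t : R, (r * E) * t = t * (r * E) := by
      intro t
      have h1 := congrArg (fun f : Module.End k W => ((f E' : W) : R)) (hcomm t)
      simp only [Module.End.mul_apply, lamW_coe, Λ, E'] at h1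
      calc (r * E) * t = r * (E * t) := by rw [mul_assoc]
        _ = r * (t * E) := by rw [hc]
        _ = t * (r * E) := h1
    obtain ⟨c, hc'⟩ := hcen (r * E) hz (by rw [mul_assoc, hE])
    refine ⟨c, Subtype.ext ?_⟩
    show Λ r = algebraMap k _ c
    have h2 : Λ (r * E) = Λ r := by rw [map_mul, hΛE, mul_one]
    rw [← h2, hc', map_smul, hΛE]
    rfl
  obtain ⟨m, hm, ⟨g⟩⟩ := exists_matrix_of_central (k := k) (S := S) hcenS
  -- the dimension
  have hdim : finrank k S = finrank k W := by
    let ev : S →ₗ[k] W :=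
      { toFun := fun s => (s : Module.End k W) E'
        map_add' := fun a b => rfl
        map_smul' := fun c a => rfl }
    have hbij : Function.Bijective ev := by
      constructor
      · rw [← LinearMap.ker_eq_bot, LinearMap.ker_eq_bot']
        rintro ⟨_, r, rfl⟩ hs
        have h1 : r * E = 0 := congrArg Subtype.val hs
        exact Subtype.ext (hzero r h1)
      · rintro ⟨_, w, rfl⟩
        refine ⟨⟨Λ w, w, rfl⟩, Subtype.ext ?_⟩
        rfl
    exact (LinearEquiv.ofBijective ev hbij).finrank_eq
  have hmm : m * m = finrank k W := by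
    rw [← hdim, g.toLinearEquiv.finrank_eq, Module.finrank_matrix]
    simp
  -- the map
  let Θ : S →ₗ[k] Module.End k Q :=
    { toFun := fun s => ρ' (((s : Module.End k W) E' : W) : R)
      map_add' := fun a b => by
        show ρ' (((a : Module.End k W) E' : R) + ((b : Module.End k W) E' : R)) = _
        rw [map_add]
      map_smul' := fun c a => by
        show ρ' (c • ((a : Module.End k W) E' : R)) = _
        rw [map_smul]
        rfl }
  have hΘmul : ∀ s s' : S, Θ (s * s') = Θ s * Θ s' := by
    rintro ⟨_, r, rfl⟩ ⟨_, r', rfl⟩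
    show ρ' ((Λ r * Λ r') E' : R) = ρ' (Λ r E' : R) * ρ' (Λ r' E' : R)
    rw [← map_mul ρ']
    congr 1
    show r * (r' * E) = (r * E) * (r' * E)
    calc r * (r' * E) = r * (r' * (E * E)) := by rw [hE]
      _ = r * ((r' * E) * E) := by rw [mul_assoc r']
      _ = r * (E * (r' * E)) := by rw [hc (r' * E)]
      _ = _ := by rw [mul_assoc]
  let φ : Matrix (Fin m) (Fin m) k →ₗ[k] Module.End k Q := Θ ∘ₗ g.symm.toLinearEquiv.toLinearMap
  have hφmul : ∀ A B, φ (A * B) = φ A * φ B := by
    intro A B
    show Θ (g.symm (A * B)) = Θ (g.symm A) * Θ (g.symm B)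
    rw [map_mul, hΘmul]
  have hφ1 : φ 1 = ρ' E := by
    show Θ (g.symm 1) = _
    rw [map_one]
    rfl
  obtain ⟨Z, hZ1, hZ2, hZ3⟩ := exists_sub_of_matrix φ hφmul (by rw [hφ1]; exact hne)
  refine ⟨m, Z, hmm, hZ3, ?_⟩
  intro r v hv
  have h1 : ρ' r v = φ (g ⟨Λ r, r, rfl⟩) v := by
    show _ = Θ (g.symm (g ⟨Λ r, r, rfl⟩)) v
    rw [g.symm_apply_apply]
    show ρ' r v = ρ' (r * E) v
    rw [map_mul, Module.End.mul_apply, ← hφ1, hZ2 v hv]
  rw [h1]
  exact hZ1 _ v hv

end Corner

section GroupLift

open Cfsg Cfsg.Agent.Lib.Block Cfsg.Agent.Lib.Char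
open scoped ComplexConjugate

variable {Γ : Type*} [Group Γ] [Fintype Γ] {O : Subring ℂ} {M : Ideal AlgInt} {p : ℕ}

/-- The inclusion of the group ring over `O`. -/
noncomputable abbrev iotaR (Γ : Type*) [Group Γ] (O : Subring ℂ) : MonoidAlgebra O Γ →+* MonoidAlgebra ℂ Γ :=
  MonoidAlgebra.mapRingHom Γ O.subtype

theorem iotaR_coeff (z : MonoidAlgebra O Γ) (g : Γ) : (iotaR Γ O z).coeff g = (z.coeff g : ℂ) := by
  simp [iotaR]

theorem iotaR_inj : Function.Injective (iotaR Γ O) := by
  intro a b h
  apply ext_coeff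
  intro g
  have := congrArg (fun z => MonoidAlgebra.coeff z g) h
  simp only [iotaR_coeff] at this
  exact Subtype.ext this

/-- The element with the same coefficients over `O`. -/
noncomputable def liftO (z : MonoidAlgebra ℂ Γ) (hz : CoefIn O z) : MonoidAlgebra O Γ :=
  ofFun fun g => (⟨z.coeff g, hz g⟩ : O)

theorem coeff_liftO (z : MonoidAlgebra ℂ Γ) (hz : CoefIn O z) (g : Γ) :
    ((liftO z hz).coeff g : ℂ) = z.coeff g := by
  unfold liftO
  rw [coeff_ofFun]

theorem iota_liftO (z : MonoidAlgebra ℂ Γ) (hz : CoefIn O z) : iotaR Γ O (liftO z hz) = z := by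
  apply ext_coeff
  intro g
  rw [iotaR_coeff, coeff_liftO]

variable [IsLocalRing O]

/-- The reduction of the group ring. -/
noncomputable abbrev piR (Γ : Type*) [Group Γ] (O : Subring ℂ) [IsLocalRing O] :
    MonoidAlgebra O Γ →+* MonoidAlgebra (IsLocalRing.ResidueField O) Γ :=
  MonoidAlgebra.mapRingHom Γ (IsLocalRing.residue O)

theorem piR_coeff (z : MonoidAlgebra O Γ) (g : Γ) :
    (piR Γ O z).coeff g = IsLocalRing.residue O (z.coeff g) := by
  simp [piR]

theorem piR_surj : Function.Surjective (piR Γ O) := by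
  intro u
  refine ⟨ofFun fun g => Function.surjInv IsLocalRing.residue_surjective (u.coeff g), ?_⟩
  apply ext_coeff
  intro g
  rw [piR_coeff, coeff_ofFun, Function.surjInv_eq IsLocalRing.residue_surjective]

/-- The reduction data of the group ring. -/
noncomputable def redGroup (hM : IsPModular p M) (hO : UnramRing M p O) :
    RedData p O (IsLocalRing.ResidueField O) (MonoidAlgebra O Γ) (MonoidAlgebra (IsLocalRing.ResidueField O) Γ) where
  σ := IsLocalRing.residue O
  σ_surj := IsLocalRing.residue_surjective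
  σ_ker := residue_zero_iff hM hO
  red := (piR Γ O).toAddMonoidHom
  red_smul r v := by
    apply ext_coeff
    intro g
    show (piR Γ O (r • v)).coeff g = (IsLocalRing.residue O r • piR Γ O v).coeff g
    rw [piR_coeff]
    have h1 : (r • v).coeff g = r * v.coeff g := rfl
    have h2 : (IsLocalRing.residue O r • piR Γ O v).coeff g = IsLocalRing.residue O r * (piR Γ O v).coeff g := rfl
    rw [h1, h2, map_mul, piR_coeff]
  red_surj := piR_surj
  red_ker v := by
    constructor
    · intro h
      have h1 : ∀ g, ∃ s, v.coeff g = (p : O) * s := by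
        intro g
        have h2 : (piR Γ O v).coeff g = 0 := by
          have h3 : piR Γ O v = 0 := h
          rw [h3]
          rfl
        rw [piR_coeff] at h2
        exact (residue_zero_iff hM hO _).mp h2
      choose s hs using h1
      refine ⟨ofFun s, ?_⟩
      apply ext_coeff
      intro g
      have h2 : (((p : O) • ofFun s : MonoidAlgebra O Γ)).coeff g = (p : O) * (ofFun s).coeff g := rfl
      rw [h2, coeff_ofFun, hs]
    · rintro ⟨w, rfl⟩
      apply ext_coeff
      intro g
      show (piR Γ O ((p : O) • w)).coeff g = 0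
      rw [piR_coeff]
      have h1 : ((p : O) • w).coeff g = (p : O) * w.coeff g := rfl
      rw [h1, (residue_zero_iff hM hO _).mpr ⟨_, rfl⟩]

theorem trace_eq_sum_coeff_O [Module.Free O (MonoidAlgebra O Γ)] [Module.Finite O (MonoidAlgebra O Γ)]
    (T : Module.End O (MonoidAlgebra O Γ)) :
    LinearMap.trace O _ T = ∑ g, (T (MonoidAlgebra.single g 1)).coeff g := by
  classical
  rw [LinearMap.trace_eq_matrix_trace O (MonoidAlgebra.basis Γ O), Matrix.trace]
  refine Finset.sum_congr rfl fun g _ => ?_
  simp only [Matrix.diag, LinearMap.toMatrix_apply, MonoidAlgebra.basis_apply]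
  rfl

/-- The invariant subspace attached to an irreducible character. -/
theorem exists_sub_of_eta [hp : Fact p.Prime] (hM : IsPModular p M) (hO : UnramRing M p O)
    (hΓ : ¬ p ∣ Nat.card Γ) {Q : Type*} [AddCommGroup Q] [Module (IsLocalRing.ResidueField O) Q]
    (η : IrrCharacter Γ) (hη : CoefIn O (blockElt ({η} : Set (IrrCharacter Γ))))
    (ρ' : MonoidAlgebra (IsLocalRing.ResidueField O) Γ →ₐ[IsLocalRing.ResidueField O] Module.End (IsLocalRing.ResidueField O) Q)
    (hne : ρ' (piR Γ O (liftO _ hη)) ≠ 0) :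
    ∃ Z : Submodule (IsLocalRing.ResidueField O) Q, finrank (IsLocalRing.ResidueField O) Z = charDegree (η : Γ → ℂ) ∧
      ∀ r, ∀ v ∈ Z, ρ' r v ∈ Z := by
  classical
  have := isPModular_isPrime hM
  have hDVR := hO.isDVR hM
  let k := IsLocalRing.ResidueField O
  have hkfin : Finite k := residue_finite hM hO
  let d : RedData p O k (MonoidAlgebra O Γ) (MonoidAlgebra k Γ) := redGroup hM hO
  set E : MonoidAlgebra ℂ Γ := blockElt ({η} : Set (IrrCharacter Γ)) with hE
  set Eh : MonoidAlgebra O Γ := liftO E hη with hEh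
  set Eb : MonoidAlgebra k Γ := piR Γ O Eh with hEb
  have hιE : iotaR Γ O Eh = E := iota_liftO E hη
  have hEhE : Eh * Eh = Eh := by
    apply iotaR_inj
    rw [map_mul, hιE, hE, blockElt_mul_self]
  have hEhc : ∀ w, Eh * w = w * Eh := by
    intro w
    apply iotaR_inj
    rw [map_mul, map_mul, hιE]
    exact isCentralElt_commute (isCentralElt_blockElt _) _
  have hEbE : Eb * Eb = Eb := by
    rw [hEb, ← map_mul, hEhE]
  have hEbc : ∀ r, Eb * r = r * Eb := by
    intro r
    obtain ⟨w, rfl⟩ := piR_surj r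
    rw [hEb, ← map_mul, ← map_mul, hEhc]
  -- the degree
  obtain ⟨D, hD⟩ : ∃ D : ℕ, (η : Γ → ℂ) 1 = D ∧ D ≠ 0 ∧ D ∣ Nat.card Γ := IsIrrCharacter_degree_dvd η.2
  have hcd : charDegree (η : Γ → ℂ) = D := charDegree_natCast hD.1
  have hcard0 : (Nat.card Γ : ℂ) ≠ 0 := by exact_mod_cast Nat.card_pos.ne'
  have hD0 : (D : ℂ) ≠ 0 := by exact_mod_cast hD.2.1
  have hE1 : E.coeff 1 = (Nat.card Γ : ℂ)⁻¹ * ((D : ℂ) * D) := by
    rw [hE, coeff_blockElt, blockCoeff_eq_sum, Finset.sum_eq_single η]
    · rw [if_pos (Set.mem_singleton η), hD.1, Complex.conj_natCast]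
    · intro b _ hb
      rw [if_neg (by simpa using hb)]
    · intro h
      exact absurd (Finset.mem_univ _) h
  -- the rank
  have hFreeL : Module.Free O (MonoidAlgebra O Γ) := Module.Free.of_basis (MonoidAlgebra.basis Γ O)
  have hFinL : Module.Finite O (MonoidAlgebra O Γ) := Module.Finite.of_basis (MonoidAlgebra.basis Γ O)
  let T : Module.End O (MonoidAlgebra O Γ) := LinearMap.mulRight O Eh
  have hTT : IsIdempotentElem T := by
    show T * T = T
    refine LinearMap.ext fun v => ?_
    show v * Eh * Eh = v * Eh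
    rw [mul_assoc, hEhE]
  let S := LinearMap.range T
  have hproj := LinearMap.IsIdempotentElem.isProj_range T hTT
  have hfreeS : Module.Free O S := Module.free_of_finite_type_torsion_free'
  have hfreeK : Module.Free O (LinearMap.ker T) := Module.free_of_finite_type_torsion_free'
  have htrace := hproj.trace
  have hrank : finrank O S = D * D := by
    have h1 : ((LinearMap.trace O _ T : O) : ℂ) = (D : ℂ) * D := by
      rw [trace_eq_sum_coeff_O]
      have h2 : ∀ g : Γ, (T (MonoidAlgebra.single g 1)).coeff g = Eh.coeff 1 := by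
        intro g
        show (MonoidAlgebra.single g 1 * Eh).coeff g = _
        rw [MonoidAlgebra.coeff_single_mul_apply, one_mul, inv_mul_cancel]
      simp only [h2]
      rw [Finset.sum_const, Finset.card_univ, nsmul_eq_mul]
      push_cast
      rw [coeff_liftO, hE1, ← Nat.card_eq_fintype_card, ← mul_assoc, mul_inv_cancel₀ hcard0, one_mul]
    rw [htrace] at h1
    have h2 : ((finrank O S : ℕ) : ℂ) = ((D * D : ℕ) : ℂ) := by
      push_cast
      simpa using h1
    exact_mod_cast h2
  have hpO : (p : O) ≠ 0 := UnramRing.natCast_ne_zero hM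
  have htf : ∀ v : MonoidAlgebra O Γ, (p : O) • v = 0 → v = 0 := fun v h =>
    (smul_eq_zero.mp h).resolve_left hpO
  have hpure : ∀ v, (p : O) • v ∈ S → v ∈ S := by
    intro v hv
    have h1 : T ((p : O) • v) = (p : O) • v := by
      have := (LinearMap.IsProj.map_id hproj _ hv)
      exact this
    refine ⟨v, ?_⟩
    rw [map_smul] at h1
    have h2 : (p : O) • (T v - v) = 0 := by rw [smul_sub, h1, sub_self]
    exact sub_eq_zero.mp (htf _ h2)
  have hfinrank : finrank k (idW (k := k) Eb) = D * D := by
    have h1 : idW (k := k) Eb = d.imS S := by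
      ext u
      constructor
      · rintro ⟨r, rfl⟩
        obtain ⟨w, rfl⟩ := piR_surj r
        refine ⟨T w, ⟨w, rfl⟩, ?_⟩
        show piR Γ O (w * Eh) = piR Γ O w * Eb
        rw [map_mul]
      · rintro ⟨_, ⟨w, rfl⟩, rfl⟩
        refine ⟨piR Γ O w, ?_⟩
        show piR Γ O w * Eb = piR Γ O (w * Eh)
        rw [map_mul]
    rw [h1, finrank_imS d S htf hpure, hrank]
  have hEb0 : Eb ≠ 0 := by
    intro h0
    have h1 : idW (k := k) Eb = ⊥ := by
      rw [h0]
      ext u
      simp [eq_comm]
    rw [h1, finrank_bot] at hfinrank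
    have := hD.2.1
    exact this (by nlinarith)
  -- the centre
  have hpD : ¬ p ∣ D := fun h => hΓ (h.trans hD.2.2)
  have hcen : ∀ z : MonoidAlgebra k Γ, (∀ t, z * t = t * z) → z * Eb = z → ∃ c : k, z = c • Eb := by
    intro z hz hzE
    have hzc : IsCentralElt z := by
      rw [isCentralElt_iff_commute_single]
      intro x
      exact (hz _).symm
    let zh : MonoidAlgebra O Γ := ofFun fun g => Function.surjInv IsLocalRing.residue_surjective (z.coeff g)
    have hzh : piR Γ O zh = z := by
      apply ext_coeff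
      intro g
      rw [piR_coeff, coeff_ofFun, Function.surjInv_eq IsLocalRing.residue_surjective]
    have hzc' : IsCentralElt (iotaR Γ O zh) := by
      intro x g
      rw [iotaR_coeff, iotaR_coeff, coeff_ofFun, coeff_ofFun, hzc x g]
    set ω := om (η : Γ → ℂ) (iotaR Γ O zh) with hω
    have h1 : iotaR Γ O zh * E = ω • E := by
      apply central_ext_om (isCentralElt_mul hzc' (isCentralElt_blockElt _))
        (isCentralElt_smul _ (isCentralElt_blockElt _))
      intro ψ
      rw [om_mul ψ.2 hzc', om_smul]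
      by_cases hψ : ψ = η
      · subst hψ
        rw [om_blockElt_of_mem (Set.mem_singleton _)]
      · rw [om_blockElt_of_notMem (by simpa using hψ)]
        simp
    have hdinv : ((D : ℂ))⁻¹ ∈ O := hO.inv_mem _ (natCast_mem _ _) (not_memLocalIdeal_natCast hM hpD)
    have hωO : ω ∈ O := by
      have h2 := congrArg (fun y => MonoidAlgebra.coeff y 1) h1
      have h3 : (iotaR Γ O zh * E).coeff 1 = ((zh * Eh).coeff 1 : ℂ) := by
        rw [← hιE, ← map_mul, iotaR_coeff]
      rw [h3] at h2
      have h4 : (ω • E).coeff 1 = ω * E.coeff 1 := rfl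
      rw [h4, hE1] at h2
      have h5 : ω = ((zh * Eh).coeff 1 : ℂ) * ((Nat.card Γ : ℂ) * ((D : ℂ)⁻¹ * (D : ℂ)⁻¹)) := by
        rw [h2]
        field_simp
      rw [h5]
      exact O.mul_mem (Subtype.coe_prop _) (O.mul_mem (natCast_mem _ _) (O.mul_mem hdinv hdinv))
    let ωh : O := ⟨ω, hωO⟩
    have h2 : zh * Eh = ωh • Eh := by
      apply iotaR_inj
      rw [map_mul, hιE, h1]
      apply ext_coeff
      intro g
      rw [iotaR_coeff]
      have h3 : (ωh • Eh).coeff g = ωh * Eh.coeff g := rfl
      rw [h3]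
      push_cast
      rw [coeff_liftO]
      rfl
    refine ⟨IsLocalRing.residue O ωh, ?_⟩
    have h3 := congrArg (piR Γ O) h2
    rw [map_mul, hzh, hzE] at h3
    rw [h3]
    exact d.red_smul _ _
  have hnz : NeZero ((Nat.card Γ : ℕ) : k) := ⟨by
    have h1 := natCast_ne_of_coprime d (n := Nat.card Γ) ((Nat.Prime.coprime_iff_not_dvd hp.out).mpr hΓ).symm
    simpa using h1⟩
  obtain ⟨m, Z, hm, hZ, hst⟩ := exists_sub_of_corner (k := k) hEbE hEbc hEb0 hcen ρ' hne
  refine ⟨Z, ?_, hst⟩
  rw [hZ, hcd]
  rw [hfinrank] at hm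
  exact Nat.mul_self_inj.mp hm

/-- The invariant subspace attached to a central idempotent whose constituents have a common degree. -/
theorem exists_sub_of_central [hp : Fact p.Prime] (hM : IsPModular p M) (hO : UnramRing M p O)
    (hΓ : ¬ p ∣ Nat.card Γ) {Q : Type*} [AddCommGroup Q] [Module (IsLocalRing.ResidueField O) Q]
    (z : MonoidAlgebra ℂ Γ) (hzc : IsCentralElt z) (hzz : z * z = z) (hzO : CoefIn O z)
    (hval : ∀ η : IrrCharacter Γ, CoefIn O (blockElt ({η} : Set (IrrCharacter Γ))))
    (δ : ℕ) (hδ : ∀ η : IrrCharacter Γ, om (η : Γ → ℂ) z ≠ 0 → charDegree (η : Γ → ℂ) = δ)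
    (ρ' : MonoidAlgebra (IsLocalRing.ResidueField O) Γ →ₐ[IsLocalRing.ResidueField O] Module.End (IsLocalRing.ResidueField O) Q)
    (hne : ρ' (piR Γ O (liftO z hzO)) ≠ 0) :
    ∃ Z : Submodule (IsLocalRing.ResidueField O) Q, finrank (IsLocalRing.ResidueField O) Z = δ ∧
      ∀ r, ∀ v ∈ Z, ρ' r v ∈ Z := by
  classical
  let S : Finset (IrrCharacter Γ) := Finset.univ.filter fun η => om (η : Γ → ℂ) z ≠ 0
  have hom01 : ∀ ψ : IrrCharacter Γ, om (ψ : Γ → ℂ) z ≠ 0 → om (ψ : Γ → ℂ) z = 1 := by
    intro ψ hψ
    have h1 := om_mul ψ.2 hzc z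
    rw [hzz] at h1
    have h2 : om (ψ : Γ → ℂ) z * (om (ψ : Γ → ℂ) z - 1) = 0 := by linear_combination -h1
    rcases mul_eq_zero.mp h2 with h3 | h3
    · exact absurd h3 hψ
    · linear_combination h3
  have hsum : z = ∑ η ∈ S, blockElt ({η} : Set (IrrCharacter Γ)) := by
    apply central_ext_om hzc (isCentralElt_sum _ _ fun η _ => isCentralElt_blockElt _)
    intro ψ
    rw [om_sum]
    by_cases hψ : om (ψ : Γ → ℂ) z = 0
    · rw [hψ]
      symm
      refine Finset.sum_eq_zero fun η hη => om_blockElt_of_notMem ?_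
      intro h
      rw [Set.mem_singleton_iff] at h
      subst h
      exact (Finset.mem_filter.mp hη).2 hψ
    · rw [hom01 ψ hψ, Finset.sum_eq_single ψ]
      · rw [om_blockElt_of_mem (Set.mem_singleton _)]
      · intro η _ hη
        exact om_blockElt_of_notMem (by simpa using Ne.symm hη)
      · intro h
        exact absurd (Finset.mem_filter.mpr ⟨Finset.mem_univ ψ, hψ⟩ : ψ ∈ S) h
  have hlift : liftO z hzO = ∑ η ∈ S, liftO (blockElt ({η} : Set (IrrCharacter Γ))) (hval η) := by
    apply iotaR_inj
    rw [iota_liftO, map_sum]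
    simp only [iota_liftO]
    exact hsum
  rw [hlift, map_sum, map_sum] at hne
  obtain ⟨η, hη, hne'⟩ := Finset.exists_ne_zero_of_sum_ne_zero hne
  obtain ⟨Z, hZ, hst⟩ := exists_sub_of_eta hM hO hΓ η (hval η) ρ' hne'
  exact ⟨Z, by rw [hZ, hδ η (Finset.mem_filter.mp hη).2], hst⟩

/-- The invariant subspace between two invariant subspaces. -/
theorem exists_stable_Z [hp : Fact p.Prime] (hM : IsPModular p M) (hO : UnramRing M p O)
    (hΓ : ¬ p ∣ Nat.card Γ) {V : Type*} [AddCommGroup V] [Module (IsLocalRing.ResidueField O) V]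
    [FiniteDimensional (IsLocalRing.ResidueField O) V]
    (z : MonoidAlgebra ℂ Γ) (hzc : IsCentralElt z) (hzz : z * z = z) (hzO : CoefIn O z)
    (hval : ∀ η : IrrCharacter Γ, CoefIn O (blockElt ({η} : Set (IrrCharacter Γ))))
    (δ : ℕ) (hδ : ∀ η : IrrCharacter Γ, om (η : Γ → ℂ) z ≠ 0 → charDegree (η : Γ → ℂ) = δ)
    (ρV : Γ →* Module.End (IsLocalRing.ResidueField O) V)
    (hzV : ∑ g, IsLocalRing.residue O ⟨z.coeff g, hzO g⟩ • ρV g = 1)
    (A T₀ : Submodule (IsLocalRing.ResidueField O) V) (hTA : T₀ ≤ A) (hlt : ∃ v ∈ A, v ∉ T₀)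
    (hA : ∀ γ, ∀ v ∈ A, ρV γ v ∈ A) (hT : ∀ γ, ∀ v ∈ T₀, ρV γ v ∈ T₀) :
    ∃ Z : Submodule (IsLocalRing.ResidueField O) V, T₀ ≤ Z ∧ Z ≤ A ∧ (∀ γ, ∀ v ∈ Z, ρV γ v ∈ Z) ∧
      finrank (IsLocalRing.ResidueField O) Z = finrank (IsLocalRing.ResidueField O) T₀ + δ := by
  classical
  let k := IsLocalRing.ResidueField O
  let T' : Submodule k A := T₀.comap A.subtype
  let Q := A ⧸ T'
  let res : Γ → Module.End k A := fun γ => (ρV γ).restrict (hA γ)
  have hres : ∀ γ, T' ≤ T'.comap (res γ) := by
    intro γ a ha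
    exact hT γ _ ha
  let ρQf : Γ → Module.End k Q := fun γ => T'.mapQ T' (res γ) (hres γ)
  have hρQ_mk : ∀ γ (a : A), ρQf γ (T'.mkQ a) = T'.mkQ (res γ a) := fun γ a => rfl
  let ρQ : Γ →* Module.End k Q :=
    { toFun := ρQf
      map_one' := by
        refine LinearMap.ext fun q => ?_
        obtain ⟨a, rfl⟩ := T'.mkQ_surjective q
        rw [hρQ_mk]
        have h1 : res 1 a = a := by
          apply Subtype.ext
          show ρV 1 (a : V) = a
          rw [map_one]
          rfl
        rw [h1]
        rfl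
      map_mul' := by
        intro γ γ'
        refine LinearMap.ext fun q => ?_
        obtain ⟨a, rfl⟩ := T'.mkQ_surjective q
        show ρQf (γ * γ') (T'.mkQ a) = ρQf γ (ρQf γ' (T'.mkQ a))
        rw [hρQ_mk, hρQ_mk, hρQ_mk]
        have h1 : res (γ * γ') a = res γ (res γ' a) := by
          apply Subtype.ext
          show ρV (γ * γ') (a : V) = ρV γ (ρV γ' (a : V))
          rw [map_mul]
          rfl
        rw [h1] }
  let ρ' : MonoidAlgebra k Γ →ₐ[k] Module.End k Q := MonoidAlgebra.lift k (Module.End k Q) Γ ρQ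
  have hρ'g : ∀ γ, ρ' (MonoidAlgebra.single γ 1) = ρQ γ := by
    intro γ
    simp [ρ']
  obtain ⟨v₀, hv₀A, hv₀T⟩ := hlt
  have hne₀ : T'.mkQ ⟨v₀, hv₀A⟩ ≠ 0 := by
    intro h
    rw [Submodule.mkQ_apply, Submodule.Quotient.mk_eq_zero] at h
    exact hv₀T h
  have hρz : ρ' (piR Γ O (liftO z hzO)) = 1 := by
    refine LinearMap.ext fun q => ?_
    obtain ⟨a, rfl⟩ := T'.mkQ_surjective q
    have h1 : piR Γ O (liftO z hzO) = ∑ g, IsLocalRing.residue O ⟨z.coeff g, hzO g⟩ • MonoidAlgebra.single g (1 : k) := by
      apply ext_coeff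
      intro g
      rw [piR_coeff, MonoidAlgebra.coeff_sum, Finset.sum_apply']
      rw [Finset.sum_eq_single g]
      · have h2 : (IsLocalRing.residue O ⟨z.coeff g, hzO g⟩ • MonoidAlgebra.single g (1 : k)).coeff g =
            IsLocalRing.residue O ⟨z.coeff g, hzO g⟩ * (MonoidAlgebra.single g (1 : k)).coeff g := rfl
        rw [h2, MonoidAlgebra.coeff_single, Finsupp.single_eq_same, mul_one]
        congr 1
        apply Subtype.ext
        exact coeff_liftO z hzO g
      · intro h _ hh
        have h2 : (IsLocalRing.residue O ⟨z.coeff h, hzO h⟩ • MonoidAlgebra.single h (1 : k)).coeff g =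
            IsLocalRing.residue O ⟨z.coeff h, hzO h⟩ * (MonoidAlgebra.single h (1 : k)).coeff g := rfl
        rw [h2, MonoidAlgebra.coeff_single, Finsupp.single_eq_of_ne (Ne.symm hh), mul_zero]
      · intro h
        exact absurd (Finset.mem_univ _) h
    rw [h1, map_sum, LinearMap.sum_apply]
    simp only [map_smul, LinearMap.smul_apply, hρ'g]
    have h3 : ∀ g, ρQ g (T'.mkQ a) = T'.mkQ (res g a) := fun g => rfl
    simp only [h3]
    simp only [← map_smul]
    rw [← map_sum]
    show T'.mkQ _ = T'.mkQ a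
    have h5 : (∑ g, res g (IsLocalRing.residue O ⟨z.coeff g, hzO g⟩ • a)) = a := by
      apply Subtype.ext
      have h4 := congrArg (fun f : Module.End k V => f (a : V)) hzV
      simp only [LinearMap.sum_apply, LinearMap.smul_apply, Module.End.one_apply] at h4
      rw [← h4]
      simp [res]
    rw [h5]
  have hne : ρ' (piR Γ O (liftO z hzO)) ≠ 0 := by
    rw [hρz]
    intro h
    apply hne₀
    have := congrArg (fun f : Module.End k Q => f (T'.mkQ ⟨v₀, hv₀A⟩)) h
    exact this
  obtain ⟨ZQ, hZQ, hst⟩ := exists_sub_of_central hM hO hΓ (Q := Q) z hzc hzz hzO hval δ hδ ρ' hne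
  let C : Submodule k A := ZQ.comap T'.mkQ
  have hT'C : T' ≤ C := by
    intro a ha
    show T'.mkQ a ∈ ZQ
    rw [Submodule.mkQ_apply, (Submodule.Quotient.mk_eq_zero T').mpr ha]
    exact ZQ.zero_mem
  have hfinC : finrank k C = finrank k ZQ + finrank k T' := by
    have h1 := LinearMap.finrank_range_add_finrank_ker (T'.mkQ.domRestrict C)
    rw [LinearMap.range_domRestrict, LinearMap.ker_domRestrict, Submodule.ker_mkQ,
      Submodule.map_comap_eq_of_surjective T'.mkQ_surjective] at h1
    have h2 : finrank k (T'.comap C.subtype) = finrank k T' :=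
      LinearEquiv.finrank_eq (Submodule.comapSubtypeEquivOfLe hT'C)
    rw [h2] at h1
    exact h1.symm
  have hfinT : finrank k T' = finrank k T₀ :=
    LinearEquiv.finrank_eq (Submodule.comapSubtypeEquivOfLe hTA)
  refine ⟨C.map A.subtype, ?_, ?_, ?_, ?_⟩
  · intro t ht
    exact ⟨⟨t, hTA ht⟩, hT'C ht, rfl⟩
  · exact Submodule.map_subtype_le _ _
  · rintro γ _ ⟨a, ha, rfl⟩
    refine ⟨res γ a, ?_, rfl⟩
    show T'.mkQ (res γ a) ∈ ZQ
    have h1 := hst (MonoidAlgebra.single γ 1) _ ha
    rw [hρ'g] at h1
    exact h1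
  · rw [Submodule.finrank_map_subtype_eq, hfinC, hZQ, hfinT, add_comm]

end GroupLift

end Cfsg.Agent.Lib.FF
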