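import Cfsg.Agent.Lib.FF.CycMain

/-!
# Principal blocks with a Sylow subgroup of prime order: the projective combinations
-/

set_option autoImplicit false
set_option linter.unusedSectionVars false
set_option linter.unusedVariables false
set_option maxSynthPendingDepth 3
set_option linter.style.haveILetI false
set_option linter.unusedSimpArgs false
set_option linter.unnecessarySimpa false

open scoped ComplexConjugate
open Module Cfsg Cfsg.Agent.Lib.Block Cfsg.Agent.Lib.Char Cfsg.Agent.Lib.CharExtra Cfsg.Agent.Lib.BPair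

namespace Cfsg.Agent.Lib.FF

attribute [local instance] Cfsg.Agent.Lib.BPair.subFintype

section PD

variable {X : Type*} [Group X] [Fintype X] {p : ℕ} [hp : Fact p.Prime] {M : Ideal AlgInt}

/-- The data of the principal block in the case of a Sylow subgroup of prime order. -/
structure PD (p : ℕ) [Fact p.Prime] (M : Ideal AlgInt) (XS YS : Finset (IrrCharacter X)) (δ : IrrCharacter X → ℤ) (δ₀ : ℤ) : Prop where
  hM : IsPModular p M
  hB : ∀ χ, χ ∈ principalBlock M X ↔ χ ∈ XS ∨ χ ∈ YS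
  hdis : Disjoint XS YS
  hpos : 0 < XS.card
  hmul : XS.card * YS.card = p - 1
  hrank : blockRank p (principalBlock M X) = XS.card
  hδ : ∀ χ ∈ XS, δ χ = 1 ∨ δ χ = -1
  hδ₀ : δ₀ = 1 ∨ δ₀ = -1
  hrel : ∀ ψ ∈ YS, ∀ g : X, ¬ p ∣ orderOf g → (δ₀ : ℂ) * (ψ : X → ℂ) g + ∑ χ ∈ XS, (δ χ : ℂ) * (χ : X → ℂ) g = 0

open Classical in
theorem exists_pd (hM : IsPModular p M) (hX : (Nat.card X).factorization p = 1) :
    ∃ (XS YS : Finset (IrrCharacter X)) (δ : IrrCharacter X → ℤ) (δ₀ : ℤ), PD p M XS YS δ δ₀ := by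
  have := isPModular_isPrime hM
  obtain ⟨P⟩ : Nonempty (Sylow p X) := inferInstance
  have hP : Nat.card P = p ^ (0 + 1) := by
    rw [Sylow.card_eq_multiplicity, hX]
  have hB : IsPBlock M (principalBlock M X) := isPBlock_principalBlock
  have hcyc : IsCyclic (P : Subgroup X) := by
    haveI : Fact (Nat.Prime (Nat.card (P : Subgroup X))) := ⟨by
      have : Nat.card (P : Subgroup X) = p := by simpa using hP
      rw [this]
      exact hp.out⟩
    exact isCyclic_of_prime_card rfl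
  have hBD : IsDefectGroup p M (principalBlock M X) (P : Subgroup X) := (isDefectGroup_principalBlock_iff hM _).2 ⟨P, rfl⟩
  obtain ⟨c, hc⟩ := exists_pair_on_defect hM hBD hB
  obtain ⟨T, hT⟩ := exists_pairT (isBrauerPairOf_iff.1 hc).1.2
  obtain ⟨h1, h2, h3, A, Y, hAY, hdis, hA, hY, h6, δ, δ₀, hδ, hδ₀, hrel, h7, h8⟩ :=
    cyc_main hM hB hcyc hP hBD (isInducedBlock_of_pair hM hc) hT rfl
  have hAf : A.Finite := Set.toFinite _
  have hYf : Y.Finite := Set.toFinite _
  refine ⟨hAf.toFinset, hYf.toFinset, δ, δ₀, ⟨hM, ?_, ?_, ?_, ?_, ?_, ?_, hδ₀, ?_⟩⟩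
  · intro χ
    rw [hAY]
    simp
  · rw [Finset.disjoint_left]
    intro a ha hb
    simp only [Set.Finite.mem_toFinset] at ha hb
    exact Set.disjoint_left.1 hdis ha hb
  · have h9 : hAf.toFinset.card = (Cen (P : Subgroup X)).relIndex T := by
      rw [← hA, Nat.card_eq_card_finite_toFinset hAf]
    rw [h9]
    exact Nat.pos_of_ne_zero (by
      intro h0
      have : p - 1 = 0 := by
        obtain ⟨k, hk⟩ := h1
        rw [hk, h0, zero_mul]
      have := hp.out.two_le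
      omega)
  · have h9 : hAf.toFinset.card = (Cen (P : Subgroup X)).relIndex T := by
      rw [← hA, Nat.card_eq_card_finite_toFinset hAf]
    have h10 : hYf.toFinset.card = (p ^ (0 + 1) - 1) / (Cen (P : Subgroup X)).relIndex T := by
      rw [← hY, Nat.card_eq_card_finite_toFinset hYf]
    rw [h9, h10, zero_add, pow_one]
    exact Nat.mul_div_cancel' h1
  · have h9 : hAf.toFinset.card = (Cen (P : Subgroup X)).relIndex T := by
      rw [← hA, Nat.card_eq_card_finite_toFinset hAf]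
    rw [h9]
    exact h2 |> fun _ => h3
  · intro χ hχ
    exact hδ χ (by simpa using hχ)
  · intro ψ hψ g hg
    have h9 := hrel ψ (by simpa using hψ) g hg
    have h10 : ∑ᶠ χ ∈ A, (δ χ : ℂ) * (χ : X → ℂ) g = ∑ χ ∈ hAf.toFinset, (δ χ : ℂ) * (χ : X → ℂ) g := by
      conv_lhs => rw [show A = ↑hAf.toFinset from (Set.Finite.coe_toFinset hAf).symm]
      rw [finsum_mem_coe_finset]
    rw [← h10]
    exact h9

namespace PD

variable {XS YS : Finset (IrrCharacter X)} {δ : IrrCharacter X → ℤ} {δ₀ : ℤ}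

theorem del_sq (D : PD p M XS YS δ δ₀) {χ : IrrCharacter X} (h : χ ∈ XS) : (δ χ : ℂ) * (δ χ : ℂ) = 1 := by
  rcases D.hδ χ h with h | h <;> rw [h] <;> simp

theorem del0_sq (D : PD p M XS YS δ δ₀) : (δ₀ : ℂ) * (δ₀ : ℂ) = 1 := by
  rcases D.hδ₀ with h | h <;> rw [h] <;> simp

open Classical in
theorem indep (D : PD p M XS YS δ δ₀) (a : IrrCharacter X → ℂ)
    (h : ∀ y : X, ¬ p ∣ orderOf y → ∑ χ ∈ XS, a χ * (χ : X → ℂ) y = 0) : ∀ χ ∈ XS, a χ = 0 := by
  let f : XS → (X → ℂ) := fun χ => pRegularPart p ((χ : IrrCharacter X) : X → ℂ)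
  have hspan : Submodule.span ℂ (Set.range f) = regSpan p (principalBlock M X) := by
    apply le_antisymm
    · rw [Submodule.span_le]
      rintro _ ⟨χ, rfl⟩
      exact Submodule.subset_span ⟨χ, (D.hB _).2 (Or.inl χ.2), rfl⟩
    · refine Submodule.span_le.2 ?_
      rintro _ ⟨χ, hχ, rfl⟩
      rcases (D.hB χ).1 hχ with h1 | h1
      · exact Submodule.subset_span ⟨⟨χ, h1⟩, rfl⟩
      · show pRegularPart p (χ : X → ℂ) ∈ _
        have h2 : pRegularPart p (χ : X → ℂ) = ∑ τ : XS, (-(δ₀ : ℂ) * (δ (τ : IrrCharacter X) : ℂ)) • f τ := by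
          funext y
          rw [Finset.sum_apply]
          by_cases hy : p ∣ orderOf y
          · rw [pRegularPart_eq_zero_of_dvd _ hy]
            symm
            refine Finset.sum_eq_zero fun τ _ => ?_
            simp only [Pi.smul_apply, f, pRegularPart_eq_zero_of_dvd _ hy, smul_zero]
          · rw [pRegularPart_eq_of_regular _ hy]
            have h3 := D.hrel χ h1 y hy
            have h4 : (∑ τ : XS, (-(δ₀ : ℂ) * (δ (τ : IrrCharacter X) : ℂ)) • f τ) y =
                -(δ₀ : ℂ) * ∑ τ ∈ XS, (δ τ : ℂ) * (τ : X → ℂ) y := by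
              rw [Finset.sum_apply, Finset.mul_sum, ← Finset.sum_coe_sort XS]
              refine Finset.sum_congr rfl fun τ _ => ?_
              simp only [Pi.smul_apply, f, pRegularPart_eq_of_regular _ hy, smul_eq_mul]
              ring
            rw [← Finset.sum_apply, h4]
            have h5 : ∑ τ ∈ XS, (δ τ : ℂ) * (τ : X → ℂ) y = -((δ₀ : ℂ) * (χ : X → ℂ) y) := by
              rw [eq_neg_iff_add_eq_zero, add_comm]
              exact h3
            rw [h5]
            have h6 := D.del0_sq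
            linear_combination (-(χ : X → ℂ) y) * h6
        rw [h2]
        exact Submodule.sum_mem _ fun τ _ => Submodule.smul_mem _ _ (Submodule.subset_span ⟨τ, rfl⟩)
  have hli : LinearIndependent ℂ f := by
    rw [linearIndependent_iff_card_eq_finrank_span]
    rw [Set.finrank, hspan]
    have h1 := D.hrank
    unfold blockRank at h1
    have h2 : Fintype.card XS = XS.card := Fintype.card_coe XS
    rw [h2, ← h1]
  have h1 := Fintype.linearIndependent_iff.1 hli (fun τ => a τ) (by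
    funext y
    rw [Finset.sum_apply]
    by_cases hy : p ∣ orderOf y
    · refine Finset.sum_eq_zero fun τ _ => ?_
      simp only [Pi.smul_apply, f, pRegularPart_eq_zero_of_dvd _ hy, smul_zero]
    · have h2 := h y hy
      rw [← Finset.sum_coe_sort XS] at h2
      rw [Pi.zero_apply, ← h2]
      refine Finset.sum_congr rfl fun τ _ => ?_
      simp only [Pi.smul_apply, f, pRegularPart_eq_of_regular _ hy, smul_eq_mul])
  intro χ hχ
  exact h1 ⟨χ, hχ⟩

open Classical in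
theorem coeff_zero (D : PD p M XS YS δ δ₀) (a : IrrCharacter X → ℂ)
    (h1 : ∀ τ, τ ∉ principalBlock M X → a τ = 0)
    (h2 : ∀ y : X, ¬ p ∣ orderOf y → ∑ τ : IrrCharacter X, a τ * (τ : X → ℂ) y = 0)
    (h3 : ∀ ψ ∈ YS, (δ₀ : ℂ) * a ψ + ∑ χ ∈ XS, (δ χ : ℂ) * a χ = 0) : ∀ τ, a τ = 0 := by
  have hsplit : ∀ y : X, ∑ τ : IrrCharacter X, a τ * (τ : X → ℂ) y =
      ∑ χ ∈ XS, a χ * (χ : X → ℂ) y + ∑ ψ ∈ YS, a ψ * (ψ : X → ℂ) y := by
    intro y
    rw [← Finset.sum_union D.hdis]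
    symm
    refine Finset.sum_subset (Finset.subset_univ _) fun τ _ hτ => ?_
    rw [h1 τ (fun h => hτ (Finset.mem_union.2 ((D.hB τ).1 h))), zero_mul]
  obtain ⟨A, hA⟩ : ∃ A, A = ∑ ψ ∈ YS, a ψ := ⟨_, rfl⟩
  have h4 : ∀ χ ∈ XS, a χ = (δ₀ : ℂ) * A * (δ χ : ℂ) := by
    intro χ hχ
    have h5 := D.indep (fun χ => a χ - (δ₀ : ℂ) * A * (δ χ : ℂ)) (by
      intro y hy
      have h6 := h2 y hy
      rw [hsplit] at h6
      have h7 : ∀ ψ ∈ YS, a ψ * (ψ : X → ℂ) y = - (a ψ * (δ₀ : ℂ) * ∑ τ ∈ XS, (δ τ : ℂ) * (τ : X → ℂ) y) := by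
        intro ψ hψ
        have h8 := D.hrel ψ hψ y hy
        have h9 := D.del0_sq
        linear_combination (a ψ * (δ₀ : ℂ)) * h8 - (a ψ * (ψ : X → ℂ) y) * h9
      rw [Finset.sum_congr rfl h7, Finset.sum_neg_distrib, ← Finset.sum_mul, ← Finset.sum_mul, ← hA] at h6
      simp only [sub_mul, Finset.sum_sub_distrib]
      have h10 : ∑ χ ∈ XS, (δ₀ : ℂ) * A * (δ χ : ℂ) * (χ : X → ℂ) y = A * (δ₀ : ℂ) * ∑ τ ∈ XS, (δ τ : ℂ) * (τ : X → ℂ) y := by
        rw [Finset.mul_sum]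
        refine Finset.sum_congr rfl fun τ _ => ?_
        ring
      rw [h10]
      linear_combination h6) χ hχ
    exact sub_eq_zero.1 h5
  have h5 : ∀ ψ ∈ YS, a ψ = - (A * (XS.card : ℂ)) := by
    intro ψ hψ
    have h6 := h3 ψ hψ
    have h7 : ∑ χ ∈ XS, (δ χ : ℂ) * a χ = (δ₀ : ℂ) * A * (XS.card : ℂ) := by
      have : ((XS.card : ℕ) : ℂ) = ∑ _x ∈ XS, (1 : ℂ) := by simp
      rw [this, Finset.mul_sum]
      refine Finset.sum_congr rfl fun χ hχ => ?_
      rw [h4 χ hχ]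
      have h8 := D.del_sq hχ
      linear_combination ((δ₀ : ℂ) * A) * h8
    rw [h7] at h6
    have h9 := D.del0_sq
    linear_combination (δ₀ : ℂ) * h6 - (a ψ + A * (XS.card : ℂ)) * h9
  have hA0 : A = 0 := by
    have h6 : A = ∑ ψ ∈ YS, - (A * (XS.card : ℂ)) := hA.trans (Finset.sum_congr rfl h5)
    rw [Finset.sum_const, nsmul_eq_mul] at h6
    have h7 : A * ((XS.card : ℂ) * (YS.card : ℂ) + 1) = 0 := by
      linear_combination h6
    have h8 : ((XS.card : ℂ) * (YS.card : ℂ) + 1) = (p : ℂ) := by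
      have h9 : XS.card * YS.card + 1 = p := by
        have := D.hmul
        have := hp.out.two_le
        omega
      exact_mod_cast h9
    rw [h8] at h7
    exact (mul_eq_zero.1 h7).resolve_right (by exact_mod_cast hp.out.ne_zero)
  intro τ
  by_cases hτ : τ ∈ principalBlock M X
  · rcases (D.hB τ).1 hτ with h | h
    · rw [h4 τ h, hA0]
      simp
    · rw [h5 τ h, hA0]
      simp
  · exact h1 τ hτ

end PD

/-- The projective combination. -/
noncomputable def phiP (YS : Finset (IrrCharacter X)) (δ : IrrCharacter X → ℤ) (δ₀ : ℤ) (χ₀ : IrrCharacter X) : X → ℂ :=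
  fun g => (δ χ₀ : ℂ) * (χ₀ : X → ℂ) g - (δ₀ : ℂ) * ∑ ψ ∈ YS, (ψ : X → ℂ) g

namespace PD

variable {XS YS : Finset (IrrCharacter X)} {δ : IrrCharacter X → ℤ} {δ₀ : ℤ}

theorem phi_eq (YS : Finset (IrrCharacter X)) (δ : IrrCharacter X → ℤ) (δ₀ : ℤ) (χ₀ : IrrCharacter X) :
    phiP YS δ δ₀ χ₀ = (δ χ₀ : ℂ) • (χ₀ : X → ℂ) - (δ₀ : ℂ) • ∑ ψ ∈ YS, (ψ : X → ℂ) := by
  funext g
  simp [phiP, Finset.sum_apply]

theorem phi_cf (YS : Finset (IrrCharacter X)) (δ : IrrCharacter X → ℤ) (δ₀ : ℤ) (χ₀ : IrrCharacter X) :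
    IsClassFunction X (phiP YS δ δ₀ χ₀) := by
  intro g h
  unfold phiP
  have h1 := IsCharacter.isClassFunction (IsIrrCharacter.isCharacter χ₀.2) g h
  have h2 : ∀ ψ : IrrCharacter X, (ψ : X → ℂ) (h * g * h⁻¹) = (ψ : X → ℂ) g := fun ψ =>
    IsCharacter.isClassFunction (IsIrrCharacter.isCharacter ψ.2) g h
  simp only [h2]

theorem inner_phi_irr_of_notMem (D : PD p M XS YS δ δ₀) {χ₀ τ : IrrCharacter X} (h0 : χ₀ ∈ XS) (hτ : τ ∉ principalBlock M X) :
    classInner (phiP YS δ δ₀ χ₀) (τ : X → ℂ) = 0 := by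
  rw [phi_eq, classInner_sub_left, classInner_smul_left, classInner_smul_left, classInner_sum_left]
  have h1 : classInner (χ₀ : X → ℂ) (τ : X → ℂ) = 0 := classInner_irr_of_ne χ₀.2 τ.2 (fun h => hτ ((D.hB τ).2 (Or.inl (by
    have : χ₀ = τ := Subtype.ext h
    rwa [← this]))))
  have h2 : ∀ ψ ∈ YS, classInner (ψ : X → ℂ) (τ : X → ℂ) = 0 := fun ψ hψ =>
    classInner_irr_of_ne ψ.2 τ.2 (fun h => hτ ((D.hB τ).2 (Or.inr (by
      have : ψ = τ := Subtype.ext h
      rwa [← this]))))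
  rw [h1, Finset.sum_eq_zero h2]
  simp

theorem pReg_phi (YS : Finset (IrrCharacter X)) (δ : IrrCharacter X → ℤ) (δ₀ : ℤ) (χ₀ : IrrCharacter X) :
    pRegularPart p (phiP YS δ δ₀ χ₀) = (δ χ₀ : ℂ) • pRegularPart p (χ₀ : X → ℂ) - (δ₀ : ℂ) • ∑ ψ ∈ YS, pRegularPart p (ψ : X → ℂ) := by
  funext g
  simp only [Pi.sub_apply, Pi.smul_apply, Finset.sum_apply, smul_eq_mul]
  by_cases hg : p ∣ orderOf g
  · simp [pRegularPart_eq_zero_of_dvd _ hg]
  · simp only [pRegularPart_eq_of_regular _ hg]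
    rfl

theorem pReg_phi_mem (D : PD p M XS YS δ δ₀) {χ₀ : IrrCharacter X} (h0 : χ₀ ∈ XS) :
    pRegularPart p (phiP YS δ δ₀ χ₀) ∈ regSpan p (principalBlock M X) := by
  rw [pReg_phi]
  refine Submodule.sub_mem _ (Submodule.smul_mem _ _ (Submodule.subset_span ⟨χ₀, (D.hB _).2 (Or.inl h0), rfl⟩)) ?_
  refine Submodule.smul_mem _ _ (Submodule.sum_mem _ fun ψ hψ => Submodule.subset_span ⟨ψ, (D.hB _).2 (Or.inr hψ), rfl⟩)

/-- The inner product of two members of `XS ∪ YS`. -/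
theorem inner_X_rel (D : PD p M XS YS δ δ₀) {χ₀ ψ' : IrrCharacter X} (h0 : χ₀ ∈ XS) (hψ' : ψ' ∈ YS) :
    classInner (χ₀ : X → ℂ) (fun y => (δ₀ : ℂ) * (ψ' : X → ℂ) y + ∑ χ ∈ XS, (δ χ : ℂ) * (χ : X → ℂ) y) = (δ χ₀ : ℂ) := by
  classical
  have e : (fun y => (δ₀ : ℂ) * (ψ' : X → ℂ) y + ∑ χ ∈ XS, (δ χ : ℂ) * (χ : X → ℂ) y) =
      (δ₀ : ℂ) • (ψ' : X → ℂ) + ∑ χ ∈ XS, (δ χ : ℂ) • (χ : X → ℂ) := by
    funext y
    simp [Finset.sum_apply]
  rw [e, classInner_add_right, classInner_smul_right, classInner_sum_right]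
  have h1 : classInner (χ₀ : X → ℂ) (ψ' : X → ℂ) = 0 := classInner_irr_of_ne χ₀.2 ψ'.2 (fun h => by
    have : χ₀ = ψ' := Subtype.ext h
    rw [this] at h0
    exact Finset.disjoint_left.1 D.hdis h0 hψ')
  rw [h1, mul_zero, zero_add, Finset.sum_eq_single χ₀]
  · rw [classInner_smul_right, classInner_irr_self χ₀.2, mul_one, map_intCast]
  · intro χ hχ hne
    rw [classInner_smul_right, classInner_irr_of_ne χ₀.2 χ.2 (fun h => hne (Subtype.ext h).symm), mul_zero]
  · intro h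
    exact absurd h0 h

theorem inner_Y_rel (D : PD p M XS YS δ δ₀) {ψ ψ' : IrrCharacter X} (hψ : ψ ∈ YS) (hψ' : ψ' ∈ YS) :
    classInner (ψ : X → ℂ) (fun y => (δ₀ : ℂ) * (ψ' : X → ℂ) y + ∑ χ ∈ XS, (δ χ : ℂ) * (χ : X → ℂ) y) =
      if ψ = ψ' then (δ₀ : ℂ) else 0 := by
  classical
  have e : (fun y => (δ₀ : ℂ) * (ψ' : X → ℂ) y + ∑ χ ∈ XS, (δ χ : ℂ) * (χ : X → ℂ) y) =
      (δ₀ : ℂ) • (ψ' : X → ℂ) + ∑ χ ∈ XS, (δ χ : ℂ) • (χ : X → ℂ) := by
    funext y
    simp [Finset.sum_apply]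
  rw [e, classInner_add_right, classInner_smul_right, classInner_sum_right]
  rw [Finset.sum_eq_zero, add_zero]
  · by_cases h : ψ = ψ'
    · subst h
      rw [classInner_irr_self ψ.2, mul_one, if_pos rfl, map_intCast]
    · rw [classInner_irr_of_ne ψ.2 ψ'.2 (fun h' => h (Subtype.ext h')), mul_zero, if_neg h]
  · intro χ hχ
    rw [classInner_smul_right, classInner_irr_of_ne ψ.2 χ.2 (fun h => by
      have : ψ = χ := Subtype.ext h
      rw [this] at hψ
      exact Finset.disjoint_left.1 D.hdis hχ hψ), mul_zero]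

/-- The combination vanishes on the singular elements. -/
theorem phi_vanish (D : PD p M XS YS δ δ₀) {χ₀ : IrrCharacter X} (h0 : χ₀ ∈ XS) {c : X} (hc : p ∣ orderOf c) :
    phiP YS δ δ₀ χ₀ c = 0 := by
  classical
  obtain ⟨g, hg⟩ : ∃ g, g = phiP YS δ δ₀ χ₀ := ⟨_, rfl⟩
  obtain ⟨h, hh⟩ : ∃ h, h = g - pRegularPart p g := ⟨_, rfl⟩
  have hgc : IsClassFunction X g := by
    rw [hg]
    exact phi_cf _ _ _ _
  have hcf : IsClassFunction X h := by
    rw [hh]
    intro a b
    simp only [Pi.sub_apply]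
    rw [hgc a b, isClassFunction_pRegularPart hgc a b]
  have hreg : ∀ y : X, ¬ p ∣ orderOf y → h y = 0 := by
    intro y hy
    rw [hh]
    simp [pRegularPart_eq_of_regular _ hy]
  have hexp := classFunction_eq_sum h hcf
  have hall := D.coeff_zero (fun τ => classInner h (τ : X → ℂ))
    (by
      intro τ hτ
      rw [hh, classInner_sub_left, hg, D.inner_phi_irr_of_notMem h0 hτ,
        classInner_regSpan_of_notMem D.hM isPBlock_principalBlock (D.pReg_phi_mem h0) hτ, sub_zero])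
    (by
      intro y hy
      have h1 := congrFun hexp y
      rw [Finset.sum_apply] at h1
      rw [hreg y hy] at h1
      simp only [Pi.smul_apply, smul_eq_mul] at h1
      exact h1.symm)
    (by
      intro ψ' hψ'
      obtain ⟨r, hr⟩ : ∃ r : X → ℂ, r = (fun y => (δ₀ : ℂ) * (ψ' : X → ℂ) y + ∑ χ ∈ XS, (δ χ : ℂ) * (χ : X → ℂ) y) := ⟨_, rfl⟩
      have e : r = (δ₀ : ℂ) • (ψ' : X → ℂ) + ∑ χ ∈ XS, (δ χ : ℂ) • (χ : X → ℂ) := by
        rw [hr]
        funext y
        simp [Finset.sum_apply]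
      have h1 : classInner h r = (δ₀ : ℂ) * classInner h (ψ' : X → ℂ) + ∑ χ ∈ XS, (δ χ : ℂ) * classInner h (χ : X → ℂ) := by
        rw [e, classInner_add_right, classInner_smul_right, classInner_sum_right, map_intCast]
        congr 1
        refine Finset.sum_congr rfl fun χ _ => ?_
        rw [classInner_smul_right, map_intCast]
      rw [← h1, hh, classInner_sub_left]
      have h2 : classInner (pRegularPart p g) r = 0 := by
        rw [classInner_def]
        refine mul_eq_zero_of_right _ (Finset.sum_eq_zero fun y _ => ?_)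
        by_cases hy : p ∣ orderOf y
        · rw [pRegularPart_eq_zero_of_dvd _ hy, zero_mul]
        · have h3 := D.hrel ψ' hψ' y hy
          rw [hr]
          simp only
          rw [h3, map_zero, mul_zero]
      have h3 : classInner g r = 0 := by
        rw [hg, phi_eq, classInner_sub_left, classInner_smul_left, classInner_smul_left, classInner_sum_left, hr,
          D.inner_X_rel h0 hψ', Finset.sum_congr rfl (fun ψ hψ => D.inner_Y_rel hψ hψ'), Finset.sum_ite_eq' YS ψ',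
          if_pos hψ', D.del_sq h0, D.del0_sq, sub_self]
      rw [h2, h3, sub_zero])
  have h1 : h = 0 := by
    rw [hexp]
    exact Finset.sum_eq_zero fun τ _ => by
      rw [hall τ, zero_smul]
  have h2 := congrFun h1 c
  rw [hh] at h2
  simp only [Pi.sub_apply, Pi.zero_apply, pRegularPart_eq_zero_of_dvd _ hc, sub_zero] at h2
  rw [← hg]
  exact h2

/-- The Gram matrix. -/
theorem phi_gram (D : PD p M XS YS δ δ₀) {χ₁ χ₂ : IrrCharacter X} (h1 : χ₁ ∈ XS) (h2 : χ₂ ∈ XS) :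
    classInner (phiP YS δ δ₀ χ₁) (phiP YS δ δ₀ χ₂) = (if χ₁ = χ₂ then 1 else 0) + (YS.card : ℂ) := by
  classical
  have hXY : ∀ {χ ψ : IrrCharacter X}, χ ∈ XS → ψ ∈ YS → classInner (χ : X → ℂ) (ψ : X → ℂ) = 0 := by
    intro χ ψ hχ hψ
    refine classInner_irr_of_ne χ.2 ψ.2 (fun h => ?_)
    have : χ = ψ := Subtype.ext h
    rw [this] at hχ
    exact Finset.disjoint_left.1 D.hdis hχ hψ
  have hYX : ∀ {ψ χ : IrrCharacter X}, ψ ∈ YS → χ ∈ XS → classInner (ψ : X → ℂ) (χ : X → ℂ) = 0 := by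
    intro ψ χ hψ hχ
    refine classInner_irr_of_ne ψ.2 χ.2 (fun h => ?_)
    have : χ = ψ := (Subtype.ext h).symm
    rw [this] at hχ
    exact Finset.disjoint_left.1 D.hdis hχ hψ
  obtain ⟨S, hS⟩ : ∃ S : X → ℂ, S = ∑ ψ ∈ YS, (ψ : X → ℂ) := ⟨_, rfl⟩
  have e1 : classInner (χ₁ : X → ℂ) S = 0 := by
    rw [hS, classInner_sum_right]
    exact Finset.sum_eq_zero fun ψ hψ => hXY h1 hψ
  have e2 : classInner S (χ₂ : X → ℂ) = 0 := by
    rw [hS, classInner_sum_left]
    exact Finset.sum_eq_zero fun ψ hψ => hYX hψ h2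
  have e3 : classInner S S = (YS.card : ℂ) := by
    have : ((YS.card : ℕ) : ℂ) = ∑ _x ∈ YS, (1 : ℂ) := by simp
    rw [this]
    conv_lhs => rw [hS, classInner_sum_left]
    refine Finset.sum_congr rfl fun ψ hψ => ?_
    rw [classInner_sum_right, Finset.sum_eq_single ψ]
    · exact classInner_irr_self ψ.2
    · intro ψ' _ hne
      exact classInner_irr_of_ne ψ.2 ψ'.2 (fun h => hne (Subtype.ext h).symm)
    · intro h
      exact absurd hψ h
  rw [phi_eq, phi_eq, ← hS, classInner_sub_left, classInner_sub_right, classInner_sub_right, classInner_smul_left, classInner_smul_left,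
    classInner_smul_left, classInner_smul_left, classInner_smul_right, classInner_smul_right, classInner_smul_right, classInner_smul_right,
    e1, e2, e3]
  simp only [map_intCast, mul_zero, sub_zero, zero_sub]
  have e4 : (δ χ₁ : ℂ) * ((δ χ₂ : ℂ) * classInner (χ₁ : X → ℂ) (χ₂ : X → ℂ)) = if χ₁ = χ₂ then 1 else 0 := by
    by_cases h : χ₁ = χ₂
    · subst h
      rw [if_pos rfl, classInner_irr_self χ₁.2, mul_one]
      exact D.del_sq h1
    · rw [if_neg h, classInner_irr_of_ne χ₁.2 χ₂.2 (fun h' => h (Subtype.ext h'))]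
      simp
  have e5 := D.del0_sq
  linear_combination e4 + (YS.card : ℂ) * e5

end PD

end PD

end Cfsg.Agent.Lib.FF
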