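import Cfsg.Agent.Lib.FF.KP1
import Cfsg.Agent.Lib.BPair.Sambale3
import Cfsg.Agent.Lib.Block.Restrict

/-!
# Lifting the projective combinations along a central subgroup of prime order with a linear character
-/

set_option autoImplicit false
set_option linter.unusedSectionVars false
set_option linter.unusedVariables false
set_option maxSynthPendingDepth 3
set_option linter.style.haveILetI false
set_option linter.unusedSimpArgs false
set_option linter.unnecessarySimpa false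

open scoped ComplexConjugate
open Module Cfsg Cfsg.Agent.Lib.Block Cfsg.Agent.Lib.Char Cfsg.Agent.Lib.CharExtra Cfsg.Agent.Lib.BPair

namespace Cfsg.Agent.Lib.FF

attribute [local instance] Cfsg.Agent.Lib.BPair.subFintype

section QD

variable {C : Type*} [Group C] [Fintype C] {p : ℕ} [hp : Fact p.Prime] {M : Ideal AlgInt}

/-- A central subgroup of prime order detected by a linear character of order `p`. -/
structure QD (p : ℕ) (T : Subgroup C) (t : C) (μ : C →* ℂˣ) : Prop where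
  ht : T = Subgroup.zpowers t
  htc : t ∈ Subgroup.center C
  hto : orderOf t = p
  hμ : ∀ c, (μ c) ^ p = 1
  hμt : μ t ≠ 1

namespace QD

variable {T : Subgroup C} {t : C} {μ : C →* ℂˣ}

theorem isP (Q : QD p T t μ) : IsPGroup p T := by
  rw [Q.ht]
  refine IsPGroup.iff_card.2 ⟨1, ?_⟩
  rw [Nat.card_zpowers, Q.hto, pow_one]

theorem central (Q : QD p T t μ) : ∀ g : C, g ∈ Subgroup.centralizer (T : Set C) := by
  intro g
  rw [Subgroup.mem_centralizer_iff]
  intro z hz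
  rw [Q.ht] at hz
  obtain ⟨k, rfl⟩ := Subgroup.mem_zpowers_iff.1 hz
  have h1 : Commute t g := (Subgroup.mem_center_iff.1 Q.htc g).symm
  exact (h1.zpow_left k).eq

theorem mu_reg (Q : QD p T t μ) {c : C} (hc : ¬ p ∣ orderOf c) : μ c = 1 := by
  have h1 : (μ c) ^ orderOf c = 1 := by
    rw [← map_pow, pow_orderOf_eq_one, map_one]
  have h2 : (μ c) ^ p = 1 := Q.hμ c
  have h3 : Nat.Coprime p (orderOf c) := (Nat.Prime.coprime_iff_not_dvd hp.out).2 hc
  have h4 := Nat.dvd_gcd (orderOf_dvd_of_pow_eq_one h2) (orderOf_dvd_of_pow_eq_one h1)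
  rw [h3.gcd_eq_one] at h4
  exact orderOf_eq_one_iff.1 (Nat.dvd_one.1 h4)

theorem card_eq [T.Normal] (Q : QD p T t μ) : Nat.card C = p * Nat.card (C ⧸ T) := by
  have h1 : Nat.card T * T.index = Nat.card C := Subgroup.card_mul_index T
  have h2 : Nat.card T = p := by
    rw [Q.ht, Nat.card_zpowers, Q.hto]
  rw [← h1, h2]
  rfl

/-- Every irreducible character agrees on the regular elements with an inflated one. -/
theorem exists_infl [T.Normal] (Q : QD p T t μ) (ξ : IrrCharacter C) :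
    ∃ τ : IrrCharacter (C ⧸ T), ∀ c : C, ¬ p ∣ orderOf c → (ξ : C → ℂ) c = (τ : C ⧸ T → ℂ) (c : C ⧸ T) := by
  have h1 : (μ t) ^ p = 1 := Q.hμ t
  have h2 : orderOf (μ t) = p := orderOf_eq_prime h1 Q.hμt
  obtain ⟨η, hη⟩ : ∃ η : ℂ, η = ((μ t : ℂˣ) : ℂ) := ⟨_, rfl⟩
  have hηp : IsPrimitiveRoot η p := by
    have h3 : IsPrimitiveRoot (μ t) p := h2 ▸ IsPrimitiveRoot.orderOf (μ t)
    rw [hη]
    exact h3.map_of_injective Units.val_injective (f := Units.coeHom ℂ)
  have htp : t ^ p = 1 := by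
    rw [← Q.hto]
    exact pow_orderOf_eq_one t
  have hε := eps_pow ξ Q.htc htp
  haveI : NeZero p := ⟨hp.out.ne_zero⟩
  obtain ⟨j, -, hj⟩ := hηp.eq_pow_of_pow_eq_one hε
  obtain ⟨ν, hν⟩ : ∃ ν : C →* ℂˣ, ν = (μ ^ j)⁻¹ := ⟨_, rfl⟩
  obtain ⟨ξ', hξ'⟩ : ∃ ξ' : IrrCharacter C, ξ' = twistI ν ξ := ⟨_, rfl⟩
  have h0 : (ξ : C → ℂ) 1 ≠ 0 := map_one_ne_zero_of_irr ξ.2
  have hνt : ((ν t : ℂˣ) : ℂ) * η ^ j = 1 := by
    rw [hν, hη]
    simp
  have ht1 : (ξ' : C → ℂ) t = (ξ' : C → ℂ) 1 := by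
    rw [hξ', twistI_apply, twistI_apply, map_one, Units.val_one, mul_one]
    have h3 : (ξ : C → ℂ) t = η ^ j * (ξ : C → ℂ) 1 := by
      rw [hj]
      field_simp
    rw [h3]
    linear_combination ((ξ : C → ℂ) 1) * hνt
  have hker : Cfsg.Agent.Lib.Degree.KerContains T (ξ' : C → ℂ) := by
    have hk : ∀ k : ℕ, (ξ' : C → ℂ) (t ^ k) = (ξ' : C → ℂ) 1 := by
      intro k
      induction k with
      | zero => simp
      | succ k ih =>
        rw [pow_succ, irr_mul_of_ker ξ' ?_ t, ht1]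
        exact ih
    intro n hn
    rw [Q.ht] at hn
    have hfin : IsOfFinOrder t := isOfFinOrder_of_finite t
    obtain ⟨k, rfl⟩ := (hfin.mem_powers_iff_mem_zpowers).2 hn
    exact hk k
  obtain ⟨τ, hτ⟩ := Cfsg.Agent.Lib.Degree.exists_inflate T hker
  refine ⟨τ, fun c hc => ?_⟩
  have h3 := congrFun (congrArg Subtype.val hτ) c
  simp only [Cfsg.Agent.Lib.Degree.inflate_apply] at h3
  have h4 : (ξ' : C → ℂ) c = (ξ : C → ℂ) c := by
    rw [hξ', twistI_apply]
    have h5 : ν c = 1 := by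
      rw [hν]
      simp [Q.mu_reg hc]
    rw [h5]
    simp
  rw [← h4]
  exact h3.symm

end QD

variable {T : Subgroup C} [T.Normal] [Fintype (C ⧸ T)] {t : C} {μ : C →* ℂˣ}
  {XS YS : Finset (IrrCharacter (C ⧸ T))} {δ : IrrCharacter (C ⧸ T) → ℤ} {δ₀ : ℤ}

/-- The lifted projective combination. -/
noncomputable def wP (p : ℕ) (T : Subgroup C) [T.Normal] (YS : Finset (IrrCharacter (C ⧸ T))) (δ : IrrCharacter (C ⧸ T) → ℤ) (δ₀ : ℤ)
    (χ₀ : IrrCharacter (C ⧸ T)) : C → ℂ :=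
  fun c => (p : ℂ) * pRegularPart p (phiP YS δ δ₀ χ₀ ∘ (QuotientGroup.mk : C → C ⧸ T)) c

theorem wP_of_dvd (χ₀ : IrrCharacter (C ⧸ T)) {c : C} (hc : p ∣ orderOf c) : wP p T YS δ δ₀ χ₀ c = 0 := by
  unfold wP
  rw [pRegularPart_eq_zero_of_dvd _ hc, mul_zero]

theorem wP_of_reg (χ₀ : IrrCharacter (C ⧸ T)) {c : C} (hc : ¬ p ∣ orderOf c) :
    wP p T YS δ δ₀ χ₀ c = (p : ℂ) * phiP YS δ δ₀ χ₀ (c : C ⧸ T) := by
  unfold wP
  rw [pRegularPart_eq_of_regular _ hc]
  rfl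

theorem wP_eq (χ₀ : IrrCharacter (C ⧸ T)) :
    wP p T YS δ δ₀ χ₀ = (p : ℂ) • ((δ χ₀ : ℂ) • pRegularPart p ((Cfsg.Agent.Lib.Degree.inflate T χ₀ : IrrCharacter C) : C → ℂ) -
      (δ₀ : ℂ) • ∑ ψ ∈ YS, pRegularPart p ((Cfsg.Agent.Lib.Degree.inflate T ψ : IrrCharacter C) : C → ℂ)) := by
  funext c
  simp only [Pi.smul_apply, Pi.sub_apply, Finset.sum_apply, smul_eq_mul]
  by_cases hc : p ∣ orderOf c
  · rw [wP_of_dvd _ hc]
    simp [pRegularPart_eq_zero_of_dvd _ hc]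
  · rw [wP_of_reg _ hc]
    simp only [pRegularPart_eq_of_regular _ hc, Cfsg.Agent.Lib.Degree.inflate_apply]
    rfl

theorem inflate_mem_principal (hM : IsPModular p M) {τ : IrrCharacter (C ⧸ T)} (hτ : τ ∈ principalBlock M (C ⧸ T)) :
    Cfsg.Agent.Lib.Degree.inflate T τ ∈ principalBlock M C := by
  have := isPModular_isPrime hM
  have h1 := sameBlock_inflate_of_sameBlock (M := M) T (χ := oneIrr (C ⧸ T)) (ψ := τ) (by
    rw [oneIrr_coe]
    exact hτ)
  rw [oneIrr_coe] at h1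
  exact h1

theorem of_inflate_mem_principal (hM : IsPModular p M) (Q : QD p T t μ) {τ : IrrCharacter (C ⧸ T)}
    (hτ : Cfsg.Agent.Lib.Degree.inflate T τ ∈ principalBlock M C) : τ ∈ principalBlock M (C ⧸ T) := by
  have h1 := sameBlock_of_sameBlock_inflate_reg (M := M) hM Q.isP (fun g _ => Q.central g) (χ := oneIrr (C ⧸ T)) (ψ := τ) (by
    rw [oneIrr_coe]
    exact hτ)
  rw [oneIrr_coe] at h1
  exact h1

theorem wP_mem (D : PD p M XS YS δ δ₀) {χ₀ : IrrCharacter (C ⧸ T)} (h0 : χ₀ ∈ XS) :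
    wP p T YS δ δ₀ χ₀ ∈ regSpan p (principalBlock M C) := by
  rw [wP_eq]
  refine Submodule.smul_mem _ _ (Submodule.sub_mem _ (Submodule.smul_mem _ _ (Submodule.subset_span ⟨_, inflate_mem_principal D.hM ((D.hB _).2 (Or.inl h0)), rfl⟩)) ?_)
  exact Submodule.smul_mem _ _ (Submodule.sum_mem _ fun ψ hψ => Submodule.subset_span ⟨_, inflate_mem_principal D.hM ((D.hB _).2 (Or.inr hψ)), rfl⟩)

/-- Inner products of the lifted combination. -/
theorem inner_wP (D : PD p M XS YS δ δ₀) (Q : QD p T t μ) {χ₀ : IrrCharacter (C ⧸ T)} (h0 : χ₀ ∈ XS) (h : C ⧸ T → ℂ) (f : C → ℂ)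
    (hf : ∀ c : C, ¬ p ∣ orderOf c → f c = h (c : C ⧸ T)) :
    classInner (wP p T YS δ δ₀ χ₀) f = classInner (phiP YS δ δ₀ χ₀) h := by
  classical
  rw [classInner_def, classInner_def]
  have h1 : ∑ c : C, wP p T YS δ δ₀ χ₀ c * conj (f c) =
      (p : ℂ) * ∑ c : C, if p ∣ orderOf c then 0 else phiP YS δ δ₀ χ₀ (c : C ⧸ T) * conj (h (c : C ⧸ T)) := by
    rw [Finset.mul_sum]
    refine Finset.sum_congr rfl fun c _ => ?_
    by_cases hc : p ∣ orderOf c
    · rw [wP_of_dvd _ hc, if_pos hc]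
      simp
    · rw [wP_of_reg _ hc, if_neg hc, hf c hc]
      ring
  rw [h1, sum_reg_eq_sum_quot Q.isP (fun g _ => Q.central g) (fun k => phiP YS δ δ₀ χ₀ k * conj (h k)) (by
    intro k hk
    rw [D.phi_vanish h0 hk, zero_mul])]
  rw [Q.card_eq]
  have hp0 : (p : ℂ) ≠ 0 := by exact_mod_cast hp.out.ne_zero
  have hX : (Nat.card (C ⧸ T) : ℂ) ≠ 0 := by exact_mod_cast Nat.card_pos.ne'
  push_cast
  field_simp

theorem wP_gram (D : PD p M XS YS δ δ₀) (Q : QD p T t μ) {χ₁ χ₂ : IrrCharacter (C ⧸ T)} (h1 : χ₁ ∈ XS) (h2 : χ₂ ∈ XS) :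
    classInner (wP p T YS δ δ₀ χ₁) (wP p T YS δ δ₀ χ₂) = (p : ℂ) * ((if χ₁ = χ₂ then 1 else 0) + (YS.card : ℂ)) := by
  rw [inner_wP D Q h1 (fun k => (p : ℂ) * phiP YS δ δ₀ χ₂ k) _ (fun c hc => wP_of_reg _ hc)]
  have e : (fun k => (p : ℂ) * phiP YS δ δ₀ χ₂ k) = (p : ℂ) • phiP YS δ δ₀ χ₂ := by
    funext k
    simp
  rw [e, classInner_smul_right, D.phi_gram h1 h2, Complex.conj_natCast]

/-- The coefficients of the lifted combination are integers. -/
theorem wP_int (D : PD p M XS YS δ δ₀) (Q : QD p T t μ) {χ₀ : IrrCharacter (C ⧸ T)} (h0 : χ₀ ∈ XS) (ξ : IrrCharacter C) :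
    ∃ n : ℤ, classInner (wP p T YS δ δ₀ χ₀) (ξ : C → ℂ) = n := by
  classical
  obtain ⟨τ, hτ⟩ := Q.exists_infl ξ
  rw [inner_wP D Q h0 (τ : C ⧸ T → ℂ) _ hτ, PD.phi_eq, classInner_sub_left, classInner_smul_left, classInner_smul_left, classInner_sum_left]
  have h1 : ∀ ψ : IrrCharacter (C ⧸ T), ∃ n : ℤ, classInner (ψ : C ⧸ T → ℂ) (τ : C ⧸ T → ℂ) = n := by
    intro ψ
    rw [classInner_irr ψ.2 τ.2]
    split_ifs
    · exact ⟨1, by simp⟩
    · exact ⟨0, by simp⟩
  choose n hn using h1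
  refine ⟨δ χ₀ * n χ₀ - δ₀ * ∑ ψ ∈ YS, n ψ, ?_⟩
  push_cast
  rw [hn χ₀, Finset.sum_congr rfl (fun ψ _ => hn ψ)]

/-- The lifted combinations separate the regular span of the principal block. -/
theorem wP_sep (D : PD p M XS YS δ δ₀) (Q : QD p T t μ) {F : C → ℂ} (hF : F ∈ regSpan p (principalBlock M C))
    (h : ∀ χ₀ ∈ XS, classInner F (wP p T YS δ δ₀ χ₀) = 0) : F = 0 := by
  classical
  have hM := D.hM
  have hFv : ∀ y, p ∣ orderOf y → F y = 0 := fun y hy => regSpan_vanish hF hy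
  obtain ⟨c, hc⟩ : ∃ c : IrrCharacter (C ⧸ T) → ℂ, c = fun τ => classInner F ((Cfsg.Agent.Lib.Degree.inflate T τ : IrrCharacter C) : C → ℂ) := ⟨_, rfl⟩
  have hcr : ∀ τ, classInner F (pRegularPart p ((Cfsg.Agent.Lib.Degree.inflate T τ : IrrCharacter C) : C → ℂ)) = c τ := by
    intro τ
    rw [classInner_reg_left hFv, hc]
  -- the relation on the regular elements
  have hrel : ∀ ψ ∈ YS, (δ₀ : ℂ) * c ψ + ∑ χ ∈ XS, (δ χ : ℂ) * c χ = 0 := by
    intro ψ hψ
    have h1 : (δ₀ : ℂ) • pRegularPart p ((Cfsg.Agent.Lib.Degree.inflate T ψ : IrrCharacter C) : C → ℂ) +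
        ∑ χ ∈ XS, (δ χ : ℂ) • pRegularPart p ((Cfsg.Agent.Lib.Degree.inflate T χ : IrrCharacter C) : C → ℂ) = 0 := by
      funext y
      simp only [Pi.add_apply, Pi.smul_apply, Finset.sum_apply, smul_eq_mul, Pi.zero_apply]
      by_cases hy : p ∣ orderOf y
      · simp [pRegularPart_eq_zero_of_dvd _ hy]
      · simp only [pRegularPart_eq_of_regular _ hy, Cfsg.Agent.Lib.Degree.inflate_apply]
        exact D.hrel ψ hψ _ (regular_map_mk T hy)
    have h2 := congrArg (classInner F) h1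
    rw [classInner_add_right, classInner_smul_right, classInner_sum_right, hcr, map_intCast] at h2
    simp only [classInner_smul_right, hcr, map_intCast] at h2
    rw [h2, classInner_def]
    simp
  obtain ⟨S, hS⟩ : ∃ S, S = ∑ χ ∈ XS, (δ χ : ℂ) * c χ := ⟨_, rfl⟩
  have hcY : ∀ ψ ∈ YS, c ψ = - ((δ₀ : ℂ) * S) := by
    intro ψ hψ
    have h1 := hrel ψ hψ
    rw [← hS] at h1
    have h2 := D.del0_sq
    linear_combination (δ₀ : ℂ) * h1 - (c ψ) * h2
  have hp0 : (p : ℂ) ≠ 0 := by exact_mod_cast hp.out.ne_zero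
  have hcX : ∀ χ ∈ XS, (δ χ : ℂ) * c χ = - ((YS.card : ℂ) * S) := by
    intro χ hχ
    have h1 := h χ hχ
    rw [wP_eq, classInner_smul_right, classInner_sub_right, classInner_smul_right, classInner_smul_right, classInner_sum_right,
      hcr, Finset.sum_congr rfl (fun ψ hψ => (hcr ψ).trans (hcY ψ hψ)), Finset.sum_const, nsmul_eq_mul, map_intCast, map_intCast,
      Complex.conj_natCast] at h1
    have h2 := (mul_eq_zero.1 h1).resolve_left hp0
    have h3 := D.del0_sq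
    linear_combination h2 - ((YS.card : ℂ) * S) * h3
  have hS0 : S = 0 := by
    have h1 : S = ∑ χ ∈ XS, - ((YS.card : ℂ) * S) := hS.trans (Finset.sum_congr rfl hcX)
    rw [Finset.sum_const, nsmul_eq_mul] at h1
    have h2 : S * ((XS.card : ℂ) * (YS.card : ℂ) + 1) = 0 := by
      linear_combination h1
    have h3 : ((XS.card : ℂ) * (YS.card : ℂ) + 1) = (p : ℂ) := by
      have h4 : XS.card * YS.card + 1 = p := by
        have := D.hmul
        have := hp.out.two_le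
        omega
      exact_mod_cast h4
    rw [h3] at h2
    exact (mul_eq_zero.1 h2).resolve_right hp0
  have hall : ∀ τ, c τ = 0 := by
    intro τ
    by_cases hτ : τ ∈ principalBlock M (C ⧸ T)
    · rcases (D.hB τ).1 hτ with h1 | h1
      · have h2 := hcX τ h1
        rw [hS0, mul_zero, neg_zero] at h2
        have h3 := D.del_sq h1
        linear_combination ((δ τ : ℂ)) * h2 - (c τ) * h3
      · rw [hcY τ h1, hS0]
        simp
    · rw [hc]
      exact classInner_regSpan_of_notMem hM isPBlock_principalBlock hF (fun h' => hτ (of_inflate_mem_principal hM Q h'))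
  have hξ : ∀ ξ : IrrCharacter C, classInner F (ξ : C → ℂ) = 0 := by
    intro ξ
    obtain ⟨τ, hτ⟩ := Q.exists_infl ξ
    rw [← classInner_reg_left hFv]
    have h1 : pRegularPart p (ξ : C → ℂ) = pRegularPart p ((Cfsg.Agent.Lib.Degree.inflate T τ : IrrCharacter C) : C → ℂ) := by
      funext y
      by_cases hy : p ∣ orderOf y
      · simp [pRegularPart_eq_zero_of_dvd _ hy]
      · simp only [pRegularPart_eq_of_regular _ hy, Cfsg.Agent.Lib.Degree.inflate_apply]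
        exact hτ y hy
    rw [h1, hcr, hall]
  rw [classFunction_eq_sum F (regSpan_isClassFunction hF)]
  exact Finset.sum_eq_zero fun ξ _ => by
    rw [hξ ξ, zero_smul]

end QD

end Cfsg.Agent.Lib.FF
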