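import Cfsg.Agent.Lib.FF.KP2

/-!
# Counting the characters of the principal block with a nonzero subsection function
-/

set_option autoImplicit false
set_option linter.unusedSectionVars false
set_option linter.unusedVariables false
set_option maxSynthPendingDepth 3
set_option linter.style.haveILetI false
set_option linter.unusedSimpArgs false
set_option linter.unnecessarySimpa false

open scoped ComplexConjugate
open Module Cfsg Cfsg.Agent.Lib.Block Cfsg.Agent.Lib.Char Cfsg.Agent.Lib.CharExtra Cfsg.Agent.Lib.BPair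

namespace Cfsg.Agent.Lib.FF

attribute [local instance] Cfsg.Agent.Lib.BPair.subFintype

section Count

variable {G : Type*} [Group G] [Fintype G] {p : ℕ} [hp : Fact p.Prime] {M : Ideal AlgInt} {x : G}
  [Fintype (Subgroup.centralizer ({x} : Set G))]

theorem parseval_secF (hM : IsPModular p M) (hu : ∃ k, orderOf x = p ^ k)
    {e : Set (IrrCharacter (Subgroup.centralizer ({x} : Set G)))} (he : IsPBlock M e)
    {w : Subgroup.centralizer ({x} : Set G) → ℂ} (hw : w ∈ regSpan p e) :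
    ∑ χ : IrrCharacter G, classInner (secF p x e (χ : G → ℂ)) w * conj (classInner (secF p x e (χ : G → ℂ)) w) = classInner w w := by
  have h1 := (isProj_secP hM hu he).2 w hw
  rw [secP_apply] at h1
  have h5 := congrArg (fun f => classInner f w) h1
  beta_reduce at h5
  rw [← h5, classInner_sum_left]
  refine Finset.sum_congr rfl fun χ _ => ?_
  rw [classInner_smul_left, conj_classInner]
  ring

theorem inner_secF_eq (hM : IsPModular p M)
    {e : Set (IrrCharacter (Subgroup.centralizer ({x} : Set G)))} (he : IsPBlock M e)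
    {w : Subgroup.centralizer ({x} : Set G) → ℂ} (hw : w ∈ regSpan p e) (ζ : IrrCharacter G) :
    classInner (secF p x e (ζ : G → ℂ)) w = ∑ ξ, aa x ζ ξ * conj (classInner w (ξ : Subgroup.centralizer ({x} : Set G) → ℂ)) := by
  have hcf : IsClassFunction (Subgroup.centralizer ({x} : Set G)) (fun c : Subgroup.centralizer ({x} : Set G) => (ζ : G → ℂ) (x * c)) :=
    isClassFunction_section _ (IsCharacter.isClassFunction (IsIrrCharacter.isCharacter ζ.2))
  have h1 : classInner w (secF p x e (ζ : G → ℂ)) = classInner w (fun c : Subgroup.centralizer ({x} : Set G) => (ζ : G → ℂ) (x * c)) := by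
    unfold secF
    exact classInner_blockProj hM he hw hcf
  rw [← conj_classInner, h1, conj_classInner, classInner_eq_sum_irr _ _ hcf]
  rfl

section Main

variable {C₀ : Type*}

open Classical in
theorem count_qd (hM : IsPModular p M) (hu : ∃ k, orderOf x = p ^ k)
    {T : Subgroup (Subgroup.centralizer ({x} : Set G))} [T.Normal] [Fintype (Subgroup.centralizer ({x} : Set G) ⧸ T)]
    {t : Subgroup.centralizer ({x} : Set G)} {μ : Subgroup.centralizer ({x} : Set G) →* ℂˣ} (Q : QD p T t μ)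
    {XS YS : Finset (IrrCharacter (Subgroup.centralizer ({x} : Set G) ⧸ T))} {δ : IrrCharacter (Subgroup.centralizer ({x} : Set G) ⧸ T) → ℤ} {δ₀ : ℤ}
    (D : PD p M XS YS δ δ₀) :
    (Finset.univ.filter (fun ζ : IrrCharacter G => secF p x (principalBlock M (Subgroup.centralizer ({x} : Set G))) (ζ : G → ℂ) ≠ 0)).card ≤
      p * (XS.card + YS.card) := by
  have := isPModular_isPrime hM
  haveI : NeZero (Nat.card G) := ⟨Nat.card_pos.ne'⟩
  obtain ⟨e₀, he₀⟩ : ∃ e₀, e₀ = principalBlock M (Subgroup.centralizer ({x} : Set G)) := ⟨_, rfl⟩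
  rw [← he₀]
  have he : IsPBlock M e₀ := he₀ ▸ isPBlock_principalBlock
  obtain ⟨U, hU⟩ : ∃ U : Option XS → Subgroup.centralizer ({x} : Set G) → ℂ,
      U = fun a => a.elim 0 (fun χ => wP p T YS δ δ₀ (χ : IrrCharacter (Subgroup.centralizer ({x} : Set G) ⧸ T))) := ⟨_, rfl⟩
  have hU0 : U none = 0 := by rw [hU]; rfl
  have hUs : ∀ χ : XS, U (some χ) = wP p T YS δ δ₀ (χ : IrrCharacter (Subgroup.centralizer ({x} : Set G) ⧸ T)) := by
    intro χ
    rw [hU]
    rfl
  have hUm : ∀ a, U a ∈ regSpan p e₀ := by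
    rintro (_ | χ)
    · rw [hU0]
      exact Submodule.zero_mem _
    · rw [hUs, he₀]
      exact wP_mem D χ.2
  have hUi : ∀ (a : Option XS) (ξ : IrrCharacter (Subgroup.centralizer ({x} : Set G))), ∃ n : ℤ, classInner (U a) (ξ : Subgroup.centralizer ({x} : Set G) → ℂ) = n := by
    rintro (_ | χ) ξ
    · rw [hU0]
      refine ⟨0, ?_⟩
      simp [classInner_def]
    · rw [hUs]
      exact wP_int D Q χ.2 ξ
  obtain ⟨v, hv⟩ : ∃ v : IrrCharacter G → Option XS → ℂ, v = fun (ζ : IrrCharacter G) a => classInner (secF p x e₀ (ζ : G → ℂ)) (U a) := ⟨_, rfl⟩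
  have hvf : ∀ ζ a, v ζ a = ∑ ξ, aa x ζ ξ * conj (classInner (U a) (ξ : Subgroup.centralizer ({x} : Set G) → ℂ)) := by
    intro ζ a
    rw [hv]
    exact inner_secF_eq hM he (hUm a) ζ
  have hvi : ∀ ζ a, IsIntegral ℤ (v ζ a) := by
    intro ζ a
    rw [hvf]
    refine IsIntegral.sum _ fun ξ _ => ?_
    obtain ⟨n, hn⟩ := hUi a ξ
    rw [hn, map_intCast]
    exact (isIntegral_aa ζ ξ).mul (isIntegral_intCast _)
  have hvc : ∀ ζ a, IsCyc (Nat.card G) (v ζ a) := by
    intro ζ a
    rw [hvf]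
    refine isCyc_sum _ _ fun ξ _ => ?_
    obtain ⟨n, hn⟩ := hUi a ξ
    rw [hn, map_intCast]
    exact (isCyc_aa ζ ξ).mul (isCyc_intCast _)
  have hpars : ∀ a b, ∑ ζ : IrrCharacter G, (v ζ a - v ζ b) * conj (v ζ a - v ζ b) = classInner (U a - U b) (U a - U b) := by
    intro a b
    rw [← parseval_secF hM hu he (Submodule.sub_mem _ (hUm a) (hUm b))]
    refine Finset.sum_congr rfl fun ζ _ => ?_
    rw [classInner_sub_right, hv]
  -- the norms
  obtain ⟨e, he'⟩ : ∃ e, e = XS.card := ⟨_, rfl⟩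
  obtain ⟨s, hs⟩ : ∃ s, s = YS.card := ⟨_, rfl⟩
  have hg : ∀ χ₁ χ₂ : XS, classInner (U (some χ₁)) (U (some χ₂)) = (p : ℂ) * ((if χ₁ = χ₂ then 1 else 0) + (s : ℂ)) := by
    intro χ₁ χ₂
    rw [hUs, hUs, wP_gram D Q χ₁.2 χ₂.2, hs]
    congr 2
    by_cases h : χ₁ = χ₂
    · rw [if_pos h, if_pos (congrArg _ h)]
    · rw [if_neg h, if_neg (fun h' => h (Subtype.ext h'))]
  have hN1 : ∀ χ : XS, classInner (U none - U (some χ)) (U none - U (some χ)) = (p : ℂ) * (1 + s) := by
    intro χ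
    rw [hU0, zero_sub]
    have e1 : classInner (-U (some χ)) (-U (some χ)) = classInner (U (some χ)) (U (some χ)) := by
      simp [classInner_def]
    rw [e1, hg, if_pos rfl]
  have hN2 : ∀ χ : XS, classInner (U (some χ) - U none) (U (some χ) - U none) = (p : ℂ) * (1 + s) := by
    intro χ
    rw [hU0, sub_zero, hg, if_pos rfl]
  have hN3 : ∀ χ₁ χ₂ : XS, classInner (U (some χ₁) - U (some χ₂)) (U (some χ₁) - U (some χ₂)) =
      2 * (p : ℂ) * (1 - if χ₁ = χ₂ then 1 else 0) := by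
    intro χ₁ χ₂
    rw [classInner_sub_left, classInner_sub_right, classInner_sub_right, hg, hg, hg, hg, if_pos rfl, if_pos rfl]
    by_cases h : χ₁ = χ₂
    · rw [if_pos h, if_pos h.symm]
      ring
    · rw [if_neg h, if_neg (fun h' => h h'.symm)]
      ring
  have hcardX : Fintype.card XS = e := by
    rw [he']
    exact Fintype.card_coe XS
  have hN : ∑ ab : Option XS × Option XS, classInner (U ab.1 - U ab.2) (U ab.1 - U ab.2) =
      (((2 * e * p * (e + s) : ℕ) : ℚ) : ℂ) := by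
    rw [Fintype.sum_prod_type, Fintype.sum_option]
    simp only [Fintype.sum_option, hN1, hN2, hN3]
    rw [hU0, sub_self]
    have e1 : classInner (0 : Subgroup.centralizer ({x} : Set G) → ℂ) 0 = 0 := by
      simp [classInner_def]
    rw [e1]
    simp only [Finset.sum_const, Finset.card_univ, hcardX, Finset.sum_add_distrib, mul_sub, mul_one, Finset.sum_sub_distrib, mul_ite, mul_zero,
      Finset.sum_ite_eq, Finset.mem_univ, if_true, nsmul_eq_mul]
    push_cast
    ring
  obtain ⟨A, hA⟩ : ∃ A : IrrCharacter G → Finset (Option XS × Option XS), A = fun ζ =>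
      Finset.univ.filter (fun ab => v ζ ab.1 - v ζ ab.2 ≠ 0) := ⟨_, rfl⟩
  have hmem : ∀ ζ ab, ab ∈ A ζ ↔ v ζ ab.1 - v ζ ab.2 ≠ 0 := by
    intro ζ ab
    rw [hA]
    simp
  obtain ⟨S, hS⟩ : ∃ S : Finset (Σ _ : IrrCharacter G, Option XS × Option XS), S = Finset.univ.sigma A := ⟨_, rfl⟩
  have hS1 : ∑ i ∈ S, (v i.1 i.2.1 - v i.1 i.2.2) * conj (v i.1 i.2.1 - v i.1 i.2.2) = (((2 * e * p * (e + s) : ℕ) : ℚ) : ℂ) := by
    rw [hS, Finset.sum_sigma, ← hN]
    simp only
    have e1 : ∀ ζ, ∑ ab ∈ A ζ, (v ζ ab.1 - v ζ ab.2) * conj (v ζ ab.1 - v ζ ab.2) =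
        ∑ ab : Option XS × Option XS, (v ζ ab.1 - v ζ ab.2) * conj (v ζ ab.1 - v ζ ab.2) := by
      intro ζ
      refine Finset.sum_subset (Finset.subset_univ _) fun ab _ hab => ?_
      have : v ζ ab.1 - v ζ ab.2 = 0 := by
        by_contra h
        exact hab ((hmem ζ ab).2 h)
      rw [this]
      simp
    simp only [e1]
    rw [Finset.sum_comm]
    exact Finset.sum_congr rfl fun ab _ => hpars ab.1 ab.2
  have hcard := Cfsg.Agent.Lib.Block.card_le_of_sum_eq (n := Nat.card G) S (fun i => v i.1 i.2.1 - v i.1 i.2.2)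
    (fun i _ => (hvc _ _).sub (hvc _ _))
    (fun i hi => by
      rw [hS, Finset.mem_sigma] at hi
      exact (hmem _ _).1 hi.2)
    (fun i _ => (hvi _ _).sub (hvi _ _)) _ hS1
  have hcardN : S.card ≤ 2 * e * p * (e + s) := by
    have : (S.card : ℝ) ≤ ((2 * e * p * (e + s) : ℕ) : ℝ) := by
      simpa using hcard
    exact_mod_cast this
  -- lower bound
  have hepos : 0 < e := by
    rw [he']
    exact D.hpos
  have hlow : ∀ ζ : IrrCharacter G, secF p x e₀ (ζ : G → ℂ) ≠ 0 → 2 * e ≤ (A ζ).card := by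
    intro ζ hζ
    obtain ⟨χ₀, hχ₀⟩ : ∃ χ₀ : XS, v ζ (some χ₀) ≠ 0 := by
      by_contra hcon
      push Not at hcon
      apply hζ
      refine wP_sep (T := T) (t := t) (μ := μ) D Q ?_ (fun χ hχ => ?_)
      · rw [← he₀]
        exact secF_mem hM he _
      · have h1 := hcon ⟨χ, hχ⟩
        rw [hv] at h1
        simp only [hUs] at h1
        exact h1
    have hv0 : v ζ none = 0 := by
      rw [hv]
      simp only
      rw [hU0]
      simp [classInner_def]
    obtain ⟨Z₀, hZ₀⟩ : ∃ Z₀ : Finset (Option XS), Z₀ = Finset.univ.filter (fun a => v ζ a = 0) := ⟨_, rfl⟩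
    obtain ⟨Z₁, hZ₁⟩ : ∃ Z₁ : Finset (Option XS), Z₁ = Finset.univ.filter (fun a => ¬ v ζ a = 0) := ⟨_, rfl⟩
    have hsum : Z₀.card + Z₁.card = e + 1 := by
      rw [hZ₀, hZ₁, Finset.card_filter_add_card_filter_not, Finset.card_univ, Fintype.card_option, hcardX]
    have h0pos : 1 ≤ Z₀.card := Finset.card_pos.2 ⟨none, by simp [hZ₀, hv0]⟩
    have h1pos : 1 ≤ Z₁.card := Finset.card_pos.2 ⟨some χ₀, by simp [hZ₁, hχ₀]⟩
    have hsub : Z₀ ×ˢ Z₁ ∪ Z₁ ×ˢ Z₀ ⊆ A ζ := by
      intro ab hab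
      rw [hmem]
      rw [Finset.mem_union, Finset.mem_product, Finset.mem_product] at hab
      simp only [hZ₀, hZ₁, Finset.mem_filter, Finset.mem_univ, true_and] at hab
      rcases hab with ⟨h1, h2⟩ | ⟨h1, h2⟩
      · rw [h1, zero_sub]
        exact neg_ne_zero.2 h2
      · rw [h2, sub_zero]
        exact h1
    have hdisj : Disjoint (Z₀ ×ˢ Z₁) (Z₁ ×ˢ Z₀) := by
      rw [Finset.disjoint_left]
      intro ab h1 h2
      rw [Finset.mem_product] at h1 h2
      have h3 := h1.1
      have h4 := h2.1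
      rw [hZ₀] at h3
      rw [hZ₁] at h4
      simp only [Finset.mem_filter, Finset.mem_univ, true_and] at h3 h4
      exact h4 h3
    have h3 := Finset.card_le_card hsub
    rw [Finset.card_union_of_disjoint hdisj, Finset.card_product, Finset.card_product] at h3
    have h4 : e ≤ Z₀.card * Z₁.card := by
      obtain ⟨a, ha⟩ : ∃ a, Z₀.card = a + 1 := ⟨Z₀.card - 1, by omega⟩
      obtain ⟨b, hb⟩ : ∃ b, Z₁.card = b + 1 := ⟨Z₁.card - 1, by omega⟩
      rw [ha, hb] at hsum ⊢
      nlinarith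
    nlinarith [mul_comm Z₀.card Z₁.card]
  have hS2 : 2 * e * (Finset.univ.filter (fun ζ : IrrCharacter G => secF p x e₀ (ζ : G → ℂ) ≠ 0)).card ≤ S.card := by
    rw [hS, Finset.card_sigma]
    calc 2 * e * (Finset.univ.filter (fun ζ : IrrCharacter G => secF p x e₀ (ζ : G → ℂ) ≠ 0)).card
        = ∑ ζ ∈ Finset.univ.filter (fun ζ : IrrCharacter G => secF p x e₀ (ζ : G → ℂ) ≠ 0), 2 * e := by
          rw [Finset.sum_const, smul_eq_mul, mul_comm]
      _ ≤ ∑ ζ ∈ Finset.univ.filter (fun ζ : IrrCharacter G => secF p x e₀ (ζ : G → ℂ) ≠ 0), (A ζ).card :=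
          Finset.sum_le_sum fun ζ hζ => hlow ζ (Finset.mem_filter.1 hζ).2
      _ ≤ ∑ ζ, (A ζ).card := Finset.sum_le_sum_of_subset_of_nonneg (Finset.subset_univ _) fun _ _ _ => Nat.zero_le _
  have h5 := hS2.trans hcardN
  have h6 : 2 * e * (Finset.univ.filter (fun ζ : IrrCharacter G => secF p x e₀ (ζ : G → ℂ) ≠ 0)).card ≤ 2 * e * (p * (e + s)) := by
    calc _ ≤ 2 * e * p * (e + s) := h5
      _ = _ := by ring
  rw [← he', ← hs]
  exact Nat.le_of_mul_le_mul_left h6 (by positivity)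

end Main

end Count

end Cfsg.Agent.Lib.FF
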