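import Cfsg.Agent.Lib.FF.KP3

/-!
# The number of height zero characters of the principal block, given a `p`-element with small centralizer
-/

set_option autoImplicit false
set_option linter.unusedSectionVars false
set_option linter.unusedVariables false
set_option maxSynthPendingDepth 3
set_option linter.style.haveILetI false
set_option linter.unusedSimpArgs false
set_option linter.unnecessarySimpa false

open scoped ComplexConjugate
open Module Cfsg Cfsg.Agent.Lib.Block Cfsg.Agent.Lib.Char Cfsg.Agent.Lib.CharExtra Cfsg.Agent.Lib.BPair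

namespace Cfsg.Agent.Lib.FF

attribute [local instance] Cfsg.Agent.Lib.BPair.subFintype

section K0

variable {G : Type*} [Group G] [Fintype G] {p : ℕ} [hp : Fact p.Prime] {M : Ideal AlgInt} {x : G}
  [Fintype (Subgroup.centralizer ({x} : Set G))]

open Classical in
/-- The value at the `p`-element is the value of the subsection function at the identity. -/
theorem secF_one_eq (hM : IsPModular p M) (hu : ∃ k, orderOf x = p ^ k) (ζ : IrrCharacter G) (hζ : ζ ∈ principalBlock M G) :
    secF p x (principalBlock M (Subgroup.centralizer ({x} : Set G))) (ζ : G → ℂ) 1 = (ζ : G → ℂ) x := by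
  have h1 := irr_section_principal hM hu (1 : Subgroup.centralizer ({x} : Set G)) (by simp [hp.out.one_lt.ne']) ζ hζ
  rw [indSet_principal_centralizer hM hu] at h1
  have h2 : (x * ((1 : Subgroup.centralizer ({x} : Set G)) : G)) = x := by simp
  rw [h2] at h1
  rw [h1, secF_eq_sum, Finset.sum_apply]
  refine Finset.sum_congr rfl fun ξ _ => ?_
  split_ifs
  · simp only [Pi.smul_apply, smul_eq_mul]
    rw [pRegularPart_eq_of_regular _ (by simp [hp.out.one_lt.ne'])]
    rfl
  · rfl

theorem secF_ne_zero (hM : IsPModular p M) (hu : ∃ k, orderOf x = p ^ k) (ζ : IrrCharacter G) (hζ : ζ ∈ principalBlock M G)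
    (hd : ¬ p ∣ charDegree (ζ : G → ℂ)) :
    secF p x (principalBlock M (Subgroup.centralizer ({x} : Set G))) (ζ : G → ℂ) ≠ 0 := by
  have := isPModular_isPrime hM
  intro h0
  have h1 := secF_one_eq hM hu ζ hζ
  rw [h0] at h1
  have h2 := memLocalIdeal_char_mul_sub (M := M) hM (IsIrrCharacter.isCharacter ζ.2) (x := x) (y := 1) (Commute.one_right _) hu
  rw [mul_one, ← h1, Pi.zero_apply, zero_sub, map_one_eq_charDegree (IsIrrCharacter.isCharacter ζ.2)] at h2
  have h3 := memLocalIdeal_neg h2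
  rw [neg_neg] at h3
  exact not_memLocalIdeal_natCast hM hd h3

open Classical in
/-- The case of a centralizer with a normal `p`-complement. -/
theorem count_nilp (hM : IsPModular p M) (hu : ∃ k, orderOf x = p ^ k)
    (N : Subgroup (Subgroup.centralizer ({x} : Set G))) [N.Normal] [Fintype N] (hN' : ¬ p ∣ Nat.card N) (hidx : ∃ k : ℕ, N.index = p ^ k) :
    (Finset.univ.filter (fun ζ : IrrCharacter G => ζ ∈ principalBlock M G ∧ (ζ : G → ℂ) x ≠ 0)).card ≤
      p ^ (Nat.card (Subgroup.centralizer ({x} : Set G))).factorization p := by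
  have := isPModular_isPrime hM
  haveI : NeZero (Nat.card G) := ⟨Nat.card_pos.ne'⟩
  have h1 := sum_principal_section hM hu (1 : Subgroup.centralizer ({x} : Set G)) (by simp [hp.out.one_lt.ne'])
  have h2 := sum_principal_pNilpotent hM N hN' hidx (1 : Subgroup.centralizer ({x} : Set G)) (by simp [hp.out.one_lt.ne'])
  rw [h2] at h1
  have h3 : (x * ((1 : Subgroup.centralizer ({x} : Set G)) : G)) = x := by simp
  rw [h3] at h1
  obtain ⟨S, hS⟩ : ∃ S, S = Finset.univ.filter (fun ζ : IrrCharacter G => ζ ∈ principalBlock M G ∧ (ζ : G → ℂ) x ≠ 0) := ⟨_, rfl⟩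
  rw [← hS]
  have hQ : ∑ ζ ∈ S, (ζ : G → ℂ) x * conj ((ζ : G → ℂ) x) =
      (((p ^ (Nat.card (Subgroup.centralizer ({x} : Set G))).factorization p : ℕ) : ℚ) : ℂ) := by
    have e : (((p ^ (Nat.card (Subgroup.centralizer ({x} : Set G))).factorization p : ℕ) : ℚ) : ℂ) =
        ((p ^ (Nat.card (Subgroup.centralizer ({x} : Set G))).factorization p : ℕ) : ℂ) := by
      push_cast
      rfl
    rw [e, ← h1, hS, Finset.sum_filter]
    refine Finset.sum_congr rfl fun ζ _ => ?_
    by_cases h4 : ζ ∈ principalBlock M G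
    · by_cases h5 : (ζ : G → ℂ) x = 0
      · rw [if_neg (fun h => h.2 h5), if_pos h4, h5]
        simp
      · rw [if_pos ⟨h4, h5⟩, if_pos h4]
        ring
    · rw [if_neg (fun h => h4 h.1), if_neg h4]
  have hc := Cfsg.Agent.Lib.Block.card_le_of_sum_eq (n := Nat.card G) S (fun ζ : IrrCharacter G => (ζ : G → ℂ) x)
    (fun ζ _ => isCyc_of_isCharacter (IsIrrCharacter.isCharacter ζ.2) pow_card_eq_one')
    (fun ζ hζ => by
      rw [hS] at hζ
      exact (Finset.mem_filter.1 hζ).2.2)
    (fun ζ _ => IsCharacter.isIntegral' (IsIrrCharacter.isCharacter ζ.2) x) _ hQ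
  have h6 : (S.card : ℝ) ≤ ((p ^ (Nat.card (Subgroup.centralizer ({x} : Set G))).factorization p : ℕ) : ℝ) := by
    simpa using hc
  exact_mod_cast h6

end K0

section Cyc

variable {C : Type*} [Group C] [Finite C] {p : ℕ} [hp : Fact p.Prime]

/-- A cyclic Sylow subgroup of order at most `p²` containing a nontrivial central element. -/
theorem norm_le_cen_of_cyc (Q : Sylow p C) (hcyc : IsCyclic (Q : Subgroup C)) (hcard : Nat.card (Q : Subgroup C) ∣ p ^ 2)
    {t : C} (htQ : t ∈ (Q : Subgroup C)) (htc : t ∈ Subgroup.center C) (ht1 : t ≠ 1) :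
    Subgroup.normalizer ((Q : Subgroup C) : Set C) ≤ Subgroup.centralizer ((Q : Subgroup C) : Set C) := by
  classical
  haveI : Fintype C := Fintype.ofFinite _
  intro g hg
  -- a generator
  obtain ⟨y, hy⟩ := hcyc.exists_generator
  obtain ⟨y0, hy0⟩ : ∃ y0 : C, y0 = (y : C) := ⟨_, rfl⟩
  have hy0Q : y0 ∈ (Q : Subgroup C) := hy0 ▸ y.2
  have hyQ : ∀ z ∈ (Q : Subgroup C), z ∈ Subgroup.zpowers y0 := by
    intro z hz
    obtain ⟨k, hk⟩ := Subgroup.mem_zpowers_iff.1 (hy ⟨z, hz⟩)
    rw [hy0]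
    refine Subgroup.mem_zpowers_iff.2 ⟨k, ?_⟩
    have := congrArg (Subtype.val) hk
    simpa using this
  obtain ⟨v, hv, hv2⟩ : ∃ v, orderOf y0 = p ^ v ∧ v ≤ 2 := by
    have h1 : orderOf y = Nat.card (Q : Subgroup C) := orderOf_eq_card_of_forall_mem_zpowers hy
    rw [hy0, Subgroup.orderOf_coe, h1]
    obtain ⟨v, hv, h2⟩ := (Nat.dvd_prime_pow hp.out).1 hcard
    exact ⟨v, h2, hv⟩
  obtain ⟨r, hr⟩ : ∃ r : ℕ, y0 ^ r = t := (isOfFinOrder_of_finite y0).mem_powers_iff_mem_zpowers.2 (hyQ t htQ)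
  -- the order is not one
  obtain ⟨n, rfl⟩ : ∃ n, v = n + 1 := by
    refine ⟨v - 1, ?_⟩
    have : v ≠ 0 := by
      rintro rfl
      have h1 : y0 = 1 := orderOf_eq_one_iff.1 (by simpa using hv)
      apply ht1
      rw [← hr, h1, one_pow]
    omega
  have hconj : ∀ {h : C}, h ∈ Subgroup.normalizer ((Q : Subgroup C) : Set C) → ∃ s : ℕ, ¬ p ∣ s ∧ h⁻¹ * y0 * h = y0 ^ s := by
    intro h hh
    refine exists_conj_pow hv (hyQ _ ?_)
    have h1 := (Subgroup.mem_normalizer_iff'.1 hh) y0
    have h2 : h⁻¹ ∈ Subgroup.normalizer ((Q : Subgroup C) : Set C) := Subgroup.inv_mem _ hh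
    have h3 := (Subgroup.mem_normalizer_iff.1 h2 y0).1 hy0Q
    simpa using h3
  obtain ⟨s, hs, hsg⟩ := hconj hg
  -- the exponent
  have hs0 : 0 < s := Nat.pos_of_ne_zero (fun h => hs (by rw [h]; exact dvd_zero p))
  have hs1 : p ∣ s - 1 := by
    have h1 : g⁻¹ * t * g = t := by
      have h2 := (Subgroup.mem_center_iff.1 htc g)
      rw [mul_assoc, ← h2]
      group
    have h2 : g⁻¹ * t * g = (g⁻¹ * y0 * g) ^ r := by
      rw [← hr]
      have e : g⁻¹ * y0 * g = g⁻¹ * y0 * g⁻¹⁻¹ := by simp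
      rw [e, conj_pow]
      simp
    rw [hsg, ← pow_mul, h1, ← hr] at h2
    have h3 : r ≡ s * r [MOD orderOf y0] := (pow_eq_pow_iff_modEq.1 h2)
    have h4 : orderOf y0 ∣ s * r - r := (Nat.modEq_iff_dvd' (Nat.le_mul_of_pos_left r hs0)).1 h3
    have h5 : s * r - r = (s - 1) * r := by
      rw [Nat.sub_mul, one_mul]
    rw [h5, hv] at h4
    by_contra hcon
    have h6 : Nat.Coprime (p ^ (n + 1)) (s - 1) := Nat.Coprime.pow_left _ ((Nat.Prime.coprime_iff_not_dvd hp.out).2 hcon)
    have h7 : p ^ (n + 1) ∣ r := h6.dvd_of_dvd_mul_left h4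
    apply ht1
    rw [← hr, ← orderOf_dvd_iff_pow_eq_one, hv]
    exact h7
  -- the power
  have hpow : ∀ k : ℕ, (g ^ k)⁻¹ * y0 * g ^ k = y0 ^ s ^ k := by
    intro k
    induction k with
    | zero => simp
    | succ k ih =>
      have e1 : (g ^ (k + 1))⁻¹ * y0 * g ^ (k + 1) = g⁻¹ * ((g ^ k)⁻¹ * y0 * g ^ k) * g := by
        rw [pow_succ]
        group
      rw [e1, ih]
      have e : g⁻¹ * y0 ^ s ^ k * g = g⁻¹ * y0 ^ s ^ k * g⁻¹⁻¹ := by simp
      rw [e, ← conj_pow]
      have e2 : g⁻¹ * y0 * g⁻¹⁻¹ = y0 ^ s := by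
        rw [inv_inv]
        exact hsg
      rw [e2, ← pow_mul, pow_succ]
      congr 1
      ring
  have hcomm : ∀ {h : C}, h⁻¹ * y0 * h = y0 → h ∈ Subgroup.centralizer ({y0} : Set C) := by
    intro h he
    rw [Subgroup.mem_centralizer_singleton_iff]
    have e1 : h * (h⁻¹ * y0 * h) = y0 * h := by group
    rw [he] at e1
    exact e1
  have hgp : g ^ p ∈ Subgroup.centralizer ({y0} : Set C) := by
    apply hcomm
    rw [hpow]
    have h1 : ((p : ℤ) ^ (1 + 1)) ∣ (s : ℤ) ^ p ^ 1 - 1 ^ p ^ 1 := by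
      refine dvd_sub_pow_of_dvd_sub (R := ℤ) ?_ 1
      have : ((s - 1 : ℕ) : ℤ) = (s : ℤ) - 1 := by
        rw [Nat.cast_sub hs0]
        simp
      rw [← this]
      exact_mod_cast hs1
    rw [pow_one, one_pow] at h1
    have h2 : ((p ^ 2 : ℕ) : ℤ) ∣ ((s ^ p - 1 : ℕ) : ℤ) := by
      have : ((s ^ p - 1 : ℕ) : ℤ) = (s : ℤ) ^ p - 1 := by
        rw [Nat.cast_sub (Nat.one_le_pow _ _ hs0)]
        simp
      rw [this]
      exact_mod_cast h1
    have h3 : p ^ 2 ∣ s ^ p - 1 := by exact_mod_cast h2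
    have h4 : p ^ (n + 1) ∣ p ^ 2 := pow_dvd_pow _ (by omega)
    have h5 : orderOf y0 ∣ s ^ p - 1 := by
      rw [hv]
      exact h4.trans h3
    have h6 : y0 ^ s ^ p = y0 ^ 1 := by
      rw [pow_eq_pow_iff_modEq]
      exact ((Nat.modEq_iff_dvd' (Nat.one_le_pow _ _ hs0)).2 h5).symm
    rwa [pow_one] at h6
  -- the index
  obtain ⟨K, hK⟩ : ∃ K, K = Subgroup.normalizer ((Q : Subgroup C) : Set C) := ⟨_, rfl⟩
  have hQK : (Q : Subgroup C) ≤ K := by
    rw [hK]
    exact Subgroup.le_normalizer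
  haveI hnorm : ((Q : Subgroup C).subgroupOf K).Normal := by
    rw [hK]
    exact Subgroup.normal_in_normalizer
  have hgK : g ∈ K := hK ▸ hg
  have h1 : (⟨g, hgK⟩ : K) ^ ((Q : Subgroup C).subgroupOf K).index ∈ (Q : Subgroup C).subgroupOf K :=
    Subgroup.pow_index_mem _ _
  have h2 : g ^ ((Q : Subgroup C).subgroupOf K).index ∈ (Q : Subgroup C) := by
    rw [Subgroup.mem_subgroupOf] at h1
    simpa using h1
  have h3 : ¬ p ∣ ((Q : Subgroup C).subgroupOf K).index := by
    intro hd
    apply Q.not_dvd_index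
    have h4 := Subgroup.relIndex_mul_index hQK
    rw [← h4]
    exact hd.trans (Dvd.intro _ rfl)
  have h4 : g ^ ((Q : Subgroup C).subgroupOf K).index ∈ Subgroup.centralizer ({y0} : Set C) := by
    obtain ⟨k, hk⟩ := Subgroup.mem_zpowers_iff.1 (hyQ _ h2)
    rw [Subgroup.mem_centralizer_singleton_iff, ← hk]
    exact ((Commute.refl y0).zpow_left k).eq
  have hgc : g ∈ Subgroup.centralizer ({y0} : Set C) := by
    have hco : Nat.Coprime ((Q : Subgroup C).subgroupOf K).index p := ((Nat.Prime.coprime_iff_not_dvd hp.out).2 h3).symm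
    have h5 := Nat.gcd_eq_gcd_ab ((Q : Subgroup C).subgroupOf K).index p
    rw [hco] at h5
    have h6 : g = (g ^ ((Q : Subgroup C).subgroupOf K).index) ^ (Nat.gcdA ((Q : Subgroup C).subgroupOf K).index p) * (g ^ p) ^ (Nat.gcdB ((Q : Subgroup C).subgroupOf K).index p) := by
      rw [← zpow_natCast, ← zpow_natCast, ← zpow_mul, ← zpow_mul, ← zpow_add]
      rw [show (((Q : Subgroup C).subgroupOf K).index : ℤ) * (Nat.gcdA ((Q : Subgroup C).subgroupOf K).index p) + (p : ℤ) * (Nat.gcdB ((Q : Subgroup C).subgroupOf K).index p) = 1 by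
        rw [← h5]
        simp]
      simp
    rw [h6]
    exact Subgroup.mul_mem _ (Subgroup.zpow_mem _ h4 _) (Subgroup.zpow_mem _ hgp _)
  rw [Subgroup.mem_centralizer_iff]
  intro z hz
  obtain ⟨k, hk⟩ := Subgroup.mem_zpowers_iff.1 (hyQ z hz)
  rw [← hk]
  have h7 : Commute g y0 := Subgroup.mem_centralizer_singleton_iff.1 hgc
  exact ((h7.zpow_right k).eq).symm

/-- A central element of order `p` not in the Frattini subgroup is detected by a linear character of order `p`. -/
theorem exists_mu (Q : Sylow p C) (hcard : Nat.card (Q : Subgroup C) = p ^ 2) (hcyc : ¬ IsCyclic (Q : Subgroup C))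
    {t : C} (htQ : t ∈ (Q : Subgroup C)) (htc : t ∈ Subgroup.center C) (ht1 : t ≠ 1) :
    orderOf t = p ∧ ∃ μ : C →* ℂˣ, (∀ c, μ c ^ p = 1) ∧ μ t ≠ 1 := by
  classical
  haveI : NeZero p := ⟨hp.out.ne_zero⟩
  have hexp : ∀ q : (Q : Subgroup C), q ^ p = 1 := by
    intro q
    have h1 : orderOf q ∣ p ^ 2 := by
      rw [← hcard]
      exact orderOf_dvd_natCard q
    obtain ⟨v, hv, h2⟩ := (Nat.dvd_prime_pow hp.out).1 h1
    rw [← orderOf_dvd_iff_pow_eq_one]
    by_cases hv2 : v = 2
    · exfalso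
      apply hcyc
      refine isCyclic_of_orderOf_eq_card q ?_
      rw [h2, hv2, hcard]
    · have hv1 : v ≤ 1 := by omega
      rw [h2]
      calc p ^ v ∣ p ^ 1 := pow_dvd_pow _ hv1
        _ = p := pow_one p
  refine ⟨?_, ?_⟩
  · have h1 := hexp ⟨t, htQ⟩
    have h2 : t ^ p = 1 := by
      have := congrArg Subtype.val h1
      simpa using this
    exact orderOf_eq_prime h2 ht1
  letI hcomm : CommGroup (Q : Subgroup C) := IsPGroup.commGroupOfCardEqPrimeSq hcard
  have ht1' : (⟨t, htQ⟩ : (Q : Subgroup C)) ≠ 1 := by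
    intro h
    apply ht1
    exact congrArg Subtype.val h
  haveI : NeZero (Monoid.exponent (Q : Subgroup C)) := ⟨Monoid.exponent_ne_zero_of_finite⟩
  obtain ⟨ν, hν⟩ := CommGroup.exists_apply_ne_one_of_hasEnoughRootsOfUnity (Q : Subgroup C) ℂ ht1'
  have hνp : ∀ q, ν q ^ p = 1 := by
    intro q
    rw [← map_pow, hexp, map_one]
  let ν' : (Q : Subgroup C) →* rootsOfUnity p ℂ := ν.codRestrict (rootsOfUnity p ℂ) (fun q => by
    rw [mem_rootsOfUnity]
    exact hνp q)
  haveI : (Q : Subgroup C).FiniteIndex := inferInstance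
  let μ' : C →* rootsOfUnity p ℂ := ν'.transfer
  refine ⟨(rootsOfUnity p ℂ).subtype.comp μ', ?_, ?_⟩
  · intro c
    have := (mem_rootsOfUnity _ _).1 (μ' c).2
    simpa using this
  · intro hμ
    have h1 : μ' t = ν' ⟨t ^ (Q : Subgroup C).index, (Q : Subgroup C).pow_mem htQ _⟩ := by
      refine MonoidHom.transfer_eq_pow ν' t (fun k g₀ _ => ?_)
      have h2 : t ^ k ∈ Subgroup.center C := Subgroup.pow_mem _ htc _
      have h3 := Subgroup.mem_center_iff.1 h2 g₀
      rw [mul_assoc, ← h3]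
      group
    have h2 : μ' t = 1 := by
      apply Subtype.ext
      simpa using hμ
    rw [h2] at h1
    have h3 : ν ⟨t ^ (Q : Subgroup C).index, (Q : Subgroup C).pow_mem htQ _⟩ = 1 := by
      have := congrArg Subtype.val h1.symm
      simpa [ν'] using this
    have h4 : (⟨t ^ (Q : Subgroup C).index, (Q : Subgroup C).pow_mem htQ _⟩ : (Q : Subgroup C)) = (⟨t, htQ⟩ : (Q : Subgroup C)) ^ (Q : Subgroup C).index := rfl
    rw [h4, map_pow] at h3
    have h5 : orderOf (ν ⟨t, htQ⟩) = p := orderOf_eq_prime (hνp _) hν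
    have h6 : p ∣ (Q : Subgroup C).index := by
      have := orderOf_dvd_of_pow_eq_one h3
      rwa [h5] at this
    exact Q.not_dvd_index h6

end Cyc

section Final

variable {G : Type*} [Group G] [Fintype G] {p : ℕ} [hp : Fact p.Prime] {M : Ideal AlgInt}

theorem val_ne_zero_of_deg (hM : IsPModular p M) {x : G} (hu : ∃ k, orderOf x = p ^ k) (ζ : IrrCharacter G)
    (hd : ¬ p ∣ charDegree (ζ : G → ℂ)) : (ζ : G → ℂ) x ≠ 0 := by
  have := isPModular_isPrime hM
  intro h1
  have h2 := memLocalIdeal_char_mul_sub (M := M) hM (IsIrrCharacter.isCharacter ζ.2) (x := x) (y := 1) (Commute.one_right _) hu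
  rw [mul_one, h1, zero_sub, map_one_eq_charDegree (IsIrrCharacter.isCharacter ζ.2)] at h2
  have h3 := memLocalIdeal_neg h2
  rw [neg_neg] at h3
  exact not_memLocalIdeal_natCast hM hd h3

open Classical in
/-- The case of a nonidentity element. -/
theorem count_of_ne_one (hM : IsPModular p M) {x : G} (hu : ∃ k, orderOf x = p ^ k) (hx1 : x ≠ 1)
    (h2 : (Nat.card (Subgroup.centralizer ({x} : Set G))).factorization p ≤ 2) :
    (Finset.univ.filter (fun ζ : IrrCharacter G => ζ ∈ principalBlock M G ∧ ¬ p ∣ charDegree (ζ : G → ℂ))).card ≤ p ^ 2 := by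
  have := isPModular_isPrime hM
  obtain ⟨t, ht⟩ : ∃ t : Subgroup.centralizer ({x} : Set G), t = ⟨x, Subgroup.mem_centralizer_singleton_iff.2 rfl⟩ := ⟨_, rfl⟩
  have htc : t ∈ Subgroup.center (Subgroup.centralizer ({x} : Set G)) := by
    rw [Subgroup.mem_center_iff]
    intro g
    have h1 : Commute (g : G) x := Subgroup.mem_centralizer_singleton_iff.1 g.2
    apply Subtype.ext
    rw [ht]
    exact h1.eq
  have ht1 : t ≠ 1 := by
    intro h
    apply hx1
    have := congrArg Subtype.val h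
    simpa [ht] using this
  have hto : orderOf t = orderOf x := by
    rw [← Subgroup.orderOf_coe t, ht]
  have hP : IsPGroup p (Subgroup.zpowers t) := by
    obtain ⟨k, hk⟩ := hu
    refine IsPGroup.iff_card.2 ⟨k, ?_⟩
    rw [Nat.card_zpowers, hto, hk]
  obtain ⟨Q, hQ⟩ := hP.exists_le_sylow
  have htQ : t ∈ (Q : Subgroup (Subgroup.centralizer ({x} : Set G))) := hQ (Subgroup.mem_zpowers t)
  obtain ⟨v, hv⟩ : ∃ v, v = (Nat.card (Subgroup.centralizer ({x} : Set G))).factorization p := ⟨_, rfl⟩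
  rw [← hv] at h2
  have hQc : Nat.card (Q : Subgroup (Subgroup.centralizer ({x} : Set G))) = p ^ v := by
    rw [Sylow.card_eq_multiplicity, hv]
  by_cases hcyc : IsCyclic (Q : Subgroup (Subgroup.centralizer ({x} : Set G)))
  · -- Burnside
    have hn := norm_le_cen_of_cyc Q hcyc (by rw [hQc]; exact pow_dvd_pow _ h2) htQ htc ht1
    haveI : Fintype (Sylow p (Subgroup.centralizer ({x} : Set G))) := Fintype.ofFinite _
    obtain ⟨N, hN⟩ : ∃ N, N = (MonoidHom.transferSylow Q hn).ker := ⟨_, rfl⟩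
    haveI : N.Normal := hN ▸ MonoidHom.normal_ker _
    have hN' : ¬ p ∣ Nat.card N := hN ▸ MonoidHom.not_dvd_card_ker_transferSylow Q hn
    have hidx : N.index = p ^ v := by
      rw [hN, ← hQc]
      exact (MonoidHom.ker_transferSylow_isComplement' Q hn).symm.index_eq_card
    have hc := count_nilp hM hu N hN' ⟨v, hidx⟩
    rw [← hv] at hc
    refine le_trans (Finset.card_le_card ?_) (hc.trans (Nat.pow_le_pow_right hp.out.pos h2))
    intro ζ hζ
    rw [Finset.mem_filter] at hζ ⊢
    exact ⟨Finset.mem_univ _, hζ.2.1, val_ne_zero_of_deg hM hu ζ hζ.2.2⟩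
  · -- the non-cyclic case
    have hv2 : v = 2 := by
      by_contra hne
      apply hcyc
      have hv1 : v = 0 ∨ v = 1 := by omega
      rcases hv1 with rfl | rfl
      · exfalso
        apply ht1
        have h1 : Nat.card (Q : Subgroup (Subgroup.centralizer ({x} : Set G))) = 1 := by
          rw [hQc, pow_zero]
        have h3 := (Subgroup.card_eq_one.1 h1)
        have h4 : t ∈ (⊥ : Subgroup (Subgroup.centralizer ({x} : Set G))) := h3 ▸ htQ
        simpa using h4
      · haveI : Fact (Nat.Prime (Nat.card (Q : Subgroup (Subgroup.centralizer ({x} : Set G))))) := ⟨by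
          rw [hQc, pow_one]
          exact hp.out⟩
        exact isCyclic_of_prime_card rfl
    subst hv2
    obtain ⟨hop, μ, hμ, hμt⟩ := exists_mu Q hQc hcyc htQ htc ht1
    obtain ⟨T, hT⟩ : ∃ T, T = Subgroup.zpowers t := ⟨_, rfl⟩
    haveI hTn : T.Normal := by
      refine ⟨fun n hn g => ?_⟩
      have h1 : n ∈ Subgroup.center (Subgroup.centralizer ({x} : Set G)) := by
        rw [hT] at hn
        exact (Subgroup.zpowers_le.2 htc) hn
      have h3 := Subgroup.mem_center_iff.1 h1 g
      rw [h3, mul_assoc, mul_inv_cancel, mul_one]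
      exact hn
    haveI : Fintype (Subgroup.centralizer ({x} : Set G) ⧸ T) := Fintype.ofFinite _
    have hQD : QD p T t μ := ⟨hT, htc, hop, hμ, hμt⟩
    have hX : (Nat.card (Subgroup.centralizer ({x} : Set G) ⧸ T)).factorization p = 1 := by
      have h3 := hQD.card_eq
      have h4 : Nat.card (Subgroup.centralizer ({x} : Set G) ⧸ T) ≠ 0 := Nat.card_pos.ne'
      have h5 : (Nat.card (Subgroup.centralizer ({x} : Set G))).factorization p = (p * Nat.card (Subgroup.centralizer ({x} : Set G) ⧸ T)).factorization p := by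
        rw [← h3]
      have h6 : (p * Nat.card (Subgroup.centralizer ({x} : Set G) ⧸ T)).factorization p = 1 + (Nat.card (Subgroup.centralizer ({x} : Set G) ⧸ T)).factorization p := by
        rw [Nat.factorization_mul hp.out.ne_zero h4, Finsupp.add_apply, hp.out.factorization_self]
      rw [h6, ← hv] at h5
      omega
    obtain ⟨XS, YS, δ, δ₀, D⟩ := exists_pd hM hX
    have hc := count_qd hM hu hQD D
    have hsum : XS.card + YS.card ≤ p := by
      have h3 := D.hmul
      have h4 := D.hpos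
      have h5 : 1 ≤ p - 1 := by
        have := hp.out.two_le
        omega
      have h6 : 0 < YS.card := by
        rcases Nat.eq_zero_or_pos YS.card with h7 | h7
        · rw [h7, mul_zero] at h3
          omega
        · exact h7
      obtain ⟨a, ha⟩ : ∃ a, XS.card = a + 1 := ⟨XS.card - 1, by omega⟩
      obtain ⟨b, hb⟩ : ∃ b, YS.card = b + 1 := ⟨YS.card - 1, by omega⟩
      have h7 : p = XS.card * YS.card + 1 := by omega
      rw [h7, ha, hb]
      nlinarith
    have hc2 : p * (XS.card + YS.card) ≤ p ^ 2 := by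
      rw [pow_two]
      exact Nat.mul_le_mul_left _ hsum
    refine le_trans (Finset.card_le_card ?_) (hc.trans hc2)
    intro ζ hζ
    rw [Finset.mem_filter] at hζ ⊢
    exact ⟨Finset.mem_univ _, secF_ne_zero hM hu ζ hζ.2.1 hζ.2.2⟩

open Classical in
/-- The final bound. -/
theorem count_principal_height_zero (hM : IsPModular p M) {x : G} (hu : ∃ k, orderOf x = p ^ k)
    (h2 : (Nat.card (Subgroup.centralizer ({x} : Set G))).factorization p ≤ 2) :
    (Finset.univ.filter (fun ζ : IrrCharacter G => ζ ∈ principalBlock M G ∧ ¬ p ∣ charDegree (ζ : G → ℂ))).card ≤ p ^ 2 := by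
  by_cases hx1 : x = 1
  · subst hx1
    have hcen : Nat.card (Subgroup.centralizer ({(1 : G)} : Set G)) = Nat.card G := by
      have : Subgroup.centralizer ({(1 : G)} : Set G) = ⊤ := by
        ext g
        simp [Subgroup.mem_centralizer_singleton_iff]
      rw [this]
      exact Nat.card_congr Subgroup.topEquiv.toEquiv
    by_cases hpG : p ∣ Nat.card G
    · obtain ⟨z, hz⟩ := exists_prime_orderOf_dvd_card' p hpG
      refine count_of_ne_one hM (x := z) ⟨1, by rw [hz, pow_one]⟩ ?_ ?_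
      · rintro rfl
        rw [orderOf_one] at hz
        exact hp.out.one_lt.ne hz
      · refine le_trans ?_ h2
        rw [hcen]
        exact (Nat.factorization_le_iff_dvd Nat.card_pos.ne' Nat.card_pos.ne').2 (Subgroup.card_subgroup_dvd_card _) p
    · have hnd : ¬ p ∣ Nat.card (Subgroup.centralizer ({(1 : G)} : Set G)) := by
        rw [hcen]
        exact hpG
      have hc := count_nilp (x := (1 : G)) hM hu ⊤
        (by
          rw [Nat.card_congr Subgroup.topEquiv.toEquiv]
          exact hnd)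
        ⟨0, by simp⟩
      rw [Nat.factorization_eq_zero_of_not_dvd hnd, pow_zero] at hc
      refine le_trans (Finset.card_le_card ?_) (hc.trans (Nat.one_le_pow _ _ hp.out.pos))
      intro ζ hζ
      rw [Finset.mem_filter] at hζ ⊢
      exact ⟨Finset.mem_univ _, hζ.2.1, val_ne_zero_of_deg hM hu ζ hζ.2.2⟩
  · exact count_of_ne_one hM hu hx1 h2

end Final

end Cfsg.Agent.Lib.FF
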