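import Cfsg.Agent.Lib.FF.KleinCount

/-!
# The order formula for groups of order `4 g₀`
-/

set_option autoImplicit false
set_option linter.unusedSectionVars false
set_option linter.unusedSimpArgs false
set_option linter.unusedVariables false

open scoped ComplexConjugate
open Cfsg MonoidAlgebra Cfsg.Agent.Lib.Char Cfsg.Agent.Lib.Block

namespace Cfsg.Agent.Lib.FF

section Main

variable {G : Type*} [Group G] [Fintype G]

/-- The core of the order formula, as an identity in the integers. -/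
theorem klein_formula_core (M : Ideal AlgInt) (hM : IsPModular 2 M) (P : Sylow 2 G) (hP : IsKleinFour (P : Subgroup G))
    (hone : ∀ s t : G, orderOf s = 2 → orderOf t = 2 → IsConj s t) (J : G) (hJ : J ∈ (P : Subgroup G))
    (hJ2 : orderOf J = 2) (χ₁ χ₂ χ₃ : IrrCharacter G) (ε₁ ε₂ ε₃ : ℤ)
    (hB : principalBlock M G = {χ : IrrCharacter G | (χ : G → ℂ) = (fun _ => 1) ∨ χ = χ₁ ∨ χ = χ₂ ∨ χ = χ₃})
    (hdist : (χ₁ : G → ℂ) ≠ (fun _ => 1) ∧ (χ₂ : G → ℂ) ≠ (fun _ => 1) ∧ (χ₃ : G → ℂ) ≠ (fun _ => 1) ∧ χ₁ ≠ χ₂ ∧ χ₁ ≠ χ₃ ∧ χ₂ ≠ χ₃)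
    (hε : (ε₁ = 1 ∨ ε₁ = -1) ∧ (ε₂ = 1 ∨ ε₂ = -1) ∧ (ε₃ = 1 ∨ ε₃ = -1))
    (hval : (χ₁ : G → ℂ) J = ε₁ ∧ (χ₂ : G → ℂ) J = ε₂ ∧ (χ₃ : G → ℂ) J = ε₃) :
    ∃ a h : ℕ, a * Nat.card (Subgroup.centralizer ({J} : Set G)) = Nat.card G ∧
      h * Nat.card (Subgroup.centralizer ((P : Subgroup G) : Set G)) = Nat.card (Subgroup.centralizer ({J} : Set G)) ∧
      (a : ℤ) * ((charDegree (χ₁ : G → ℂ) : ℤ) * charDegree (χ₂ : G → ℂ) * charDegree (χ₃ : G → ℂ) +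
        ε₁ * charDegree (χ₂ : G → ℂ) * charDegree (χ₃ : G → ℂ) +
        ε₂ * charDegree (χ₁ : G → ℂ) * charDegree (χ₃ : G → ℂ) +
        ε₃ * charDegree (χ₁ : G → ℂ) * charDegree (χ₂ : G → ℂ)) =
        8 * (h : ℤ) ^ 2 * ((charDegree (χ₁ : G → ℂ) : ℤ) * charDegree (χ₂ : G → ℂ) * charDegree (χ₃ : G → ℂ)) ∧
      1 + ε₁ * (charDegree (χ₁ : G → ℂ) : ℤ) + ε₂ * (charDegree (χ₂ : G → ℂ) : ℤ) + ε₃ * (charDegree (χ₃ : G → ℂ) : ℤ) = 0 := by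
  classical
  have := isPModular_isPrime hM
  have hcard : Nat.card (P : Subgroup G) = 4 := IsKleinFour.card_four
  have hsq : ∀ x ∈ (P : Subgroup G), x * x = 1 := by
    intro x hx
    have h1 := Monoid.pow_exponent_eq_one (⟨x, hx⟩ : (P : Subgroup G))
    rw [IsKleinFour.exponent_two, pow_two] at h1
    exact congrArg Subtype.val h1
  have hcomm : ∀ a ∈ (P : Subgroup G), ∀ b ∈ (P : Subgroup G), a * b = b * a := by
    intro a ha b hb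
    have h1 := hsq a ha
    have h2 := hsq b hb
    have h3 := hsq _ ((P : Subgroup G).mul_mem ha hb)
    have ha' : a⁻¹ = a := inv_eq_of_mul_eq_one_left h1
    have hb' : b⁻¹ = b := inv_eq_of_mul_eq_one_left h2
    have h4 : (a * b)⁻¹ = a * b := inv_eq_of_mul_eq_one_left h3
    rw [mul_inv_rev, ha', hb'] at h4
    exact h4.symm
  obtain ⟨h10, h20, h30, h12, h13, h23⟩ := hdist
  obtain ⟨he1, he2, he3⟩ := hε
  obtain ⟨hv1, hv2, hv3⟩ := hval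
  set o := oneIrr G with ho
  have hoc : ((o : IrrCharacter G) : G → ℂ) = fun _ => 1 := oneIrr_coe
  have ho1 : o ≠ χ₁ := fun h => h10 (by rw [← h, hoc])
  have ho2 : o ≠ χ₂ := fun h => h20 (by rw [← h, hoc])
  have ho3 : o ≠ χ₃ := fun h => h30 (by rw [← h, hoc])
  have hBset : principalBlock M G = ((({o, χ₁, χ₂, χ₃} : Finset (IrrCharacter G))) : Set (IrrCharacter G)) := by
    rw [hB]
    ext χ
    simp only [Set.mem_setOf_eq, Finset.coe_insert, Finset.coe_singleton, Set.mem_insert_iff, Set.mem_singleton_iff]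
    constructor
    · rintro (h | h)
      · left
        exact Subtype.ext (by rw [h, hoc])
      · exact Or.inr h
    · rintro (h | h)
      · left
        rw [h, hoc]
      · exact Or.inr h
  have hmemB : ∀ χ, χ ∈ principalBlock M G ↔ χ = o ∨ χ = χ₁ ∨ χ = χ₂ ∨ χ = χ₃ := by
    intro χ
    rw [hBset]
    simp
  have hsing : ∀ ζ ∈ principalBlock M G, ∀ y : G, 2 ∣ orderOf y → (ζ : G → ℂ) y = (ζ : G → ℂ) J :=
    fun ζ hζ y hy => principal_const_singular_klein hM P hP hone hJ2 hζ hy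
  have hJ1 : J ≠ 1 := by
    rintro rfl
    simp at hJ2
  have hJinv : J⁻¹ = J := inv_eq_of_mul_eq_one_left (hsq J hJ)
  have hnc1 : ¬ IsConj (1 : G) J := by
    intro h
    obtain ⟨c, hc⟩ := isConj_iff.1 h
    simp only [mul_one, mul_inv_cancel] at hc
    exact hJ1 hc.symm
  have hBu : IsBlockUnion M (principalBlock M G) := isBlockUnion_of_isPBlock (isPBlock_blockOf (oneIrr G))
  have hreg : ∀ g : G, ¬ 2 ∣ orderOf g →
      1 + (ε₁ : ℂ) * (χ₁ : G → ℂ) g + (ε₂ : ℂ) * (χ₂ : G → ℂ) g + (ε₃ : ℂ) * (χ₃ : G → ℂ) g = 0 := by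
    intro g hg
    have h := block_orthogonality hM (g := g) (h := J) (x := 1) (y := J)
      ⟨g, one_mul g, Commute.one_left g, ⟨0, by simp⟩, hg⟩
      ⟨1, mul_one _, Commute.one_right _, ⟨1, by simpa using hJ2⟩, by simp⟩ hnc1 hBu
    rw [hBset, finsum_mem_coe_finset, Finset.sum_insert (by simp [ho1, ho2, ho3]),
      Finset.sum_insert (by simp [h12, h13]), Finset.sum_insert (by simp [h23]), Finset.sum_singleton, hJinv, hv1, hv2, hv3,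
      show (o : G → ℂ) g = 1 from congrFun hoc g, show (o : G → ℂ) J = 1 from congrFun hoc J] at h
    linear_combination h
  have hsq1 : ((ε₁ : ℤ) : ℂ) * ε₁ = 1 := by rcases he1 with rfl | rfl <;> simp
  have hsq2 : ((ε₂ : ℤ) : ℂ) * ε₂ = 1 := by rcases he2 with rfl | rfl <;> simp
  have hsq3 : ((ε₃ : ℤ) : ℂ) * ε₃ = 1 := by rcases he3 with rfl | rfl <;> simp
  have hΦ : ∀ g : G, 1 + (ε₁ : ℂ) * (χ₁ : G → ℂ) g + (ε₂ : ℂ) * (χ₂ : G → ℂ) g + (ε₃ : ℂ) * (χ₃ : G → ℂ) g =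
      if 2 ∣ orderOf g then 4 else 0 := by
    intro g
    by_cases hg : 2 ∣ orderOf g
    · rw [if_pos hg, hsing χ₁ ((hmemB _).2 (by simp)) g hg, hsing χ₂ ((hmemB _).2 (by simp)) g hg,
        hsing χ₃ ((hmemB _).2 (by simp)) g hg, hv1, hv2, hv3, hsq1, hsq2, hsq3]
      norm_num
    · rw [if_neg hg]
      exact hreg g hg
  -- the double sum
  set K := Finset.univ.filter (fun u => IsConj J u) with hK
  set a := (Subgroup.centralizer ({J} : Set G)).index with ha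
  have hKcard : K.card = a := card_filter_isConj J
  have hdeg : ∀ χ : IrrCharacter G, (χ : G → ℂ) 1 = (charDegree (χ : G → ℂ) : ℂ) :=
    fun χ => (charDegree_cast (IsIrrCharacter.isCharacter χ.2)).symm
  have hdne : ∀ χ : IrrCharacter G, (charDegree (χ : G → ℂ) : ℂ) ≠ 0 := fun χ => by
    exact_mod_cast (charDegree_pos_of_irr χ.2).ne'
  have hs1 := sum_class_mul_irr χ₁ J
  have hs2 := sum_class_mul_irr χ₂ J
  have hs3 := sum_class_mul_irr χ₃ J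
  rw [← hK, ← ha, hv1, hdeg] at hs1
  rw [← hK, ← ha, hv2, hdeg] at hs2
  rw [← hK, ← ha, hv3, hdeg] at hs3
  have hsum : ∑ u ∈ K, ∑ v ∈ K, (1 + (ε₁ : ℂ) * (χ₁ : G → ℂ) (u * v) + (ε₂ : ℂ) * (χ₂ : G → ℂ) (u * v) +
      (ε₃ : ℂ) * (χ₃ : G → ℂ) (u * v)) =
      (a : ℂ) ^ 2 + (ε₁ : ℂ) * ((a : ℂ) ^ 2 * (ε₁ : ℂ) ^ 2 / (charDegree (χ₁ : G → ℂ) : ℂ)) +
        (ε₂ : ℂ) * ((a : ℂ) ^ 2 * (ε₂ : ℂ) ^ 2 / (charDegree (χ₂ : G → ℂ) : ℂ)) +
        (ε₃ : ℂ) * ((a : ℂ) ^ 2 * (ε₃ : ℂ) ^ 2 / (charDegree (χ₃ : G → ℂ) : ℂ)) := by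
    rw [← hs1, ← hs2, ← hs3]
    simp only [Finset.sum_add_distrib, Finset.mul_sum, Finset.sum_const, nsmul_eq_mul, mul_one, hKcard]
    ring
  have hsum2 : ∑ u ∈ K, ∑ v ∈ K, (1 + (ε₁ : ℂ) * (χ₁ : G → ℂ) (u * v) + (ε₂ : ℂ) * (χ₂ : G → ℂ) (u * v) +
      (ε₃ : ℂ) * (χ₃ : G → ℂ) (u * v)) =
      4 * (((K ×ˢ K).filter (fun x : G × G => 2 ∣ orderOf (x.1 * x.2))).card : ℂ) := by
    simp only [hΦ]
    rw [← Finset.sum_product', Finset.sum_ite]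
    simp only [Finset.sum_const_zero, add_zero, Finset.sum_const, nsmul_eq_mul]
    ring
  obtain ⟨h, hh1, hh2⟩ := klein_fiber_count P hcard hsq hcomm hone hJ hJ2
  rw [← hK, ] at hh2
  have htot := klein_total_count P hsq hone hJ2
  rw [← hK, hh2, hKcard] at htot
  rw [htot] at hsum2
  have hapos : (a : ℂ) ≠ 0 := by
    have : 0 < a := Cfsg.Agent.Lib.Char.centralizer_index_pos J
    exact_mod_cast this.ne'
  have hmain : (a : ℂ) * (1 + (ε₁ : ℂ) / (charDegree (χ₁ : G → ℂ) : ℂ) + (ε₂ : ℂ) / (charDegree (χ₂ : G → ℂ) : ℂ) +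
      (ε₃ : ℂ) / (charDegree (χ₃ : G → ℂ) : ℂ)) = 8 * (h : ℂ) ^ 2 := by
    apply mul_left_cancel₀ hapos
    have h5 := hsum.symm.trans hsum2
    push_cast at h5
    have e1 : (ε₁ : ℂ) * ((a : ℂ) ^ 2 * (ε₁ : ℂ) ^ 2 / (charDegree (χ₁ : G → ℂ) : ℂ)) =
        (a : ℂ) ^ 2 * ((ε₁ : ℂ) / (charDegree (χ₁ : G → ℂ) : ℂ)) := by
      rw [pow_two (ε₁ : ℂ), hsq1]
      ring
    have e2 : (ε₂ : ℂ) * ((a : ℂ) ^ 2 * (ε₂ : ℂ) ^ 2 / (charDegree (χ₂ : G → ℂ) : ℂ)) =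
        (a : ℂ) ^ 2 * ((ε₂ : ℂ) / (charDegree (χ₂ : G → ℂ) : ℂ)) := by
      rw [pow_two (ε₂ : ℂ), hsq2]
      ring
    have e3 : (ε₃ : ℂ) * ((a : ℂ) ^ 2 * (ε₃ : ℂ) ^ 2 / (charDegree (χ₃ : G → ℂ) : ℂ)) =
        (a : ℂ) ^ 2 * ((ε₃ : ℂ) / (charDegree (χ₃ : G → ℂ) : ℂ)) := by
      rw [pow_two (ε₃ : ℂ), hsq3]
      ring
    rw [e1, e2, e3] at h5
    linear_combination h5
  refine ⟨a, h, Subgroup.index_mul_card _, hh1, ?_, ?_⟩
  · have h6 : ((a : ℂ)) * (((charDegree (χ₁ : G → ℂ) : ℂ)) * charDegree (χ₂ : G → ℂ) * charDegree (χ₃ : G → ℂ) +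
        ε₁ * charDegree (χ₂ : G → ℂ) * charDegree (χ₃ : G → ℂ) +
        ε₂ * charDegree (χ₁ : G → ℂ) * charDegree (χ₃ : G → ℂ) +
        ε₃ * charDegree (χ₁ : G → ℂ) * charDegree (χ₂ : G → ℂ)) =
        8 * ((h : ℂ)) ^ 2 * (((charDegree (χ₁ : G → ℂ) : ℂ)) * charDegree (χ₂ : G → ℂ) * charDegree (χ₃ : G → ℂ)) := by
      rw [← hmain]
      have h1 := hdne χ₁
      have h2 := hdne χ₂
      have h3 := hdne χ₃
      field_simp
    exact_mod_cast h6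
  · have h7 := hreg 1 (by simp)
    rw [hdeg, hdeg, hdeg] at h7
    exact_mod_cast h7

end Main

end Cfsg.Agent.Lib.FF
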