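import Cfsg.Agent.Lib.FF.CharP
import Cfsg.Agent.Lib.FF.SylowIn
import Cfsg.Agent.Lib.PGroup.Basic
import Cfsg.Agent.Lib.Core.Factor
import Mathlib

/-!
# Maximal subgroups with a normal subgroup of prime index.  Owner: helper18.
-/

set_option autoImplicit false

namespace Cfsg.Agent.Lib.FF

open Subgroup

variable {G : Type*} [Group G] [Finite G]

/-- Transfer to `M → A` when `φ` vanishes on every element of `M` conjugated into `M` by an element
outside `M`. -/
theorem transfer_eq_of_control {A : Type*} [CommGroup A] {M : Subgroup G} (φ : M →* A)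
    (hT : ∀ (g : G) (z : M), g ∉ M → g⁻¹ * z * g ∈ M → φ z = 1) (x : M) :
    φ.transfer (x : G) = φ x := by
  classical
  haveI : Fintype (Quotient (MulAction.orbitRel (zpowers (x : G)) (G ⧸ M))) := Fintype.ofFinite _
  rw [MonoidHom.transfer_eq_prod_quotient_orbitRel_zpowers_quot]
  set q₀ : Quotient (MulAction.orbitRel (zpowers (x : G)) (G ⧸ M)) :=
    Quotient.mk'' (QuotientGroup.mk 1 : G ⧸ M) with hq₀
  have hfix : ∀ z ∈ zpowers (x : G), z • (QuotientGroup.mk 1 : G ⧸ M) = QuotientGroup.mk 1 := by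
    intro z hz
    have hzM : z ∈ M := (Subgroup.zpowers_le.mpr x.2) hz
    rw [MulAction.Quotient.smul_mk, QuotientGroup.eq]
    simpa using M.inv_mem hzM
  rw [Finset.prod_eq_single q₀]
  · -- the fixed coset
    have h1 : q₀.out = (QuotientGroup.mk 1 : G ⧸ M) := by
      have h2 : (MulAction.orbitRel (zpowers (x : G)) (G ⧸ M)).r q₀.out (QuotientGroup.mk 1 : G ⧸ M) :=
        Quotient.mk_out (s := MulAction.orbitRel (zpowers (x : G)) (G ⧸ M)) (QuotientGroup.mk 1 : G ⧸ M)
      obtain ⟨z, hz⟩ := MulAction.orbitRel_apply.mp h2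
      rw [← hz]
      exact hfix z.1 z.2
    have h3 : Function.minimalPeriod ((x : G) • ·) q₀.out = 1 := by
      rw [Function.minimalPeriod_eq_one_iff_isFixedPt, h1]
      exact hfix _ (Subgroup.mem_zpowers _)
    have hr : q₀.out.out ∈ M := by
      have h4 : (QuotientGroup.mk q₀.out.out : G ⧸ M) = QuotientGroup.mk 1 := by
        rw [QuotientGroup.out_eq', h1]
      rw [QuotientGroup.eq] at h4
      simpa using M.inv_mem h4
    have key : ∀ (n : ℕ) (hn : q₀.out.out⁻¹ * (x : G) ^ n * q₀.out.out ∈ M), n = 1 →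
        φ ⟨q₀.out.out⁻¹ * (x : G) ^ n * q₀.out.out, hn⟩ = φ x := by
      rintro n hn rfl
      have e : (⟨q₀.out.out⁻¹ * (x : G) ^ 1 * q₀.out.out, hn⟩ : M) =
          (⟨q₀.out.out, hr⟩ : M)⁻¹ * x * ⟨q₀.out.out, hr⟩ := by
        apply Subtype.ext
        simp
      rw [e, map_mul, map_mul, map_inv, mul_comm (φ _)⁻¹, mul_assoc, inv_mul_cancel, mul_one]
    exact key _ _ h3
  · intro q _ hq
    have hr : q.out.out ∉ M := by
      intro h
      apply hq
      have h5 : (QuotientGroup.mk q.out.out : G ⧸ M) = QuotientGroup.mk 1 := by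
        rw [QuotientGroup.eq]
        simpa using M.inv_mem h
      rw [QuotientGroup.out_eq'] at h5
      rw [hq₀, ← h5]
      exact (Quotient.out_eq' q).symm
    have hmem := QuotientGroup.out_conj_pow_minimalPeriod_mem M (x : G) q.out
    refine hT q.out.out⁻¹ _ (fun h => hr (by simpa using M.inv_mem h)) ?_
    have e : (q.out.out⁻¹)⁻¹ * (q.out.out⁻¹ * (x : G) ^ Function.minimalPeriod ((x : G) • ·) q.out * q.out.out) * q.out.out⁻¹ =
        (x : G) ^ Function.minimalPeriod ((x : G) • ·) q.out := by group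
    show (q.out.out⁻¹)⁻¹ * (q.out.out⁻¹ * (x : G) ^ Function.minimalPeriod ((x : G) • ·) q.out * q.out.out) * q.out.out⁻¹ ∈ M
    rw [e]
    exact M.pow_mem x.2 _
  · intro h
    exact absurd (Finset.mem_univ _) h

/-- **Transfer lemma.** If `H ≤ M`, `M/H` is abelian, and `z ∈ M`, `g⁻¹ z g ∈ M`, `g ∉ M` imply `z ∈ H`,
then `H` is the trace on `M` of a normal subgroup of `G` containing `G'`. -/
theorem exists_normal_of_control (H M : Subgroup G) (hHM : H ≤ M)
    (hcomm : ∀ a ∈ M, ∀ b ∈ M, a * b * a⁻¹ * b⁻¹ ∈ H)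
    (hT : ∀ g, g ∉ M → ∀ z ∈ M, g⁻¹ * z * g ∈ M → z ∈ H) :
    ∃ N : Subgroup G, N.Normal ∧ N ⊓ M = H ∧ commutator G ≤ N := by
  classical
  set H' := H.subgroupOf M with hH'
  haveI hH'n : H'.Normal := by
    constructor
    intro a ha b
    rw [hH', Subgroup.mem_subgroupOf] at ha ⊢
    have h1 := hcomm b b.2 a a.2
    have e : ((b * a * b⁻¹ : M) : G) = ((b : G) * a * (b : G)⁻¹ * (a : G)⁻¹) * a := by
      simp
    rw [e]
    exact H.mul_mem h1 ha
  letI instQ : CommGroup (↥M ⧸ H') :=
    { (QuotientGroup.Quotient.group H') with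
      mul_comm := by
        intro u v
        induction u using QuotientGroup.induction_on with
        | H a =>
          induction v using QuotientGroup.induction_on with
          | H b =>
            show ((a * b : M) : ↥M ⧸ H') = ((b * a : M) : ↥M ⧸ H')
            rw [QuotientGroup.eq, hH', Subgroup.mem_subgroupOf]
            have h1 := hcomm b⁻¹ (M.inv_mem b.2) a⁻¹ (M.inv_mem a.2)
            have e : (((a * b : M)⁻¹ * (b * a) : M) : G) =
                (b : G)⁻¹ * (a : G)⁻¹ * ((b : G)⁻¹)⁻¹ * ((a : G)⁻¹)⁻¹ := by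
              simp
              group
            rw [e]
            exact h1 }
  let φ : ↥M →* (↥M ⧸ H') := QuotientGroup.mk' H'
  have hφ : ∀ z : M, φ z = 1 ↔ (z : G) ∈ H := by
    intro z
    have : φ z = ((z : M) : ↥M ⧸ H') := rfl
    rw [this, QuotientGroup.eq_one_iff, hH', Subgroup.mem_subgroupOf]
  have hV : ∀ x : M, φ.transfer (x : G) = φ x := transfer_eq_of_control φ (by
    intro g z hg hz
    exact (hφ z).mpr (hT g hg z z.2 hz))
  refine ⟨φ.transfer.ker, inferInstance, ?_, ?_⟩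
  · ext x
    constructor
    · rintro ⟨h1, h2⟩
      have h3 : φ.transfer x = 1 := h1
      have h4 := hV ⟨x, h2⟩
      rw [show ((⟨x, h2⟩ : M) : G) = x from rfl, h3] at h4
      exact (hφ ⟨x, h2⟩).mp h4.symm
    · intro hx
      refine ⟨?_, hHM hx⟩
      show φ.transfer x = 1
      have h4 := hV ⟨x, hHM hx⟩
      rw [show ((⟨x, hHM hx⟩ : M) : G) = x from rfl] at h4
      rw [h4]
      exact (hφ ⟨x, hHM hx⟩).mpr hx
  · exact Abelianization.commutator_subset_ker _

/-- A normal subgroup `H` maximal in `M` has `M/H` abelian. -/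
theorem comm_mem_of_coatom {H M : Subgroup G} (hHM : H ≤ M) (hmax : IsCoatom (H.subgroupOf M))
    (hn : ∀ m ∈ M, ∀ h ∈ H, m * h * m⁻¹ ∈ H) :
    ∀ a ∈ M, ∀ b ∈ M, a * b * a⁻¹ * b⁻¹ ∈ H := by
  classical
  intro a ha b hb
  by_cases haH : a ∈ H
  · have e : a * b * a⁻¹ * b⁻¹ = a * (b * a⁻¹ * b⁻¹) := by group
    rw [e]
    exact H.mul_mem haH (hn b hb _ (H.inv_mem haH))
  · set H' := H.subgroupOf M with hH'
    haveI hH'n : H'.Normal := by
      constructor
      intro u hu v
      rw [hH', Subgroup.mem_subgroupOf] at hu ⊢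
      exact hn v v.2 u hu
    have hlt : H' < H' ⊔ zpowers (⟨a, ha⟩ : M) := by
      refine lt_of_le_of_ne le_sup_left ?_
      intro h
      have h1 : (⟨a, ha⟩ : M) ∈ H' ⊔ zpowers (⟨a, ha⟩ : M) :=
        Subgroup.mem_sup_right (Subgroup.mem_zpowers _)
      rw [← h, hH', Subgroup.mem_subgroupOf] at h1
      exact haH h1
    have htop := hmax.2 _ hlt
    have hbm : (⟨b, hb⟩ : M) ∈ H' ⊔ zpowers (⟨a, ha⟩ : M) := by rw [htop]; trivial
    obtain ⟨n, hnm, z, hz, e⟩ := Cfsg.Agent.Lib.Core.exists_mul_of_mem_sup_normal_left hbm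
    obtain ⟨k, rfl⟩ := Subgroup.mem_zpowers_iff.mp hz
    have hnH : (n : G) ∈ H := by
      rw [hH', Subgroup.mem_subgroupOf] at hnm
      exact hnm
    have hb' : b = (n : G) * a ^ k := by
      have := congrArg Subtype.val e
      simpa using this
    rw [hb']
    have e2 : a * ((n : G) * a ^ k) * a⁻¹ * ((n : G) * a ^ k)⁻¹ = (a * (n : G) * a⁻¹) * (n : G)⁻¹ := by
      have h3 : a ^ k * a⁻¹ = a⁻¹ * a ^ k := ((Commute.refl a).zpow_left k).inv_right.eq
      calc a * ((n : G) * a ^ k) * a⁻¹ * ((n : G) * a ^ k)⁻¹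
          = a * (n : G) * (a ^ k * a⁻¹) * (a ^ k)⁻¹ * (n : G)⁻¹ := by group
        _ = a * (n : G) * (a⁻¹ * a ^ k) * (a ^ k)⁻¹ * (n : G)⁻¹ := by rw [h3]
        _ = _ := by group
    rw [e2]
    exact H.mul_mem (hn a ha _ hnH) (H.inv_mem hnH)

/-- Arrow lemma: with `M` maximal and core-free, `H ⊴ M` of prime index, no conjugate of `H` different
from `H` lies in `M`. -/
theorem arrow_false {H M : Subgroup G} {t : G} (hM : IsCoatom M) (hHM : H ≤ M)
    (hHn : ∀ m ∈ M, ∀ h ∈ H, m * h * m⁻¹ ∈ H) {p : ℕ} [hp : Fact p.Prime] (hidx : H.relIndex M = p)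
    (hcore : ∀ R : Subgroup G, R.Normal → R ≤ M → R = ⊥) (htM : t ∉ M)
    (hNM : normalizer (M : Set G) = M) (hle : H.map (MulAut.conj t).toMonoidHom ≤ M)
    (hne : H.map (MulAut.conj t).toMonoidHom ≠ H) : False := by
  classical
  have hp' : p.Prime := hp.out
  set H' := H.subgroupOf M with hH'
  have hH'idx : H'.index = p := hidx
  haveI hH'n : H'.Normal := by
    constructor
    intro u hu v
    rw [hH', Subgroup.mem_subgroupOf] at hu ⊢
    exact hHn v v.2 u hu
  -- `p'`-elements of `M` lie in `H`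
  have hyH : ∀ u ∈ M, (orderOf u).Coprime p → u ∈ H := by
    intro u hu hc
    have h1 := Subgroup.pow_index_mem H' (⟨u, hu⟩ : M)
    rw [hH'idx] at h1
    have h2 : ((⟨u, hu⟩ : M) : ↥M ⧸ H') ^ (p ^ 1) = 1 := by
      rw [pow_one, ← QuotientGroup.mk_pow, QuotientGroup.eq_one_iff]
      exact h1
    have h3 : ((⟨u, hu⟩ : M) : ↥M ⧸ H') ^ orderOf u = 1 := by
      rw [← QuotientGroup.mk_pow]
      have : (⟨u, hu⟩ : M) ^ orderOf u = 1 := by
        apply Subtype.ext
        simpa using pow_orderOf_eq_one u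
      rw [this]
      rfl
    have h4 := eq_one_of_pow_eq_one_of_coprime h3 hc h2
    rw [QuotientGroup.eq_one_iff, hH', Subgroup.mem_subgroupOf] at h4
    exact h4
  -- `M` is a `p`-group
  have hMp : IsPGroup p M := by
    apply isPGroup_of_coprime_eq_one
    intro y hyM hyc
    let W₀ : Submonoid G :=
      { carrier := {s | ∀ g : G, g⁻¹ * y * g ∈ M → (g * s)⁻¹ * y * (g * s) ∈ M}
        one_mem' := by
          intro g hg
          simpa using hg
        mul_mem' := by
          intro a b ha hb g hg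
          have h1 := hb _ (ha g hg)
          have e : g * (a * b) = g * a * b := by group
          show (g * (a * b))⁻¹ * y * (g * (a * b)) ∈ M
          rw [e]
          exact h1 }
    let W : Subgroup G :=
      { W₀ with
        inv_mem' := by
          intro s hs
          have hs' : s ∈ W₀ := hs
          have h1 : s⁻¹ = s ^ (orderOf s - 1) := by
            apply inv_eq_of_mul_eq_one_right
            rw [← pow_succ', Nat.sub_add_cancel (orderOf_pos s), pow_orderOf_eq_one]
          show s⁻¹ ∈ W₀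
          rw [h1]
          exact W₀.pow_mem hs' _ }
    have hMW : M ≤ W := by
      intro m hm g hg
      have e : (g * m)⁻¹ * y * (g * m) = m⁻¹ * (g⁻¹ * y * g) * m⁻¹⁻¹ := by group
      rw [e]
      exact M.mul_mem (M.mul_mem (M.inv_mem hm) hg) (M.inv_mem (M.inv_mem hm))
    have htW : t⁻¹ ∈ W := by
      intro g hg
      have hord : orderOf (g⁻¹ * y * g) = orderOf y := by
        have e : g⁻¹ * y * g = (MulAut.conj g⁻¹) y := by simp
        rw [e, MulEquiv.orderOf_eq]
      have hu := hyH _ hg (by rw [hord]; exact hyc)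
      have e : (g * t⁻¹)⁻¹ * y * (g * t⁻¹) = t * (g⁻¹ * y * g) * t⁻¹ := by group
      rw [e]
      apply hle
      exact ⟨_, hu, rfl⟩
    have hWtop : W = ⊤ := by
      apply hM.2
      refine lt_of_le_of_ne hMW ?_
      intro h
      have : t⁻¹ ∈ M := by rw [h]; exact htW
      exact htM (by simpa using M.inv_mem this)
    have hall : ∀ s : G, s⁻¹ * y * s ∈ M := by
      intro s
      have hs : s ∈ W := by rw [hWtop]; trivial
      have := hs 1 (by simpa using hyM)
      simpa using this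
    have hcoreY : y ∈ M.normalCore := by
      intro g
      have := hall g⁻¹
      simpa using this
    have h0 := hcore M.normalCore inferInstance (Subgroup.normalCore_le M)
    rw [h0] at hcoreY
    exact hcoreY
  set H₁ := H.map (MulAut.conj t).toMonoidHom with hH₁
  have hcardH₁ : Nat.card H₁ = Nat.card H := Subgroup.card_map_of_injective (MulEquiv.injective _)
  -- `H₁` has index `p` in `M`
  have hH₁idx : (H₁.subgroupOf M).index = p := by
    have h1 := (H₁.subgroupOf M).card_mul_index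
    have h2 := H'.card_mul_index
    have e1 : Nat.card (H₁.subgroupOf M) = Nat.card H₁ := Nat.card_congr (Subgroup.subgroupOfEquivOfLe hle).toEquiv
    have e2 : Nat.card H' = Nat.card H := Nat.card_congr (Subgroup.subgroupOfEquivOfLe hHM).toEquiv
    rw [e1, hcardH₁] at h1
    rw [e2, hH'idx] at h2
    exact Nat.eq_of_mul_eq_mul_left Nat.card_pos (h1.trans h2.symm)
  haveI hH₁M : (H₁.subgroupOf M).Normal :=
    Cfsg.Agent.Lib.PGroup.normal_of_index_eq_prime hMp hH₁idx
  have hMN : M ≤ normalizer (H₁ : Set G) := by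
    intro m hm
    rw [Subgroup.mem_normalizer_iff]
    intro h
    constructor
    · intro hh
      have h1 : (⟨h, hle hh⟩ : M) ∈ H₁.subgroupOf M := by
        rw [Subgroup.mem_subgroupOf]; exact hh
      have h2 := hH₁M.conj_mem _ h1 ⟨m, hm⟩
      rw [Subgroup.mem_subgroupOf] at h2
      exact h2
    · intro hh
      have h1 : (⟨m * h * m⁻¹, hle hh⟩ : M) ∈ H₁.subgroupOf M := by
        rw [Subgroup.mem_subgroupOf]; exact hh
      have h2 := hH₁M.conj_mem _ h1 ⟨m⁻¹, M.inv_mem hm⟩
      rw [Subgroup.mem_subgroupOf] at h2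
      have e : m⁻¹ * (m * h * m⁻¹) * m⁻¹⁻¹ = h := by group
      have h3 : m⁻¹ * (m * h * m⁻¹) * m⁻¹⁻¹ ∈ H₁ := h2
      rwa [e] at h3
  have hconjN : ∀ m ∈ M, t * m * t⁻¹ ∈ normalizer (H₁ : Set G) := by
    intro m hm
    have hmem : ∀ x, x ∈ H₁ ↔ t⁻¹ * x * t ∈ H := by
      intro x
      rw [hH₁, mem_conj_iff]
    rw [Subgroup.mem_normalizer_iff]
    intro h
    rw [hmem, hmem]
    have e : t⁻¹ * (t * m * t⁻¹ * h * (t * m * t⁻¹)⁻¹) * t = m * (t⁻¹ * h * t) * m⁻¹ := by group
    rw [e]
    constructor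
    · intro hh
      exact hHn m hm _ hh
    · intro hh
      have := hHn m⁻¹ (M.inv_mem hm) _ hh
      have e2 : m⁻¹ * (m * (t⁻¹ * h * t) * m⁻¹) * m⁻¹⁻¹ = t⁻¹ * h * t := by group
      rwa [e2] at this
  have hNH₁ : normalizer (H₁ : Set G) = ⊤ := by
    apply hM.2
    refine lt_of_le_of_ne hMN ?_
    intro h
    -- `t M t⁻¹ ≤ M` so `t` normalizes `M`
    have hle2 : M.map (MulAut.conj t).toMonoidHom ≤ M := by
      rintro _ ⟨m, hm, rfl⟩
      rw [h]
      exact hconjN m hm
    have heq := Subgroup.eq_of_le_of_card_ge hle2 (by rw [card_conj])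
    have : t ∈ normalizer (M : Set G) := mem_normalizer_iff_conj.mpr heq
    rw [hNM] at this
    exact htM this
  have hH₁n : H₁.Normal := Subgroup.normalizer_eq_top_iff.mp hNH₁
  have hbot := hcore H₁ hH₁n hle
  apply hne
  rw [hbot]
  have : H = ⊥ := by
    have h5 : H₁ = ⊥ := hbot
    rw [hH₁] at h5
    exact (Subgroup.map_eq_bot_iff_of_injective _ (MulEquiv.injective _)).mp h5
  exact this.symm

end Cfsg.Agent.Lib.FF
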